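import Mathlib

set_option autoImplicit false

namespace H44.AltEmbed

/-- Every finite group embeds in all large alternating groups. -/
theorem exists_hom_alternating (H : Type*) [Group H] [Finite H] :
    ∃ N : ℕ, ∀ n : ℕ, N ≤ n → ∃ φ : H →* alternatingGroup (Fin n), Function.Injective φ := by
  classical
  have := Fintype.ofFinite H
  refine ⟨2 * Fintype.card H, fun n hn => ?_⟩
  obtain ⟨e⟩ : Nonempty ((H ⊕ H) ⊕ Fin (n - 2 * Fintype.card H) ≃ Fin n) := by
    refine ⟨Fintype.equivOfCardEq ?_⟩
    simp only [Fintype.card_sum, Fintype.card_fin]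
    omega
  let ψ : H →* Equiv.Perm ((H ⊕ H) ⊕ Fin (n - 2 * Fintype.card H)) :=
    (Equiv.Perm.sumCongrHom _ _).comp
      (MonoidHom.prod ((Equiv.Perm.sumCongrHom _ _).comp
        (MonoidHom.prod (MulAction.toPermHom H H) (MulAction.toPermHom H H))) 1)
  have hsign : ∀ h : H, Equiv.Perm.sign (ψ h) = 1 := by
    intro h
    simp only [ψ, MonoidHom.comp_apply, MonoidHom.prod_apply, Equiv.Perm.sumCongrHom_apply,
      Equiv.Perm.sign_sumCongr, MonoidHom.one_apply, map_one, mul_one]
    exact Int.units_mul_self _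
  let θ : H →* Equiv.Perm (Fin n) := (e.permCongrHom.toMonoidHom).comp ψ
  have hθ : ∀ h : H, θ h ∈ alternatingGroup (Fin n) := by
    intro h
    rw [Equiv.Perm.mem_alternatingGroup]
    have : Equiv.Perm.sign (θ h) = Equiv.Perm.sign (ψ h) := by
      change Equiv.Perm.sign (e.permCongr (ψ h)) = _
      exact Equiv.Perm.sign_permCongr e (ψ h)
    rw [this, hsign]
  refine ⟨θ.codRestrict _ hθ, ?_⟩
  rw [injective_iff_map_eq_one]
  intro h hh
  have h1 : θ h = 1 := congrArg Subtype.val hh
  have h2 : ψ h = 1 := by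
    have : e.permCongrHom (ψ h) = e.permCongrHom 1 := by rw [map_one]; exact h1
    exact e.permCongrHom.injective this
  have h3 := congrArg (fun σ => σ (Sum.inl (Sum.inl (1 : H)))) h2
  simpa [ψ] using h3

end H44.AltEmbed
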