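import Mathlib

set_option autoImplicit false
set_option linter.all false

namespace H44.BZ

open Subgroup

section core

variable {G : Type*} [Group G] [Finite G]

/-- conjugation action on a set -/
theorem orbit_all {E Q W : Subgroup G} (hQE : Q ≤ E) (hQW : ∀ q ∈ Q, ∀ w ∈ W, q * w = w * q)
    (hEW : E ≤ normalizer (W : Set G))
    (hfix : ∀ e ∈ E, ∀ w ∈ W, w ≠ 1 → e * w * e⁻¹ = w → e ∈ Q)
    (hidx : Q.relIndex E = Nat.card W - 1) {w v : G} (hw : w ∈ W) (hw1 : w ≠ 1) (hv : v ∈ W) (hv1 : v ≠ 1) :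
    ∃ e ∈ E, e * w * e⁻¹ = v := by
  classical
  let Z := {x : G // x ∈ W ∧ x ≠ 1}
  letI act : MulAction E Z :=
    { smul := fun e x => ⟨(e : G) * x * (e : G)⁻¹, (mem_normalizer_iff.1 (hEW e.2) x).1 x.2.1, fun h => x.2.2 (by
        have : (x : G) = (e : G)⁻¹ * ((e : G) * x * (e : G)⁻¹) * e := by group
        rw [this, h]; group)⟩
      one_smul := fun x => Subtype.ext (by show ((1 : E) : G) * x * ((1 : E) : G)⁻¹ = x; simp)
      mul_smul := fun a b x => Subtype.ext (by
        show ((a * b : E) : G) * x * ((a * b : E) : G)⁻¹ = (a : G) * ((b : G) * x * (b : G)⁻¹) * (a : G)⁻¹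
        simp [mul_assoc]) }
  have hsm : ∀ (e : E) (x : Z), ((e • x : Z) : G) = (e : G) * x * (e : G)⁻¹ := fun _ _ => rfl
  have hst : MulAction.stabilizer E (⟨w, hw, hw1⟩ : Z) = Q.subgroupOf E := by
    ext e
    rw [MulAction.mem_stabilizer_iff, mem_subgroupOf, Subtype.ext_iff, hsm]
    constructor
    · intro h; exact hfix e e.2 w hw hw1 h
    · intro h
      show (e : G) * w * (e : G)⁻¹ = w
      rw [hQW _ h w hw, mul_inv_cancel_right]
  have hc := MulAction.index_stabilizer E (⟨w, hw, hw1⟩ : Z)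
  rw [hst] at hc
  change Q.relIndex E = _ at hc
  rw [hidx] at hc
  have hZ : Nat.card Z = Nat.card W - 1 := by
    have h1 : Nat.card Z = ((W : Set G) \ {1}).ncard := by
      rw [← Nat.card_coe_set_eq]
      exact Nat.card_congr (Equiv.subtypeEquivRight (by intro x; simp))
    rw [h1, Set.ncard_diff (by simp [W.one_mem]), Set.ncard_singleton]
    congr 1
  have huniv : MulAction.orbit E (⟨w, hw, hw1⟩ : Z) = Set.univ := by
    apply Set.eq_of_subset_of_ncard_le (Set.subset_univ _)
    rw [Set.ncard_univ, hZ, hc]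
  have hmem : (⟨v, hv, hv1⟩ : Z) ∈ MulAction.orbit E (⟨w, hw, hw1⟩ : Z) := by rw [huniv]; trivial
  obtain ⟨e, he⟩ := hmem
  refine ⟨e, e.2, ?_⟩
  have := congrArg Subtype.val he
  exact this

theorem semireg {p : ℕ} [hp : Fact p.Prime] {W K : Subgroup G} (hKW : K ≤ normalizer (W : Set G))
    (hcard : Nat.card W = p ^ 2) (hel : ∀ w ∈ W, w ^ p = 1) {w : G} (hw : w ∈ W) (hw1 : w ≠ 1)
    (hK : ∀ k ∈ K, k * w * k⁻¹ = w) : ((centralizer (W : Set G)).relIndex K) ∣ p * (p - 1) := by
  classical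
  let Z := {x : G // x ∈ W ∧ x ∉ zpowers w}
  have hzp : ∀ k ∈ K, ∀ x ∈ zpowers w, k * x * k⁻¹ = x := by
    intro k hk x hx
    obtain ⟨j, rfl⟩ := mem_zpowers_iff.1 hx
    have : k * w ^ j * k⁻¹ = (k * w * k⁻¹) ^ j := by rw [conj_zpow]
    rw [this, hK k hk]
  letI act : MulAction K Z :=
    { smul := fun e x => ⟨(e : G) * x * (e : G)⁻¹, (mem_normalizer_iff.1 (hKW e.2) x).1 x.2.1, fun h => x.2.2 (by
        have h1 := hzp _ (inv_mem e.2) _ h
        have h2 : (e : G)⁻¹ * ((e : G) * x * (e : G)⁻¹) * (e : G)⁻¹⁻¹ = x := by group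
        rw [h2] at h1
        rw [h1]; exact h)⟩
      one_smul := fun x => Subtype.ext (by show ((1 : K) : G) * x * ((1 : K) : G)⁻¹ = x; simp)
      mul_smul := fun a b x => Subtype.ext (by
        show ((a * b : K) : G) * x * ((a * b : K) : G)⁻¹ = (a : G) * ((b : G) * x * (b : G)⁻¹) * (a : G)⁻¹
        simp [mul_assoc]) }
  have hsm : ∀ (e : K) (x : Z), ((e • x : Z) : G) = (e : G) * x * (e : G)⁻¹ := fun _ _ => rfl
  have how : orderOf w = p := orderOf_eq_prime (hel w hw) hw1
  have hst : ∀ z : Z, MulAction.stabilizer K z = (centralizer (W : Set G)).subgroupOf K := by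
    intro z
    ext k
    rw [MulAction.mem_stabilizer_iff, mem_subgroupOf, Subtype.ext_iff, hsm]
    constructor
    · intro h
      -- C_W(k) = W
      set C : Subgroup G := W ⊓ centralizer ({(k : G)} : Set G) with hC
      have hwC : w ∈ C := by
        refine mem_inf.2 ⟨hw, ?_⟩
        rw [mem_centralizer_singleton_iff]
        have := hK k k.2
        rw [mul_inv_eq_iff_eq_mul] at this
        exact this.symm
      have hzC : (z : G) ∈ C := by
        refine mem_inf.2 ⟨z.2.1, ?_⟩
        rw [mem_centralizer_singleton_iff]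
        rw [mul_inv_eq_iff_eq_mul] at h
        exact h.symm
      have hdvd : Nat.card C ∣ p ^ 2 := by rw [← hcard]; exact card_dvd_of_le inf_le_left
      obtain ⟨j, hj, hjc⟩ := (Nat.dvd_prime_pow hp.out).1 hdvd
      have hzw : zpowers w ≤ C := zpowers_le.2 hwC
      have hne : zpowers w ≠ C := fun hh => z.2.2 ((hh.ge : C ≤ zpowers w) hzC)
      have hlt : Nat.card (zpowers w) < Nat.card C := by
        rcases (Nat.le_of_dvd Nat.card_pos (card_dvd_of_le hzw)).lt_or_eq with h1 | h1
        · exact h1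
        · exact absurd (eq_of_le_of_card_ge hzw h1.ge) hne
      rw [Nat.card_zpowers, how, hjc] at hlt
      have hj2 : j = 2 := by
        interval_cases j
        · simp at hlt; exact absurd hlt (by have := hp.out.pos; omega)
        · simp at hlt
        · rfl
      have hCW : C = W := eq_of_le_of_card_ge inf_le_left (by rw [hjc, hj2, hcard])
      rw [mem_centralizer_iff]
      intro x hx
      have hx' : x ∈ C := by rw [hCW]; exact hx
      have := mem_centralizer_singleton_iff.1 hx'.2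
      exact this
    · intro h
      have := mem_centralizer_iff.1 h z z.2.1
      rw [mul_inv_eq_iff_eq_mul]
      exact this.symm
  have hZc : Nat.card Z = p * (p - 1) := by
    have h1 : Nat.card Z = ((W : Set G) \ (zpowers w : Set G)).ncard := by
      rw [← Nat.card_coe_set_eq]
      exact Nat.card_congr (Equiv.subtypeEquivRight (by intro x; simp))
    have h2 : ((W : Set G)).ncard = p ^ 2 := hcard
    have h3 : ((zpowers w : Subgroup G) : Set G).ncard = p := by
      have : Nat.card (zpowers w) = p := by rw [Nat.card_zpowers, how]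
      exact this
    rw [h1, Set.ncard_diff (by exact_mod_cast (zpowers_le.2 hw : zpowers w ≤ W)), h2, h3, pow_two, Nat.mul_sub, mul_one]
  have hsum := Nat.card_congr (MulAction.selfEquivSigmaOrbitsQuotientStabilizer K Z)
  rw [hZc] at hsum
  have hall : ∀ ω : Quotient (MulAction.orbitRel K Z), Nat.card (K ⧸ MulAction.stabilizer K (Quotient.out ω)) =
      (centralizer (W : Set G)).relIndex K := by
    intro ω
    rw [hst]
    rfl
  haveI : Fintype (Quotient (MulAction.orbitRel K Z)) := Fintype.ofFinite _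
  rw [Nat.card_sigma, Finset.sum_congr rfl (fun ω _ => hall ω), Finset.sum_const, smul_eq_mul] at hsum
  exact ⟨_, by rw [hsum, mul_comm]⟩

theorem core {p : ℕ} [hp : Fact p.Prime] (hp3 : p = 2 ∨ p = 3) {E Q W B : Subgroup G}
    (hQE : Q ≤ E) (hQW : ∀ q ∈ Q, ∀ w ∈ W, q * w = w * q)
    (hN : normalizer (E : Set G) ≤ normalizer (W : Set G))
    (hcard : Nat.card W = p ^ 2) (hel : ∀ w ∈ W, w ^ p = 1)
    (hfix : ∀ e ∈ E, ∀ w ∈ W, w ≠ 1 → e * w * e⁻¹ = w → e ∈ Q) (hidx : Q.relIndex E = p ^ 2 - 1)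
    (hB : B ≤ normalizer (E : Set G)) (hBp : IsPGroup p B) :
    ∃ H : Subgroup G, E ≤ H ∧ H ≤ normalizer (E : Set G) ∧ normalizer (E : Set G) ≤ normalizer (H : Set G) ∧
      B ≤ H ∧ ∀ h ∈ H, ∃ k, h ^ (p ^ k) ∈ E ⊔ centralizer (W : Set G) := by
  classical
  set N : Subgroup G := normalizer (E : Set G) with hNdef
  have hEN : E ≤ N := le_normalizer
  have hNC : N ≤ normalizer (centralizer (W : Set G) : Set G) := by
    intro n hn
    rw [mem_normalizer_iff]
    have hn' := hN hn
    have key : ∀ m ∈ normalizer (W : Set G), ∀ c ∈ centralizer (W : Set G), m * c * m⁻¹ ∈ centralizer (W : Set G) := by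
      intro m hm c hc
      rw [mem_centralizer_iff]
      intro w hw
      have h1 : m⁻¹ * w * m ∈ W := by
        have := (mem_normalizer_iff.1 (inv_mem hm) w).1 hw
        rwa [inv_inv] at this
      have h2 := mem_centralizer_iff.1 hc _ h1
      calc w * (m * c * m⁻¹) = m * ((m⁻¹ * w * m) * c) * m⁻¹ := by group
        _ = m * (c * (m⁻¹ * w * m)) * m⁻¹ := by rw [h2]
        _ = m * c * m⁻¹ * w := by group
    intro c
    constructor
    · exact key n hn' c
    · intro h
      have := key n⁻¹ (inv_mem hn') _ h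
      have h2 : n⁻¹ * (n * c * n⁻¹) * n⁻¹⁻¹ = c := by group
      rwa [h2] at this
  haveI i1 : (E.subgroupOf N).Normal := normal_subgroupOf_of_le_normalizer (le_refl _)
  haveI i2 : ((centralizer (W : Set G)).subgroupOf N).Normal := normal_subgroupOf_of_le_normalizer hNC
  set D' : Subgroup N := (centralizer (W : Set G)).subgroupOf N with hD'
  set M' : Subgroup N := E.subgroupOf N ⊔ D' with hM'
  haveI i3 : M'.Normal := by rw [hM']; infer_instance
  -- a nontrivial element of W
  have hWnt : ∃ w ∈ W, w ≠ 1 := by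
    by_contra hcon
    push Not at hcon
    have : W = ⊥ := by rw [eq_bot_iff]; intro x hx; rw [mem_bot]; exact hcon x hx
    rw [this, card_bot] at hcard
    have h2 := hp.out.two_le
    nlinarith [hcard, h2]
  obtain ⟨w, hw, hw1⟩ := hWnt
  have hidx' : Q.relIndex E = Nat.card W - 1 := by rw [hidx, hcard]
  set K : Subgroup G := N ⊓ centralizer ({w} : Set G) with hK
  have hKN : K ≤ N := inf_le_left
  have hMK : M' ⊔ K.subgroupOf N = ⊤ := by
    rw [eq_top_iff]
    rintro ⟨n, hn⟩ -
    have h1 : n * w * n⁻¹ ∈ W := (mem_normalizer_iff.1 (hN hn) w).1 hw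
    have h2 : n * w * n⁻¹ ≠ 1 := by
      intro h
      apply hw1
      have : w = n⁻¹ * (n * w * n⁻¹) * n := by group
      rw [this, h]; group
    obtain ⟨e, he, hew⟩ := orbit_all hQE hQW (hEN.trans hN) hfix hidx' hw hw1 h1 h2
    have h3 : e⁻¹ * n ∈ K := by
      refine mem_inf.2 ⟨mul_mem (inv_mem (hEN he)) hn, ?_⟩
      rw [mem_centralizer_singleton_iff]
      have h4 : (e⁻¹ * n) * w * (e⁻¹ * n)⁻¹ = w := by
        calc (e⁻¹ * n) * w * (e⁻¹ * n)⁻¹ = e⁻¹ * (n * w * n⁻¹) * e := by group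
          _ = e⁻¹ * (e * w * e⁻¹) * e := by rw [hew]
          _ = w := by group
      rw [mul_inv_eq_iff_eq_mul] at h4
      exact h4
    have h5 : (⟨n, hn⟩ : N) = ⟨e, hEN he⟩ * ⟨e⁻¹ * n, hKN h3⟩ := Subtype.ext (by
      show n = e * (e⁻¹ * n); group)
    rw [h5]
    apply mul_mem
    · exact mem_sup_left (mem_sup_left he)
    · exact mem_sup_right h3
  have hXdvd : M'.index ∣ p * (p - 1) := by
    have h1 : M'.index = M'.relIndex (K.subgroupOf N) := by
      rw [← relIndex_sup_right (H := K.subgroupOf N) (K := M'), sup_comm, hMK, relIndex_top_right]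
    rw [h1]
    refine (relIndex_dvd_of_le_left (K.subgroupOf N) (le_sup_right : D' ≤ M')).trans ?_
    rw [hD', relIndex_subgroupOf hKN]
    refine semireg (hKN.trans hN) hcard hel hw hw1 ?_
    intro k hk
    have := mem_centralizer_singleton_iff.1 hk.2
    rw [mul_inv_eq_iff_eq_mul]
    exact this
  -- Sylow subgroup of the quotient
  obtain ⟨P⟩ := (inferInstance : Nonempty (Sylow p (N ⧸ M')))
  have hPn : (P : Subgroup (N ⧸ M')).Normal := by
    have h1 : (P : Subgroup (N ⧸ M')).index ∣ p * (p - 1) := by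
      refine (index_dvd_card _).trans ?_
      exact hXdvd
    have h2 : ((P : Subgroup (N ⧸ M')).index).Coprime p :=
      (Nat.Prime.coprime_iff_not_dvd hp.out).2 (P.not_dvd_index) |>.symm
    have h3 : (P : Subgroup (N ⧸ M')).index ∣ p - 1 := h2.dvd_of_dvd_mul_left h1
    have h6 : p - 1 ∣ 2 := by rcases hp3 with h | h <;> rw [h] <;> norm_num
    have h4 : (P : Subgroup (N ⧸ M')).index ∣ 2 := h3.trans h6
    rcases (Nat.dvd_prime Nat.prime_two).1 h4 with h5 | h5
    · rw [index_eq_one.1 h5]; infer_instance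
    · exact normal_of_index_eq_two h5
  haveI := hPn
  set H' : Subgroup N := (P : Subgroup (N ⧸ M')).comap (QuotientGroup.mk' M') with hH'
  haveI i4 : H'.Normal := by rw [hH']; infer_instance
  have hMH : M' ≤ H' := by
    intro x hx
    rw [hH', mem_comap]
    have : QuotientGroup.mk' M' x = 1 := (QuotientGroup.eq_one_iff x).2 hx
    rw [this]; exact one_mem _
  refine ⟨H'.map N.subtype, ?_, ?_, ?_, ?_, ?_⟩
  · intro e he
    exact ⟨⟨e, hEN he⟩, hMH (mem_sup_left he), rfl⟩
  · rintro _ ⟨x, _, rfl⟩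
    exact x.2
  · intro n hn
    have key : ∀ m ∈ N, ∀ x ∈ H'.map N.subtype, m * x * m⁻¹ ∈ H'.map N.subtype := by
      rintro m hm _ ⟨y, hy, rfl⟩
      exact ⟨⟨m, hm⟩ * y * ⟨m, hm⟩⁻¹, i4.conj_mem y hy _, rfl⟩
    rw [mem_normalizer_iff]
    intro x
    constructor
    · exact key n hn x
    · intro h
      have := key n⁻¹ (inv_mem hn) _ h
      have h2 : n⁻¹ * (n * x * n⁻¹) * n⁻¹⁻¹ = x := by group
      rwa [h2] at this
  · intro b hb
    refine ⟨⟨b, hB hb⟩, ?_, rfl⟩
    show QuotientGroup.mk' M' ⟨b, hB hb⟩ ∈ (P : Subgroup (N ⧸ M'))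
    have hBP : IsPGroup p ((B.subgroupOf N).map (QuotientGroup.mk' M')) :=
      (hBp.comap_of_injective N.subtype N.subtype_injective).map _
    obtain ⟨P', hP'⟩ := hBP.exists_le_sylow
    have hPP : P' = P := by
      haveI := Sylow.unique_of_normal P hPn
      exact Subsingleton.elim _ _
    rw [← hPP]
    apply hP'
    exact ⟨⟨b, hB hb⟩, hb, rfl⟩
  · rintro _ ⟨x, hx, rfl⟩
    obtain ⟨k, hk⟩ := P.2 ⟨QuotientGroup.mk' M' x, hx⟩
    refine ⟨k, ?_⟩
    have h1 : QuotientGroup.mk' M' (x ^ p ^ k) = 1 := by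
      have := congrArg Subtype.val hk
      rw [map_pow]
      exact this
    have h2 : x ^ p ^ k ∈ M' := (QuotientGroup.eq_one_iff _).1 h1
    have h3 : M' ≤ (E ⊔ centralizer (W : Set G)).subgroupOf N := by
      rw [hM']
      refine sup_le ?_ ?_
      · intro y hy; exact mem_sup_left hy
      · intro y hy; exact mem_sup_right hy
    have := h3 h2
    rw [mem_subgroupOf] at this
    simpa using this

theorem exists_fixed {p : ℕ} [hp : Fact p.Prime] {R W : Subgroup G} (hR : IsPGroup p R)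
    (hRW : R ≤ normalizer (W : Set G)) (hcard : Nat.card W = p ^ 2) :
    ∃ w ∈ W, w ≠ 1 ∧ ∀ r ∈ R, r * w = w * r := by
  classical
  letI act : MulAction R W :=
    { smul := fun e x => ⟨(e : G) * x * (e : G)⁻¹, (mem_normalizer_iff.1 (hRW e.2) x).1 x.2⟩
      one_smul := fun x => Subtype.ext (by show ((1 : R) : G) * x * ((1 : R) : G)⁻¹ = x; simp)
      mul_smul := fun a b x => Subtype.ext (by
        show ((a * b : R) : G) * x * ((a * b : R) : G)⁻¹ = (a : G) * ((b : G) * x * (b : G)⁻¹) * (a : G)⁻¹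
        simp [mul_assoc]) }
  have hsm : ∀ (e : R) (x : W), ((e • x : W) : G) = (e : G) * x * (e : G)⁻¹ := fun _ _ => rfl
  have h1 : (1 : W) ∈ MulAction.fixedPoints R W := by
    intro r
    apply Subtype.ext
    rw [hsm]; simp
  obtain ⟨b, hb, hb1⟩ := hR.exists_fixed_point_of_prime_dvd_card_of_fixed_point W
    (by rw [hcard]; exact dvd_pow_self p (by norm_num)) h1
  refine ⟨b, b.2, fun h => hb1 (Subtype.ext h.symm), ?_⟩
  intro r hr
  have := congrArg Subtype.val (hb ⟨r, hr⟩)
  rw [hsm] at this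
  rw [← mul_inv_eq_iff_eq_mul]
  exact this

end core

end H44.BZ
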