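import Mathlib

/-!
Weight spaces of one parameter families of commuting operators.
-/

set_option autoImplicit false
set_option linter.unusedSectionVars false

namespace H44.GT

open Module

section one

variable {F : Type*} [Field F] [Fintype F] {V : Type*} [AddCommGroup V] [Module ℂ V]

/-- weight space -/
def wsp (ψ : AddChar F ℂ) (X : F → Module.End ℂ V) (c : F) : Submodule ℂ V where
  carrier := {v | ∀ t, X t v = ψ (c * t) • v}
  add_mem' := by intro a b ha hb t; rw [map_add, ha t, hb t, smul_add]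
  zero_mem' := by intro t; simp
  smul_mem' := by intro a v hv t; rw [map_smul, hv t, smul_comm]

theorem mem_wsp {ψ : AddChar F ℂ} {X : F → Module.End ℂ V} {c : F} {v : V} :
    v ∈ wsp ψ X c ↔ ∀ t, X t v = ψ (c * t) • v := Iff.rfl

/-- projection -/
noncomputable def pr (ψ : AddChar F ℂ) (X : F → Module.End ℂ V) (c : F) : Module.End ℂ V :=
  (Fintype.card F : ℂ)⁻¹ • ∑ t : F, ψ (-(c * t)) • X t

theorem pr_apply (ψ : AddChar F ℂ) (X : F → Module.End ℂ V) (c : F) (v : V) :
    pr ψ X c v = (Fintype.card F : ℂ)⁻¹ • ∑ t : F, ψ (-(c * t)) • X t v := by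
  simp [pr, LinearMap.sum_apply]

theorem cardF_ne : (Fintype.card F : ℂ) ≠ 0 := by
  rw [Nat.cast_ne_zero]; exact Fintype.card_ne_zero

variable {ψ : AddChar F ℂ} {X : F → Module.End ℂ V}

theorem pr_mem (hX : ∀ t u, X (t + u) = X t * X u) (c : F) (v : V) : pr ψ X c v ∈ wsp ψ X c := by
  intro t
  rw [pr_apply, map_smul, map_sum, smul_comm]
  congr 1
  rw [Finset.smul_sum, ← Equiv.sum_comp (Equiv.addLeft t) (fun x => ψ (c * t) • ψ (-(c * x)) • X x v)]
  refine Finset.sum_congr rfl fun u _ => ?_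
  rw [map_smul, Equiv.coe_addLeft, hX, Module.End.mul_apply, smul_smul, ← AddChar.map_add_eq_mul]
  congr 2
  ring

theorem pr_of_mem {c : F} {v : V} (hv : v ∈ wsp ψ X c) : pr ψ X c v = v := by
  rw [pr_apply]
  have : ∀ t ∈ (Finset.univ : Finset F), ψ (-(c * t)) • X t v = v := by
    intro t _
    rw [hv t, smul_smul, ← AddChar.map_add_eq_mul, neg_add_cancel, AddChar.map_zero_eq_one, one_smul]
  rw [Finset.sum_congr rfl this, Finset.sum_const, Finset.card_univ, ← Nat.cast_smul_eq_nsmul ℂ,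
    smul_smul, inv_mul_cancel₀ cardF_ne, one_smul]

theorem sum_psi [DecidableEq F] (hψ : ψ.IsPrimitive) (c : F) :
    ∑ t : F, ψ (c * t) = if c = 0 then (Fintype.card F : ℂ) else 0 := by
  have := AddChar.sum_mulShift (R := F) (R' := ℂ) c hψ
  rw [Nat.cast_ite, Nat.cast_zero] at this
  rw [← this]
  refine Finset.sum_congr rfl fun t _ => by rw [mul_comm]

theorem pr_of_ne (hψ : ψ.IsPrimitive) {c d : F} (h : d ≠ c) {v : V} (hv : v ∈ wsp ψ X c) :
    pr ψ X d v = 0 := by
  classical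
  rw [pr_apply]
  have : ∀ t ∈ (Finset.univ : Finset F), ψ (-(d * t)) • X t v = ψ ((c - d) * t) • v := by
    intro t _
    rw [hv t, smul_smul, ← AddChar.map_add_eq_mul]
    congr 2; ring
  rw [Finset.sum_congr rfl this, ← Finset.sum_smul, sum_psi hψ, if_neg (sub_ne_zero.2 (Ne.symm h)),
    zero_smul, smul_zero]

theorem sum_pr (hψ : ψ.IsPrimitive) (h0 : X 0 = 1) (v : V) : ∑ c : F, pr ψ X c v = v := by
  classical
  simp only [pr_apply]
  rw [← Finset.smul_sum, Finset.sum_comm]
  have : ∀ t ∈ (Finset.univ : Finset F), ∑ c : F, ψ (-(c * t)) • X t v =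
      (if t = 0 then (Fintype.card F : ℂ) else 0) • X t v := by
    intro t _
    rw [← Finset.sum_smul]
    congr 1
    have h1 := sum_psi hψ (-t)
    simp only [neg_eq_zero] at h1
    rw [← h1]
    exact Finset.sum_congr rfl fun c _ => by congr 1; ring
  rw [Finset.sum_congr rfl this]
  simp only [ite_smul, zero_smul]
  rw [Finset.sum_ite_eq' Finset.univ (0 : F), if_pos (Finset.mem_univ _), h0, smul_smul,
    inv_mul_cancel₀ cardF_ne, one_smul]
  rfl

theorem pr_stable {K : Submodule ℂ V} (hK : ∀ t, ∀ v ∈ K, X t v ∈ K) (c : F) {v : V} (hv : v ∈ K) :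
    pr ψ X c v ∈ K := by
  rw [pr_apply]
  exact K.smul_mem _ (K.sum_mem fun t _ => K.smul_mem _ (hK t v hv))

/-- decomposition -/
theorem split_finrank [FiniteDimensional ℂ V] (hψ : ψ.IsPrimitive) (hX : ∀ t u, X (t + u) = X t * X u)
    (h0 : X 0 = 1) (K : Submodule ℂ V) (hK : ∀ t, ∀ v ∈ K, X t v ∈ K) :
    finrank ℂ K = ∑ c : F, finrank ℂ (K ⊓ wsp ψ X c : Submodule ℂ V) := by
  classical
  let f : K →ₗ[ℂ] (∀ c : F, (K ⊓ wsp ψ X c : Submodule ℂ V)) :=
    LinearMap.pi fun c => ((pr ψ X c).comp K.subtype).codRestrict _ fun v =>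
      ⟨pr_stable hK c v.2, pr_mem hX c _⟩
  let g : (∀ c : F, (K ⊓ wsp ψ X c : Submodule ℂ V)) →ₗ[ℂ] K :=
    ∑ c : F, (Submodule.inclusion inf_le_left).comp (LinearMap.proj c)
  have hg : ∀ w : (∀ c : F, (K ⊓ wsp ψ X c : Submodule ℂ V)), ((g w : K) : V) = ∑ c, (w c : V) := by
    intro w
    simp [g, LinearMap.sum_apply]
  have hgf : ∀ v, g (f v) = v := by
    intro v
    apply Subtype.ext
    rw [hg]
    exact sum_pr hψ h0 (v : V)
  have hfg : ∀ w, f (g w) = w := by
    intro w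
    funext c
    apply Subtype.ext
    show pr ψ X c ((g w : K) : V) = w c
    rw [hg, map_sum, Finset.sum_eq_single c]
    · exact pr_of_mem (w c).2.2
    · intro d _ hd
      exact pr_of_ne hψ (Ne.symm hd) (w d).2.2
    · intro h; exact absurd (Finset.mem_univ _) h
  let e : K ≃ₗ[ℂ] (∀ c : F, (K ⊓ wsp ψ X c : Submodule ℂ V)) :=
    { f with invFun := g, left_inv := hgf, right_inv := hfg }
  rw [e.finrank_eq, finrank_pi_fintype]

/-- moving subspaces -/
theorem finrank_le_move [FiniteDimensional ℂ V] {K K' : Submodule ℂ V} (g : V →ₗ[ℂ] V)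
    (hg : Function.Injective g) (h : ∀ v ∈ K, g v ∈ K') : finrank ℂ K ≤ finrank ℂ K' := by
  let f : K →ₗ[ℂ] K' := (g.comp K.subtype).codRestrict K' fun v => h v v.2
  apply LinearMap.finrank_le_finrank_of_injective (f := f)
  intro a b hab
  apply Subtype.ext
  apply hg
  exact congrArg Subtype.val hab

theorem exists_primitive (F : Type*) [Field F] [Finite F] : ∃ ψ : AddChar F ℂ, ψ.IsPrimitive := by
  have h := AddChar.exists_apply_ne_zero (α := F) (a := 1)
  obtain ⟨φ, hφ⟩ := h.2 one_ne_zero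
  refine ⟨φ, AddChar.IsPrimitive.of_ne_one ?_⟩
  rintro rfl
  exact hφ rfl

end one

end H44.GT
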