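import Cfsg.Agent.Lib.H44.GT9

/-!
Structure of the small weight spaces.
-/

set_option autoImplicit false
set_option linter.unusedSectionVars false

namespace H44.GT

open Module Cfsg.Lie

variable {F : Type*} [Field F] {G : Type*} [Group G] (D : GD F G)
  {V : Type*} [AddCommGroup V] [Module ℂ V] (ρ : Representation ℂ G V)

namespace GD

local notation "q" => Fintype.card F

variable [FiniteDimensional ℂ V] {ψ : AddChar F ℂ} [Fintype F] (hψ : ψ.IsPrimitive) (h3 : (3 : F) ≠ 0)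

include hψ h3

section one

variable (hN : D.Nq ρ ψ = 1)

include hN

theorem s1 (hq : 5 ≤ q) {κ : F} (hκ : κ ≠ 0) : D.dm ρ ψ none (some 0) none none (some κ) (some 0) = 1 := by
  classical
  rw [D.spl9 ρ hψ _ _ _ _ _ (D.st9' ρ _ _ _)]
  have h0 : D.dm ρ ψ none (some 0) none (some 0) (some κ) (some 0) = 1 := by
    apply le_antisymm
    · rw [← D.l1 ρ hψ h3 hN hκ 0]
      apply mono_dm
      rintro v ⟨g1, g2, g3, g4, g5, g6⟩
      exact ⟨g1, D.okn, g3, g4, g5, g6⟩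
    · have hh := D.l3 ρ hψ h3 hN hq hκ
      rw [← hh]
      apply mono_dm
      rintro v ⟨g1, g2, g3, g4, g5, g6⟩
      exact ⟨g1, g2, D.okn, g4, g5, g6⟩
  have hz : ∀ φ : F, φ ≠ 0 → D.dm ρ ψ none (some 0) none (some φ) (some κ) (some 0) = 0 := by
    intro φ hφ
    have h1 := D.l1 ρ hψ h3 hN hκ φ
    rw [D.spl6 ρ hψ _ _ _ _ _ (D.st6 ρ _ _ _)] at h1
    set t : F := -φ / (3 * κ) with ht
    have ht0 : t ≠ 0 := div_ne_zero (neg_ne_zero.2 hφ) (mul_ne_zero h3 hκ)
    have h2 : 1 ≤ D.dm ρ ψ none (some (-(t ^ 3 * κ))) none (some φ) (some κ) (some 0) := by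
      have hh := D.l3 ρ hψ h3 hN hq hκ
      rw [← hh]
      refine (D.mv7 ρ t 0 0 0 κ).trans ?_
      have e1 : 0 + t * 0 + t ^ 2 * 0 - t ^ 3 * κ = -(t ^ 3 * κ) := by ring
      have e3 : 0 - 3 * t * κ = φ := by
        rw [ht]; field_simp; ring
      rw [e1, e3]
      apply mono_dm
      rintro v ⟨g1, g2, g3, g4, g5, g6⟩
      exact ⟨g1, g2, D.okn, g4, g5, g6⟩
    have hne : (0 : F) ≠ -(t ^ 3 * κ) := by
      intro h
      exact mul_ne_zero (pow_ne_zero 3 ht0) hκ (neg_eq_zero.1 h.symm)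
    have h5 : ∑ z ∈ ({0, -(t ^ 3 * κ)} : Finset F), D.dm ρ ψ none (some z) none (some φ) (some κ) (some 0) ≤
        ∑ z, D.dm ρ ψ none (some z) none (some φ) (some κ) (some 0) :=
      Finset.sum_le_sum_of_subset (Finset.subset_univ _)
    rw [Finset.sum_pair hne, h1] at h5
    omega
  rw [sum_nz _ 0 hz, mul_zero, add_zero, h0]

theorem s2 (hq : 5 ≤ q) {β : F} (hβ : β ≠ 0) : D.dm ρ ψ none (some β) none none (some 0) (some 0) = 1 := by
  rw [D.na_eq]
  simp only [Option.map_none, Option.map_some, mul_zero]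
  exact D.s1 ρ hψ h3 hN hq (mul_ne_zero (D.ea_ne (by decide)) hβ)

theorem dimq (hq : 5 ≤ q) : finrank ℂ V + 1 = q ^ 3 + D.dm ρ ψ none (some 0) none none (some 0) (some 0) := by
  obtain ⟨p, hp⟩ : ∃ p, q = p + 1 := ⟨q - 1, by omega⟩
  rw [D.dimV' ρ hψ h3, D.sumM ρ hψ, sum_nz _ 1 fun x hx => D.s2 ρ hψ h3 hN hq hx, hN, hp, Nat.add_sub_cancel]
  ring

theorem fixA (hq : 5 ≤ q) {β : F} (hβ : β ≠ 0) {y : V} (hy : y ∈ D.W ρ ψ none (some β) none none (some 0) (some 0)) :
    D.ok ρ ψ 8 (some 0) y := by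
  have h1 : D.W ρ ψ none (some β) (some 0) (some 0) (some 0) (some 0) ≤ D.W ρ ψ none (some β) none none (some 0) (some 0) := by
    rintro v ⟨g1, g2, g3, g4, g5, g6⟩
    exact ⟨g1, g2, D.okn, D.okn, g5, g6⟩
  have h2 := Submodule.eq_of_le_of_finrank_eq h1 ((D.l4 ρ hψ h3 hN hq hβ).trans (D.s2 ρ hψ h3 hN hq hβ).symm)
  rw [← h2] at hy
  exact hy.2.2.1

theorem fixD (hq : 5 ≤ q) {κ : F} (hκ : κ ≠ 0) {y : V} (hy : y ∈ D.W ρ ψ none none none (some 0) (some κ) (some 0)) :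
    y ∈ D.W ρ ψ none (some 0) (some 0) (some 0) (some κ) (some 0) := by
  have h1 : D.W ρ ψ none (some 0) (some 0) (some 0) (some κ) (some 0) ≤
      D.W ρ ψ none none none (some 0) (some κ) (some 0) := by
    rintro v ⟨g1, g2, g3, g4, g5, g6⟩
    exact ⟨g1, D.okn, D.okn, g4, g5, g6⟩
  have h2 := Submodule.eq_of_le_of_finrank_eq h1 ((D.l3 ρ hψ h3 hN hq hκ).trans (D.l1 ρ hψ h3 hN hκ 0).symm)
  rwa [← h2] at hy

omit h3 hN in
theorem fixB (hq : 5 ≤ q) (hd : D.dm ρ ψ none (some 0) none none (some 0) (some 0) ≤ 1) {y : V}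
    (hy : y ∈ D.W ρ ψ none (some 0) none none (some 0) (some 0)) : D.ok ρ ψ 8 (some 0) y := by
  classical
  rw [D.spl8 ρ hψ _ _ _ _ _ (D.st8' ρ _ _ _)] at hd
  obtain ⟨m, hm0, hm1⟩ : ∃ m : F, m ≠ 0 ∧ m ≠ 1 := by
    by_contra hcon
    push Not at hcon
    have : (Finset.univ : Finset F) ⊆ {0, 1} := by
      intro u _
      simp only [Finset.mem_insert, Finset.mem_singleton]
      by_cases h0 : u = 0
      · exact Or.inl h0
      · exact Or.inr (hcon u h0)
    have h5 := Finset.card_le_card this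
    have h6 : ({0, 1} : Finset F).card ≤ 2 := Finset.card_le_two
    rw [Finset.card_univ] at h5
    omega
  have hz : ∀ ε : F, ε ≠ 0 → D.dm ρ ψ none (some 0) (some ε) none (some 0) (some 0) = 0 := by
    intro ε hε
    have h1 : D.dm ρ ψ none (some 0) (some ε) none (some 0) (some 0) =
        D.dm ρ ψ none (some 0) (some (1 / m * ε)) none (some 0) (some 0) := by
      rw [D.tor ρ ψ one_ne_zero hm0]
      simp only [Option.map_none, Option.map_some, mul_zero]
    have hne : ε ≠ 1 / m * ε := by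
      intro he
      apply hm1
      field_simp at he
      exact he
    have h5 : ∑ z ∈ ({ε, 1 / m * ε} : Finset F), D.dm ρ ψ none (some 0) (some z) none (some 0) (some 0) ≤
        ∑ z, D.dm ρ ψ none (some 0) (some z) none (some 0) (some 0) :=
      Finset.sum_le_sum_of_subset (Finset.subset_univ _)
    rw [Finset.sum_pair hne, ← h1] at h5
    omega
  rw [ok_some]
  exact fix_of hψ (D.X_add ρ 8) (D.X_zero ρ 8) (K := D.W ρ ψ none (some 0) none none (some 0) (some 0))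
    (D.st8' ρ _ _ _) (fun c hc w hw hw' => D.dm_zero ρ (hz c hc)
      ⟨D.okn, hw.2.1, (D.ok_some ρ).2 hw', D.okn, hw.2.2.2.2.1, hw.2.2.2.2.2⟩) hy

theorem fixC (hq : 5 ≤ q) (hd : D.dm ρ ψ none (some 0) none none (some 0) (some 0) ≤ 1) {y : V}
    (hy : y ∈ D.W ρ ψ none none none none (some 0) (some 0)) (t : F) : D.X ρ 8 t y = y := by
  have h1 : ∀ β : F, D.X ρ 8 t (pr ψ (D.X ρ 6) β y) = pr ψ (D.X ρ 6) β y := by
    intro β
    have h2 : pr ψ (D.X ρ 6) β y ∈ D.W ρ ψ none none none none (some 0) (some 0) :=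
      pr_stable (D.st6 ρ _ _ _) β hy
    have h4 : pr ψ (D.X ρ 6) β y ∈ D.W ρ ψ none (some β) none none (some 0) (some 0) :=
      ⟨D.okn, (D.ok_some ρ).2 (pr_mem (D.X_add ρ 6) β y), D.okn, D.okn, h2.2.2.2.2.1, h2.2.2.2.2.2⟩
    by_cases hβ : β = 0
    · subst hβ
      exact D.X_of_zero ρ (D.fixB ρ hψ hq hd h4) t
    · exact D.X_of_zero ρ (D.fixA ρ hψ h3 hN hq hβ h4) t
  have h2 := sum_pr hψ (D.X_zero ρ 6) y
  conv_lhs => rw [← h2, map_sum]
  rw [Finset.sum_congr rfl fun β _ => h1 β, h2]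

end one

end GD

/-- the final contradiction -/
theorem AF {F : Type*} [Field F] [Fintype F] [DecidableEq F] {V : Type*} [AddCommGroup V] [Module ℂ V] {ψ : AddChar F ℂ}
    (hψ : ψ.IsPrimitive) {y z : V} (hy : y ≠ 0) (S : F → V) (h0 : S 0 = y) {κ ν : F} (hκ : κ ≠ 0) (hν : ν ≠ 0)
    (hν1 : ∀ t : F, t ^ 3 ≠ ν) (hν2 : ∀ t : F, t ^ 3 ≠ ν ^ 2)
    (hG : ∀ γ : F, ∑ t, ψ (-(γ * t)) • S t = ((Finset.univ.filter fun t : F => t ^ 3 * κ = γ).card : ℂ) • z)
    {X : ℂ} (hX : ∀ t : F, t ≠ 0 → S (t / ν) = X • S t) : False := by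
  classical
  set a : F → V := fun γ => ∑ t ∈ Finset.univ.erase (0 : F), ψ (-(γ * t)) • S t with ha
  have h1 : ∀ γ, ∑ t, ψ (-(γ * t)) • S t = y + a γ := by
    intro γ
    rw [← Finset.add_sum_erase _ _ (Finset.mem_univ (0 : F)), h0, mul_zero, neg_zero, AddChar.map_zero_eq_one, one_smul]
  have h2 : ∀ γ, a (γ * ν) = X • a γ := by
    intro γ
    simp only [ha]
    rw [Finset.smul_sum]
    refine Finset.sum_bij' (fun t _ => t * ν) (fun t _ => t / ν) ?_ ?_ ?_ ?_ ?_
    · intro t ht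
      exact Finset.mem_erase.2 ⟨mul_ne_zero (Finset.ne_of_mem_erase ht) hν, Finset.mem_univ _⟩
    · intro t ht
      exact Finset.mem_erase.2 ⟨div_ne_zero (Finset.ne_of_mem_erase ht) hν, Finset.mem_univ _⟩
    · intro t _
      show t * ν / ν = t
      field_simp
    · intro t _
      show t / ν * ν = t
      field_simp
    · intro t ht
      have h5 := hX (t * ν) (mul_ne_zero (Finset.ne_of_mem_erase ht) hν)
      rw [mul_div_cancel_right₀ _ hν] at h5
      rw [h5, smul_comm]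
      congr 3
      ring
  have hN0 : ∀ γ, (∀ t : F, t ^ 3 * κ ≠ γ) → a γ = -y := by
    intro γ hγ
    have h5 := (h1 γ).symm.trans (hG γ)
    rw [Finset.filter_false_of_mem fun t _ => hγ t, Finset.card_empty, Nat.cast_zero, zero_smul] at h5
    exact (neg_eq_of_add_eq_zero_right h5).symm
  have a1 : a (κ * ν) = -y := hN0 _ fun t ht => hν1 t (mul_left_cancel₀ hκ (by rw [← ht]; ring))
  have a2 : a (κ * ν * ν) = -y := hN0 _ fun t ht => hν2 t (mul_left_cancel₀ hκ (by rw [mul_comm κ (t ^ 3), ht]; ring))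
  have hX1 : X = 1 := by
    rw [h2, a1, smul_neg, neg_inj] at a2
    have : (X - 1) • y = 0 := by rw [sub_smul, one_smul, a2, sub_self]
    exact sub_eq_zero.1 ((smul_eq_zero.1 this).resolve_right hy)
  have a0 : a κ = -y := by
    have := h2 κ
    rw [a1, hX1, one_smul] at this
    exact this.symm
  have hz : z = 0 := by
    have h5 := (h1 κ).symm.trans (hG κ)
    rw [a0, add_neg_cancel] at h5
    have h6 : ((Finset.univ.filter fun t : F => t ^ 3 * κ = κ).card : ℂ) ≠ 0 := by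
      rw [Nat.cast_ne_zero]
      apply Finset.card_ne_zero_of_mem (a := (1 : F))
      rw [Finset.mem_filter]
      exact ⟨Finset.mem_univ _, by ring⟩
    exact (smul_eq_zero.1 h5.symm).resolve_left h6
  have hall : ∀ γ, a γ = -y := by
    intro γ
    have h5 := (h1 γ).symm.trans (hG γ)
    rw [hz, smul_zero] at h5
    exact (neg_eq_of_add_eq_zero_right h5).symm
  have hsum : ∑ γ, a γ = 0 := by
    simp only [ha]
    rw [Finset.sum_comm]
    apply Finset.sum_eq_zero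
    intro t ht
    rw [← Finset.sum_smul]
    have h5 := sum_psi hψ (-t)
    rw [if_neg (neg_ne_zero.2 (Finset.ne_of_mem_erase ht))] at h5
    have h6 : ∑ i : F, ψ (-(i * t)) = 0 := by
      rw [← h5]
      exact Finset.sum_congr rfl fun c _ => by congr 1; ring
    rw [h6, zero_smul]
  rw [Finset.sum_congr rfl fun γ _ => hall γ, Finset.sum_const, Finset.card_univ, ← Nat.cast_smul_eq_nsmul ℂ] at hsum
  have := (smul_eq_zero.1 hsum).resolve_left cardF_ne
  exact hy (neg_eq_zero.1 this)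

end H44.GT
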