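import Cfsg.Agent.Lib.H44.GT10

/-!
Relations with negative roots and the projection to the fixed space of `X_{3a+b} X_{3a+2b}`.
-/

set_option autoImplicit false
set_option linter.unusedSectionVars false

namespace H44.GT

open Module Cfsg.Lie

variable {F : Type*} [Field F] {G : Type*} [Group G] (D : GD F G)
  {V : Type*} [AddCommGroup V] [Module ℂ V] (ρ : Representation ℂ G V)

namespace GD

/-! ### relations -/

theorem c11_1 (t u : F) (v : V) : D.X ρ 1 u (D.X ρ 11 t v) = D.X ρ 11 t (D.X ρ 1 u (D.X ρ 6 (-(t * u)) v)) := by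
  rw [D.com1_app ρ (r := 11) (s := 1) (k := 6) (C := 1) (by decide +kernel)]
  exact X_congr D ρ rfl (X_congr D ρ rfl (X_congr D ρ (by push_cast; ring) rfl))

theorem c0_6 (t u : F) (v : V) : D.X ρ 6 u (D.X ρ 0 t v) = D.X ρ 0 t (D.X ρ 6 u (D.X ρ 1 (-(t * u)) v)) := by
  rw [D.com1_app ρ (r := 0) (s := 6) (k := 1) (C := 1) (by decide +kernel)]
  exact X_congr D ρ rfl (X_congr D ρ rfl (X_congr D ρ (by push_cast; ring) rfl))

theorem c11_5 (t u : F) (v : V) : D.X ρ 5 u (D.X ρ 11 t v) = D.X ρ 11 t (D.X ρ 5 u (D.X ρ 10 (t * u) v)) := by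
  rw [D.com1_app ρ (r := 11) (s := 5) (k := 10) (C := -1) (by decide +kernel)]
  exact X_congr D ρ rfl (X_congr D ρ rfl (X_congr D ρ (by push_cast; ring) rfl))

theorem c5_11 (t u : F) (v : V) : D.X ρ 11 u (D.X ρ 5 t v) = D.X ρ 5 t (D.X ρ 11 u (D.X ρ 10 (-(t * u)) v)) := by
  rw [D.com1_app ρ (r := 5) (s := 11) (k := 10) (C := 1) (by decide +kernel)]
  exact X_congr D ρ rfl (X_congr D ρ rfl (X_congr D ρ (by push_cast; ring) rfl))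

theorem c0_10 (t u : F) (v : V) : D.X ρ 10 u (D.X ρ 0 t v) = D.X ρ 0 t (D.X ρ 10 u (D.X ρ 5 (t * u) v)) := by
  rw [D.com1_app ρ (r := 0) (s := 10) (k := 5) (C := -1) (by decide +kernel)]
  exact X_congr D ρ rfl (X_congr D ρ rfl (X_congr D ρ (by push_cast; ring) rfl))

theorem c1_11 (t u : F) (v : V) : D.X ρ 11 u (D.X ρ 1 t v) = D.X ρ 1 t (D.X ρ 11 u (D.X ρ 6 (t * u) v)) := by
  rw [D.com1_app ρ (r := 1) (s := 11) (k := 6) (C := -1) (by decide +kernel)]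
  exact X_congr D ρ rfl (X_congr D ρ rfl (X_congr D ρ (by push_cast; ring) rfl))

theorem comneg : com 0 1 = true ∧ com 1 0 = true ∧ com 1 6 = true ∧ com 6 1 = true ∧ com 0 5 = true ∧
    com 5 10 = true ∧ com 10 5 = true ∧ com 6 11 = true ∧ com 11 6 = true ∧ com 10 11 = true ∧ com 11 10 = true ∧
    com 8 10 = true ∧ com 8 11 = true ∧ com 6 8 = true ∧ com 8 6 = true := by decide +kernel

/-! ### projections and commuting operators -/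

section pr

variable [Fintype F] {ψ : AddChar F ℂ}

theorem pr_cm {s : ℕ} {g : Module.End ℂ V} (c : F) (h : ∀ u v, D.X ρ s u (g v) = g (D.X ρ s u v)) (v : V) :
    pr ψ (D.X ρ s) c (g v) = g (pr ψ (D.X ρ s) c v) := by
  rw [pr_apply, pr_apply, map_smul, map_sum]
  congr 1
  refine Finset.sum_congr rfl fun t _ => ?_
  rw [h, map_smul]

theorem pr_zero_apply (s : ℕ) (v : V) : pr ψ (D.X ρ s) 0 v = (Fintype.card F : ℂ)⁻¹ • ∑ t : F, D.X ρ s t v := by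
  rw [pr_apply]
  congr 1
  refine Finset.sum_congr rfl fun t _ => ?_
  rw [zero_mul, neg_zero, AddChar.map_zero_eq_one, one_smul]

theorem pr_zero_X (s : ℕ) (t : F) (v : V) : pr ψ (D.X ρ s) 0 (D.X ρ s t v) = pr ψ (D.X ρ s) 0 v := by
  rw [pr_zero_apply, pr_zero_apply]
  congr 1
  rw [← Equiv.sum_comp (Equiv.addRight t) (fun x => D.X ρ s x v)]
  refine Finset.sum_congr rfl fun u _ => ?_
  rw [X_comp, Equiv.coe_addRight]

theorem fixed_pr (s : ℕ) (t : F) (v : V) : D.X ρ s t (pr ψ (D.X ρ s) 0 v) = pr ψ (D.X ρ s) 0 v :=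
  D.X_of_zero ρ ((D.ok_some ρ).2 (pr_mem (D.X_add ρ s) 0 v)) t

/-- the projection to the fixed space of `X_10 X_11` -/
noncomputable def E (ψ : AddChar F ℂ) (v : V) : V := pr ψ (D.X ρ 10) 0 (pr ψ (D.X ρ 11) 0 v)

theorem E_map_add (v w : V) : D.E ρ ψ (v + w) = D.E ρ ψ v + D.E ρ ψ w := by
  unfold E; rw [map_add, map_add]

theorem E_smul (z : ℂ) (v : V) : D.E ρ ψ (z • v) = z • D.E ρ ψ v := by
  unfold E; rw [map_smul, map_smul]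

theorem E_sum {ι : Type*} (s : Finset ι) (f : ι → V) : D.E ρ ψ (∑ i ∈ s, f i) = ∑ i ∈ s, D.E ρ ψ (f i) := by
  unfold E; rw [map_sum, map_sum]

theorem E_swap (v : V) : D.E ρ ψ v = pr ψ (D.X ρ 11) 0 (pr ψ (D.X ρ 10) 0 v) := by
  obtain ⟨-, -, -, -, -, -, -, -, -, h1, h2, -⟩ := comneg
  unfold E
  refine D.pr_cm ρ (g := pr ψ (D.X ρ 11) 0) 0 (fun u w => ?_) v
  exact (D.pr_cm ρ (g := D.X ρ 10 u) 0 (fun u' w' => D.com_app ρ h1 _ _ _) w).symm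

theorem E10 (t : F) (v : V) : D.X ρ 10 t (D.E ρ ψ v) = D.E ρ ψ v := D.fixed_pr ρ 10 t _

theorem E11 (t : F) (v : V) : D.X ρ 11 t (D.E ρ ψ v) = D.E ρ ψ v := by
  rw [E_swap]; exact D.fixed_pr ρ 11 t _

theorem E_M (v : V) : D.E ρ ψ v ∈ D.W ρ ψ none none none none (some 0) (some 0) :=
  ⟨D.okn, D.okn, D.okn, D.okn, D.ok_zero ρ fun t => D.E10 ρ t v, D.ok_zero ρ fun t => D.E11 ρ t v⟩

theorem E_X11 (t : F) (v : V) : D.E ρ ψ (D.X ρ 11 t v) = D.E ρ ψ v := by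
  unfold E; rw [pr_zero_X]

theorem E_X10 (t : F) (v : V) : D.E ρ ψ (D.X ρ 10 t v) = D.E ρ ψ v := by
  rw [E_swap, E_swap, pr_zero_X]

theorem pr_of_fixed {s : ℕ} {v : V} (h : ∀ t, D.X ρ s t v = v) : pr ψ (D.X ρ s) 0 v = v :=
  pr_of_mem ((D.ok_some ρ).1 (D.ok_zero ρ h))

theorem E_of {v : V} (h10 : ∀ t, D.X ρ 10 t v = v) (h11 : ∀ t, D.X ρ 11 t v = v) : D.E ρ ψ v = v := by
  unfold E; rw [D.pr_of_fixed ρ h11, D.pr_of_fixed ρ h10]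

theorem E_X8 (t : F) (v : V) : D.E ρ ψ (D.X ρ 8 t v) = D.X ρ 8 t (D.E ρ ψ v) := by
  obtain ⟨-, -, -, -, -, -, -, -, -, -, -, h1, h2, -⟩ := comneg
  unfold E
  rw [D.pr_cm ρ (g := D.X ρ 8 t) 0 (fun u w => D.com_app ρ h2 _ _ _),
    D.pr_cm ρ (g := D.X ρ 8 t) 0 (fun u w => D.com_app ρ h1 _ _ _)]

theorem E_X6 (t : F) (v : V) : D.E ρ ψ (D.X ρ 6 t v) = D.X ρ 6 t (D.E ρ ψ v) := by
  obtain ⟨-, -, -, -, -, -, -, h1, -⟩ := comneg
  unfold E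
  rw [D.pr_cm ρ (g := D.X ρ 6 t) 0 (fun u w => D.com_app ρ h1 _ _ _)]
  have h2 : ∀ s, D.X ρ 11 s (pr ψ (D.X ρ 11) 0 v) = pr ψ (D.X ρ 11) 0 v := fun s => D.fixed_pr ρ 11 s v
  rw [pr_zero_apply, pr_zero_apply (s := 10), map_smul, map_sum]
  congr 1
  refine Finset.sum_congr rfl fun u _ => ?_
  rw [D.r610, h2]

theorem E_X5 (t : F) (v : V) : D.E ρ ψ (D.X ρ 5 t v) = D.X ρ 5 t (D.E ρ ψ v) := by
  obtain ⟨-, -, -, -, -, h1, -⟩ := comneg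
  rw [E_swap, E_swap]
  rw [D.pr_cm ρ (g := D.X ρ 5 t) 0 (fun u w => D.com_app ρ h1 _ _ _)]
  have h2 : ∀ s, D.X ρ 10 s (pr ψ (D.X ρ 10) 0 v) = pr ψ (D.X ρ 10) 0 v := fun s => D.fixed_pr ρ 10 s v
  rw [pr_zero_apply, pr_zero_apply (s := 11), map_smul, map_sum]
  congr 1
  refine Finset.sum_congr rfl fun u _ => ?_
  rw [D.c5_11, h2]

/-- normalising elements commute with `E` -/
theorem E_norm {g : G} (h10 : ∃ c : F, c ≠ 0 ∧ ∀ u v, D.X ρ 10 (c * u) (ρ g v) = ρ g (D.X ρ 10 u v))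
    (h11 : ∃ c : F, c ≠ 0 ∧ ∀ u v, D.X ρ 11 (c * u) (ρ g v) = ρ g (D.X ρ 11 u v)) (v : V) :
    D.E ρ ψ (ρ g v) = ρ g (D.E ρ ψ v) := by
  have key : ∀ (s : ℕ), (∃ c : F, c ≠ 0 ∧ ∀ u v, D.X ρ s (c * u) (ρ g v) = ρ g (D.X ρ s u v)) → ∀ v,
      pr ψ (D.X ρ s) 0 (ρ g v) = ρ g (pr ψ (D.X ρ s) 0 v) := by
    rintro s ⟨c, hc, h⟩ v
    rw [pr_zero_apply, pr_zero_apply, map_smul, map_sum]
    congr 1
    rw [← Equiv.sum_comp (Equiv.mulLeft₀ c hc) (fun x => D.X ρ s x (ρ g v))]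
    exact Finset.sum_congr rfl fun u _ => h u v
  unfold E
  rw [key 11 h11, key 10 h10]

end pr

/-! ### the vectors `z_t` -/

section zt

variable {ψ : AddChar F ℂ}

/-- the vector `n_t y` -/
noncomputable def zt (t : F) (y : V) : V := D.X ρ 11 (-t⁻¹) (D.X ρ 0 t y)

theorem zt_5 {t : F} (ht : t ≠ 0) {y : V} (h10 : ∀ s, D.X ρ 10 s y = y) (s : F) :
    D.X ρ 5 s (D.zt ρ t y) = D.zt ρ t y := by
  obtain ⟨-, -, -, -, h05, h510, h105, -⟩ := comneg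
  unfold zt
  rw [D.c11_5, D.c0_10]
  have e : t * (-t⁻¹ * s) = -s := by field_simp
  rw [e, D.com_app ρ h05, D.com_app ρ h105, X_neg', h10]

theorem zt_1 {β t : F} (ht : t ≠ 0) {y : V} (h6 : ∀ s, D.X ρ 6 s y = ψ (β * s) • y) (u : F) :
    D.X ρ 1 u (D.zt ρ t y) = ψ (β * (t⁻¹ * u)) • D.zt ρ t y := by
  obtain ⟨h01, -, h16, h61, -⟩ := comneg
  unfold zt
  rw [D.c11_1, D.c0_6, D.com_app ρ h01]
  have e : t * -(-t⁻¹ * u) = u := by field_simp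
  rw [e, D.com_app ρ h61, X_neg', h6, map_smul, map_smul]
  congr 2
  ring

/-- moving `X_1` past `X_0` -/
theorem E_zt [Fintype F] {β t : F} (ht : t ≠ 0) {y : V} (h6 : ∀ s, D.X ρ 6 s y = ψ (β * s) • y) (u : F) :
    D.E ρ ψ (D.X ρ 0 t (D.X ρ 1 u y)) = ψ (β * (t⁻¹ * u)) • D.X ρ 6 (-(t⁻¹ * u)) (D.E ρ ψ (D.zt ρ t y)) := by
  obtain ⟨h01, h10, h16, h61, -⟩ := comneg
  have e0 : D.X ρ 0 t y = D.X ρ 11 t⁻¹ (D.zt ρ t y) := by
    unfold zt; rw [X_neg']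
  rw [D.com_app ρ h10, e0, D.c11_1, E_X11, D.com_app ρ h61, E_X6, D.zt_1 ρ ht h6, E_smul, map_smul]

theorem E_1 [Fintype F] {u : F} (hu : u ≠ 0) {y : V} (h10 : ∀ s, D.X ρ 10 s y = y) (h11 : ∀ s, D.X ρ 11 s y = y) (s : F) :
    D.X ρ 6 s (D.E ρ ψ (D.X ρ 1 u y)) = D.E ρ ψ (D.X ρ 1 u y) := by
  obtain ⟨h01, h10', h16, h61, -, -, -, h611, -⟩ := comneg
  rw [← D.E_X10 ρ (-u⁻¹) (D.X ρ 1 u y), ← E_X6]
  congr 1
  rw [D.r106, D.c1_11, D.com_app ρ h16]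
  have e : u * (-u⁻¹ * s) = -s := by field_simp
  rw [e, D.com_app ρ h611 (-s), X_neg', h11]

end zt

end GD

end H44.GT
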