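import Cfsg.Agent.Lib.H44.GT11

/-!
The argument with cubes.
-/

set_option autoImplicit false
set_option linter.unusedSectionVars false

namespace H44.GT

open Module Cfsg.Lie

variable {F : Type*} [Field F] {G : Type*} [Group G] (D : GD F G)
  {V : Type*} [AddCommGroup V] [Module ℂ V] (ρ : Representation ℂ G V)

namespace GD

/-- `g` carries `X_s` to `X_s'` -/
def NC (e : F) (g : G) (s s' : ℕ) : Prop := e * e = 1 ∧ ∀ t v, D.X ρ s' (e * t) (ρ g v) = ρ g (D.X ρ s t v)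

variable {D ρ}

theorem NC.comp {e e' : F} {g h : G} {s s' s'' : ℕ} (h1 : D.NC ρ e g s s') (h2 : D.NC ρ e' h s' s'') :
    D.NC ρ (e' * e) (h * g) s s'' := by
  refine ⟨by linear_combination (e' * e') * h1.1 + h2.1, fun t v => ?_⟩
  rw [map_mul, Module.End.mul_apply, Module.End.mul_apply, ← h1.2, ← h2.2, mul_assoc]

theorem NC.app {e : F} {g : G} {s s' : ℕ} (h : D.NC ρ e g s s') (t : F) (v : V) :
    D.X ρ s' t (ρ g v) = ρ g (D.X ρ s (e * t) v) := by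
  rw [← h.2, ← mul_assoc, h.1, one_mul]

theorem NC.inv {e : F} {g : G} {s s' : ℕ} (h : D.NC ρ e g s s') : D.NC ρ e g⁻¹ s' s := by
  refine ⟨h.1, fun t v => ?_⟩
  apply ρ_inj ρ g
  rw [inv_app, ← h.2, inv_app, ← mul_assoc, h.1, one_mul]

theorem NC.fix {e : F} {g : G} {s s' : ℕ} (h : D.NC ρ e g s s') {v : V} (hv : ∀ t, D.X ρ s t v = v) (t : F) :
    D.X ρ s' t (ρ g v) = ρ g v := by
  rw [h.app, hv]

theorem NC.wt {ψ : AddChar F ℂ} {e c : F} {g : G} {s s' : ℕ} (h : D.NC ρ e g s s') {v : V}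
    (hv : ∀ t, D.X ρ s t v = ψ (c * t) • v) (t : F) : D.X ρ s' t (ρ g v) = ψ (c * e * t) • ρ g v := by
  rw [h.app, hv, map_smul, mul_assoc]

variable (D ρ)

theorem ncA {s : ℕ} (hs : s < 12) : D.NC ρ (D.ea s) D.na s (sa s) :=
  ⟨by rcases D.ea1 s hs with h | h <;> rw [h] <;> ring, fun t v => D.na_app ρ hs t v⟩

theorem ncB {s : ℕ} (hs : s < 12) : D.NC ρ (D.eb s) D.nb s (sb s) :=
  ⟨by rcases D.eb1 s hs with h | h <;> rw [h] <;> ring, fun t v => D.nb_app ρ hs t v⟩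

/-- the monomial element for `3a+b` -/
def nc : G := D.na * (D.nb * D.na⁻¹)

theorem nc6 : ∃ e, D.NC ρ e D.nc 6 11 :=
  ⟨_, ((D.ncA ρ (s := 10) (by decide)).inv.comp (D.ncB ρ (s := 10) (by decide))).comp (D.ncA ρ (s := 11) (by decide))⟩

theorem nc8 : ∃ e, D.NC ρ e D.nc 8 8 :=
  ⟨_, ((D.ncA ρ (s := 9) (by decide)).inv.comp (D.ncB ρ (s := 9) (by decide))).comp (D.ncA ρ (s := 9) (by decide))⟩

theorem nc0 : ∃ e, D.NC ρ e D.nc 0 5 :=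
  ⟨_, ((D.ncA ρ (s := 0) (by decide)).inv.comp (D.ncB ρ (s := 0) (by decide))).comp (D.ncA ρ (s := 1) (by decide))⟩

theorem nc1 : ∃ e, D.NC ρ e D.nc 1 10 :=
  ⟨_, ((D.ncA ρ (s := 5) (by decide)).inv.comp (D.ncB ρ (s := 5) (by decide))).comp (D.ncA ρ (s := 6) (by decide))⟩

/-- torus elements of `X_r` -/
structure HD (ν : F) (H : G) : Prop where
  n : ∀ t : F, t ≠ 0 → D.x 11 (-(t / ν)⁻¹) * D.x 0 (t / ν) * D.x 11 (-(t / ν)⁻¹) =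
    H * (D.x 11 (-t⁻¹) * D.x 0 t * D.x 11 (-t⁻¹))
  x : ∀ s < 12, ∃ c : F, c ≠ 0 ∧ ∀ u, H * D.x s u = D.x s (c * u) * H

theorem HD.app {D : GD F G} {ν : F} {H : G} (h : D.HD ν H) {s : ℕ} (hs : s < 12) : ∃ c : F, c ≠ 0 ∧ ∀ u v,
    D.X ρ s (c * u) (ρ H v) = ρ H (D.X ρ s u v) := by
  obtain ⟨c, hc, h1⟩ := h.x s hs
  refine ⟨c, hc, fun u v => ?_⟩
  unfold X
  rw [← Module.End.mul_apply, ← Module.End.mul_apply, ← map_mul, ← map_mul, h1]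

theorem HD.zt {D : GD F G} {ν : F} {H : G} (h : D.HD ν H) {t : F} (ht : t ≠ 0) {y : V} (h11 : ∀ s, D.X ρ 11 s y = y) :
    D.zt ρ (t / ν) y = ρ H (D.zt ρ t y) := by
  have h1 := congrArg (fun g => ρ g y) (h.n t ht)
  simp only [map_mul, Module.End.mul_apply] at h1
  have e : ∀ s, ρ (D.x 11 s) y = y := h11
  rw [e, e] at h1
  exact h1

variable [FiniteDimensional ℂ V] {ψ : AddChar F ℂ} [Fintype F]

local notation "q" => Fintype.card F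

/-- scalar action on lines -/
theorem exists_scalar {L : Submodule ℂ V} (hL : finrank ℂ L ≤ 1) (g : V →ₗ[ℂ] V) (hg : ∀ v ∈ L, g v ∈ L) :
    ∃ X : ℂ, ∀ v ∈ L, g v = X • v := by
  rcases Nat.lt_or_ge (finrank ℂ L) 1 with h | h
  · have h0 : finrank ℂ L = 0 := by omega
    have := Submodule.finrank_eq_zero.1 h0
    refine ⟨1, fun v hv => ?_⟩
    rw [this, Submodule.mem_bot] at hv
    rw [hv, map_zero, smul_zero]
  · have h1 : finrank ℂ L = 1 := le_antisymm hL h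
    obtain ⟨v0, hv0, hs⟩ := finrank_eq_one_iff'.1 h1
    obtain ⟨c, hc⟩ := hs ⟨g v0, hg v0 v0.2⟩
    refine ⟨c, fun v hv => ?_⟩
    obtain ⟨d, hd⟩ := hs ⟨v, hv⟩
    have e1 : d • (v0 : V) = v := congrArg Subtype.val hd
    have e2 : c • (v0 : V) = g v0 := congrArg Subtype.val hc
    rw [← e1, map_smul, ← e2, smul_comm]

/-- the fixed space of `X_{-b} X_10 X_11` -/
def LL : Submodule ℂ V where
  carrier := {v | (∀ t, D.X ρ 5 t v = v) ∧ (∀ t, D.X ρ 10 t v = v) ∧ ∀ t, D.X ρ 11 t v = v}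
  add_mem' := by
    rintro a b ⟨h1, h2, h3⟩ ⟨g1, g2, g3⟩
    exact ⟨fun t => by rw [map_add, h1, g1], fun t => by rw [map_add, h2, g2], fun t => by rw [map_add, h3, g3]⟩
  zero_mem' := ⟨fun t => map_zero _, fun t => map_zero _, fun t => map_zero _⟩
  smul_mem' := by
    rintro z a ⟨h1, h2, h3⟩
    exact ⟨fun t => by rw [map_smul, h1], fun t => by rw [map_smul, h2], fun t => by rw [map_smul, h3]⟩

omit [Fintype F] in
theorem LL_le : finrank ℂ (D.LL ρ) ≤ D.dm ρ ψ none (some 0) none none (some 0) (some 0) := by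
  apply le_move ρ D.nb
  rintro v ⟨h1, h2, h3⟩
  exact ⟨D.okn, D.ok_zero ρ ((D.ncB ρ (s := 5) (by decide)).fix h1), D.okn, D.okn,
    D.ok_zero ρ ((D.ncB ρ (s := 11) (by decide)).fix h3), D.ok_zero ρ ((D.ncB ρ (s := 10) (by decide)).fix h2)⟩

omit [Fintype F] in
theorem HD.LL {ν : F} {H : G} (h : D.HD ν H) {v : V} (hv : v ∈ D.LL ρ) : ρ H v ∈ D.LL ρ := by
  have key : ∀ s < 12, (∀ t, D.X ρ s t v = v) → ∀ t, D.X ρ s t (ρ H v) = ρ H v := by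
    intro s hs hf t
    obtain ⟨c, hc, h1⟩ := h.app ρ hs
    have := h1 (c⁻¹ * t) v
    rw [mul_inv_cancel_left₀ hc, hf] at this
    exact this
  exact ⟨key 5 (by decide) hv.1, key 10 (by decide) hv.2.1, key 11 (by decide) hv.2.2⟩

/-- the function `S` -/
noncomputable def Sf (ψ : AddChar F ℂ) (β : F) (y : V) (t : F) : V :=
  pr ψ (D.X ρ 6) β (D.E ρ ψ (D.X ρ 0 t (∑ u, D.X ρ 1 u y)))

theorem Sf_zero (hψ : ψ.IsPrimitive) {β : F} (hβ : β ≠ 0) {y : V} (h6 : ∀ s, D.X ρ 6 s y = ψ (β * s) • y)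
    (h10 : ∀ s, D.X ρ 10 s y = y) (h11 : ∀ s, D.X ρ 11 s y = y) : D.Sf ρ ψ β y 0 = y := by
  classical
  unfold Sf
  rw [X_zero_app, E_sum, map_sum, Finset.sum_eq_single 0]
  · rw [X_zero_app, D.E_of ρ h10 h11]
    exact pr_of_mem h6
  · intro u _ hu
    refine pr_of_ne hψ hβ (v := D.E ρ ψ (D.X ρ 1 u y)) (c := 0) ?_
    exact (D.ok_some ρ).1 (D.ok_zero ρ fun s => D.E_1 ρ hu h10 h11 s)
  · intro h; exact absurd (Finset.mem_univ _) h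

theorem Sf_ne {β : F} {y : V} (h6 : ∀ s, D.X ρ 6 s y = ψ (β * s) • y) {t : F} (ht : t ≠ 0) :
    D.Sf ρ ψ β y t = (q : ℂ) • pr ψ (D.X ρ 6) β (D.E ρ ψ (D.zt ρ t y)) := by
  unfold Sf
  rw [map_sum, E_sum, map_sum]
  have h1 : ∀ u ∈ (Finset.univ : Finset F), pr ψ (D.X ρ 6) β (D.E ρ ψ (D.X ρ 0 t (D.X ρ 1 u y))) =
      pr ψ (D.X ρ 6) β (ψ (β * (t⁻¹ * u)) • D.X ρ 6 (-(t⁻¹ * u)) (D.E ρ ψ (D.zt ρ t y))) := by
    intro u _
    rw [D.E_zt ρ ht h6]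
  rw [Finset.sum_congr rfl h1, ← map_sum]
  have h2 : ∑ u : F, ψ (β * (t⁻¹ * u)) • D.X ρ 6 (-(t⁻¹ * u)) (D.E ρ ψ (D.zt ρ t y)) =
      (q : ℂ) • pr ψ (D.X ρ 6) β (D.E ρ ψ (D.zt ρ t y)) := by
    rw [pr_apply, smul_smul, mul_inv_cancel₀ cardF_ne, one_smul]
    refine Fintype.sum_equiv ((Equiv.mulLeft₀ t⁻¹ (inv_ne_zero ht)).trans (Equiv.neg F)) _ _ fun u => ?_
    show ψ (β * (t⁻¹ * u)) • D.X ρ 6 (-(t⁻¹ * u)) _ = ψ (-(β * -(t⁻¹ * u))) • D.X ρ 6 (-(t⁻¹ * u)) _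
    congr 2
    ring
  rw [h2, map_smul]
  congr 1
  exact pr_of_mem (pr_mem (D.X_add ρ 6) β _)

theorem Sf_eqv {β : F} {y : V} (h6 : ∀ s, D.X ρ 6 s y = ψ (β * s) • y)
    (h10 : ∀ s, D.X ρ 10 s y = y) (h11 : ∀ s, D.X ρ 11 s y = y)
    (hd : D.dm ρ ψ none (some 0) none none (some 0) (some 0) ≤ 1) {ν : F} (hν : ν ≠ 0) {H : G} (hH : D.HD ν H) :
    ∃ X : ℂ, ∀ t : F, t ≠ 0 → D.Sf ρ ψ β y (t / ν) = X • D.Sf ρ ψ β y t := by
  obtain ⟨X, hX⟩ := exists_scalar ((D.LL_le ρ).trans hd) (ρ H) fun v hv => hH.LL D ρ hv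
  refine ⟨X, fun t ht => ?_⟩
  rw [D.Sf_ne ρ h6 (div_ne_zero ht hν), D.Sf_ne ρ h6 ht, hH.zt ρ ht h11,
    D.E_norm ρ (hH.app ρ (by decide)) (hH.app ρ (by decide)), hX, map_smul, smul_comm]
  refine ⟨fun s => ?_, fun s => D.E10 ρ s _, fun s => D.E11 ρ s _⟩
  rw [← E_X5, D.zt_5 ρ ht h10]

end GD

end H44.GT
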