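import Cfsg.Agent.Lib.H44.GT12

/-!
The argument with cubes, conclusion.
-/

set_option autoImplicit false
set_option linter.unusedSectionVars false

namespace H44.GT

open Module Cfsg.Lie

variable {F : Type*} [Field F] {G : Type*} [Group G] (D : GD F G)
  {V : Type*} [AddCommGroup V] [Module ℂ V] (ρ : Representation ℂ G V)

namespace GD

local notation "q" => Fintype.card F

variable [FiniteDimensional ℂ V] {ψ : AddChar F ℂ} [Fintype F]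

omit [FiniteDimensional ℂ V] in
theorem pr9_7 {κ : F} {w : V} (h7 : ∀ t, D.X ρ 7 t w = w) (h10 : ∀ t, D.X ρ 10 t w = ψ (κ * t) • w) (t : F) :
    D.X ρ 7 t (pr ψ (D.X ρ 9) 0 w) = pr ψ (D.X ρ 9) (-(3 * κ * t)) w := by
  rw [pr_apply, pr_apply, map_smul, map_sum]
  congr 1
  refine Finset.sum_congr rfl fun u _ => ?_
  have h1 := D.r79 ρ t u (D.X ρ 10 (3 * t * u) w)
  rw [D.X_neg, h10, map_smul, map_smul, h7] at h1
  rw [map_smul, ← h1, zero_mul, neg_zero, AddChar.map_zero_eq_one, one_smul]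
  congr 2
  ring

omit [FiniteDimensional ℂ V] in
theorem sum_pr9 (hψ : ψ.IsPrimitive) (h3 : (3 : F) ≠ 0) {κ : F} (hκ : κ ≠ 0) (w : V) :
    ∑ t : F, pr ψ (D.X ρ 9) (-(3 * κ * t)) w = w := by
  have h1 := sum_pr hψ (D.X_zero ρ 9) w
  have h2 : -(3 * κ) ≠ 0 := neg_ne_zero.2 (mul_ne_zero h3 hκ)
  rw [← Equiv.sum_comp (Equiv.mulLeft₀ _ h2)] at h1
  refine Eq.trans (Finset.sum_congr rfl fun t _ => ?_) h1
  show _ = pr ψ (D.X ρ 9) (-(3 * κ) * t) w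
  congr 2
  ring

omit [FiniteDimensional ℂ V] in
theorem wt6 {κ : F} {w : V} (h6 : ∀ t, D.X ρ 6 t w = w) (h8 : ∀ t, D.X ρ 8 t w = w) (h9 : ∀ t, D.X ρ 9 t w = w)
    (h10 : ∀ t, D.X ρ 10 t w = ψ (κ * t) • w) (h11 : ∀ t, D.X ρ 11 t w = w) (t : F) :
    D.X ρ 7 t w ∈ wsp ψ (D.X ρ 6) (-(t ^ 3 * κ)) := by
  intro u
  rw [D.r76, h11, h10, map_smul, map_smul, map_smul, map_smul, h9, h8, h6]
  congr 2
  ring

/-- the functional -/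
noncomputable def Lam (ψ : AddChar F ℂ) (u : V) : V := pr ψ (D.X ρ 6) 1 (D.E ρ ψ (ρ D.nc⁻¹ (ρ D.nb⁻¹ u)))

omit [FiniteDimensional ℂ V] in
theorem Lam_sum {ι : Type*} (s : Finset ι) (f : ι → V) : D.Lam ρ ψ (∑ i ∈ s, f i) = ∑ i ∈ s, D.Lam ρ ψ (f i) := by
  unfold Lam; rw [map_sum, map_sum, E_sum, map_sum]

omit [FiniteDimensional ℂ V] in
theorem Lam_smul (z : ℂ) (v : V) : D.Lam ρ ψ (z • v) = z • D.Lam ρ ψ v := by
  unfold Lam; rw [map_smul, map_smul, E_smul, map_smul]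

omit [FiniteDimensional ℂ V] in
/-- direct expansion of `Lam` -/
theorem Lam_dir {e0 e1 : F} (n0 : D.NC ρ e0 D.nc 0 5) (n1 : D.NC ρ e1 D.nc 1 10) (y : V) (t : F) :
    D.Lam ρ ψ (D.X ρ 6 t (ρ D.nb (pr ψ (D.X ρ 10) 0 (ρ D.nc y)))) = (q : ℂ)⁻¹ • D.Sf ρ ψ 1 y (e0 * D.eb 5 * t) := by
  unfold Lam Sf
  have e6 : D.X ρ 6 t (ρ D.nb (pr ψ (D.X ρ 10) 0 (ρ D.nc y))) =
      ρ D.nb (D.X ρ 5 (D.eb 5 * t) (pr ψ (D.X ρ 10) 0 (ρ D.nc y))) := (D.ncB ρ (s := 5) (by decide)).app t _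
  rw [e6, inv_app', ← n0.inv.2, pr_zero_apply]
  have e8 : ρ D.nc⁻¹ ((q : ℂ)⁻¹ • ∑ u : F, D.X ρ 10 u (ρ D.nc y)) = (q : ℂ)⁻¹ • ∑ u : F, D.X ρ 1 u y := by
    rw [map_smul, map_sum]
    congr 1
    have he : e1 ≠ 0 := fun h => by
      have := n1.1
      rw [h, mul_zero] at this
      exact zero_ne_one this
    refine Fintype.sum_equiv (Equiv.mulLeft₀ e1 he) _ _ fun u => ?_
    show _ = D.X ρ 1 (e1 * u) y
    rw [n1.app, inv_app']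
  rw [e8, map_smul, E_smul, map_smul]
  congr 3
  rw [mul_assoc]

theorem cubes (hψ : ψ.IsPrimitive) (h3 : (3 : F) ≠ 0) (hN : D.Nq ρ ψ = 1) (hq : 5 ≤ q)
    (hd : D.dm ρ ψ none (some 0) none none (some 0) (some 0) ≤ 1) {ν : F} (hν : ν ≠ 0)
    (hν1 : ∀ t : F, t ^ 3 ≠ ν) (hν2 : ∀ t : F, t ^ 3 ≠ ν ^ 2) {H : G} (hH : D.HD ν H) : False := by
  classical
  -- the vector `y`
  obtain ⟨y, hy, hy0⟩ : ∃ y ∈ D.W ρ ψ none (some 1) none none (some 0) (some 0), y ≠ 0 := by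
    apply Submodule.exists_mem_ne_zero_of_ne_bot
    intro h
    have h1 := D.s2 ρ hψ h3 hN hq (one_ne_zero (α := F))
    unfold dm at h1
    rw [h, finrank_bot] at h1
    exact zero_ne_one h1
  have y8 : ∀ t, D.X ρ 8 t y = y := D.X_of_zero ρ (D.fixA ρ hψ h3 hN hq one_ne_zero hy)
  have y6 : ∀ t, D.X ρ 6 t y = ψ (1 * t) • y := (D.ok_some ρ).1 hy.2.1
  have y10 : ∀ t, D.X ρ 10 t y = y := D.X_of_zero ρ hy.2.2.2.2.1
  have y11 : ∀ t, D.X ρ 11 t y = y := D.X_of_zero ρ hy.2.2.2.2.2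
  obtain ⟨e6, n6⟩ := D.nc6 ρ
  obtain ⟨e8, n8⟩ := D.nc8 ρ
  obtain ⟨e0, n0⟩ := D.nc0 ρ
  obtain ⟨e1, n1⟩ := D.nc1 ρ
  obtain ⟨c6, c7, c8, c9, c10, c107, c108, c109, c1011, c96, c910, c911, c86, c810, c811, c710, c711, -⟩ := coms
  -- the vector `u1`
  set u1 : V := pr ψ (D.X ρ 10) 0 (ρ D.nc y) with hu1
  have u8 : ∀ t, D.X ρ 8 t u1 = u1 := by
    intro t
    rw [hu1, ← D.pr_cm ρ (g := D.X ρ 8 t) 0 (fun a b => D.com_app ρ c810 _ _ _), n8.fix y8]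
  have u10 : ∀ t, D.X ρ 10 t u1 = u1 := fun t => D.fixed_pr ρ 10 t _
  have u11 : ∀ t, D.X ρ 11 t u1 = ψ (1 * e6 * t) • u1 := by
    intro t
    rw [hu1, ← D.pr_cm ρ (g := D.X ρ 11 t) 0 (fun a b => D.com_app ρ c10 _ _ _), n6.wt y6, map_smul]
  -- the vector `w`
  set w : V := ρ D.nb u1 with hw
  set κ : F := 1 * e6 * D.eb 11 with hκ
  have hκ0 : κ ≠ 0 := by
    have h5 := n6.1
    have h6 : D.eb 11 ≠ 0 := D.eb_ne (by decide)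
    have h7 : e6 ≠ 0 := fun h => by
      rw [h, mul_zero] at h5
      exact zero_ne_one h5
    rw [hκ, one_mul]
    exact mul_ne_zero h7 h6
  have w7 : ∀ t, D.X ρ 7 t w = w := (D.ncB ρ (s := 8) (by decide)).fix u8
  have w11 : ∀ t, D.X ρ 11 t w = w := (D.ncB ρ (s := 10) (by decide)).fix u10
  have w10 : ∀ t, D.X ρ 10 t w = ψ (κ * t) • w := (D.ncB ρ (s := 11) (by decide)).wt u11
  -- the vector `w0`
  set w0 : V := pr ψ (D.X ρ 9) 0 w with hw0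
  have z9 : ∀ t, D.X ρ 9 t w0 = w0 := fun t => D.fixed_pr ρ 9 t _
  have z10 : ∀ t, D.X ρ 10 t w0 = ψ (κ * t) • w0 := by
    intro t
    rw [hw0, ← D.pr_cm ρ (g := D.X ρ 10 t) 0 (fun a b => D.com_app ρ c109 _ _ _), w10, map_smul]
  have z11 : ∀ t, D.X ρ 11 t w0 = w0 := by
    intro t
    rw [hw0, ← D.pr_cm ρ (g := D.X ρ 11 t) 0 (fun a b => D.com_app ρ c9 _ _ _), w11]
  have hW0 := D.fixD ρ hψ h3 hN hq hκ0 (y := w0)
    ⟨D.okn, D.okn, D.okn, D.ok_zero ρ z9, (D.ok_some ρ).2 z10, D.ok_zero ρ z11⟩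
  have z6 : ∀ t, D.X ρ 6 t w0 = w0 := D.X_of_zero ρ hW0.2.1
  have z8 : ∀ t, D.X ρ 8 t w0 = w0 := D.X_of_zero ρ hW0.2.2.1
  have hsum : ∑ t : F, D.X ρ 7 t w0 = w := by
    refine Eq.trans (Finset.sum_congr rfl fun t _ => ?_) (D.sum_pr9 ρ hψ h3 hκ0 w)
    rw [hw0, D.pr9_7 ρ w7 w10]
  -- first evaluation
  have hL : ∀ t, D.Lam ρ ψ (D.X ρ 7 t w0) = D.Lam ρ ψ w0 := by
    intro t
    unfold Lam
    have k1 : D.NC ρ (D.eb 8) D.nb⁻¹ 7 8 := (D.ncB ρ (s := 8) (by decide)).inv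
    rw [← k1.2 t w0, ← n8.inv.2, E_X8, D.fixC ρ hψ h3 hN hq hd (D.E_M ρ _)]
  have h6γ : ∀ γ, D.Lam ρ ψ (pr ψ (D.X ρ 6) γ w) =
      ((Finset.univ.filter fun t : F => -(t ^ 3 * κ) = γ).card : ℂ) • D.Lam ρ ψ w0 := by
    intro γ
    rw [← hsum, map_sum, Lam_sum]
    have h7 : ∀ t ∈ (Finset.univ : Finset F), D.Lam ρ ψ (pr ψ (D.X ρ 6) γ (D.X ρ 7 t w0)) =
        if -(t ^ 3 * κ) = γ then D.Lam ρ ψ w0 else 0 := by
      intro t _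
      have h8 := D.wt6 ρ z6 z8 z9 z10 z11 t
      split_ifs with h
      · rw [← h, pr_of_mem h8, hL]
      · rw [pr_of_ne hψ (Ne.symm h) h8]
        unfold Lam E
        simp
    rw [Finset.sum_congr rfl h7, ← Finset.sum_filter, Finset.sum_const, ← Nat.cast_smul_eq_nsmul ℂ]
  -- second evaluation
  have h6d : ∀ γ, D.Lam ρ ψ (pr ψ (D.X ρ 6) γ w) =
      (q : ℂ)⁻¹ • (q : ℂ)⁻¹ • ∑ t : F, ψ (-(γ * t)) • D.Sf ρ ψ 1 y (e0 * D.eb 5 * t) := by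
    intro γ
    rw [pr_apply, Lam_smul, Lam_sum]
    congr 1
    rw [Finset.smul_sum]
    refine Finset.sum_congr rfl fun t _ => ?_
    rw [Lam_smul, hw, hu1, D.Lam_dir ρ n0 n1, smul_comm]
  set σ : F := e0 * D.eb 5 with hσ
  have hσ1 : σ * σ = 1 := by
    have h5 := n0.1
    have h6 : D.eb 5 * D.eb 5 = 1 := (D.ncB ρ (s := 5) (by decide)).1
    rw [hσ]
    linear_combination (D.eb 5 * D.eb 5) * h5 + h6
  have hσ0 : σ ≠ 0 := fun h => by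
    rw [h, mul_zero] at hσ1
    exact zero_ne_one hσ1
  obtain ⟨X, hX⟩ := D.Sf_eqv ρ (ψ := ψ) y6 y10 y11 hd hν hH
  refine AF hψ hy0 (D.Sf ρ ψ 1 y) (D.Sf_zero ρ hψ one_ne_zero y6 y10 y11) (κ := -(κ * σ))
    (neg_ne_zero.2 (mul_ne_zero hκ0 hσ0)) hν hν1 hν2 (z := (q : ℂ) • (q : ℂ) • D.Lam ρ ψ w0) (X := X) ?_ hX
  intro γ
  have h9 := (h6d (γ * σ)).symm.trans (h6γ (γ * σ))
  have h10 : ∑ t : F, ψ (-(γ * σ * t)) • D.Sf ρ ψ 1 y (σ * t) = ∑ t : F, ψ (-(γ * t)) • D.Sf ρ ψ 1 y t := by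
    refine Fintype.sum_equiv (Equiv.mulLeft₀ σ hσ0) _ _ fun t => ?_
    show _ = ψ (-(γ * (σ * t))) • D.Sf ρ ψ 1 y (σ * t)
    congr 2
    ring
  rw [h10] at h9
  have h11 : (Finset.univ.filter fun t : F => -(t ^ 3 * κ) = γ * σ) =
      Finset.univ.filter fun t : F => t ^ 3 * -(κ * σ) = γ := by
    ext t
    simp only [Finset.mem_filter, Finset.mem_univ, true_and]
    constructor
    · intro h
      linear_combination σ * h + γ * hσ1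
    · intro h
      linear_combination σ * h + (t ^ 3 * κ) * hσ1
  rw [h11] at h9
  have hq0 : (q : ℂ) ≠ 0 := cardF_ne
  have h12 := congrArg (fun v => (q : ℂ) • (q : ℂ) • v) h9
  rw [smul_comm (q : ℂ) (q : ℂ)⁻¹, smul_inv_smul₀ hq0, smul_inv_smul₀ hq0] at h12
  rw [h12, smul_comm (q : ℂ) ((Finset.card _ : ℂ)), smul_comm (q : ℂ) ((Finset.card _ : ℂ))]

end GD

end H44.GT
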