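import Cfsg.Agent.Lib.H44.GT13

/-!
The case with cube roots of unity.
-/

set_option autoImplicit false
set_option linter.unusedSectionVars false

namespace H44.GT

open Module Cfsg.Lie

theorem exists_noncube {F : Type*} [Field F] [Fintype F] (h : Fintype.card F % 3 = 1) :
    ∃ ν : F, ν ≠ 0 ∧ (∀ t : F, t ^ 3 ≠ ν) ∧ ∀ t : F, t ^ 3 ≠ ν ^ 2 := by
  classical
  have hns : ¬ Function.Surjective (powMonoidHom 3 : Fˣ →* Fˣ) := by
    intro hs
    have hi := Finite.injective_iff_surjective.2 hs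
    have : Fact (Nat.Prime 3) := ⟨by norm_num⟩
    have hd : 3 ∣ Fintype.card Fˣ := by
      rw [Fintype.card_units]
      omega
    obtain ⟨x, hx⟩ := exists_prime_orderOf_dvd_card 3 hd
    have h1 : x ^ 3 = 1 := by rw [← hx]; exact pow_orderOf_eq_one x
    have h2 : x = 1 := hi (by simp [powMonoidHom, h1])
    rw [h2, orderOf_one] at hx
    omega
  unfold Function.Surjective at hns
  push Not at hns
  obtain ⟨ν, hν⟩ := hns
  have h1 : ∀ t : F, t ^ 3 ≠ (ν : F) := by
    intro t ht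
    have ht0 : t ≠ 0 := by
      rintro rfl
      rw [zero_pow (by norm_num)] at ht
      exact ν.ne_zero ht.symm
    apply hν (Units.mk0 t ht0)
    apply Units.ext
    simpa [powMonoidHom] using ht
  refine ⟨ν, ν.ne_zero, h1, fun t ht => ?_⟩
  have ht0 : t ≠ 0 := by
    rintro rfl
    rw [zero_pow (by norm_num)] at ht
    exact pow_ne_zero 2 ν.ne_zero ht.symm
  apply h1 (ν / t)
  rw [div_pow, ht]
  field_simp

variable {F : Type*} [Field F] {G : Type*} [Group G] (D : GD F G)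
  {V : Type*} [AddCommGroup V] [Module ℂ V] (ρ : Representation ℂ G V)

namespace GD

local notation "q" => Fintype.card F

theorem final1 [FiniteDimensional ℂ V] {ψ : AddChar F ℂ} [Fintype F] (hψ : ψ.IsPrimitive) (h3 : (3 : F) ≠ 0)
    (hq : 5 ≤ q) (hm : q % 3 = 1) (hW : 0 < D.dm ρ ψ none none none none none (some 1))
    (hH : ∀ ν : F, ν ≠ 0 → ∃ H : G, D.HD ν H) : q ^ 3 + 1 ≤ finrank ℂ V := by
  by_cases hN : D.Nq ρ ψ = 1
  · by_contra hcon
    have h1 := D.dimq ρ hψ h3 hN hq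
    obtain ⟨ν, hν, hν1, hν2⟩ := exists_noncube (F := F) hm
    obtain ⟨H, hH⟩ := hH ν hν
    exact D.cubes ρ hψ h3 hN hq (by omega) hν hν1 hν2 hH
  · exact (D.final2 ρ hψ h3 hq hW).2 hN

end GD

end H44.GT
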