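import Cfsg.Agent.Lib.H44.GT14
import Cfsg.Agent.Lib.H22.ChevAll
import Cfsg.Agent.Lib.H22.PoinG2
import Cfsg.Agent.Lib.H22.TwChev

/-!
The relations of `G₂(F)`.
-/

set_option autoImplicit false
set_option linter.unusedSectionVars false

namespace H44.GT

open Module Cfsg.Lie
open H22.RGD H22.Coord H22.RCCheck H22.RCComb H22.ChevTri H22.ChevRel H22.ChevSys H22.ChevMain
open scoped MatrixGroups Matrix

variable (F : Type*) [Field F]

theorem RG : Rel chevG2 F := H22.ChevAll.rel _ (by simp) F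

/-- root elements -/
noncomputable def gx (s : ℕ) (t : F) : chevG2.group F :=
  ⟨xg (RG F) s t, H22.TwChev.xg_mem_group' (RG F) s t⟩

theorem gx_val (s : ℕ) (t : F) : ((gx F s t : chevG2.group F) : GL chevG2.Idx F) = xg (RG F) s t := rfl

theorem wg_mem_group (w : List (ℕ × F)) : wg (RG F) w ∈ chevG2.group F :=
  wg_mem _ w fun p _ => H22.TwChev.xg_mem_group' (RG F) p.1 p.2

/-- `n_i` -/
noncomputable def gn (i : ℕ) : chevG2.group F := ⟨ns (RG F) i, wg_mem_group F _⟩

/-- `h_i` -/
noncomputable def gh (i : ℕ) (c : F) : chevG2.group F := ⟨hs (RG F) i c, wg_mem_group F _⟩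

theorem gsign (i : Fin 2) : ∃ η : ℕ → F, (∀ s < 12, η s = 1 ∨ η s = -1) ∧
    ∀ s < 12, ∀ t, gn F i * gx F s t = gx F (chevG2.reflectRoot i s) (η s * t) * gn F i := by
  obtain ⟨η, h1, h2⟩ := exists_sign (RG F) (i : Fin chevG2.rank)
  refine ⟨η, fun s hs => (h1 s hs).1, fun s hs t => ?_⟩
  apply Subtype.ext
  have := h2 s hs t
  rw [mul_inv_eq_iff_eq_mul] at this
  exact this

theorem sa_eq : ∀ s < 12, chevG2.reflectRoot 0 s = sa s := by decide +kernel

theorem sb_eq : ∀ s < 12, chevG2.reflectRoot 1 s = sb s := by decide +kernel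

theorem ca_eq : ∀ s < 12, chevG2.cartan 0 s = ca s := by decide +kernel

theorem cb_eq : ∀ s < 12, chevG2.cartan 1 s = cb s := by decide +kernel

theorem gh_x {i : ℕ} (hi : i < 2) {c : F} (hc : c ≠ 0) {s : ℕ} (hs : s < 12) (t : F) :
    gh F i c * gx F s t = gx F s (c ^ chevG2.cartan i s * t) * gh F i c := by
  apply Subtype.ext
  have := hs_conj (RG F) hi hc hs H22.PoinG2.rcxG2.rc t
  rw [mul_inv_eq_iff_eq_mul] at this
  exact this

/-- the instance -/
noncomputable def gd : GD F (chevG2.group F) where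
  x := gx F
  x_add r t u := Subtype.ext (xg_mul (RG F) r t u).symm
  na := gn F 0
  nb := gn F 1
  ea := Classical.choose (gsign F 0)
  eb := Classical.choose (gsign F 1)
  ea1 := (Classical.choose_spec (gsign F 0)).1
  eb1 := (Classical.choose_spec (gsign F 1)).1
  na_x s hs t := by
    rw [← sa_eq s hs]
    exact (Classical.choose_spec (gsign F 0)).2 s hs t
  nb_x s hs t := by
    rw [← sb_eq s hs]
    exact (Classical.choose_spec (gsign F 1)).2 s hs t
  h l m := gh F 0 l * gh F 1 m
  h_x l m hl hm s hs t := by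
    rw [← ca_eq s hs, ← cb_eq s hs, mul_assoc, gh_x F (by decide) hm hs, ← mul_assoc, gh_x F (by decide) hl hs,
      mul_assoc, mul_assoc]
  comm r hr s hs h1 h2 t u := by
    apply Subtype.ext
    have h := comm_g (RG F) (D := chevG2) hr hs h1 h2 t u
    have e : ((((chevG2.commTerms r s).map fun c => gx F c.1 ((c.2.1 : F) * (-t) ^ c.2.2.1 * u ^ c.2.2.2)).prod :
        chevG2.group F) : GL chevG2.Idx F) = wg (RG F) (chevG2.commWord F r s t u) := by
      unfold wg ChevalleyDatum.commWord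
      rw [SubmonoidClass.coe_list_prod, List.map_map, List.map_map]
      rfl
    rw [Subgroup.coe_mul, Subgroup.coe_mul, Subgroup.coe_mul, e]
    exact h

end H44.GT
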