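import Cfsg.Agent.Lib.H44.GT7
import Cfsg.Agent.Lib.H4.Integral

/-!
The bound in characteristic three.
-/

set_option autoImplicit false
set_option linter.unusedSectionVars false

namespace H44.GT

open Module Cfsg.Lie

section tr

variable {F : Type*} [Field F] [Fintype F] {V : Type*} [AddCommGroup V] [Module ℂ V] [FiniteDimensional ℂ V]
  {ψ : AddChar F ℂ} {X : F → Module.End ℂ V}

theorem trace_pr (hX : ∀ t u, X (t + u) = X t * X u) (c : F) :
    LinearMap.trace ℂ V (pr ψ X c) = (finrank ℂ (wsp ψ X c) : ℂ) :=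
  LinearMap.IsProj.trace ⟨pr_mem hX c, fun _ hv => pr_of_mem hv⟩

theorem trace_X (hψ : ψ.IsPrimitive) (hX : ∀ t u, X (t + u) = X t * X u) (h0 : X 0 = 1) (t : F) :
    LinearMap.trace ℂ V (X t) = ∑ c : F, ψ (c * t) * (finrank ℂ (wsp ψ X c) : ℂ) := by
  have h : X t = ∑ c : F, ψ (c * t) • pr ψ X c := by
    ext v
    rw [LinearMap.sum_apply]
    conv_lhs => rw [← sum_pr hψ h0 v, map_sum]
    refine Finset.sum_congr rfl fun c _ => ?_
    rw [LinearMap.smul_apply]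
    exact pr_mem hX c v t
  rw [h, map_sum]
  refine Finset.sum_congr rfl fun c _ => ?_
  rw [map_smul, trace_pr hX, smul_eq_mul]

end tr

theorem div0 {y : ℤ} (hy : 81 ≤ y) {d : ℤ} (hd : d = 0 ∨ d = 1 ∨ d = 2)
    (h : (y ^ 2 + y - 2 + d) ∣ (y ^ 3 - 1) * (y - 2 + d)) : False := by
  rcases hd with rfl | rfl | rfl
  · have h1 : (y ^ 2 + y - 2 + 0) ∣ 12 * (y - 1) := by
      have e : 12 * (y - 1) = (y ^ 2 + y - 2 + 0) * (y ^ 2 - 3 * y + 5) - (y ^ 3 - 1) * (y - 2 + 0) := by ring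
      rw [e]
      exact dvd_sub (dvd_mul_right _ _) h
    have h2 := Int.le_of_dvd (by linarith) h1
    nlinarith
  · have h1 : (y ^ 2 + y - 2 + 1) ∣ 6 * y - 4 := by
      have e : 6 * y - 4 = (y ^ 2 + y - 2 + 1) * (y ^ 2 - 2 * y + 3) - (y ^ 3 - 1) * (y - 2 + 1) := by ring
      rw [e]
      exact dvd_sub (dvd_mul_right _ _) h
    have h2 := Int.le_of_dvd (by linarith) h1
    nlinarith
  · have h1 : (y ^ 2 + y - 2 + 2) ∣ 2 * y := by
      have e : 2 * y = (y ^ 2 + y - 2 + 2) * (y ^ 2 - y + 1) - (y ^ 3 - 1) * (y - 2 + 2) := by ring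
      rw [e]
      exact dvd_sub (dvd_mul_right _ _) h
    have h2 := Int.le_of_dvd (by linarith) h1
    nlinarith

universe u v

variable {F : Type*} [Field F] {G : Type u} [Group G] (D : GD F G)
  {V : Type v} [AddCommGroup V] [Module ℂ V] (ρ : Representation ℂ G V)

namespace GD

variable [FiniteDimensional ℂ V] [Fintype F] {ψ : AddChar F ℂ} (hψ : ψ.IsPrimitive) (h3 : (3 : F) = 0)

local notation "q" => Fintype.card F

omit [Fintype F] [FiniteDimensional ℂ V] in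
theorem W11 (r : F) : D.W ρ ψ none none none none none (some r) = wsp ψ (D.X ρ 11) r := by
  ext v
  simp only [mem_W, ok_none, ok_some, mem_wsp]
  tauto

include hψ

theorem char_z {D0 D1 : ℕ} (h0 : D.dm ρ ψ none none none none none (some 0) = D0)
    (h1 : ∀ r, r ≠ 0 → D.dm ρ ψ none none none none none (some r) = D1) :
    ρ.character (D.x 11 1) = (D0 : ℂ) - D1 := by
  classical
  have h : ρ.character (D.x 11 1) = LinearMap.trace ℂ V (D.X ρ 11 1) := rfl
  rw [h, trace_X hψ (D.X_add ρ 11) (D.X_zero ρ 11)]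
  have e : ∀ c : F, ψ (c * 1) * (finrank ℂ (wsp ψ (D.X ρ 11) c) : ℂ) =
      ψ (1 * c) * D1 + if c = 0 then ((D0 : ℂ) - D1) else 0 := by
    intro c
    rw [← D.W11 ρ]
    have e2 : finrank ℂ (D.W ρ ψ none none none none none (some c)) = D.dm ρ ψ none none none none none (some c) := rfl
    rw [e2]
    split_ifs with hc
    · subst hc
      rw [h0]; simp
    · rw [h1 c hc, mul_one, one_mul, add_zero]
  rw [Finset.sum_congr rfl fun c _ => e c, Finset.sum_add_distrib, ← Finset.sum_mul, sum_psi hψ,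
    if_neg one_ne_zero, zero_mul, zero_add, Finset.sum_ite_eq' Finset.univ (0 : F), if_pos (Finset.mem_univ _)]

include h3

theorem final3 [Finite G] (hirr : ρ.IsIrreducible) (hq : 9 ≤ q) (hW : 0 < D.dm ρ ψ none none none none none (some 1))
    (hc : (Subgroup.centralizer ({D.x 11 1} : Set G)).index ∣ q ^ 6 - 1) :
    q ^ 4 + q ^ 2 + 1 ≤ finrank ℂ V := by
  have := Fintype.ofFinite G
  by_contra hcon
  rw [not_le] at hcon
  obtain ⟨d, hd, h1, h2, h4⟩ := D.count3 ρ hψ h3 hq hW hcon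
  have hch := D.char_z ρ hψ rfl h4
  have hint := H4.Integral.isIntegral_omega ρ hirr (D.x 11 1)
  obtain ⟨m, hm⟩ := hc
  have hdim0 : (finrank ℂ V : ℂ) ≠ 0 := by
    have : finrank ℂ V ≠ 0 := by
      have : 9 ^ 4 ≤ q ^ 4 := Nat.pow_le_pow_left hq 4
      omega
    exact_mod_cast this
  have hint2 : IsIntegral ℤ ((((q ^ 6 - 1 : ℕ) : ℤ) : ℂ) * ρ.character (D.x 11 1) / (finrank ℂ V : ℂ)) := by
    rw [hm]
    have : (((((Subgroup.centralizer ({D.x 11 1} : Set G)).index * m : ℕ) : ℤ)) : ℂ) * ρ.character (D.x 11 1) /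
        (finrank ℂ V : ℂ) = (m : ℂ) * (((Subgroup.centralizer ({D.x 11 1} : Set G)).index : ℂ) *
          ρ.character (D.x 11 1) / (finrank ℂ V : ℂ)) := by
      push_cast; ring
    rw [this]
    exact (isIntegral_algebraMap (R := ℤ) (A := ℂ) (x := (m : ℤ))).mul hint
  -- rational number
  set A : ℤ := ((q ^ 6 - 1 : ℕ) : ℤ) * ((D.dm ρ ψ none none none none none (some 0) : ℤ) - (q ^ 3 : ℕ)) with hA
  have e1 : (((q ^ 6 - 1 : ℕ) : ℤ) : ℂ) * ρ.character (D.x 11 1) / (finrank ℂ V : ℂ) =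
      (((A : ℚ) / (finrank ℂ V : ℚ) : ℚ) : ℂ) := by
    rw [hch, hA]; push_cast; ring
  rw [e1] at hint2
  obtain ⟨n, hn⟩ := H4.Integral.exists_int_of_isIntegral_rat hint2
  have hdimQ : (finrank ℂ V : ℚ) ≠ 0 := by
    intro h
    apply hdim0
    exact_mod_cast h
  have e2 : (A : ℚ) = (finrank ℂ V : ℚ) * n := by
    rw [← hn]; field_simp
  have e3 : A = (finrank ℂ V : ℤ) * n := by exact_mod_cast e2
  have hdvd : (finrank ℂ V : ℤ) ∣ A := ⟨n, e3⟩
  have hq1 : 1 ≤ q ^ 6 := Nat.one_le_pow _ _ (by omega)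
  have f1 : (finrank ℂ V : ℤ) = ((q : ℤ) ^ 2) ^ 2 + (q : ℤ) ^ 2 - 2 + d := by
    have : (finrank ℂ V : ℤ) + 2 = (q : ℤ) ^ 4 + (q : ℤ) ^ 2 + d := by exact_mod_cast h1
    linear_combination this
  have f2 : A = (((q : ℤ) ^ 2) ^ 3 - 1) * ((q : ℤ) ^ 2 - 2 + d) := by
    have e4 : (D.dm ρ ψ none none none none none (some 0) : ℤ) + 2 = (q : ℤ) ^ 3 + (q : ℤ) ^ 2 + d := by
      exact_mod_cast h2
    rw [hA, Nat.cast_sub hq1]
    push_cast
    linear_combination ((q : ℤ) ^ 6 - 1) * e4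
  rw [f1, f2] at hdvd
  have h81 : (81 : ℤ) ≤ (q : ℤ) ^ 2 := by
    have : 9 ^ 2 ≤ q ^ 2 := Nat.pow_le_pow_left hq 2
    have h' : ((9 ^ 2 : ℕ) : ℤ) ≤ ((q ^ 2 : ℕ) : ℤ) := by exact_mod_cast this
    push_cast at h'
    linarith
  exact div0 h81 (by omega) hdvd

end GD

end H44.GT
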