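import Cfsg.Agent.Lib.H44.OD11

/-! The bottom of the induction: conclusion. -/

set_option autoImplicit false
set_option linter.unusedSectionVars false

namespace H44.OM

open Module QuadraticMap H7.Hyp H7.Omega H7.OmegaIso H7.HypStd H44.OD

section lin

variable {W : Type*} [AddCommGroup W] [Module ℂ W]

theorem four {H1 H2 : W →ₗ[ℂ] W} {a b c d : W} (a1 : H1 a = -a) (a2 : H2 a = a)
    (b1 : H1 b = -b) (b2 : H2 b = -b) (c1 : H1 c = c) (c2 : H2 c = -c) (d1 : H1 d = d)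
    (d2 : H2 d = d) (h : a + b + c + d = 0) : a = 0 ∧ b = 0 ∧ c = 0 ∧ d = 0 := by
  have e1 := congrArg H1 h
  have e2 := congrArg H2 h
  have e3 := congrArg H2 e1
  simp only [map_add, map_zero, map_neg, a1, a2, b1, b2, c1, c2, d1, d2] at e1 e2 e3
  have two : ∀ x : W, (4 : ℂ) • x = 0 → x = 0 :=
    fun x hx => (smul_eq_zero.mp hx).resolve_left (by norm_num)
  refine ⟨two a ?_, two b ?_, two c ?_, two d ?_⟩
  · have : (4 : ℂ) • a = (a + b + c + d) - (-a + -b + c + d) + (a + -b + -c + d) -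
        (-a + - -b + -c + d) := by module
    rw [this, h, e1, e2, e3]; simp
  · have : (4 : ℂ) • b = (a + b + c + d) - (-a + -b + c + d) - (a + -b + -c + d) +
        (-a + - -b + -c + d) := by module
    rw [this, h, e1, e2, e3]; simp
  · have : (4 : ℂ) • c = (a + b + c + d) + (-a + -b + c + d) - (a + -b + -c + d) -
        (-a + - -b + -c + d) := by module
    rw [this, h, e1, e2, e3]; simp
  · have : (4 : ℂ) • d = (a + b + c + d) + (-a + -b + c + d) + (a + -b + -c + d) +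
        (-a + - -b + -c + d) := by module
    rw [this, h, e1, e2, e3]; simp

theorem three_le {X : Submodule ℂ W} [FiniteDimensional ℂ W] {H1 H2 : W →ₗ[ℂ] W} {a b c : W}
    (ha : a ∈ X) (hb : b ∈ X) (hc : c ∈ X) (a0 : a ≠ 0) (b0 : b ≠ 0) (c0 : c ≠ 0)
    (a1 : H1 a = -a) (a2 : H2 a = a)
    (b1 : H1 b = -b) (b2 : H2 b = -b) (c1 : H1 c = c) (c2 : H2 c = -c) : 3 ≤ finrank ℂ X := by
  have h1 : LinearIndependent ℂ ![(⟨a, ha⟩ : X), ⟨b, hb⟩, ⟨c, hc⟩] := by
    rw [Fintype.linearIndependent_iff]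
    intro g hg
    rw [Fin.sum_univ_three] at hg
    have hg' : g 0 • a + g 1 • b + g 2 • c + 0 = 0 := by
      rw [add_zero]
      exact congrArg Subtype.val hg
    obtain ⟨h1, h2, h3, -⟩ := four (H1 := H1) (H2 := H2) (a := g 0 • a) (b := g 1 • b)
      (c := g 2 • c) (d := 0) (by rw [map_smul, a1, smul_neg]) (by rw [map_smul, a2])
      (by rw [map_smul, b1, smul_neg]) (by rw [map_smul, b2, smul_neg]) (by rw [map_smul, c1])
      (by rw [map_smul, c2, smul_neg]) (map_zero _) (map_zero _) hg'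
    intro i
    fin_cases i
    · exact (smul_eq_zero.mp h1).resolve_right a0
    · exact (smul_eq_zero.mp h2).resolve_right b0
    · exact (smul_eq_zero.mp h3).resolve_right c0
  have h2 := h1.fintype_card_le_finrank
  simpa using h2

theorem four_le {X : Submodule ℂ W} [FiniteDimensional ℂ W] {H1 H2 : W →ₗ[ℂ] W} {a b c d : W}
    (ha : a ∈ X) (hb : b ∈ X) (hc : c ∈ X) (hd : d ∈ X) (a0 : a ≠ 0) (b0 : b ≠ 0) (c0 : c ≠ 0)
    (d0 : d ≠ 0) (a1 : H1 a = -a) (a2 : H2 a = a)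
    (b1 : H1 b = -b) (b2 : H2 b = -b) (c1 : H1 c = c) (c2 : H2 c = -c) (d1 : H1 d = d)
    (d2 : H2 d = d) : 4 ≤ finrank ℂ X := by
  have h1 : LinearIndependent ℂ ![(⟨a, ha⟩ : X), ⟨b, hb⟩, ⟨c, hc⟩, ⟨d, hd⟩] := by
    rw [Fintype.linearIndependent_iff]
    intro g hg
    rw [Fin.sum_univ_four] at hg
    have hg' : g 0 • a + g 1 • b + g 2 • c + g 3 • d = 0 := congrArg Subtype.val hg
    obtain ⟨h1, h2, h3, h4⟩ := four (H1 := H1) (H2 := H2) (a := g 0 • a) (b := g 1 • b)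
      (c := g 2 • c) (d := g 3 • d) (by rw [map_smul, a1, smul_neg]) (by rw [map_smul, a2])
      (by rw [map_smul, b1, smul_neg]) (by rw [map_smul, b2, smul_neg]) (by rw [map_smul, c1])
      (by rw [map_smul, c2, smul_neg]) (by rw [map_smul, d1]) (by rw [map_smul, d2]) hg'
    intro i
    fin_cases i
    · exact (smul_eq_zero.mp h1).resolve_right a0
    · exact (smul_eq_zero.mp h2).resolve_right b0
    · exact (smul_eq_zero.mp h3).resolve_right c0
    · exact (smul_eq_zero.mp h4).resolve_right d0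
  have h2 := h1.fintype_card_le_finrank
  simpa using h2

end lin

section fixed

variable {G : Type*} [Group G] {W : Type*} [AddCommGroup W] [Module ℂ W] [FiniteDimensional ℂ W]

/-- the fixed vectors as a subrepresentation -/
def invSub (ρ : Representation ℂ G W) : Subrepresentation ρ where
  toSubmodule :=
    { carrier := {x | ∀ g, ρ g x = x}
      zero_mem' := fun g => map_zero _
      add_mem' := fun {a b} ha hb g => by rw [map_add, ha, hb]
      smul_mem' := fun c x hx g => by rw [map_smul, hx] }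
  apply_mem_toSubmodule := fun g x hx => by
    have h : ρ g x = x := hx g
    rw [h]
    exact hx

theorem fix_irr (ρ : Representation ℂ G W) (h : ρ.IsIrreducible) (hnt : ∃ g, ρ g ≠ 1) (x : W)
    (hx : ∀ g, ρ g x = x) : x = 0 := by
  have h1 : IsSimpleOrder (Subrepresentation ρ) := h
  rcases h1.eq_bot_or_eq_top (invSub ρ) with h2 | h2
  · have h3 : (invSub ρ).toSubmodule = ⊥ := congrArg Subrepresentation.toSubmodule h2
    have h4 : x ∈ (invSub ρ).toSubmodule := hx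
    rw [h3] at h4
    simpa using h4
  · exfalso
    have h3 : (invSub ρ).toSubmodule = ⊤ := congrArg Subrepresentation.toSubmodule h2
    obtain ⟨g, hg⟩ := hnt
    apply hg
    apply LinearMap.ext
    intro y
    have h4 : y ∈ (invSub ρ).toSubmodule := by rw [h3]; trivial
    exact h4 g

theorem fix_LB [Finite G] {W : Type} [AddCommGroup W] [Module ℂ W] [FiniteDimensional ℂ W]
    {K : ℕ} (hLB : LB G K) (ρ : Representation ℂ G W) (hfr : finrank ℂ W = K)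
    (hnt : ∃ g, ρ g ≠ 1) (x : W) (hx : ∀ g, ρ g x = x) : x = 0 := by
  have : NeZero (Nat.card G : ℂ) := ⟨by exact_mod_cast (Nat.card_pos (α := G)).ne'⟩
  have hss : ComplementedLattice (Subrepresentation ρ) :=
    inferInstanceAs (Representation.IsSemisimpleRepresentation ρ)
  obtain ⟨q, hq⟩ := exists_isCompl (invSub ρ)
  have hc : IsCompl (invSub ρ).toSubmodule q.toSubmodule := by
    constructor
    · rw [disjoint_iff]
      exact congrArg Subrepresentation.toSubmodule hq.inf_eq_bot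
    · rw [codisjoint_iff]
      exact congrArg Subrepresentation.toSubmodule hq.sup_eq_top
  have h1 : ∃ g, q.toRepresentation g ≠ 1 := by
    by_contra hcon
    push Not at hcon
    obtain ⟨g, hg⟩ := hnt
    apply hg
    apply LinearMap.ext
    intro y
    have hy : y ∈ (invSub ρ).toSubmodule ⊔ q.toSubmodule := by rw [hc.sup_eq_top]; trivial
    obtain ⟨a, ha, b, hb, rfl⟩ := Submodule.mem_sup.mp hy
    have h3 : ρ g a = a := ha g
    have h4 : ρ g b = b := congrArg Subtype.val (LinearMap.congr_fun (hcon g) ⟨b, hb⟩)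
    rw [map_add, h3, h4]
    rfl
  have h2 := hLB _ q.toRepresentation h1
  have h3 := Submodule.finrank_add_eq_of_isCompl hc
  have h4 : finrank ℂ (invSub ρ).toSubmodule = 0 := by omega
  have h5 : (invSub ρ).toSubmodule = ⊥ := Submodule.finrank_eq_zero.mp h4
  have h6 : x ∈ (invSub ρ).toSubmodule := hx
  rw [h5] at h6
  simpa using h6

end fixed

variable {F : Type*} [Field F] [Fintype F] {V : Type*} [AddCommGroup V] [Module F V] [Fintype V]
  {Q : QuadraticForm F V}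

theorem arith_low1 {q k : ℕ} (hq : 5 ≤ q) {I : ℕ}
    (hI : (q ^ 2 - 1) * I = (q ^ 6 - 1) * (q ^ 4 - 1)) (hd : k ∣ I * q ^ 4)
    (hk : k + 1 = q ^ 4 + q ^ 2 ∨ k + 2 = q ^ 4 + q ^ 2) : False := by
  have hq2 : 1 ≤ q ^ 2 := Nat.one_le_pow _ _ (by omega)
  have hq4 : 1 ≤ q ^ 4 := Nat.one_le_pow _ _ (by omega)
  have hq6 : 1 ≤ q ^ 6 := Nat.one_le_pow _ _ (by omega)
  have hq' : (5 : ℤ) ≤ q := by exact_mod_cast hq
  have hx : (25 : ℤ) ≤ (q : ℤ) ^ 2 := by nlinarith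
  have hI2 : (I : ℤ) = ((q : ℤ) ^ 6 - 1) * (q ^ 2 + 1) := by
    zify [hq2, hq4, hq6] at hI
    have h1 : ((q : ℤ) ^ 2 - 1) ≠ 0 := by nlinarith
    apply mul_left_cancel₀ h1
    rw [hI]; ring
  have hd' : (k : ℤ) ∣ I * (q : ℤ) ^ 4 := by exact_mod_cast hd
  rw [hI2] at hd'
  set x : ℤ := (q : ℤ) ^ 2 with hxd
  have e6 : (q : ℤ) ^ 6 = x ^ 3 := by rw [hxd]; ring
  have e4 : (q : ℤ) ^ 4 = x ^ 2 := by rw [hxd]; ring
  rw [e6, e4] at hd'
  rcases hk with hk | hk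
  · have hk' : (k : ℤ) = x ^ 2 + x - 1 := by
      have : (k : ℤ) + 1 = q ^ 4 + q ^ 2 := by exact_mod_cast hk
      rw [e4] at this
      linarith
    have h1 : (k : ℤ) ∣ 4 * x - 2 := by
      have h2 : 4 * x - 2 = (k : ℤ) * (x ^ 4 + x ^ 2 - 2 * x + 2) -
          (x ^ 3 - 1) * (x + 1) * x ^ 2 := by rw [hk']; ring
      rw [h2]
      exact dvd_sub (Dvd.intro _ rfl) hd'
    have h2 := Int.le_of_dvd (by linarith) h1
    nlinarith
  · have hk' : (k : ℤ) = x ^ 2 + x - 2 := by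
      have : (k : ℤ) + 2 = q ^ 4 + q ^ 2 := by exact_mod_cast hk
      rw [e4] at this
      linarith
    have h1 : (k : ℤ) ∣ 12 * x - 12 := by
      have h2 : 12 * x - 12 = (k : ℤ) * (x ^ 4 + 2 * x ^ 2 - 3 * x + 6) -
          (x ^ 3 - 1) * (x + 1) * x ^ 2 := by rw [hk']; ring
      rw [h2]
      exact dvd_sub (Dvd.intro _ rfl) hd'
    have h2 := Int.le_of_dvd (by linarith) h1
    nlinarith

/-- the hypotheses on the one-dimensional form -/
structure Base (Q : QuadraticForm F V) (ν : Fˣ) : Prop where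
  nd : ND Q
  nt : Nontrivial V
  aniso : ∀ v, Q v = 0 → v = 0
  ot : OT Q
  card : Fintype.card V = Fintype.card F
  q5 : 5 ≤ Fintype.card F
  ns : ∃ b0 : F, ∀ v, b0 + Q v ≠ 0
  sq : ∀ c : Fˣ, ∃ b, c = b * b ∨ c = ν * (b * b)

variable {ν : Fˣ}

theorem Base.cls (h : Base Q ν) {ψ : AddChar F ℂ} (hψ : ψ ≠ 0)
    {W : Type} [AddCommGroup W] [Module ℂ W] [FiniteDimensional ℂ W]
    (ρ : Representation ℂ (Om (hyp (hyp Q))) W) (hnt : ∃ g, ρ g ≠ 1)
    (hfr : finrank ℂ W ≤ Fintype.card F ^ 4 + Fintype.card F ^ 2 + 1) :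
    Cls ψ ρ 0 ∧ finrank ℂ W + 2 = Fintype.card F ^ 4 + Fintype.card F ^ 2 +
      mu ψ (Z h.nd.hyp ψ ρ) 0 := by
  have := h.nt
  obtain ⟨v0, hv⟩ := exists_Q_ne h.nd
  have h5 := h.q5
  have hlt : finrank ℂ W < 2 * ((Fintype.card F ^ 3 - Fintype.card F) *
      Fintype.card V) := by
    rw [h.card]
    refine hfr.trans_lt ?_
    generalize Fintype.card F = q at h5
    have h3 : q ≤ q ^ 3 := Nat.le_self_pow (by norm_num) q
    zify [h3]
    have hq' : (5 : ℤ) ≤ q := by exact_mod_cast h5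
    have h6 : (25 : ℤ) * q ^ 2 ≤ q ^ 2 * q ^ 2 := by
      apply mul_le_mul_of_nonneg_right (by nlinarith) (by positivity)
    nlinarith
  obtain ⟨c, hc, hc0⟩ := exists_cls h.nd hψ ρ hnt hlt
  have hc' := hc0 (exists_sq_ne (F := F) (by omega))
  subst hc'
  refine ⟨hc, ?_⟩
  have h1 := finrank_low h.nd hψ ρ hv h.aniso h.ot (by omega) hc
  rw [h.card] at h1
  rw [h1]
  ring

theorem Base.three_le (h : Base Q ν) {ψ : AddChar F ℂ} (hψ : ψ ≠ 0)
    {W : Type} [AddCommGroup W] [Module ℂ W] [FiniteDimensional ℂ W]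
    (ρ : Representation ℂ (Om (hyp (hyp Q))) W) (hc : Cls ψ ρ 0)
    (hfix : ∀ x, (∀ g, ρ g x = x) → x = 0) (h2 : 2 ≤ mu ψ (Z h.nd.hyp ψ ρ) 0) :
    3 ≤ mu ψ (Z h.nd.hyp ψ ρ) 0 ∧ (mu ψ (Z h.nd.hyp ψ ρ) 0 = 3 →
      (∃ x, x ≠ 0 ∧ Yf h.nd.hyp ρ x) ∧ ∀ x, Yf h.nd.hyp ρ x →
        ρ (H44.OM.hc (hyp Q) ν) x = -x) := by
  have := h.nt
  obtain ⟨v0, hv⟩ := exists_Q_ne h.nd
  obtain ⟨b0, hb0⟩ := h.ns
  obtain ⟨x1, hX1, x2, hX2, x3, hX3, n1, n2, n3, a1, a2, b1, b2, c1, c2⟩ :=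
    three h.nd hv h.aniso hb0 h.sq hψ ρ hc hfix h2
  have hG : ∀ x ∈ XX h.nd ρ, ∀ k : Om Q, ρ (l h.nd.hyp (l h.nd k)) x = x :=
    fun x hx k => XX_G h.nd h.aniso hψ ρ hc hx k
  refine ⟨?_, fun h3 => ⟨⟨x1, n1, hX1.1, fun k =>
    claimA h.nd hv h.aniso hb0 h.sq hψ ρ hc hX1 a2 k⟩, fun x hx => ?_⟩⟩
  · rw [← finrank_XX h.nd hψ ρ]
    exact H44.OM.three_le hX1 hX2 hX3 n1 n2 n3 a1 a2 b1 b2 c1 c2
  · have hX : x ∈ XX h.nd ρ := ⟨hx.1, fun w => hx.2 _⟩
    have e2 : ρ (l h.nd.hyp (H44.OM.hc Q ν)) x = x := hx.2 _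
    by_contra hcon
    have hu : x + ρ (H44.OM.hc (hyp Q) ν) x ≠ 0 := fun h => hcon (eq_neg_of_add_eq_zero_right h)
    have hXu : x + ρ (H44.OM.hc (hyp Q) ν) x ∈ XX h.nd ρ :=
      Submodule.add_mem _ hX (XX_h1 h.nd ρ hX ν)
    have h4 := four_le hX1 hX2 hX3 hXu n1 n2 n3 hu a1 a2 b1 b2 c1 c2
      (by rw [map_add, ← SD.mulapp, ← hc_mul, h1_sq h.nd ρ hG hX, add_comm])
      (by rw [map_add, e2, ← h1_h2_app h.nd ρ, e2])
    rw [finrank_XX h.nd hψ ρ] at h4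
    omega

theorem Base.LB (h : Base Q ν) :
    LB (Om (hyp (hyp Q))) (Fintype.card F ^ 4 + Fintype.card F ^ 2 + 1) := by
  have := h.nt
  obtain ⟨ψ, hψ⟩ := exists_psi F
  apply LB_of_irr
  intro W _ _ _ ρ hρ hnt
  by_contra hcon
  obtain ⟨hc, hfr⟩ := h.cls hψ ρ hnt (by omega)
  have hmu : mu ψ (Z h.nd.hyp ψ ρ) 0 ≤ 2 := by omega
  by_cases h2 : 2 ≤ mu ψ (Z h.nd.hyp ψ ρ) 0
  · have h3 := (h.three_le hψ ρ hc (fix_irr ρ hρ hnt) h2).1
    omega
  · obtain ⟨I, hI, hd⟩ := irr_dvd h.nd hψ ρ hρ hc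
    have e3 : Nat.card {p : F × F × (F × F × (F × F × V)) // p ≠ 0 ∧ hyp (hyp (hyp Q)) p = 0} + 1 =
        Fintype.card F ^ 6 := by
      rw [cnt_zero_ne_zero, h.ot.cnt3, h.card]
      ring
    have e2 : Nat.card {p : F × F × (F × F × V) // p ≠ 0 ∧ hyp (hyp Q) p = 0} + 1 =
        Fintype.card F ^ 4 := by
      rw [cnt_zero_ne_zero, h.ot.cnt2, h.card]
      ring
    rw [show Nat.card {p : F × F × (F × F × (F × F × V)) // p ≠ 0 ∧ hyp (hyp (hyp Q)) p = 0} =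
      Fintype.card F ^ 6 - 1 by omega, show Nat.card {p : F × F × (F × F × V) //
        p ≠ 0 ∧ hyp (hyp Q) p = 0} = Fintype.card F ^ 4 - 1 by omega] at hI
    rw [h.card] at hd
    refine arith_low1 (k := finrank ℂ W) h.q5 hI ?_ (by omega)
    have : Fintype.card F ^ 3 * Fintype.card F = Fintype.card F ^ 4 := by ring
    rw [this] at hd
    exact hd

theorem Base.TB (h : Base Q ν) :
    TB h.nd.hyp (Fintype.card F ^ 4 + Fintype.card F ^ 2 + 1) ν := by
  intro W _ _ _ ρ hnt hfr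
  have := h.nt
  obtain ⟨ψ, hψ⟩ := exists_psi F
  obtain ⟨hc, hfr'⟩ := h.cls hψ ρ hnt (by omega)
  have hmu : mu ψ (Z h.nd.hyp ψ ρ) 0 = 3 := by omega
  exact (h.three_le hψ ρ hc (fix_LB h.LB ρ hfr hnt) (by omega)).2 hmu

end H44.OM
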