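import Cfsg.Agent.Lib.H44.GT15
import Cfsg.Agent.Lib.H44.GT8
import Cfsg.Agent.Lib.H44.OD12

/-!
Nontriviality of the highest weight space and torus elements.
-/

set_option autoImplicit false
set_option linter.unusedSectionVars false

namespace H44.GT

open Module Cfsg.Lie

section abs

variable {F : Type*} [Field F] {G : Type*} [Group G] (D : GD F G)
  {V : Type*} [AddCommGroup V] [Module ℂ V] (ρ : Representation ℂ G V)

namespace GD

local notation "q" => Fintype.card F

theorem tr_a {s : ℕ} (hs : s < 12) (h : ∀ t v, D.X ρ s t v = v) : ∀ t v, D.X ρ (sa s) t v = v := by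
  intro t v
  have h1 := (D.ncA ρ hs).app t (ρ D.na⁻¹ v)
  rwa [inv_app, h, inv_app] at h1

theorem tr_b {s : ℕ} (hs : s < 12) (h : ∀ t v, D.X ρ s t v = v) : ∀ t v, D.X ρ (sb s) t v = v := by
  intro t v
  have h1 := (D.ncB ρ hs).app t (ρ D.nb⁻¹ v)
  rwa [inv_app, h, inv_app] at h1

theorem tr_all [Fintype F] (hq : 3 ≤ q) (h : ∀ t v, D.X ρ 11 t v = v) : ∀ s < 12, ∀ t v, D.X ρ s t v = v := by
  classical
  have h10 : ∀ t v, D.X ρ 10 t v = v := D.tr_b ρ (s := 11) (by decide) h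
  have h6 : ∀ t v, D.X ρ 6 t v = v := D.tr_a ρ (s := 10) (by decide) h10
  have h5 : ∀ t v, D.X ρ 5 t v = v := D.tr_b ρ (s := 6) (by decide) h6
  have h1 : ∀ t v, D.X ρ 1 t v = v := D.tr_a ρ (s := 5) (by decide) h5
  have h0 : ∀ t v, D.X ρ 0 t v = v := D.tr_b ρ (s := 1) (by decide) h1
  have key : ∀ t u v, D.X ρ 8 (-(t * u)) (D.X ρ 9 (-(t * u ^ 2)) v) = v := by
    intro t u v
    have h2 := D.r67 ρ t u v
    rw [h6, h6, h10, h] at h2
    exact (ρ_inj ρ _ h2).symm
  obtain ⟨m, hm0, hm1⟩ : ∃ m : F, m ≠ 0 ∧ m ≠ 1 := by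
    by_contra hcon
    push Not at hcon
    have : (Finset.univ : Finset F) ⊆ {0, 1} := by
      intro u _
      simp only [Finset.mem_insert, Finset.mem_singleton]
      by_cases h0 : u = 0
      · exact Or.inl h0
      · exact Or.inr (hcon u h0)
    have h5 := Finset.card_le_card this
    have h6 : ({0, 1} : Finset F).card ≤ 2 := Finset.card_le_two
    rw [Finset.card_univ] at h5
    omega
  have key2 : ∀ a v, D.X ρ 9 (a * (m - 1)) v = v := by
    intro a v
    have h2 := key (-a) 1 v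
    have h3 := key (-(a / m)) m v
    have e1 : -(-a * (1 : F)) = a := by ring
    have e2 : -(-a * (1 : F) ^ 2) = a := by ring
    have e3 : -(-(a / m) * m) = a := by field_simp
    have e4 : -(-(a / m) * m ^ 2) = a * m := by field_simp
    rw [e1, e2] at h2
    rw [e3, e4] at h3
    have h4 : D.X ρ 9 a v = D.X ρ 9 (a * m) v := ρ_inj ρ _ (h2.trans h3.symm)
    have h7 : D.X ρ 9 a (D.X ρ 9 (a * (m - 1)) v) = D.X ρ 9 a v := by
      rw [X_comp, h4]
      congr 2
      ring
    exact ρ_inj ρ _ h7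
  have h9 : ∀ t v, D.X ρ 9 t v = v := by
    intro t v
    have h2 := key2 (t / (m - 1)) v
    rwa [div_mul_cancel₀ _ (sub_ne_zero.2 hm1)] at h2
  have h8 : ∀ t v, D.X ρ 8 t v = v := D.tr_a ρ (s := 9) (by decide) h9
  have h7 : ∀ t v, D.X ρ 7 t v = v := D.tr_b ρ (s := 8) (by decide) h8
  have h4 : ∀ t v, D.X ρ 4 t v = v := D.tr_a ρ (s := 7) (by decide) h7
  have h3 : ∀ t v, D.X ρ 3 t v = v := D.tr_b ρ (s := 4) (by decide) h4
  have h2 : ∀ t v, D.X ρ 2 t v = v := D.tr_a ρ (s := 3) (by decide) h3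
  intro s hs
  interval_cases s
  exacts [h0, h1, h2, h3, h4, h5, h6, h7, h8, h9, h10, h]

/-- the highest weight space is not zero -/
theorem hW_pos [FiniteDimensional ℂ V] {ψ : AddChar F ℂ} [Fintype F] (hψ : ψ.IsPrimitive) (hq : 3 ≤ q)
    (hgen : Subgroup.closure {g | ∃ s < 12, ∃ t, g = D.x s t} = ⊤) (hirr : ρ.IsIrreducible)
    (hdim : 2 ≤ finrank ℂ V) : 0 < D.dm ρ ψ none none none none none (some 1) := by
  by_contra hcon
  have h0 : D.dm ρ ψ none none none none none (some 1) = 0 := by omega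
  have h1 : ∀ c : F, c ≠ 0 → D.dm ρ ψ none none none none none (some c) = 0 := by
    intro c hc
    have h2 := D.tor ρ ψ (l := 1) (m := c) one_ne_zero hc none none none none none (some c)
    simp only [Option.map_none, Option.map_some] at h2
    rw [h2]
    have e : 1 / c * c = 1 := by field_simp
    rw [e, h0]
  have h11 : ∀ t v, D.X ρ 11 t v = v := by
    intro t v
    have h3 : v ∈ wsp ψ (D.X ρ 11) 0 := fix_of hψ (D.X_add ρ 11) (D.X_zero ρ 11) (K := ⊤) (fun _ _ _ => trivial)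
      (fun c hc w _ hw => D.dm_zero ρ (h1 c hc) ⟨D.okn, D.okn, D.okn, D.okn, D.okn, (D.ok_some ρ).2 hw⟩) trivial
    have h4 := h3 t
    rwa [zero_mul, AddChar.map_zero_eq_one, one_smul] at h4
  have h5 := D.tr_all ρ hq h11
  have h6 : ∀ g : G, ρ g = 1 := by
    intro g
    have hg : g ∈ Subgroup.closure {g | ∃ s < 12, ∃ t, g = D.x s t} := by rw [hgen]; trivial
    induction hg using Subgroup.closure_induction with
    | mem x hx =>
      obtain ⟨s, hs, t, rfl⟩ := hx
      exact LinearMap.ext fun v => h5 s hs t v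
    | one => exact map_one ρ
    | mul a b _ _ ha hb => rw [map_mul, ha, hb, mul_one]
    | inv a _ ha =>
      have := inv_app ρ a
      apply LinearMap.ext
      intro v
      have h7 := this v
      rw [ha] at h7
      exact h7
  have hV : 0 < finrank ℂ V := by omega
  have : Nontrivial V := Module.nontrivial_of_finrank_pos hV
  obtain ⟨v, hv⟩ := exists_ne (0 : V)
  -- the line through `v` is invariant
  let L : Subrepresentation ρ :=
    { toSubmodule := ℂ ∙ v
      apply_mem_toSubmodule := fun g w hw => by rw [h6 g]; exact hw }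
  have hs : IsSimpleOrder (Subrepresentation ρ) := hirr
  rcases hs.eq_bot_or_eq_top L with h8 | h8
  · have h9 : (ℂ ∙ v) = (⊥ : Submodule ℂ V) := congrArg Subrepresentation.toSubmodule h8
    rw [Submodule.span_singleton_eq_bot] at h9
    exact hv h9
  · have h9 : (ℂ ∙ v) = (⊤ : Submodule ℂ V) := congrArg Subrepresentation.toSubmodule h8
    have h10 := finrank_span_singleton (K := ℂ) hv
    rw [h9, finrank_top] at h10
    omega

end GD

end abs

section inst

open H22.RGD H22.Coord H22.RCCheck H22.RCComb H22.ChevTri H22.ChevRel H22.ChevSys H22.ChevMain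
open scoped MatrixGroups Matrix

variable (F : Type*) [Field F]

theorem gd_gen : Subgroup.closure {g | ∃ s < 12, ∃ t, g = (gd F).x s t} = ⊤ := by
  apply Subgroup.map_injective (chevG2.group F).subtype_injective
  rw [MonoidHom.map_closure, ← MonoidHom.range_eq_map, Subgroup.range_subtype]
  refine Eq.trans ?_ (group_eq_closure (D := chevG2) (F := F)).symm
  congr 1
  ext g
  constructor
  · rintro ⟨x, ⟨s, hs, t, rfl⟩, rfl⟩
    exact ⟨s, t, hs, rfl⟩
  · rintro ⟨s, t, hs, h⟩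
    exact ⟨(gd F).x s t, ⟨s, hs, t, rfl⟩, (xg_eq (RG F) h).symm⟩

theorem gd_HD (ν : F) (hν : ν ≠ 0) : ∃ H : chevG2.group F, (gd F).HD ν H := by
  refine ⟨⟨hg (RG F) 11 ν, wg_mem_group F _⟩, ⟨fun t ht => ?_, fun s hs => ?_⟩⟩
  · apply Subtype.ext
    show xg (RG F) 11 (-(t / ν)⁻¹) * xg (RG F) 0 (t / ν) * xg (RG F) 11 (-(t / ν)⁻¹) =
      hg (RG F) 11 ν * (xg (RG F) 11 (-t⁻¹) * xg (RG F) 0 t * xg (RG F) 11 (-t⁻¹))
    have e : ∀ w : F, w ≠ 0 → xg (RG F) 11 (-w⁻¹) * xg (RG F) 0 w * xg (RG F) 11 (-w⁻¹) = ng (RG F) 11 (-w⁻¹) := by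
      intro w hw
      rw [ng_def]
      have e1 : chevG2.neg 11 = 0 := by decide +kernel
      have e2 : -(-w⁻¹)⁻¹ = w := by rw [inv_neg, inv_inv, _root_.neg_neg]
      rw [e1, e2]
    rw [e t ht, e (t / ν) (div_ne_zero ht hν)]
    have n1 : ∀ v : F, ng (RG F) 11 v = hg (RG F) 11 v * ng (RG F) 11 1 := by
      intro v
      rw [hg_def, mul_assoc]
      have := ng_inv (RG F) 11 (1 : F)
      rw [← this, inv_mul_cancel, mul_one]
    have h1 : hg (RG F) 11 (-(t / ν)⁻¹) = hg (RG F) 11 ν * hg (RG F) 11 (-t⁻¹) := by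
      apply Units.ext
      rw [Units.val_mul, hg_val, hg_val, hg_val,
        H23.ChevH.hMat_mul (H23.ChevAll.core chevG2 (by simp)) (by decide) hν (neg_ne_zero.2 (inv_ne_zero ht))]
      congr 1
      field_simp
    rw [n1 (-(t / ν)⁻¹), n1 (-t⁻¹), h1, mul_assoc]
  · have h1 : hg (RG F) 11 ν ∈ Hs (RG F) := hg_mem_Hs (RG F) H22.PoinG2.rcxG2 (⟨11, by decide⟩ : Fin chevG2.nroots) hν
    obtain ⟨χ, h2, -, h3⟩ := H22.ChevStd.Hs_char (RG F) H22.PoinG2.rcxG2.rc h1
    refine ⟨χ s, h2 s, fun u => ?_⟩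
    apply Subtype.ext
    have h4 := h3 s hs u
    rw [mul_inv_eq_iff_eq_mul] at h4
    exact h4

end inst

end H44.GT
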