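import Cfsg.Agent.Lib.H44.GT16
import Cfsg.Agent.Lib.H25.SL2Card
import Cfsg.Agent.Lib.H23.ChevH2
import Cfsg.Agent.Lib.H22.ChevUni

/-!
The centralizer of a long root element.
-/

set_option autoImplicit false
set_option linter.unusedSectionVars false

namespace H44.GT

open Module Cfsg.Lie
open H22.RGD H22.Coord H22.RCCheck H22.RCComb H22.ChevTri H22.ChevRel H22.ChevSys H22.ChevMain
open scoped MatrixGroups Matrix

variable (F : Type*) [Field F]

/-- upper unipotent matrices -/
def um (t : F) : Matrix.SpecialLinearGroup (Fin 2) F := ⟨!![1, t; 0, 1], by simp [Matrix.det_fin_two]⟩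

/-- lower unipotent matrices -/
def lm (t : F) : Matrix.SpecialLinearGroup (Fin 2) F := ⟨!![1, 0; t, 1], by simp [Matrix.det_fin_two]⟩

variable {F}

theorem m2 {a b c d a' b' c' d' : F} (h1 : a = a') (h2 : b = b') (h3 : c = c') (h4 : d = d') :
    !![a, b; c, d] = !![a', b'; c', d'] := by rw [h1, h2, h3, h4]

theorem xg7_ne_xg4 (t s : F) (h : xg (RG F) 7 t = xg (RG F) 4 s) : t = 0 := by
  have h1 := (H22.ChevStd.s1037 (RG F) H22.PoinG2.rcxG2).1
  have h2 : xg (RG F) 7 t ∈ chevG2.borelSubgroup F ⊓ chevG2.negUnipotent F := by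
    constructor
    · exact Subgroup.mem_sup_left (Subgroup.subset_closure ⟨7, t, by decide +kernel, rfl⟩)
    · rw [h]
      exact Subgroup.subset_closure ⟨4, s, by decide +kernel, rfl⟩
  rw [h1, Subgroup.mem_bot, ← xg_zero (RG F) 7] at h2
  exact H22.ChevStd.xg_inj (RG F) H22.PoinG2.rcxG2.rc (by decide) h2

/-- the homomorphism from `SL₂` for the short simple root is injective -/
theorem sl2_inj (φ : Matrix.SpecialLinearGroup (Fin 2) F →* GL chevG2.Idx F)
    (hu : ∀ t, φ (um F t) = xg (RG F) 7 t) (hl : ∀ t, φ (lm F t) = xg (RG F) 4 t) : Function.Injective φ := by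
  rw [injective_iff_map_eq_one]
  intro g hg
  set a := (g : Matrix (Fin 2) (Fin 2) F) 0 0 with ha
  set b := (g : Matrix (Fin 2) (Fin 2) F) 0 1 with hb
  set c := (g : Matrix (Fin 2) (Fin 2) F) 1 0 with hc
  set d := (g : Matrix (Fin 2) (Fin 2) F) 1 1 with hd
  have hdet : a * d - b * c = 1 := by
    have := g.2
    rw [Matrix.det_fin_two] at this
    exact this
  have hgm : (g : Matrix (Fin 2) (Fin 2) F) = !![a, b; c, d] := by
    ext i j
    fin_cases i <;> fin_cases j <;> rfl
  by_cases hc0 : c = 0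
  · have ha0 : a ≠ 0 := by
      rintro h0
      rw [h0, hc0] at hdet
      simp at hdet
    have had : a * d = 1 := by rw [hc0] at hdet; linear_combination hdet
    -- the diagonal part
    have e1 : um F a * lm F (-a⁻¹) * um F a * (um F (-1) * lm F 1 * um F (-1)) * um F (b / a) = g := by
      apply Subtype.ext
      rw [hgm, hc0]
      show (!![1, a; 0, 1] * !![1, 0; -a⁻¹, 1] * !![1, a; 0, 1] * (!![1, -1; 0, 1] * !![1, 0; 1, 1] * !![1, -1; 0, 1]) *
        !![1, b / a; 0, 1] : Matrix (Fin 2) (Fin 2) F) = !![a, b; 0, d]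
      have e2 : d = a⁻¹ := by field_simp; linear_combination had
      rw [e2]
      have n1 : (!![1, a; 0, 1] * !![1, 0; -a⁻¹, 1] * !![1, a; 0, 1] : Matrix (Fin 2) (Fin 2) F) = !![0, a; -a⁻¹, 0] := by
        simp only [Matrix.mul_fin_two]
        have ha1 : a * a⁻¹ = 1 := mul_inv_cancel₀ ha0
        apply m2
        · linear_combination -ha1
        · linear_combination -a * ha1
        · ring
        · linear_combination -ha1
      have n2 : (!![1, -1; 0, 1] * !![1, 0; 1, 1] * !![1, -1; 0, 1] : Matrix (Fin 2) (Fin 2) F) = !![0, -1; 1, 0] := by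
        simp only [Matrix.mul_fin_two]
        apply m2 <;> ring
      rw [n1, n2]
      simp only [Matrix.mul_fin_two]
      have ha1 : a * a⁻¹ = 1 := mul_inv_cancel₀ ha0
      apply m2
      · ring
      · rw [div_eq_mul_inv]; linear_combination b * ha1
      · ring
      · ring
    have e2 : hs (RG F) 0 a * xg (RG F) 7 (b / a) = 1 := by
      have h1 := hg
      rw [← e1] at h1
      simp only [map_mul, hu, hl] at h1
      rw [← h1]
      congr 1
      have e7 : chevG2.simple 0 = 7 := by decide +kernel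
      have e4 : chevG2.neg 7 = 4 := by decide +kernel
      unfold hs
      rw [hg_def, ng_def, ng_def, e7, e4, inv_neg, inv_one, _root_.neg_neg]
    have e3 : ∀ t, xg (RG F) 10 (a ^ 3 * t) = xg (RG F) 10 t := by
      intro t
      have h1 := hs_conj (RG F) (i := 0) (by decide) ha0 (s := 10) (by decide) H22.PoinG2.rcxG2.rc t
      have e5 : chevG2.cartan 0 10 = 3 := by decide +kernel
      rw [e5] at h1
      have h2 := comm_g (RG F) (D := chevG2) (r := 7) (s := 10) (by decide) (by decide) (by decide) (by decide +kernel) (b / a) t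
      have e6 : chevG2.commTerms 7 10 = [] := by decide +kernel
      unfold ChevalleyDatum.commWord wg at h2
      rw [e6, List.map_nil, List.map_nil, List.prod_nil, mul_one] at h2
      have e8 : hs (RG F) 0 a = (xg (RG F) 7 (b / a))⁻¹ := eq_inv_of_mul_eq_one_left e2
      rw [e8, inv_inv, mul_assoc, h2, inv_mul_cancel_left] at h1
      rw [h1]
      norm_cast
    have h3 : a ^ 3 = 1 := by
      have := H22.ChevStd.xg_inj (RG F) H22.PoinG2.rcxG2.rc (by decide) (e3 1)
      rwa [mul_one] at this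
    have e4 : ∀ t, xg (RG F) 7 (a ^ 2 * t) = xg (RG F) 7 t := by
      intro t
      have h1 := hs_conj (RG F) (i := 0) (by decide) ha0 (s := 7) (by decide) H22.PoinG2.rcxG2.rc t
      have e5 : chevG2.cartan 0 7 = 2 := by decide +kernel
      rw [e5] at h1
      have e8 : hs (RG F) 0 a = (xg (RG F) 7 (b / a))⁻¹ := eq_inv_of_mul_eq_one_left e2
      rw [e8, inv_inv, mul_assoc, xg_mul, add_comm t, ← xg_mul, inv_mul_cancel_left] at h1
      rw [h1]
      norm_cast
    have h2 : a ^ 2 = 1 := by
      have := H22.ChevStd.xg_inj (RG F) H22.PoinG2.rcxG2.rc (by decide) (e4 1)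
      rwa [mul_one] at this
    have h1 : a = 1 := by linear_combination h3 - a * h2
    have hb0 : b = 0 := by
      rw [h1, hs_one (RG F) (by decide), one_mul, div_one, ← xg_zero (RG F) 7] at e2
      exact H22.ChevStd.xg_inj (RG F) H22.PoinG2.rcxG2.rc (by decide) e2
    apply Subtype.ext
    rw [hgm, hc0, hb0, h1]
    rw [h1, one_mul] at had
    rw [had]
    show _ = (1 : Matrix (Fin 2) (Fin 2) F)
    rw [Matrix.one_fin_two]
  · exfalso
    have e1 : um F (-(a / c)) * g * um F 1 = lm F (-(c ^ 2)) * (um F (-(a / c)) * g) := by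
      apply Subtype.ext
      show !![1, -(a / c); 0, 1] * (g : Matrix (Fin 2) (Fin 2) F) * !![1, 1; 0, 1] =
        !![1, 0; -(c ^ 2), 1] * (!![1, -(a / c); 0, 1] * (g : Matrix (Fin 2) (Fin 2) F))
      rw [hgm]
      simp only [Matrix.mul_fin_two]
      have e4 : a / c * c = a := div_mul_cancel₀ a hc0
      have e3 : c * (b - a / c * d) = -1 := by
        linear_combination -hdet - d * e4
      apply m2
      · ring
      · linear_combination -e4
      · linear_combination -c ^ 2 * e4
      · linear_combination c * e3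
    have h1 := congrArg φ e1
    simp only [map_mul, hu, hl, hg, mul_one] at h1
    rw [xg_mul, add_comm, ← xg_mul] at h1
    exact one_ne_zero (xg7_ne_xg4 _ _ (mul_right_cancel h1))

theorem card_G2 [Fintype F] : Nat.card (chevG2.group F) =
    Fintype.card F ^ 6 * (Fintype.card F ^ 2 - 1) * (Fintype.card F ^ 6 - 1) := by
  have h := H22.ChevOrder.order_formula (RG F) H22.PoinG2.rcxG2 (q := Fintype.card F) rfl (H22.ChevTorusCard.kerG2 rfl)
  have h2 := H22.ChevOrder.poly_G2 (H22.ChevOrder.q_pos (F := F) (q := Fintype.card F) rfl)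
  have h3 : (Fintype.card F - 1) ^ chevG2.rank * H22.Poincare.P (H22.RCComb.comb H22.PoinG2.rcxG2) chevG2.rank (Fintype.card F) = _ := h2
  rw [h3, one_mul] at h
  rw [h]
  show Fintype.card F ^ 6 * _ = _
  ring

/-- root elements commuting with the highest one -/
theorem cent11 {s : ℕ} (hs : s < 12) (h1 : s ≠ 11) (h0 : s ≠ 0) (h : chevG2.commTerms 11 s = []) (t : F) :
    xg (RG F) s t * xg (RG F) 11 1 = xg (RG F) 11 1 * xg (RG F) s t := by
  have h2 := comm_g (RG F) (D := chevG2) (r := 11) (s := s) (by decide) hs h1 (by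
    have : chevG2.neg 11 = 0 := by decide +kernel
    rw [this]; exact h0) (1 : F) t
  unfold ChevalleyDatum.commWord wg at h2
  rw [h, List.map_nil, List.map_nil, List.prod_nil, mul_one] at h2
  exact h2

theorem cent_index [Fintype F] : (Subgroup.centralizer ({(gd F).x 11 1} : Set (chevG2.group F))).index ∣
    Fintype.card F ^ 6 - 1 := by
  classical
  set q := Fintype.card F with hq
  have hq1 : 1 < q := Fintype.one_lt_card
  set C := Subgroup.centralizer ({(gd F).x 11 1} : Set (chevG2.group F)) with hC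
  set C' : Subgroup (GL chevG2.Idx F) := C.map (chevG2.group F).subtype with hC'
  have hcard : Nat.card C' = Nat.card C := Subgroup.card_map_of_injective (chevG2.group F).subtype_injective
  have hmem : ∀ g : GL chevG2.Idx F, g ∈ chevG2.group F → g * xg (RG F) 11 1 = xg (RG F) 11 1 * g → g ∈ C' := by
    intro g hg h
    refine ⟨⟨g, hg⟩, ?_, rfl⟩
    rw [SetLike.mem_coe, hC, Subgroup.mem_centralizer_singleton_iff]
    apply Subtype.ext
    exact h
  have hx : ∀ s < 12, s ≠ 11 → s ≠ 0 → chevG2.commTerms 11 s = [] → ∀ t, xg (RG F) s t ∈ C' := fun s hs h1 h0 h t =>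
    hmem _ (H22.TwChev.xg_mem_group' (RG F) s t) (cent11 hs h1 h0 h t)
  have hx11 : ∀ t, xg (RG F) 11 t ∈ C' := fun t =>
    hmem _ (H22.TwChev.xg_mem_group' (RG F) 11 t) (by rw [xg_mul, xg_mul, add_comm])
  -- the unipotent subgroup
  have hU : chevG2.posUnipotent F ≤ C' := by
    unfold ChevalleyDatum.posUnipotent
    rw [Subgroup.closure_le]
    rintro g ⟨r, t, hr, hg⟩
    rw [xg_eq (RG F) hg]
    have key : ∀ r < 12, chevG2.IsPosRoot r → r = 11 ∨ (r ≠ 11 ∧ r ≠ 0 ∧ chevG2.commTerms 11 r = []) := by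
      decide +kernel
    rcases key r hr.1 hr with rfl | ⟨h1, h2, h3⟩
    · exact hx11 t
    · exact hx r hr.1 h1 h2 h3 t
  have hdU : q ^ 6 ∣ Nat.card C' := by
    have h1 := Subgroup.card_dvd_of_le hU
    rwa [H22.ChevUni.s1027 (RG F) H22.PoinG2.rcxG2] at h1
  -- the `SL₂`
  obtain ⟨φ, h1, h2⟩ := H23.ChevH2.sl2_hom (F := F) (H23.ChevAll.core chevG2 (by simp)) (r := 7) (by decide)
  have e4 : chevG2.neg 7 = 4 := by decide +kernel
  have hu : ∀ t, φ (um F t) = xg (RG F) 7 t := fun t => xg_eq (RG F) ((h2 (um F t) t).1 rfl)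
  have hl : ∀ t, φ (lm F t) = xg (RG F) 4 t := fun t => xg_eq (RG F) (by
    have := (h2 (lm F t) t).2 rfl
    rwa [e4] at this)
  have hinj := sl2_inj φ hu hl
  have hr : φ.range ≤ C' := by
    rw [h1, e4]
    apply sup_le
    · intro g hg
      obtain ⟨t, rfl⟩ := (mem_rootSubgroup (RG F)).1 hg
      exact hx 7 (by decide) (by decide) (by decide) (by decide +kernel) t
    · intro g hg
      obtain ⟨t, rfl⟩ := (mem_rootSubgroup (RG F)).1 hg
      exact hx 4 (by decide) (by decide) (by decide) (by decide +kernel) t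
  have hdS : q ^ 2 - 1 ∣ Nat.card C' := by
    have h3 := Subgroup.card_dvd_of_le hr
    have h4 : Nat.card φ.range = Nat.card (Matrix.SpecialLinearGroup (Fin 2) F) :=
      (Nat.card_congr (MonoidHom.ofInjective hinj).toEquiv).symm
    rw [h4, H25.SL2Card.card_SL2] at h3
    exact (Dvd.intro_left _ rfl).trans h3
  have hcop : Nat.Coprime (q ^ 6) (q ^ 2 - 1) := by
    apply Nat.Coprime.pow_left
    have h5 : q ^ 2 = (q ^ 2 - 1) + 1 := by
      have : 1 ≤ q ^ 2 := Nat.one_le_pow _ _ (by omega)
      omega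
    have h6 : Nat.Coprime (q ^ 2) (q ^ 2 - 1) := by
      conv_lhs => rw [h5]
      simp
    exact Nat.Coprime.coprime_dvd_left (Dvd.intro _ (pow_two q).symm) h6
  have hd := hcop.mul_dvd_of_dvd_of_dvd hdU hdS
  rw [hcard] at hd
  have hG := card_G2 (F := F)
  have hGC := Subgroup.index_mul_card C
  rw [hG, ← hq] at hGC
  obtain ⟨m, hm⟩ := hd
  rw [hm] at hGC
  refine ⟨m, ?_⟩
  have hpos : 0 < q ^ 6 * (q ^ 2 - 1) := by
    have h5 : 1 < q ^ 2 := Nat.one_lt_pow (by norm_num) hq1
    have h6 : 0 < q ^ 6 := by positivity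
    exact Nat.mul_pos h6 (by omega)
  apply Nat.eq_of_mul_eq_mul_left hpos
  rw [← hGC]
  ring

end H44.GT
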