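import Cfsg.Agent.Lib.H44.GT17

/-!
The minimal degree of `G₂(q)`.
-/

set_option autoImplicit false
set_option linter.unusedSectionVars false

namespace H44.GT

open Module Cfsg.Lie

theorem three_ne {F : Type*} [Field F] [Fintype F] (h : Fintype.card F % 3 ≠ 0) : (3 : F) ≠ 0 := by
  intro h3
  have h0 : ((Fintype.card F : ℕ) : F) = 0 := FiniteField.cast_card_eq_zero F
  rw [← Nat.div_add_mod (Fintype.card F) 3] at h0
  push_cast at h0
  rw [h3, zero_mul, zero_add] at h0
  have h1 : Fintype.card F % 3 < 3 := Nat.mod_lt _ (by norm_num)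
  have h2 : Fintype.card F % 3 = 1 ∨ Fintype.card F % 3 = 2 := by omega
  rcases h2 with h2 | h2
  · rw [h2] at h0
    norm_num at h0
  · rw [h2] at h0
    push_cast at h0
    have : (1 : F) = 0 := by linear_combination h3 - h0
    exact one_ne_zero this

theorem three_eq {F : Type*} [Field F] [Fintype F] (h : Fintype.card F % 3 = 0) : (3 : F) = 0 := by
  have : Fact (Nat.Prime 3) := ⟨by norm_num⟩
  obtain ⟨x, hx⟩ := exists_prime_addOrderOf_dvd_card (G := F) 3 (Nat.dvd_of_mod_eq_zero h)
  have h1 : 3 • x = 0 := by rw [← hx]; exact addOrderOf_nsmul_eq_zero x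
  have h2 : x ≠ 0 := by
    rintro rfl
    rw [addOrderOf_zero] at hx
    omega
  rw [nsmul_eq_mul] at h1
  exact_mod_cast (mul_eq_zero.1 h1).resolve_right h2

theorem nine_le {F : Type*} [Field F] [Fintype F] (h : Fintype.card F % 3 = 0) (h3 : 3 < Fintype.card F) :
    9 ≤ Fintype.card F := by
  have h0 := three_eq (F := F) h
  have hp : Nat.Prime 3 := by norm_num
  have : Fact (Nat.Prime 3) := ⟨hp⟩
  have : CharP F 3 := by
    have h1 : ringChar F ∣ 3 := ringChar.dvd (by exact_mod_cast h0)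
    have h2 : ringChar F = 3 := by
      rcases (Nat.dvd_prime hp).1 h1 with h4 | h4
      · exact absurd h4 (CharP.ringChar_ne_one)
      · exact h4
    exact ringChar.of_eq h2
  obtain ⟨n, -, hn⟩ := FiniteField.card F 3
  have h4 : 2 ≤ (n : ℕ) := by
    by_contra hcon
    have h5 : (n : ℕ) = 1 := by
      have := n.pos
      omega
    rw [h5, pow_one] at hn
    omega
  rw [hn]
  calc 9 = 3 ^ 2 := by norm_num
    _ ≤ 3 ^ (n : ℕ) := Nat.pow_le_pow_right (by norm_num) h4

theorem main {F : Type*} [Field F] [Fintype F] (k : ℕ) (ρ : Representation ℂ (chevG2.group F) (Fin k → ℂ))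
    (hρ : ρ.IsIrreducible) (hk : 2 ≤ k) :
    (Fintype.card F % 3 = 1 → 4 < Fintype.card F → Fintype.card F ^ 3 + 1 ≤ k) ∧
    (Fintype.card F % 3 = 2 → 2 < Fintype.card F → Fintype.card F ^ 3 - 1 ≤ k) ∧
    (Fintype.card F % 3 = 0 → 3 < Fintype.card F → Fintype.card F ^ 4 + Fintype.card F ^ 2 + 1 ≤ k) := by
  obtain ⟨ψ, hψ⟩ := exists_primitive F
  have hk' : finrank ℂ (Fin k → ℂ) = k := by simp
  have hW : 3 ≤ Fintype.card F → 0 < (gd F).dm ρ ψ none none none none none (some 1) := fun hq =>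
    (gd F).hW_pos ρ hψ hq (gd_gen F) hρ (by omega)
  refine ⟨fun h1 h2 => ?_, fun h1 h2 => ?_, fun h1 h2 => ?_⟩
  · have := (gd F).final1 ρ hψ (three_ne (by omega)) (by omega) h1 (hW (by omega)) (fun ν hν => gd_HD F ν hν)
    omega
  · have := ((gd F).final2 ρ hψ (three_ne (by omega)) (by omega) (hW (by omega))).1
    omega
  · have := nine_le h1 h2
    have := (gd F).final3 ρ hψ (three_eq h1) hρ this (hW (by omega)) cent_index
    omega

end H44.GT
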