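import Cfsg.Agent.Lib.H44.GT1
import Cfsg.Prelude.Def_ChevStructure
import Cfsg.Prelude.Def_ChevG2

/-!
Abstract relations of `G₂` and weight spaces of a representation.
-/

set_option autoImplicit false
set_option linter.unusedSectionVars false

namespace H44.GT

open Module Cfsg.Lie

/-- action of the simple reflections on roots -/
def sa (s : ℕ) : ℕ := [0, 5, 3, 2, 7, 1, 10, 4, 9, 8, 6, 11].getD s 0
def sb (s : ℕ) : ℕ := [1, 0, 2, 4, 3, 6, 5, 8, 7, 9, 11, 10].getD s 0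
def ca (s : ℕ) : ℤ := [0, -3, -1, 1, -2, 3, -3, 2, -1, 1, 3, 0].getD s 0
def cb (s : ℕ) : ℤ := [-1, 1, 0, -1, 1, -2, 2, -1, 1, 0, -1, 1].getD s 0

/-- the relations of `G₂(F)` -/
structure GD (F : Type*) [Field F] (G : Type*) [Group G] where
  x : ℕ → F → G
  x_add : ∀ r t u, x r (t + u) = x r t * x r u
  na : G
  nb : G
  ea : ℕ → F
  eb : ℕ → F
  ea1 : ∀ s < 12, ea s = 1 ∨ ea s = -1
  eb1 : ∀ s < 12, eb s = 1 ∨ eb s = -1
  na_x : ∀ s < 12, ∀ t, na * x s t = x (sa s) (ea s * t) * na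
  nb_x : ∀ s < 12, ∀ t, nb * x s t = x (sb s) (eb s * t) * nb
  h : F → F → G
  h_x : ∀ l m, l ≠ 0 → m ≠ 0 → ∀ s < 12, ∀ t, h l m * x s t = x s (l ^ ca s * m ^ cb s * t) * h l m
  comm : ∀ r < 12, ∀ s < 12, s ≠ r → s ≠ chevG2.neg r → ∀ t u, x s u * x r t =
    x r t * x s u * ((chevG2.commTerms r s).map fun c => x c.1 ((c.2.1 : F) * (-t) ^ c.2.2.1 * u ^ c.2.2.2)).prod

variable {F : Type*} [Field F] {G : Type*} [Group G] (D : GD F G)
  {V : Type*} [AddCommGroup V] [Module ℂ V] (ρ : Representation ℂ G V)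

namespace GD

/-- the operators -/
def X (s : ℕ) (t : F) : Module.End ℂ V := ρ (D.x s t)

theorem X_add (s : ℕ) (t u : F) : D.X ρ s (t + u) = D.X ρ s t * D.X ρ s u := by
  unfold X; rw [D.x_add, map_mul]

theorem x_zero (s : ℕ) : D.x s 0 = 1 := by
  have := D.x_add s 0 0
  rw [add_zero] at this
  exact (mul_eq_left.1 this.symm)

theorem X_zero (s : ℕ) : D.X ρ s 0 = 1 := by
  unfold X; rw [D.x_zero, map_one]

theorem X_zero_app (s : ℕ) (v : V) : D.X ρ s 0 v = v := by rw [X_zero]; rfl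

theorem X_comp (s : ℕ) (t u : F) (v : V) : D.X ρ s t (D.X ρ s u v) = D.X ρ s (t + u) v := by
  rw [X_add]; rfl

theorem X_neg (s : ℕ) (t : F) (v : V) : D.X ρ s (-t) (D.X ρ s t v) = v := by
  rw [X_comp, neg_add_cancel, X_zero_app]

theorem X_neg' (s : ℕ) (t : F) (v : V) : D.X ρ s t (D.X ρ s (-t) v) = v := by
  rw [X_comp, add_neg_cancel, X_zero_app]

theorem ρ_inj (g : G) : Function.Injective (ρ g) := by
  intro a b hab
  have : ρ g⁻¹ (ρ g a) = ρ g⁻¹ (ρ g b) := by rw [hab]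
  rwa [← Module.End.mul_apply, ← Module.End.mul_apply, ← map_mul, inv_mul_cancel, map_one] at this

theorem na_app {s : ℕ} (hs : s < 12) (t : F) (v : V) :
    D.X ρ (sa s) (D.ea s * t) (ρ D.na v) = ρ D.na (D.X ρ s t v) := by
  unfold X
  rw [← Module.End.mul_apply, ← Module.End.mul_apply, ← map_mul, ← map_mul, D.na_x s hs]

theorem nb_app {s : ℕ} (hs : s < 12) (t : F) (v : V) :
    D.X ρ (sb s) (D.eb s * t) (ρ D.nb v) = ρ D.nb (D.X ρ s t v) := by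
  unfold X
  rw [← Module.End.mul_apply, ← Module.End.mul_apply, ← map_mul, ← map_mul, D.nb_x s hs]

theorem h_app {l m : F} (hl : l ≠ 0) (hm : m ≠ 0) {s : ℕ} (hs : s < 12) (t : F) (v : V) :
    D.X ρ s (l ^ ca s * m ^ cb s * t) (ρ (D.h l m) v) = ρ (D.h l m) (D.X ρ s t v) := by
  unfold X
  rw [← Module.End.mul_apply, ← Module.End.mul_apply, ← map_mul, ← map_mul, D.h_x l m hl hm s hs]

/-- action of a word -/
def wa (L : List (ℕ × F)) (v : V) : V := L.foldr (fun p w => D.X ρ p.1 p.2 w) v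

theorem wa_eq (L : List (ℕ × F)) (v : V) : ρ ((L.map fun p => D.x p.1 p.2).prod) v = D.wa ρ L v := by
  induction L with
  | nil => simp [wa]
  | cons p L ih =>
    rw [List.map_cons, List.prod_cons, map_mul, Module.End.mul_apply, ih]
    rfl

theorem comm_app {r s : ℕ} (hr : r < 12) (hs : s < 12) (h1 : s ≠ r) (h2 : s ≠ chevG2.neg r)
    {L : List (ℕ × ℤ × ℕ × ℕ)} (hL : chevG2.commTerms r s = L) (t u : F) (v : V) :
    D.X ρ s u (D.X ρ r t v) = D.X ρ r t (D.X ρ s u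
      (D.wa ρ (L.map fun c => (c.1, (c.2.1 : F) * (-t) ^ c.2.2.1 * u ^ c.2.2.2)) v)) := by
  have h := D.comm r hr s hs h1 h2 t u
  rw [hL] at h
  have h3 : (L.map fun c => D.x c.1 ((c.2.1 : F) * (-t) ^ c.2.2.1 * u ^ c.2.2.2)).prod =
      ((L.map fun c => (c.1, (c.2.1 : F) * (-t) ^ c.2.2.1 * u ^ c.2.2.2)).map fun p => D.x p.1 p.2).prod := by
    rw [List.map_map]; rfl
  rw [h3] at h
  unfold X
  rw [← wa_eq, ← Module.End.mul_apply, ← map_mul, h, map_mul, map_mul]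
  rfl

/-- commuting pairs -/
def com (r s : ℕ) : Bool := decide (r < 12) && decide (s < 12) && decide (s ≠ r) &&
  decide (s ≠ chevG2.neg r) && decide (chevG2.commTerms r s = [])

theorem com_app {r s : ℕ} (h : com r s = true) (t u : F) (v : V) :
    D.X ρ s u (D.X ρ r t v) = D.X ρ r t (D.X ρ s u v) := by
  unfold com at h
  simp only [Bool.and_eq_true, decide_eq_true_eq] at h
  obtain ⟨⟨⟨⟨h1, h2⟩, h3⟩, h4⟩, h5⟩ := h
  exact D.comm_app ρ h1 h2 h3 h4 h5 t u v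

theorem X_congr {s : ℕ} {t t' : F} {v v' : V} (h : t = t') (h' : v = v') : D.X ρ s t v = D.X ρ s t' v' := by
  rw [h, h']

theorem r76 (t u : F) (v : V) : D.X ρ 6 u (D.X ρ 7 t v) = D.X ρ 7 t (D.X ρ 6 u (D.X ρ 8 (t * u)
    (D.X ρ 9 (t ^ 2 * u) (D.X ρ 10 (-(t ^ 3 * u)) (D.X ρ 11 (-(t ^ 3 * u ^ 2)) v))))) := by
  rw [D.comm_app ρ (r := 7) (s := 6) (by decide) (by decide) (by decide) (by decide)
    (L := [(8, -1, 1, 1), (9, 1, 2, 1), (10, 1, 3, 1), (11, 1, 3, 2)]) (by decide +kernel) t u v]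
  exact X_congr D ρ rfl (X_congr D ρ rfl (X_congr D ρ (by push_cast; ring) (X_congr D ρ (by push_cast; ring)
    (X_congr D ρ (by push_cast; ring) (X_congr D ρ (by push_cast; ring) rfl)))))

theorem r78 (t u : F) (v : V) : D.X ρ 8 u (D.X ρ 7 t v) = D.X ρ 7 t (D.X ρ 8 u (D.X ρ 9 (2 * t * u)
    (D.X ρ 10 (-(3 * t ^ 2 * u)) (D.X ρ 11 (-(3 * t * u ^ 2)) v)))) := by
  rw [D.comm_app ρ (r := 7) (s := 8) (by decide) (by decide) (by decide) (by decide)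
    (L := [(9, -2, 1, 1), (10, -3, 2, 1), (11, 3, 1, 2)]) (by decide +kernel) t u v]
  exact X_congr D ρ rfl (X_congr D ρ rfl (X_congr D ρ (by push_cast; ring) (X_congr D ρ (by push_cast; ring)
    (X_congr D ρ (by push_cast; ring) rfl))))

theorem r87 (t u : F) (v : V) : D.X ρ 7 u (D.X ρ 8 t v) = D.X ρ 8 t (D.X ρ 7 u (D.X ρ 9 (-(2 * t * u))
    (D.X ρ 11 (3 * t ^ 2 * u) (D.X ρ 10 (3 * t * u ^ 2) v)))) := by
  rw [D.comm_app ρ (r := 8) (s := 7) (by decide) (by decide) (by decide) (by decide)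
    (L := [(9, 2, 1, 1), (11, 3, 2, 1), (10, -3, 1, 2)]) (by decide +kernel) t u v]
  exact X_congr D ρ rfl (X_congr D ρ rfl (X_congr D ρ (by push_cast; ring) (X_congr D ρ (by push_cast; ring)
    (X_congr D ρ (by push_cast; ring) rfl))))

theorem r67 (t u : F) (v : V) : D.X ρ 7 u (D.X ρ 6 t v) = D.X ρ 6 t (D.X ρ 7 u (D.X ρ 8 (-(t * u))
    (D.X ρ 9 (-(t * u ^ 2)) (D.X ρ 10 (t * u ^ 3) (D.X ρ 11 (-(2 * t ^ 2 * u ^ 3)) v))))) := by
  rw [D.comm_app ρ (r := 6) (s := 7) (by decide) (by decide) (by decide) (by decide)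
    (L := [(8, 1, 1, 1), (9, 1, 1, 2), (10, -1, 1, 3), (11, -2, 2, 3)]) (by decide +kernel) t u v]
  exact X_congr D ρ rfl (X_congr D ρ rfl (X_congr D ρ (by push_cast; ring) (X_congr D ρ (by push_cast; ring)
    (X_congr D ρ (by push_cast; ring) (X_congr D ρ (by push_cast; ring) rfl)))))

/-- one term relations -/
def com1 (r s k : ℕ) (C : ℤ) : Bool := decide (r < 12) && decide (s < 12) && decide (s ≠ r) &&
  decide (s ≠ chevG2.neg r) && decide (chevG2.commTerms r s = [(k, C, 1, 1)])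

theorem com1_app {r s k : ℕ} {C : ℤ} (h : com1 r s k C = true) (t u : F) (v : V) :
    D.X ρ s u (D.X ρ r t v) = D.X ρ r t (D.X ρ s u (D.X ρ k (-((C : F) * t * u)) v)) := by
  unfold com1 at h
  simp only [Bool.and_eq_true, decide_eq_true_eq] at h
  obtain ⟨⟨⟨⟨h1, h2⟩, h3⟩, h4⟩, h5⟩ := h
  rw [D.comm_app ρ h1 h2 h3 h4 h5 t u v]
  exact X_congr D ρ rfl (X_congr D ρ rfl (X_congr D ρ (by ring) rfl))

theorem r79 (t u : F) (v : V) : D.X ρ 9 u (D.X ρ 7 t v) = D.X ρ 7 t (D.X ρ 9 u (D.X ρ 10 (-(3 * t * u)) v)) := by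
  rw [D.com1_app ρ (r := 7) (s := 9) (k := 10) (C := 3) (by decide +kernel)]
  exact X_congr D ρ rfl (X_congr D ρ rfl (X_congr D ρ (by push_cast; ring) rfl))

theorem r89 (t u : F) (v : V) : D.X ρ 9 u (D.X ρ 8 t v) = D.X ρ 8 t (D.X ρ 9 u (D.X ρ 11 (-(3 * t * u)) v)) := by
  rw [D.com1_app ρ (r := 8) (s := 9) (k := 11) (C := 3) (by decide +kernel)]
  exact X_congr D ρ rfl (X_congr D ρ rfl (X_congr D ρ (by push_cast; ring) rfl))

theorem r98 (t u : F) (v : V) : D.X ρ 8 u (D.X ρ 9 t v) = D.X ρ 9 t (D.X ρ 8 u (D.X ρ 11 (3 * t * u) v)) := by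
  rw [D.com1_app ρ (r := 9) (s := 8) (k := 11) (C := -3) (by decide +kernel)]
  exact X_congr D ρ rfl (X_congr D ρ rfl (X_congr D ρ (by push_cast; ring) rfl))

theorem r610 (t u : F) (v : V) : D.X ρ 10 u (D.X ρ 6 t v) = D.X ρ 6 t (D.X ρ 10 u (D.X ρ 11 (-(t * u)) v)) := by
  rw [D.com1_app ρ (r := 6) (s := 10) (k := 11) (C := 1) (by decide +kernel)]
  exact X_congr D ρ rfl (X_congr D ρ rfl (X_congr D ρ (by push_cast; ring) rfl))

theorem r106 (t u : F) (v : V) : D.X ρ 6 u (D.X ρ 10 t v) = D.X ρ 10 t (D.X ρ 6 u (D.X ρ 11 (t * u) v)) := by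
  rw [D.com1_app ρ (r := 10) (s := 6) (k := 11) (C := -1) (by decide +kernel)]
  exact X_congr D ρ rfl (X_congr D ρ rfl (X_congr D ρ (by push_cast; ring) rfl))

/-! ### weight spaces -/

/-- condition on a slot -/
def ok (ψ : AddChar F ℂ) (s : ℕ) (o : Option F) (v : V) : Prop := ∀ c, o = some c → ∀ t, D.X ρ s t v = ψ (c * t) • v

theorem ok_none {ψ : AddChar F ℂ} {s : ℕ} {v : V} : D.ok ρ ψ s none v ↔ True := by
  simp [ok]

theorem ok_some {ψ : AddChar F ℂ} {s : ℕ} {c : F} {v : V} : D.ok ρ ψ s (some c) v ↔ ∀ t, D.X ρ s t v = ψ (c * t) • v := by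
  simp [ok]

/-- weight spaces for the positive roots -/
def W (ψ : AddChar F ℂ) (a b e f c r : Option F) : Submodule ℂ V where
  carrier := {v | D.ok ρ ψ 7 a v ∧ D.ok ρ ψ 6 b v ∧ D.ok ρ ψ 8 e v ∧ D.ok ρ ψ 9 f v ∧ D.ok ρ ψ 10 c v ∧ D.ok ρ ψ 11 r v}
  add_mem' := by
    rintro x y ⟨h1, h2, h3, h4, h5, h6⟩ ⟨g1, g2, g3, g4, g5, g6⟩
    have key : ∀ (s : ℕ) (o : Option F), D.ok ρ ψ s o x → D.ok ρ ψ s o y → D.ok ρ ψ s o (x + y) := by
      intro s o hx hy c hc t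
      rw [map_add, hx c hc, hy c hc, smul_add]
    exact ⟨key _ _ h1 g1, key _ _ h2 g2, key _ _ h3 g3, key _ _ h4 g4, key _ _ h5 g5, key _ _ h6 g6⟩
  zero_mem' := by
    have key : ∀ (s : ℕ) (o : Option F), D.ok ρ ψ s o (0 : V) := by
      intro s o c hc t
      simp
    exact ⟨key _ _, key _ _, key _ _, key _ _, key _ _, key _ _⟩
  smul_mem' := by
    rintro z x ⟨h1, h2, h3, h4, h5, h6⟩
    have key : ∀ (s : ℕ) (o : Option F), D.ok ρ ψ s o x → D.ok ρ ψ s o (z • x) := by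
      intro s o hx c hc t
      rw [map_smul, hx c hc, smul_comm]
    exact ⟨key _ _ h1, key _ _ h2, key _ _ h3, key _ _ h4, key _ _ h5, key _ _ h6⟩

theorem mem_W {ψ : AddChar F ℂ} {a b e f c r : Option F} {v : V} : v ∈ D.W ρ ψ a b e f c r ↔
    D.ok ρ ψ 7 a v ∧ D.ok ρ ψ 6 b v ∧ D.ok ρ ψ 8 e v ∧ D.ok ρ ψ 9 f v ∧ D.ok ρ ψ 10 c v ∧ D.ok ρ ψ 11 r v := Iff.rfl

/-- dimension -/
noncomputable def dm (ψ : AddChar F ℂ) (a b e f c r : Option F) : ℕ := finrank ℂ (D.W ρ ψ a b e f c r)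

section split

variable [Fintype F] [FiniteDimensional ℂ V] {ψ : AddChar F ℂ} (hψ : ψ.IsPrimitive)

include hψ

theorem spl (s : ℕ) (K : Submodule ℂ V) (hK : ∀ t, ∀ v ∈ K, D.X ρ s t v ∈ K) :
    finrank ℂ K = ∑ c : F, finrank ℂ (K ⊓ wsp ψ (D.X ρ s) c : Submodule ℂ V) :=
  split_finrank hψ (D.X_add ρ s) (D.X_zero ρ s) K hK

theorem spl7 (b e f c r : Option F) (hK : ∀ t, ∀ v ∈ D.W ρ ψ none b e f c r, D.X ρ 7 t v ∈ D.W ρ ψ none b e f c r) :
    D.dm ρ ψ none b e f c r = ∑ x : F, D.dm ρ ψ (some x) b e f c r := by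
  refine (D.spl ρ hψ 7 _ hK).trans (Finset.sum_congr rfl fun x _ => ?_)
  unfold dm
  have e : (D.W ρ ψ none b e f c r ⊓ wsp ψ (D.X ρ 7) x : Submodule ℂ V) = D.W ρ ψ (some x) b e f c r := by
    ext v
    simp only [Submodule.mem_inf, mem_W, ok_none, ok_some, mem_wsp]
    tauto
  rw [e]

theorem spl6 (a e f c r : Option F) (hK : ∀ t, ∀ v ∈ D.W ρ ψ a none e f c r, D.X ρ 6 t v ∈ D.W ρ ψ a none e f c r) :
    D.dm ρ ψ a none e f c r = ∑ x : F, D.dm ρ ψ a (some x) e f c r := by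
  refine (D.spl ρ hψ 6 _ hK).trans (Finset.sum_congr rfl fun x _ => ?_)
  unfold dm
  have e : (D.W ρ ψ a none e f c r ⊓ wsp ψ (D.X ρ 6) x : Submodule ℂ V) = D.W ρ ψ a (some x) e f c r := by
    ext v
    simp only [Submodule.mem_inf, mem_W, ok_none, ok_some, mem_wsp]
    tauto
  rw [e]

theorem spl8 (a b f c r : Option F) (hK : ∀ t, ∀ v ∈ D.W ρ ψ a b none f c r, D.X ρ 8 t v ∈ D.W ρ ψ a b none f c r) :
    D.dm ρ ψ a b none f c r = ∑ x : F, D.dm ρ ψ a b (some x) f c r := by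
  refine (D.spl ρ hψ 8 _ hK).trans (Finset.sum_congr rfl fun x _ => ?_)
  unfold dm
  have e : (D.W ρ ψ a b none f c r ⊓ wsp ψ (D.X ρ 8) x : Submodule ℂ V) = D.W ρ ψ a b (some x) f c r := by
    ext v
    simp only [Submodule.mem_inf, mem_W, ok_none, ok_some, mem_wsp]
    tauto
  rw [e]

theorem spl9 (a b e c r : Option F) (hK : ∀ t, ∀ v ∈ D.W ρ ψ a b e none c r, D.X ρ 9 t v ∈ D.W ρ ψ a b e none c r) :
    D.dm ρ ψ a b e none c r = ∑ x : F, D.dm ρ ψ a b e (some x) c r := by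
  refine (D.spl ρ hψ 9 _ hK).trans (Finset.sum_congr rfl fun x _ => ?_)
  unfold dm
  have e : (D.W ρ ψ a b e none c r ⊓ wsp ψ (D.X ρ 9) x : Submodule ℂ V) = D.W ρ ψ a b e (some x) c r := by
    ext v
    simp only [Submodule.mem_inf, mem_W, ok_none, ok_some, mem_wsp]
    tauto
  rw [e]

theorem spl10 (a b e f r : Option F) (hK : ∀ t, ∀ v ∈ D.W ρ ψ a b e f none r, D.X ρ 10 t v ∈ D.W ρ ψ a b e f none r) :
    D.dm ρ ψ a b e f none r = ∑ x : F, D.dm ρ ψ a b e f (some x) r := by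
  refine (D.spl ρ hψ 10 _ hK).trans (Finset.sum_congr rfl fun x _ => ?_)
  unfold dm
  have e : (D.W ρ ψ a b e f none r ⊓ wsp ψ (D.X ρ 10) x : Submodule ℂ V) = D.W ρ ψ a b e f (some x) r := by
    ext v
    simp only [Submodule.mem_inf, mem_W, ok_none, ok_some, mem_wsp]
    tauto
  rw [e]

theorem spl11 (a b e f c : Option F) (hK : ∀ t, ∀ v ∈ D.W ρ ψ a b e f c none, D.X ρ 11 t v ∈ D.W ρ ψ a b e f c none) :
    D.dm ρ ψ a b e f c none = ∑ x : F, D.dm ρ ψ a b e f c (some x) := by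
  refine (D.spl ρ hψ 11 _ hK).trans (Finset.sum_congr rfl fun x _ => ?_)
  unfold dm
  have e : (D.W ρ ψ a b e f c none ⊓ wsp ψ (D.X ρ 11) x : Submodule ℂ V) = D.W ρ ψ a b e f c (some x) := by
    ext v
    simp only [Submodule.mem_inf, mem_W, ok_none, ok_some, mem_wsp]
    tauto
  rw [e]

end split

/-! ### moves -/

section moves

variable [FiniteDimensional ℂ V] (ψ : AddChar F ℂ)

theorem le_move (g : G) {K K' : Submodule ℂ V} (h : ∀ v ∈ K, ρ g v ∈ K') : finrank ℂ K ≤ finrank ℂ K' :=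
  finrank_le_move (ρ g) (ρ_inj ρ g) h

/-- monomial element of `a` -/
theorem na_le (b e f c r : Option F) : D.dm ρ ψ none b e f c r ≤
    D.dm ρ ψ none (c.map (D.ea 10 * ·)) (f.map (D.ea 9 * ·)) (e.map (D.ea 8 * ·)) (b.map (D.ea 6 * ·)) (r.map (D.ea 11 * ·)) := by
  apply le_move ρ D.na
  have key : ∀ (s : ℕ) (hs : s < 12) (o : Option F) (v : V), D.ok ρ ψ s o v →
      D.ok ρ ψ (sa s) (o.map (D.ea s * ·)) (ρ D.na v) := by
    intro s hs o v ho c hc t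
    rw [Option.map_eq_some_iff] at hc
    obtain ⟨c', rfl, rfl⟩ := hc
    have h1 : D.ea s * D.ea s = 1 := by rcases D.ea1 s hs with h | h <;> rw [h] <;> ring
    have h2 := D.na_app ρ hs (D.ea s * t) v
    rw [← mul_assoc, h1, one_mul] at h2
    rw [h2, ho c' rfl, map_smul]
    congr 2
    show c' * (D.ea s * t) = D.ea s * c' * t
    ring
  rintro v ⟨-, h2, h3, h4, h5, h6⟩
  exact ⟨fun c hc => absurd hc (by simp), key 10 (by decide) _ _ h5, key 9 (by decide) _ _ h4,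
    key 8 (by decide) _ _ h3, key 6 (by decide) _ _ h2, key 11 (by decide) _ _ h6⟩

theorem nb_le (a e f c r : Option F) : D.dm ρ ψ a none e f c r ≤
    D.dm ρ ψ (e.map (D.eb 8 * ·)) none (a.map (D.eb 7 * ·)) (f.map (D.eb 9 * ·)) (r.map (D.eb 11 * ·)) (c.map (D.eb 10 * ·)) := by
  apply le_move ρ D.nb
  have key : ∀ (s : ℕ) (hs : s < 12) (o : Option F) (v : V), D.ok ρ ψ s o v →
      D.ok ρ ψ (sb s) (o.map (D.eb s * ·)) (ρ D.nb v) := by
    intro s hs o v ho c hc t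
    rw [Option.map_eq_some_iff] at hc
    obtain ⟨c', rfl, rfl⟩ := hc
    have h1 : D.eb s * D.eb s = 1 := by rcases D.eb1 s hs with h | h <;> rw [h] <;> ring
    have h2 := D.nb_app ρ hs (D.eb s * t) v
    rw [← mul_assoc, h1, one_mul] at h2
    rw [h2, ho c' rfl, map_smul]
    congr 2
    show c' * (D.eb s * t) = D.eb s * c' * t
    ring
  rintro v ⟨h1, -, h3, h4, h5, h6⟩
  exact ⟨key 8 (by decide) _ _ h3, fun c hc => absurd hc (by simp), key 7 (by decide) _ _ h1,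
    key 9 (by decide) _ _ h4, key 11 (by decide) _ _ h6, key 10 (by decide) _ _ h5⟩

/-- torus -/
theorem h_le {l m : F} (hl : l ≠ 0) (hm : m ≠ 0) (a b e f c r : Option F) : D.dm ρ ψ a b e f c r ≤
    D.dm ρ ψ (a.map ((l ^ ca 7 * m ^ cb 7)⁻¹ * ·)) (b.map ((l ^ ca 6 * m ^ cb 6)⁻¹ * ·))
      (e.map ((l ^ ca 8 * m ^ cb 8)⁻¹ * ·)) (f.map ((l ^ ca 9 * m ^ cb 9)⁻¹ * ·))
      (c.map ((l ^ ca 10 * m ^ cb 10)⁻¹ * ·)) (r.map ((l ^ ca 11 * m ^ cb 11)⁻¹ * ·)) := by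
  apply le_move ρ (D.h l m)
  have key : ∀ (s : ℕ) (hs : s < 12) (o : Option F) (v : V), D.ok ρ ψ s o v →
      D.ok ρ ψ s (o.map ((l ^ ca s * m ^ cb s)⁻¹ * ·)) (ρ (D.h l m) v) := by
    intro s hs o v ho c hc t
    rw [Option.map_eq_some_iff] at hc
    obtain ⟨c', rfl, rfl⟩ := hc
    have h1 : l ^ ca s * m ^ cb s ≠ 0 := mul_ne_zero (zpow_ne_zero _ hl) (zpow_ne_zero _ hm)
    have h2 := D.h_app ρ hl hm hs ((l ^ ca s * m ^ cb s)⁻¹ * t) v
    rw [mul_inv_cancel_left₀ h1] at h2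
    rw [h2, ho c' rfl, map_smul]
    congr 2
    show c' * ((l ^ ca s * m ^ cb s)⁻¹ * t) = (l ^ ca s * m ^ cb s)⁻¹ * c' * t
    ring
  rintro v ⟨h1, h2, h3, h4, h5, h6⟩
  exact ⟨key 7 (by decide) _ _ h1, key 6 (by decide) _ _ h2, key 8 (by decide) _ _ h3,
    key 9 (by decide) _ _ h4, key 10 (by decide) _ _ h5, key 11 (by decide) _ _ h6⟩

end moves

end GD

end H44.GT
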