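import Cfsg.Agent.Lib.H44.GT2

/-!
Moves and stability of the weight spaces.
-/

set_option autoImplicit false
set_option linter.unusedSectionVars false

namespace H44.GT

open Module Cfsg.Lie

variable {F : Type*} [Field F] {G : Type*} [Group G] (D : GD F G)
  {V : Type*} [AddCommGroup V] [Module ℂ V] (ρ : Representation ℂ G V)

namespace GD

/-- commuting root groups, as operators -/
def Cm (r s : ℕ) : Prop := ∀ (t u : F) (v : V), D.X ρ s u (D.X ρ r t v) = D.X ρ r t (D.X ρ s u v)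

theorem cm {r s : ℕ} (h : com r s = true) : D.Cm ρ r s := fun t u v => D.com_app ρ h t u v

variable {ρ} in
theorem okn {ψ : AddChar F ℂ} {s : ℕ} {v : V} : D.ok ρ ψ s none v := (D.ok_none ρ).2 trivial

variable {ρ} in
theorem ok_cm {ψ : AddChar F ℂ} {r s : ℕ} (h : D.Cm ρ r s) {o : Option F} {v : V} (hv : D.ok ρ ψ s o v) (t : F) :
    D.ok ρ ψ s o (D.X ρ r t v) := by
  intro c hc u
  rw [h, hv c hc, map_smul]

theorem coms : com 11 6 = true ∧ com 11 7 = true ∧ com 11 8 = true ∧ com 11 9 = true ∧ com 11 10 = true ∧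
    com 10 7 = true ∧ com 10 8 = true ∧ com 10 9 = true ∧ com 10 11 = true ∧ com 9 6 = true ∧ com 9 10 = true ∧
    com 9 11 = true ∧ com 8 6 = true ∧ com 8 10 = true ∧ com 8 11 = true ∧ com 7 10 = true ∧ com 7 11 = true ∧
    com 6 8 = true ∧ com 6 9 = true ∧ com 6 11 = true := by decide +kernel

theorem ok11 {s : ℕ} (hs : s = 6 ∨ s = 7 ∨ s = 8 ∨ s = 9 ∨ s = 10) : D.Cm ρ 11 s := by
  obtain ⟨h1, h2, h3, h4, h5, -⟩ := coms
  rcases hs with rfl | rfl | rfl | rfl | rfl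
  exacts [D.cm ρ h1, D.cm ρ h2, D.cm ρ h3, D.cm ρ h4, D.cm ρ h5]

variable {ψ : AddChar F ℂ}

/-! ### stability -/

theorem st11 (a b e f c : Option F) : ∀ t, ∀ v ∈ D.W ρ ψ a b e f c none, D.X ρ 11 t v ∈ D.W ρ ψ a b e f c none := by
  obtain ⟨h1, h2, h3, h4, h5, -⟩ := coms
  rintro t v ⟨g1, g2, g3, g4, g5, -⟩
  exact ⟨D.ok_cm (D.cm ρ h2) g1 t, D.ok_cm (D.cm ρ h1) g2 t, D.ok_cm (D.cm ρ h3) g3 t, D.ok_cm (D.cm ρ h4) g4 t,
    D.ok_cm (D.cm ρ h5) g5 t, (D.ok_none ρ).2 trivial⟩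

theorem st10 (a e f r : Option F) : ∀ t, ∀ v ∈ D.W ρ ψ a none e f none r, D.X ρ 10 t v ∈ D.W ρ ψ a none e f none r := by
  obtain ⟨-, -, -, -, -, h1, h2, h3, h4, -⟩ := coms
  rintro t v ⟨g1, -, g3, g4, -, g6⟩
  exact ⟨D.ok_cm (D.cm ρ h1) g1 t, (D.ok_none ρ).2 trivial, D.ok_cm (D.cm ρ h2) g3 t, D.ok_cm (D.cm ρ h3) g4 t,
    (D.ok_none ρ).2 trivial, D.ok_cm (D.cm ρ h4) g6 t⟩

theorem X_of_zero {s : ℕ} {v : V} (h : D.ok ρ ψ s (some 0) v) (t : F) : D.X ρ s t v = v := by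
  rw [h 0 rfl, zero_mul, AddChar.map_zero_eq_one, one_smul]

theorem ok_zero {s : ℕ} {v : V} (h : ∀ t, D.X ρ s t v = v) : D.ok ρ ψ s (some 0) v := by
  intro c hc t
  rw [Option.some.injEq] at hc
  rw [← hc, zero_mul, AddChar.map_zero_eq_one, one_smul, h]

/-- adding the last condition `0` -/
theorem st10' (b e f : Option F) : ∀ t, ∀ v ∈ D.W ρ ψ none b e f none (some 0), D.X ρ 10 t v ∈ D.W ρ ψ none b e f none (some 0) := by
  obtain ⟨-, -, -, -, -, h1, h2, h3, h4, -⟩ := coms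
  rintro t v ⟨g1, g2, g3, g4, -, g6⟩
  refine ⟨(D.ok_none ρ).2 trivial, ?_, D.ok_cm (D.cm ρ h2) g3 t, D.ok_cm (D.cm ρ h3) g4 t,
    (D.ok_none ρ).2 trivial, D.ok_cm (D.cm ρ h4) g6 t⟩
  intro β hβ u
  rw [D.r106, D.X_of_zero ρ g6, g2 β hβ, map_smul]

theorem st6 (e f c : Option F) : ∀ t, ∀ v ∈ D.W ρ ψ none none e f c (some 0), D.X ρ 6 t v ∈ D.W ρ ψ none none e f c (some 0) := by
  obtain ⟨-, -, -, -, -, -, -, -, -, -, -, -, -, -, -, -, -, h1, h2, h3⟩ := coms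
  rintro t v ⟨g1, g2, g3, g4, g5, g6⟩
  refine ⟨D.okn, D.okn, D.ok_cm (D.cm ρ h1) g3 t, D.ok_cm (D.cm ρ h2) g4 t, ?_, D.ok_cm (D.cm ρ h3) g6 t⟩
  intro β hβ u
  rw [D.r610, D.X_of_zero ρ g6, g5 β hβ, map_smul]

theorem st6a (a : Option F) : ∀ t, ∀ v ∈ D.W ρ ψ a none (some 0) (some 0) (some 0) (some 0),
    D.X ρ 6 t v ∈ D.W ρ ψ a none (some 0) (some 0) (some 0) (some 0) := by
  rintro t v ⟨g1, g2, g3, g4, g5, g6⟩
  obtain ⟨-, k2, k3, k4, k5, k6⟩ := D.st6 ρ (some 0) (some 0) (some 0) t v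
    ⟨(D.ok_none ρ).2 trivial, g2, g3, g4, g5, g6⟩
  refine ⟨?_, k2, k3, k4, k5, k6⟩
  intro β hβ u
  rw [D.r67, D.X_of_zero ρ g6, D.X_of_zero ρ g5, D.X_of_zero ρ g4, D.X_of_zero ρ g3, g1 β hβ, map_smul]

theorem st7a (b : Option F) : ∀ t, ∀ v ∈ D.W ρ ψ none b (some 0) (some 0) (some 0) (some 0),
    D.X ρ 7 t v ∈ D.W ρ ψ none b (some 0) (some 0) (some 0) (some 0) := by
  obtain ⟨-, -, -, -, -, -, -, -, -, -, -, -, -, -, -, h1, h2, -, -, -⟩ := coms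
  rintro t v ⟨g1, g2, g3, g4, g5, g6⟩
  refine ⟨D.okn, ?_, D.ok_zero ρ fun u => ?_, D.ok_zero ρ fun u => ?_, D.ok_cm (D.cm ρ h1) g5 t, D.ok_cm (D.cm ρ h2) g6 t⟩
  · intro β hβ u
    rw [D.r76, D.X_of_zero ρ g6, D.X_of_zero ρ g5, D.X_of_zero ρ g4, D.X_of_zero ρ g3, g2 β hβ, map_smul]
  · rw [D.r78, D.X_of_zero ρ g6, D.X_of_zero ρ g5, D.X_of_zero ρ g4, D.X_of_zero ρ g3]
  · rw [D.r79, D.X_of_zero ρ g5, D.X_of_zero ρ g4]

/-! ### unipotent moves -/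

section mv

variable [FiniteDimensional ℂ V]

theorem smul_psi (x y : F) (v : V) : ψ x • ψ y • v = ψ (x + y) • v := by
  rw [smul_smul, AddChar.map_add_eq_mul]

/-- the action of `x_a(t)` on characters of `Q/Z` -/
theorem mv7 (t β ε φ κ : F) : D.dm ρ ψ none (some β) (some ε) (some φ) (some κ) (some 0) ≤
    D.dm ρ ψ none (some (β + t * ε + t ^ 2 * φ - t ^ 3 * κ)) (some (ε + 2 * t * φ - 3 * t ^ 2 * κ))
      (some (φ - 3 * t * κ)) (some κ) (some 0) := by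
  obtain ⟨-, -, -, -, -, -, -, -, -, -, -, -, -, -, -, h1, h2, -, -, -⟩ := coms
  apply le_move ρ (D.x 7 t)
  rintro v ⟨g1, g2, g3, g4, g5, g6⟩
  rw [ok_some] at g2 g3 g4 g5
  refine ⟨D.okn, ?_, ?_, ?_, D.ok_cm (D.cm ρ h1) ((D.ok_some ρ).2 g5) t, D.ok_cm (D.cm ρ h2) g6 t⟩
  · rw [ok_some]; intro u
    have := D.r76 ρ t u v
    rw [D.X_of_zero ρ g6, g5, map_smul, map_smul, map_smul, map_smul, g4, map_smul, map_smul, map_smul, g3, map_smul,
      map_smul, g2, map_smul, smul_psi, smul_psi, smul_psi] at this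
    refine this.trans ?_
    congr 2; ring
  · rw [ok_some]; intro u
    have := D.r78 ρ t u v
    rw [D.X_of_zero ρ g6, g5, map_smul, map_smul, map_smul, g4, map_smul, map_smul, g3, map_smul, smul_psi, smul_psi] at this
    refine this.trans ?_
    congr 2; ring
  · rw [ok_some]; intro u
    have := D.r79 ρ t u v
    rw [g5, map_smul, map_smul, g4, map_smul, smul_psi] at this
    refine this.trans ?_
    congr 2; ring

/-- shift by `x_b` -/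
theorem mv6 (t : F) (f : Option F) (e : Option F) (κ r : F) : D.dm ρ ψ none none e f (some κ) (some r) ≤
    D.dm ρ ψ none none e f (some (κ - t * r)) (some r) := by
  obtain ⟨-, -, -, -, -, -, -, -, -, -, -, -, -, -, -, -, -, h1, h2, h3⟩ := coms
  apply le_move ρ (D.x 6 t)
  rintro v ⟨g1, g2, g3, g4, g5, g6⟩
  rw [ok_some] at g5 g6
  refine ⟨D.okn, D.okn, D.ok_cm (D.cm ρ h1) g3 t, D.ok_cm (D.cm ρ h2) g4 t, ?_, D.ok_cm (D.cm ρ h3) ((D.ok_some ρ).2 g6) t⟩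
  rw [ok_some]; intro u
  have := D.r610 ρ t u v
  rw [g6, map_smul, map_smul, g5, map_smul, smul_psi] at this
  refine this.trans ?_
  congr 2; ring

theorem mv6_eq {r : F} (hr : r ≠ 0) (f e : Option F) (κ κ' : F) : D.dm ρ ψ none none e f (some κ) (some r) =
    D.dm ρ ψ none none e f (some κ') (some r) := by
  have key : ∀ κ κ' : F, D.dm ρ ψ none none e f (some κ) (some r) ≤ D.dm ρ ψ none none e f (some κ') (some r) := by
    intro κ κ'
    have := D.mv6 ρ (ψ := ψ) ((κ - κ') / r) f e κ r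
    have e : κ - (κ - κ') / r * r = κ' := by rw [div_mul_cancel₀ _ hr]; ring
    rwa [e] at this
  exact le_antisymm (key _ _) (key _ _)

/-- shift by `x_b` on the `a` weight -/
theorem mv6a (t α ε : F) : D.dm ρ ψ (some α) none (some ε) (some 0) (some 0) (some 0) ≤
    D.dm ρ ψ (some (α - t * ε)) none (some ε) (some 0) (some 0) (some 0) := by
  apply le_move ρ (D.x 6 t)
  rintro v ⟨g1, g2, g3, g4, g5, g6⟩
  obtain ⟨-, k2, k3, k4, k5, k6⟩ := D.st6 ρ (some ε) (some 0) (some 0) t v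
    ⟨(D.ok_none ρ).2 trivial, g2, g3, g4, g5, g6⟩
  refine ⟨?_, k2, k3, k4, k5, k6⟩
  rw [ok_some] at g1 g3 ⊢; intro u
  have := D.r67 ρ t u v
  rw [D.X_of_zero ρ g6, D.X_of_zero ρ g5, D.X_of_zero ρ g4, g3, map_smul, map_smul, g1, map_smul, smul_psi] at this
  refine this.trans ?_
  congr 2; ring

/-- torus moves for two values -/
theorem mono_le {K K' : Submodule ℂ V} (h : K ≤ K') : finrank ℂ K ≤ finrank ℂ K' := Submodule.finrank_mono h

end mv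

/-! ### characteristic three -/

section char3

variable (h3 : (3 : F) = 0)

include h3

theorem cm97 : D.Cm ρ 9 7 := by
  intro t u v
  rw [D.comm_app ρ (r := 9) (s := 7) (by decide) (by decide) (by decide) (by decide)
    (L := [(10, -3, 1, 1)]) (by decide +kernel) t u v]
  have : (((-3 : ℤ) : F) * (-t) ^ 1 * u ^ 1) = 0 := by
    have : ((-3 : ℤ) : F) = 0 := by push_cast; rw [h3, neg_zero]
    rw [this]; ring
  simp only [wa, List.map_cons, List.map_nil, List.foldr_cons, List.foldr_nil]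
  rw [this, X_zero_app]

theorem cm79 : D.Cm ρ 7 9 := by
  intro t u v
  rw [D.r79, h3]
  have : -(0 * t * u) = (0 : F) := by ring
  rw [this, X_zero_app]

theorem cm89 : D.Cm ρ 8 9 := by
  intro t u v
  rw [D.r89, h3]
  have : -(0 * t * u) = (0 : F) := by ring
  rw [this, X_zero_app]

theorem cm98 : D.Cm ρ 9 8 := by
  intro t u v
  rw [D.r98, h3]
  have : (0 * t * u) = (0 : F) := by ring
  rw [this, X_zero_app]

theorem r78' (t u : F) (v : V) : D.X ρ 8 u (D.X ρ 7 t v) = D.X ρ 7 t (D.X ρ 8 u (D.X ρ 9 (2 * t * u) v)) := by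
  rw [D.r78, h3]
  have e1 : -(0 * t ^ 2 * u) = (0 : F) := by ring
  have e2 : -(0 * t * u ^ 2) = (0 : F) := by ring
  rw [e1, e2, X_zero_app, X_zero_app]

theorem st8 (b f c r : Option F) : ∀ t, ∀ v ∈ D.W ρ ψ none b none f c r, D.X ρ 8 t v ∈ D.W ρ ψ none b none f c r := by
  obtain ⟨-, -, -, -, -, -, -, -, -, -, -, -, h1, h2, h4, -⟩ := coms
  rintro t v ⟨g1, g2, g3, g4, g5, g6⟩
  exact ⟨D.okn, D.ok_cm (D.cm ρ h1) g2 t, D.okn, D.ok_cm (D.cm89 ρ h3) g4 t, D.ok_cm (D.cm ρ h2) g5 t,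
    D.ok_cm (D.cm ρ h4) g6 t⟩

theorem st9 (a b e c r : Option F) : ∀ t, ∀ v ∈ D.W ρ ψ a b e none c r, D.X ρ 9 t v ∈ D.W ρ ψ a b e none c r := by
  obtain ⟨-, -, -, -, -, -, -, -, -, h1, h2, h4, -⟩ := coms
  rintro t v ⟨g1, g2, g3, g4, g5, g6⟩
  exact ⟨D.ok_cm (D.cm97 ρ h3) g1 t, D.ok_cm (D.cm ρ h1) g2 t, D.ok_cm (D.cm98 ρ h3) g3 t, D.okn,
    D.ok_cm (D.cm ρ h2) g5 t, D.ok_cm (D.cm ρ h4) g6 t⟩

theorem st7 (ε : F) (c r : Option F) : ∀ t, ∀ v ∈ D.W ρ ψ none none (some ε) (some 0) c r,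
    D.X ρ 7 t v ∈ D.W ρ ψ none none (some ε) (some 0) c r := by
  obtain ⟨-, -, -, -, -, -, -, -, -, -, -, -, -, -, -, h1, h2, -, -, -⟩ := coms
  rintro t v ⟨g1, g2, g3, g4, g5, g6⟩
  refine ⟨D.okn, D.okn, ?_, D.ok_cm (D.cm79 ρ h3) g4 t, D.ok_cm (D.cm ρ h1) g5 t, D.ok_cm (D.cm ρ h2) g6 t⟩
  rw [ok_some] at g3 ⊢; intro u
  rw [D.r78' ρ h3, D.X_of_zero ρ g4, g3, map_smul]

variable [FiniteDimensional ℂ V]

theorem mv7' (t ε φ : F) (c r : Option F) : D.dm ρ ψ none none (some ε) (some φ) c r ≤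
    D.dm ρ ψ none none (some (ε + 2 * t * φ)) (some φ) c r := by
  obtain ⟨-, -, -, -, -, -, -, -, -, -, -, -, -, -, -, h1, h2, -, -, -⟩ := coms
  apply le_move ρ (D.x 7 t)
  rintro v ⟨g1, g2, g3, g4, g5, g6⟩
  refine ⟨D.okn, D.okn, ?_, D.ok_cm (D.cm79 ρ h3) g4 t, D.ok_cm (D.cm ρ h1) g5 t, D.ok_cm (D.cm ρ h2) g6 t⟩
  rw [ok_some] at g3 g4 ⊢; intro u
  have := D.r78' ρ h3 t u v
  rw [g4, map_smul, map_smul, g3, map_smul, smul_psi] at this
  refine this.trans ?_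
  congr 2; ring

omit [FiniteDimensional ℂ V] in
theorem two_ne : (2 : F) ≠ 0 := by
  intro h
  have : (1 : F) = 0 := by
    have e : (1 : F) = 3 - 2 := by ring
    rw [e, h3, h, sub_zero]
  exact one_ne_zero this

theorem mv7_eq {φ : F} (hφ : φ ≠ 0) (ε ε' : F) (c r : Option F) : D.dm ρ ψ none none (some ε) (some φ) c r =
    D.dm ρ ψ none none (some ε') (some φ) c r := by
  have key : ∀ ε ε' : F, D.dm ρ ψ none none (some ε) (some φ) c r ≤ D.dm ρ ψ none none (some ε') (some φ) c r := by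
    intro ε ε'
    have := D.mv7' ρ h3 (ψ := ψ) ((ε' - ε) / (2 * φ)) ε φ c r
    have h2 : (2 : F) ≠ 0 := two_ne h3
    have e : ε + 2 * ((ε' - ε) / (2 * φ)) * φ = ε' := by field_simp; ring
    rwa [e] at this
  exact le_antisymm (key _ _) (key _ _)

end char3

end GD

end H44.GT
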