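import Cfsg.Agent.Lib.H44.GT3

/-!
Symmetries of the dimensions.
-/

set_option autoImplicit false
set_option linter.unusedSectionVars false

namespace H44.GT

open Module Cfsg.Lie

variable {F : Type*} [Field F] {G : Type*} [Group G] (D : GD F G)
  {V : Type*} [AddCommGroup V] [Module ℂ V] (ρ : Representation ℂ G V)

namespace GD

theorem ea_ne {s : ℕ} (hs : s < 12) : D.ea s ≠ 0 := by
  rcases D.ea1 s hs with h | h <;> rw [h] <;> simp

theorem eb_ne {s : ℕ} (hs : s < 12) : D.eb s ≠ 0 := by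
  rcases D.eb1 s hs with h | h <;> rw [h] <;> simp

theorem inv_app (g : G) (v : V) : ρ g (ρ g⁻¹ v) = v := by
  rw [← Module.End.mul_apply, ← map_mul, mul_inv_cancel, map_one]; rfl

theorem inv_app' (g : G) (v : V) : ρ g⁻¹ (ρ g v) = v := by
  rw [← Module.End.mul_apply, ← map_mul, inv_mul_cancel, map_one]; rfl

variable [FiniteDimensional ℂ V] (ψ : AddChar F ℂ)

theorem na_eq (b e f c r : Option F) : D.dm ρ ψ none b e f c r =
    D.dm ρ ψ none (c.map (D.ea 10 * ·)) (f.map (D.ea 9 * ·)) (e.map (D.ea 8 * ·)) (b.map (D.ea 6 * ·)) (r.map (D.ea 11 * ·)) := by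
  apply le_antisymm (D.na_le ρ ψ b e f c r)
  apply le_move ρ D.na⁻¹
  have key : ∀ (s : ℕ) (hs : s < 12) (o : Option F) (v : V), D.ok ρ ψ (sa s) (o.map (D.ea s * ·)) v →
      D.ok ρ ψ s o (ρ D.na⁻¹ v) := by
    intro s hs o v ho c hc t
    subst hc
    have h1 : D.ea s * D.ea s = 1 := by rcases D.ea1 s hs with h | h <;> rw [h] <;> ring
    have h2 := D.na_app ρ hs t (ρ D.na⁻¹ v)
    rw [inv_app] at h2
    apply ρ_inj ρ D.na
    rw [← h2, map_smul, inv_app, ho (D.ea s * c) rfl]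
    congr 2
    linear_combination (c * t) * h1
  rintro v ⟨h1, h2, h3, h4, h5, h6⟩
  exact ⟨fun c hc => absurd hc (by simp), key 6 (by decide) _ _ h5, key 8 (by decide) _ _ h4,
    key 9 (by decide) _ _ h3, key 10 (by decide) _ _ h2, key 11 (by decide) _ _ h6⟩

theorem nb_eq (a e f c r : Option F) : D.dm ρ ψ a none e f c r =
    D.dm ρ ψ (e.map (D.eb 8 * ·)) none (a.map (D.eb 7 * ·)) (f.map (D.eb 9 * ·)) (r.map (D.eb 11 * ·)) (c.map (D.eb 10 * ·)) := by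
  apply le_antisymm (D.nb_le ρ ψ a e f c r)
  apply le_move ρ D.nb⁻¹
  have key : ∀ (s : ℕ) (hs : s < 12) (o : Option F) (v : V), D.ok ρ ψ (sb s) (o.map (D.eb s * ·)) v →
      D.ok ρ ψ s o (ρ D.nb⁻¹ v) := by
    intro s hs o v ho c hc t
    subst hc
    have h1 : D.eb s * D.eb s = 1 := by rcases D.eb1 s hs with h | h <;> rw [h] <;> ring
    have h2 := D.nb_app ρ hs t (ρ D.nb⁻¹ v)
    rw [inv_app] at h2
    apply ρ_inj ρ D.nb
    rw [← h2, map_smul, inv_app, ho (D.eb s * c) rfl]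
    congr 2
    linear_combination (c * t) * h1
  rintro v ⟨h1, h2, h3, h4, h5, h6⟩
  exact ⟨key 7 (by decide) _ _ h3, fun c hc => absurd hc (by simp), key 8 (by decide) _ _ h1,
    key 9 (by decide) _ _ h4, key 10 (by decide) _ _ h6, key 11 (by decide) _ _ h5⟩

theorem tor_le {l m : F} (hl : l ≠ 0) (hm : m ≠ 0) (a b e f c r : Option F) : D.dm ρ ψ a b e f c r ≤
    D.dm ρ ψ (a.map (m / l ^ 2 * ·)) (b.map (l ^ 3 / m ^ 2 * ·)) (e.map (l / m * ·)) (f.map (1 / l * ·))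
      (c.map (m / l ^ 3 * ·)) (r.map (1 / m * ·)) := by
  have h := D.h_le ρ ψ hl hm a b e f c r
  have e7 : (l ^ ca 7 * m ^ cb 7)⁻¹ = m / l ^ 2 := by
    show (l ^ (2 : ℤ) * m ^ (-1 : ℤ))⁻¹ = _
    rw [zpow_neg_one, zpow_ofNat]; field_simp
  have e6 : (l ^ ca 6 * m ^ cb 6)⁻¹ = l ^ 3 / m ^ 2 := by
    show (l ^ (-3 : ℤ) * m ^ (2 : ℤ))⁻¹ = _
    rw [zpow_neg, zpow_ofNat, zpow_ofNat]; field_simp
  have e8 : (l ^ ca 8 * m ^ cb 8)⁻¹ = l / m := by
    show (l ^ (-1 : ℤ) * m ^ (1 : ℤ))⁻¹ = _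
    rw [zpow_neg_one, zpow_one]; field_simp
  have e9 : (l ^ ca 9 * m ^ cb 9)⁻¹ = 1 / l := by
    show (l ^ (1 : ℤ) * m ^ (0 : ℤ))⁻¹ = _
    rw [zpow_zero, zpow_one]; field_simp
  have e10 : (l ^ ca 10 * m ^ cb 10)⁻¹ = m / l ^ 3 := by
    show (l ^ (3 : ℤ) * m ^ (-1 : ℤ))⁻¹ = _
    rw [zpow_neg_one, zpow_ofNat]; field_simp
  have e11 : (l ^ ca 11 * m ^ cb 11)⁻¹ = 1 / m := by
    show (l ^ (0 : ℤ) * m ^ (1 : ℤ))⁻¹ = _
    rw [zpow_zero, zpow_one]; field_simp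
  rwa [e7, e6, e8, e9, e10, e11] at h

theorem tor {l m : F} (hl : l ≠ 0) (hm : m ≠ 0) (a b e f c r : Option F) : D.dm ρ ψ a b e f c r =
    D.dm ρ ψ (a.map (m / l ^ 2 * ·)) (b.map (l ^ 3 / m ^ 2 * ·)) (e.map (l / m * ·)) (f.map (1 / l * ·))
      (c.map (m / l ^ 3 * ·)) (r.map (1 / m * ·)) := by
  apply le_antisymm (D.tor_le ρ ψ hl hm a b e f c r)
  refine (D.tor_le ρ ψ (inv_ne_zero hl) (inv_ne_zero hm) _ _ _ _ _ _).trans (le_of_eq ?_)
  simp only [Option.map_map]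
  have key : ∀ (x y : F), x * y = 1 → ((x * ·) ∘ (y * ·) : F → F) = id := by
    intro x y h
    funext z
    simp only [Function.comp, id]
    rw [← mul_assoc, h, one_mul]
  rw [key _ _ (by field_simp), key _ _ (by field_simp), key _ _ (by field_simp), key _ _ (by field_simp),
    key _ _ (by field_simp), key _ _ (by field_simp)]
  simp only [Option.map_id, id]

end GD

/-- sums over a field -/
theorem sum_nz {F : Type*} [Field F] [Fintype F] (f : F → ℕ) (c : ℕ) (h : ∀ x, x ≠ 0 → f x = c) :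
    ∑ x, f x = f 0 + (Fintype.card F - 1) * c := by
  classical
  rw [← Finset.add_sum_erase _ _ (Finset.mem_univ (0 : F)), Finset.sum_congr rfl (fun x hx => h x (Finset.ne_of_mem_erase hx)),
    Finset.sum_const, Finset.card_erase_of_mem (Finset.mem_univ _), Finset.card_univ, smul_eq_mul]

theorem sum_all {F : Type*} [Field F] [Fintype F] (f : F → ℕ) (c : ℕ) (h : ∀ x, f x = c) :
    ∑ x, f x = Fintype.card F * c := by
  rw [Finset.sum_congr rfl (fun x _ => h x), Finset.sum_const, Finset.card_univ, smul_eq_mul]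

end H44.GT
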