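import Cfsg.Agent.Lib.H44.GT4

/-!
Counting weights in characteristic three, first part.
-/

set_option autoImplicit false
set_option linter.unusedSectionVars false

namespace H44.GT

open Module Cfsg.Lie

variable {F : Type*} [Field F] {G : Type*} [Group G] (D : GD F G)
  {V : Type*} [AddCommGroup V] [Module ℂ V] (ρ : Representation ℂ G V)

namespace GD

variable [FiniteDimensional ℂ V] [Fintype F] {ψ : AddChar F ℂ} (hψ : ψ.IsPrimitive) (h3 : (3 : F) = 0)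

local notation "q" => Fintype.card F

section

omit [Fintype F]

/-- the generic multiplicity -/
noncomputable def Nn (ψ : AddChar F ℂ) : ℕ := D.dm ρ ψ none none (some 0) (some 1) (some 0) (some 1)

include h3

theorem full {φ r : F} (hφ : φ ≠ 0) (hr : r ≠ 0) (ε κ : F) :
    D.dm ρ ψ none none (some ε) (some φ) (some κ) (some r) = D.Nn ρ ψ := by
  rw [D.mv7_eq ρ h3 hφ ε 0, D.mv6_eq ρ hr _ _ κ 0, D.tor ρ ψ hφ hr]
  simp only [Option.map_none, Option.map_some, mul_zero]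
  rw [one_div_mul_cancel hφ, one_div_mul_cancel hr]
  rfl

end

include hψ h3

theorem c1 {φ r : F} (hφ : φ ≠ 0) (hr : r ≠ 0) (κ : F) :
    D.dm ρ ψ none none none (some φ) (some κ) (some r) = q * D.Nn ρ ψ := by
  rw [D.spl8 ρ hψ _ _ _ _ _ (D.st8 ρ h3 _ _ _ _)]
  exact sum_all _ _ fun x => D.full ρ h3 hφ hr x κ

theorem c2 {φ r : F} (hφ : φ ≠ 0) (hr : r ≠ 0) (ε : F) :
    D.dm ρ ψ none none (some ε) (some φ) none (some r) = q * D.Nn ρ ψ := by
  rw [D.spl10 ρ hψ _ _ _ _ _ (D.st10 ρ _ _ _ _)]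
  exact sum_all _ _ fun x => D.full ρ h3 hφ hr ε x

theorem c3 {φ r : F} (hφ : φ ≠ 0) (hr : r ≠ 0) :
    D.dm ρ ψ none none none (some φ) none (some r) = q * (q * D.Nn ρ ψ) := by
  rw [D.spl8 ρ hψ _ _ _ _ _ (D.st8 ρ h3 _ _ _ _)]
  exact sum_all _ _ fun x => D.c2 ρ hψ h3 hφ hr x

omit [Fintype F] hψ h3

/-- the multiplicities on the fixed space of `X_r` -/
noncomputable def Mp (ψ : AddChar F ℂ) (ε : F) : ℕ := D.dm ρ ψ none none (some ε) (some 0) none (some 0)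
noncomputable def Mm (ψ : AddChar F ℂ) (κ : F) : ℕ := D.dm ρ ψ none none none (some 0) (some κ) (some 0)
noncomputable def Kk (ψ : AddChar F ℂ) (ε κ : F) : ℕ := D.dm ρ ψ none none (some ε) (some 0) (some κ) (some 0)

theorem Mp_eq {ε : F} (hε : ε ≠ 0) : D.Mp ρ ψ ε = D.Mp ρ ψ 1 := by
  unfold Mp
  rw [D.tor ρ ψ one_ne_zero hε]
  simp only [Option.map_none, Option.map_some, mul_zero]
  rw [one_div_mul_cancel hε]

theorem Mm_eq {κ : F} (hκ : κ ≠ 0) : D.Mm ρ ψ κ = D.Mm ρ ψ 1 := by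
  unfold Mm
  rw [D.tor ρ ψ one_ne_zero (inv_ne_zero hκ)]
  simp only [Option.map_none, Option.map_some, mul_zero, one_pow, div_one]
  rw [inv_mul_cancel₀ hκ]

theorem Kk_tor {l m : F} (hl : l ≠ 0) (hm : m ≠ 0) (ε κ : F) : D.Kk ρ ψ ε κ = D.Kk ρ ψ (l / m * ε) (m / l ^ 3 * κ) := by
  unfold Kk
  rw [D.tor ρ ψ hl hm]
  simp only [Option.map_none, Option.map_some, mul_zero]

variable [Fintype F]

include hψ h3

theorem N10 {φ : F} (hφ : φ ≠ 0) : D.dm ρ ψ none none none (some φ) none (some 0) = q * D.Mp ρ ψ 1 := by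
  rw [D.spl8 ρ hψ _ _ _ _ _ (D.st8 ρ h3 _ _ _ _)]
  apply sum_all
  intro x
  rw [D.mv7_eq ρ h3 hφ x 0, D.na_eq]
  simp only [Option.map_none, Option.map_some, mul_zero]
  exact D.Mp_eq ρ (mul_ne_zero (D.ea_ne (by decide)) hφ)

omit h3 in
theorem N01 {r : F} (hr : r ≠ 0) : D.dm ρ ψ none none none (some 0) none (some r) = q * D.Mm ρ ψ 1 := by
  rw [D.spl10 ρ hψ _ _ _ _ _ (D.st10 ρ _ _ _ _)]
  apply sum_all
  intro x
  rw [D.mv6_eq ρ hr _ _ x 0, D.nb_eq]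
  simp only [Option.map_none, Option.map_some, mul_zero]
  exact D.Mm_eq ρ (mul_ne_zero (D.eb_ne (by decide)) hr)

theorem dim_r {r : F} (hr : r ≠ 0) : D.dm ρ ψ none none none none none (some r) =
    q * D.Mm ρ ψ 1 + (q - 1) * (q * (q * D.Nn ρ ψ)) := by
  rw [D.spl9 ρ hψ _ _ _ _ _ (D.st9 ρ h3 _ _ _ _ _), ← D.N01 ρ hψ hr]
  exact sum_nz _ _ fun x hx => D.c3 ρ hψ h3 hx hr

theorem dim_0 : D.dm ρ ψ none none none none none (some 0) =
    D.dm ρ ψ none none none (some 0) none (some 0) + (q - 1) * (q * D.Mp ρ ψ 1) := by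
  rw [D.spl9 ρ hψ _ _ _ _ _ (D.st9 ρ h3 _ _ _ _ _)]
  exact sum_nz _ _ fun x hx => D.N10 ρ hψ h3 hx

omit h3 in
theorem dim_all : finrank ℂ V = ∑ r, D.dm ρ ψ none none none none none (some r) := by
  rw [← D.spl11 ρ hψ _ _ _ _ _ (D.st11 ρ _ _ _ _ _)]
  unfold dm
  have : D.W ρ ψ none none none none none none = ⊤ := by
    ext v
    simp only [mem_W, ok_none, Submodule.mem_top]
    trivial
  rw [this, finrank_top]

theorem dim_V : finrank ℂ V = D.dm ρ ψ none none none (some 0) none (some 0) + (q - 1) * (q * D.Mp ρ ψ 1) +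
    (q - 1) * (q * D.Mm ρ ψ 1 + (q - 1) * (q * (q * D.Nn ρ ψ))) := by
  rw [D.dim_all ρ hψ, ← D.dim_0 ρ hψ h3]
  exact sum_nz _ _ fun x hx => D.dim_r ρ hψ h3 hx

omit h3 in
theorem Mp_sum (ε : F) : D.Mp ρ ψ ε = ∑ κ, D.Kk ρ ψ ε κ :=
  D.spl10 ρ hψ _ _ _ _ _ (D.st10 ρ _ _ _ _)

theorem Mm_sum (κ : F) : D.Mm ρ ψ κ = ∑ ε, D.Kk ρ ψ ε κ :=
  D.spl8 ρ hψ _ _ _ _ _ (D.st8 ρ h3 _ _ _ _)

theorem D00_sum : D.dm ρ ψ none none none (some 0) none (some 0) = ∑ κ, D.Mm ρ ψ κ :=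
  D.spl10 ρ hψ _ _ _ _ _ (D.st10 ρ _ _ _ _)

/-- positivity of the two multiplicities -/
theorem Mp_pos (hN : 0 < D.Nn ρ ψ) : 0 < D.Mp ρ ψ 1 := by
  have h1 := D.N10 ρ hψ h3 (one_ne_zero (α := F))
  rw [D.spl10 ρ hψ _ _ _ _ _ (D.st10 ρ _ _ _ _)] at h1
  have h2 : 0 < D.dm ρ ψ none none none (some 1) (some 1) (some 0) := by
    rw [D.nb_eq]
    simp only [Option.map_none, Option.map_some, mul_zero, mul_one]
    rw [D.c1 ρ hψ h3 (D.eb_ne (by decide)) (D.eb_ne (by decide))]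
    exact Nat.mul_pos Fintype.card_pos hN
  have h4 : D.dm ρ ψ none none none (some 1) (some 1) (some 0) ≤
      ∑ x : F, D.dm ρ ψ none none none (some 1) (some x) (some 0) :=
    Finset.single_le_sum (f := fun x : F => D.dm ρ ψ none none none (some 1) (some x) (some 0))
      (fun _ _ => Nat.zero_le _) (Finset.mem_univ (1 : F))
  rw [h1] at h4
  exact Nat.pos_of_mul_pos_left (lt_of_lt_of_le h2 h4)

theorem Mm_pos (hN : 0 < D.Nn ρ ψ) : 0 < D.Mm ρ ψ 1 := by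
  have h1 := D.N01 ρ hψ (one_ne_zero (α := F))
  have h2 : 0 < D.dm ρ ψ none none none (some 0) none (some 1) := by
    rw [D.na_eq]
    simp only [Option.map_none, Option.map_some, mul_zero, mul_one]
    have h5 : D.dm ρ ψ none none (some 0) (some 1) none (some (D.ea 11)) ≤
        D.dm ρ ψ none none (some 0) none none (some (D.ea 11)) := by
      apply mono_le
      rintro v ⟨g1, g2, g3, g4, g5, g6⟩
      exact ⟨g1, g2, g3, D.okn, g5, g6⟩
    refine lt_of_lt_of_le ?_ h5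
    rw [D.c2 ρ hψ h3 one_ne_zero (D.ea_ne (by decide))]
    exact Nat.mul_pos Fintype.card_pos hN
  rw [h1] at h2
  exact Nat.pos_of_mul_pos_left h2

end GD

end H44.GT
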