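import Cfsg.Agent.Lib.H44.GT5

/-!
Counting weights in characteristic three, second part.
-/

set_option autoImplicit false
set_option linter.unusedSectionVars false

namespace H44.GT

open Module Cfsg.Lie

theorem fix_of {F : Type*} [Field F] [Fintype F] {V : Type*} [AddCommGroup V] [Module ℂ V]
    {ψ : AddChar F ℂ} (hψ : ψ.IsPrimitive) {X : F → Module.End ℂ V} (hX : ∀ t u, X (t + u) = X t * X u)
    (h0 : X 0 = 1) {K : Submodule ℂ V} (hK : ∀ t, ∀ v ∈ K, X t v ∈ K)
    (h : ∀ c, c ≠ 0 → ∀ v ∈ K, v ∈ wsp ψ X c → v = 0) {v : V} (hv : v ∈ K) : v ∈ wsp ψ X 0 := by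
  classical
  have h1 := sum_pr hψ h0 v
  rw [Finset.sum_eq_single 0] at h1
  · rw [← h1]; exact pr_mem hX 0 v
  · intro c _ hc
    exact h c hc _ (pr_stable hK c hv) (pr_mem hX c v)
  · intro h; exact absurd (Finset.mem_univ _) h

variable {F : Type*} [Field F] {G : Type*} [Group G] (D : GD F G)
  {V : Type*} [AddCommGroup V] [Module ℂ V] (ρ : Representation ℂ G V)

namespace GD

variable [FiniteDimensional ℂ V] [Fintype F] {ψ : AddChar F ℂ} (hψ : ψ.IsPrimitive) (h3 : (3 : F) = 0)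

local notation "q" => Fintype.card F

omit [Fintype F] in
theorem dm_zero {a b e f c r : Option F} (h : D.dm ρ ψ a b e f c r = 0) {v : V} (hv : v ∈ D.W ρ ψ a b e f c r) : v = 0 := by
  have := Submodule.finrank_eq_zero.1 h
  rw [this] at hv
  exact (Submodule.mem_bot ℂ).1 hv

omit [Fintype F] in
theorem exists_of_dm {a b e f c r : Option F} (h : 0 < D.dm ρ ψ a b e f c r) : ∃ v ∈ D.W ρ ψ a b e f c r, v ≠ 0 := by
  by_contra hcon
  push Not at hcon
  have : D.W ρ ψ a b e f c r = ⊥ := by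
    rw [Submodule.eq_bot_iff]
    exact hcon
  unfold dm at h
  rw [this, finrank_bot] at h
  exact lt_irrefl _ h

theorem cube_surj (h3 : (3 : F) = 0) : Function.Surjective (fun t : F => t ^ 3) := by
  apply Finite.injective_iff_surjective.1
  intro a b hab
  have : (a - b) ^ 3 = 0 := by
    have hab' : a ^ 3 = b ^ 3 := hab
    linear_combination hab' - (a ^ 2 * b - a * b ^ 2) * h3
  exact sub_eq_zero.1 (pow_eq_zero_iff (by norm_num) |>.1 this)

include hψ in
theorem eq_zero_of_psi {m : F} (h : ∀ s, ψ (m * s) = 1) : m = 0 := by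
  by_contra hm
  apply hψ hm
  ext s
  rw [AddChar.mulShift_apply, h]
  rfl

include hψ h3

theorem N_pos (hq : 3 < q) (hW : 0 < D.dm ρ ψ none none none none none (some 1)) : 0 < D.Nn ρ ψ := by
  classical
  by_contra hN
  have hN0 : D.Nn ρ ψ = 0 := by omega
  have z1 : ∀ φ r : F, φ ≠ 0 → r ≠ 0 → D.dm ρ ψ none none none (some φ) none (some r) = 0 := by
    intro φ r hφ hr
    rw [D.c3 ρ hψ h3 hφ hr, hN0, mul_zero, mul_zero]
  have z2 : ∀ ε r : F, ε ≠ 0 → r ≠ 0 → D.dm ρ ψ none none (some ε) none none (some r) = 0 := by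
    intro φ r hφ hr
    rw [D.na_eq]
    simp only [Option.map_none, Option.map_some]
    exact z1 _ _ (mul_ne_zero (D.ea_ne (by decide)) hφ) (mul_ne_zero (D.ea_ne (by decide)) hr)
  have z3 : ∀ φ κ : F, φ ≠ 0 → κ ≠ 0 → D.dm ρ ψ none none none (some φ) (some κ) none = 0 := by
    intro φ r hφ hr
    rw [D.nb_eq]
    simp only [Option.map_none, Option.map_some]
    exact z1 _ _ (mul_ne_zero (D.eb_ne (by decide)) hφ) (mul_ne_zero (D.eb_ne (by decide)) hr)
  have z4 : ∀ α κ : F, α ≠ 0 → κ ≠ 0 → D.dm ρ ψ (some α) none none none (some κ) none = 0 := by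
    intro φ r hφ hr
    rw [D.nb_eq]
    simp only [Option.map_none, Option.map_some]
    exact z2 _ _ (mul_ne_zero (D.eb_ne (by decide)) hφ) (mul_ne_zero (D.eb_ne (by decide)) hr)
  obtain ⟨u0, hu1, hu2⟩ : ∃ u : F, u ≠ 0 ∧ u ≠ 1 ∧ u ≠ -1 := by
    by_contra hcon
    push Not at hcon
    have : (Finset.univ : Finset F) ⊆ {0, 1, -1} := by
      intro u _
      simp only [Finset.mem_insert, Finset.mem_singleton]
      by_cases h0 : u = 0
      · exact Or.inl h0
      · by_cases h1 : u = 1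
        · exact Or.inr (Or.inl h1)
        · exact Or.inr (Or.inr (hcon u h0 h1))
    have h5 := Finset.card_le_card this
    have h6 : ({0, 1, -1} : Finset F).card ≤ 3 := Finset.card_le_three
    rw [Finset.card_univ] at h5
    omega
  -- a vector
  have hv : 0 < D.dm ρ ψ none none none none (some 1) (some 1) := by
    rw [D.spl10 ρ hψ _ _ _ _ _ (D.st10 ρ _ _ _ _), sum_all _ _ fun x => D.mv6_eq ρ one_ne_zero _ _ x 1] at hW
    exact Nat.pos_of_mul_pos_left hW
  obtain ⟨v, hv, hv0⟩ := D.exists_of_dm ρ hv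
  have g5 := (D.ok_some ρ).1 hv.2.2.2.2.1
  have g6 := (D.ok_some ρ).1 hv.2.2.2.2.2
  have f9 : ∀ t, D.X ρ 9 t v = v := by
    have := fix_of hψ (D.X_add ρ 9) (D.X_zero ρ 9) (K := D.W ρ ψ none none none none none (some 1))
      (D.st9 ρ h3 _ _ _ _ _) (fun c hc w hw hw' => D.dm_zero ρ (z1 c 1 hc one_ne_zero)
        ⟨D.okn, D.okn, D.okn, (D.ok_some ρ).2 hw', D.okn, hw.2.2.2.2.2⟩) (v := v)
      ⟨D.okn, D.okn, D.okn, D.okn, D.okn, hv.2.2.2.2.2⟩
    exact D.X_of_zero ρ ((D.ok_some ρ).2 this)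
  have f8 : ∀ t, D.X ρ 8 t v = v := by
    have := fix_of hψ (D.X_add ρ 8) (D.X_zero ρ 8) (K := D.W ρ ψ none none none none none (some 1))
      (D.st8 ρ h3 _ _ _ _) (fun c hc w hw hw' => D.dm_zero ρ (z2 c 1 hc one_ne_zero)
        ⟨D.okn, D.okn, (D.ok_some ρ).2 hw', D.okn, D.okn, hw.2.2.2.2.2⟩) (v := v)
      ⟨D.okn, D.okn, D.okn, D.okn, D.okn, hv.2.2.2.2.2⟩
    exact D.X_of_zero ρ ((D.ok_some ρ).2 this)
  have f7 : ∀ κ : F, κ ≠ 0 → ∀ w : V, D.ok ρ ψ 10 (some κ) w → ∀ t, D.X ρ 7 t w = w := by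
    intro κ hκ w hw
    have := fix_of hψ (D.X_add ρ 7) (D.X_zero ρ 7) (K := D.W ρ ψ none none none none (some κ) none)
      (fun t x hx => ⟨D.okn, D.okn, D.okn, D.okn,
        D.ok_cm (D.cm ρ coms.2.2.2.2.2.2.2.2.2.2.2.2.2.2.2.1) hx.2.2.2.2.1 t, D.okn⟩)
      (fun c hc w hw hw' => D.dm_zero ρ (z4 c κ hc hκ)
        ⟨(D.ok_some ρ).2 hw', D.okn, D.okn, D.okn, hw.2.2.2.2.1, D.okn⟩) (v := w)
      ⟨D.okn, D.okn, D.okn, D.okn, hw, D.okn⟩
    exact D.X_of_zero ρ ((D.ok_some ρ).2 this)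
  have w10 : D.ok ρ ψ 10 (some (1 - u0)) (D.X ρ 6 u0 v) := by
    rw [ok_some]
    intro u
    have := D.r610 ρ u0 u v
    rw [g6, map_smul, map_smul, g5, map_smul, smul_psi] at this
    refine this.trans ?_
    congr 2; ring
  have key : ∀ s : F, ψ ((u0 - 2 * u0 ^ 2) * s) = 1 := by
    intro s
    obtain ⟨t, ht⟩ := cube_surj h3 s
    have e1 := f7 (1 - u0) (sub_ne_zero.2 (Ne.symm hu2.1)) _ w10 t
    rw [D.r67, g6] at e1
    simp only [map_smul, g5, f9, f8, f7 1 one_ne_zero v hv.2.2.2.2.1, smul_psi] at e1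
    have hw0 : D.X ρ 6 u0 v ≠ 0 := by
      intro h
      apply hv0
      apply ρ_inj ρ (D.x 6 u0)
      rw [map_zero]; exact h
    have e2 : ∀ z : ℂ, z • D.X ρ 6 u0 v = D.X ρ 6 u0 v → z = 1 := by
      intro z hz
      have : (z - 1) • D.X ρ 6 u0 v = 0 := by rw [sub_smul, one_smul, hz, sub_self]
      exact sub_eq_zero.1 ((smul_eq_zero.1 this).resolve_right hw0)
    have e3 := e2 _ e1
    rw [← e3]
    congr 1
    have ht' : t ^ 3 = s := ht
    rw [← ht']; ring
  have h5 := eq_zero_of_psi hψ key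
  have h6 : u0 * (1 + u0) = 0 := by linear_combination h5 + u0 ^ 2 * h3
  rcases mul_eq_zero.1 h6 with h | h
  · exact hu1 h
  · exact hu2.2 (by linear_combination h)

omit hψ h3 in
open Polynomial in
theorem poly_fiber [DecidableEq F] {A B : F} (hA : A ≠ 0) (c : F) :
    (Finset.univ.filter fun t : F => c + t * B - t ^ 3 * A = 0).card ≤ 3 := by
  let P : F[X] := C (-A) * (Polynomial.X : F[X]) ^ 3 + C B * (Polynomial.X : F[X]) + C c
  have hdeg : P.natDegree ≤ 3 := by
    unfold P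
    compute_degree
  have hP : P ≠ 0 := by
    intro h
    have h1 : P.coeff 3 = -A := by
      simp [P, coeff_X, coeff_C]
    rw [h, coeff_zero] at h1
    exact hA (neg_eq_zero.1 h1.symm)
  have hsub : (Finset.univ.filter fun t : F => c + t * B - t ^ 3 * A = 0) ⊆ P.roots.toFinset := by
    intro t ht
    rw [Multiset.mem_toFinset, mem_roots hP, IsRoot.def]
    have := (Finset.mem_filter.1 ht).2
    simp only [P, eval_add, eval_mul, eval_C, eval_pow, eval_X]
    linear_combination this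
  exact (Finset.card_le_card hsub).trans ((Multiset.toFinset_card_le _).trans ((card_roots' P).trans hdeg))

/-- lower bound for the mixed multiplicities -/
theorem Kk_bound {ε κ : F} (hκ : κ ≠ 0) (hK : 0 < D.Kk ρ ψ ε κ) : q ≤ 3 * D.Kk ρ ψ ε κ := by
  classical
  have h1 : D.Kk ρ ψ ε κ = ∑ β, D.dm ρ ψ none (some β) (some ε) (some 0) (some κ) (some 0) :=
    D.spl6 ρ hψ _ _ _ _ _ (D.st6 ρ _ _ _)
  obtain ⟨β, -, hβ⟩ := Finset.exists_ne_zero_of_sum_ne_zero (h1.symm.trans_ne hK.ne')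
  have h2 : ∀ t : F, 1 ≤ D.dm ρ ψ none (some (β + t * ε - t ^ 3 * κ)) (some ε) (some 0) (some κ) (some 0) := by
    intro t
    have h := D.mv7 ρ (ψ := ψ) t β ε 0 κ
    have e1 : β + t * ε + t ^ 2 * 0 - t ^ 3 * κ = β + t * ε - t ^ 3 * κ := by ring
    have e2 : ε + 2 * t * 0 - 3 * t ^ 2 * κ = ε := by rw [h3]; ring
    have e3 : 0 - 3 * t * κ = (0 : F) := by rw [h3]; ring
    rw [e1, e2, e3] at h
    omega
  let f : F → F := fun t => β + t * ε - t ^ 3 * κ
  have h4 : q ≤ 3 * (Finset.univ.image f).card := by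
    rw [← Finset.card_univ]
    apply Finset.card_le_mul_card_image
    intro a _
    have := poly_fiber (B := ε) hκ (β - a)
    refine (Finset.card_le_card ?_).trans this
    intro t ht
    rw [Finset.mem_filter] at ht ⊢
    refine ⟨Finset.mem_univ _, ?_⟩
    have := ht.2
    linear_combination this
  have h5 : (Finset.univ.image f).card ≤ D.Kk ρ ψ ε κ := by
    rw [h1, Finset.card_eq_sum_ones]
    refine (Finset.sum_le_sum (f := fun _ => 1)
      (g := fun x => D.dm ρ ψ none (some x) (some ε) (some 0) (some κ) (some 0)) ?_).trans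
      (Finset.sum_le_sum_of_subset (Finset.subset_univ _))
    intro x hx
    obtain ⟨t, -, rfl⟩ := Finset.mem_image.1 hx
    exact h2 t
  omega

omit hψ h3 in
/-- squares -/
theorem card_sq [DecidableEq F] {c : F} (hc : c ≠ 0) :
    q - 1 ≤ 2 * ((Finset.univ.erase (0 : F)).image fun l => c / l ^ 2).card := by
  have h1 : (Finset.univ.erase (0 : F)).card = q - 1 := by
    rw [Finset.card_erase_of_mem (Finset.mem_univ _), Finset.card_univ]
  rw [← h1]
  apply Finset.card_le_mul_card_image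
  intro a ha
  obtain ⟨l, hl, rfl⟩ := Finset.mem_image.1 ha
  have hl0 : l ≠ 0 := Finset.ne_of_mem_erase hl
  have hsub : ((Finset.univ.erase (0 : F)).filter fun x => c / x ^ 2 = c / l ^ 2) ⊆ {l, -l} := by
    intro x hx
    rw [Finset.mem_filter] at hx
    have hx0 : x ≠ 0 := Finset.ne_of_mem_erase hx.1
    have h2 := hx.2
    rw [div_eq_div_iff (pow_ne_zero 2 hx0) (pow_ne_zero 2 hl0)] at h2
    have h4 : (x - l) * (x + l) = 0 := by
      have := mul_left_cancel₀ hc h2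
      linear_combination -this
    rw [Finset.mem_insert, Finset.mem_singleton]
    rcases mul_eq_zero.1 h4 with h | h
    · exact Or.inl (sub_eq_zero.1 h)
    · exact Or.inr (eq_neg_of_add_eq_zero_left h)
  exact (Finset.card_le_card hsub).trans Finset.card_le_two

/-- both multiplicities are large if a mixed weight occurs -/
theorem mixed {ε κ : F} (hε : ε ≠ 0) (hκ : κ ≠ 0) (hK : 0 < D.Kk ρ ψ ε κ) :
    (q - 1) * q ≤ 6 * D.Mp ρ ψ 1 ∧ (q - 1) * q ≤ 6 * D.Mm ρ ψ 1 := by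
  classical
  have hb := D.Kk_bound ρ hψ h3 hκ hK
  constructor
  · rw [← D.Mp_eq ρ hε, D.Mp_sum ρ hψ]
    have h1 := card_sq (F := F) hκ
    have h2 : ((Finset.univ.erase (0 : F)).image fun l => κ / l ^ 2).card * D.Kk ρ ψ ε κ ≤ ∑ x, D.Kk ρ ψ ε x := by
      rw [← smul_eq_mul, ← Finset.sum_const]
      refine (Finset.sum_le_sum ?_).trans (Finset.sum_le_sum_of_subset (Finset.subset_univ _))
      intro x hx
      obtain ⟨l, hl, rfl⟩ := Finset.mem_image.1 hx
      have hl0 : l ≠ 0 := Finset.ne_of_mem_erase hl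
      rw [D.Kk_tor ρ hl0 hl0 ε κ]
      apply le_of_eq
      congr 1
      · field_simp
      · field_simp
    calc (q - 1) * q ≤ (2 * ((Finset.univ.erase (0 : F)).image fun l => κ / l ^ 2).card) * (3 * D.Kk ρ ψ ε κ) :=
          Nat.mul_le_mul h1 hb
      _ = 6 * (((Finset.univ.erase (0 : F)).image fun l => κ / l ^ 2).card * D.Kk ρ ψ ε κ) := by ring
      _ ≤ _ := Nat.mul_le_mul_left _ h2
  · rw [← D.Mm_eq ρ hκ, D.Mm_sum ρ hψ h3]
    have h1 := card_sq (F := F) hε
    have h2 : ((Finset.univ.erase (0 : F)).image fun l => ε / l ^ 2).card * D.Kk ρ ψ ε κ ≤ ∑ x, D.Kk ρ ψ x κ := by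
      rw [← smul_eq_mul, ← Finset.sum_const]
      refine (Finset.sum_le_sum ?_).trans (Finset.sum_le_sum_of_subset (Finset.subset_univ _))
      intro x hx
      obtain ⟨l, hl, rfl⟩ := Finset.mem_image.1 hx
      have hl0 : l ≠ 0 := Finset.ne_of_mem_erase hl
      rw [D.Kk_tor ρ hl0 (pow_ne_zero 3 hl0) ε κ]
      apply le_of_eq
      congr 1
      · field_simp
      · field_simp
    calc (q - 1) * q ≤ (2 * ((Finset.univ.erase (0 : F)).image fun l => ε / l ^ 2).card) * (3 * D.Kk ρ ψ ε κ) :=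
          Nat.mul_le_mul h1 hb
      _ = 6 * (((Finset.univ.erase (0 : F)).image fun l => ε / l ^ 2).card * D.Kk ρ ψ ε κ) := by ring
      _ ≤ _ := Nat.mul_le_mul_left _ h2

end GD

end H44.GT
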