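import Cfsg.Agent.Lib.H44.GT6

/-!
Counting weights in characteristic three, conclusion.
-/

set_option autoImplicit false
set_option linter.unusedSectionVars false

namespace H44.GT

open Module Cfsg.Lie

theorem arithA {p N A B C : ℕ} (hp : 8 ≤ p) (hN : 2 ≤ N) :
    (p + 1) ^ 4 + (p + 1) ^ 2 + 1 ≤ A + p * ((p + 1) * B) + p * ((p + 1) * C + p * ((p + 1) * ((p + 1) * N))) := by
  have h1 : p * ((p + 1) * ((p + 1) * 2)) * p ≤ p * (p * ((p + 1) * ((p + 1) * N))) := by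
    calc p * ((p + 1) * ((p + 1) * 2)) * p = p * (p * ((p + 1) * ((p + 1) * 2))) := by ring
      _ ≤ _ := Nat.mul_le_mul_left _ (Nat.mul_le_mul_left _ (Nat.mul_le_mul_left _ (Nat.mul_le_mul_left _ hN)))
  have h2 : (p + 1) ^ 4 + (p + 1) ^ 2 + 1 ≤ p * ((p + 1) * ((p + 1) * 2)) * p := by
    obtain ⟨k, rfl⟩ := Nat.exists_eq_add_of_le hp
    ring_nf
    nlinarith [Nat.zero_le k, Nat.zero_le (k ^ 2), Nat.zero_le (k ^ 3), Nat.zero_le (k ^ 4)]
  nlinarith [Nat.zero_le A, Nat.zero_le (p * ((p + 1) * B)), Nat.zero_le (p * ((p + 1) * C))]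

theorem arithB {p N A B C : ℕ} (hp : 8 ≤ p) (hN : 1 ≤ N) (hB : p * (p + 1) ≤ 6 * B) (hC : p * (p + 1) ≤ 6 * C) :
    (p + 1) ^ 4 + (p + 1) ^ 2 + 1 ≤ A + p * ((p + 1) * B) + p * ((p + 1) * C + p * ((p + 1) * ((p + 1) * N))) := by
  have h1 : p * (p * ((p + 1) * ((p + 1) * 1))) ≤ p * (p * ((p + 1) * ((p + 1) * N))) :=
    Nat.mul_le_mul_left _ (Nat.mul_le_mul_left _ (Nat.mul_le_mul_left _ (Nat.mul_le_mul_left _ hN)))
  have h2 : (p * (p + 1)) * (p * (p + 1)) ≤ (p * (p + 1)) * (6 * B) := Nat.mul_le_mul_left _ hB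
  have h3 : (p * (p + 1)) * (p * (p + 1)) ≤ (p * (p + 1)) * (6 * C) := Nat.mul_le_mul_left _ hC
  have h4 : 6 * ((p + 1) ^ 4 + (p + 1) ^ 2 + 1) ≤ 8 * (p * (p + 1)) * (p * (p + 1)) := by
    obtain ⟨k, rfl⟩ := Nat.exists_eq_add_of_le hp
    ring_nf
    nlinarith [Nat.zero_le k, Nat.zero_le (k ^ 2), Nat.zero_le (k ^ 3), Nat.zero_le (k ^ 4)]
  nlinarith [Nat.zero_le A]

theorem arithC {p A B C : ℕ} (hp : 8 ≤ p) (hB : 1 ≤ B) (hC : 1 ≤ C) (hBC : 3 ≤ B + C) :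
    (p + 1) ^ 4 + (p + 1) ^ 2 + 1 ≤ A + p * ((p + 1) * ((p + 1) * B)) + p * ((p + 1) * ((p + 1) * C) +
      p * ((p + 1) * ((p + 1) * 1))) := by
  have h1 : p * ((p + 1) * ((p + 1) * 3)) ≤ p * ((p + 1) * ((p + 1) * (B + C))) :=
    Nat.mul_le_mul_left _ (Nat.mul_le_mul_left _ (Nat.mul_le_mul_left _ hBC))
  have h2 : (p + 1) ^ 4 + (p + 1) ^ 2 + 1 ≤ p * ((p + 1) * ((p + 1) * 3)) + p * (p * ((p + 1) * ((p + 1) * 1))) := by
    obtain ⟨k, rfl⟩ := Nat.exists_eq_add_of_le hp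
    ring_nf
    nlinarith [Nat.zero_le k, Nat.zero_le (k ^ 2), Nat.zero_le (k ^ 3), Nat.zero_le (k ^ 4)]
  nlinarith [Nat.zero_le A]

variable {F : Type*} [Field F] {G : Type*} [Group G] (D : GD F G)
  {V : Type*} [AddCommGroup V] [Module ℂ V] (ρ : Representation ℂ G V)

namespace GD

variable [FiniteDimensional ℂ V] [Fintype F] {ψ : AddChar F ℂ} (hψ : ψ.IsPrimitive) (h3 : (3 : F) = 0)

local notation "q" => Fintype.card F

include hψ

theorem Ke0 {ε : F} (hε : ε ≠ 0) : D.Kk ρ ψ ε 0 = q * D.dm ρ ψ none (some 0) (some ε) (some 0) (some 0) (some 0) := by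
  refine (D.spl6 ρ hψ _ _ _ _ _ (D.st6 ρ _ _ _)).trans (sum_all _ _ fun β => ?_)
  have key : ∀ β β' : F, D.dm ρ ψ none (some β) (some ε) (some 0) (some 0) (some 0) ≤
      D.dm ρ ψ none (some β') (some ε) (some 0) (some 0) (some 0) := by
    intro β β'
    have h := D.mv7 ρ (ψ := ψ) ((β' - β) / ε) β ε 0 0
    have e1 : β + (β' - β) / ε * ε + ((β' - β) / ε) ^ 2 * 0 - ((β' - β) / ε) ^ 3 * 0 = β' := by
      rw [div_mul_cancel₀ _ hε]; ring
    have e2 : ε + 2 * ((β' - β) / ε) * 0 - 3 * ((β' - β) / ε) ^ 2 * 0 = ε := by ring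
    have e3 : 0 - 3 * ((β' - β) / ε) * 0 = (0 : F) := by ring
    rwa [e1, e2, e3] at h
  exact le_antisymm (key _ _) (key _ _)

include h3

theorem K0k {κ : F} (hκ : κ ≠ 0) (β0 : F) :
    D.Kk ρ ψ 0 κ = q * D.dm ρ ψ none (some β0) (some 0) (some 0) (some κ) (some 0) := by
  refine (D.spl6 ρ hψ _ _ _ _ _ (D.st6 ρ _ _ _)).trans (sum_all _ _ fun β => ?_)
  have key : ∀ β β' : F, D.dm ρ ψ none (some β) (some 0) (some 0) (some κ) (some 0) ≤
      D.dm ρ ψ none (some β') (some 0) (some 0) (some κ) (some 0) := by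
    intro β β'
    obtain ⟨t, ht⟩ := cube_surj h3 ((β - β') / κ)
    have ht' : t ^ 3 = (β - β') / κ := ht
    have h := D.mv7 ρ (ψ := ψ) t β 0 0 κ
    have e1 : β + t * 0 + t ^ 2 * 0 - t ^ 3 * κ = β' := by
      rw [ht', div_mul_cancel₀ _ hκ]; ring
    have e2 : 0 + 2 * t * 0 - 3 * t ^ 2 * κ = (0 : F) := by rw [h3]; ring
    have e3 : 0 - 3 * t * κ = (0 : F) := by rw [h3]; ring
    rwa [e1, e2, e3] at h
  exact le_antisymm (key _ _) (key _ _)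

theorem Ke0' {ε : F} (hε : ε ≠ 0) : D.Kk ρ ψ ε 0 = q * D.dm ρ ψ (some 0) none (some ε) (some 0) (some 0) (some 0) := by
  refine (D.spl7 ρ hψ _ _ _ _ _ (D.st7 ρ h3 _ _ _)).trans (sum_all _ _ fun α => ?_)
  have key : ∀ β β' : F, D.dm ρ ψ (some β) none (some ε) (some 0) (some 0) (some 0) ≤
      D.dm ρ ψ (some β') none (some ε) (some 0) (some 0) (some 0) := by
    intro β β'
    have h := D.mv6a ρ (ψ := ψ) ((β - β') / ε) β ε
    have e1 : β - (β - β') / ε * ε = β' := by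
      rw [div_mul_cancel₀ _ hε]; ring
    rwa [e1] at h
  exact le_antisymm (key _ _) (key _ _)

theorem count3 (hq : 9 ≤ q) (hW : 0 < D.dm ρ ψ none none none none none (some 1))
    (hV : finrank ℂ V < q ^ 4 + q ^ 2 + 1) : ∃ d ≤ 2, finrank ℂ V + 2 = q ^ 4 + q ^ 2 + d ∧
      D.dm ρ ψ none none none none none (some 0) + 2 = q ^ 3 + q ^ 2 + d ∧
      ∀ r, r ≠ 0 → D.dm ρ ψ none none none none none (some r) = q ^ 3 := by
  have hN := D.N_pos ρ hψ h3 (by omega) hW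
  have hdim := D.dim_V ρ hψ h3
  have hdim0 := D.dim_0 ρ hψ h3
  have hdimr := fun r hr => D.dim_r ρ hψ h3 (r := r) hr
  obtain ⟨p, hp⟩ : ∃ p, q = p + 1 := ⟨q - 1, by omega⟩
  have hp8 : 8 ≤ p := by omega
  have hq0 : 0 < q := by omega
  -- Case A
  have hN1 : D.Nn ρ ψ = 1 := by
    by_contra hne
    have h2 : 2 ≤ D.Nn ρ ψ := by omega
    rw [hdim, hp, Nat.add_sub_cancel] at hV
    exact absurd hV (not_lt.2 (arithA hp8 h2))
  -- Case B
  have hK : ∀ ε κ : F, ε ≠ 0 → κ ≠ 0 → D.Kk ρ ψ ε κ = 0 := by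
    intro ε κ hε hκ
    by_contra hne
    obtain ⟨h1, h2⟩ := D.mixed ρ hψ h3 hε hκ (Nat.pos_of_ne_zero hne)
    rw [hdim, hp, Nat.add_sub_cancel] at hV
    rw [hp, Nat.add_sub_cancel] at h1 h2
    exact absurd hV (not_lt.2 (arithB hp8 hN h1 h2))
  -- Case C
  have hMpK : ∀ ε : F, ε ≠ 0 → D.Mp ρ ψ ε = D.Kk ρ ψ ε 0 := by
    intro ε hε
    rw [D.Mp_sum ρ hψ, sum_nz _ 0 fun x hx => hK ε x hε hx, mul_zero, add_zero]
  have hMmK : ∀ κ : F, κ ≠ 0 → D.Mm ρ ψ κ = D.Kk ρ ψ 0 κ := by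
    intro κ hκ
    rw [D.Mm_sum ρ hψ h3, sum_nz _ 0 fun x hx => hK x κ hx hκ, mul_zero, add_zero]
  have e1 : D.Mp ρ ψ 1 = q * D.dm ρ ψ none (some 0) (some 1) (some 0) (some 0) (some 0) := by
    rw [hMpK 1 one_ne_zero, D.Ke0 ρ hψ one_ne_zero]
  have e2 : D.Mm ρ ψ 1 = q * D.dm ρ ψ none (some 0) (some 0) (some 0) (some 1) (some 0) := by
    rw [hMmK 1 one_ne_zero, D.K0k ρ hψ h3 one_ne_zero 0]
  have p1 := D.Mp_pos ρ hψ h3 hN
  have p2 := D.Mm_pos ρ hψ h3 hN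
  rw [e1] at p1
  rw [e2] at p2
  have q1 := Nat.pos_of_mul_pos_left p1
  have q2 := Nat.pos_of_mul_pos_left p2
  have hBC : D.dm ρ ψ none (some 0) (some 1) (some 0) (some 0) (some 0) +
      D.dm ρ ψ none (some 0) (some 0) (some 0) (some 1) (some 0) ≤ 2 := by
    by_contra hne
    rw [hdim, e1, e2, hN1, hp, Nat.add_sub_cancel] at hV
    exact absurd hV (not_lt.2 (arithC hp8 q1 q2 (by omega)))
  have b1 : D.dm ρ ψ none (some 0) (some 1) (some 0) (some 0) (some 0) = 1 := by omega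
  have b2 : D.dm ρ ψ none (some 0) (some 0) (some 0) (some 1) (some 0) = 1 := by omega
  rw [b1, mul_one] at e1
  rw [b2, mul_one] at e2
  -- the fixed spaces
  have k1 : ∀ ε : F, ε ≠ 0 → D.Kk ρ ψ ε 0 = q := by
    intro ε hε
    rw [← hMpK ε hε, D.Mp_eq ρ hε, e1]
  have k2 : ∀ κ : F, κ ≠ 0 → D.Kk ρ ψ 0 κ = q := by
    intro κ hκ
    rw [← hMmK κ hκ, D.Mm_eq ρ hκ, e2]
  have hD00 : D.dm ρ ψ none none none (some 0) none (some 0) = D.Kk ρ ψ 0 0 + (q - 1) * q + (q - 1) * q := by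
    rw [D.D00_sum ρ hψ h3, sum_nz _ q fun x hx => by rw [D.Mm_eq ρ hx, e2], D.Mm_sum ρ hψ h3,
      sum_nz _ q fun x hx => k1 x hx]
  have m1 : ∀ β : F, β ≠ 0 → D.dm ρ ψ none (some β) (some 0) (some 0) (some 0) (some 0) = 1 := by
    intro β hβ
    rw [D.na_eq]
    simp only [Option.map_none, Option.map_some, mul_zero]
    have hne : D.ea 6 * β ≠ 0 := mul_ne_zero (D.ea_ne (by decide)) hβ
    have h1 := D.K0k ρ hψ h3 hne 0
    rw [k2 _ hne] at h1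
    exact (Nat.eq_of_mul_eq_mul_left hq0 (by rw [mul_one]; exact h1)).symm
  have hK00 : D.Kk ρ ψ 0 0 = D.dm ρ ψ none (some 0) (some 0) (some 0) (some 0) (some 0) + (q - 1) * 1 :=
    (D.spl6 ρ hψ _ _ _ _ _ (D.st6 ρ _ _ _)).trans (sum_nz _ 1 fun x hx => m1 x hx)
  have m2 : ∀ α : F, α ≠ 0 → D.dm ρ ψ (some α) none (some 0) (some 0) (some 0) (some 0) = 1 := by
    intro α hα
    rw [D.nb_eq]
    simp only [Option.map_none, Option.map_some, mul_zero]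
    have hne : D.eb 7 * α ≠ 0 := mul_ne_zero (D.eb_ne (by decide)) hα
    have h1 := D.Ke0' ρ hψ h3 hne
    rw [k1 _ hne] at h1
    exact (Nat.eq_of_mul_eq_mul_left hq0 (by rw [mul_one]; exact h1)).symm
  have m3 : ∀ α β : F, α ≠ 0 → β ≠ 0 → D.dm ρ ψ (some α) (some β) (some 0) (some 0) (some 0) (some 0) =
      D.dm ρ ψ (some 1) (some 1) (some 0) (some 0) (some 0) (some 0) := by
    intro α β hα hβ
    rw [D.tor ρ ψ (l := α ^ 2 * β) (m := α ^ 3 * β ^ 2) (by positivity) (by positivity)]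
    simp only [Option.map_some, mul_zero]
    congr 2
    · field_simp
    · field_simp
  have m4 : D.dm ρ ψ (some 1) (some 1) (some 0) (some 0) (some 0) (some 0) = 0 := by
    by_contra hne
    have h1 := m2 1 one_ne_zero
    rw [D.spl6 ρ hψ _ _ _ _ _ (D.st6a ρ _), sum_nz _ _ fun x hx => m3 1 x one_ne_zero hx, hp, Nat.add_sub_cancel] at h1
    have h2 : 8 * 1 ≤ p * D.dm ρ ψ (some 1) (some 1) (some 0) (some 0) (some 0) (some 0) :=
      Nat.mul_le_mul hp8 (Nat.pos_of_ne_zero hne)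
    omega
  have m5 : ∀ α : F, α ≠ 0 → D.dm ρ ψ (some α) (some 0) (some 0) (some 0) (some 0) (some 0) = 1 := by
    intro α hα
    have h1 := m2 α hα
    rw [D.spl6 ρ hψ _ _ _ _ _ (D.st6a ρ _), sum_nz _ 0 fun x hx => (m3 α x hα hx).trans m4, mul_zero, add_zero] at h1
    exact h1
  have hL : D.dm ρ ψ none (some 0) (some 0) (some 0) (some 0) (some 0) =
      D.dm ρ ψ (some 0) (some 0) (some 0) (some 0) (some 0) (some 0) + (q - 1) * 1 :=
    (D.spl7 ρ hψ _ _ _ _ _ (D.st7a ρ _)).trans (sum_nz _ 1 fun x hx => m5 x hx)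
  refine ⟨D.dm ρ ψ (some 0) (some 0) (some 0) (some 0) (some 0) (some 0), ?_, ?_, ?_, ?_⟩
  · rw [hdim, hD00, hK00, hL, e1, e2, hN1, hp, Nat.add_sub_cancel] at hV
    generalize D.dm ρ ψ (some 0) (some 0) (some 0) (some 0) (some 0) (some 0) = d at hV
    by_contra hcon
    have hd : 3 ≤ d := by omega
    apply absurd hV
    rw [not_lt]
    have : (p + 1) ^ 4 + (p + 1) ^ 2 + 1 = 3 + p * 1 + p * 1 + p * (p + 1) + p * (p + 1) +
      p * ((p + 1) * (p + 1)) + p * ((p + 1) * (p + 1) + p * ((p + 1) * ((p + 1) * 1))) := by ring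
    rw [this]
    omega
  · rw [hdim, hD00, hK00, hL, e1, e2, hN1, hp, Nat.add_sub_cancel]
    ring
  · rw [hdim0, hD00, hK00, hL, e1, hp, Nat.add_sub_cancel]
    ring
  · intro r hr
    rw [hdimr r hr, e2, hN1, hp, Nat.add_sub_cancel]
    ring

end GD

end H44.GT
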