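import Cfsg.Agent.Lib.H44.GT6

/-!
Counting weights in characteristic different from three.
-/

set_option autoImplicit false
set_option linter.unusedSectionVars false

namespace H44.GT

open Module Cfsg.Lie

variable {F : Type*} [Field F] {G : Type*} [Group G] (D : GD F G)
  {V : Type*} [AddCommGroup V] [Module ℂ V] (ρ : Representation ℂ G V)

namespace GD

local notation "q" => Fintype.card F

section st

variable {ψ : AddChar F ℂ}

theorem st9' (b c r : Option F) : ∀ t, ∀ v ∈ D.W ρ ψ none b none none c r, D.X ρ 9 t v ∈ D.W ρ ψ none b none none c r := by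
  obtain ⟨-, -, -, -, -, -, -, -, -, h1, h2, h4, -⟩ := coms
  rintro t v ⟨g1, g2, g3, g4, g5, g6⟩
  exact ⟨D.okn, D.ok_cm (D.cm ρ h1) g2 t, D.okn, D.okn, D.ok_cm (D.cm ρ h2) g5 t, D.ok_cm (D.cm ρ h4) g6 t⟩

theorem st8' (b f c : Option F) : ∀ t, ∀ v ∈ D.W ρ ψ none b none f c (some 0), D.X ρ 8 t v ∈ D.W ρ ψ none b none f c (some 0) := by
  obtain ⟨-, -, -, -, -, -, -, -, -, -, -, -, h1, h2, h4, -⟩ := coms
  rintro t v ⟨g1, g2, g3, g4, g5, g6⟩
  refine ⟨D.okn, D.ok_cm (D.cm ρ h1) g2 t, D.okn, ?_, D.ok_cm (D.cm ρ h2) g5 t, D.ok_cm (D.cm ρ h4) g6 t⟩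
  intro φ hφ u
  rw [D.r89, D.X_of_zero ρ g6, g4 φ hφ, map_smul]

variable [FiniteDimensional ℂ V]

theorem mv8 (t : F) (φ r : F) (c : Option F) : D.dm ρ ψ none none none (some φ) c (some r) ≤
    D.dm ρ ψ none none none (some (φ - 3 * t * r)) c (some r) := by
  obtain ⟨-, -, -, -, -, -, -, -, -, -, -, -, h1, h2, h4, -⟩ := coms
  apply le_move ρ (D.x 8 t)
  rintro v ⟨g1, g2, g3, g4, g5, g6⟩
  refine ⟨D.okn, D.okn, D.okn, ?_, D.ok_cm (D.cm ρ h2) g5 t, D.ok_cm (D.cm ρ h4) g6 t⟩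
  rw [ok_some] at g4 g6 ⊢; intro u
  have := D.r89 ρ t u v
  rw [g6, map_smul, map_smul, g4, map_smul, smul_psi] at this
  refine this.trans ?_
  congr 2; ring

theorem mv79 (t : F) (φ κ : F) (r : Option F) : D.dm ρ ψ none none none (some φ) (some κ) r ≤
    D.dm ρ ψ none none none (some (φ - 3 * t * κ)) (some κ) r := by
  obtain ⟨-, -, -, -, -, -, -, -, -, -, -, -, -, -, -, h1, h2, -, -, -⟩ := coms
  apply le_move ρ (D.x 7 t)
  rintro v ⟨g1, g2, g3, g4, g5, g6⟩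
  refine ⟨D.okn, D.okn, D.okn, ?_, D.ok_cm (D.cm ρ h1) g5 t, D.ok_cm (D.cm ρ h2) g6 t⟩
  rw [ok_some] at g4 g5 ⊢; intro u
  have := D.r79 ρ t u v
  rw [g5, map_smul, map_smul, g4, map_smul, smul_psi] at this
  refine this.trans ?_
  congr 2; ring

end st

variable [FiniteDimensional ℂ V] {ψ : AddChar F ℂ}

theorem mono_dm {a b e f c r a' b' e' f' c' r' : Option F} (h : ∀ v ∈ D.W ρ ψ a b e f c r, v ∈ D.W ρ ψ a' b' e' f' c' r') :
    D.dm ρ ψ a b e f c r ≤ D.dm ρ ψ a' b' e' f' c' r' := Submodule.finrank_mono h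

/-- generic multiplicity -/
noncomputable def Nq (ψ : AddChar F ℂ) : ℕ := D.dm ρ ψ none none none (some 0) (some 0) (some 1)

theorem fullp (h3 : (3 : F) ≠ 0) {r : F} (hr : r ≠ 0) (φ κ : F) :
    D.dm ρ ψ none none none (some φ) (some κ) (some r) = D.Nq ρ ψ := by
  have key : ∀ φ φ' : F, D.dm ρ ψ none none none (some φ) (some κ) (some r) ≤
      D.dm ρ ψ none none none (some φ') (some κ) (some r) := by
    intro φ φ'
    have h := D.mv8 ρ (ψ := ψ) ((φ - φ') / (3 * r)) φ r (some κ)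
    have e : φ - 3 * ((φ - φ') / (3 * r)) * r = φ' := by field_simp; ring
    rwa [e] at h
  rw [le_antisymm (key φ 0) (key 0 φ), D.mv6_eq ρ hr _ _ κ 0, D.tor ρ ψ one_ne_zero hr]
  simp only [Option.map_none, Option.map_some, mul_zero]
  rw [one_div_mul_cancel hr]
  rfl

variable [Fintype F] (hψ : ψ.IsPrimitive) (h3 : (3 : F) ≠ 0)

include hψ h3

theorem d1 {r : F} (hr : r ≠ 0) (κ : F) : D.dm ρ ψ none none none none (some κ) (some r) = q * D.Nq ρ ψ := by
  rw [D.spl9 ρ hψ _ _ _ _ _ (D.st9' ρ _ _ _)]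
  exact sum_all _ _ fun x => D.fullp ρ h3 hr x κ

theorem d2 {r : F} (hr : r ≠ 0) : D.dm ρ ψ none none none none none (some r) = q * (q * D.Nq ρ ψ) := by
  rw [D.spl10 ρ hψ _ _ _ _ _ (D.st10 ρ _ _ _ _)]
  exact sum_all _ _ fun x => D.d1 ρ hψ h3 hr x

theorem d3 {κ : F} (hκ : κ ≠ 0) : D.dm ρ ψ none none none none (some κ) (some 0) = q * D.Nq ρ ψ := by
  rw [D.nb_eq]
  simp only [Option.map_none, Option.map_some, mul_zero]
  exact D.d1 ρ hψ h3 (mul_ne_zero (D.eb_ne (by decide)) hκ) 0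

theorem dimV' : finrank ℂ V = D.dm ρ ψ none none none none (some 0) (some 0) + (q - 1) * (q * D.Nq ρ ψ) +
    (q - 1) * (q * (q * D.Nq ρ ψ)) := by
  rw [D.dim_all ρ hψ, sum_nz _ _ fun x hx => D.d2 ρ hψ h3 hx, D.spl10 ρ hψ _ _ _ _ _ (D.st10 ρ _ _ _ _),
    sum_nz _ _ fun x hx => D.d3 ρ hψ h3 hx]

theorem Nq_pos (hW : 0 < D.dm ρ ψ none none none none none (some 1)) : 0 < D.Nq ρ ψ := by
  rw [D.d2 ρ hψ h3 one_ne_zero] at hW
  exact Nat.pos_of_mul_pos_left (Nat.pos_of_mul_pos_left hW)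

omit hψ [Fintype F] in
theorem e79 {κ : F} (hκ : κ ≠ 0) (φ φ' : F) (r : Option F) : D.dm ρ ψ none none none (some φ) (some κ) r =
    D.dm ρ ψ none none none (some φ') (some κ) r := by
  have key : ∀ φ φ' : F, D.dm ρ ψ none none none (some φ) (some κ) r ≤
      D.dm ρ ψ none none none (some φ') (some κ) r := by
    intro φ φ'
    have h := D.mv79 ρ (ψ := ψ) ((φ - φ') / (3 * κ)) φ κ r
    have e : φ - 3 * ((φ - φ') / (3 * κ)) * κ = φ' := by field_simp; ring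
    rwa [e] at h
  exact le_antisymm (key _ _) (key _ _)

section one

variable (hN : D.Nq ρ ψ = 1)

include hN

theorem l1 {κ : F} (hκ : κ ≠ 0) (φ : F) : D.dm ρ ψ none none none (some φ) (some κ) (some 0) = 1 := by
  have h := D.d3 ρ hψ h3 hκ
  rw [D.spl9 ρ hψ _ _ _ _ _ (D.st9' ρ _ _ _), sum_all _ _ fun x => D.e79 ρ h3 hκ x φ (some 0), hN] at h
  exact Nat.eq_of_mul_eq_mul_left Fintype.card_pos h

omit hψ h3 hN [FiniteDimensional ℂ V] [Fintype F] in
theorem two_terms {f : F → ℕ} [Fintype F] (hf : ∑ x, f x = 1) {x y : F} (hxy : x ≠ y) (h : f x = f y) : f x = 0 := by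
  classical
  by_contra hne
  have h1 : ∑ z ∈ ({x, y} : Finset F), f z ≤ ∑ z, f z := Finset.sum_le_sum_of_subset (Finset.subset_univ _)
  rw [Finset.sum_pair hxy, hf, ← h] at h1
  omega

theorem l2 (hq : 5 ≤ q) {κ : F} (hκ : κ ≠ 0) : D.dm ρ ψ none none (some 0) (some 0) (some κ) (some 0) = 1 := by
  classical
  have h := D.l1 ρ hψ h3 hN hκ 0
  rw [D.spl8 ρ hψ _ _ _ _ _ (D.st8' ρ _ _ _)] at h
  obtain ⟨l, hl0, hl1⟩ : ∃ l : F, l ≠ 0 ∧ l ^ 2 ≠ 1 := by
    by_contra hcon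
    push Not at hcon
    have : (Finset.univ : Finset F) ⊆ {0, 1, -1} := by
      intro u _
      simp only [Finset.mem_insert, Finset.mem_singleton]
      by_cases h0 : u = 0
      · exact Or.inl h0
      · have h1 : (u - 1) * (u + 1) = 0 := by linear_combination hcon u h0
        rcases mul_eq_zero.1 h1 with h | h
        · exact Or.inr (Or.inl (sub_eq_zero.1 h))
        · exact Or.inr (Or.inr (eq_neg_of_add_eq_zero_left h))
    have h5 := Finset.card_le_card this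
    have h6 : ({0, 1, -1} : Finset F).card ≤ 3 := Finset.card_le_three
    rw [Finset.card_univ] at h5
    omega
  have hz : ∀ ε : F, ε ≠ 0 → D.dm ρ ψ none none (some ε) (some 0) (some κ) (some 0) = 0 := by
    intro ε hε
    refine two_terms h (y := l / l ^ 3 * ε) ?_ ?_
    · intro he
      apply hl1
      field_simp at he
      exact he
    · rw [D.tor ρ ψ hl0 (pow_ne_zero 3 hl0)]
      simp only [Option.map_none, Option.map_some, mul_zero]
      rw [div_self (pow_ne_zero 3 hl0), one_mul]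
  rw [sum_nz _ 0 hz, mul_zero, add_zero] at h
  exact h

theorem l3 (hq : 5 ≤ q) {κ : F} (hκ : κ ≠ 0) : D.dm ρ ψ none (some 0) (some 0) (some 0) (some κ) (some 0) = 1 := by
  classical
  have h := D.l2 ρ hψ h3 hN hq hκ
  rw [D.spl6 ρ hψ _ _ _ _ _ (D.st6 ρ _ _ _)] at h
  obtain ⟨l, hl0, hl1⟩ : ∃ l : F, l ≠ 0 ∧ l ^ 3 ≠ 1 := by
    by_contra hcon
    push Not at hcon
    have h1 := poly_fiber (F := F) (A := 1) (B := 0) one_ne_zero 1
    have h2 : (Finset.univ.erase (0 : F)) ⊆ (Finset.univ.filter fun t : F => 1 + t * 0 - t ^ 3 * 1 = 0) := by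
      intro t ht
      rw [Finset.mem_filter]
      refine ⟨Finset.mem_univ _, ?_⟩
      rw [hcon t (Finset.ne_of_mem_erase ht)]; ring
    have h5 := Finset.card_le_card h2
    rw [Finset.card_erase_of_mem (Finset.mem_univ _), Finset.card_univ] at h5
    omega
  have hz : ∀ β : F, β ≠ 0 → D.dm ρ ψ none (some β) (some 0) (some 0) (some κ) (some 0) = 0 := by
    intro β hβ
    refine two_terms h (y := l ^ 3 / (l ^ 3) ^ 2 * β) ?_ ?_
    · intro he
      apply hl1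
      field_simp at he
      exact he
    · rw [D.tor ρ ψ hl0 (pow_ne_zero 3 hl0)]
      simp only [Option.map_none, Option.map_some, mul_zero]
      rw [div_self (pow_ne_zero 3 hl0), one_mul]
  rw [sum_nz _ 0 hz, mul_zero, add_zero] at h
  exact h

theorem l4 (hq : 5 ≤ q) {β : F} (hβ : β ≠ 0) : D.dm ρ ψ none (some β) (some 0) (some 0) (some 0) (some 0) = 1 := by
  rw [D.na_eq]
  simp only [Option.map_none, Option.map_some, mul_zero]
  exact D.l3 ρ hψ h3 hN hq (mul_ne_zero (D.ea_ne (by decide)) hβ)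

omit hψ h3 hN [Fintype F] in
theorem sumM [Fintype F] (hψ : ψ.IsPrimitive) : D.dm ρ ψ none none none none (some 0) (some 0) =
    ∑ β, D.dm ρ ψ none (some β) none none (some 0) (some 0) :=
  D.spl6 ρ hψ _ _ _ _ _ (D.st6 ρ _ _ _)

theorem l5 (hq : 5 ≤ q) : q - 1 ≤ D.dm ρ ψ none none none none (some 0) (some 0) := by
  classical
  rw [D.sumM ρ hψ]
  have h1 : q - 1 = ∑ β ∈ Finset.univ.erase (0 : F), 1 := by
    rw [Finset.sum_const, Finset.card_erase_of_mem (Finset.mem_univ _), Finset.card_univ, smul_eq_mul, mul_one]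
  rw [h1]
  refine (Finset.sum_le_sum fun β hβ => ?_).trans (Finset.sum_le_sum_of_subset (Finset.erase_subset _ _))
  rw [← D.l4 ρ hψ h3 hN hq (Finset.ne_of_mem_erase hβ)]
  apply mono_dm
  rintro v ⟨g1, g2, g3, g4, g5, g6⟩
  exact ⟨g1, g2, D.okn, D.okn, g5, g6⟩

end one

/-- lower bound -/
theorem final2 (hq : 5 ≤ q) (hW : 0 < D.dm ρ ψ none none none none none (some 1)) :
    q ^ 3 - 1 ≤ finrank ℂ V ∧ (D.Nq ρ ψ ≠ 1 → q ^ 3 + 1 ≤ finrank ℂ V) := by
  have hN := D.Nq_pos ρ hψ h3 hW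
  have hd := D.dimV' ρ hψ h3
  obtain ⟨p, hp⟩ : ∃ p, q = p + 1 := ⟨q - 1, by omega⟩
  have key : D.Nq ρ ψ ≠ 1 → q ^ 3 + 1 ≤ finrank ℂ V := by
    intro hne
    have h2 : 2 ≤ D.Nq ρ ψ := by omega
    rw [hd, hp, Nat.add_sub_cancel]
    have h5 : p * ((p + 1) * 2) ≤ p * ((p + 1) * D.Nq ρ ψ) := Nat.mul_le_mul_left _ (Nat.mul_le_mul_left _ h2)
    have h6 : p * ((p + 1) * ((p + 1) * 2)) ≤ p * ((p + 1) * ((p + 1) * D.Nq ρ ψ)) :=
      Nat.mul_le_mul_left _ (Nat.mul_le_mul_left _ (Nat.mul_le_mul_left _ h2))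
    have h7 : (p + 1) ^ 3 + 1 ≤ p * ((p + 1) * 2) + p * ((p + 1) * ((p + 1) * 2)) := by
      have hp4 : 4 ≤ p := by omega
      obtain ⟨k, rfl⟩ := Nat.exists_eq_add_of_le hp4
      ring_nf
      nlinarith [Nat.zero_le k, Nat.zero_le (k ^ 2), Nat.zero_le (k ^ 3)]
    omega
  refine ⟨?_, key⟩
  by_cases h1 : D.Nq ρ ψ = 1
  · have h5 := D.l5 ρ hψ h3 h1 hq
    rw [hd, h1]
    rw [hp, Nat.add_sub_cancel] at *
    have : (p + 1) ^ 3 = p + p * ((p + 1) * 1) + p * ((p + 1) * ((p + 1) * 1)) + 1 := by ring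
    omega
  · exact le_trans (by omega) (key h1)

end GD

end H44.GT
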