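import Cfsg.Agent.Lib.H44.LSBound2
import Cfsg.Agent.Lib.H49.Unitary
import Cfsg.Prelude.Def_Classical

/-! The unitary groups of hyperbolic type: Siegel unipotent radical, Levi subgroup, Heisenberg
elements. -/

set_option autoImplicit false

open Matrix H44.LSLinear H44.LSForms H44.LSWeights H44.LSBound H49.Unitary

namespace H44.LSSU

variable {F : Type*} [Field F] [Finite F] {q : ℕ} (hK : Nat.card F = q ^ 2)

/-- rectangular conjugate transpose -/
def cR {m n : Type*} (M : Matrix m n F) : Matrix n m F := (M.map (frob hK))ᵀ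

theorem cR_eq_ct {n : Type*} (M : Matrix n n F) : cR hK M = ct hK M := rfl

theorem cR_cR {m n : Type*} (M : Matrix m n F) : cR hK (cR hK M) = M := by
  ext i j
  simp only [cR, transpose_apply, map_apply]
  exact frob_frob hK _

theorem cR_mul {m n k : Type*} [Fintype n] (M : Matrix m n F) (N : Matrix n k F) :
    cR hK (M * N) = cR hK N * cR hK M := by
  rw [cR, Matrix.map_mul, transpose_mul]; rfl

theorem cR_add {m n : Type*} (M N : Matrix m n F) : cR hK (M + N) = cR hK M + cR hK N := by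
  ext i j; simp [cR]

theorem cR_neg {m n : Type*} (M : Matrix m n F) : cR hK (-M) = -cR hK M := by
  ext i j; simp [cR]

theorem cR_zero {m n : Type*} : cR hK (0 : Matrix m n F) = 0 := by
  ext i j; simp [cR]

theorem cR_smul {m n : Type*} (c : F) (M : Matrix m n F) :
    cR hK (c • M) = frob hK c • cR hK M := by
  ext i j; simp [cR]

theorem cR_one {n : Type*} [DecidableEq n] : cR hK (1 : Matrix n n F) = 1 := ct_one hK

theorem cR_fromBlocks {a b c d : Type*} (A : Matrix a c F) (B : Matrix a d F) (C : Matrix b c F)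
    (D : Matrix b d F) : cR hK (fromBlocks A B C D) =
      fromBlocks (cR hK A) (cR hK C) (cR hK B) (cR hK D) := by
  rw [cR, fromBlocks_map, fromBlocks_transpose]; rfl

theorem cR_fromRows {a b c : Type*} (A : Matrix a c F) (B : Matrix b c F) :
    cR hK (fromRows A B) = fromCols (cR hK A) (cR hK B) := by
  ext i j
  rcases j with j | j <;> simp [cR]

theorem cR_fromCols {a b c : Type*} (A : Matrix c a F) (B : Matrix c b F) :
    cR hK (fromCols A B) = fromRows (cR hK A) (cR hK B) := by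
  ext i j
  rcases i with i | i <;> simp [cR]

variable {l u : Type*} [Fintype l] [DecidableEq l] [Fintype u] [DecidableEq u]

/-- the hyperbolic form -/
def H3 (l u : Type*) [DecidableEq l] [DecidableEq u] (F : Type*) [Field F] :
    Matrix ((l ⊕ l) ⊕ u) ((l ⊕ l) ⊕ u) F :=
  fromBlocks (fromBlocks 0 1 1 0) 0 0 1

omit [Fintype l] [Fintype u] in
theorem H3_herm : ct hK (H3 l u F) = H3 l u F := by
  rw [← cR_eq_ct, H3, cR_fromBlocks, cR_fromBlocks]
  simp only [cR_zero, cR_one]

omit [Finite F] in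
theorem H3_sq : H3 l u F * H3 l u F = 1 := by
  rw [H3, fromBlocks_multiply, fromBlocks_multiply]
  simp

omit [Finite F] in
theorem H3_isUnit : IsUnit (H3 l u F) := ⟨⟨H3 l u F, H3 l u F, H3_sq, H3_sq⟩, rfl⟩

/-- the unipotent elements -/
def S3 (v : Matrix l u F) (Z : Matrix l l F) : Matrix ((l ⊕ l) ⊕ u) ((l ⊕ l) ⊕ u) F :=
  fromBlocks (fromBlocks 1 Z 0 1) (fromRows v 0) (fromCols 0 (-(cR hK v))) 1

theorem S3_mul (v v' : Matrix l u F) (Z Z' : Matrix l l F) :
    S3 hK v Z * S3 hK v' Z' = S3 hK (v + v') (Z + Z' - v * cR hK v') := by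
  rw [S3, S3, S3, fromBlocks_multiply]
  congr 1
  · rw [fromBlocks_multiply, fromRows_mul_fromCols, fromBlocks_add]
    congr 1
    · simp
    · simp; abel
    · simp
    · simp
  · rw [fromBlocks_mul_fromRows]
    ext i j
    rcases i with i | i <;> simp [add_comm]
  · rw [fromCols_mul_fromBlocks, cR_add]
    ext i j
    rcases j with j | j <;> simp [add_comm]
  · rw [fromCols_mul_fromRows]
    simp

theorem S3_det (v : Matrix l u F) (Z : Matrix l l F) : (S3 hK v Z).det = 1 := by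
  rw [S3, det_fromBlocks_one₂₂, fromRows_mul_fromCols]
  simp only [Matrix.mul_zero, Matrix.zero_mul]
  have h1 : (fromBlocks 1 Z 0 1 - fromBlocks 0 (v * -cR hK v) 0 0 : Matrix (l ⊕ l) (l ⊕ l) F) =
      fromBlocks 1 (Z - v * -cR hK v) 0 1 := by
    ext i j
    rcases i with i | i <;> rcases j with j | j <;> simp
  rw [h1]
  simp

theorem H3_mul_S3 (v : Matrix l u F) (Z : Matrix l l F) :
    H3 l u F * S3 hK v Z =
      fromBlocks (fromBlocks 0 1 1 Z) (fromRows 0 v) (fromCols 0 (-(cR hK v))) 1 := by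
  rw [H3, S3, fromBlocks_multiply]
  congr 1
  · rw [fromBlocks_multiply]
    simp
  · rw [fromBlocks_mul_fromRows]
    simp
  · simp
  · simp

omit [Fintype l] [Fintype u] in
theorem ct_S3 (v : Matrix l u F) (Z : Matrix l l F) :
    ct hK (S3 hK v Z) =
      fromBlocks (fromBlocks 1 0 (cR hK Z) 1) (fromRows 0 (-v)) (fromCols (cR hK v) 0) 1 := by
  rw [← cR_eq_ct, S3, cR_fromBlocks, cR_fromBlocks, cR_fromRows, cR_fromCols]
  simp only [cR_zero, cR_one, cR_neg, cR_cR]

theorem S3_unitary (v : Matrix l u F) (Z : Matrix l l F)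
    (h : Z + cR hK Z + v * cR hK v = 0) :
    ct hK (S3 hK v Z) * H3 l u F * S3 hK v Z = H3 l u F := by
  rw [mul_assoc, H3_mul_S3, ct_S3, H3, fromBlocks_multiply]
  congr 1
  · rw [fromBlocks_multiply, fromRows_mul_fromCols, fromBlocks_add]
    congr 1
    · simp
    · simp
    · simp
    · simp only [Matrix.mul_one, Matrix.one_mul, Matrix.neg_mul, Matrix.mul_neg, neg_neg]
      rw [← h]; abel
  · rw [fromBlocks_mul_fromRows]
    ext i j
    rcases i with i | i <;> simp
  · rw [fromCols_mul_fromBlocks]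
    ext i j
    rcases j with j | j <;> simp
  · rw [fromCols_mul_fromRows]
    simp

/-- Levi elements -/
noncomputable def L3 (g : Matrix l l F) (μ : F) : Matrix ((l ⊕ l) ⊕ u) ((l ⊕ l) ⊕ u) F :=
  fromBlocks (fromBlocks ((g⁻¹).map (frob hK)) 0 0 gᵀ) 0 0 (μ • 1)

theorem L3_det (g : Matrix l l F) (μ : F) :
    (L3 (u := u) hK g μ).det = frob hK (g.det⁻¹) * g.det * μ ^ Fintype.card u := by
  rw [L3, det_fromBlocks_zero₂₁, det_fromBlocks_zero₂₁, det_transpose, det_smul, det_one, mul_one]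
  congr 2
  rw [← RingHom.mapMatrix_apply, ← RingHom.map_det, det_nonsing_inv, Ring.inverse_eq_inv']

theorem L3_unitary (g : Matrix l l F) (hg : g.det ≠ 0) (μ : F) (hμ : frob hK μ * μ = 1) :
    ct hK (L3 (u := u) hK g μ) * H3 l u F * L3 hK g μ = H3 l u F := by
  have hunit : IsUnit g.det := isUnit_iff_ne_zero.mpr hg
  have h1 : (g⁻¹)ᵀ * gᵀ = 1 := by rw [← transpose_mul, mul_nonsing_inv g hunit, transpose_one]
  have h2 : g.map (frob hK) * (g⁻¹).map (frob hK) = 1 := by
    rw [← Matrix.map_mul, mul_nonsing_inv g hunit, Matrix.map_one _ (map_zero _) (map_one _)]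
  have h3 : cR hK ((g⁻¹).map (frob hK)) = (g⁻¹)ᵀ := by
    ext i j
    simp only [cR, transpose_apply, map_apply]
    exact frob_frob hK _
  have h4 : cR hK (gᵀ) = g.map (frob hK) := by
    ext i j
    simp [cR]
  rw [mul_assoc, ← cR_eq_ct, L3, H3, cR_fromBlocks, cR_fromBlocks, cR_smul, cR_one, h3, h4]
  have hμ' : μ * frob hK μ = 1 := by rw [mul_comm]; exact hμ
  simp only [cR_zero, fromBlocks_multiply]
  simp only [Matrix.mul_zero, Matrix.zero_mul, Matrix.one_mul, Matrix.mul_one, zero_add, add_zero,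
    smul_mul_assoc, mul_smul_comm, smul_smul, hμ', one_smul]
  rw [fromBlocks_multiply]
  simp only [Matrix.mul_zero, Matrix.zero_mul, zero_add, add_zero, h1, h2]

theorem L3_mul_S3 (g : Matrix l l F) (hg : g.det ≠ 0) (μ : F) (Z : Matrix l l F) :
    L3 (u := u) hK g μ * S3 hK 0 Z =
      S3 hK 0 ((g⁻¹).map (frob hK) * Z * (g⁻¹)ᵀ) * L3 hK g μ := by
  have hunit : IsUnit g.det := isUnit_iff_ne_zero.mpr hg
  have h1 : (g⁻¹)ᵀ * gᵀ = 1 := by rw [← transpose_mul, mul_nonsing_inv g hunit, transpose_one]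
  rw [L3, S3, S3, cR_zero, neg_zero]
  have hr : fromRows (0 : Matrix l u F) (0 : Matrix l u F) = 0 := fromRows_zero
  have hc : fromCols (0 : Matrix u l F) (0 : Matrix u l F) = 0 := fromCols_zero
  rw [hr, hc]
  simp only [fromBlocks_multiply]
  simp [mul_assoc, h1]

/-! ### the group -/

/-- special unitary group of a hermitian matrix -/
def HU {κ : Type*} [Fintype κ] [DecidableEq κ] (H : Matrix κ κ F) :
    Subgroup (SpecialLinearGroup κ F) where
  carrier := {A | ct hK A.1 * H * A.1 = H}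
  mul_mem' {A B} hA hB := by
    simp only [Set.mem_ofPred_eq] at hA hB ⊢
    change ct hK (A.1 * B.1) * H * (A.1 * B.1) = H
    calc ct hK (A.1 * B.1) * H * (A.1 * B.1) = ct hK B.1 * (ct hK A.1 * H * A.1) * B.1 := by
          rw [ct_mul]; simp only [mul_assoc]
      _ = H := by rw [hA, hB]
  one_mem' := by
    simp only [Set.mem_ofPred_eq]
    change ct hK (1 : Matrix κ κ F) * H * (1 : Matrix κ κ F) = H
    rw [ct_one, one_mul, mul_one]
  inv_mem' {A} hA := by
    simp only [Set.mem_ofPred_eq] at hA ⊢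
    have h1 : A.1 * (A⁻¹).1 = 1 := congrArg Subtype.val (mul_inv_cancel A)
    calc ct hK (A⁻¹).1 * H * (A⁻¹).1
        = ct hK (A⁻¹).1 * (ct hK A.1 * H * A.1) * (A⁻¹).1 := by rw [hA]
      _ = (ct hK (A⁻¹).1 * ct hK A.1) * H * (A.1 * (A⁻¹).1) := by simp only [mul_assoc]
      _ = H := by rw [← ct_mul, h1, ct_one, one_mul, mul_one]

theorem mem_HU {κ : Type*} [Fintype κ] [DecidableEq κ] {H : Matrix κ κ F}
    {A : SpecialLinearGroup κ F} : A ∈ HU hK H ↔ ct hK A.1 * H * A.1 = H := Iff.rfl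

/-- the embedding into the standard special unitary group -/
theorem exists_embed {κ : Type*} [Fintype κ] [DecidableEq κ] {n : ℕ} (e : κ ≃ Fin n)
    (H : Matrix κ κ F) (hH : ct hK H = H) (hu : IsUnit H) :
    ∃ φ : HU hK H →* Cfsg.SU n F q, Function.Injective φ := by
  obtain ⟨y, hy, hHy, _⟩ := herm_eq_ct_mul hK H hu hH
  have hydet : IsUnit y.det := (isUnit_iff_isUnit_det y).mp hy
  have hyy : y * y⁻¹ = 1 := mul_nonsing_inv y hydet
  have hyy2 : y⁻¹ * y = 1 := nonsing_inv_mul y hydet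
  let M : SpecialLinearGroup κ F → Matrix (Fin n) (Fin n) F := fun A =>
    (y * A.1 * y⁻¹).submatrix e.symm e.symm
  have hMdet : ∀ A : SpecialLinearGroup κ F, (M A).det = 1 := by
    intro A
    simp only [M]
    rw [det_submatrix_equiv_self, det_mul, det_mul, A.2, mul_one, ← det_mul, hyy, det_one]
  have hMU : ∀ A ∈ HU hK H, ct hK (M A) * M A = 1 := by
    intro A hA
    rw [mem_HU] at hA
    have h1 : ct hK (M A) = (ct hK (y * A.1 * y⁻¹)).submatrix e.symm e.symm := by
      ext i j; rfl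
    rw [h1]
    simp only [M]
    rw [submatrix_mul_equiv, ct_mul, ct_mul]
    have h2 : ct hK y⁻¹ * (ct hK A.1 * ct hK y) * (y * A.1 * y⁻¹) = 1 := by
      calc ct hK y⁻¹ * (ct hK A.1 * ct hK y) * (y * A.1 * y⁻¹)
          = ct hK y⁻¹ * (ct hK A.1 * (ct hK y * y) * A.1) * y⁻¹ := by simp only [mul_assoc]
        _ = ct hK y⁻¹ * (ct hK y * y) * y⁻¹ := by rw [← hHy, hA]
        _ = (ct hK y⁻¹ * ct hK y) * (y * y⁻¹) := by simp only [mul_assoc]
        _ = 1 := by rw [← ct_mul, hyy, ct_one, mul_one]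
    rw [h2]
    simp
  have hMmul : ∀ A B : SpecialLinearGroup κ F, M (A * B) = M A * M B := by
    intro A B
    simp only [M]
    rw [submatrix_mul_equiv]
    congr 1
    change y * (A.1 * B.1) * y⁻¹ = _
    calc y * (A.1 * B.1) * y⁻¹ = y * A.1 * (1 * (B.1 * y⁻¹)) := by
          rw [one_mul]; simp only [mul_assoc]
      _ = _ := by rw [← hyy2]; simp only [mul_assoc]
  let S : HU hK H → SpecialLinearGroup (Fin n) F := fun A => ⟨M A.1, hMdet A.1⟩
  have hS : ∀ A : HU hK H, S A ∈ Cfsg.SU n F q := by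
    intro A
    have h1 : (Matrix.SpecialLinearGroup.toGL (S A)) ∈ Cfsg.GU n F q := by
      rw [mem_GU hK]
      exact hMU A.1 A.2
    intro u v
    exact h1 u v
  refine ⟨{ toFun := fun A => ⟨S A, hS A⟩, map_one' := ?_, map_mul' := ?_ }, ?_⟩
  · apply Subtype.ext
    apply Subtype.ext
    change M 1 = 1
    simp only [M]
    change (y * (1 : Matrix κ κ F) * y⁻¹).submatrix e.symm e.symm = 1
    rw [mul_one, hyy]
    simp
  · intro A B
    apply Subtype.ext
    apply Subtype.ext
    exact hMmul A.1 B.1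
  · intro A B h
    have h1 : M A.1 = M B.1 := congrArg (fun x => (x.1.1 : Matrix (Fin n) (Fin n) F)) h
    apply Subtype.ext
    apply Subtype.ext
    have h2 : y * A.1.1 * y⁻¹ = y * B.1.1 * y⁻¹ := by
      have h3 := congrArg (fun X : Matrix (Fin n) (Fin n) F => X.submatrix e e) h1
      simpa [M, submatrix_submatrix] using h3
    calc A.1.1 = (y⁻¹ * y) * A.1.1 * (y⁻¹ * y) := by rw [hyy2, one_mul, mul_one]
      _ = y⁻¹ * (y * A.1.1 * y⁻¹) * y := by simp only [mul_assoc]
      _ = y⁻¹ * (y * B.1.1 * y⁻¹) * y := by rw [h2]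
      _ = (y⁻¹ * y) * B.1.1 * (y⁻¹ * y) := by simp only [mul_assoc]
      _ = B.1.1 := by rw [hyy2, one_mul, mul_one]

end H44.LSSU
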