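import Cfsg.Agent.Lib.H44.LSSULower
import Cfsg.Agent.Lib.H44.LSIrr

/-! The Landazuri–Seitz bounds for special unitary groups, given perfectness and simplicity. -/

set_option autoImplicit false

open Matrix H44.LSLinear H44.LSForms H44.LSWeights H44.LSBound H49.Unitary

open scoped commutatorElement

namespace H44.LSSU

/-- normal subgroups of a perfect group which is simple modulo its centre -/
theorem normal_cases {G : Type*} [Group G] (hs : IsSimpleGroup (G ⧸ Subgroup.center G))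
    (hp : commutator G = ⊤) (N : Subgroup G) [hN : N.Normal] :
    N = ⊤ ∨ N ≤ Subgroup.center G := by
  have h1 : (N.map (QuotientGroup.mk' (Subgroup.center G))).Normal :=
    hN.map _ (QuotientGroup.mk'_surjective _)
  rcases hs.eq_bot_or_eq_top_of_normal _ h1 with h | h
  · right
    rw [Subgroup.map_eq_bot_iff, QuotientGroup.ker_mk'] at h
    exact h
  · left
    have hdec : ∀ g : G, ∃ n ∈ N, ∃ z ∈ Subgroup.center G, g = n * z := by
      intro g
      have h2 : (QuotientGroup.mk' (Subgroup.center G) g) ∈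
        N.map (QuotientGroup.mk' (Subgroup.center G)) := by rw [h]; trivial
      obtain ⟨n, hn, hng⟩ := h2
      refine ⟨n, hn, n⁻¹ * g, ?_, by group⟩
      have h3 : (n : G ⧸ Subgroup.center G) = (g : G ⧸ Subgroup.center G) := hng
      exact QuotientGroup.eq.mp h3
    rw [eq_top_iff, ← hp, commutator_def, Subgroup.commutator_le]
    intro g _ h _
    obtain ⟨n, hn, z, hz, rfl⟩ := hdec g
    obtain ⟨n', hn', z', hz', rfl⟩ := hdec h
    rw [Subgroup.mem_center_iff] at hz hz'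
    have h4 : ⁅n * z, n' * z'⁆ = ⁅n, n'⁆ := by
      have hz1 : ∀ x, z * x = x * z := fun x => (hz x).symm
      have hz2 : ∀ x, z' * x = x * z' := fun x => (hz' x).symm
      rw [commutatorElement_def, commutatorElement_def, _root_.mul_inv_rev, _root_.mul_inv_rev]
      calc n * z * (n' * z') * (z⁻¹ * n⁻¹) * (z'⁻¹ * n'⁻¹)
          = n * (z * (n' * z')) * z⁻¹ * n⁻¹ * z'⁻¹ * n'⁻¹ := by group
        _ = n * (n' * z' * z) * z⁻¹ * n⁻¹ * z'⁻¹ * n'⁻¹ := by rw [hz1]
        _ = n * n' * (z' * n⁻¹) * z'⁻¹ * n'⁻¹ := by group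
        _ = n * n' * (n⁻¹ * z') * z'⁻¹ * n'⁻¹ := by rw [hz2]
        _ = n * n' * n⁻¹ * n'⁻¹ := by group
    rw [h4]
    exact Subgroup.mul_mem _ (by
      have : n * n' * n⁻¹ = n * (n' * n⁻¹) := by group
      rw [this]
      exact N.mul_mem hn (N.mul_mem hn' (N.inv_mem hn))) (N.inv_mem hn')

variable {F : Type*} [Field F] [Fintype F] {q : ℕ} (hK : Nat.card F = q ^ 2)
variable {l u : Type*} [Fintype l] [DecidableEq l] [Fintype u] [DecidableEq u]

omit [Fintype l] in
theorem one_mem_Hm : (1 : Matrix l l F) ∈ Hm l (frob hK) := by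
  rw [mem_Hm, Matrix.map_one _ (map_zero _) (map_one _), transpose_one]

/-- conjugating by the form -/
def opp (A : SpecialLinearGroup ((l ⊕ l) ⊕ u) F) (hA : A ∈ HU hK (H3 l u F)) :
    HU hK (H3 l u F) :=
  ⟨⟨H3 l u F * A.1 * H3 l u F, by
    rw [det_mul, det_mul, A.2, mul_one, ← det_mul, H3_sq, det_one]⟩, by
    change ct hK A.1 * H3 l u F * A.1 = H3 l u F at hA
    change ct hK (H3 l u F * A.1 * H3 l u F) * H3 l u F * (H3 l u F * A.1 * H3 l u F) = _
    rw [ct_mul, ct_mul, H3_herm]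
    calc H3 l u F * (ct hK A.1 * H3 l u F) * H3 l u F * (H3 l u F * A.1 * H3 l u F)
        = H3 l u F * (ct hK A.1 * H3 l u F * (H3 l u F * H3 l u F) * A.1) * H3 l u F := by
          simp only [mul_assoc]
      _ = H3 l u F := by rw [H3_sq, mul_one, hA, H3_sq, one_mul]⟩

/-- the basic element of the Siegel radical is not central -/
theorem not_comm [Nonempty l] {ε : F} (hε0 : ε ≠ 0) (hε : frob hK ε = -ε) :
    ∃ w : HU hK (H3 l u F),
      uniS hK u hε (Multiplicative.ofAdd ⟨1, one_mem_Hm hK⟩) * w ≠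
        w * uniS hK u hε (Multiplicative.ofAdd ⟨1, one_mem_Hm hK⟩) := by
  set j := uniS hK u hε (Multiplicative.ofAdd (⟨1, one_mem_Hm hK⟩ : Hm l (frob hK))) with hj
  refine ⟨opp hK j.1 j.2, ?_⟩
  intro h
  have h1 : S3 hK (0 : Matrix l u F) (ε • (1 : Matrix l l F)) *
      (H3 l u F * S3 hK 0 (ε • 1) * H3 l u F) =
      (H3 l u F * S3 hK 0 (ε • 1) * H3 l u F) * S3 hK 0 (ε • 1) :=
    congrArg (fun x : HU hK (H3 l u F) => (x.1.1 : Matrix ((l ⊕ l) ⊕ u) ((l ⊕ l) ⊕ u) F)) h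
  have h2 : H3 l u F * S3 hK (0 : Matrix l u F) (ε • (1 : Matrix l l F)) * H3 l u F =
      fromBlocks (fromBlocks 1 0 (ε • 1) 1) 0 0 1 := by
    have hr : fromRows (0 : Matrix l u F) (0 : Matrix l u F) = 0 := fromRows_zero
    have hc : fromCols (0 : Matrix u l F) (0 : Matrix u l F) = 0 := fromCols_zero
    rw [H3_mul_S3, cR_zero, neg_zero, hr, hc, H3, fromBlocks_multiply, fromBlocks_multiply]
    simp
  have h3 : S3 hK (0 : Matrix l u F) (ε • (1 : Matrix l l F)) =
      fromBlocks (fromBlocks 1 (ε • 1) 0 1) 0 0 1 := by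
    have hr : fromRows (0 : Matrix l u F) (0 : Matrix l u F) = 0 := fromRows_zero
    have hc : fromCols (0 : Matrix u l F) (0 : Matrix u l F) = 0 := fromCols_zero
    rw [S3, cR_zero, neg_zero, hr, hc]
  rw [h2, h3, fromBlocks_multiply, fromBlocks_multiply, fromBlocks_multiply,
    fromBlocks_multiply] at h1
  obtain ⟨i⟩ := (inferInstance : Nonempty l)
  have h4 := congrFun (congrFun h1 (Sum.inl (Sum.inl i))) (Sum.inl (Sum.inl i))
  simp at h4
  exact hε0 h4

include hK in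
/-- The bound for even `n`. -/
theorem final_even {n : ℕ} (hn : 4 ≤ n) (heven : Even n)
    (hs : IsSimpleGroup (Cfsg.SU n F q ⧸ Subgroup.center (Cfsg.SU n F q)))
    (hperf : commutator (Cfsg.SU n F q) = ⊤)
    {K : Type*} [Field K] [IsAlgClosed K] (hp : (Fintype.card F : K) ≠ 0)
    {V : Type*} [AddCommGroup V] [Module K V] [FiniteDimensional K V]
    (τ : Cfsg.SU n F q →* Module.End K V) (hτ : ∃ g, τ g ≠ 1) :
    q ^ n - 1 ≤ Module.finrank K V * (q + 1) := by
  obtain ⟨m, hm⟩ := heven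
  obtain ⟨m, rfl⟩ : ∃ k, m = k + 1 := ⟨m - 1, by omega⟩
  subst hm
  obtain ⟨e⟩ : Nonempty ((Fin (m + 1) ⊕ Fin (m + 1)) ⊕ Fin 0 ≃ Fin (m + 1 + (m + 1))) :=
    ⟨Fintype.equivOfCardEq (by simp)⟩
  obtain ⟨φ, hφ⟩ := exists_embed hK e (H3 (Fin (m + 1)) (Fin 0) F) (H3_herm hK) H3_isUnit
  obtain ⟨ε, hε0, hε⟩ := exists_skew hK
  have hb : (τ.comp φ) (uniS hK (Fin 0) hε
      (Multiplicative.ofAdd (⟨1, one_mem_Hm hK⟩ : Hm (Fin (m + 1)) (frob hK)))) ≠ 1 := by
    intro h0
    rcases normal_cases hs hperf τ.ker with h | h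
    · obtain ⟨g, hg⟩ := hτ
      apply hg
      have : g ∈ τ.ker := by rw [h]; trivial
      exact this
    · have h1 := h h0
      rw [Subgroup.mem_center_iff] at h1
      obtain ⟨w, hw⟩ := not_comm (l := Fin (m + 1)) (u := Fin 0) hK hε0 hε
      apply hw
      apply hφ
      rw [map_mul, map_mul]
      exact (h1 (φ w)).symm
  have h1 := even_bound hK hp (l := Fin (m + 1)) (Fintype.card_fin _)
    (by rw [Fintype.card_fin]; omega) hε (τ.comp φ) _ hb
  rw [← Nat.card_eq_fintype_card, hK, ← pow_mul] at h1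
  have : 2 * (m + 1) = m + 1 + (m + 1) := by ring
  rwa [this] at h1

include hK in
/-- The bound for odd `n`. -/
theorem final_odd {n : ℕ} (hn : 3 ≤ n) (hodd : Odd n)
    (hs : IsSimpleGroup (Cfsg.SU n F q ⧸ Subgroup.center (Cfsg.SU n F q)))
    (hperf : commutator (Cfsg.SU n F q) = ⊤)
    {K : Type*} [Field K] [IsAlgClosed K] (hp : (Fintype.card F : K) ≠ 0)
    {V : Type*} [AddCommGroup V] [Module K V] [FiniteDimensional K V]
    (τ : Cfsg.SU n F q →* Module.End K V) (hτ : ∃ g, τ g ≠ 1) :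
    q ^ n - q ≤ Module.finrank K V * (q + 1) := by
  obtain ⟨m, hm⟩ := hodd
  obtain ⟨m, rfl⟩ : ∃ k, m = k + 1 := ⟨m - 1, by omega⟩
  subst hm
  obtain ⟨e⟩ : Nonempty ((Fin (m + 1) ⊕ Fin (m + 1)) ⊕ Unit ≃ Fin (2 * (m + 1) + 1)) :=
    ⟨Fintype.equivOfCardEq (by simp; ring)⟩
  obtain ⟨φ, hφ⟩ := exists_embed hK e (H3 (Fin (m + 1)) Unit F) (H3_herm hK) H3_isUnit
  obtain ⟨ε, hε0, hε⟩ := exists_skew hK
  have hb : (τ.comp φ) (uniS hK Unit hε
      (Multiplicative.ofAdd (⟨1, one_mem_Hm hK⟩ : Hm (Fin (m + 1)) (frob hK)))) ≠ 1 := by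
    intro h0
    rcases normal_cases hs hperf τ.ker with h | h
    · obtain ⟨g, hg⟩ := hτ
      apply hg
      have : g ∈ τ.ker := by rw [h]; trivial
      exact this
    · have h1 := h h0
      rw [Subgroup.mem_center_iff] at h1
      obtain ⟨w, hw⟩ := not_comm (l := Fin (m + 1)) (u := Unit) hK hε0 hε
      apply hw
      apply hφ
      rw [map_mul, map_mul]
      exact (h1 (φ w)).symm
  have h1 := odd_bound hK hp (l := Fin (m + 1)) (Fintype.card_fin _) hε0 hε (τ.comp φ) _ hb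
  rw [← Nat.card_eq_fintype_card, hK, ← pow_mul] at h1
  have h2 : q ^ (2 * (m + 1) + 1) - q = (q ^ (2 * (m + 1)) - 1) * q := by
    rw [pow_succ, Nat.sub_mul, one_mul]
  rw [h2]
  exact h1

end H44.LSSU
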