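import Cfsg.Agent.Lib.H44.LSSU
import Cfsg.Agent.Lib.H44.LSHeis
import Cfsg.Agent.Lib.H44.UField

/-! The Landazuri–Seitz bounds for hyperbolic special unitary groups. -/

set_option autoImplicit false

open Matrix H44.LSLinear H44.LSForms H44.LSWeights H44.LSBound H49.Unitary

namespace H44.LSSU

variable {F : Type*} [Field F] [Fintype F] {q : ℕ} (hK : Nat.card F = q ^ 2)

theorem exists_skew : ∃ ε : F, ε ≠ 0 ∧ frob hK ε = -ε := by
  obtain ⟨θ, hθ⟩ := exists_theta hK
  refine ⟨θ - frob hK θ, hθ, ?_⟩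
  rw [map_sub, frob_frob]; ring

theorem exists_trace : ∃ δ : F, δ + frob hK δ = -1 := by
  obtain ⟨θ, hθ⟩ : ∃ θ : F, θ + frob hK θ ≠ 0 := by
    by_cases h2 : (2 : F) = 0
    · obtain ⟨θ, hθ⟩ := exists_theta hK
      refine ⟨θ, fun h => hθ ?_⟩
      linear_combination h - (frob hK θ) * h2
    · refine ⟨1, ?_⟩
      rw [map_one]
      intro h
      apply h2
      linear_combination h
  refine ⟨-θ / (θ + frob hK θ), ?_⟩
  rw [map_div₀, map_neg, map_add, frob_frob, add_comm (frob hK θ) θ, ← add_div]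
  field_simp
  ring

/-- the equation `σ c - c = y` for skew `y` -/
theorem exists_diff (y : F) (hy : frob hK y = -y) : ∃ c, frob hK c - c = y := by
  obtain ⟨θ, hθ⟩ := exists_theta hK
  have hne : frob hK θ - θ ≠ 0 := by
    intro h; apply hθ; linear_combination -h
  refine ⟨y / (frob hK θ - θ) * θ, ?_⟩
  rw [map_mul, map_div₀, map_sub, frob_frob, hy]
  have h1 : -y / (θ - frob hK θ) = y / (frob hK θ - θ) := by
    rw [neg_div, ← div_neg, neg_sub]
  rw [h1, ← mul_sub]
  field_simp

theorem card_norm_le [DecidableEq F] (s : Finset F) (d : F) (h : ∀ a ∈ s, a * frob hK a = d) :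
    s.card ≤ q + 1 := by
  have h1 : s ⊆ (Polynomial.nthRoots (q + 1) d).toFinset := by
    intro a ha
    rw [Multiset.mem_toFinset, Polynomial.mem_nthRoots (by omega)]
    have := h a ha
    rw [frob_apply] at this
    rw [pow_succ, mul_comm]
    exact this
  calc s.card ≤ _ := Finset.card_le_card h1
    _ ≤ _ := Multiset.toFinset_card_le _
    _ ≤ q + 1 := Polynomial.card_nthRoots _ _

variable {l : Type*} [Fintype l] [DecidableEq l]

theorem eq_zero_of_diag (D : Matrix l l F) (hD : D ∈ Hm l (frob hK))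
    (h : ∀ x, fm (frob hK) D x x = 0) : D = 0 := by
  obtain ⟨θ, hθ⟩ := exists_theta hK
  have h0 : ∀ x y, fm (frob hK) D y x = frob hK (fm (frob hK) D x y) := by
    intro x y
    rw [mem_Hm_iff] at hD
    simp only [fm, dotProduct, mulVec, map_sum, map_mul, frob_frob, hD, Finset.mul_sum]
    rw [Finset.sum_comm]
    refine Finset.sum_congr rfl (fun i _ => Finset.sum_congr rfl (fun k _ => ?_))
    ring
  have h1 : ∀ x y, fm (frob hK) D x y = 0 := by
    intro x y
    have hadd : ∀ x y, fm (frob hK) D x y + frob hK (fm (frob hK) D x y) = 0 := by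
      intro x y
      have h3 := h (x + y)
      rw [fm_add_left, fm_add_right, fm_add_right, h, h, zero_add, add_zero, h0 x y] at h3
      exact h3
    have e1 := hadd x y
    have e2 := hadd (θ • x) y
    rw [fm_smul_left, map_mul] at e2
    have e3 : (θ - frob hK θ) * fm (frob hK) D x y = 0 := by
      linear_combination e2 - frob hK θ * e1
    exact (mul_eq_zero.mp e3).resolve_left hθ
  ext i j
  have h3 := h1 (Pi.single i 1) (Pi.single j 1)
  have h4 : (fun k => frob hK ((Pi.single j (1 : F) : l → F) k)) = Pi.single j 1 := by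
    ext k
    by_cases hk : k = j
    · subst hk; simp
    · simp [Pi.single_eq_of_ne hk]
  rw [fm, h4] at h3
  simpa using h3

variable {u : Type*} [Fintype u] [DecidableEq u]

/-- the Siegel unipotent radical -/
def uniS (u : Type*) [Fintype u] [DecidableEq u] {ε : F} (hε : frob hK ε = -ε) :
    Multiplicative (Hm l (frob hK)) →* HU hK (H3 l u F) where
  toFun a := ⟨⟨S3 hK 0 (ε • (Multiplicative.toAdd a).1), S3_det hK _ _⟩, S3_unitary hK _ _ (by
    have h1 : cR hK (Multiplicative.toAdd a).1 = (Multiplicative.toAdd a).1 :=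
      (Multiplicative.toAdd a).2
    rw [cR_smul, hε, h1, Matrix.zero_mul, neg_smul]
    abel)⟩
  map_one' := by
    apply Subtype.ext
    apply Subtype.ext
    change S3 hK 0 (ε • (0 : Matrix l l F)) = 1
    rw [S3, cR_zero, neg_zero, smul_zero, fromBlocks_one]
    have hr : fromRows (0 : Matrix l u F) (0 : Matrix l u F) = 0 := fromRows_zero
    have hc : fromCols (0 : Matrix u l F) (0 : Matrix u l F) = 0 := fromCols_zero
    rw [hr, hc, fromBlocks_one]
  map_mul' a b := by
    apply Subtype.ext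
    apply Subtype.ext
    change S3 hK 0 (ε • ((Multiplicative.toAdd a).1 + (Multiplicative.toAdd b).1)) =
      S3 hK 0 (ε • (Multiplicative.toAdd a).1) * S3 hK 0 (ε • (Multiplicative.toAdd b).1)
    rw [S3_mul, Matrix.zero_mul, sub_zero, add_zero, smul_add]

theorem uniS_coe {ε : F} (hε : frob hK ε = -ε) (a : Multiplicative (Hm l (frob hK))) :
    ((uniS hK u hε a).1.1 : Matrix ((l ⊕ l) ⊕ u) ((l ⊕ l) ⊕ u) F) =
      S3 hK 0 (ε • (Multiplicative.toAdd a).1) := rfl

/-- Levi elements normalise the Siegel radical -/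
theorem exists_levi {ε : F} (hε : frob hK ε = -ε) (g : Matrix l l F) (hg : g.det ≠ 0) (μ : F)
    (hμ : frob hK μ * μ = 1)
    (hdet : frob hK (g.det⁻¹) * g.det * μ ^ Fintype.card u = 1) :
    ∃ L : HU hK (H3 l u F), ∀ a : Hm l (frob hK),
      L * uniS hK u hε (Multiplicative.ofAdd a) = uniS hK u hε (Multiplicative.ofAdd
        ⟨(g⁻¹).map (frob hK) * a.1 * (g⁻¹)ᵀ, act_mem (frob_frob hK) _ _ a.2⟩) * L := by
  refine ⟨⟨⟨L3 hK g μ, by rw [L3_det, hdet]⟩, L3_unitary hK g hg μ hμ⟩, ?_⟩
  intro a
  apply Subtype.ext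
  apply Subtype.ext
  change L3 hK g μ * S3 hK 0 (ε • a.1) =
    S3 hK 0 (ε • ((g⁻¹).map (frob hK) * a.1 * (g⁻¹)ᵀ)) * L3 hK g μ
  rw [L3_mul_S3 hK g hg, mul_smul_comm, smul_mul_assoc]

variable {K : Type*} [Field K] {V : Type*} [AddCommGroup V] [Module K V]

/-- The bound for even dimension. -/
theorem even_bound [IsAlgClosed K] [FiniteDimensional K V] (hp : (Fintype.card F : K) ≠ 0)
    {m : ℕ} (hm : Fintype.card l = m + 1) (hl : 2 ≤ Fintype.card l) {ε : F}
    (hε : frob hK ε = -ε) (τ : HU hK (H3 l u F) →* Module.End K V)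
    (b : Multiplicative (Hm l (frob hK))) (hb : τ (uniS hK u hε b) ≠ 1) :
    Fintype.card F ^ (m + 1) - 1 ≤ Module.finrank K V * (q + 1) := by
  classical
  obtain ⟨X, hX1, hX2⟩ := exists_chars hp (frob_frob hK) (eq_zero_of_diag hK) hm
    (fun g => g.det = 1) (fun g hg => by rw [hg]; exact one_ne_zero) (exists_sl_pair hl) τ
    (uniS hK u hε) (fun g hg => exists_levi hK hε g (by rw [hg]; exact one_ne_zero) 1
      (by rw [map_one, one_mul]) (by rw [hg, inv_one, map_one, one_mul, one_mul, one_pow]))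
    b hb (q + 1) (card_norm_le hK)
  refine hX2.trans (Nat.mul_le_mul_right _ ?_)
  have hfinM : Finite (Matrix l l F) := by
    have : Finite (l → l → F) := inferInstance
    exact this
  have hfin : Finite (Multiplicative (Hm l (frob hK))) := inferInstance
  have h3 := card_le (K := K) (card_Hm_ne_zero _ hp) (τ.comp (uniS hK u hε)) X 1
    (fun χ hχ => one_le_finrank _ (hX1 χ hχ).2)
  rwa [mul_one] at h3

/-! ### odd dimension -/

/-- a column -/
def cc (x0 : l → F) : Matrix l Unit F := fun i _ => frob hK (x0 i)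

omit [Fintype l] [DecidableEq l] in
theorem cc_mul (x0 : l → F) : cc hK x0 * cR hK (cc hK x0) =
    vecMulVec (fun i => frob hK (x0 i)) x0 := by
  ext i j
  simp [cc, cR, mul_apply, vecMulVec_apply, frob_frob]

/-- Heisenberg elements -/
def hs (x0 : l → F) (δ t : F) : Matrix ((l ⊕ l) ⊕ Unit) ((l ⊕ l) ⊕ Unit) F :=
  S3 hK (t • cc hK x0) ((δ * t * frob hK t) • vecMulVec (fun i => frob hK (x0 i)) x0)

omit [Fintype l] [DecidableEq l] in
theorem cR_vv (x0 : l → F) : cR hK (vecMulVec (fun i => frob hK (x0 i)) x0) =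
    vecMulVec (fun i => frob hK (x0 i)) x0 := by
  rw [← cc_mul, cR_mul, cR_cR]

theorem hs_unitary (x0 : l → F) {δ : F} (hδ : δ + frob hK δ = -1) (t : F) :
    ct hK (hs hK x0 δ t) * H3 l Unit F * hs hK x0 δ t = H3 l Unit F := by
  apply S3_unitary
  rw [cR_smul, cR_smul, cR_vv, Matrix.smul_mul, Matrix.mul_smul, cc_mul, smul_smul, ← add_smul,
    ← add_smul, map_mul, map_mul, frob_frob]
  have : δ * t * frob hK t + frob hK δ * frob hK t * t + t * frob hK t = 0 := by
    linear_combination (t * frob hK t) * hδ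
  rw [this, zero_smul]

theorem hs_mul (x0 : l → F) (δ t t' : F) : hs hK x0 δ t * hs hK x0 δ t' =
    S3 hK ((t + t') • cc hK x0) ((δ * t * frob hK t + δ * t' * frob hK t' - t * frob hK t') •
      vecMulVec (fun i => frob hK (x0 i)) x0) := by
  rw [hs, hs, S3_mul, cR_smul, Matrix.smul_mul, Matrix.mul_smul, cc_mul, smul_smul, ← add_smul,
    ← add_smul, ← sub_smul]

noncomputable def hsE (x0 : l → F) {δ : F} (hδ : δ + frob hK δ = -1) (t : F) :
    HU hK (H3 l Unit F) :=
  ⟨⟨hs hK x0 δ t, S3_det hK _ _⟩, hs_unitary hK x0 hδ t⟩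

theorem S3_zero_mul (v : Matrix l u F) (Z Z' : Matrix l l F) :
    S3 hK 0 Z' * S3 hK v Z = S3 hK v (Z' + Z) := by
  rw [S3_mul, Matrix.zero_mul, sub_zero, zero_add]

theorem S3_mul_zero (v : Matrix l u F) (Z Z' : Matrix l l F) :
    S3 hK v Z * S3 hK 0 Z' = S3 hK v (Z + Z') := by
  rw [S3_mul, cR_zero, Matrix.mul_zero, sub_zero, add_zero]

omit [Fintype l] [DecidableEq l] in
/-- an element of the Siegel radical -/
theorem rad_mem {ε : F} (hε : frob hK ε = -ε) (x0 : l → F) (r : F) (hr : frob hK r = -r) :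
    (ε⁻¹ * r) • vecMulVec (fun i => frob hK (x0 i)) x0 ∈ Hm l (frob hK) := by
  apply rank1_mem (frob_frob hK)
  rw [map_mul, map_inv₀, hε, hr, inv_neg, neg_mul_neg]

/-- the commutator characters -/
noncomputable def thU (ε f0 : F) (ψ : Multiplicative F →* Kˣ) (i : Multiplicative F) :
    Multiplicative F →* Kˣ where
  toFun b := ψ (Multiplicative.ofAdd ((ε⁻¹ * (Multiplicative.toAdd i *
    frob hK (Multiplicative.toAdd b) - Multiplicative.toAdd b *
    frob hK (Multiplicative.toAdd i))) * f0))
  map_one' := by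
    rw [toAdd_one, map_zero, mul_zero, zero_mul, sub_zero, mul_zero, zero_mul, ofAdd_zero, map_one]
  map_mul' b b' := by
    rw [← map_mul, ← ofAdd_add, toAdd_mul, map_add]
    congr 2
    ring

theorem thU_apply (ε f0 : F) (ψ : Multiplicative F →* Kˣ) (i b : Multiplicative F) :
    thU hK ε f0 ψ i b = ψ (Multiplicative.ofAdd ((ε⁻¹ * (Multiplicative.toAdd i *
    frob hK (Multiplicative.toAdd b) - Multiplicative.toAdd b *
    frob hK (Multiplicative.toAdd i))) * f0)) := rfl

theorem thU_inj {ε f0 : F} (hε0 : ε ≠ 0) (hε : frob hK ε = -ε) (hf0 : f0 ≠ 0)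
    (hf0σ : frob hK f0 = f0) (ψ : Multiplicative F →* Kˣ)
    (hψ : ψ (Multiplicative.ofAdd 1) ≠ 1) : Function.Injective (thU hK ε f0 ψ) := by
  intro i i' h
  by_contra hne
  set d := Multiplicative.toAdd i - Multiplicative.toAdd i' with hd
  have hd0 : d ≠ 0 := sub_ne_zero.mpr (fun h' => hne (Multiplicative.toAdd.injective h'))
  have hσd : frob hK d ≠ 0 := by rwa [ne_eq, map_eq_zero]
  obtain ⟨c, hc⟩ := exists_diff hK (ε * (d * frob hK d)⁻¹ * f0⁻¹) (by
    rw [map_mul, map_mul, map_inv₀, map_inv₀, map_mul, frob_frob, hε, hf0σ,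
      mul_comm (frob hK d) d]; ring)
  have h1 := DFunLike.congr_fun h (Multiplicative.ofAdd (c * d))
  rw [thU_apply, thU_apply, toAdd_ofAdd] at h1
  apply hψ
  have h2 : (1 : F) = (ε⁻¹ * (Multiplicative.toAdd i * frob hK (c * d) - c * d *
      frob hK (Multiplicative.toAdd i))) * f0 - (ε⁻¹ * (Multiplicative.toAdd i' *
      frob hK (c * d) - c * d * frob hK (Multiplicative.toAdd i'))) * f0 := by
    have h3 : (ε⁻¹ * (Multiplicative.toAdd i * frob hK (c * d) - c * d *
      frob hK (Multiplicative.toAdd i))) * f0 - (ε⁻¹ * (Multiplicative.toAdd i' *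
      frob hK (c * d) - c * d * frob hK (Multiplicative.toAdd i'))) * f0 =
      ε⁻¹ * ((frob hK c - c) * (d * frob hK d)) * f0 := by
      rw [hd, map_sub, map_mul, map_sub]; ring
    rw [h3, hc]
    field_simp
  rw [h2, ofAdd_sub, map_div, h1, div_self']

/-- The bound for odd dimension. -/
theorem odd_bound [IsAlgClosed K] [FiniteDimensional K V] (hp : (Fintype.card F : K) ≠ 0)
    {m : ℕ} (hm : Fintype.card l = m + 1) {ε : F} (hε0 : ε ≠ 0)
    (hε : frob hK ε = -ε) (τ : HU hK (H3 l Unit F) →* Module.End K V)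
    (b : Multiplicative (Hm l (frob hK))) (hb : τ (uniS hK Unit hε b) ≠ 1) :
    (Fintype.card F ^ (m + 1) - 1) * q ≤ Module.finrank K V * (q + 1) := by
  classical
  obtain ⟨δ, hδ⟩ := exists_trace hK
  obtain ⟨ψ, X, hψ, hX1, hX2⟩ := exists_forms hp (frob_frob hK) (eq_zero_of_diag hK) hm
    (fun g => g.det ≠ 0) (fun g hg => hg) exists_gl_pair τ
    (uniS hK Unit hε) (fun g hg => exists_levi hK hε g hg (frob hK g.det * (g.det)⁻¹)
      (by
        have hσ : frob hK g.det ≠ 0 := by rwa [ne_eq, map_eq_zero]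
        rw [map_mul, frob_frob, map_inv₀]; field_simp)
      (by
        have hσ : frob hK g.det ≠ 0 := by rwa [ne_eq, map_eq_zero]
        rw [Fintype.card_unit, pow_one, map_inv₀]; field_simp))
    b hb (q + 1) (card_norm_le hK)
  have hfinM : Finite (Matrix l l F) := by
    have : Finite (l → l → F) := inferInstance
    exact this
  have hfin : Finite (Multiplicative (Hm l (frob hK))) := inferInstance
  have hfix : ∀ D ∈ Hm l (frob hK), ∀ x, frob hK (fm (frob hK) D x x) = fm (frob hK) D x x := by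
    intro D hD x
    rw [mem_Hm_iff] at hD
    simp only [fm, dotProduct, mulVec, map_sum, map_mul, frob_frob, hD, Finset.mul_sum]
    rw [Finset.sum_comm]
    refine Finset.sum_congr rfl (fun i _ => Finset.sum_congr rfl (fun k _ => ?_))
    ring
  have hinj : Set.InjOn (chi (K := K) (frob hK) ψ) (X : Set (Matrix l l F)) := by
    intro S hS T hT h
    exact chi_inj (frob_frob hK) (eq_zero_of_diag hK) ψ ⟨1, map_one _, hψ⟩ hfix
      (hX1 S hS).1 (hX1 T hT).1 h
  have h3 := card_le (K := K) (card_Hm_ne_zero _ hp) (τ.comp (uniS hK Unit hε))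
    (X.image (chi (frob hK) ψ)) q (by
      intro χ hχ
      rw [Finset.mem_image] at hχ
      obtain ⟨S, hS, rfl⟩ := hχ
      obtain ⟨hSm, hS0, hSw⟩ := hX1 S hS
      obtain ⟨x0, hx0⟩ : ∃ x0, fm (frob hK) S x0 x0 ≠ 0 := by
        by_contra hcon
        push Not at hcon
        exact hS0 (eq_zero_of_diag hK S hSm hcon)
      have hB : (Nat.card (Multiplicative F) : K) ≠ 0 := by
        rw [Nat.card_eq_fintype_card, Fintype.card_multiplicative]
        exact hp
      have h4 := LSHeis.heis τ (uniS hK Unit hε) (chi (frob hK) ψ S) hSw hB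
        (fun t => hsE hK x0 hδ (Multiplicative.toAdd t)) ?_ ?_
        (thU hK ε (fm (frob hK) S x0 x0) ψ) ?_ 1 ?_
      · rw [Nat.card_eq_fintype_card, Fintype.card_multiplicative, mul_one,
          ← Nat.card_eq_fintype_card, hK] at h4
        exact (Nat.pow_le_pow_iff_left (by norm_num)).mp h4
      · -- commuting with the radical
        intro t a
        apply Subtype.ext
        apply Subtype.ext
        change hs hK x0 δ _ * S3 hK 0 (ε • (Multiplicative.toAdd a).1) =
          S3 hK 0 (ε • (Multiplicative.toAdd a).1) * hs hK x0 δ _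
        rw [hs, S3_zero_mul, S3_mul_zero, add_comm]
      · -- multiplication
        intro t t'
        set x := Multiplicative.toAdd t with hx
        set y := Multiplicative.toAdd t' with hy
        set r := δ * (x * frob hK y + y * frob hK x) + x * frob hK y with hr
        have hrσ : frob hK r = -r := by
          rw [hr]
          simp only [map_add, map_mul, frob_frob]
          have : frob hK δ = -1 - δ := by rw [← hδ]; ring
          rw [this]; ring
        refine ⟨Multiplicative.ofAdd ⟨_, rad_mem hK hε x0 r hrσ⟩, ?_⟩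
        apply Subtype.ext
        apply Subtype.ext
        change hs hK x0 δ (x + y) = hs hK x0 δ x * hs hK x0 δ y *
          S3 hK 0 (ε • ((ε⁻¹ * r) • vecMulVec (fun i => frob hK (x0 i)) x0))
        rw [hs_mul, S3_mul_zero, hs, smul_smul, ← add_smul, map_add]
        congr 2
        rw [hr, ← mul_assoc, mul_inv_cancel₀ hε0]
        ring
      · -- commutators
        intro t t'
        set x := Multiplicative.toAdd t with hx
        set y := Multiplicative.toAdd t' with hy
        set r := y * frob hK x - x * frob hK y with hr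
        have hrσ : frob hK r = -r := by
          rw [hr]
          simp only [map_sub, map_mul, frob_frob]
          ring
        refine ⟨Multiplicative.ofAdd ⟨_, rad_mem hK hε x0 r hrσ⟩, ?_, ?_⟩
        · apply Subtype.ext
          apply Subtype.ext
          change hs hK x0 δ x * hs hK x0 δ y =
            S3 hK 0 (ε • ((ε⁻¹ * r) • vecMulVec (fun i => frob hK (x0 i)) x0)) *
              (hs hK x0 δ y * hs hK x0 δ x)
          rw [hs_mul, hs_mul, S3_zero_mul, smul_smul, ← add_smul, add_comm y x]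
          congr 2
          rw [hr, ← mul_assoc, mul_inv_cancel₀ hε0]
          ring
        · rw [chi_apply, thU_apply, toAdd_ofAdd, trace_rank1]
      · intro χ'
        rw [Finite.card_le_one_iff_subsingleton]
        constructor
        rintro ⟨i, hi⟩ ⟨i', hi'⟩
        rw [Subtype.mk.injEq]
        exact thU_inj hK hε0 hε hx0 (hfix S hSm x0) ψ hψ (hi.trans hi'.symm))
  rw [Finset.card_image_of_injOn hinj] at h3
  calc (Fintype.card F ^ (m + 1) - 1) * q ≤ X.card * (q + 1) * q := Nat.mul_le_mul_right _ hX2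
    _ = X.card * q * (q + 1) := by ring
    _ ≤ _ := Nat.mul_le_mul_right _ h3

end H44.LSSU
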