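import Cfsg.Agent.Lib.H44.SzElts
import Cfsg.Agent.Lib.H44.LSSpEven

/-! Lower bound for the degrees of nontrivial representations of the Suzuki groups. -/

set_option autoImplicit false

open Matrix Cfsg.Lie H44.SzElts H44.LSWeights H44.LSBound H44.LSVec

namespace H44.LSSz

variable {F : Type*} [Field F] {e : ℕ}

theorem mat_ext {g h : Sz F e} (H : ((g : GL (Fin 4) F) : Matrix (Fin 4) (Fin 4) F) =
    ((h : GL (Fin 4) F) : Matrix (Fin 4) (Fin 4) F)) : g = h :=
  Subtype.ext (Units.ext H)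

theorem uElt_mul (hF : SzField F e) (x y x' y' : F) :
    uElt hF x y * uElt hF x' y' = uElt hF (x + x') (y + y' + x ^ e * x') := by
  apply mat_ext
  change uMat e x y * uMat e x' y' = uMat e (x + x') (y + y' + x ^ e * x')
  have h2 := hF.two
  have he := hF.pos.ne'
  ext i j
  fin_cases i <;> fin_cases j <;>
    simp [uMat, Matrix.mul_apply, Fin.sum_univ_four, hF.add, mul_pow, hF.sq, pow_add]
  · ring
  · linear_combination (-(x ^ 2 * x' ^ e + x * x' * x ^ e + x * x' * x' ^ e + x' ^ 2 * x ^ e)) * h2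
  · linear_combination (-(x' * x ^ e)) * h2

theorem uElt_zero (hF : SzField F e) : uElt hF (0 : F) 0 = 1 := by
  apply mat_ext
  change uMat e (0 : F) 0 = 1
  have he := hF.pos.ne'
  ext i j
  fin_cases i <;> fin_cases j <;> simp [uMat, he]

theorem hElt_conj (hF : SzField F e) (r : F) (hr : r ≠ 0) (y : F) :
    hElt hF r hr * uElt hF 0 y = uElt hF 0 ((r⁻¹) ^ (e + 2) * y) * hElt hF r hr := by
  apply mat_ext
  change hMat e r * uMat e 0 y = uMat e 0 ((r⁻¹) ^ (e + 2) * y) * hMat e r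
  have h2 := hF.two
  have he := hF.pos.ne'
  have hre : r ^ e ≠ 0 := pow_ne_zero _ hr
  ext i j
  fin_cases i <;> fin_cases j <;>
    simp [uMat, hMat, Matrix.mul_apply, Fin.sum_univ_four, mul_pow, hF.sq, pow_add, he]
  · field_simp
  · rw [pow_right_comm r 2 e]; field_simp
  · field_simp

/-- injectivity of `r ↦ r ^ (e + 2)` -/
theorem pow_inj (hF : SzField F e) (he2 : 2 ≤ e) (r : F) (hr : r ≠ 0) (h : r ^ (e + 2) = 1) :
    r = 1 := by
  have h2 := hF.two
  have h1 : r ^ (e * e) * 1 = r ^ 4 := by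
    have h3 : r ^ (e * e) = (r ^ (e + 2)) ^ (e - 2) * r ^ 4 := by
      rw [← pow_mul, ← pow_add]
      congr 1
      obtain ⟨k, rfl⟩ : ∃ k, e = k + 2 := ⟨e - 2, by omega⟩
      rw [Nat.add_sub_cancel]
      ring
    rw [h3, h, one_pow, one_mul, mul_one]
  rw [mul_one, pow_mul, hF.sq] at h1
  have h3 : (r ^ 2) * (r ^ 2 - 1) = 0 := by linear_combination -h1
  have h4 : r ^ 2 - 1 = 0 := (mul_eq_zero.mp h3).resolve_left (pow_ne_zero _ hr)
  have h5 : (r - 1) ^ 2 = 0 := by linear_combination h4 + (1 - r) * h2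
  exact sub_eq_zero.mp (eq_zero_of_pow_eq_zero h5)

theorem pow_inj' (hF : SzField F e) (he2 : 2 ≤ e) (r : F) (hr : r ≠ 0) (h : r ^ (e + 1) = 1) :
    r = 1 := by
  have h1 : r ^ (e * e) = r := by
    have h3 : r ^ (e * e) = (r ^ (e + 1)) ^ (e - 1) * r := by
      rw [← pow_mul]
      nth_rw 3 [← pow_one r]
      rw [← pow_add]
      congr 1
      obtain ⟨k, rfl⟩ : ∃ k, e = k + 1 := ⟨e - 1, by omega⟩
      rw [Nat.add_sub_cancel]
      ring
    rw [h3, h, one_pow, one_mul]
  rw [pow_mul, hF.sq] at h1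
  have h3 : r * (r - 1) = 0 := by linear_combination h1
  exact sub_eq_zero.mp ((mul_eq_zero.mp h3).resolve_left hr)

/-- surjectivity of `r ↦ r ^ (e + 2)` -/
theorem pow_surj [Fintype F] (hF : SzField F e) (he2 : 2 ≤ e) (c : F) (hc : c ≠ 0) :
    ∃ r : F, r ≠ 0 ∧ r ^ (e + 2) = c := by
  have h1 : Function.Injective (fun r : Fˣ => r ^ (e + 2)) := by
    intro r s h
    simp only at h
    have h2 : (r * s⁻¹) ^ (e + 2) = 1 := by rw [mul_pow, h, ← mul_pow, mul_inv_cancel, one_pow]
    have h3 := pow_inj hF he2 ((r * s⁻¹ : Fˣ) : F) (Units.ne_zero _) (by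
      rw [← Units.val_pow_eq_pow_val, h2, Units.val_one])
    have h4 : r * s⁻¹ = 1 := Units.ext h3
    exact mul_inv_eq_one.mp h4
  have h2 := Finite.injective_iff_surjective.mp h1
  obtain ⟨r, hr⟩ := h2 (Units.mk0 c hc)
  refine ⟨r, r.ne_zero, ?_⟩
  simp only at hr
  rw [← Units.val_pow_eq_pow_val, hr, Units.val_mk0]

/-- the centre of the Sylow 2-subgroup -/
noncomputable def zHom (hF : SzField F e) : Multiplicative (Unit → F) →* Sz F e where
  toFun a := uElt hF 0 (Multiplicative.toAdd a ())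
  map_one' := uElt_zero hF
  map_mul' a b := by
    rw [uElt_mul, toAdd_mul]
    congr 1
    · rw [add_zero]
    · rw [mul_zero, add_zero]; rfl

theorem zHom_apply (hF : SzField F e) (a : Multiplicative (Unit → F)) :
    zHom hF a = uElt hF 0 (Multiplicative.toAdd a ()) := rfl

variable {K : Type*} [Field K]

/-- the commutator character argument: few elements commute with everything modulo the kernel of a
character -/
theorem rad_small [Fintype F] (hF : SzField F e) (he2 : 2 ≤ e) (ψ : Multiplicative F →* Kˣ)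
    (hψ : ψ (Multiplicative.ofAdd 1) ≠ 1) (c : F) (hc : c ≠ 0) (a a' : F) (ha : a ≠ 0)
    (ha' : a' ≠ 0)
    (h : ∀ b, ψ (Multiplicative.ofAdd (c * (b ^ e * a + a ^ e * b))) = 1)
    (h' : ∀ b, ψ (Multiplicative.ofAdd (c * (b ^ e * a' + a' ^ e * b))) = 1) : a = a' := by
  have h2 := hF.two
  have hneg : ∀ z : F, -z = z := fun z => by linear_combination (-z) * h2
  have add_eq : ∀ x y : F, ψ (Multiplicative.ofAdd (x + y)) = 1 →
      ψ (Multiplicative.ofAdd x) = ψ (Multiplicative.ofAdd y) := by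
    intro x y hxy
    have h3 : ψ (Multiplicative.ofAdd (x - y)) = 1 := by rw [sub_eq_add_neg, hneg]; exact hxy
    rw [ofAdd_sub, map_div] at h3
    exact div_eq_one.mp h3
  -- ψ_d is invariant under t ↦ t ^ e and Frobenius
  have key : ∀ a : F, a ≠ 0 → (∀ b, ψ (Multiplicative.ofAdd (c * (b ^ e * a + a ^ e * b))) = 1) →
      ∀ t, ψ (Multiplicative.ofAdd (c * a ^ (e + 1) * t ^ 2)) =
        ψ (Multiplicative.ofAdd (c * a ^ (e + 1) * t)) := by
    intro a _ h
    have h3 : ∀ t, ψ (Multiplicative.ofAdd (c * a ^ (e + 1) * t ^ e)) =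
        ψ (Multiplicative.ofAdd (c * a ^ (e + 1) * t)) := by
      intro t
      apply add_eq
      have := h (t * a)
      rw [show c * a ^ (e + 1) * t ^ e + c * a ^ (e + 1) * t =
        c * ((t * a) ^ e * a + a ^ e * (t * a)) by rw [mul_pow]; ring]
      exact this
    intro t
    rw [← hF.sq t, h3, h3]
  have k1 := key a ha h
  have k2 := key a' ha' h'
  set d := c * a ^ (e + 1) with hd
  set d' := c * a' ^ (e + 1) with hd'
  have hd0 : d ≠ 0 := mul_ne_zero hc (pow_ne_zero _ ha)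
  have hd0' : d' ≠ 0 := mul_ne_zero hc (pow_ne_zero _ ha')
  set s := d' / d with hs
  have hs0 : s ≠ 0 := div_ne_zero hd0' hd0
  have hds : d' = d * s := by rw [hs]; field_simp
  have h3 : ∀ t, ψ (Multiplicative.ofAdd (d * (s + s ^ 2) * t ^ 2)) = 1 := by
    intro t
    have e1 := k2 t
    have e2 := k1 (s * t)
    rw [hds] at e1
    have e3 : ψ (Multiplicative.ofAdd (d * s * t ^ 2)) = ψ (Multiplicative.ofAdd (d * (s * t) ^ 2)) := by
      rw [e1, e2, mul_assoc]
    have e4 : d * (s + s ^ 2) * t ^ 2 = d * s * t ^ 2 - d * (s * t) ^ 2 := by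
      linear_combination (d * s ^ 2 * t ^ 2) * h2
    rw [e4, ofAdd_sub, map_div, e3, div_self']
  have h4 : s + s ^ 2 = 0 := by
    by_contra hne
    apply hψ
    have hcp : CharP F 2 := by
      have : (2 : F) = 0 := h2
      exact CharTwo.of_one_ne_zero_of_two_eq_zero one_ne_zero this
    obtain ⟨t, ht⟩ := FiniteField.isSquare_of_char_two (by
      rw [ringChar.eq_iff]; infer_instance) ((d * (s + s ^ 2))⁻¹)
    have := h3 t
    rw [pow_two t, ← ht, mul_inv_cancel₀ (mul_ne_zero hd0 hne)] at this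
    exact this
  have h5 : s * (s - 1) = 0 := by linear_combination h4 - s * h2
  have h6 : s = 1 := sub_eq_zero.mp ((mul_eq_zero.mp h5).resolve_left hs0)
  rw [h6, mul_one] at hds
  have h7 : a' ^ (e + 1) = a ^ (e + 1) := mul_left_cancel₀ hc hds
  have h8 : (a' / a) ^ (e + 1) = 1 := by
    rw [div_pow, h7, div_self (pow_ne_zero _ ha)]
  have h9 := pow_inj' hF he2 _ (div_ne_zero ha' ha) h8
  rw [div_eq_one_iff_eq ha] at h9
  exact h9.symm

end H44.LSSz
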