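import Cfsg.Agent.Lib.H44.LSSz
import Cfsg.Agent.Lib.H44.LSHeis

/-! The Landazuri–Seitz bound for the Suzuki groups. -/

set_option autoImplicit false

open Matrix Cfsg.Lie H44.SzElts H44.LSWeights H44.LSBound H44.LSVec H44.LSHeis

namespace H44.LSSz

variable {F : Type*} [Field F] {e : ℕ} {K : Type*} [Field K] {V : Type*} [AddCommGroup V]
  [Module K V]

/-- the commutator characters -/
noncomputable def th (hF : SzField F e) (ψ : Multiplicative F →* Kˣ) (c : F)
    (i : Multiplicative F) : Multiplicative F →* Kˣ where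
  toFun b := ψ (Multiplicative.ofAdd (c * ((Multiplicative.toAdd b) ^ e * Multiplicative.toAdd i +
    (Multiplicative.toAdd i) ^ e * Multiplicative.toAdd b)))
  map_one' := by
    rw [toAdd_one, zero_pow hF.pos.ne', zero_mul, mul_zero, add_zero, mul_zero, ofAdd_zero, map_one]
  map_mul' b b' := by
    rw [← map_mul, ← ofAdd_add, toAdd_mul, hF.add]
    congr 2
    ring

theorem th_apply (hF : SzField F e) (ψ : Multiplicative F →* Kˣ) (c : F)
    (i b : Multiplicative F) : th hF ψ c i b =
    ψ (Multiplicative.ofAdd (c * ((Multiplicative.toAdd b) ^ e * Multiplicative.toAdd i +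
    (Multiplicative.toAdd i) ^ e * Multiplicative.toAdd b))) := rfl

theorem th_mul (hF : SzField F e) (ψ : Multiplicative F →* Kˣ) (c : F)
    (i i' : Multiplicative F) : th hF ψ c (i * i') = th hF ψ c i * th hF ψ c i' := by
  refine MonoidHom.ext (fun b => ?_)
  rw [MonoidHom.mul_apply, th_apply, th_apply, th_apply, ← map_mul, ← ofAdd_add, toAdd_mul, hF.add]
  congr 2
  ring

theorem fiber_small [Fintype F] (hF : SzField F e) (he2 : 2 ≤ e) (ψ : Multiplicative F →* Kˣ)
    (hψ : ψ (Multiplicative.ofAdd 1) ≠ 1) (c : F) (hc : c ≠ 0) (χ : Multiplicative F →* Kˣ) :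
    Nat.card {i : Multiplicative F // th hF ψ c i = χ} ≤ 2 := by
  classical
  have h2 := hF.two
  have hneg : ∀ z : F, -z = z := fun z => by linear_combination (-z) * h2
  rw [Nat.card_eq_fintype_card]
  by_contra hcon
  push Not at hcon
  rw [← Finset.card_univ, Finset.two_lt_card] at hcon
  obtain ⟨⟨x, hx⟩, _, ⟨y, hy⟩, _, ⟨z, hz⟩, _, hxy, hxz, hyz⟩ := hcon
  rw [ne_eq, Subtype.mk.injEq] at hxy hxz hyz
  -- differences
  have hself : ∀ i : Multiplicative F, th hF ψ c i * th hF ψ c i = 1 := by
    intro i
    rw [← th_mul]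
    have : i * i = 1 := by
      apply Multiplicative.toAdd.injective
      rw [toAdd_mul, toAdd_one]
      linear_combination (Multiplicative.toAdd i) * h2
    rw [this]
    refine MonoidHom.ext (fun b => ?_)
    rw [th_apply, toAdd_one, zero_pow hF.pos.ne', zero_mul, mul_zero, add_zero, mul_zero,
      ofAdd_zero, map_one, MonoidHom.one_apply]
  have h3 : th hF ψ c (x * y) = 1 := by rw [th_mul, hx, ← hy, hself]
  have h4 : th hF ψ c (x * z) = 1 := by rw [th_mul, hx, ← hz, hself]
  have hne : ∀ a b : Multiplicative F, a ≠ b → Multiplicative.toAdd (a * b) ≠ 0 := by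
    intro a b hab h0
    apply hab
    apply Multiplicative.toAdd.injective
    rw [toAdd_mul] at h0
    rw [eq_neg_of_add_eq_zero_left h0, hneg]
  have h5 := rad_small hF he2 ψ hψ c hc (Multiplicative.toAdd (x * y))
    (Multiplicative.toAdd (x * z)) (hne _ _ hxy) (hne _ _ hxz)
    (fun b => by
      have := DFunLike.congr_fun h3 (Multiplicative.ofAdd b)
      rw [th_apply, MonoidHom.one_apply] at this
      exact this)
    (fun b => by
      have := DFunLike.congr_fun h4 (Multiplicative.ofAdd b)
      rw [th_apply, MonoidHom.one_apply] at this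
      exact this)
  have h6 : x * y = x * z := Multiplicative.toAdd.injective h5
  exact hyz (mul_left_cancel h6)

/-- The Landazuri–Seitz bound for the Suzuki groups. -/
theorem lower [Fintype F] [IsAlgClosed K] [FiniteDimensional K V] (hF : SzField F e) (he2 : 2 ≤ e)
    (hp : (Fintype.card F : K) ≠ 0) (m : ℕ) (hcard : Fintype.card F = 2 ^ (2 * m + 1))
    (τ : Sz F e →* Module.End K V) (b : Multiplicative (Unit → F)) (hb : τ (zHom hF b) ≠ 1) :
    2 ^ m * (Fintype.card F - 1) ≤ Module.finrank K V := by
  classical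
  have h2 := hF.two
  have hneg : ∀ z : F, -z = z := fun z => by linear_combination (-z) * h2
  obtain ⟨ψ, hψ, hall⟩ := exists_all hp τ (zHom hF) (by
    intro f f' hf hf'
    have hf1 : f () ≠ 0 := by
      intro h0; apply hf; ext i; exact h0
    have hf1' : f' () ≠ 0 := by
      intro h0; apply hf'; ext i; exact h0
    set c := f () / f' () with hc
    have hc0 : c ≠ 0 := div_ne_zero hf1 hf1'
    obtain ⟨r, hr0, hr⟩ := pow_surj hF he2 c hc0
    refine ⟨Matrix.of (fun _ _ => c), hElt hF r⁻¹ (inv_ne_zero hr0), ?_, ?_, ?_⟩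
    · ext i
      simp only [mulVec, dotProduct, transpose_apply, of_apply, Finset.univ_unique,
        Finset.sum_singleton]
      change c * f' () = f ()
      rw [hc]; field_simp
    · intro a
      rw [zHom_apply, zHom_apply, hElt_conj, inv_inv, hr]
      congr 2
      simp [mulVec, dotProduct]
    · intro a
      refine ⟨fun _ => c⁻¹ * a (), ?_⟩
      ext i
      simp only [mulVec, dotProduct, of_apply, Finset.univ_unique, Finset.sum_singleton]
      rw [← mul_assoc, mul_inv_cancel₀ hc0, one_mul]) b hb
  have h3 := lower_mult hp τ (zHom hF) ψ hψ (2 ^ m) (by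
    intro f hf
    have hf1 : f () ≠ 0 := by
      intro h0; apply hf; ext i; exact h0
    have hB : (Nat.card (Multiplicative F) : K) ≠ 0 := by
      rw [Nat.card_eq_fintype_card, Fintype.card_multiplicative]
      exact hp
    have h4 := heis τ (zHom hF) (vchi ψ f) (hall f hf) hB
      (fun b => uElt hF (Multiplicative.toAdd b) 0) ?_ ?_ (th hF ψ (f ())) ?_ 2
      (fiber_small hF he2 ψ hψ (f ()) hf1)
    · rw [Nat.card_eq_fintype_card, Fintype.card_multiplicative, hcard, pow_succ] at h4
      have h5 := Nat.le_of_mul_le_mul_right h4 (by norm_num)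
      have h6 : (2 ^ m) ^ 2 ≤ Module.finrank K (wt (τ.comp (zHom hF)) (vchi ψ f)) ^ 2 := by
        rw [← pow_mul, mul_comm m 2]; exact h5
      exact (Nat.pow_le_pow_iff_left (by norm_num)).mp h6
    · intro b a
      rw [zHom_apply, uElt_mul, uElt_mul]
      simp [hF.pos.ne']
    · intro b b'
      refine ⟨Multiplicative.ofAdd (fun _ => (Multiplicative.toAdd b) ^ e *
        Multiplicative.toAdd b'), ?_⟩
      rw [zHom_apply, uElt_mul, uElt_mul, toAdd_ofAdd]
      congr 1
      · rw [add_zero]; rfl
      · rw [zero_add, mul_zero, add_zero, zero_add]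
        linear_combination (-((Multiplicative.toAdd b) ^ e * Multiplicative.toAdd b')) * h2
    · intro b i
      refine ⟨Multiplicative.ofAdd (fun _ => (Multiplicative.toAdd b) ^ e *
        Multiplicative.toAdd i + (Multiplicative.toAdd i) ^ e * Multiplicative.toAdd b), ?_, ?_⟩
      · rw [zHom_apply, uElt_mul, uElt_mul, uElt_mul, toAdd_ofAdd]
        congr 1
        · rw [zero_add, add_comm]
        · rw [zero_pow hF.pos.ne']
          linear_combination (-((Multiplicative.toAdd i) ^ e * Multiplicative.toAdd b)) * h2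
      · rw [vchi_apply, th_apply, toAdd_ofAdd]
        congr 2
        simp [dotProduct])
  rw [Fintype.card_unit, pow_one, mul_comm] at h3
  exact h3

end H44.LSSz
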