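import Cfsg.Agent.Lib.H44.WordPSL
import Cfsg.Agent.Lib.H44.AltEmbed
import Cfsg.Prelude.Def_Classical

set_option autoImplicit false

open Matrix Cfsg
open scoped commutatorElement MatrixGroups

namespace H44.Laws

/-- `w` is a law of `G` -/
def Law (w : FreeGroup ℕ) (G : Type*) [Group G] : Prop := ∀ f : ℕ → G, FreeGroup.lift f w = 1

theorem lift_comp {G H : Type*} [Group G] [Group H] (φ : G →* H) (f : ℕ → G) (w : FreeGroup ℕ) :
    FreeGroup.lift (fun i => φ (f i)) w = φ (FreeGroup.lift f w) := by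
  have : FreeGroup.lift (fun i => φ (f i)) = φ.comp (FreeGroup.lift f) := by
    ext i; simp
  rw [this]; rfl

theorem Law.of_injective {w : FreeGroup ℕ} {G H : Type*} [Group G] [Group H] (h : Law w G)
    (φ : H →* G) (hφ : Function.Injective φ) : Law w H := by
  intro f
  apply hφ
  rw [map_one, ← lift_comp]
  exact h _

theorem Law.of_surjective {w : FreeGroup ℕ} {G H : Type*} [Group G] [Group H] (h : Law w G)
    (φ : G →* H) (hφ : Function.Surjective φ) : Law w H := by
  intro f
  choose g hg using fun i => hφ (f i)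
  have : f = fun i => φ (g i) := by ext i; rw [hg]
  rw [this, lift_comp, h, map_one]

/-- From a nontrivial word `w` one gets another one `w'` that is a law of `G` when `w` is a law
modulo the centre. -/
theorem exists_center_word (w : FreeGroup ℕ) (hw : w ≠ 1) : ∃ w' : FreeGroup ℕ, w' ≠ 1 ∧
    ∀ (G : Type) [Group G], Law w (G ⧸ Subgroup.center G) → Law w' G := by
  let ws : FreeGroup ℕ := FreeGroup.map Nat.succ w
  have hs : ∀ (G : Type) [Group G] (f : ℕ → G), FreeGroup.lift f ws =
      FreeGroup.lift (fun i => f (i + 1)) w := by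
    intro G _ f
    have : (FreeGroup.lift f).comp (FreeGroup.map Nat.succ) =
      FreeGroup.lift (fun i => f (i + 1)) := by
      ext i; simp
    rw [← this]; rfl
  refine ⟨⁅ws, FreeGroup.of 0⁆, ?_, ?_⟩
  · intro h1
    obtain ⟨N, hN⟩ := H44.WordPSL.exists_SL_not_scalar.{0} w hw
    obtain ⟨p, hp, hpp⟩ := Nat.exists_infinite_primes N
    have : Fact p.Prime := ⟨hpp⟩
    obtain ⟨f, hf⟩ := hN (ZMod p) (by rw [ZMod.card]; exact hp)
    have hc : FreeGroup.lift f w ∉ Subgroup.center (Matrix.SpecialLinearGroup (Fin 2) (ZMod p)) := by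
      intro hmem
      rw [Matrix.SpecialLinearGroup.mem_center_iff] at hmem
      obtain ⟨r, _, hr⟩ := hmem
      apply hf r
      rw [← hr]
      ext i j
      simp [Matrix.scalar_apply, Matrix.diagonal_apply, Matrix.one_apply]
    rw [Subgroup.mem_center_iff] at hc
    push Not at hc
    obtain ⟨y, hy⟩ := hc
    have h2 := congrArg (FreeGroup.lift (fun i => if i = 0 then y else f (i - 1))) h1
    rw [map_one, map_commutatorElement, hs, FreeGroup.lift_apply_of] at h2
    simp only [Nat.add_sub_cancel, Nat.add_eq_zero_iff, one_ne_zero, and_false, if_false, if_true]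
      at h2
    rw [commutatorElement_eq_one_iff_mul_comm] at h2
    exact hy h2.symm
  · intro G _ hL f
    rw [map_commutatorElement, hs, FreeGroup.lift_apply_of, commutatorElement_eq_one_iff_mul_comm]
    have h3 := hL (fun i => QuotientGroup.mk' (Subgroup.center G) (f (i + 1)))
    rw [lift_comp, QuotientGroup.mk'_apply, QuotientGroup.eq_one_iff, Subgroup.mem_center_iff] at h3
    exact (h3 _).symm

theorem not_law_SL2 (w : FreeGroup ℕ) (hw : w ≠ 1) : ∃ N : ℕ, ∀ (F : Type) [Field F] [Fintype F],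
    N ≤ Fintype.card F → ¬ Law w (Matrix.SpecialLinearGroup (Fin 2) F) := by
  obtain ⟨N, hN⟩ := H44.WordPSL.exists_SL_not_scalar.{0} w hw
  refine ⟨N, fun F _ _ hF hL => ?_⟩
  obtain ⟨f, hf⟩ := hN F hF
  apply hf 1
  rw [hL f, one_smul]
  rfl

theorem not_law_alt (w : FreeGroup ℕ) (hw : w ≠ 1) : ∃ M : ℕ, ∀ n : ℕ, M ≤ n →
    ¬ Law w (alternatingGroup (Fin n)) := by
  obtain ⟨N, hN⟩ := not_law_SL2 w hw
  obtain ⟨p, hp, hpp⟩ := Nat.exists_infinite_primes N
  have : Fact p.Prime := ⟨hpp⟩
  have h1 := hN (ZMod p) (by rw [ZMod.card]; exact hp)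
  obtain ⟨M, hM⟩ := H44.AltEmbed.exists_hom_alternating (Matrix.SpecialLinearGroup (Fin 2) (ZMod p))
  refine ⟨M, fun n hn hL => ?_⟩
  obtain ⟨φ, hφ⟩ := hM n hn
  exact h1 (hL.of_injective φ hφ)

/-! ### embeddings -/

section emb

variable {F : Type*} [Field F]

/-- block embedding of special linear groups -/
def slSum (α β : Type*) [Fintype α] [DecidableEq α] [Fintype β] [DecidableEq β] :
    SpecialLinearGroup α F →* SpecialLinearGroup (α ⊕ β) F where
  toFun A := ⟨fromBlocks A.1 0 0 1, by rw [det_fromBlocks_zero₂₁, A.2, det_one, mul_one]⟩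
  map_one' := by
    apply Subtype.ext
    exact fromBlocks_one
  map_mul' A B := by
    apply Subtype.ext
    change fromBlocks (A.1 * B.1) 0 0 1 = fromBlocks A.1 0 0 1 * fromBlocks B.1 0 0 1
    rw [fromBlocks_multiply]
    simp

theorem slSum_injective (α β : Type*) [Fintype α] [DecidableEq α] [Fintype β] [DecidableEq β] :
    Function.Injective (slSum α β (F := F)) := by
  intro A B h
  have h1 := congrArg Subtype.val h
  have h2 : fromBlocks A.1 0 0 (1 : Matrix β β F) = fromBlocks B.1 0 0 1 := h1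
  rw [fromBlocks_inj] at h2
  exact Subtype.ext h2.1

/-- reindexing -/
def slReindex {α β : Type*} [Fintype α] [DecidableEq α] [Fintype β] [DecidableEq β] (e : α ≃ β) :
    SpecialLinearGroup α F →* SpecialLinearGroup β F where
  toFun A := ⟨A.1.submatrix e.symm e.symm, by rw [det_submatrix_equiv_self, A.2]⟩
  map_one' := by
    apply Subtype.ext
    simp
  map_mul' A B := by
    apply Subtype.ext
    change (A.1 * B.1).submatrix e.symm e.symm =
      A.1.submatrix e.symm e.symm * B.1.submatrix e.symm e.symm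
    rw [Matrix.submatrix_mul_equiv]

theorem slReindex_injective {α β : Type*} [Fintype α] [DecidableEq α] [Fintype β] [DecidableEq β]
    (e : α ≃ β) : Function.Injective (slReindex (F := F) e) := by
  intro A B h
  have h1 : A.1.submatrix e.symm e.symm = B.1.submatrix e.symm e.symm := congrArg Subtype.val h
  apply Subtype.ext
  ext i j
  have := congrFun (congrFun h1 (e i)) (e j)
  simpa using this

theorem exists_sl2_sl (n : ℕ) (hn : 2 ≤ n) :
    ∃ φ : SpecialLinearGroup (Fin 2) F →* SpecialLinearGroup (Fin n) F, Function.Injective φ := by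
  obtain ⟨e⟩ : Nonempty (Fin 2 ⊕ Fin (n - 2) ≃ Fin n) :=
    ⟨Fintype.equivOfCardEq (by simp; omega)⟩
  refine ⟨(slReindex e).comp (slSum _ _), ?_⟩
  exact (slReindex_injective e).comp (slSum_injective _ _)

/-- even permutations as matrices of determinant one -/
def altSL (n : ℕ) : alternatingGroup (Fin n) →* SpecialLinearGroup (Fin n) F where
  toFun σ := ⟨permMatrixHom (R := F) σ.1, by
    have := σ.2
    rw [Equiv.Perm.mem_alternatingGroup] at this
    rw [permMatrixHom_apply, det_permutation, Equiv.Perm.sign_inv, this]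
    simp⟩
  map_one' := by
    apply Subtype.ext
    simp
  map_mul' σ τ := by
    apply Subtype.ext
    change permMatrixHom (R := F) (σ.1 * τ.1) = permMatrixHom (R := F) σ.1 * permMatrixHom τ.1
    rw [map_mul]

theorem altSL_injective (n : ℕ) : Function.Injective (altSL (F := F) n) := by
  intro σ τ h
  have h1 : (σ.1⁻¹).permMatrix F = (τ.1⁻¹).permMatrix F := congrArg Subtype.val h
  apply Subtype.ext
  have h2 : σ.1⁻¹ = τ.1⁻¹ := by
    ext i
    have h3 := congrFun (congrArg (fun M => M *ᵥ (fun j => if j = σ.1⁻¹ i then (1 : F) else 0)) h1) i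
    simp only [permMatrix_mulVec, Function.comp_apply, if_true] at h3
    by_contra hne
    have hne' : τ.1⁻¹ i ≠ σ.1⁻¹ i := fun h => hne (congrArg Fin.val h.symm)
    rw [if_neg hne'] at h3
    exact one_ne_zero h3
  exact inv_injective h2

/-- `A ↦ diag(A, A⁻ᵀ)` -/
def dbl (m : ℕ) : SpecialLinearGroup (Fin m) F →* Matrix (Fin m ⊕ Fin m) (Fin m ⊕ Fin m) F where
  toFun A := fromBlocks A.1 0 0 ((A⁻¹).1)ᵀ
  map_one' := by
    simp
  map_mul' A B := by
    rw [fromBlocks_multiply]
    simp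

theorem dbl_injective (m : ℕ) : Function.Injective (dbl (F := F) m) := by
  intro A B h
  have h2 : fromBlocks A.1 0 0 ((A⁻¹).1)ᵀ = fromBlocks B.1 0 0 ((B⁻¹).1)ᵀ := h
  rw [fromBlocks_inj] at h2
  exact Subtype.ext h2.1

theorem inv_mul_self' (m : ℕ) (A : SpecialLinearGroup (Fin m) F) : (A⁻¹).1 * A.1 = 1 := by
  have h1 : A⁻¹ * A = 1 := inv_mul_cancel A
  exact congrArg Subtype.val h1

theorem dbl_mem_symplectic (m : ℕ) (A : SpecialLinearGroup (Fin m) F) :
    dbl m A ∈ symplecticGroup (Fin m) F := by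
  have h2 := inv_mul_self' m A
  have h3 : (A.1)ᵀ * ((A⁻¹).1)ᵀ = 1 := by
    rw [← transpose_mul, h2, transpose_one]
  change fromBlocks A.1 0 0 ((A⁻¹).1)ᵀ ∈ _
  rw [SymplecticGroup.fromBlocks_mem_iff]
  simp only [mul_zero, transpose_zero, zero_mul, sub_zero]
  exact ⟨trivial, trivial, h3⟩

theorem dbl_dot (m : ℕ) (A : SpecialLinearGroup (Fin m) F) (v : Fin m ⊕ Fin m → F) :
    ∑ i, (dbl m A *ᵥ v) (Sum.inl i) * (dbl m A *ᵥ v) (Sum.inr i) =
      ∑ i, v (Sum.inl i) * v (Sum.inr i) := by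
  have h2 := inv_mul_self' m A
  have h1 : ∀ i, (dbl m A *ᵥ v) (Sum.inl i) = (A.1 *ᵥ (fun j => v (Sum.inl j))) i := by
    intro i
    change (fromBlocks A.1 0 0 ((A⁻¹).1)ᵀ *ᵥ v) (Sum.inl i) = _
    rw [fromBlocks_mulVec]
    simp [Function.comp_def]
  have h3 : ∀ i, (dbl m A *ᵥ v) (Sum.inr i) = (((A⁻¹).1)ᵀ *ᵥ (fun j => v (Sum.inr j))) i := by
    intro i
    change (fromBlocks A.1 0 0 ((A⁻¹).1)ᵀ *ᵥ v) (Sum.inr i) = _
    rw [fromBlocks_mulVec]
    simp [Function.comp_def]
  simp only [h1, h3]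
  change (A.1 *ᵥ (fun j => v (Sum.inl j))) ⬝ᵥ (((A⁻¹).1)ᵀ *ᵥ (fun j => v (Sum.inr j))) =
    (fun j => v (Sum.inl j)) ⬝ᵥ (fun j => v (Sum.inr j))
  rw [Matrix.dotProduct_mulVec, Matrix.vecMul_transpose, Matrix.mulVec_mulVec, h2,
    Matrix.one_mulVec]

end emb

end H44.Laws
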