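import Cfsg.Agent.Lib.H44.LawsSU

set_option autoImplicit false

open Matrix Cfsg H44.Laws H44.LawsSU
open scoped MatrixGroups

namespace H44.LawsClassical

/-! ### cardinality bounds -/

theorem card_quot_le {H : Type*} [Group H] [Finite H] (Z : Subgroup H) :
    Nat.card (H ⧸ Z) ≤ Nat.card H :=
  Nat.card_le_card_of_surjective _ (QuotientGroup.mk_surjective)

theorem card_matrix {F : Type*} [Fintype F] (ι : Type*) [Fintype ι] [DecidableEq ι] :
    Nat.card (Matrix ι ι F) = Fintype.card F ^ (Fintype.card ι * Fintype.card ι) := by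
  rw [Nat.card_eq_fintype_card]
  change Fintype.card (ι → ι → F) = _
  rw [Fintype.card_fun, Fintype.card_fun, ← pow_mul]

/-- bound for the order of a central quotient of a matrix group -/
theorem card_bound {F : Type*} [Fintype F] (ι : Type*) [Fintype ι] [DecidableEq ι]
    {H : Type*} [Group H] (Z : Subgroup H) (f : H → Matrix ι ι F) (hf : Function.Injective f)
    {G : Type*} (e : G ≃ H ⧸ Z) (Q M : ℕ) (hQ : Fintype.card F ≤ Q) (hQ1 : 1 ≤ Q)
    (hM : Fintype.card ι ≤ M) : Nat.card G ≤ Q ^ (M * M) := by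
  have : Finite H := Finite.of_injective f hf
  rw [Nat.card_congr e]
  refine (card_quot_le Z).trans ((Nat.card_le_card_of_injective f hf).trans ?_)
  rw [card_matrix]
  exact (Nat.pow_le_pow_left hQ _).trans (Nat.pow_le_pow_right hQ1 (Nat.mul_le_mul hM hM))

/-! ### maps to the commutator subgroup -/

theorem exists_hom_commutator {H G : Type*} [Group H] [Group G] (hH : commutator H = ⊤)
    (φ : H →* G) (hφ : Function.Injective φ) :
    ∃ ψ : H →* commutator G, Function.Injective ψ := by
  have h1 : ∀ h, φ h ∈ commutator G := by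
    intro h
    have h2 : h ∈ commutator H := by rw [hH]; exact Subgroup.mem_top h
    have h3 : (commutator H).map φ ≤ commutator G := by
      rw [commutator_def, Subgroup.map_commutator, commutator_def]
      exact Subgroup.commutator_mono le_top le_top
    exact h3 (Subgroup.mem_map_of_mem φ h2)
  refine ⟨φ.codRestrict _ h1, fun a b hab => hφ (congrArg Subtype.val hab)⟩

theorem sl2_perfect (F : Type*) [Field F] [Fintype F] (hF : 4 ≤ Fintype.card F) :
    commutator (SpecialLinearGroup (Fin 2) F) = ⊤ := by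
  classical
  have : ∃ a : F, a ∉ ({0, 1, -1} : Finset F) := by
    by_contra hcon
    push Not at hcon
    have h1 : (Finset.univ : Finset F) ⊆ {0, 1, -1} := fun a _ => hcon a
    have h2 := Finset.card_le_card h1
    rw [Finset.card_univ] at h2
    have h3 : ({0, 1, -1} : Finset F).card ≤ 3 := Finset.card_le_three
    omega
  obtain ⟨a, ha⟩ := this
  simp only [Finset.mem_insert, Finset.mem_singleton, not_or] at ha
  refine Matrix.SL2.commutator_eq_top ha.1 (fun h => ?_)
  rcases (sq_eq_one_iff (a := a)).mp h with h | h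
  · exact ha.2.1 h
  · exact ha.2.2 h

theorem alt_perfect (n : ℕ) (hn : 5 ≤ n) : commutator (alternatingGroup (Fin n)) = ⊤ :=
  commutator_alternatingGroup_eq_top (by simpa using hn)

/-! ### embeddings of `SL_m` in the isometry groups -/

section isom

variable {F : Type*} [Field F]

theorem exists_hom_isometry {S : Type*} [Group S] {ι : Type} [Fintype ι] [DecidableEq ι]
    (Q : (ι → F) → F) (D : S →* Matrix ι ι F) (hD : Function.Injective D)
    (hQ : ∀ A v, Q (D A *ᵥ v) = Q v) :
    ∃ ψ : S →* isometryGroup F Q, Function.Injective ψ := by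
  have h1 : ∀ A, D.toHomUnits A ∈ isometryGroup F Q := by
    intro A u v
    exact hQ A u
  refine ⟨D.toHomUnits.codRestrict _ h1, fun a b hab => hD ?_⟩
  have h2 : D.toHomUnits a = D.toHomUnits b := congrArg Subtype.val hab
  exact congrArg Units.val h2

/-- pad on the left with an identity block -/
def padL {S : Type*} [Group S] (α : Type*) [Fintype α] [DecidableEq α] {β : Type*} [Fintype β]
    [DecidableEq β] (D : S →* Matrix β β F) : S →* Matrix (α ⊕ β) (α ⊕ β) F where
  toFun A := fromBlocks 1 0 0 (D A)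
  map_one' := by rw [map_one]; exact fromBlocks_one
  map_mul' A B := by rw [fromBlocks_multiply, map_mul]; simp

/-- pad on the right with an identity block -/
def padR {S : Type*} [Group S] (α : Type*) [Fintype α] [DecidableEq α] {β : Type*} [Fintype β]
    [DecidableEq β] (D : S →* Matrix β β F) : S →* Matrix (β ⊕ α) (β ⊕ α) F where
  toFun A := fromBlocks (D A) 0 0 1
  map_one' := by rw [map_one]; exact fromBlocks_one
  map_mul' A B := by rw [fromBlocks_multiply, map_mul]; simp

theorem padL_injective {S : Type*} [Group S] (α : Type*) [Fintype α] [DecidableEq α] {β : Type*}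
    [Fintype β] [DecidableEq β] (D : S →* Matrix β β F) (hD : Function.Injective D) :
    Function.Injective (padL α D) := by
  intro a b h
  have h1 : fromBlocks (1 : Matrix α α F) 0 0 (D a) = fromBlocks 1 0 0 (D b) := h
  exact hD (fromBlocks_inj.mp h1).2.2.2

theorem padR_injective {S : Type*} [Group S] (α : Type*) [Fintype α] [DecidableEq α] {β : Type*}
    [Fintype β] [DecidableEq β] (D : S →* Matrix β β F) (hD : Function.Injective D) :
    Function.Injective (padR α D) := by
  intro a b h
  have h1 : fromBlocks (D a) 0 0 (1 : Matrix α α F) = fromBlocks (D b) 0 0 1 := h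
  exact hD (fromBlocks_inj.mp h1).1

theorem isom_plus (m : ℕ) : ∃ ψ : SpecialLinearGroup (Fin m) F →* isometryGroup F (quadFormPlus m F),
    Function.Injective ψ := by
  refine exists_hom_isometry _ (dbl m) (dbl_injective m) (fun A v => ?_)
  exact dbl_dot m A v

theorem isom_odd (m : ℕ) : ∃ ψ : SpecialLinearGroup (Fin m) F →* isometryGroup F (quadFormOdd m F),
    Function.Injective ψ := by
  refine exists_hom_isometry _ (padL Unit (dbl m)) (padL_injective _ _ (dbl_injective m))
    (fun A v => ?_)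
  have h1 : padL Unit (dbl m) A *ᵥ v = Sum.elim (v ∘ Sum.inl) (dbl m A *ᵥ (v ∘ Sum.inr)) := by
    change fromBlocks 1 0 0 (dbl m A) *ᵥ v = _
    rw [fromBlocks_mulVec]
    simp
  rw [quadFormOdd, quadFormOdd, h1]
  simp only [Sum.elim_inl, Sum.elim_inr, Function.comp_apply]
  rw [dbl_dot m A (v ∘ Sum.inr)]
  rfl

theorem isom_minus (m : ℕ) (a b : F) : ∃ ψ : SpecialLinearGroup (Fin m) F →*
    isometryGroup F (quadFormMinus m F a b), Function.Injective ψ := by
  refine exists_hom_isometry _ (padR (Fin 2) (dbl m)) (padR_injective _ _ (dbl_injective m))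
    (fun A v => ?_)
  have h1 : padR (Fin 2) (dbl m) A *ᵥ v = Sum.elim (dbl m A *ᵥ (v ∘ Sum.inl)) (v ∘ Sum.inr) := by
    change fromBlocks (dbl m A) 0 0 1 *ᵥ v = _
    rw [fromBlocks_mulVec]
    simp
  rw [quadFormMinus, quadFormMinus, h1]
  simp only [Sum.elim_inl, Sum.elim_inr, Function.comp_apply]
  rw [dbl_dot m A (v ∘ Sum.inl)]
  rfl

theorem symp (m : ℕ) : ∃ ψ : SpecialLinearGroup (Fin m) F →* symplecticGroup (Fin m) F,
    Function.Injective ψ := by
  refine ⟨{ toFun := fun A => ⟨dbl m A, dbl_mem_symplectic m A⟩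
            map_one' := Subtype.ext (map_one (dbl m))
            map_mul' := fun A B => Subtype.ext (map_mul (dbl m) A B) }, fun a b hab => ?_⟩
  exact dbl_injective m (congrArg Subtype.val hab)

end isom

/-! ### the main theorem -/

theorem main (w : FreeGroup ℕ) (hw : w ≠ 1) :
    ∃ N : ℕ, ∀ (G : Type*) [Group G] [Finite G],
      (Cfsg.IsAlternating G ∨ Cfsg.IsPSL G ∨ Cfsg.IsPSp G ∨ Cfsg.IsPSU G ∨ Cfsg.IsPOmegaOdd G ∨
          Cfsg.IsPOmegaPlus G ∨ Cfsg.IsPOmegaMinus G) →
      (∀ f : ℕ → G, FreeGroup.lift f w = 1) → Nat.card G ≤ N := by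
  obtain ⟨w', hw', hcw⟩ := exists_center_word w hw
  obtain ⟨N1, hN1⟩ := not_law_SL2 w' hw'
  obtain ⟨M1, hM1⟩ := not_law_alt w' hw'
  obtain ⟨M2, hM2⟩ := not_law_alt w hw
  obtain ⟨N2, hN2⟩ := not_law_SU w' hw'
  set Q := max (max 4 N1) (N2 ^ 2 + 1) with hQ
  set M := 2 * (max (max 5 M1) M2) + 3 with hM
  have hQ1 : 1 ≤ Q := by omega
  -- key facts about SL_m
  have keyM : ∀ (F : Type) [Field F] [Fintype F] (m : ℕ),
      Law w' (SpecialLinearGroup (Fin m) F) → m < M1 := by
    intro F _ _ m hL
    by_contra hcon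
    exact hM1 m (not_lt.mp hcon) (hL.of_injective (altSL m) (altSL_injective m))
  have keyQ : ∀ (F : Type) [Field F] [Fintype F] (m : ℕ), 2 ≤ m →
      Law w' (SpecialLinearGroup (Fin m) F) → Fintype.card F < N1 := by
    intro F _ _ m hm hL
    by_contra hcon
    obtain ⟨φ, hφ⟩ := exists_sl2_sl (F := F) m hm
    exact hN1 F (not_lt.mp hcon) (hL.of_injective φ hφ)
  -- the orthogonal version
  have keyM' : ∀ (F : Type) [Field F] [Fintype F] (m : ℕ) (X : Type) [Group X]
      (ψ : SpecialLinearGroup (Fin m) F →* X), Function.Injective ψ →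
      Law w' (commutator X) → m < max 5 M1 := by
    intro F _ _ m X _ ψ hψ hL
    by_contra hcon
    have hcon' := not_lt.mp hcon
    obtain ⟨χ, hχ⟩ := exists_hom_commutator (alt_perfect m ((le_max_left _ _).trans hcon'))
      (ψ.comp (altSL m)) (hψ.comp (altSL_injective m))
    exact hM1 m ((le_max_right _ _).trans hcon') (hL.of_injective χ hχ)
  have keyQ' : ∀ (F : Type) [Field F] [Fintype F] (m : ℕ) (X : Type) [Group X]
      (ψ : SpecialLinearGroup (Fin m) F →* X), Function.Injective ψ → 2 ≤ m →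
      Law w' (commutator X) → Fintype.card F < max 4 N1 := by
    intro F _ _ m X _ ψ hψ hm hL
    by_contra hcon
    have hcon' := not_lt.mp hcon
    obtain ⟨φ, hφ⟩ := exists_sl2_sl (F := F) m hm
    obtain ⟨χ, hχ⟩ := exists_hom_commutator (sl2_perfect F ((le_max_left _ _).trans hcon'))
      (ψ.comp φ) (hψ.comp hφ)
    exact hN1 F ((le_max_right _ _).trans hcon') (hL.of_injective χ hχ)
  refine ⟨max (M2.factorial) (Q ^ (M * M)), fun G _ _ hG hLG => ?_⟩
  have hLG' : Law w G := hLG
  rcases hG with hG | hG | hG | hG | hG | hG | hG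
  · -- alternating
    obtain ⟨n, hn, ⟨e⟩⟩ := hG
    have h1 : Law w (alternatingGroup (Fin n)) := hLG'.of_surjective e.toMonoidHom e.surjective
    have h2 : n < M2 := by
      by_contra hcon
      exact hM2 n (not_lt.mp hcon) h1
    refine le_trans ?_ (le_max_left _ _)
    rw [Nat.card_congr e.toEquiv]
    refine (Subgroup.card_le_card_group (alternatingGroup (Fin n))).trans ?_
    rw [Nat.card_eq_fintype_card, Fintype.card_perm, Fintype.card_fin]
    exact Nat.factorial_le h2.le
  all_goals refine le_trans ?_ (le_max_right _ _)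
  · obtain ⟨F, _, _, n, hn, _, ⟨e⟩⟩ := hG
    have h1 : Law w' (SpecialLinearGroup (Fin n) F) :=
      hcw _ (hLG'.of_surjective e.toMonoidHom e.surjective)
    have h2 := keyM F n h1
    have h3 := keyQ F n hn h1
    exact card_bound (Fin n) _ (fun A : SpecialLinearGroup (Fin n) F => A.1) Subtype.val_injective
      e.toEquiv Q M (by omega) hQ1 (by rw [Fintype.card_fin]; omega)
  · obtain ⟨F, _, _, m, hm, _, ⟨e⟩⟩ := hG
    have h0 : Law w' (symplecticGroup (Fin m) F) :=
      hcw _ (hLG'.of_surjective e.toMonoidHom e.surjective)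
    obtain ⟨ψ, hψ⟩ := symp (F := F) m
    have h1 := h0.of_injective ψ hψ
    have h2 := keyM F m h1
    have h3 := keyQ F m hm h1
    exact card_bound (Fin m ⊕ Fin m) _ (fun A : symplecticGroup (Fin m) F => A.1)
      Subtype.val_injective e.toEquiv Q M (by omega) hQ1
      (by rw [Fintype.card_sum, Fintype.card_fin]; omega)
  · obtain ⟨F, _, _, n, q, hF, hn, _, ⟨e⟩⟩ := hG
    have h0 : Law w' (SU n F q) := hcw _ (hLG'.of_surjective e.toMonoidHom e.surjective)
    have h2 : n < M1 := by
      by_contra hcon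
      refine hM1 n (not_lt.mp hcon) (h0.of_injective
        ((altSL (F := F) n).codRestrict _ (altSL_mem_SU n q)) (fun a b hab => ?_))
      exact altSL_injective n (congrArg Subtype.val hab)
    have h3 : q < N2 := by
      by_contra hcon
      exact hN2 F n q hF (by omega) (not_lt.mp hcon) h0
    have h4 : Fintype.card F ≤ Q := by
      rw [hF]
      have : q ^ 2 ≤ N2 ^ 2 := Nat.pow_le_pow_left h3.le 2
      omega
    exact card_bound (Fin n) _ (fun A : SU n F q => A.1.1)
      (fun a b hab => Subtype.ext (Subtype.ext hab))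
      e.toEquiv Q M h4 hQ1 (by rw [Fintype.card_fin]; omega)
  · obtain ⟨F, _, _, m, hm, _, ⟨e⟩⟩ := hG
    have h0 : Law w' (Omega F (quadFormOdd m F)) :=
      hcw _ (hLG'.of_surjective e.toMonoidHom e.surjective)
    obtain ⟨ψ, hψ⟩ := isom_odd (F := F) m
    have h2 := keyM' F m _ ψ hψ h0
    have h3 := keyQ' F m _ ψ hψ (by omega) h0
    exact card_bound (Unit ⊕ (Fin m ⊕ Fin m)) _ (fun A : Omega F (quadFormOdd m F) => A.1.1.1)
      (fun a b hab => Subtype.ext (Subtype.ext (Units.ext hab)))
      e.toEquiv Q M (by omega) hQ1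
      (by rw [Fintype.card_sum, Fintype.card_sum, Fintype.card_fin, Fintype.card_unit]; omega)
  · obtain ⟨F, _, _, m, hm, ⟨e⟩⟩ := hG
    have h0 : Law w' (Omega F (quadFormPlus m F)) :=
      hcw _ (hLG'.of_surjective e.toMonoidHom e.surjective)
    obtain ⟨ψ, hψ⟩ := isom_plus (F := F) m
    have h2 := keyM' F m _ ψ hψ h0
    have h3 := keyQ' F m _ ψ hψ (by omega) h0
    exact card_bound (Fin m ⊕ Fin m) _ (fun A : Omega F (quadFormPlus m F) => A.1.1.1)
      (fun a b hab => Subtype.ext (Subtype.ext (Units.ext hab)))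
      e.toEquiv Q M (by omega) hQ1
      (by rw [Fintype.card_sum, Fintype.card_fin]; omega)
  · obtain ⟨F, _, _, m, a, b, hm, _, ⟨e⟩⟩ := hG
    have h0 : Law w' (Omega F (quadFormMinus (m - 1) F a b)) :=
      hcw _ (hLG'.of_surjective e.toMonoidHom e.surjective)
    obtain ⟨ψ, hψ⟩ := isom_minus (F := F) (m - 1) a b
    have h2 := keyM' F (m - 1) _ ψ hψ h0
    have h3 := keyQ' F (m - 1) _ ψ hψ (by omega) h0
    exact card_bound ((Fin (m - 1) ⊕ Fin (m - 1)) ⊕ Fin 2) _
      (fun A : Omega F (quadFormMinus (m - 1) F a b) => A.1.1.1)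
      (fun a b hab => Subtype.ext (Subtype.ext (Units.ext hab)))
      e.toEquiv Q M (by omega) hQ1
      (by rw [Fintype.card_sum, Fintype.card_sum, Fintype.card_fin, Fintype.card_fin]; omega)

end H44.LawsClassical
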