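import Cfsg.Agent.Lib.H44.Laws
import Cfsg.Agent.Lib.H44.UField

set_option autoImplicit false

open Polynomial Matrix Cfsg H44.WordPSL H44.Laws
open scoped MatrixGroups

namespace H44.LawsSU

/-- refined version of `exists_SL_not_scalar` with prescribed sets of parameters -/
theorem exists_hSL_not_scalar (w : FreeGroup ℕ) (hw : w ≠ 1) :
    ∃ N : ℕ, ∀ (F : Type*) [Field F] (S T : Finset F), N ≤ S.card → N ≤ T.card → (∀ t ∈ T, t ≠ 0) →
      ∃ (c d : ℕ → F) (s : F) (hs : s ≠ 0) (hcd : ∀ i, c i ≠ d i), s ∈ T ∧ (∀ i, c i ∈ S) ∧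
        (∀ i, d i ∈ S) ∧ ∀ r : F, (FreeGroup.lift (fun i => hSL (c i) (d i) s (hcd i) hs) w :
          Matrix.SpecialLinearGroup (Fin 2) F).1 ≠ r • 1 := by
  obtain ⟨k, hk⟩ := exists_bound w.toWord
  refine ⟨2 * (k + 1) + 2 * w.toWord.length + 2, fun F _ S T hS hT hT0 => ?_⟩
  classical
  obtain ⟨e⟩ : Nonempty (Fin (2 * (k + 1)) ↪ S) := by
    apply Function.Embedding.nonempty_of_card_le
    rw [Fintype.card_fin, Fintype.card_coe]; omega
  let c : ℕ → F := fun i => e ⟨2 * (min i k), by omega⟩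
  let d : ℕ → F := fun i => e ⟨2 * (min i k) + 1, by omega⟩
  have hcd : ∀ i, c i ≠ d i := by
    intro i h
    have := e.injective (Subtype.ext h)
    simp [Fin.ext_iff] at this
  let A : ℕ × Bool → Matrix (Fin 2) (Fin 2) F[X] := fun a => polyA (c a.1) (d a.1) a.2
  have key := H44.WordPoly.exists_eval_not_scalar A 2 (fun a => uVec (c a.1) (d a.1) a.2)
    (fun a => vVec (c a.1) (d a.1) a.2) (fun a => polyA_deg _ _ _) (fun a => polyA_lead _ _ _)
    (fun a b => a.1 = b.1 → a.2 = b.2) (fun a => a.1 < k) (by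
      rintro ⟨i, a⟩ ⟨j, b⟩ hi hj hR
      simp only at hi hj hR ⊢
      rw [dot_eq]
      have h1 : (c i - d i)⁻¹ ≠ 0 := inv_ne_zero (sub_ne_zero.mpr (hcd i))
      refine mul_ne_zero (mul_ne_zero h1 (by cases a <;> simp)) (sub_ne_zero.mpr ?_)
      have hi' : min i k = i := min_eq_left hi.le
      have hj' : min j k = j := min_eq_left hj.le
      have hinj : ∀ x y : Fin (2 * (k + 1)), (e x : F) = e y → x = y := fun x y h =>
        e.injective (Subtype.ext h)
      by_cases hij : i = j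
      · subst hij
        obtain rfl := hR rfl
        cases a <;> simp only [c, d] <;> intro h2 <;> have h3 := hinj _ _ h2 <;>
          simp [Fin.ext_iff] at h3
      · cases a <;> cases b <;> simp only [c, d] <;> intro h2 <;> have h3 := hinj _ _ h2 <;>
          simp only [Fin.mk.injEq, hi', hj'] at h3 <;> omega)
    (fun a _ => uVec_ne _ _ _) (fun a _ => vVec_ne _ _ (hcd _) _) w.toWord
    (by rwa [Ne, FreeGroup.toWord_eq_nil_iff]) FreeGroup.isReduced_toWord hk
    T (by omega)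
  obtain ⟨s, hs, hs2⟩ := key
  have hs0 : s ≠ 0 := hT0 s hs
  refine ⟨c, d, s, hs0, hcd, hs, fun i => (e _).2, fun i => (e _).2, fun r hr => ?_⟩
  apply hs2 (s ^ w.toWord.length * r)
  have hl : ∀ L : List (ℕ × Bool), (L.map (fun a => (A a).map (Polynomial.eval s))).prod =
      s ^ L.length • ((L.map fun x => cond x.2 (hSL (c x.1) (d x.1) s (hcd x.1) hs0)
        (hSL (c x.1) (d x.1) s (hcd x.1) hs0)⁻¹).prod : Matrix.SpecialLinearGroup (Fin 2) F).1 := by
    intro L
    induction L with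
    | nil => simp
    | cons a L ih =>
      rw [List.map_cons, List.prod_cons, ih, List.map_cons, List.prod_cons, List.length_cons,
        Matrix.SpecialLinearGroup.coe_mul]
      obtain ⟨i, b⟩ := a
      have h3 : (A (i, b)).map (Polynomial.eval s) = s • (cond b (hSL (c i) (d i) s (hcd i) hs0)
          (hSL (c i) (d i) s (hcd i) hs0)⁻¹ : Matrix.SpecialLinearGroup (Fin 2) F).1 := by
        cases b
        · exact polyA_eval_false (c i) (d i) s (hcd i) hs0
        · exact polyA_eval_true (c i) (d i) s (hcd i) hs0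
      rw [h3, Matrix.smul_mul, Matrix.mul_smul, smul_smul, pow_succ']
  rw [hl]
  have hw2 : FreeGroup.lift (fun i => hSL (c i) (d i) s (hcd i) hs0) w =
      (w.toWord.map fun x => cond x.2 (hSL (c x.1) (d x.1) s (hcd x.1) hs0)
        (hSL (c x.1) (d x.1) s (hcd x.1) hs0)⁻¹).prod := by
    conv_lhs => rw [← FreeGroup.mk_toWord (x := w)]
    rw [FreeGroup.lift_mk]
  rw [← hw2, hr, smul_smul]

variable {F : Type*} [Field F] [Fintype F] {q : ℕ}

/-- the hermitian form over an arbitrary finite index type -/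
def herm {ι : Type*} [Fintype ι] (q : ℕ) (u v : ι → F) : F := ∑ i, u i * (v i) ^ q

/-- matrices whose columns are orthonormal preserve the form -/
theorem herm_of_cols (hF : Fintype.card F = q ^ 2) {ι : Type*} [Fintype ι] [DecidableEq ι]
    (M : Matrix ι ι F) (h : ∀ j k, ∑ i, M i j * (M i k) ^ q = if j = k then 1 else 0)
    (u v : ι → F) : herm q (M *ᵥ u) (M *ᵥ v) = herm q u v := by
  simp only [herm, mulVec, dotProduct, UField.sum_pow hF]
  have h1 : ∀ i, (∑ j, M i j * u j) * ∑ k, (M i k * v k) ^ q =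
      ∑ j, ∑ k, (u j * v k ^ q) * (M i j * M i k ^ q) := by
    intro i
    rw [Finset.sum_mul_sum]
    refine Finset.sum_congr rfl (fun j _ => Finset.sum_congr rfl (fun k _ => ?_))
    rw [mul_pow]; ring
  simp only [h1]
  rw [Finset.sum_comm]
  refine Finset.sum_congr rfl (fun j _ => ?_)
  rw [Finset.sum_comm]
  have h2 : ∀ k, ∑ i, (u j * v k ^ q) * (M i j * M i k ^ q) =
      (u j * v k ^ q) * (if j = k then 1 else 0) := by
    intro k
    rw [← Finset.mul_sum, h]
  simp only [h2]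
  simp

theorem hSL_cols (hF : Fintype.card F = q ^ 2) (c d s : F) (hcd : c ≠ d) (hs : s ≠ 0)
    (hc : c ^ (q + 1) = -1) (hd : d ^ (q + 1) = -1) (hsq : s ^ q = s) :
    ∀ j k, ∑ i, (hSL c d s hcd hs).1 i j * ((hSL c d s hcd hs).1 i k) ^ q =
      if j = k then 1 else 0 := by
  have hcd' : c - d ≠ 0 := sub_ne_zero.mpr hcd
  have hcdq : c ^ q - d ^ q ≠ 0 := by
    rw [← UField.sub_pow hF]
    exact pow_ne_zero _ hcd'
  have hsinv : (s⁻¹) ^ q = s⁻¹ := by rw [inv_pow, hsq]
  have h1 : c ^ q * c = -1 := by rw [← pow_succ]; exact hc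
  have h2 : d ^ q * d = -1 := by rw [← pow_succ]; exact hd
  have e00 : (hSL c d s hcd hs).1 0 0 = (c - d)⁻¹ * (c * s - d * s⁻¹) := rfl
  have e01 : (hSL c d s hcd hs).1 0 1 = (c - d)⁻¹ * (c * d * s⁻¹ - c * d * s) := rfl
  have e10 : (hSL c d s hcd hs).1 1 0 = (c - d)⁻¹ * (s - s⁻¹) := rfl
  have e11 : (hSL c d s hcd hs).1 1 1 = (c - d)⁻¹ * (c * s⁻¹ - d * s) := rfl
  have p00 : ((hSL c d s hcd hs).1 0 0) ^ q = (c ^ q - d ^ q)⁻¹ * (c ^ q * s - d ^ q * s⁻¹) := by
    rw [e00, mul_pow, inv_pow, UField.sub_pow hF, UField.sub_pow hF, mul_pow, mul_pow, hsq, hsinv]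
  have p01 : ((hSL c d s hcd hs).1 0 1) ^ q =
      (c ^ q - d ^ q)⁻¹ * (c ^ q * d ^ q * s⁻¹ - c ^ q * d ^ q * s) := by
    rw [e01, mul_pow, inv_pow, UField.sub_pow hF, UField.sub_pow hF, mul_pow (c * d),
      mul_pow (c * d), hsinv, mul_pow, hsq]
  have p10 : ((hSL c d s hcd hs).1 1 0) ^ q = (c ^ q - d ^ q)⁻¹ * (s - s⁻¹) := by
    rw [e10, mul_pow, inv_pow, UField.sub_pow hF, UField.sub_pow hF, hsq, hsinv]
  have p11 : ((hSL c d s hcd hs).1 1 1) ^ q = (c ^ q - d ^ q)⁻¹ * (c ^ q * s⁻¹ - d ^ q * s) := by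
    rw [e11, mul_pow, inv_pow, UField.sub_pow hF, UField.sub_pow hF, mul_pow, mul_pow, hsq, hsinv]
  generalize c ^ q = c' at *
  generalize d ^ q = d' at *
  have hc0 : c ≠ 0 := by
    rintro rfl
    simp at h1
  have hd0 : d ≠ 0 := by
    rintro rfl
    simp at h2
  have hc' : c' = -c⁻¹ := by
    field_simp; exact h1
  have hd' : d' = -d⁻¹ := by
    field_simp; exact h2
  subst hc'
  subst hd'
  have h5 : -c⁻¹ - -d⁻¹ = (c - d) / (c * d) := by field_simp; ring
  rw [h5] at p00 p01 p10 p11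
  intro j k
  rw [Fin.sum_univ_two]
  fin_cases j <;> fin_cases k <;>
    simp only [Fin.zero_eta, Fin.mk_one, Fin.isValue, p00, p01, p10, p11,
      if_true, zero_ne_one, one_ne_zero, if_false] <;> simp only [e00, e01, e10, e11] <;>
    field_simp <;> ring

theorem block_cols (hF : Fintype.card F = q ^ 2) {α β : Type*} [Fintype α] [DecidableEq α]
    [Fintype β] [DecidableEq β] (A : Matrix α α F)
    (h : ∀ j k, ∑ i, A i j * (A i k) ^ q = if j = k then 1 else 0) (j k : α ⊕ β) :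
    ∑ i, (fromBlocks A 0 0 (1 : Matrix β β F)) i j * ((fromBlocks A 0 0 1) i k) ^ q =
      if j = k then 1 else 0 := by
  have h0 : (0 : F) ^ q = 0 := zero_pow (by have := UField.two_le hF; omega)
  rw [Fintype.sum_sum_type]
  rcases j with j | j <;> rcases k with k | k
  · simp [h, h0]
  · simp [h0]
  · simp [h0]
  · simp only [fromBlocks_apply₁₂, fromBlocks_apply₂₂, Matrix.zero_apply, zero_mul,
      Finset.sum_const_zero, zero_add, Sum.inr.injEq]
    rw [Finset.sum_eq_single j]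
    · by_cases hjk : j = k
      · subst hjk; simp
      · simp [hjk, Matrix.one_apply_ne, h0]
    · intro b _ hb
      rw [Matrix.one_apply_ne hb, zero_mul]
    · intro h; exact absurd (Finset.mem_univ _) h

theorem not_law_SU (w : FreeGroup ℕ) (hw : w ≠ 1) : ∃ N : ℕ,
    ∀ (F : Type) [Field F] [Fintype F] (n q : ℕ), Fintype.card F = q ^ 2 → 2 ≤ n → N ≤ q →
      ¬ Law w (SU n F q) := by
  classical
  obtain ⟨N, hN⟩ := exists_hSL_not_scalar.{0} w hw
  refine ⟨N + 1, fun F _ _ n q hF hn hq hL => ?_⟩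
  have hm1 : ((-1 : F)) ^ q = -1 := by rw [UField.neg_pow' hF, one_pow]
  obtain ⟨c, d, s, hs, hcd, hsT, hc, hd, hne⟩ := hN F
    (Finset.univ.filter (fun x : F => x ^ (q + 1) = -1))
    (Finset.univ.filter (fun x : F => x ≠ 0 ∧ x ^ q = x))
    (by
      have := UField.card_norm_fiber hF (-1 : F) hm1 (neg_ne_zero.mpr one_ne_zero)
      omega)
    (by
      have := UField.card_fixed hF
      omega)
    (by intro t ht; exact (Finset.mem_filter.mp ht).2.1)
  simp only [Finset.mem_filter, Finset.mem_univ, true_and] at hsT hc hd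
  obtain ⟨e⟩ : Nonempty (Fin 2 ⊕ Fin (n - 2) ≃ Fin n) :=
    ⟨Fintype.equivOfCardEq (by simp; omega)⟩
  let φ : SpecialLinearGroup (Fin 2) F →* SpecialLinearGroup (Fin n) F :=
    (slReindex e).comp (slSum _ _)
  have hφ : Function.Injective φ := (slReindex_injective e).comp (slSum_injective _ _)
  have hmem : ∀ i, φ (hSL (c i) (d i) s (hcd i) hs) ∈ SU n F q := by
    intro i
    have hcols := hSL_cols hF (c i) (d i) s (hcd i) hs (hc i) (hd i) hsT.2
    intro u v
    change herm q ((φ (hSL (c i) (d i) s (hcd i) hs)).1 *ᵥ u)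
      ((φ (hSL (c i) (d i) s (hcd i) hs)).1 *ᵥ v) = herm q u v
    apply herm_of_cols hF
    intro j k
    have h1 := block_cols hF (β := Fin (n - 2)) _ hcols (e.symm j) (e.symm k)
    rw [← e.symm.sum_comp] at h1
    have h2 : (e.symm j = e.symm k) ↔ j = k := e.symm.injective.eq_iff
    simp only [h2] at h1
    exact h1
  have h3 := hL (fun i => ⟨φ (hSL (c i) (d i) s (hcd i) hs), hmem i⟩)
  have h4 := congrArg (SU n F q).subtype h3
  rw [← lift_comp, map_one] at h4
  have h5 : FreeGroup.lift (fun i => φ (hSL (c i) (d i) s (hcd i) hs)) w = 1 := h4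
  rw [lift_comp] at h5
  have h6 := hφ (h5.trans (map_one φ).symm)
  apply hne 1
  rw [h6, one_smul]
  rfl

omit [Fintype F] in
theorem altSL_mem_SU (n q : ℕ) (σ : alternatingGroup (Fin n)) : altSL (F := F) n σ ∈ SU n F q := by
  intro u v
  change herm q ((σ.1⁻¹).permMatrix F *ᵥ u) ((σ.1⁻¹).permMatrix F *ᵥ v) = herm q u v
  simp only [permMatrix_mulVec, herm, Function.comp_apply]
  exact Equiv.sum_comp (σ.1⁻¹) (fun i => u i * v i ^ q)

end H44.LawsSU
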