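import Cfsg.Agent.Lib.H44.OM14

/-! Transfer of weights to the zero weight space. -/

set_option autoImplicit false
set_option linter.unusedSectionVars false

namespace H44.OM

open Module QuadraticMap H7.Hyp H7.Omega H7.OmegaIso H7.HypStd

section grp

variable {F : Type*} [Field F] {V : Type*} [AddCommGroup V] [Module F V] {Q : QuadraticForm F V}

/-- the Weyl element exchanging the two hyperbolic planes -/
def sw (Q : QuadraticForm F V) : Om (hyp Q) :=
  ⟨E' (hyp Q) (e1 F V) * E (hyp Q) (e2 F V) * E' (hyp Q) (e1 F V),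
    (Om _).mul_mem ((Om _).mul_mem (E'_mem_Om _ _) (E_mem_Om _ _)) (E'_mem_Om _ _)⟩

theorem sw_apply (x y a b : F) (v : V) : (sw Q).1 (x, y, (a, b, v)) = (-a, -b, (x, y, v)) := by
  change E' (hyp Q) (e1 F V) (E (hyp Q) (e2 F V) (E' (hyp Q) (e1 F V) (x, y, (a, b, v)))) = _
  rw [E'_apply, E_apply, E'_apply]
  simp only [e1, e2, polar_hyp, hyp_apply, Prod.mk_add_mk,
    Prod.smul_mk, smul_eq_mul, QuadraticMap.map_zero, smul_zero, add_zero,
    QuadraticMap.polar_zero_right]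
  refine Prod.ext ?_ (Prod.ext ?_ (Prod.ext ?_ (Prod.ext ?_ ?_)))
  · simp only; ring
  · simp only; ring
  · simp only; ring
  · simp only; ring
  · simp

theorem sw_e (hQ : ND Q) (w : V) : sw Q * e (hyp Q) (0, 0, w) = l hQ (e Q w) * sw Q := by
  apply Subtype.ext
  rw [Subgroup.coe_mul, Subgroup.coe_mul]
  apply LinearEquiv.ext
  rintro ⟨x, y, a, b, v⟩
  rw [LinearEquiv.mul_apply, LinearEquiv.mul_apply]
  change (sw Q).1 (E (hyp Q) (0, 0, w) (x, y, (a, b, v))) =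
    emb (E Q w) ((sw Q).1 (x, y, (a, b, v)))
  have h1 : E (hyp Q) (0, 0, w) (x, y, (a, b, v)) =
      (x - Q w * y - polar Q v w, y, (a, b, v + y • w)) := by
    rw [E_apply]
    simp only [polar_hyp, hyp_apply, Prod.mk_add_mk, Prod.smul_mk, smul_eq_mul, mul_zero,
      zero_mul, add_zero, zero_add]
  have h2 : emb (E Q w) (-a, -b, (x, y, v)) =
      (-a, -b, (x - Q w * y - polar Q v w, y, v + y • w)) := by
    rw [emb_apply, E_apply]
  rw [h1, sw_apply, sw_apply, h2]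

theorem sw_l (hQ : ND Q) (w : V) : sw Q * l hQ (e Q w) = e (hyp Q) (0, 0, -w) * sw Q := by
  apply Subtype.ext
  rw [Subgroup.coe_mul, Subgroup.coe_mul]
  apply LinearEquiv.ext
  rintro ⟨x, y, a, b, v⟩
  rw [LinearEquiv.mul_apply, LinearEquiv.mul_apply]
  change (sw Q).1 (emb (E Q w) (x, y, (a, b, v))) =
    E (hyp Q) (0, 0, -w) ((sw Q).1 (x, y, (a, b, v)))
  have h2 : emb (E Q w) (x, y, (a, b, v)) =
      (x, y, (a - Q w * b - polar Q v w, b, v + b • w)) := by
    rw [emb_apply, E_apply]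
  have h1 : E (hyp Q) (0, 0, -w) (-a, -b, (x, y, v)) =
      (-(a - Q w * b - polar Q v w), -b, (x, y, v + b • w)) := by
    rw [E_apply]
    simp only [polar_hyp, hyp_apply, Prod.mk_add_mk, Prod.smul_mk, smul_eq_mul, mul_zero,
      zero_mul, add_zero, zero_add, QuadraticMap.map_neg, QuadraticMap.polar_neg_right]
    refine Prod.ext ?_ (Prod.ext ?_ (Prod.ext ?_ (Prod.ext ?_ ?_)))
    · simp only; ring
    · simp only
    · simp only
    · simp only
    · simp
  rw [h2, sw_apply, sw_apply, h1]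

theorem sw_r (t : F) : sw Q * e (hyp Q) (t, 0, 0) = e (hyp Q) (t, 0, 0) * sw Q := by
  apply Subtype.ext
  rw [Subgroup.coe_mul, Subgroup.coe_mul]
  apply LinearEquiv.ext
  rintro ⟨x, y, a, b, v⟩
  rw [LinearEquiv.mul_apply, LinearEquiv.mul_apply]
  change (sw Q).1 (E (hyp Q) (t, 0, 0) (x, y, (a, b, v))) =
    E (hyp Q) (t, 0, 0) ((sw Q).1 (x, y, (a, b, v)))
  have h2 : ∀ x y a b : F, ∀ v : V, E (hyp Q) (t, 0, 0) (x, y, (a, b, v)) =
      (x - b * t, y, (a + y * t, b, v)) := by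
    intro x y a b v
    rw [E_apply]
    simp only [polar_hyp, hyp_apply, Prod.mk_add_mk, Prod.smul_mk, smul_eq_mul, mul_zero,
      zero_mul, add_zero, QuadraticMap.map_zero, smul_zero, QuadraticMap.polar_zero_right,
      sub_zero]
    refine Prod.ext ?_ (Prod.ext ?_ (Prod.ext ?_ (Prod.ext ?_ ?_)))
    · simp only; ring
    · simp only
    · simp only
    · simp only
    · simp only
  rw [h2, sw_apply, sw_apply, h2]
  refine Prod.ext ?_ (Prod.ext ?_ (Prod.ext ?_ (Prod.ext ?_ ?_)))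
  · simp only; ring
  · simp only
  · simp only; ring
  · simp only
  · simp only

theorem sw_ζ (ζ : V ≃ₗ[F] V) : emb (emb ζ) * (sw Q).1 = (sw Q).1 * emb (emb ζ) := by
  apply LinearEquiv.ext
  rintro ⟨x, y, a, b, v⟩
  rw [LinearEquiv.mul_apply, LinearEquiv.mul_apply, sw_apply, emb_apply, emb_apply, emb_apply,
    emb_apply, sw_apply]

end grp

variable {F : Type*} [Field F] [Fintype F] {V : Type*} [AddCommGroup V] [Module F V] [Fintype V]
  {Q : QuadraticForm F V} {W : Type*} [AddCommGroup W] [Module ℂ W] [FiniteDimensional ℂ W]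

theorem exists_psi_ne {ψ : AddChar F ℂ} (hψ : ψ ≠ 0) : ∃ a : F, ψ a ≠ 1 := by
  by_contra hcon
  push Not at hcon
  apply hψ
  apply DFunLike.ext
  intro x
  rw [hcon x]
  rfl

theorem PP_apply_e (hQ : ND Q) {ψ : AddChar F ℂ} (ρ : Representation ℂ (Om Q) W) (y w : V)
    (ξ : W) : P ψ Q (fun w => ρ (e Q w)) y (ρ (e Q w) ξ) =
      ψ (polar Q y w) • P ψ Q (fun w => ρ (e Q w)) y ξ := by
  have h1 := P_A (ψ := ψ) (R := Q) (addF ρ) w y
  exact LinearMap.congr_fun h1 ξ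

/-- the transfer is injective -/
theorem transfer_inj (hQ : ND Q) {ψ : AddChar F ℂ} (hψ : ψ ≠ 0)
    (ρ : Representation ℂ (Om (hyp Q)) W) {y : V} (hy : y ≠ 0) {ξ : W}
    (h0 : ∀ x, ρ (e (hyp Q) x) ξ = ξ)
    (h1 : ∀ y', ρ (l hQ (e Q y')) ξ = ψ (polar Q y y') • ξ)
    (h2 : PP ψ ρ (0, 0, y) (ρ (sw Q)⁻¹ ξ) = 0) : ξ = 0 := by
  obtain ⟨a, ha⟩ := exists_psi_ne hψ
  set η := ρ (sw Q)⁻¹ ξ with hη
  have inv_rel : ∀ {g k : Om (hyp Q)}, sw Q * g = k * sw Q → g * (sw Q)⁻¹ = (sw Q)⁻¹ * k := by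
    intro g k h
    rw [mul_inv_eq_iff_eq_mul, mul_assoc, ← h, inv_mul_cancel_left]
  have app : ∀ {g k : Om (hyp Q)}, sw Q * g = k * sw Q → ρ g η = ρ (sw Q)⁻¹ (ρ k ξ) := by
    intro g k h
    have h3 : ρ (g * (sw Q)⁻¹) ξ = ρ ((sw Q)⁻¹ * k) ξ := by rw [inv_rel h]
    rw [map_mul, map_mul] at h3
    exact h3
  have ha1 : ∀ y', ρ (e (hyp Q) (0, 0, y')) η = ψ (polar Q y y') • η := by
    intro y'
    rw [app (sw_e hQ y'), h1, map_smul]
  have hb1 : ∀ t : F, ρ (e (hyp Q) (t, 0, 0)) η = η := by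
    intro t
    rw [app (sw_r t), h0]
  have hc1 : ∀ y', ρ (l hQ (e Q y')) η = η := by
    intro y'
    rw [app (sw_l hQ y'), h0]
  have key : ∀ x, PP ψ ρ x η = 0 := by
    rintro ⟨α, β, v'⟩
    by_cases hβ : β = 0
    swap
    · have h3 := PP_apply_e hQ.hyp (ψ := ψ) ρ (α, β, v') (a / β, 0, 0) η
      rw [hb1, polar_hyp] at h3
      simp only [mul_zero, zero_add, QuadraticMap.polar_zero_right, add_zero] at h3
      rw [div_mul_cancel₀ _ hβ] at h3
      have h4 : (ψ a - 1) • PP ψ ρ (α, β, v') η = 0 := by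
        rw [sub_smul, one_smul, sub_eq_zero]
        exact h3.symm
      exact (smul_eq_zero.mp h4).resolve_left (sub_ne_zero.mpr ha)
    subst hβ
    by_cases hv : v' = y
    swap
    · obtain ⟨w, hw⟩ : ∃ w, polar Q (v' - y) w ≠ 0 := by
        by_contra hcon
        push Not at hcon
        exact hv (sub_eq_zero.mp (hQ _ hcon))
      set y' := (a / polar Q (v' - y) w) • w with hy'
      have h5 : polar Q (v' - y) y' = a := by
        rw [hy', QuadraticMap.polar_smul_right, smul_eq_mul, div_mul_cancel₀ _ hw]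
      have h3 := PP_apply_e hQ.hyp (ψ := ψ) ρ (α, 0, v') (0, 0, y') η
      rw [ha1, polar_hyp, map_smul] at h3
      simp only [mul_zero, zero_mul, zero_add] at h3
      have h6 : polar Q v' y' = polar Q y y' + a := by
        rw [← h5, QuadraticMap.polar_sub_left]; ring
      rw [h6, AddChar.map_add_eq_mul] at h3
      have h4 : (ψ (polar Q y y') * (ψ a - 1)) • PP ψ ρ (α, 0, v') η = 0 := by
        rw [mul_sub, mul_one, sub_smul, sub_eq_zero]
        exact h3.symm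
      refine (smul_eq_zero.mp h4).resolve_left (mul_ne_zero ?_ (sub_ne_zero.mpr ha))
      intro h7
      have h8 : ψ (polar Q y y') * ψ (-(polar Q y y')) = 1 := by
        rw [← AddChar.map_add_eq_mul, add_neg_cancel, AddChar.map_zero_eq_one]
      rw [h7, zero_mul] at h8
      exact zero_ne_one h8
    subst hv
    obtain ⟨w, hw⟩ : ∃ w, polar Q v' w ≠ 0 := by
      by_contra hcon
      push Not at hcon
      exact hy (hQ _ hcon)
    set y' := (-α / polar Q v' w) • w with hy'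
    have h5 : polar Q v' y' = -α := by
      rw [hy', QuadraticMap.polar_smul_right, smul_eq_mul, div_mul_cancel₀ _ hw]
    have h6 := LinearMap.congr_fun (l_PP (ψ := ψ) hQ ρ (e Q y') (0, 0, v')) η
    rw [Module.End.mul_apply, Module.End.mul_apply, h2, map_zero, hc1] at h6
    have h7 : (e Q y').1 (0, 0, v') = (α, 0, v') := by
      change E Q y' (0, 0, v') = _
      rw [E_apply, h5]
      simp
    rw [h7] at h6
    exact h6.symm
  have h3 : η = 0 := by
    have h4 := LinearMap.congr_fun (sum_P hQ.hyp hψ (addF ρ)) η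
    rw [LinearMap.sum_apply] at h4
    have h5 : ∑ x, (P ψ (hyp Q) (fun w => ρ (e (hyp Q) w)) x) η = 0 :=
      Finset.sum_eq_zero (fun x _ => key x)
    exact (h4.symm.trans h5)
  have h4 : ρ (sw Q) η = ξ := by
    rw [hη, ← Module.End.mul_apply, ← map_mul, mul_inv_cancel, map_one]
    rfl
  rw [← h4, h3, map_zero]

theorem mem_range_zero (hQ : ND Q) {ψ : AddChar F ℂ} (ρ : Representation ℂ (Om (hyp Q)) W)
    {ξ : W} (hξ : ξ ∈ LinearMap.range (PP ψ ρ 0)) (x : F × F × V) : ρ (e (hyp Q) x) ξ = ξ := by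
  obtain ⟨z, rfl⟩ := hξ
  have h1 := LinearMap.congr_fun (A_P (ψ := ψ) (R := hyp Q) (addF ρ) x 0) z
  rw [QuadraticMap.polar_zero_left, AddChar.map_zero_eq_one, one_smul] at h1
  exact h1

theorem Z_apply (hQ : ND Q) (ψ : AddChar F ℂ) (ρ : Representation ℂ (Om (hyp Q)) W)
    (k : Om Q) (ξ : LinearMap.range (PP ψ ρ 0)) : ((Z hQ ψ ρ k ξ : LinearMap.range (PP ψ ρ 0)) : W) =
      ρ (l hQ k) ξ := rfl

theorem mem_range_y (hQ : ND Q) {ψ : AddChar F ℂ} (ρ : Representation ℂ (Om (hyp Q)) W)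
    {y : V} {ξ : LinearMap.range (PP ψ ρ 0)}
    (hξ : ξ ∈ LinearMap.range (P ψ Q (fun w => Z hQ ψ ρ (e Q w)) y)) (y' : V) :
    ρ (l hQ (e Q y')) (ξ : W) = ψ (polar Q y y') • (ξ : W) := by
  obtain ⟨z, rfl⟩ := hξ
  have h1 := LinearMap.congr_fun (A_P (ψ := ψ) (R := Q) (addF (Z hQ ψ ρ)) y' y) z
  exact congrArg Subtype.val h1

/-- multiplicities of the zero weight space -/
theorem mu_Z_le (hQ : ND Q) {ψ : AddChar F ℂ} (hψ : ψ ≠ 0)
    (ρ : Representation ℂ (Om (hyp Q)) W) {y : V} (hy : y ≠ 0) :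
    mu ψ (Z hQ ψ ρ) y ≤ mu ψ ρ (0, 0, y) := by
  let f : LinearMap.range (P ψ Q (fun w => Z hQ ψ ρ (e Q w)) y) →ₗ[ℂ]
      LinearMap.range (PP ψ ρ (0, 0, y)) :=
    LinearMap.codRestrict _ (((PP ψ ρ (0, 0, y)).comp (ρ (sw Q)⁻¹)).comp
      ((LinearMap.range (PP ψ ρ 0)).subtype.comp (Submodule.subtype _)))
      (fun x => ⟨_, rfl⟩)
  have hf : Function.Injective f := by
    rw [← LinearMap.ker_eq_bot, LinearMap.ker_eq_bot']
    intro ξ h
    have h1 : PP ψ ρ (0, 0, y) (ρ (sw Q)⁻¹ ((ξ : LinearMap.range (PP ψ ρ 0)) : W)) = 0 :=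
      congrArg Subtype.val h
    have h2 := transfer_inj hQ hψ ρ hy (mem_range_zero hQ ρ ξ.1.2) (mem_range_y hQ ρ ξ.2) h1
    exact Subtype.ext (Subtype.ext h2)
  exact LinearMap.finrank_le_finrank_of_injective hf

end H44.OM
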