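import Cfsg.Agent.Lib.H44.OD9

/-! The bottom of the induction: torus characters. -/

set_option autoImplicit false
set_option linter.unusedSectionVars false

namespace H44.OD

theorem SD.J_inj {F : Type*} [Field F] {G : Type*} [Group G] [Fintype F] (D : SD F G) {W : Type*}
    [AddCommGroup W] [Module ℂ W] (ρ : Representation ℂ G W) {x : W}
    (hx : ∀ t, ρ (D.u t) x = x) (hJ : D.J ρ x = 0) : x = 0 := by
  classical
  have h1 := D.J_J ρ hx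
  have h2 : D.J ρ (∑ c : Fˣ, ρ (D.h c) x) = 0 := by
    rw [map_sum]
    refine Finset.sum_eq_zero (fun c _ => ?_)
    have h3 := D.J_h ρ c⁻¹ x
    rw [inv_inv, hJ, map_zero] at h3
    exact h3.symm
  rw [h2, hJ, map_zero, add_zero] at h1
  have h3 := (smul_eq_zero.mp h1.symm).resolve_left (by exact_mod_cast Fintype.card_ne_zero)
  have h4 := SD.inv_app ρ (D.h (-1)) x
  rw [h3, map_zero] at h4
  exact h4.symm

theorem SD.J_inj' {F : Type*} [Field F] {G : Type*} [Group G] [Fintype F] (D : SD F G) {W : Type*}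
    [AddCommGroup W] [Module ℂ W] (ρ : Representation ℂ G W) {x y : W}
    (hx : ∀ t, ρ (D.u t) x = x) (hy : ∀ t, ρ (D.u t) y = y) (hJ : D.J ρ x = D.J ρ y) : x = y := by
  apply sub_eq_zero.mp
  apply D.J_inj ρ
  · intro t
    rw [map_sub, hx, hy]
  · rw [map_sub, hJ, sub_self]

end H44.OD

namespace H44.OM

open Module QuadraticMap H7.Hyp H7.Omega H7.OmegaIso H7.HypStd H44.OD

/-- stabiliser of a vector -/
def stb {G : Type*} [Group G] {W : Type*} [AddCommGroup W] [Module ℂ W]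
    (ρ : Representation ℂ G W) (x : W) : Subgroup G where
  carrier := {g | ρ g x = x}
  one_mem' := by simp
  mul_mem' {a b} ha hb := by
    change ρ (a * b) x = x
    rw [SD.mulapp]
    have h1 : ρ b x = x := hb
    rw [h1]
    exact ha
  inv_mem' {a} ha := SD.app_eq_inv ρ ha

section grp

variable {F : Type*} [Field F] {V : Type*} [AddCommGroup V] [Module F V] {Q : QuadraticForm F V}

/-- the square torus elements -/
def tt [Nontrivial V] (hQ : ND Q) (a : Fˣ) : Om Q := ⟨T (a * a), T_sq_mem hQ a⟩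

theorem tt_apply [Nontrivial V] (hQ : ND Q) (a : Fˣ) (x y : F) (v : V) :
    (tt hQ a).1 (x, y, v) = (((a * a : Fˣ) : F) * x, (((a * a)⁻¹ : Fˣ) : F) * y, v) :=
  T_apply (a * a) x y v

theorem tt_sw [Nontrivial V] (hQ : ND Q) (a : Fˣ) : l hQ (tt hQ a) * sw Q =
    sw Q * (hc Q (a * a) * l hQ (tt hQ a)) := by
  apply ext5
  intro x y p r v
  rw [mul_app, mul_app, mul_app, sw_apply, l_apply, l_apply, tt_apply, tt_apply, hc_apply, sw_apply]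
  have h : ((a * a : Fˣ) : F) ≠ 0 := Units.ne_zero _
  refine Prod.ext ?_ (Prod.ext ?_ (Prod.ext ?_ (Prod.ext ?_ ?_)))
  · simp only
    rw [Units.inv_mul_cancel_left]
  · simp only
    rw [Units.mul_inv_cancel_left]
  · simp only
  · simp only
  · simp only

theorem tt_uu [Nontrivial V] (hQ : ND Q) (a : Fˣ) (t : F) : l hQ (tt hQ a) * uu Q t =
    uu Q ((((a * a)⁻¹ : Fˣ) : F) * t) * l hQ (tt hQ a) := by
  rw [uu, l_e, uu]
  congr 2
  have h1 := tt_apply hQ a 0 t 0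
  rw [mul_zero] at h1
  exact h1

end grp

variable {F : Type*} [Field F] [Fintype F] {V : Type*} [AddCommGroup V] [Module F V] [Fintype V]
  {Q : QuadraticForm F V} {W : Type*} [AddCommGroup W] [Module ℂ W] [FiniteDimensional ℂ W]

/-- the vectors fixed by both radicals -/
def XX (hQ : ND Q) (ρ : Representation ℂ (Om (hyp (hyp Q))) W) : Submodule ℂ W where
  carrier := {x | Ef ρ x ∧ Lf hQ.hyp ρ x}
  zero_mem' := ⟨fun w => map_zero _, fun w => map_zero _⟩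
  add_mem' {a b} ha hb := ⟨fun w => by rw [map_add, ha.1, hb.1], fun w => by
    rw [map_add, ha.2, hb.2]⟩
  smul_mem' c x hx := ⟨fun w => by rw [map_smul, hx.1], fun w => by rw [map_smul, hx.2]⟩

theorem finrank_XX (hQ : ND Q) {ψ : AddChar F ℂ} (hψ : ψ ≠ 0)
    (ρ : Representation ℂ (Om (hyp (hyp Q))) W) :
    finrank ℂ (XX hQ ρ) = mu ψ (Z hQ.hyp ψ ρ) 0 := by
  symm
  apply LinearEquiv.finrank_eq
  let f : LinearMap.range (PP ψ (Z hQ.hyp ψ ρ) 0) →ₗ[ℂ] XX hQ ρ :=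
    LinearMap.codRestrict _ ((LinearMap.range (PP ψ ρ 0)).subtype.comp (Submodule.subtype _))
      (fun x => ⟨mem_range_zero hQ.hyp ρ x.1.2, fun w =>
        congrArg Subtype.val (mem_range_zero hQ (Z hQ.hyp ψ ρ) x.2 w)⟩)
  refine LinearEquiv.ofBijective f ⟨?_, ?_⟩
  · intro x y hxy
    exact Subtype.ext (Subtype.ext (congrArg (fun z : XX hQ ρ => (z : W)) hxy))
  · rintro ⟨x, hE, hL⟩
    have h1 := PP_of_Ef hQ.hyp hψ ρ hE
    have h2 : Ef (Z hQ.hyp ψ ρ) ⟨x, x, h1⟩ := fun w => Subtype.ext (hL w)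
    have h3 := PP_of_Ef hQ hψ (Z hQ.hyp ψ ρ) h2
    exact ⟨⟨⟨x, x, h1⟩, ⟨x, x, h1⟩, h3⟩, rfl⟩

section stable

variable (hQ : ND Q) (ρ : Representation ℂ (Om (hyp (hyp Q))) W)

theorem XX_h1 {x : W} (hx : x ∈ XX hQ ρ) (c : Fˣ) : ρ (hc (hyp Q) c) x ∈ XX hQ ρ := by
  constructor
  · rintro ⟨r, t, v⟩
    have h1 := hc_e (Q := hyp Q) c r (((c : F) * c)⁻¹ * t) ((c : F)⁻¹ • v)
    rw [mul_inv_cancel_left₀ (mul_ne_zero c.ne_zero c.ne_zero), smul_smul,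
      mul_inv_cancel₀ c.ne_zero, one_smul] at h1
    rw [← rel_app ρ h1, hx.1]
  · intro v
    have h2 := hc_l hQ.hyp c ((c : F) • v)
    rw [smul_smul, Units.inv_mul, one_smul] at h2
    rw [← rel_app ρ h2, hx.2]

theorem XX_h2 {x : W} (hx : x ∈ XX hQ ρ) (c : Fˣ) : ρ (l hQ.hyp (hc Q c)) x ∈ XX hQ ρ := by
  refine ⟨Ef_l hQ.hyp ρ hx.1 _, ?_⟩
  rintro ⟨r, t, v⟩
  have h1 := hc_e (Q := Q) c r (((c : F) * c)⁻¹ * t) ((c : F)⁻¹ • v)
  rw [mul_inv_cancel_left₀ (mul_ne_zero c.ne_zero c.ne_zero), smul_smul,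
    mul_inv_cancel₀ c.ne_zero, one_smul] at h1
  have h2 := rel_app (ρ.comp (l hQ.hyp)) h1 x
  have h3 : (ρ.comp (l hQ.hyp)) (e (hyp Q) (r, ((c : F) * c)⁻¹ * t, (c : F)⁻¹ • v)) x = x :=
    hx.2 _
  rw [h3] at h2
  exact h2.symm

theorem XX_J1 {x : W} (hx : x ∈ XX hQ ρ) : (sd (hyp Q)).J ρ x ∈ XX hQ ρ :=
  ⟨J_Ef hQ.hyp ρ hx.1 hx.2, J_Lf hQ.hyp ρ hx.1 hx.2⟩

theorem XX_J2 (hG : ∀ x ∈ XX hQ ρ, ∀ k : Om Q, ρ (l hQ.hyp (l hQ k)) x = x) {x : W}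
    (hx : x ∈ XX hQ ρ) : (sd Q).J (ρ.comp (l hQ.hyp)) x ∈ XX hQ ρ :=
  ⟨J2_Ef hQ ρ hx.1, J_Ef hQ (ρ.comp (l hQ.hyp)) (x := x) hx.2 (fun v => hG x hx _)⟩

theorem h2_sq [Nontrivial V] (hG : ∀ x ∈ XX hQ ρ, ∀ k : Om Q, ρ (l hQ.hyp (l hQ k)) x = x) {x : W}
    (hx : x ∈ XX hQ ρ) (a : Fˣ) : ρ (l hQ.hyp (hc Q (a * a))) x = x := by
  apply (sd Q).J_inj' (ρ.comp (l hQ.hyp)) (x := ρ (l hQ.hyp (hc Q (a * a)))  x) (y := x)
  · exact fun t => (XX_h2 hQ ρ hx _).2 _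
  · exact fun t => hx.2 _
  · have h1 := (sd Q).J_comm (ρ.comp (l hQ.hyp)) (tt_sw hQ a)
      (σ := fun t => (((a * a)⁻¹ : Fˣ) : F) * t)
      (Equiv.mulLeft₀ (((a * a)⁻¹ : Fˣ) : F) (Units.ne_zero _)).bijective (tt_uu hQ a) x
    rw [SD.mulapp] at h1
    have h2 : (ρ.comp (l hQ.hyp)) (l hQ (tt hQ a)) x = x := hG x hx _
    have h3 : (ρ.comp (l hQ.hyp)) (l hQ (tt hQ a)) ((sd Q).J (ρ.comp (l hQ.hyp)) x) =
      (sd Q).J (ρ.comp (l hQ.hyp)) x := hG _ (XX_J2 hQ ρ hG hx) _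
    rw [h2, h3] at h1
    exact h1.symm

theorem h1_sq [Nontrivial V] (hG : ∀ x ∈ XX hQ ρ, ∀ k : Om Q, ρ (l hQ.hyp (l hQ k)) x = x) {x : W}
    (hx : x ∈ XX hQ ρ) (a : Fˣ) : ρ (hc (hyp Q) (a * a)) x = x := by
  apply (sd (hyp Q)).J_inj' ρ (x := ρ (hc (hyp Q) (a * a)) x) (y := x)
  · exact fun t => (XX_h1 hQ ρ hx _).1 _
  · exact fun t => hx.1 _
  · have h1 := h2_J1 hQ ρ (a * a) x
    rw [h2_sq hQ ρ hG (XX_J1 hQ ρ hx), h2_sq hQ ρ hG hx] at h1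
    exact h1.symm

end stable

end H44.OM
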