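import Cfsg.Agent.Lib.H44.OD10

/-! The bottom of the induction: the three eigenvectors. -/

set_option autoImplicit false
set_option linter.unusedSectionVars false

namespace H44.OM

open Module QuadraticMap H7.Hyp H7.Omega H7.OmegaIso H7.HypStd H44.OD

variable {F : Type*} [Field F] [Fintype F] {V : Type*} [AddCommGroup V] [Module F V] [Fintype V]
  {Q : QuadraticForm F V} {W : Type*} [AddCommGroup W] [Module ℂ W] [FiniteDimensional ℂ W]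

theorem Cls_le {ψ : AddChar F ℂ} {ρ : Representation ℂ (Om (hyp (hyp Q))) W} {c : F}
    (hc : Cls ψ ρ c) {y : F × F × (F × F × V)} (hy : y ≠ 0) : mu ψ ρ y ≤ 1 := by
  rw [hc y hy]
  split_ifs <;> simp

theorem eq_zero_of_neg {x : W} (h : x = -x) : x = 0 := by
  have h2 : (2 : ℂ) • x = 0 := by
    rw [two_smul]
    nth_rewrite 1 [h]
    exact neg_add_cancel _
  exact (smul_eq_zero.mp h2).resolve_left two_ne_zero

section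

variable (hQ : ND Q) [Nontrivial V] {v0 : V} (hv : Q v0 ≠ 0) (ha : ∀ v, Q v = 0 → v = 0)
  {b0 : F} (hb0 : ∀ v, b0 + Q v ≠ 0) {ν : Fˣ}
  (hν : ∀ c : Fˣ, ∃ b, c = b * b ∨ c = ν * (b * b)) {ψ : AddChar F ℂ} (hψ : ψ ≠ 0)
  (ρ : Representation ℂ (Om (hyp (hyp Q))) W) (hc : Cls ψ ρ 0)

include ha hψ hc

theorem XX_G {x : W} (hx : x ∈ XX hQ ρ) (k : Om Q) : ρ (l hQ.hyp (l hQ k)) x = x :=
  G1_triv hQ hψ ρ ha hc hx.1 hx.2 k

include hv hb0 hν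

theorem claimA {x : W} (hx : x ∈ XX hQ ρ) (h : ρ (l hQ.hyp (H44.OM.hc Q ν)) x = x)
    (k : Om (hyp Q)) : ρ (l hQ.hyp k) x = x := by
  have hG : ∀ x ∈ XX hQ ρ, ∀ k : Om Q, ρ (l hQ.hyp (l hQ k)) x = x :=
    fun x hx k => XX_G hQ ha hψ ρ hc hx k
  have hh : ∀ c, ρ (l hQ.hyp (H44.OM.hc Q c)) x = x := by
    intro c
    obtain ⟨b, rfl | rfl⟩ := hν c
    · exact h2_sq hQ ρ hG hx b
    · rw [hc_mul, map_mul, SD.mulapp, h2_sq hQ ρ hG hx b, h]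
  have h1 := PP_of_Ef hQ.hyp hψ ρ hx.1
  have h2 : Ef (Z hQ.hyp ψ ρ) ⟨x, x, h1⟩ := fun w => Subtype.ext (hx.2 w)
  have h3 := star hQ hv hψ (Z hQ.hyp ψ ρ) (fun y hy hmu => (muZ_le_one hQ hψ ρ hc hy).2 hmu) hb0
    (fun z hz k => Subtype.ext (hG (z : W) ⟨mem_range_zero hQ.hyp ρ z.2,
      fun w => congrArg Subtype.val (hz w)⟩ k)) h2 (fun c => Subtype.ext (hh c))
  have h4 : ρ (l hQ.hyp (sw Q)) x = x := congrArg Subtype.val h3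
  exact gen hQ hv (S := stb (ρ.comp (l hQ.hyp)) x) (fun w => hx.2 w) h4 (fun k => hG x hx k) k

theorem claimB (hfix : ∀ x, (∀ g, ρ g x = x) → x = 0) (h2 : 2 ≤ mu ψ (Z hQ.hyp ψ ρ) 0) :
    ∃ x ∈ XX hQ ρ, ρ (l hQ.hyp (H44.OM.hc Q ν)) x ≠ x := by
  by_contra hall
  push Not at hall
  have hG : ∀ x ∈ XX hQ ρ, ∀ k : Om Q, ρ (l hQ.hyp (l hQ k)) x = x :=
    fun x hx k => XX_G hQ ha hψ ρ hc hx k
  have h1a : ∀ x ∈ XX hQ ρ, ρ (H44.OM.hc (hyp Q) ν) x = x := by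
    intro x hx
    set y := x - ρ (H44.OM.hc (hyp Q) ν) x with hy
    have hyX : y ∈ XX hQ ρ := Submodule.sub_mem _ hx (XX_h1 hQ ρ hx ν)
    have h3 : ρ (H44.OM.hc (hyp Q) ν) y = -y := by
      rw [hy, map_sub, ← SD.mulapp, ← hc_mul, h1_sq hQ ρ hG hx, neg_sub]
    have h4 := h2_J1 hQ ρ ν y
    rw [hall y hyX, hall _ (XX_J1 hQ ρ hyX), h3, map_neg] at h4
    have h5 : y = 0 := (sd (hyp Q)).J_inj ρ (fun t => hyX.1 _) (by
      have h6 : (2 : ℂ) • (sd (hyp Q)).J ρ y = 0 := by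
        rw [two_smul]
        nth_rewrite 1 [h4]
        exact neg_add_cancel _
      exact (smul_eq_zero.mp h6).resolve_left two_ne_zero)
    rw [hy] at h5
    exact (sub_eq_zero.mp h5).symm
  have h1b : ∀ x ∈ XX hQ ρ, ∀ c, ρ (H44.OM.hc (hyp Q) c) x = x := by
    intro x hx c
    obtain ⟨b, rfl | rfl⟩ := hν c
    · exact h1_sq hQ ρ hG hx b
    · rw [hc_mul, SD.mulapp, h1_sq hQ ρ hG hx b, h1a x hx]
  -- the kernel
  let g : XX hQ ρ →ₗ[ℂ] LinearMap.range (PP ψ ρ ((1 : F), (0 : F), (0 : F × F × V))) :=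
    LinearMap.codRestrict _ (((PP ψ ρ (1, 0, 0)).comp (ρ (sw (hyp Q)))).comp
      (XX hQ ρ).subtype) (fun x => ⟨_, rfl⟩)
  have hg : LinearMap.ker g ≠ ⊥ := by
    apply LinearMap.ker_ne_bot_of_finrank_lt
    rw [finrank_XX hQ hψ ρ]
    have h3 : mu ψ ρ ((1 : F), (0 : F), (0 : F × F × V)) ≤ 1 :=
      Cls_le hc (fun h => one_ne_zero (congrArg Prod.fst h))
    have h4 : finrank ℂ (LinearMap.range (PP ψ ρ ((1 : F), (0 : F), (0 : F × F × V)))) =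
      mu ψ ρ ((1 : F), (0 : F), (0 : F × F × V)) := rfl
    omega
  obtain ⟨⟨x, hx⟩, hxk, hx0⟩ := Submodule.exists_mem_ne_zero_of_ne_bot hg
  have hk : PP ψ ρ (1, 0, 0) (ρ (sw (hyp Q)) x) = 0 := congrArg Subtype.val hxk
  have hPP : ∀ a, a ≠ 0 → PP ψ ρ (a, 0, 0) (ρ (sw (hyp Q)) x) = 0 := by
    intro a ha0
    have h3 := LinearMap.congr_fun (l_PP (ψ := ψ) hQ.hyp ρ (H44.OM.hc Q (Units.mk0 a ha0))
      (1, 0, 0)) (ρ (sw (hyp Q)) x)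
    rw [Module.End.mul_apply, Module.End.mul_apply, hk, map_zero] at h3
    have h4 : (H44.OM.hc Q (Units.mk0 a ha0)).1 ((1 : F), (0 : F), (0 : F × F × V)) = (a, 0, 0) := by
      have h5 := hc_apply (Q := Q) (Units.mk0 a ha0) 1 0 0 0 0
      simp only [mul_zero, mul_one, Units.val_mk0] at h5
      exact h5
    rw [h4, rel_app ρ (h2_s1 hQ _), SD.mulapp,
      claimA hQ hv ha hb0 hν hψ ρ hc hx (hall x hx), h1b x hx] at h3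
    exact h3.symm
  obtain ⟨hs, -⟩ := fix_of_PP hQ.hyp hψ ρ hx.1 hx.2 hPP
  have hv' : hyp Q ((0 : F), (0 : F), v0) ≠ 0 := by
    rw [hyp_apply]
    simp only [mul_zero, zero_add]
    exact hv
  have h5 := hfix x (fun g => gen hQ.hyp hv' (S := stb ρ x) hx.1 hs
    (fun k => claimA hQ hv ha hb0 hν hψ ρ hc hx (hall x hx) k) g)
  exact hx0 (Subtype.ext h5)

/-- the three eigenvectors -/
theorem three (hfix : ∀ x, (∀ g, ρ g x = x) → x = 0) (h2 : 2 ≤ mu ψ (Z hQ.hyp ψ ρ) 0) :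
    ∃ x1 ∈ XX hQ ρ, ∃ x2 ∈ XX hQ ρ, ∃ x3 ∈ XX hQ ρ, x1 ≠ 0 ∧ x2 ≠ 0 ∧ x3 ≠ 0 ∧
      ρ (H44.OM.hc (hyp Q) ν) x1 = -x1 ∧ ρ (l hQ.hyp (H44.OM.hc Q ν)) x1 = x1 ∧
      ρ (H44.OM.hc (hyp Q) ν) x2 = -x2 ∧ ρ (l hQ.hyp (H44.OM.hc Q ν)) x2 = -x2 ∧
      ρ (H44.OM.hc (hyp Q) ν) x3 = x3 ∧ ρ (l hQ.hyp (H44.OM.hc Q ν)) x3 = -x3 := by
  have hG : ∀ x ∈ XX hQ ρ, ∀ k : Om Q, ρ (l hQ.hyp (l hQ k)) x = x :=
    fun x hx k => XX_G hQ ha hψ ρ hc hx k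
  obtain ⟨y, hy, hy2⟩ := claimB hQ hv ha hb0 hν hψ ρ hc hfix h2
  set z := y - ρ (l hQ.hyp (H44.OM.hc Q ν)) y with hz
  have hz0 : z ≠ 0 := fun h => hy2 (sub_eq_zero.mp h).symm
  have hzX : z ∈ XX hQ ρ := Submodule.sub_mem _ hy (XX_h2 hQ ρ hy ν)
  have hz2 : ρ (l hQ.hyp (H44.OM.hc Q ν)) z = -z := by
    rw [hz, map_sub, ← SD.mulapp, ← map_mul, ← hc_mul, h2_sq hQ ρ hG hy, neg_sub]
  -- the second vector
  have key : ∃ x2 ∈ XX hQ ρ, ∃ x3 ∈ XX hQ ρ, x2 ≠ 0 ∧ x3 ≠ 0 ∧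
      ρ (H44.OM.hc (hyp Q) ν) x2 = -x2 ∧ ρ (l hQ.hyp (H44.OM.hc Q ν)) x2 = -x2 ∧
      ρ (H44.OM.hc (hyp Q) ν) x3 = x3 ∧ ρ (l hQ.hyp (H44.OM.hc Q ν)) x3 = -x3 := by
    have J2neg : ∀ x, ρ (l hQ.hyp (H44.OM.hc Q ν)) x = -x →
        ρ (l hQ.hyp (H44.OM.hc Q ν)) ((sd Q).J (ρ.comp (l hQ.hyp)) x) =
          -(sd Q).J (ρ.comp (l hQ.hyp)) x := by
      intro x hx
      have := (sd Q).J_h (ρ.comp (l hQ.hyp)) ν x
      have h4 : (ρ.comp (l hQ.hyp)) ((sd Q).h ν⁻¹) x = -x := by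
        have h5 : (sd Q).h ν⁻¹ = ((sd Q).h ν)⁻¹ := by
          apply eq_inv_of_mul_eq_one_left
          rw [← (sd Q).h_mul, inv_mul_cancel, (sd Q).h_one]
        rw [h5]
        exact neg_inv (ρ.comp (l hQ.hyp)) (g := (sd Q).h ν) hx
      rw [h4, map_neg] at this
      exact this
    by_cases hp : z + ρ (H44.OM.hc (hyp Q) ν) z = 0
    · -- `z` is the second vector
      have hz1 : ρ (H44.OM.hc (hyp Q) ν) z = -z := eq_neg_of_add_eq_zero_right hp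
      refine ⟨z, hzX, (sd Q).J (ρ.comp (l hQ.hyp)) z, XX_J2 hQ ρ hG hzX, hz0, ?_, hz1, hz2, ?_, ?_⟩
      · intro h
        exact hz0 ((sd Q).J_inj (ρ.comp (l hQ.hyp)) (fun t => hzX.2 _) h)
      · rw [h1_J2 hQ ρ, hz2, map_neg, hz1, neg_neg]
      · exact J2neg z hz2
    · set x3 := z + ρ (H44.OM.hc (hyp Q) ν) z with hx3
      have hX3 : x3 ∈ XX hQ ρ := Submodule.add_mem _ hzX (XX_h1 hQ ρ hzX ν)
      have h31 : ρ (H44.OM.hc (hyp Q) ν) x3 = x3 := by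
        rw [hx3, map_add, ← SD.mulapp, ← hc_mul, h1_sq hQ ρ hG hzX, add_comm]
      have h32 : ρ (l hQ.hyp (H44.OM.hc Q ν)) x3 = -x3 := by
        rw [hx3, map_add, hz2, ← h1_h2_app hQ ρ, hz2, map_neg, neg_add]
      refine ⟨(sd Q).J (ρ.comp (l hQ.hyp)) x3, XX_J2 hQ ρ hG hX3, x3, hX3, ?_, hp, ?_, ?_, h31, h32⟩
      · intro h
        exact hp ((sd Q).J_inj (ρ.comp (l hQ.hyp)) (fun t => hX3.2 _) h)
      · rw [h1_J2 hQ ρ, h32, map_neg, h31, map_neg]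
      · exact J2neg x3 h32
  obtain ⟨x2, hX2, x3, hX3, h20, h30, a1, a2, a3, a4⟩ := key
  refine ⟨(sd (hyp Q)).J ρ x2, XX_J1 hQ ρ hX2, x2, hX2, x3, hX3, ?_, h20, h30, ?_, ?_,
    a1, a2, a3, a4⟩
  · intro h
    exact h20 ((sd (hyp Q)).J_inj ρ (fun t => hX2.1 _) h)
  · have := (sd (hyp Q)).J_h ρ ν x2
    have h4 : ρ ((sd (hyp Q)).h ν⁻¹) x2 = -x2 := by
      have h5 : (sd (hyp Q)).h ν⁻¹ = ((sd (hyp Q)).h ν)⁻¹ := by
        apply eq_inv_of_mul_eq_one_left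
        rw [← (sd (hyp Q)).h_mul, inv_mul_cancel, (sd (hyp Q)).h_one]
      rw [h5]
      exact neg_inv ρ (g := (sd (hyp Q)).h ν) a1
    rw [h4, map_neg] at this
    exact this
  · rw [h2_J1 hQ ρ, a2, map_neg, a1, neg_neg]

end

end H44.OM
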