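import Cfsg.Agent.Lib.H44.OD12

/-! The chain, and the final bound. -/

set_option autoImplicit false
set_option linter.unusedSectionVars false

universe u

namespace H44.OM

open Module QuadraticMap H7.Hyp H7.Omega H7.OmegaIso H7.HypStd H48.QuadStd H44.OD

section squares

variable {F : Type*} [Field F] [Fintype F]

theorem exists_nu (hodd : Odd (Fintype.card F)) : ∃ ν : Fˣ, (¬ IsSquare (ν : F)) ∧
    ∀ c : Fˣ, ∃ b : Fˣ, c = b * b ∨ c = ν * (b * b) := by
  classical
  have h2 : ringChar F ≠ 2 := by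
    intro h
    rcases FiniteField.even_card_iff_char_two.mp h with h1
    rw [← Nat.even_iff] at h1
    exact (Nat.not_even_iff_odd.mpr hodd) h1
  obtain ⟨a, ha⟩ := FiniteField.exists_nonsquare h2
  have ha0 : a ≠ 0 := by
    rintro rfl
    exact ha ⟨0, by simp⟩
  refine ⟨Units.mk0 a ha0, ha, fun c => ?_⟩
  by_cases hc : IsSquare (c : F)
  · obtain ⟨b, hb⟩ := hc
    have hb0 : b ≠ 0 := by
      rintro rfl
      exact c.ne_zero (by rw [hb, mul_zero])
    exact ⟨Units.mk0 b hb0, Or.inl (Units.ext hb)⟩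
  · have h3 : IsSquare ((c : F) * a⁻¹) := by
      by_contra hcon
      have e1 := quadraticChar_neg_one_iff_not_isSquare.mpr hcon
      have e2 := quadraticChar_neg_one_iff_not_isSquare.mpr hc
      have e3 : ¬ IsSquare a⁻¹ := by
        rintro ⟨r, hr⟩
        apply ha
        refine ⟨r⁻¹, ?_⟩
        rw [← mul_inv, ← hr, inv_inv]
      have e4 := quadraticChar_neg_one_iff_not_isSquare.mpr e3
      rw [map_mul, e2, e4] at e1
      norm_num at e1
    obtain ⟨b, hb⟩ := h3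
    have hb0 : b ≠ 0 := by
      rintro rfl
      rw [mul_zero] at hb
      exact (mul_ne_zero c.ne_zero (inv_ne_zero ha0)) hb
    refine ⟨Units.mk0 b hb0, Or.inr (Units.ext ?_)⟩
    rw [Units.val_mul, Units.val_mul, Units.val_mk0, Units.val_mk0, ← hb]
    field_simp

theorem base_odd (hodd : Odd (Fintype.card F)) (h5 : 5 ≤ Fintype.card F) {ν : Fˣ}
    (hns : ¬ IsSquare (ν : F)) (hν : ∀ c : Fˣ, ∃ b : Fˣ, c = b * b ∨ c = ν * (b * b)) :
    Base (qOdd 0 F 1) ν := by
  classical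
  have h2 : (2 : F) ≠ 0 := two_ne_zero_of_odd hodd
  have hcard : Fintype.card (Unit ⊕ (Fin 0 ⊕ Fin 0) → F) = Fintype.card F := by simp
  have hap : ∀ v : Unit ⊕ (Fin 0 ⊕ Fin 0) → F, qOdd 0 F 1 v = v (Sum.inl ()) ^ 2 := by
    intro v
    rw [qOdd_apply]
    simp
  refine ⟨H7.HypOrd.nd_odd 0 h2 one_ne_zero, inferInstance, ?_, ?_, hcard, h5, ?_, hν⟩
  · intro v hv
    rw [hap] at hv
    have h3 : v (Sum.inl ()) = 0 := pow_eq_zero_iff (by norm_num) |>.mp hv
    funext i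
    rcases i with i | i | i
    · exact h3
    · exact i.elim0
    · exact i.elim0
  · rw [OT, cnt_odd 0 one_ne_zero, hcard]
    simp
  · refine ⟨-(ν : F), fun v hv => hns ?_⟩
    rw [hap] at hv
    exact ⟨v (Sum.inl ()), by linear_combination -hv⟩

end squares

theorem chain {F : Type u} [Field F] [Fintype F] (hodd : Odd (Fintype.card F))
    (h5 : 5 ≤ Fintype.card F) {ν : Fˣ}
    (hns : ¬ IsSquare (ν : F)) (hν : ∀ c : Fˣ, ∃ b : Fˣ, c = b * b ∨ c = ν * (b * b)) (m : ℕ) :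
    ∃ (V : Type u) (_ : AddCommGroup V) (_ : Module F V) (_ : Fintype V)
      (Q : QuadraticForm F V) (hQ : ND Q) (K : ℕ), Nontrivial V ∧ OT Q ∧
      Fintype.card V = Fintype.card F ^ (2 * m + 1) ∧ Q.Equivalent (qOdd m F 1) ∧
      K * (Fintype.card F ^ 2 - 1) + 1 = Fintype.card F ^ 5 * Fintype.card V ∧ 2 ≤ K ∧
      LB (Om (hyp (hyp Q))) K ∧ TB hQ.hyp K ν := by
  have hq2 : 1 ≤ Fintype.card F ^ 2 := Nat.one_le_pow _ _ (by omega)
  induction m with
  | zero =>
    have hb := base_odd hodd h5 hns hν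
    refine ⟨_, _, _, _, qOdd 0 F 1, hb.nd, Fintype.card F ^ 4 + Fintype.card F ^ 2 + 1, hb.nt,
      hb.ot, ?_, QuadraticMap.Equivalent.refl _, ?_, ?_, hb.LB, hb.TB⟩
    · rw [hb.card]; simp
    · rw [hb.card]
      zify [hq2]
      ring
    · omega
  | succ m ih =>
    obtain ⟨V, i1, i2, i3, Q, hQ, K, hnt, hOT, hcard, heq, hK, hK2, hLB, hTB⟩ := ih
    refine ⟨F × F × V, inferInstance, inferInstance, inferInstance, hyp Q, hQ.hyp,
      Fintype.card F ^ 5 * Fintype.card V + K, inferInstance, hOT.hyp, ?_, ?_, ?_, by omega,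
      LB_step hQ hOT h5 hK hLB hTB, TB_step hQ hOT hodd h5 hcard hK hLB hTB hK2⟩
    · rw [Fintype.card_prod, Fintype.card_prod, hcard]
      ring
    · exact (hyp_congr heq).trans (odd_succ m 1).symm
    · rw [Fintype.card_prod, Fintype.card_prod]
      zify [hq2] at hK ⊢
      linear_combination hK

theorem LB_odd {F : Type u} [Field F] [Fintype F] (hodd : Odd (Fintype.card F))
    (h5 : 5 ≤ Fintype.card F) (m : ℕ) : ∃ K, K * (Fintype.card F ^ 2 - 1) + 1 =
      Fintype.card F ^ (2 * m + 6) ∧ LB (Om (hyp (qOdd (m + 1) F 1))) K := by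
  obtain ⟨ν, hns, hν⟩ := exists_nu hodd
  obtain ⟨V, i1, i2, i3, Q, hQ, K, hnt, hOT, hcard, heq, hK, hK2, hLB, hTB⟩ :=
    chain hodd h5 hns hν m
  refine ⟨K, ?_, ?_⟩
  · rw [hK, hcard]
    ring
  · exact hLB.congr (hyp_congr ((hyp_congr heq).trans (odd_succ m 1).symm))

end H44.OM
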