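import Mathlib

/-! Rank one data `(u, s, h)` in a group and the intertwining operator in a representation. -/

set_option autoImplicit false
set_option linter.unusedSectionVars false

namespace H44.OD

open Module

/-- `SL₂` data -/
structure SD (F : Type*) [Field F] (G : Type*) [Group G] where
  u : F → G
  s : G
  h : Fˣ → G
  u_zero : u 0 = 1
  u_add : ∀ a b, u (a + b) = u a * u b
  h_one : h 1 = 1
  h_mul : ∀ a b, h (a * b) = h a * h b
  ss : s * s = h (-1)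
  sus : ∀ t : Fˣ, s * u t * s = u (-(t⁻¹ : Fˣ)) * h (-(t⁻¹ : Fˣ)) * s * u (-(t⁻¹ : Fˣ))
  hs : ∀ c, h c * s = s * h c⁻¹
  hu : ∀ c t, h c * u t = u ((c : F) * c * t) * h c

namespace SD

variable {F : Type*} [Field F] {G : Type*} [Group G] {G' : Type*} [Group G']

/-- image under a homomorphism -/
def map (D : SD F G) (f : G →* G') : SD F G' where
  u t := f (D.u t)
  s := f D.s
  h c := f (D.h c)
  u_zero := by rw [D.u_zero, map_one]
  u_add a b := by rw [D.u_add, map_mul]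
  h_one := by rw [D.h_one, map_one]
  h_mul a b := by rw [D.h_mul, map_mul]
  ss := by rw [← map_mul, D.ss]
  sus t := by rw [← map_mul, ← map_mul, D.sus, map_mul, map_mul, map_mul]
  hs c := by rw [← map_mul, D.hs, map_mul]
  hu c t := by rw [← map_mul, D.hu, map_mul]

variable [Fintype F] (D : SD F G) {W : Type*} [AddCommGroup W] [Module ℂ W]
  (ρ : Representation ℂ G W)

theorem mulapp (a b : G) (x : W) : ρ (a * b) x = ρ a (ρ b x) := by
  rw [map_mul]; rfl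

theorem inv_app (a : G) (x : W) : ρ a⁻¹ (ρ a x) = x := by
  rw [← mulapp, inv_mul_cancel, map_one]; rfl

theorem app_inv (a : G) (x : W) : ρ a (ρ a⁻¹ x) = x := by
  rw [← mulapp, mul_inv_cancel, map_one]; rfl

theorem app_eq_inv {a : G} {x : W} (h : ρ a x = x) : ρ a⁻¹ x = x := by
  conv_lhs => rw [← h]
  exact inv_app ρ a x

/-- the intertwining operator (not normalised) -/
noncomputable def J : W →ₗ[ℂ] W := ∑ t : F, ρ (D.u t * D.s)

theorem J_apply (x : W) : D.J ρ x = ∑ t : F, ρ (D.u t) (ρ D.s x) := by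
  rw [J, LinearMap.sum_apply]
  exact Finset.sum_congr rfl fun t _ => mulapp ρ _ _ x

theorem J_comm {g g' : G} (hs : g * D.s = D.s * g') {σ : F → F} (hσ : Function.Bijective σ)
    (hu : ∀ t, g * D.u t = D.u (σ t) * g) (x : W) : ρ g (D.J ρ x) = D.J ρ (ρ g' x) := by
  rw [J_apply, J_apply, map_sum]
  refine Fintype.sum_bijective σ hσ _ _ (fun t => ?_)
  rw [← mulapp, hu, mulapp]
  congr 1
  rw [← mulapp, hs, mulapp]

theorem J_h (c : Fˣ) (x : W) : ρ (D.h c) (D.J ρ x) = D.J ρ (ρ (D.h c⁻¹) x) := by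
  refine D.J_comm ρ (D.hs c) (σ := fun t => (c : F) * c * t) ?_ (D.hu c) x
  exact (Equiv.mulLeft₀ _ (mul_ne_zero c.ne_zero c.ne_zero)).bijective

theorem J_u (t : F) (x : W) : ρ (D.u t) (D.J ρ x) = D.J ρ x := by
  rw [J_apply, map_sum]
  refine Fintype.sum_bijective (fun t' => t + t') (AddGroup.addLeft_bijective t) _ _ (fun t' => ?_)
  rw [← mulapp, ← D.u_add]

theorem h_u_fix {x : W} (hx : ∀ t, ρ (D.u t) x = x) (c : Fˣ) (t : F) :
    ρ (D.u t) (ρ (D.h c) x) = ρ (D.h c) x := by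
  have h1 := D.hu c (((c : F) * c)⁻¹ * t)
  rw [mul_inv_cancel_left₀ (mul_ne_zero c.ne_zero c.ne_zero)] at h1
  rw [← mulapp, ← h1, mulapp, hx]

/-- the square of the intertwining operator -/
theorem J_J [DecidableEq F] {x : W} (hx : ∀ t, ρ (D.u t) x = x) :
    D.J ρ (D.J ρ x) = (Fintype.card F : ℂ) • ρ (D.h (-1)) x + D.J ρ (∑ c : Fˣ, ρ (D.h c) x) := by
  classical
  have h1 : ∀ t : F, ρ D.s (ρ (D.u t) (ρ D.s x)) = ρ (D.s * D.u t * D.s) x := by
    intro t
    rw [mulapp, mulapp]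
  have h2 : D.J ρ (D.J ρ x) = ∑ t : F, ∑ t' : F, ρ (D.u t') (ρ (D.s * D.u t * D.s) x) := by
    rw [J_apply, J_apply, Finset.sum_comm]
    refine Finset.sum_congr rfl (fun t' _ => ?_)
    rw [map_sum, map_sum]
    exact Finset.sum_congr rfl (fun t _ => by rw [h1])
  rw [h2, ← Finset.add_sum_erase _ _ (Finset.mem_univ (0 : F))]
  congr 1
  · rw [D.u_zero, mul_one, D.ss]
    rw [Finset.sum_congr rfl (fun t' _ => D.h_u_fix ρ hx (-1) t'), Finset.sum_const,
      Finset.card_univ, ← Nat.cast_smul_eq_nsmul ℂ]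
  · have h3 : ∀ t : Fˣ, ∑ t' : F, ρ (D.u t') (ρ (D.s * D.u t * D.s) x) =
        D.J ρ (ρ (D.h (-(t⁻¹ : Fˣ))⁻¹) x) := by
      intro t
      rw [D.sus, J_apply]
      refine Fintype.sum_bijective (fun t' => t' + (-((t⁻¹ : Fˣ) : F)))
        (AddGroup.addRight_bijective _) _ _ (fun t' => ?_)
      rw [mulapp, hx, mulapp, mulapp, ← mulapp ρ (D.u t'), ← D.u_add]
      congr 1
      rw [← mulapp, D.hs, mulapp]
    rw [map_sum]
    symm
    refine Finset.sum_bij (fun (c : Fˣ) _ => ((-(c : Fˣ) : Fˣ) : F)) ?_ ?_ ?_ ?_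
    · intro c _
      exact Finset.mem_erase.mpr ⟨Units.ne_zero _, Finset.mem_univ _⟩
    · intro a _ b _ hab
      exact neg_injective (Units.ext hab)
    · intro b hb
      refine ⟨-(Units.mk0 b (Finset.ne_of_mem_erase hb)), Finset.mem_univ _, ?_⟩
      simp
    · intro c _
      rw [h3]
      congr 4
      rw [inv_neg, inv_neg, inv_neg, neg_neg, inv_inv]

theorem sum_h [DecidableEq F] {x : W} {a0 : Fˣ} (ha : ρ (D.h a0) x = -x) : ∑ c : Fˣ, ρ (D.h c) x = 0 := by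
  have h1 : ∑ c : Fˣ, ρ (D.h c) x = ∑ c : Fˣ, ρ (D.h (c * a0)) x :=
    (Fintype.sum_bijective (fun c => c * a0) (Group.mulRight_bijective a0) _ _
      (fun c => rfl)).symm
  have h2 : ∑ c : Fˣ, ρ (D.h (c * a0)) x = - ∑ c : Fˣ, ρ (D.h c) x := by
    rw [← Finset.sum_neg_distrib]
    refine Finset.sum_congr rfl (fun c _ => ?_)
    rw [D.h_mul, mulapp, ha, map_neg]
  rw [h2] at h1
  have h3 : (2 : ℂ) • ∑ c : Fˣ, ρ (D.h c) x = 0 := by
    rw [two_smul]
    nth_rewrite 1 [h1]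
    exact neg_add_cancel _
  exact (smul_eq_zero.mp h3).resolve_left two_ne_zero

theorem J_J_neg {x : W} (hx : ∀ t, ρ (D.u t) x = x) {a0 : Fˣ} (ha : ρ (D.h a0) x = -x) :
    D.J ρ (D.J ρ x) = (Fintype.card F : ℂ) • ρ (D.h (-1)) x := by
  classical
  rw [D.J_J ρ hx, D.sum_h ρ ha, map_zero, add_zero]

theorem J_ne {x : W} (hx : ∀ t, ρ (D.u t) x = x) {a0 : Fˣ} (ha : ρ (D.h a0) x = -x) (h0 : x ≠ 0) :
    D.J ρ x ≠ 0 := by
  intro h1
  have h2 := D.J_J_neg ρ hx ha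
  rw [h1, map_zero] at h2
  have h3 := (smul_eq_zero.mp h2.symm).resolve_left (by exact_mod_cast Fintype.card_ne_zero)
  apply h0
  have h4 := inv_app ρ (D.h (-1)) x
  rw [h3, map_zero] at h4
  exact h4.symm

/-- the fixed point criterion -/
theorem fix_of {x : W} (hx : ∀ t, ρ (D.u t) x = x) (hs : ∀ t, ρ (D.u t) (ρ D.s x) = ρ D.s x) :
    ρ D.s x = x ∧ ∀ c, ρ (D.h c) x = x := by
  have key : ∀ t : Fˣ, ρ (D.h (-1)) x = ρ (D.h (-(t⁻¹ : Fˣ))) (ρ D.s x) := by
    intro t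
    have h1 : ρ (D.s * D.u t * D.s) x = ρ (D.h (-1)) x := by
      rw [mulapp, mulapp, hs, ← mulapp, D.ss]
    rw [D.sus, mulapp, hx, mulapp, mulapp] at h1
    have h2 := D.h_u_fix ρ hs (-(t⁻¹ : Fˣ)) (-((t⁻¹ : Fˣ) : F))
    rw [← h1]
    exact h2
  have h1 : ρ D.s x = x := by
    have h2 := key 1
    rw [inv_one] at h2
    have h3 := congrArg (ρ (D.h (-1))⁻¹) h2
    rw [inv_app, inv_app] at h3
    exact h3.symm
  refine ⟨h1, fun c => ?_⟩
  have h2 : ∀ c, ρ (D.h c) x = ρ (D.h (-1)) x := by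
    intro c
    have h3 := key (-c⁻¹)
    rw [h1] at h3
    rw [h3]
    congr 3
    rw [inv_neg, inv_inv, neg_neg]
  have h3 := h2 1
  rw [D.h_one, map_one] at h3
  rw [h2 c, ← h3]
  rfl

/-- Steinberg -/
theorem steinberg {z : W} (hu : ∀ t, ρ (D.u t) z = z) (hh : ∀ c, ρ (D.h c) z = z)
    (hz : z + D.J ρ z = 0) (h0 : z ≠ 0) {ψ : AddChar F ℂ} (hψ : ψ ≠ 0) {α : F} (hα : α ≠ 0) :
    ∑ t : F, ψ (-(α * t)) • ρ (D.u t) (ρ D.s z) ≠ 0 := by
  classical
  intro hcon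
  -- apply `s`
  have h1 : ∀ t : Fˣ, ρ D.s (ρ (D.u t) (ρ D.s z)) = ρ (D.u (-((t⁻¹ : Fˣ) : F))) (ρ D.s z) := by
    intro t
    have h2 : ρ D.s (ρ (D.u t) (ρ D.s z)) = ρ (D.s * D.u t * D.s) z := by rw [mulapp, mulapp]
    rw [h2, D.sus, mulapp, hu, mulapp, mulapp]
    congr 1
    rw [← mulapp, D.hs, mulapp, hh]
  have h2 := congrArg (ρ D.s) hcon
  rw [map_zero, map_sum, ← Finset.add_sum_erase _ _ (Finset.mem_univ (0 : F))] at h2
  rw [mul_zero, neg_zero, AddChar.map_zero_eq_one, one_smul, D.u_zero, map_one,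
    Module.End.one_apply, ← mulapp, D.ss, hh] at h2
  have h3 : ∑ x ∈ Finset.univ.erase (0 : F), ρ D.s (ψ (-(α * x)) • ρ (D.u x) (ρ D.s z)) =
      ∑ t ∈ Finset.univ.erase (0 : F), ψ (α * t⁻¹) • ρ (D.u t) (ρ D.s z) := by
    refine Finset.sum_bij (fun t _ => -t⁻¹) ?_ ?_ ?_ ?_
    · intro t ht
      refine Finset.mem_erase.mpr ⟨neg_ne_zero.mpr (inv_ne_zero (Finset.ne_of_mem_erase ht)),
        Finset.mem_univ _⟩
    · intro a _ b _ hab
      exact inv_injective (neg_injective hab)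
    · intro b hb
      refine ⟨-b⁻¹, Finset.mem_erase.mpr ⟨neg_ne_zero.mpr (inv_ne_zero
        (Finset.ne_of_mem_erase hb)), Finset.mem_univ _⟩, ?_⟩
      rw [inv_neg, inv_inv, neg_neg]
    · intro t ht
      have h4 := h1 (Units.mk0 t (Finset.ne_of_mem_erase ht))
      rw [map_smul]
      rw [Units.val_mk0] at h4
      rw [h4]
      congr 2
      · rw [inv_neg, inv_inv]; ring
  rw [h3] at h2
  -- substitute `z = - J z`
  have h4 : D.J ρ z = ∑ t ∈ Finset.univ.erase (0 : F), ψ (α * t⁻¹) • ρ (D.u t) (ρ D.s z) :=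
    add_left_cancel (hz.trans h2.symm)
  have h5 : ∀ t, ∑ t' : F, ρ (D.u t') (ρ (D.u t) (ρ D.s z)) = D.J ρ z := by
    intro t
    rw [J_apply]
    refine Fintype.sum_bijective (fun t' => t' + t) (AddGroup.addRight_bijective _) _ _
      (fun t' => ?_)
    rw [← mulapp, ← D.u_add]
  have h6 : ∑ t' : F, ρ (D.u t') (D.J ρ z) = (Fintype.card F : ℂ) • D.J ρ z := by
    rw [Finset.sum_congr rfl (fun t' _ => D.J_u ρ t' z), Finset.sum_const, Finset.card_univ,
      ← Nat.cast_smul_eq_nsmul ℂ]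
  have h7 : ∑ t' : F, ρ (D.u t') (∑ t ∈ Finset.univ.erase (0 : F),
      ψ (α * t⁻¹) • ρ (D.u t) (ρ D.s z)) =
      (∑ t ∈ Finset.univ.erase (0 : F), ψ (α * t⁻¹)) • D.J ρ z := by
    have : ∀ t' : F, ρ (D.u t') (∑ t ∈ Finset.univ.erase (0 : F),
        ψ (α * t⁻¹) • ρ (D.u t) (ρ D.s z)) = ∑ t ∈ Finset.univ.erase (0 : F),
        ψ (α * t⁻¹) • ρ (D.u t') (ρ (D.u t) (ρ D.s z)) := by
      intro t'
      rw [map_sum]
      exact Finset.sum_congr rfl (fun t _ => map_smul _ _ _)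
    rw [Finset.sum_congr rfl (fun t' _ => this t'), Finset.sum_comm, Finset.sum_smul]
    refine Finset.sum_congr rfl (fun t _ => ?_)
    rw [← Finset.smul_sum, h5]
  have h8 : ∑ t ∈ Finset.univ.erase (0 : F), ψ (α * t⁻¹) = -1 := by
    have h9 : ∑ t ∈ Finset.univ.erase (0 : F), ψ (α * t⁻¹) =
        ∑ t ∈ Finset.univ.erase (0 : F), ψ t := by
      refine Finset.sum_bij (fun t _ => α * t⁻¹) ?_ ?_ ?_ ?_
      · intro t ht
        exact Finset.mem_erase.mpr ⟨mul_ne_zero hα (inv_ne_zero (Finset.ne_of_mem_erase ht)),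
          Finset.mem_univ _⟩
      · intro a _ b _ hab
        exact inv_injective (mul_left_cancel₀ hα hab)
      · intro b hb
        refine ⟨α * b⁻¹, Finset.mem_erase.mpr ⟨mul_ne_zero hα (inv_ne_zero
          (Finset.ne_of_mem_erase hb)), Finset.mem_univ _⟩, ?_⟩
        rw [mul_inv, inv_inv, mul_inv_cancel_left₀ hα]
      · intro t _
        rfl
    have h10 : ∑ t : F, ψ t = 0 := (AddChar.sum_eq_zero_iff_ne_zero).mpr hψ
    rw [← Finset.add_sum_erase _ _ (Finset.mem_univ (0 : F)), AddChar.map_zero_eq_one] at h10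
    rw [h9]
    exact eq_neg_of_add_eq_zero_right h10
  have h9 : ((Fintype.card F : ℂ) + 1) • D.J ρ z = 0 := by
    have h10 := congrArg (fun w => ∑ t' : F, ρ (D.u t') w) h4
    rw [h6, h7, h8] at h10
    rw [add_smul, one_smul, h10, neg_smul, one_smul, neg_add_cancel]
  have h10 : D.J ρ z = 0 := by
    refine (smul_eq_zero.mp h9).resolve_left ?_
    exact_mod_cast Nat.succ_ne_zero (Fintype.card F)
  rw [h10, add_zero] at hz
  exact h0 hz

/-- the sum over the projective line -/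
theorem line_s {x : W} (hu : ∀ t, ρ (D.u t) x = x) (hh : ∀ c, ρ (D.h c) x = x) :
    ρ D.s (x + D.J ρ x) = x + D.J ρ x := by
  classical
  have h1 : ∀ t : Fˣ, ρ D.s (ρ (D.u t) (ρ D.s x)) = ρ (D.u (-((t⁻¹ : Fˣ) : F))) (ρ D.s x) := by
    intro t
    have h2 : ρ D.s (ρ (D.u t) (ρ D.s x)) = ρ (D.s * D.u t * D.s) x := by rw [mulapp, mulapp]
    rw [h2, D.sus, mulapp, hu, mulapp, mulapp]
    congr 1
    rw [← mulapp, D.hs, mulapp, hh]
  have h2 : ρ D.s (D.J ρ x) = x + ∑ t ∈ Finset.univ.erase (0 : F), ρ (D.u t) (ρ D.s x) := by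
    rw [J_apply, map_sum, ← Finset.add_sum_erase _ _ (Finset.mem_univ (0 : F))]
    congr 1
    · rw [D.u_zero, map_one, Module.End.one_apply, ← mulapp, D.ss, hh]
    · refine Finset.sum_bij (fun t _ => -t⁻¹) ?_ ?_ ?_ ?_
      · intro t ht
        refine Finset.mem_erase.mpr ⟨neg_ne_zero.mpr (inv_ne_zero (Finset.ne_of_mem_erase ht)),
          Finset.mem_univ _⟩
      · intro a _ b _ hab
        exact inv_injective (neg_injective hab)
      · intro b hb
        refine ⟨-b⁻¹, Finset.mem_erase.mpr ⟨neg_ne_zero.mpr (inv_ne_zero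
          (Finset.ne_of_mem_erase hb)), Finset.mem_univ _⟩, ?_⟩
        rw [inv_neg, inv_inv, neg_neg]
      · intro t ht
        have h4 := h1 (Units.mk0 t (Finset.ne_of_mem_erase ht))
        rw [Units.val_mk0] at h4
        rw [h4, Units.val_inv_eq_inv_val, Units.val_mk0]
  have h3 : D.J ρ x = ρ D.s x + ∑ t ∈ Finset.univ.erase (0 : F), ρ (D.u t) (ρ D.s x) := by
    rw [J_apply, ← Finset.add_sum_erase _ _ (Finset.mem_univ (0 : F)), D.u_zero, map_one]
    rfl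
  rw [map_add, h2, h3]
  abel

theorem line_J {x : W} (hu : ∀ t, ρ (D.u t) x = x) (hh : ∀ c, ρ (D.h c) x = x) :
    D.J ρ (x + D.J ρ x) = (Fintype.card F : ℂ) • (x + D.J ρ x) := by
  rw [J_apply, D.line_s ρ hu hh, Finset.sum_congr rfl (fun t _ => by
    rw [map_add, hu, D.J_u] : ∀ t ∈ Finset.univ, ρ (D.u t) (x + D.J ρ x) = x + D.J ρ x),
    Finset.sum_const, Finset.card_univ, ← Nat.cast_smul_eq_nsmul ℂ]

/-- the Steinberg component -/
theorem steinberg_of {x : W} (hu : ∀ t, ρ (D.u t) x = x) (hh : ∀ c, ρ (D.h c) x = x)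
    (hs : ρ D.s x ≠ x) :
    ∃ z : W, z ≠ 0 ∧ z = ((Fintype.card F : ℂ) + 1) • x - (x + D.J ρ x) ∧ z + D.J ρ z = 0 := by
  refine ⟨_, ?_, rfl, ?_⟩
  · intro h
    apply hs
    have h1 : ((Fintype.card F : ℂ) + 1) • x = x + D.J ρ x := sub_eq_zero.mp h
    have h2 := D.line_s ρ hu hh
    rw [← h1, map_smul] at h2
    refine smul_right_injective W (r := ((Fintype.card F : ℂ) + 1)) ?_ h2
    exact_mod_cast Nat.succ_ne_zero (Fintype.card F)
  · rw [map_sub, map_smul, D.line_J ρ hu hh]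
    rw [smul_add, add_smul, one_smul]
    module

end SD

end H44.OD
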