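import Cfsg.Agent.Lib.H44.OD1
import Cfsg.Agent.Lib.H44.OD2

/-! The rank one data in `Om (hyp Q)` for the root `e₁ - e₂`. -/

set_option autoImplicit false
set_option linter.unusedSectionVars false

namespace H44.OM

open Module QuadraticMap H7.Hyp H7.Omega H7.OmegaIso H7.HypStd H44.OD

variable {F : Type*} [Field F] {V : Type*} [AddCommGroup V] [Module F V] {Q : QuadraticForm F V}

/-- root elements -/
def uu (Q : QuadraticForm F V) (t : F) : Om (hyp Q) := e (hyp Q) (0, t, 0)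

theorem uu_apply (t x y a b : F) (v : V) : (uu Q t).1 (x, y, (a, b, v)) =
    (x - t * a, y, (a, b + t * y, v)) := by
  change E (hyp Q) (0, t, 0) (x, y, (a, b, v)) = _
  rw [E_apply]
  simp only [polar_hyp, hyp_apply, Prod.mk_add_mk, Prod.smul_mk, smul_eq_mul, mul_zero,
    zero_mul, add_zero, QuadraticMap.map_zero, smul_zero, QuadraticMap.polar_zero_right,
    sub_zero]
  refine Prod.ext ?_ (Prod.ext ?_ (Prod.ext ?_ (Prod.ext ?_ ?_)))
  · simp only; ring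
  · simp only
  · simp only
  · simp only; ring
  · simp only

theorem rr_apply (t x y a b : F) (v : V) : (e (hyp Q) (t, 0, 0)).1 (x, y, (a, b, v)) =
    (x - t * b, y, (a + t * y, b, v)) := by
  change E (hyp Q) (t, 0, 0) (x, y, (a, b, v)) = _
  rw [E_apply]
  simp only [polar_hyp, hyp_apply, Prod.mk_add_mk, Prod.smul_mk, smul_eq_mul, mul_zero,
    zero_mul, add_zero, QuadraticMap.map_zero, smul_zero, QuadraticMap.polar_zero_right,
    sub_zero]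
  refine Prod.ext ?_ (Prod.ext ?_ (Prod.ext ?_ (Prod.ext ?_ ?_)))
  · simp only; ring
  · simp only
  · simp only; ring
  · simp only
  · simp only

/-- the torus element -/
def TT (c : Fˣ) : (F × F × (F × F × V)) ≃ₗ[F] (F × F × (F × F × V)) := T c * emb (T c⁻¹)

theorem TT_apply (c : Fˣ) (x y a b : F) (v : V) :
    TT c (x, y, (a, b, v)) =
      (c * x, ((c⁻¹ : Fˣ) : F) * y, (((c⁻¹ : Fˣ) : F) * a, c * b, v)) := by
  rw [TT, LinearEquiv.mul_apply, emb_apply, T_apply, T_apply, inv_inv]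

theorem mul5 {X : Type*} [AddCommGroup X] [Module F X] (g1 g2 g3 g4 g5 : X ≃ₗ[F] X) (x : X) :
    (g1 * g2 * g3 * g4 * g5) x = g1 (g2 (g3 (g4 (g5 x)))) := rfl

theorem TT_eq (c : Fˣ) : (TT c : (F × F × (F × F × V)) ≃ₗ[F] _) * (sw Q).1 =
    (uu Q (-c)).1 * (sw Q).1 * (uu Q (-((c⁻¹ : Fˣ) : F))).1 * (sw Q).1 * (uu Q (-c)).1 := by
  apply LinearEquiv.ext
  rintro ⟨x, y, a, b, v⟩
  rw [mul5, LinearEquiv.mul_apply, uu_apply, sw_apply, sw_apply, uu_apply, sw_apply, uu_apply,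
    TT_apply, Units.val_inv_eq_inv_val]
  have hc : (c : F) ≠ 0 := c.ne_zero
  refine Prod.ext ?_ (Prod.ext ?_ (Prod.ext ?_ (Prod.ext ?_ ?_)))
  · simp only; field_simp; ring
  · simp only; field_simp; ring
  · simp only; field_simp; ring
  · simp only; field_simp; ring
  · simp only

theorem TT_mem (c : Fˣ) : (TT c : (F × F × (F × F × V)) ≃ₗ[F] _) ∈ Om (hyp Q) := by
  have h1 := eq_mul_inv_of_mul_eq (TT_eq (Q := Q) c)
  rw [h1]
  exact (Om _).mul_mem ((Om _).mul_mem ((Om _).mul_mem ((Om _).mul_mem ((Om _).mul_mem (uu Q _).2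
    (sw Q).2) (uu Q _).2) (sw Q).2) (uu Q _).2) ((Om _).inv_mem (sw Q).2)

/-- torus elements -/
def hc (Q : QuadraticForm F V) (c : Fˣ) : Om (hyp Q) := ⟨TT c, TT_mem c⟩

theorem hc_apply (c : Fˣ) (x y a b : F) (v : V) : (hc Q c).1 (x, y, (a, b, v)) =
    (c * x, ((c⁻¹ : Fˣ) : F) * y, (((c⁻¹ : Fˣ) : F) * a, c * b, v)) := TT_apply c x y a b v

theorem ext5 {g g' : Om (hyp Q)} (h : ∀ x y a b v, g.1 (x, y, (a, b, v)) = g'.1 (x, y, (a, b, v))) :
    g = g' := by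
  apply Subtype.ext
  apply LinearEquiv.ext
  rintro ⟨x, y, a, b, v⟩
  exact h x y a b v

theorem mul_app (g g' : Om Q) (x : F × F × V) : (g * g').1 x = g.1 (g'.1 x) := rfl

theorem uu_zero : uu Q 0 = 1 := by
  rw [uu]
  exact e_zero

theorem uu_add (a b : F) : uu Q (a + b) = uu Q a * uu Q b := by
  rw [uu, uu, uu, ← e_add]
  congr 1
  simp

theorem hc_one : hc Q 1 = 1 := by
  apply ext5
  intro x y a b v
  rw [hc_apply]
  simp

theorem hc_mul (c d : Fˣ) : hc Q (c * d) = hc Q c * hc Q d := by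
  apply ext5
  intro x y a b v
  rw [mul_app, hc_apply, hc_apply, hc_apply]
  simp only [mul_inv, Units.val_mul]
  refine Prod.ext ?_ (Prod.ext ?_ (Prod.ext ?_ (Prod.ext ?_ ?_))) <;> simp only <;> ring

theorem sw_sw : sw Q * sw Q = hc Q (-1) := by
  apply ext5
  intro x y a b v
  rw [mul_app, sw_apply, sw_apply, hc_apply]
  simp

theorem hc_sw (c : Fˣ) : hc Q c * sw Q = sw Q * hc Q c⁻¹ := by
  apply ext5
  intro x y a b v
  rw [mul_app, mul_app, hc_apply, sw_apply, sw_apply, hc_apply, inv_inv]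
  refine Prod.ext ?_ (Prod.ext ?_ (Prod.ext ?_ (Prod.ext ?_ ?_))) <;> simp only <;> ring

theorem hc_uu (c : Fˣ) (t : F) : hc Q c * uu Q t = uu Q ((c : F) * c * t) * hc Q c := by
  apply ext5
  intro x y a b v
  have h : (c : F) ≠ 0 := c.ne_zero
  rw [mul_app, mul_app, hc_apply, uu_apply, hc_apply, uu_apply, Units.val_inv_eq_inv_val]
  refine Prod.ext ?_ (Prod.ext ?_ (Prod.ext ?_ (Prod.ext ?_ ?_)))
  · simp only; field_simp
  · simp only
  · simp only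
  · simp only; field_simp
  · simp only

theorem sus' (t : Fˣ) : sw Q * uu Q t * sw Q =
    uu Q (-((t⁻¹ : Fˣ) : F)) * hc Q (-(t⁻¹ : Fˣ)) * sw Q * uu Q (-((t⁻¹ : Fˣ) : F)) := by
  have h1 : hc Q (-(t⁻¹ : Fˣ)) * sw Q = uu Q (-((-(t⁻¹ : Fˣ) : Fˣ) : F)) * sw Q *
      uu Q (-(((-(t⁻¹ : Fˣ))⁻¹ : Fˣ) : F)) * sw Q * uu Q (-((-(t⁻¹ : Fˣ) : Fˣ) : F)) :=
    Subtype.ext (TT_eq (Q := Q) (-(t⁻¹ : Fˣ)))
  rw [mul_assoc (uu Q (-((t⁻¹ : Fˣ) : F))), h1]
  have h2 : -(((-(t⁻¹ : Fˣ))⁻¹ : Fˣ) : F) = t := by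
    rw [inv_neg, inv_inv, Units.val_neg, neg_neg]
  have h3 : -((-(t⁻¹ : Fˣ) : Fˣ) : F) = ((t⁻¹ : Fˣ) : F) := by
    rw [Units.val_neg, neg_neg]
  rw [h2, h3]
  have h4 : uu Q (-((t⁻¹ : Fˣ) : F)) * uu Q ((t⁻¹ : Fˣ) : F) = 1 := by
    rw [← uu_add, neg_add_cancel, uu_zero]
  have h5 : uu Q ((t⁻¹ : Fˣ) : F) * uu Q (-((t⁻¹ : Fˣ) : F)) = 1 := by
    rw [← uu_add, add_neg_cancel, uu_zero]
  calc sw Q * uu Q t * sw Q = (uu Q (-((t⁻¹ : Fˣ) : F)) * uu Q ((t⁻¹ : Fˣ) : F)) *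
        (sw Q * uu Q t * sw Q) * (uu Q ((t⁻¹ : Fˣ) : F) * uu Q (-((t⁻¹ : Fˣ) : F))) := by
        rw [h4, h5, one_mul, mul_one]
    _ = _ := by group

/-- the rank one data -/
def sd (Q : QuadraticForm F V) : SD F (Om (hyp Q)) where
  u := uu Q
  s := sw Q
  h := hc Q
  u_zero := uu_zero
  u_add := uu_add
  h_one := hc_one
  h_mul := hc_mul
  ss := sw_sw
  sus := sus'
  hs := hc_sw
  hu := hc_uu

end H44.OM
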