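import Cfsg.Agent.Lib.H44.OD3

/-! Relations between the rank one data at different levels. -/

set_option autoImplicit false
set_option linter.unusedSectionVars false

namespace H44.OM

open Module QuadraticMap H7.Hyp H7.Omega H7.OmegaIso H7.HypStd H44.OD

variable {F : Type*} [Field F] {V : Type*} [AddCommGroup V] [Module F V] {Q : QuadraticForm F V}

theorem l_apply (hQ : ND Q) (k : Om Q) (x y : F) (z : F × F × V) :
    (l hQ k).1 (x, y, z) = (x, y, k.1 z) := rfl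

theorem hc_val (c : Fˣ) : (hc Q c).1 = T c * emb (T c⁻¹) := rfl

theorem hc_e (c : Fˣ) (r t : F) (v : V) : hc Q c * e (hyp Q) (r, t, v) =
    e (hyp Q) (r, (c : F) * c * t, (c : F) • v) * hc Q c := by
  apply Subtype.ext
  change T c * emb (T c⁻¹) * E (hyp Q) (r, t, v) =
    E (hyp Q) (r, (c : F) * c * t, (c : F) • v) * (T c * emb (T c⁻¹))
  have h1 := emb_E (Q := hyp Q) (T_mem Q c⁻¹) (r, t, v)
  rw [mul_inv_eq_iff_eq_mul, T_apply, inv_inv] at h1
  have h2 := T_E (hyp Q) c (((c⁻¹ : Fˣ) : F) * r, (c : F) * t, v)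
  rw [mul_inv_eq_iff_eq_mul] at h2
  have h3 : (c : F) • ((((c⁻¹ : Fˣ) : F) * r, (c : F) * t, v) : F × F × V) =
      (r, (c : F) * c * t, (c : F) • v) := by
    rw [Prod.smul_mk, Prod.smul_mk, smul_eq_mul, smul_eq_mul, Units.mul_inv_cancel_left, mul_assoc]
  rw [h3] at h2
  rw [mul_assoc, h1, ← mul_assoc, h2, mul_assoc]

theorem hc_l (hQ : ND Q) (c : Fˣ) (v : V) : hc Q c * l hQ (e Q v) =
    l hQ (e Q (((c⁻¹ : Fˣ) : F) • v)) * hc Q c := by
  apply Subtype.ext
  change T c * emb (T c⁻¹) * emb (E Q v) = emb (E Q (((c⁻¹ : Fˣ) : F) • v)) * (T c * emb (T c⁻¹))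
  have h2 := T_E Q c⁻¹ v
  rw [mul_inv_eq_iff_eq_mul] at h2
  rw [mul_assoc, ← map_mul, h2, map_mul, ← mul_assoc, T_emb, mul_assoc]

theorem hc_comm (c d : Fˣ) : hc Q c * hc Q d = hc Q d * hc Q c := by
  rw [← hc_mul, ← hc_mul, mul_comm]

section two

/-- elements of depth two commute with the first rank one data -/
theorem ll_sw (hQ : ND Q) (k : Om Q) : l hQ.hyp (l hQ k) * sw (hyp Q) =
    sw (hyp Q) * l hQ.hyp (l hQ k) := by
  apply ext5
  intro x y a b v
  rw [mul_app, mul_app, l_apply, l_apply, sw_apply, sw_apply, l_apply, l_apply]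

theorem ll_uu (hQ : ND Q) (k : Om Q) (t : F) : l hQ.hyp (l hQ k) * uu (hyp Q) t =
    uu (hyp Q) t * l hQ.hyp (l hQ k) := by
  apply ext5
  intro x y a b v
  rw [mul_app, mul_app, l_apply, l_apply, uu_apply, uu_apply, l_apply, l_apply]

theorem ll_hc (hQ : ND Q) (k : Om Q) (c : Fˣ) : l hQ.hyp (l hQ k) * hc (hyp Q) c =
    hc (hyp Q) c * l hQ.hyp (l hQ k) := by
  apply ext5
  intro x y a b v
  rw [mul_app, mul_app, l_apply, l_apply, hc_apply, hc_apply, l_apply, l_apply]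

theorem ext7 {g g' : Om (hyp (hyp Q))} (h : ∀ x y a b c d v,
    g.1 (x, y, (a, b, (c, d, v))) = g'.1 (x, y, (a, b, (c, d, v)))) : g = g' := by
  apply Subtype.ext
  apply LinearEquiv.ext
  rintro ⟨x, y, a, b, c, d, v⟩
  exact h x y a b c d v

theorem h2_s1 (hQ : ND Q) (c : Fˣ) : l hQ.hyp (hc Q c) * sw (hyp Q) =
    sw (hyp Q) * (hc (hyp Q) c * l hQ.hyp (hc Q c)) := by
  apply ext7
  intro x y a b p r v
  rw [mul_app, mul_app, mul_app, sw_apply, l_apply, l_apply, hc_apply, hc_apply, hc_apply, sw_apply]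
  refine Prod.ext ?_ (Prod.ext ?_ (Prod.ext ?_ (Prod.ext ?_ (Prod.ext ?_ (Prod.ext ?_ ?_))))) <;>
    simp

theorem h2_u1 (hQ : ND Q) (c : Fˣ) (t : F) : l hQ.hyp (hc Q c) * uu (hyp Q) t =
    uu (hyp Q) (((c⁻¹ : Fˣ) : F) * t) * l hQ.hyp (hc Q c) := by
  apply ext7
  intro x y a b p r v
  have h : (c : F) ≠ 0 := c.ne_zero
  rw [mul_app, mul_app, uu_apply, l_apply, l_apply, hc_apply, hc_apply, uu_apply,
    Units.val_inv_eq_inv_val]
  refine Prod.ext ?_ (Prod.ext ?_ (Prod.ext ?_ (Prod.ext ?_ (Prod.ext ?_ (Prod.ext ?_ ?_)))))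
  · simp only; field_simp
  · simp only
  · simp only
  · simp only; field_simp
  · simp only
  · simp only
  · simp only

theorem h1_s2 (hQ : ND Q) (c : Fˣ) : hc (hyp Q) c * l hQ.hyp (sw Q) =
    l hQ.hyp (sw Q) * (hc (hyp Q) c * l hQ.hyp (hc Q c)) := by
  apply ext7
  intro x y a b p r v
  have h : (c : F) ≠ 0 := c.ne_zero
  rw [mul_app, mul_app, mul_app, l_apply, l_apply, l_apply, hc_apply, sw_apply, hc_apply, hc_apply,
    sw_apply, Units.val_inv_eq_inv_val]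
  refine Prod.ext ?_ (Prod.ext ?_ (Prod.ext ?_ (Prod.ext ?_ (Prod.ext ?_ (Prod.ext ?_ ?_)))))
  · simp only
  · simp only
  · simp only; field_simp
  · simp only; field_simp
  · simp only; field_simp
  · simp only; field_simp
  · simp only

theorem h1_u2 (hQ : ND Q) (c : Fˣ) (t : F) : hc (hyp Q) c * l hQ.hyp (uu Q t) =
    l hQ.hyp (uu Q (((c⁻¹ : Fˣ) : F) * t)) * hc (hyp Q) c := by
  have h1 := hc_l hQ.hyp c (0, t, 0)
  rw [Prod.smul_mk, Prod.smul_mk, smul_zero, smul_zero, smul_eq_mul] at h1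
  exact h1

theorem h1_h2 (hQ : ND Q) (c d : Fˣ) : hc (hyp Q) c * l hQ.hyp (hc Q d) =
    l hQ.hyp (hc Q d) * hc (hyp Q) c := by
  apply ext7
  intro x y a b p r v
  rw [mul_app, mul_app, l_apply, l_apply, hc_apply, hc_apply, hc_apply, hc_apply]
  refine Prod.ext ?_ (Prod.ext ?_ (Prod.ext ?_ (Prod.ext ?_ (Prod.ext ?_ (Prod.ext ?_ ?_)))))
  · simp only
  · simp only
  · simp only; ring
  · simp only; ring
  · simp only
  · simp only
  · simp only

end two

/-- commutation of `l (e v)` with the root elements -/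
theorem le_uu (hQ : ND Q) (v : V) (t : F) : l hQ (e Q v) * uu Q t =
    uu Q t * (e (hyp Q) (-(Q v) * t, 0, 0) * e (hyp Q) (0, 0, t • v)) * l hQ (e Q v) := by
  rw [uu, l_e, ← e_add, ← e_add]
  congr 2
  change E Q v (0, t, 0) = _
  rw [E_apply, QuadraticMap.polar_zero_left]
  simp

end H44.OM
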