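import Cfsg.Agent.Lib.H44.TSysSL2
import Cfsg.Agent.Lib.H4.TwoTrans

/-! The minimal degree of `SL_n`: lower bound. -/

set_option autoImplicit false

open Matrix

namespace H44.TSysSL

open Module H44.TSys H44.LSLinear

universe u z

variable {F : Type u} [Field F] [Fintype F] {ι : Type} [Fintype ι] [DecidableEq ι]
variable {W : Type z} [AddCommGroup W] [Module ℂ W]
variable {ψ : AddChar F ℂ} {ρ : Representation ℂ (Matrix.SpecialLinearGroup ι F) W}

theorem range_e (hι : 2 ≤ Fintype.card ι) (p y : ι → F) :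
    LinearMap.range (e ψ ρ (tv (F := F) (ι := ι)) p y) = wS ψ ρ p y := by
  apply le_antisymm
  · rintro _ ⟨x, rfl⟩ φ hφ
    rw [← Module.End.mul_apply, T_e (sys hι ρ) p y φ hφ, LinearMap.smul_apply]
  · intro x hx
    exact ⟨x, e_apply_of_mem p y x hx⟩

theorem lower [FiniteDimensional ℂ W] (hι : 3 ≤ Fintype.card ι)
    (hex : (Fintype.card ι, Fintype.card F) ≠ (3, 2) ∧ (Fintype.card ι, Fintype.card F) ≠ (3, 4) ∧
      (Fintype.card ι, Fintype.card F) ≠ (4, 2) ∧ (Fintype.card ι, Fintype.card F) ≠ (4, 3))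
    (hρ : ρ.IsIrreducible) (h2 : 2 ≤ finrank ℂ W) :
    D (Fintype.card F) (Fintype.card ι) ≤ finrank ℂ W := by
  classical
  have hS := sys (by omega : 2 ≤ Fintype.card ι) ρ
  have hX : finrank F (ι → F) = Fintype.card ι := Module.finrank_fintype_fun_eq_card F
  obtain ⟨ψ, hψ⟩ : ∃ ψ : AddChar F ℂ, ψ ≠ 0 := by
    obtain ⟨ψ, hψ⟩ := (AddChar.exists_apply_ne_zero (a := (1 : F))).mpr one_ne_zero
    exact ⟨ψ, fun h => hψ (by rw [h]; rfl)⟩
  obtain ⟨m, hm⟩ := exists_mult (ψ := ψ) hS hψ (by rw [hX]; exact hι)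
  obtain ⟨p, y, φ, hp, hy, hφ, hφp, hφy⟩ := exists_flag (F := F) (X := ι → F) (by rw [hX]; exact hι)
  have hN0 : ((Fintype.card F : ℂ) ^ (finrank F (ι → F) - 1)) ≠ 0 :=
    pow_ne_zero _ (by exact_mod_cast Fintype.card_ne_zero)
  rcases (by omega : m = 0 ∨ m = 1 ∨ 2 ≤ m) with hm0 | hm1 | hm2
  · exfalso
    obtain ⟨g, hg⟩ := H44.LSIrr.exists_ne_one ρ hρ h2
    apply hg
    have key : ∀ (x : ι → F) (ω : Dual F (ι → F)), ρ (tv x ω) = 1 := by
      intro x ω
      by_cases hx : x = 0
      · rw [hx, hS.zero_left]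
      by_cases hω : ω = 0
      · rw [hω, hS.zero]
      by_cases h0 : ω x = 0
      · have h3 := hm x ω hx hω h0
        rw [hm0] at h3
        have h4 := (H4.Eigen.char_eq_degree_iff ρ (tv x ω)).mp (by rw [h3]; simp)
        exact h4
      · exact hS.junk x ω h0
    have hgm : g ∈ Subgroup.closure (Set.range fun x : (ι → F) × Dual F (ι → F) =>
        tv x.1 x.2) := by
      rw [hS.gen]; trivial
    induction hgm using Subgroup.closure_induction with
    | mem x hx =>
      obtain ⟨y, rfl⟩ := hx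
      exact key _ _
    | one => exact map_one _
    | mul x y _ _ hx hy =>
      by_cases h5 : ρ x = 1
      · by_cases h6 : ρ y = 1
        · rw [map_mul, h5, h6, mul_one]
        · exact absurd (hy h6) h6
      · exact absurd (hx h5) h5
    | inv x _ hx =>
      by_cases h5 : ρ x = 1
      · have := rho_inv_mul (ρ := ρ) x
        rw [h5, mul_one] at this
        exact this
      · exact absurd (hx h5) h5
  · have hM : M1 (X := ι → F) ρ tv := by
      intro x ω hx hω h0
      rw [hm x ω hx hω h0, hm1]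
      push_cast
      ring
    have hT : TP (X := ι → F) ψ ρ tv := by
      apply TP_SL hι hex
      intro p y hp hy
      have h3 := trace_e_one (ψ := ψ) hS hψ hM hp hy
      rw [trace_idem (e_idem hS p y), range_e (by omega)] at h3
      exact_mod_cast h3
    exact claim ψ hψ (Fintype.card ι) hι (ι → F) (Matrix.SpecialLinearGroup ι F) W ρ tv hX hS hM hT
  · have h3 := trace_e_zero (ψ := ψ) hS p _ (fun φ' h4 h5 => hm p φ' hp h4 h5)
    rw [trace_idem (e_idem hS p 0), card_P p hp] at h3
    have h4 : ((finrank ℂ (LinearMap.range (e ψ ρ (tv (F := F) (ι := ι)) p 0)) +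
        m * Fintype.card F ^ (finrank F (ι → F) - 1) : ℕ) : ℂ) = ((finrank ℂ W + m : ℕ) : ℂ) := by
      push_cast
      rw [h3]
      push_cast
      field_simp
      ring
    have h5 : finrank ℂ (LinearMap.range (e ψ ρ (tv (F := F) (ι := ι)) p 0)) +
        m * Fintype.card F ^ (finrank F (ι → F) - 1) = finrank ℂ W + m := by exact_mod_cast h4
    rw [hX] at h5
    have hq : 2 ≤ Fintype.card F := Fintype.one_lt_card
    have h6 := geom (Fintype.card F) (Fintype.card ι - 1) (by omega)
    rw [D_eq _ _ (by omega)]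
    set M := ∑ j ∈ Finset.range (Fintype.card ι - 1), Fintype.card F ^ j with hM
    rw [← h6] at h5
    obtain ⟨r, hr⟩ : ∃ r, Fintype.card F = r + 2 := ⟨Fintype.card F - 2, by omega⟩
    have h7 : Fintype.card F - 1 = r + 1 := by omega
    rw [h7] at h5
    rw [hr]
    have h8 : 2 * ((r + 1) * M) ≤ m * ((r + 1) * M) := Nat.mul_le_mul_right _ hm2
    nlinarith


theorem upper {n : ℕ} (hn : 2 ≤ n) : ∃ ρ : Representation ℂ (Matrix.SpecialLinearGroup (Fin n) F)
    (Fin (D (Fintype.card F) n) → ℂ), ρ.IsIrreducible := by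
  classical
  have hcard : Nat.card (Projectivization F (Fin n → F)) =
      ∑ i ∈ Finset.range n, Fintype.card F ^ i := by
    rw [Projectivization.card_of_finrank F (Fin n → F) (n := n) (by simp), Nat.card_eq_fintype_card]
  have h1 : Nat.card (Projectivization F (Fin n → F)) = D (Fintype.card F) n + 1 := by
    rw [hcard, D, Finset.range_eq_Ico, ← Finset.sum_Ico_consecutive _ (show 0 ≤ 1 by norm_num)
      (show 1 ≤ n by omega)]
    simp
    ring
  have hD : 1 ≤ D (Fintype.card F) n := by
    have h2 : 1 ∈ Finset.Ico 1 n := by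
      rw [Finset.mem_Ico]; omega
    have h3 := Finset.single_le_sum (f := fun j => Fintype.card F ^ j) (fun _ _ => Nat.zero_le _) h2
    have h4 : 1 ≤ Fintype.card F ^ 1 := Nat.one_le_pow _ _ Fintype.card_pos
    exact h4.trans h3
  have h2 := (H4.TwoTrans.isIrr_iff_two_trans (G := Matrix.SpecialLinearGroup (Fin n) F)
    (Projectivization F (Fin n → F)) (by omega)).mpr inferInstance
  obtain ⟨k, ρ, hρ, h3⟩ := h2
  have h4 := congrFun h3 1
  rw [Representation.char_one] at h4
  have h5 : H4.TwoTrans.permChar (Matrix.SpecialLinearGroup (Fin n) F)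
      (Projectivization F (Fin n → F)) 1 = (D (Fintype.card F) n + 1 : ℕ) := by
    rw [H4.TwoTrans.permChar, ← h1]
    congr 1
    have : MulAction.fixedBy (Projectivization F (Fin n → F))
        (1 : Matrix.SpecialLinearGroup (Fin n) F) = Set.univ := by
      ext x; simp [MulAction.mem_fixedBy]
    rw [this]
    simp
  rw [h5] at h4
  have h6 : k = D (Fintype.card F) n := by
    have h7 : (k : ℂ) = D (Fintype.card F) n := by
      rw [Module.finrank_fintype_fun_eq_card, Fintype.card_fin] at h4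
      rw [h4]
      push_cast
      ring
    exact_mod_cast h7
  subst h6
  exact ⟨ρ, hρ⟩

end H44.TSysSL
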