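import Cfsg.Agent.Lib.H44.OM11
import Cfsg.Agent.Lib.H44.TSysLower
import Cfsg.Agent.Lib.H7.LowRank6p

/-! The base case: six-dimensional hyperbolic spaces. -/

set_option autoImplicit false
set_option linter.unusedSectionVars false

namespace H44.OM

open Module QuadraticMap H7.Hyp H7.Omega H7.OmegaIso H7.HypStd H48.QuadStd
open scoped commutatorElement

theorem triv_of_perfect {G : Type*} [Group G] (hG : commutator G = ⊤) {W : Type*} [AddCommGroup W]
    [Module ℂ W] (ρ : Representation ℂ G W) (h1 : finrank ℂ W = 1) (g : G) : ρ g = 1 := by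
  have hfr : finrank ℂ (LinearMap.range (1 : Module.End ℂ W)) = 1 := by
    rw [show (1 : Module.End ℂ W) = LinearMap.id from rfl, LinearMap.range_id, finrank_top, h1]
  have hg : g ∈ commutator G := by rw [hG]; trivial
  rw [commutator_eq_closure] at hg
  induction hg using Subgroup.closure_induction with
  | mem x hx =>
    obtain ⟨a, b, rfl⟩ := hx
    have := comm_P ρ (P := 1) (one_mul 1) hfr (g1 := a) (g2 := b) (t := ⁅a, b⁆)
      (by rw [one_mul, mul_one]) (by rw [one_mul, mul_one]) (by rw [commutatorElement_def]; group)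
    rwa [mul_one] at this
  | one => exact map_one ρ
  | mul x y hx hy h1 h2 => rw [map_mul, h1, h2, mul_one]
  | inv x hx h1 =>
    have h2 : ρ x⁻¹ * ρ x = 1 := by rw [← map_mul, inv_mul_cancel, map_one]
    rwa [h1, mul_one] at h2

theorem LB_SL4 {F : Type*} [Field F] [Fintype F] (hq : 4 ≤ Fintype.card F) :
    LB (Matrix.SpecialLinearGroup (Fin 2 ⊕ Fin 2) F)
      (Fintype.card F ^ 3 + Fintype.card F ^ 2 + Fintype.card F) := by
  have : Finite (Matrix.SpecialLinearGroup (Fin 2 ⊕ Fin 2) F) := inferInstance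
  apply LB_of_irr
  intro W _ _ _ ρ hρ hg
  have hpos := H4.CharBasic.finrank_pos_of_isIrreducible hρ
  have h2 : 2 ≤ finrank ℂ W := by
    by_contra hcon
    obtain ⟨g, hg⟩ := hg
    exact hg (triv_of_perfect (H6.SLGen.commutator_eq_top (by simp)) ρ (by omega) g)
  have h3 := H44.TSysSL.lower (ρ := ρ) (by simp) (by
    refine ⟨?_, ?_, ?_, ?_⟩ <;>
    · intro h
      have h1 := congrArg Prod.fst h
      have h2 := congrArg Prod.snd h
      simp at h1 h2 <;> omega) hρ h2
  refine le_trans (le_of_eq ?_) h3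
  have h4 : Fintype.card (Fin 2 ⊕ Fin 2) = 1 + 1 + 1 + 1 := by simp
  rw [h4, H44.TSys.D_succ _ _ (by omega), H44.TSys.D_succ _ _ (by omega), H44.TSys.D_two]
  ring

theorem qneg_equiv {F : Type*} [Field F] : (H7.LowRank.qneg F).Equivalent (qPlus 1 F) := by
  refine ⟨⟨{ toFun := fun v => Sum.elim ![-v.1] ![v.2]
             invFun := fun w => (-w (.inl 0), w (.inr 0))
             map_add' := fun v w => ?_
             map_smul' := fun c v => ?_
             left_inv := fun v => ?_
             right_inv := fun w => ?_ }, fun v => ?_⟩⟩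
  · funext i
    rcases i with i | i <;> fin_cases i
    · simp; ring
    · simp
  · funext i
    rcases i with i | i <;> fin_cases i <;> simp
  · simp
  · funext i
    rcases i with i | i <;> fin_cases i <;> simp
  · change qPlus 1 F (Sum.elim ![-v.1] ![v.2]) = _
    rw [qPlus_apply, H7.LowRank.qneg_apply]
    simp

open H7.LowRank in
theorem exists_hom_SL4 {F : Type*} [Field F] :
    ∃ f : Matrix.SpecialLinearGroup (Fin 2 ⊕ Fin 2) F →* Om (hyp (qneg F)),
      Function.Surjective f := by
  obtain ⟨ρ, hr, -⟩ := exists_rho (Q := hyp (qneg F))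
    (G := Matrix.SpecialLinearGroup (Fin 2 ⊕ Fin 2) F)
    (X := Matrix (Fin 2 ⊕ Fin 2) (Fin 2 ⊕ Fin 2) F)
    (fun g A => g.1 * A * g.1.transpose) (by intro x; simp) (by
      intro g h x
      change (g.1 * h.1) * x * (g.1 * h.1).transpose = _
      rw [Matrix.transpose_mul]
      simp only [Matrix.mul_assoc]) tau6 tau6_injective uSL lSL (by
      rintro ⟨b', c', a', d'⟩ ⟨x, y, b, c, a, d⟩
      change up b' c' a' d' * toA x y b c a d * (up b' c' a' d').transpose = _
      rw [up_act, E_apply, hyp_apply, polar_hyp, qneg_apply, polar_qneg]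
      simp only [tau6, Prod.fst_add, Prod.snd_add, Prod.smul_fst, Prod.smul_snd, smul_eq_mul]
      congr 1
      ring) (by
      rintro ⟨b', c', a', d'⟩ ⟨x, y, b, c, a, d⟩
      change lo b' c' a' d' * toA x y b c a d * (lo b' c' a' d').transpose = _
      rw [lo_act, E'_apply, hyp_apply, polar_hyp, qneg_apply, polar_qneg]
      simp only [tau6, Prod.fst_add, Prod.snd_add, Prod.smul_fst, Prod.smul_snd, smul_eq_mul]
      congr 1
      ring) gen_SL
  refine ⟨(MulEquiv.subgroupCongr hr).toMonoidHom.comp ρ.rangeRestrict, ?_⟩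
  exact (MulEquiv.subgroupCongr hr).surjective.comp ρ.rangeRestrict_surjective

/-- the base case -/
theorem LB_plus_base {F : Type*} [Field F] [Fintype F] (hq : 4 ≤ Fintype.card F) :
    LB (Om (hyp (qPlus 1 F))) (Fintype.card F ^ 3 + Fintype.card F ^ 2 + Fintype.card F) := by
  obtain ⟨f, hf⟩ := exists_hom_SL4 (F := F)
  exact ((LB_SL4 hq).of_hom f hf).congr (hyp_congr qneg_equiv)

end H44.OM
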