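import Cfsg.Agent.Lib.H44.OD4
import Cfsg.Agent.Lib.H44.OM12

/-! Fixed vectors and the rank one data. -/

set_option autoImplicit false
set_option linter.unusedSectionVars false

namespace H44.OM

open Module QuadraticMap H7.Hyp H7.Omega H7.OmegaIso H7.HypStd H44.OD
open scoped commutatorElement

section grp

variable {F : Type*} [Field F] {V : Type*} [AddCommGroup V] [Module F V] {Q : QuadraticForm F V}

theorem comm_top [Nontrivial V] (hQ : ND Q) : commutator (Om (hyp Q)) = ⊤ := by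
  rw [eq_top_iff]
  intro k _
  have h1 := perfect hQ k.2
  rw [← map_subtype_commutator'] at h1
  obtain ⟨k', hk', h2⟩ := h1
  have h3 : k' = k := Subtype.ext h2
  rwa [h3] at hk'

end grp

variable {F : Type*} [Field F] [Fintype F] {V : Type*} [AddCommGroup V] [Module F V] [Fintype V]
  {Q : QuadraticForm F V} {W : Type*} [AddCommGroup W] [Module ℂ W] [FiniteDimensional ℂ W]

/-- fixed by the Siegel elements -/
def Ef (ρ : Representation ℂ (Om (hyp Q)) W) (x : W) : Prop := ∀ w, ρ (e (hyp Q) w) x = x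

/-- fixed by the Siegel elements of the Levi subgroup -/
def Lf (hQ : ND Q) (ρ : Representation ℂ (Om (hyp Q)) W) (x : W) : Prop :=
  ∀ v, ρ (l hQ (e Q v)) x = x

theorem rel_app (ρ : Representation ℂ (Om (hyp Q)) W) {a b c d : Om (hyp Q)} (h : a * b = c * d)
    (x : W) : ρ a (ρ b x) = ρ c (ρ d x) := by
  rw [← SD.mulapp, h, SD.mulapp]

theorem s_e0 (hQ : ND Q) (ρ : Representation ℂ (Om (hyp Q)) W) {x : W} (hL : Lf hQ ρ x) (v : V) :
    ρ (e (hyp Q) (0, 0, v)) (ρ (sw Q) x) = ρ (sw Q) x := by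
  have h1 := rel_app ρ (sw_l hQ (-v)) x
  rw [neg_neg, hL] at h1
  exact h1.symm

theorem s_r (ρ : Representation ℂ (Om (hyp Q)) W) {x : W} (hE : Ef ρ x) (t : F) :
    ρ (e (hyp Q) (t, 0, 0)) (ρ (sw Q) x) = ρ (sw Q) x := by
  have h1 := rel_app ρ (sw_r t) x
  rw [hE] at h1
  exact h1.symm

theorem s_l (hQ : ND Q) (ρ : Representation ℂ (Om (hyp Q)) W) {x : W} (hE : Ef ρ x) (v : V) :
    ρ (l hQ (e Q v)) (ρ (sw Q) x) = ρ (sw Q) x := by
  have h1 := rel_app ρ (sw_e hQ v) x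
  rw [hE] at h1
  exact h1.symm

theorem e_split (r t : F) (v : V) : e (hyp Q) (r, t, v) =
    uu Q t * (e (hyp Q) (r, 0, 0) * e (hyp Q) (0, 0, v)) := by
  rw [uu, ← e_add, ← e_add]
  congr 1
  simp

theorem e_comm (w w' : V) : e Q w * e Q w' = e Q w' * e Q w := by
  rw [← e_add, ← e_add, add_comm]

theorem J_Ef (hQ : ND Q) (ρ : Representation ℂ (Om (hyp Q)) W) {x : W} (hE : Ef ρ x)
    (hL : Lf hQ ρ x) : Ef ρ ((sd Q).J ρ x) := by
  rintro ⟨r, t, v⟩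
  rw [e_split, SD.mulapp, SD.mulapp]
  have h1 : ∀ v, ρ (e (hyp Q) (0, 0, v)) ((sd Q).J ρ x) = (sd Q).J ρ x := by
    intro v
    rw [SD.J_apply, map_sum]
    refine Finset.sum_congr rfl (fun t' _ => ?_)
    change ρ (e (hyp Q) (0, 0, v)) (ρ (e (hyp Q) (0, t', 0)) (ρ (sw Q) x)) =
      ρ (e (hyp Q) (0, t', 0)) (ρ (sw Q) x)
    rw [rel_app ρ (e_comm _ _), s_e0 hQ ρ hL]
  have h2 : ∀ r, ρ (e (hyp Q) (r, 0, 0)) ((sd Q).J ρ x) = (sd Q).J ρ x := by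
    intro r
    rw [SD.J_apply, map_sum]
    refine Finset.sum_congr rfl (fun t' _ => ?_)
    change ρ (e (hyp Q) (r, 0, 0)) (ρ (e (hyp Q) (0, t', 0)) (ρ (sw Q) x)) =
      ρ (e (hyp Q) (0, t', 0)) (ρ (sw Q) x)
    rw [rel_app ρ (e_comm _ _), s_r ρ hE]
  rw [h1, h2]
  exact (sd Q).J_u ρ t x

theorem J_Lf (hQ : ND Q) (ρ : Representation ℂ (Om (hyp Q)) W) {x : W} (hE : Ef ρ x)
    (hL : Lf hQ ρ x) : Lf hQ ρ ((sd Q).J ρ x) := by
  intro v
  rw [SD.J_apply, map_sum]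
  refine Finset.sum_congr rfl (fun t _ => ?_)
  change ρ (l hQ (e Q v)) (ρ (uu Q t) (ρ (sw Q) x)) = ρ (uu Q t) (ρ (sw Q) x)
  rw [rel_app ρ (le_uu hQ v t), s_l hQ ρ hE, SD.mulapp, SD.mulapp, s_e0 hQ ρ hL, s_r ρ hE]

theorem Ef_u {ρ : Representation ℂ (Om (hyp Q)) W} {x : W} (hE : Ef ρ x) (t : F) :
    ρ ((sd Q).u t) x = x := hE _

/-- weights of partially fixed vectors -/
theorem PP_zero_of (hQ : ND Q) {ψ : AddChar F ℂ} (hψ : ψ ≠ 0) (ρ : Representation ℂ (Om (hyp Q)) W)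
    {η : W} (ha1 : ∀ v, ρ (e (hyp Q) (0, 0, v)) η = η)
    (hb1 : ∀ t : F, ρ (e (hyp Q) (t, 0, 0)) η = η) {α β : F} {v' : V} (h : β ≠ 0 ∨ v' ≠ 0) :
    PP ψ ρ (α, β, v') η = 0 := by
  obtain ⟨a, ha⟩ := exists_psi_ne hψ
  by_cases hβ : β = 0
  swap
  · have h3 := PP_apply_e hQ.hyp (ψ := ψ) ρ (α, β, v') (a / β, 0, 0) η
    rw [hb1, polar_hyp] at h3
    simp only [mul_zero, zero_add, QuadraticMap.polar_zero_right, add_zero] at h3
    rw [div_mul_cancel₀ _ hβ] at h3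
    have h4 : (ψ a - 1) • PP ψ ρ (α, β, v') η = 0 := by
      rw [sub_smul, one_smul, sub_eq_zero]
      exact h3.symm
    exact (smul_eq_zero.mp h4).resolve_left (sub_ne_zero.mpr ha)
  · have hv : v' ≠ 0 := h.resolve_left (fun h => h hβ)
    obtain ⟨w, hw⟩ : ∃ w, polar Q v' w ≠ 0 := by
      by_contra hcon
      push Not at hcon
      exact hv (hQ _ hcon)
    set y' := (a / polar Q v' w) • w with hy'
    have h5 : polar Q v' y' = a := by
      rw [hy', QuadraticMap.polar_smul_right, smul_eq_mul, div_mul_cancel₀ _ hw]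
    have h3 := PP_apply_e hQ.hyp (ψ := ψ) ρ (α, β, v') (0, 0, y') η
    rw [ha1, polar_hyp] at h3
    simp only [mul_zero, zero_mul, zero_add] at h3
    rw [h5] at h3
    have h4 : (ψ a - 1) • PP ψ ρ (α, β, v') η = 0 := by
      rw [sub_smul, one_smul, sub_eq_zero]
      exact h3.symm
    exact (smul_eq_zero.mp h4).resolve_left (sub_ne_zero.mpr ha)

theorem sum_PP_apply (hQ : ND Q) {ψ : AddChar F ℂ} (hψ : ψ ≠ 0)
    (ρ : Representation ℂ (Om (hyp Q)) W) (x : W) : ∑ y, PP ψ ρ y x = x := by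
  have h4 := LinearMap.congr_fun (sum_P hQ.hyp hψ (addF ρ)) x
  rw [LinearMap.sum_apply] at h4
  exact h4

theorem Ef_of_PP (hQ : ND Q) {ψ : AddChar F ℂ} (hψ : ψ ≠ 0) (ρ : Representation ℂ (Om (hyp Q)) W)
    {x : W} (h : ∀ y, y ≠ 0 → PP ψ ρ y x = 0) : Ef ρ x := by
  classical
  have h1 := sum_PP_apply hQ hψ ρ x
  rw [← Finset.add_sum_erase _ _ (Finset.mem_univ (0 : F × F × V)),
    Finset.sum_eq_zero (fun y hy => h y (Finset.ne_of_mem_erase hy)), add_zero] at h1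
  exact fun w => mem_range_zero hQ ρ ⟨x, h1⟩ w

theorem PP_of_Ef (hQ : ND Q) {ψ : AddChar F ℂ} (hψ : ψ ≠ 0) (ρ : Representation ℂ (Om (hyp Q)) W)
    {x : W} (h : Ef ρ x) : PP ψ ρ 0 x = x := by
  classical
  have h1 := sum_PP_apply hQ hψ ρ x
  rw [← Finset.add_sum_erase _ _ (Finset.mem_univ (0 : F × F × V)),
    Finset.sum_eq_zero (fun y hy => ?_), add_zero] at h1
  · exact h1
  · obtain ⟨a, ha⟩ := exists_psi_ne hψ
    obtain ⟨w, hw⟩ : ∃ w, polar (hyp Q) y w ≠ 0 := by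
      by_contra hcon
      push Not at hcon
      exact Finset.ne_of_mem_erase hy (hQ.hyp _ hcon)
    have h3 := PP_apply_e hQ.hyp (ψ := ψ) ρ y ((a / polar (hyp Q) y w) • w) x
    rw [h, QuadraticMap.polar_smul_right, smul_eq_mul, div_mul_cancel₀ _ hw] at h3
    have h4 : (ψ a - 1) • PP ψ ρ y x = 0 := by
      rw [sub_smul, one_smul, sub_eq_zero]
      exact h3.symm
    exact (smul_eq_zero.mp h4).resolve_left (sub_ne_zero.mpr ha)

/-- the fixed point criterion -/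
theorem fix_of_PP (hQ : ND Q) {ψ : AddChar F ℂ} (hψ : ψ ≠ 0) (ρ : Representation ℂ (Om (hyp Q)) W)
    {x : W} (hE : Ef ρ x) (hL : Lf hQ ρ x)
    (h : ∀ a, a ≠ 0 → PP ψ ρ (a, 0, 0) (ρ (sw Q) x) = 0) :
    ρ (sw Q) x = x ∧ ∀ c, ρ (hc Q c) x = x := by
  have h1 : Ef ρ (ρ (sw Q) x) := by
    refine Ef_of_PP hQ hψ ρ (fun y hy => ?_)
    obtain ⟨a, b, v⟩ := y
    by_cases hb : b ≠ 0 ∨ v ≠ 0
    · exact PP_zero_of hQ hψ ρ (s_e0 hQ ρ hL) (s_r ρ hE) hb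
    · push Not at hb
      obtain ⟨rfl, rfl⟩ := hb
      apply h
      rintro rfl
      exact hy rfl
  exact (sd Q).fix_of ρ (fun t => hE _) (fun t => h1 _)

section deep

theorem ll_PP {W : Type*} [AddCommGroup W] [Module ℂ W] [FiniteDimensional ℂ W] (hQ : ND Q)
    {ψ : AddChar F ℂ} (ρ : Representation ℂ (Om (hyp (hyp Q))) W)
    (k : Om Q) (a : F) : ρ (l hQ.hyp (l hQ k)) * PP ψ ρ (a, 0, 0) =
      PP ψ ρ (a, 0, 0) * ρ (l hQ.hyp (l hQ k)) := by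
  rw [l_PP hQ.hyp ρ, l_apply, map_zero]

theorem ll_triv [Nontrivial V] (hQ : ND Q) {ψ : AddChar F ℂ} (hψ : ψ ≠ 0)
    (ρ : Representation ℂ (Om (hyp (hyp (hyp Q)))) W) (k : Om (hyp Q)) {a : F}
    (hmu : mu ψ ρ (a, 0, 0) ≤ 1) :
    ρ (l hQ.hyp.hyp (l hQ.hyp k)) * PP ψ ρ (a, 0, 0) = PP ψ ρ (a, 0, 0) := by
  rcases Nat.le_one_iff_eq_zero_or_eq_one.mp hmu with h0 | h1
  · have h2 : PP ψ ρ (a, 0, 0) = 0 := (D_eq_zero_iff (ψ := ψ) _).mp h0
    rw [h2, mul_zero]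
  · have hk : k ∈ commutator (Om (hyp Q)) := by rw [comm_top hQ]; trivial
    rw [commutator_eq_closure] at hk
    induction hk using Subgroup.closure_induction with
    | mem x hx =>
      obtain ⟨a', b', rfl⟩ := hx
      exact comm_P ρ (PP_idem hQ.hyp.hyp hψ ρ _) h1
        (g1 := l hQ.hyp.hyp (l hQ.hyp a')) (g2 := l hQ.hyp.hyp (l hQ.hyp b'))
        (ll_PP hQ.hyp ρ _ _) (ll_PP hQ.hyp ρ _ _) (by
          rw [commutatorElement_def]
          simp only [map_mul, map_inv]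
          group)
    | one => rw [map_one, map_one, map_one, one_mul]
    | mul x y hx hy h1 h2 => rw [map_mul, map_mul, map_mul, mul_assoc, h2, h1]
    | inv x hx h1 =>
      have h2 : ρ (l hQ.hyp.hyp (l hQ.hyp x⁻¹)) * (ρ (l hQ.hyp.hyp (l hQ.hyp x)) *
          PP ψ ρ (a, 0, 0)) = PP ψ ρ (a, 0, 0) := by
        rw [← mul_assoc, ← map_mul, ← map_mul, ← map_mul, inv_mul_cancel, map_one, map_one, map_one,
          one_mul]
      rwa [h1] at h2

/-- vectors moved by the deep Levi subgroup are fixed by the first rank one group -/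
theorem fix_of_neg [Nontrivial V] (hQ : ND Q) {ψ : AddChar F ℂ} (hψ : ψ ≠ 0)
    (ρ : Representation ℂ (Om (hyp (hyp (hyp Q)))) W) (hmu : ∀ a, a ≠ 0 → mu ψ ρ (a, 0, 0) ≤ 1)
    {x : W} (hE : Ef ρ x) (hL : Lf hQ.hyp.hyp ρ x) {k : Om (hyp Q)}
    (hk : ρ (l hQ.hyp.hyp (l hQ.hyp k)) x = -x) :
    ρ (sw (hyp (hyp Q))) x = x ∧ ∀ c, ρ (hc (hyp (hyp Q)) c) x = x := by
  refine fix_of_PP hQ.hyp.hyp hψ ρ hE hL (fun a ha => ?_)
  have h1 := LinearMap.congr_fun (ll_triv hQ hψ ρ k (hmu a ha)) (ρ (sw (hyp (hyp Q))) x)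
  rw [ll_PP hQ.hyp, Module.End.mul_apply, rel_app ρ (ll_sw hQ.hyp k), hk, map_neg, map_neg] at h1
  have h2 : (2 : ℂ) • PP ψ ρ (a, 0, 0) (ρ (sw (hyp (hyp Q))) x) = 0 := by
    rw [two_smul]
    nth_rewrite 1 [← h1]
    exact neg_add_cancel _
  exact (smul_eq_zero.mp h2).resolve_left two_ne_zero

end deep

end H44.OM
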