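import Cfsg.Agent.Lib.H44.OD5

/-! The inductive step for the torus characters. -/

set_option autoImplicit false
set_option linter.unusedSectionVars false

namespace H44.OM

open Module QuadraticMap H7.Hyp H7.Omega H7.OmegaIso H7.HypStd H44.OD

theorem SD_J_map {F : Type*} [Field F] {G : Type*} [Group G] {G' : Type*} [Group G']
    [Fintype F] (D : SD F G) (f : G →* G') {W : Type*} [AddCommGroup W] [Module ℂ W]
    (ρ : Representation ℂ G' W) : (D.map f).J ρ = D.J (ρ.comp f) := by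
  rw [SD.J, SD.J]
  refine Finset.sum_congr rfl (fun t _ => ?_)
  change ρ (f (D.u t) * f D.s) = ρ (f (D.u t * D.s))
  rw [map_mul f]

variable {F : Type*} [Field F] [Fintype F] {V : Type*} [AddCommGroup V] [Module F V] [Fintype V]
  {Q : QuadraticForm F V} {W : Type*} [AddCommGroup W] [Module ℂ W] [FiniteDimensional ℂ W]

theorem Ef_l (hQ : ND Q) (ρ : Representation ℂ (Om (hyp Q)) W) {x : W} (hE : Ef ρ x) (k : Om Q) :
    Ef ρ (ρ (l hQ k) x) := by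
  intro w
  have h1 := l_e hQ k (k.1.symm w)
  have h2 : k.1 (k.1.symm w) = w := LinearEquiv.apply_symm_apply _ _
  rw [h2] at h1
  have h3 := rel_app ρ h1 x
  rw [hE] at h3
  exact h3.symm

theorem Ef_sum {ι : Type*} (s : Finset ι) (ρ : Representation ℂ (Om (hyp Q)) W) {f : ι → W}
    (h : ∀ i ∈ s, Ef ρ (f i)) : Ef ρ (∑ i ∈ s, f i) := by
  intro w
  rw [map_sum]
  exact Finset.sum_congr rfl (fun i hi => h i hi w)

/-- the operator of the second level preserves the fixed vectors -/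
theorem J2_Ef (hQ : ND Q) (ρ : Representation ℂ (Om (hyp (hyp Q))) W) {x : W} (hE : Ef ρ x) :
    Ef ρ ((sd Q).J (ρ.comp (l hQ.hyp)) x) := by
  rw [SD.J_apply]
  refine Ef_sum _ ρ (fun t _ => ?_)
  exact Ef_l hQ.hyp ρ (Ef_l hQ.hyp ρ hE _) _

theorem neg_inv {G : Type*} [Group G] (ρ : Representation ℂ G W) {g : G} {x : W}
    (h : ρ g x = -x) : ρ g⁻¹ x = -x := by
  have h1 := SD.inv_app ρ g x
  rw [h, map_neg] at h1
  rw [← neg_neg (ρ g⁻¹ x), h1]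

/-- the relation between the first two rank one data, at the second operator -/
theorem h1_J2 (hQ : ND Q) (ρ : Representation ℂ (Om (hyp (hyp Q))) W) (c : Fˣ) (x : W) :
    ρ (hc (hyp Q) c) ((sd Q).J (ρ.comp (l hQ.hyp)) x) =
      (sd Q).J (ρ.comp (l hQ.hyp)) (ρ (hc (hyp Q) c) (ρ (l hQ.hyp (hc Q c)) x)) := by
  rw [← SD_J_map]
  rw [← SD.mulapp]
  exact ((sd Q).map (l hQ.hyp)).J_comm ρ (g := hc (hyp Q) c)
    (g' := hc (hyp Q) c * l hQ.hyp (hc Q c)) (h1_s2 hQ c)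
    (σ := fun t => ((c⁻¹ : Fˣ) : F) * t)
    (Equiv.mulLeft₀ ((c⁻¹ : Fˣ) : F) (Units.ne_zero _)).bijective (fun t => h1_u2 hQ c t) x

/-- the relation between the first two rank one data, at the first operator -/
theorem h2_J1 (hQ : ND Q) (ρ : Representation ℂ (Om (hyp (hyp Q))) W) (c : Fˣ) (x : W) :
    ρ (l hQ.hyp (hc Q c)) ((sd (hyp Q)).J ρ x) =
      (sd (hyp Q)).J ρ (ρ (hc (hyp Q) c) (ρ (l hQ.hyp (hc Q c)) x)) := by
  rw [← SD.mulapp]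
  exact (sd (hyp Q)).J_comm ρ (g := l hQ.hyp (hc Q c))
    (g' := hc (hyp Q) c * l hQ.hyp (hc Q c)) (h2_s1 hQ c)
    (σ := fun t => ((c⁻¹ : Fˣ) : F) * t)
    (Equiv.mulLeft₀ ((c⁻¹ : Fˣ) : F) (Units.ne_zero _)).bijective (fun t => h2_u1 hQ c t) x

theorem ll_J1 (hQ : ND Q) (ρ : Representation ℂ (Om (hyp (hyp Q))) W) (k : Om Q) (x : W) :
    ρ (l hQ.hyp (l hQ k)) ((sd (hyp Q)).J ρ x) =
      (sd (hyp Q)).J ρ (ρ (l hQ.hyp (l hQ k)) x) :=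
  (sd (hyp Q)).J_comm ρ (g := l hQ.hyp (l hQ k)) (g' := l hQ.hyp (l hQ k)) (ll_sw hQ k)
    (σ := id) Function.bijective_id (fun t => ll_uu hQ k t) x

theorem h1_h2_app (hQ : ND Q) (ρ : Representation ℂ (Om (hyp (hyp Q))) W) (c d : Fˣ) (x : W) :
    ρ (hc (hyp Q) c) (ρ (l hQ.hyp (hc Q d)) x) = ρ (l hQ.hyp (hc Q d)) (ρ (hc (hyp Q) c) x) :=
  rel_app ρ (h1_h2 hQ c d) x

/-- if the third vector is fixed by the first torus, the second is negated -/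
theorem h1_neg_of (hQ : ND Q) (ρ : Representation ℂ (Om (hyp (hyp Q))) W) {x : W} {a0 : Fˣ}
    (hu : ∀ t, ρ (l hQ.hyp (uu Q t)) x = x)
    (h2 : ρ (l hQ.hyp (hc Q a0)) x = -x)
    (h3 : ρ (hc (hyp Q) a0) ((sd Q).J (ρ.comp (l hQ.hyp)) x) =
      (sd Q).J (ρ.comp (l hQ.hyp)) x) : ρ (hc (hyp Q) a0) x = -x := by
  set ρ' := ρ.comp (l hQ.hyp) with hρ'
  set x3 := (sd Q).J ρ' x with hx3
  have e1 : ρ (l hQ.hyp (hc Q a0)) x3 = -x3 := by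
    have := (sd Q).J_h ρ' a0 x
    have h4 : ρ' ((sd Q).h a0⁻¹) x = -x := by
      have h5 : (sd Q).h a0⁻¹ = ((sd Q).h a0)⁻¹ := by
        apply eq_inv_of_mul_eq_one_left
        rw [← (sd Q).h_mul, inv_mul_cancel, (sd Q).h_one]
      rw [h5]
      exact neg_inv ρ' (g := (sd Q).h a0) h2
    rw [h4, map_neg] at this
    exact this
  have e2 := (sd Q).J_J_neg ρ' (x := x) (a0 := a0) hu h2
  have e3 := h1_J2 hQ ρ a0 x3
  rw [e1, map_neg, h3, map_neg, ← hρ', hx3, e2] at e3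
  have e4 : ρ (hc (hyp Q) a0) (ρ (l hQ.hyp (hc Q (-1))) x) = -ρ (l hQ.hyp (hc Q (-1))) x := by
    have e5 : (Fintype.card F : ℂ) • ρ (hc (hyp Q) a0) (ρ (l hQ.hyp (hc Q (-1))) x) =
        (Fintype.card F : ℂ) • (-ρ (l hQ.hyp (hc Q (-1))) x) := by
      rw [← map_smul, smul_neg]
      exact e3
    exact smul_right_injective W (r := (Fintype.card F : ℂ))
      (by exact_mod_cast Fintype.card_ne_zero) e5
  rw [h1_h2_app hQ, ← map_neg] at e4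
  have e6 := congrArg (ρ (l hQ.hyp (hc Q (-1)))⁻¹) e4
  rwa [SD.inv_app, SD.inv_app] at e6

/-- main step -/
theorem top_step [Nontrivial V] (hQ : ND Q) {ψ : AddChar F ℂ} (hψ : ψ ≠ 0)
    (ρ : Representation ℂ (Om (hyp (hyp (hyp Q)))) W) (hmu : ∀ a, a ≠ 0 → mu ψ ρ (a, 0, 0) ≤ 1)
    {x : W} (hx : x ≠ 0) (hE : Ef ρ x) (hL : Lf hQ.hyp.hyp ρ x)
    (hG : ∀ k : Om (hyp Q), ρ (l hQ.hyp.hyp (l hQ.hyp k)) x = x) {a0 : Fˣ}
    (h2 : ρ (l hQ.hyp.hyp (hc (hyp Q) a0)) x = -x) :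
    ∃ x1 : W, x1 ≠ 0 ∧ Ef ρ x1 ∧ Lf hQ.hyp.hyp ρ x1 ∧
      (∀ k : Om (hyp Q), ρ (l hQ.hyp.hyp (l hQ.hyp k)) x1 = x1) ∧
      ρ (l hQ.hyp.hyp (hc (hyp Q) a0)) x1 = x1 ∧ ρ (hc (hyp (hyp Q)) a0) x1 = -x1 := by
  set ρ' := ρ.comp (l hQ.hyp.hyp) with hρ'
  set x3 := (sd (hyp Q)).J ρ' x with hx3
  have f1 : Ef ρ x3 := J2_Ef hQ.hyp ρ hE
  have f2 : Lf hQ.hyp.hyp ρ x3 := J_Ef hQ.hyp ρ' (x := x) hL (fun v => hG _)
  have f3 : ρ (l hQ.hyp.hyp (l hQ.hyp (hc Q a0))) x3 = -x3 := by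
    have h3 := h2_J1 hQ ρ' a0 x
    have h4 : ρ' (l hQ.hyp (hc Q a0)) x = x := hG _
    have h5 : ρ' (hc (hyp Q) a0) x = -x := h2
    rw [h4, h5, map_neg] at h3
    exact h3
  obtain ⟨-, f4⟩ := fix_of_neg hQ hψ ρ hmu f1 f2 f3
  have f5 : ρ (hc (hyp (hyp Q)) a0) x = -x :=
    h1_neg_of hQ.hyp ρ (fun t => hL _) h2 (f4 a0)
  refine ⟨(sd (hyp (hyp Q))).J ρ x, ?_, J_Ef hQ.hyp.hyp ρ hE hL, J_Lf hQ.hyp.hyp ρ hE hL, ?_, ?_, ?_⟩
  · exact (sd (hyp (hyp Q))).J_ne ρ (fun t => hE _) (a0 := a0) f5 hx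
  · intro k
    rw [ll_J1 hQ.hyp, hG]
  · rw [h2_J1 hQ.hyp, h2, map_neg, f5, neg_neg]
  · have h3 := (sd (hyp (hyp Q))).J_h ρ a0 x
    have h4 : ρ ((sd (hyp (hyp Q))).h a0⁻¹) x = -x := by
      have h5 : (sd (hyp (hyp Q))).h a0⁻¹ = ((sd (hyp (hyp Q))).h a0)⁻¹ := by
        apply eq_inv_of_mul_eq_one_left
        rw [← (sd (hyp (hyp Q))).h_mul, inv_mul_cancel, (sd (hyp (hyp Q))).h_one]
      rw [h5]
      exact neg_inv ρ f5
    rw [h4, map_neg] at h3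
    exact h3

end H44.OM
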