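import Cfsg.Agent.Lib.H44.OM21

/-! The minimal degree of `Ω⁻`. -/

set_option autoImplicit false
set_option linter.unusedSectionVars false

namespace H44.OM

open Module QuadraticMap H7.Hyp H7.Omega H7.OmegaIso H7.HypStd H48.QuadStd

section

variable {F : Type*} [Field F] [Fintype F] {V : Type*} [AddCommGroup V] [Module F V] [Fintype V]
  {Q : QuadraticForm F V}
variable {W : Type*} [AddCommGroup W] [Module ℂ W] [FiniteDimensional ℂ W]

theorem Z_ne (hQ : ND Q) [Nontrivial V] {ψ : AddChar F ℂ} (hψ : ψ ≠ 0)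
    (ρ : Representation ℂ (Om (hyp (hyp Q))) W) {c : F} (hc : Cls ψ ρ c)
    (hC : (∃ a : Fˣ, a * a ≠ 1) ∨ Cc Q c) : ∃ g, Z hQ.hyp ψ ρ g ≠ 1 := by
  refine ⟨e (hyp Q) (e1 F V), ?_⟩
  intro h
  have h1 := trace_Z hQ.hyp hψ ρ (e (hyp Q) (e1 F V))
  rw [trace_zero ρ hQ hψ hc hC] at h1
  have h5 := congrArg (LinearMap.trace ℂ _) h
  rw [LinearMap.trace_one] at h5
  replace h1 := h5.symm.trans h1
  have h2 : ((Fintype.card F : ℂ) * Fintype.card V) = 0 := by
    rw [mu_eq] at h1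
    linear_combination h1
  have h3 : Fintype.card F * Fintype.card V = 0 := by exact_mod_cast h2
  rcases Nat.mul_eq_zero.mp h3 with h4 | h4
  · exact Fintype.card_ne_zero h4
  · exact Fintype.card_ne_zero h4

end

variable {F : Type*} [Field F] [Fintype F] {a b : F}

theorem exists_F4 (h : H7.AnisoPlane.Aniso a b) (hF : Fintype.card F = 2) :
    ∃ v w, F4 (qMinus 0 F a b) v w := by
  classical
  have hQ : ND (qMinus 0 F a b) := H7.MinusOrd.nd_minus 0 h
  have h1 : ∀ v, v ≠ 0 → qMinus 0 F a b v = 1 := by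
    intro v hv
    rcases F2_cases hF (qMinus 0 F a b v) with h2 | h2
    · exact absurd (aniso_sing h h2) hv
    · exact h2
  let v : (Fin 0 ⊕ Fin 0) ⊕ Fin 2 → F := Pi.single (Sum.inr 0) 1
  let w : (Fin 0 ⊕ Fin 0) ⊕ Fin 2 → F := Pi.single (Sum.inr 1) 1
  have hv : v ≠ 0 := by
    intro h2
    have := congrFun h2 (Sum.inr 0)
    simp [v] at this
  have hw : w ≠ 0 := by
    intro h2
    have := congrFun h2 (Sum.inr 1)
    simp [w] at this
  have hvw : v ≠ w := by
    intro h2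
    have := congrFun h2 (Sum.inr 0)
    simp [v, w] at this
  have hvw0 : v + w ≠ 0 := by
    intro h2
    have := congrFun h2 (Sum.inr 0)
    simp [v, w] at this
  refine ⟨v, w, ⟨hF, hQ, univ_minus 0 h, ?_, hv, hw, hvw, h1 v hv, h1 w hw, h1 _ hvw0⟩⟩
  intro z
  have hz : z = z (Sum.inr 0) • v + z (Sum.inr 1) • w := by
    funext i
    rcases i with (i | i) | i
    · exact i.elim0
    · exact i.elim0
    · fin_cases i
      · simp [v, w]
      · simp [v, w]
  rcases F2_cases hF (z (Sum.inr 0)) with h3 | h3 <;>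
    rcases F2_cases hF (z (Sum.inr 1)) with h4 | h4 <;> rw [h3, h4] at hz
  · left; rw [hz]; simp
  · right; right; left; rw [hz]; simp
  · right; left; rw [hz]; simp
  · right; right; right; rw [hz]; simp

theorem special (h : H7.AnisoPlane.Aniso a b) : Special F a b := by
  intro W _ _ _ ψ ρ hψ hF hc hm
  obtain ⟨v, w, h4⟩ := exists_F4 h hF
  have : Nontrivial ((Fin 0 ⊕ Fin 0) ⊕ Fin 2 → F) := ⟨v, 0, h4.v0⟩
  exact h4.five hψ (Z h4.nd.hyp ψ ρ) (by rw [← mu_eq, hm])
    (Z_ne h4.nd hψ ρ hc (Or.inr h4.Cc0)) (h4.Z_trace ρ hψ hc)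

theorem LB_minus' (h : H7.AnisoPlane.Aniso a b) (m : ℕ) :
    LB (Om (hyp (qMinus (m + 1) F a b))) (KM (Fintype.card F) (m + 1)) :=
  LB_minus h (special h) m

end H44.OM
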