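import Cfsg.Agent.Lib.H44.OD6
import Cfsg.Agent.Lib.H44.OM22

/-! The induction for the odd-dimensional groups. -/

set_option autoImplicit false
set_option linter.unusedSectionVars false

namespace H44.OM

open Module QuadraticMap H7.Hyp H7.Omega H7.OmegaIso H7.HypStd H44.OD

variable {F : Type*} [Field F] [Fintype F] {V : Type*} [AddCommGroup V] [Module F V] [Fintype V]
  {Q : QuadraticForm F V}

/-- the count of an odd-dimensional form -/
def OT (Q : QuadraticForm F V) : Prop := cnt Q 0 * Fintype.card F = Fintype.card V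

theorem OT.hyp (h : OT Q) : OT (hyp Q) := by
  rw [OT, cnt_hyp', Fintype.card_prod, Fintype.card_prod]
  obtain ⟨r, hr⟩ : ∃ r, Fintype.card F = r + 1 := ⟨Fintype.card F - 1, by
    have := Fintype.card_pos (α := F); omega⟩
  rw [OT] at h
  rw [hr] at h ⊢
  rw [Nat.add_sub_cancel, ← h]
  ring

theorem OT.cnt3 (h : OT Q) : cnt (H7.Hyp.hyp (H7.Hyp.hyp (H7.Hyp.hyp Q))) 0 =
    Fintype.card F ^ 5 * Fintype.card V := by
  have h1 := h.hyp.hyp.hyp
  rw [OT] at h1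
  apply Nat.eq_of_mul_eq_mul_right (Fintype.card_pos (α := F))
  rw [h1, Fintype.card_prod, Fintype.card_prod, Fintype.card_prod, Fintype.card_prod,
    Fintype.card_prod, Fintype.card_prod]
  ring

theorem OT.cnt2 (h : OT Q) : cnt (H7.Hyp.hyp (H7.Hyp.hyp Q)) 0 =
    Fintype.card F ^ 3 * Fintype.card V := by
  have h1 := h.hyp.hyp
  rw [OT] at h1
  apply Nat.eq_of_mul_eq_mul_right (Fintype.card_pos (α := F))
  rw [h1, Fintype.card_prod, Fintype.card_prod, Fintype.card_prod, Fintype.card_prod]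
  ring

/-- fixed by the Siegel elements and the Levi subgroup -/
def Yf {W : Type*} [AddCommGroup W] [Module ℂ W] (hQ : ND Q)
    (ρ : Representation ℂ (Om (hyp Q)) W) (x : W) : Prop :=
  (∀ w, ρ (e (hyp Q) w) x = x) ∧ ∀ k, ρ (l hQ k) x = x

/-- the structure of the representations of minimal degree -/
def TB (hQ : ND Q) (K : ℕ) (a0 : Fˣ) : Prop :=
  ∀ (W : Type) [AddCommGroup W] [Module ℂ W] [FiniteDimensional ℂ W]
    (ρ : Representation ℂ (Om (hyp Q)) W), (∃ g, ρ g ≠ 1) → finrank ℂ W = K →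
    (∃ x, x ≠ 0 ∧ Yf hQ ρ x) ∧ ∀ x, Yf hQ ρ x → ρ (hc Q a0) x = -x

variable {W : Type} [AddCommGroup W] [Module ℂ W] [FiniteDimensional ℂ W]

/-- no irreducible representations of degree `K + 1` -/
theorem not_irr (hQ : ND Q) [Nontrivial V] (hOT : OT Q) (hodd : Odd (Fintype.card F))
    (hq : 5 ≤ Fintype.card F) {j : ℕ} (hj : Fintype.card V = Fintype.card F ^ j) {K : ℕ}
    (hK : K * (Fintype.card F ^ 2 - 1) + 1 = Fintype.card F ^ 5 * Fintype.card V)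
    (ρ : Representation ℂ (Om (hyp (hyp Q))) W) (hρ : ρ.IsIrreducible)
    (hnt : ∃ g, ρ g ≠ 1) (hfr : finrank ℂ W = K + 1) : False := by
  obtain ⟨ψ, hψ⟩ := exists_psi F
  set q := Fintype.card F with hqd
  set v := Fintype.card V with hvd
  have hv : 1 ≤ v := Fintype.card_pos
  have hq2 : 1 ≤ q ^ 2 := Nat.one_le_pow _ _ (by omega)
  have hlt : finrank ℂ W < 2 * ((q ^ 3 - q) * v) := by
    rw [hfr]
    have h1 : (K + 1) * (q ^ 2 - 1) < 2 * ((q ^ 3 - q) * v) * (q ^ 2 - 1) := by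
      have h3 : q ≤ q ^ 3 := Nat.le_self_pow (by norm_num) q
      zify [hq2, h3] at hK ⊢
      have hq' : (5 : ℤ) ≤ q := by exact_mod_cast hq
      have hv' : (1 : ℤ) ≤ v := by exact_mod_cast hv
      have h4 : ((K : ℤ) + 1) * ((q : ℤ) ^ 2 - 1) = q ^ 5 * v + q ^ 2 - 2 := by
        linear_combination hK
      rw [h4]
      have h5 : (q : ℤ) ^ 2 ≤ q ^ 2 * v := by nlinarith [sq_nonneg (q : ℤ)]
      have h6 : (25 : ℤ) * (q ^ 3 * v) ≤ q ^ 2 * (q ^ 3 * v) := by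
        apply mul_le_mul_of_nonneg_right (by nlinarith) (by positivity)
      have h7 : (q : ℤ) ^ 2 * v ≤ q ^ 3 * v := by
        apply mul_le_mul_of_nonneg_right _ (by positivity)
        nlinarith [sq_nonneg (q : ℤ)]
      have h8 : (0 : ℤ) < q ^ 3 * v := by positivity
      have h9 : (0 : ℤ) < q * v := by positivity
      nlinarith
    exact lt_of_mul_lt_mul_right h1 (Nat.zero_le _)
  obtain ⟨c, hc, hc0⟩ := exists_cls hQ hψ ρ hnt hlt
  obtain ⟨I, hI, hdvd⟩ := irr_dvd hQ hψ ρ hρ hc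
  have h3 : Nat.card {p : F × F × (F × F × (F × F × V)) // p ≠ 0 ∧ hyp (hyp (hyp Q)) p = 0} + 1 =
      q ^ 5 * v := by
    rw [cnt_zero_ne_zero, hOT.cnt3]
  have h2 : Nat.card {p : F × F × (F × F × V) // p ≠ 0 ∧ hyp (hyp Q) p = 0} + 1 =
      q ^ 3 * v := by
    rw [cnt_zero_ne_zero, hOT.cnt2]
  have h4 : Nat.card {p : F × F × (F × F × (F × F × V)) // p ≠ 0 ∧ hyp (hyp (hyp Q)) p = 0} =
      K * (q ^ 2 - 1) := by omega
  rw [h4] at hI
  have h5 : Nat.card {p : F × F × (F × F × V) // p ≠ 0 ∧ hyp (hyp Q) p = 0} = q ^ 3 * v - 1 := by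
    omega
  rw [h5] at hI
  have hq2' : 0 < q ^ 2 - 1 := by
    have : 2 ^ 2 ≤ q ^ 2 := Nat.pow_le_pow_left (by omega) 2
    omega
  have hI2 : I = K * (q ^ 3 * v - 1) := by
    apply Nat.eq_of_mul_eq_mul_left hq2'
    rw [hI]; ring
  rw [hI2, hfr] at hdvd
  have hcop : Nat.Coprime (K + 1) (q ^ 3 * v) := by
    rw [hj, ← pow_add]
    apply Nat.Coprime.pow_right
    have hd : Nat.gcd (K + 1) q ∣ 2 := by
      have g1 : (Nat.gcd (K + 1) q : ℤ) ∣ ((K + 1 : ℕ) : ℤ) := by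
        exact_mod_cast Nat.gcd_dvd_left _ _
      have g2 : (Nat.gcd (K + 1) q : ℤ) ∣ (q : ℤ) := by
        exact_mod_cast Nat.gcd_dvd_right _ _
      have g3 : (2 : ℤ) = (q : ℤ) * (q ^ 4 * v + q) - ((K + 1 : ℕ) : ℤ) * ((q : ℤ) ^ 2 - 1) := by
        zify [hq2] at hK
        push_cast
        linear_combination hK
      have g4 : (Nat.gcd (K + 1) q : ℤ) ∣ 2 := by
        rw [g3]
        exact dvd_sub (Dvd.dvd.mul_right g2 _) (Dvd.dvd.mul_right g1 _)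
      exact_mod_cast g4
    rcases (Nat.dvd_prime Nat.prime_two).mp hd with h | h
    · exact h
    · exfalso
      have h6 : 2 ∣ q := h ▸ Nat.gcd_dvd_right (K + 1) q
      exact (Nat.not_even_iff_odd.mpr hodd) (even_iff_two_dvd.mpr h6)
  have hcop2 : Nat.Coprime (K + 1) K := by simp
  have h6 : K + 1 ∣ q ^ 3 * v - 1 := by
    have h7 := hcop.dvd_of_dvd_mul_right hdvd
    exact hcop2.dvd_of_dvd_mul_left h7
  have h8 : q ^ 3 * v ≤ K := by
    have h9 : q ^ 3 * v * (q ^ 2 - 1) ≤ K * (q ^ 2 - 1) := by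
      have h10 : q ^ 3 * v * (q ^ 2 - 1) + q ^ 3 * v = q ^ 5 * v := by
        zify [hq2]
        ring
      have h11 : 1 ≤ q ^ 3 * v := Nat.one_le_iff_ne_zero.mpr
        (Nat.mul_ne_zero (pow_ne_zero _ (by omega)) (by omega))
      omega
    exact Nat.le_of_mul_le_mul_right h9 hq2'
  have h9 : 1 < q ^ 3 * v := by
    have : 2 ^ 3 ≤ q ^ 3 := Nat.pow_le_pow_left (by omega) 3
    nlinarith
  have h10 := Nat.le_of_dvd (by omega) h6
  omega

/-- transport of a fixed vector of the representation on the zero weight space -/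
theorem Yf_up (hQ : ND Q) {ψ : AddChar F ℂ} (ρ : Representation ℂ (Om (hyp (hyp Q))) W)
    {x : LinearMap.range (PP ψ ρ 0)} (h : Yf hQ (Z hQ.hyp ψ ρ) x) :
    Ef ρ (x : W) ∧ Lf hQ.hyp ρ (x : W) ∧ ∀ k : Om Q, ρ (l hQ.hyp (l hQ k)) (x : W) = x :=
  ⟨mem_range_zero hQ.hyp ρ x.2, fun w => congrArg Subtype.val (h.1 w),
    fun k => congrArg Subtype.val (h.2 k)⟩

theorem Yf_down (hQ : ND Q) {ψ : AddChar F ℂ} (ρ : Representation ℂ (Om (hyp (hyp Q))) W)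
    {x : LinearMap.range (PP ψ ρ 0)} (h1 : Lf hQ.hyp ρ (x : W))
    (h2 : ∀ k : Om Q, ρ (l hQ.hyp (l hQ k)) (x : W) = x) : Yf hQ (Z hQ.hyp ψ ρ) x :=
  ⟨fun w => Subtype.ext (h1 w), fun k => Subtype.ext (h2 k)⟩

theorem arith_lt {q v K : ℕ} (hq : 5 ≤ q) (hv : 1 ≤ v) (hK : K * (q ^ 2 - 1) + 1 = q ^ 5 * v) :
    q ^ 5 * v + K < 2 * ((q ^ 3 - q) * (q * (q * v))) := by
  have hq2 : 1 ≤ q ^ 2 := Nat.one_le_pow _ _ (by omega)
  have h3 : q ≤ q ^ 3 := Nat.le_self_pow (by norm_num) q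
  have hq2' : 0 < q ^ 2 - 1 := by
    have : 2 ^ 2 ≤ q ^ 2 := Nat.pow_le_pow_left (by omega) 2
    omega
  have h1 : (q ^ 5 * v + K) * (q ^ 2 - 1) < 2 * ((q ^ 3 - q) * (q * (q * v))) * (q ^ 2 - 1) := by
    zify [hq2, h3] at hK ⊢
    have hq' : (5 : ℤ) ≤ q := by exact_mod_cast hq
    have hv' : (1 : ℤ) ≤ v := by exact_mod_cast hv
    have h4 : ((q : ℤ) ^ 5 * v + K) * ((q : ℤ) ^ 2 - 1) = q ^ 7 * v - 1 := by
      linear_combination hK
    rw [h4]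
    have h6 : (25 : ℤ) * (q ^ 5 * v) ≤ q ^ 2 * (q ^ 5 * v) := by
      apply mul_le_mul_of_nonneg_right (by nlinarith) (by positivity)
    have h8 : (0 : ℤ) < q ^ 3 * v := by positivity
    nlinarith
  exact lt_of_mul_lt_mul_right h1 (Nat.zero_le _)

/-- the data of a small representation -/
theorem small_cls (hQ : ND Q) [Nontrivial V] (hOT : OT Q)
    (hq : 5 ≤ Fintype.card F) {K : ℕ}
    (hK : K * (Fintype.card F ^ 2 - 1) + 1 = Fintype.card F ^ 5 * Fintype.card V)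
    {ψ : AddChar F ℂ} (hψ : ψ ≠ 0)
    (ρ : Representation ℂ (Om (hyp (hyp (hyp Q)))) W)
    (hnt : ∃ g, ρ g ≠ 1) (hfr : finrank ℂ W ≤ Fintype.card F ^ 5 * Fintype.card V + K) :
    Cls ψ ρ 0 ∧ finrank ℂ W + 1 = Fintype.card F ^ 5 * Fintype.card V + mu ψ ρ 0 := by
  classical
  have hv : 1 ≤ Fintype.card V := Fintype.card_pos
  have hlt : finrank ℂ W < 2 * ((Fintype.card F ^ 3 - Fintype.card F) *
      Fintype.card (F × F × V)) := by
    rw [Fintype.card_prod, Fintype.card_prod]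
    exact hfr.trans_lt (arith_lt hq hv hK)
  obtain ⟨c, hc, hc0⟩ := exists_cls hQ.hyp hψ ρ hnt hlt
  have hc' := hc0 (exists_sq_ne (F := F) (by omega))
  subst hc'
  refine ⟨hc, ?_⟩
  have h1 := finrank_cls ρ hQ.hyp hψ hc
  have h2 := card_Ob (Q := hyp (hyp (hyp Q))) (0 : F)
  rw [if_pos rfl, hOT.cnt3] at h2
  omega

theorem self_neg_zero {x : W} (h : x = -x) : x = 0 := by
  have h2 : (2 : ℂ) • x = 0 := by
    rw [two_smul]
    nth_rewrite 1 [h]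
    exact neg_add_cancel _
  exact (smul_eq_zero.mp h2).resolve_left two_ne_zero

theorem Cls_mu_le {ψ : AddChar F ℂ} {ρ : Representation ℂ (Om (hyp (hyp Q))) W} {c : F}
    (hc : Cls ψ ρ c) {y : F × F × (F × F × V)} (hy : y ≠ 0) : mu ψ ρ y ≤ 1 := by
  rw [hc y hy]
  split_ifs <;> simp

theorem LB_step (hQ : ND Q) [Nontrivial V] (hOT : OT Q)
    (hq : 5 ≤ Fintype.card F) {K : ℕ} {a0 : Fˣ}
    (hK : K * (Fintype.card F ^ 2 - 1) + 1 = Fintype.card F ^ 5 * Fintype.card V)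
    (hLB : LB (Om (hyp (hyp Q))) K) (hTB : TB hQ.hyp K a0) :
    LB (Om (hyp (hyp (hyp Q)))) (Fintype.card F ^ 5 * Fintype.card V + K) := by
  intro W _ _ _ ρ hnt
  by_contra hcon
  obtain ⟨ψ, hψ⟩ := exists_psi F
  obtain ⟨hc, hfr⟩ := small_cls hQ hOT hq hK hψ ρ hnt (by omega)
  have hC : (∃ a : Fˣ, a * a ≠ 1) ∨ Cc (hyp Q) 0 := Or.inl (exists_sq_ne' (by omega))
  have h1 := zero_ge hQ.hyp hψ ρ hc hC hLB
  have h2 : mu ψ ρ 0 = K := by omega
  obtain ⟨⟨x, hx0, hY⟩, hneg⟩ := hTB _ (Z hQ.hyp.hyp ψ ρ) (Z_ne hQ.hyp hψ ρ hc hC) h2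
  obtain ⟨g1, g2, g3⟩ := Yf_up hQ.hyp ρ hY
  have g4 : ρ (l hQ.hyp.hyp (H44.OM.hc (hyp Q) a0)) (x : W) = -(x : W) := congrArg Subtype.val (hneg x hY)
  obtain ⟨x1, h10, h11, h12, h13, h14, h15⟩ := top_step hQ hψ ρ
    (fun a ha => Cls_mu_le hc (fun h => ha (congrArg Prod.fst h)))
    (fun h => hx0 (Subtype.ext h)) g1 g2 g3 g4
  have h16 := PP_of_Ef hQ.hyp.hyp hψ ρ h11
  have h17 := hneg ⟨x1, x1, h16⟩ (Yf_down hQ.hyp ρ h12 h13)
  have h18 : ρ (l hQ.hyp.hyp (H44.OM.hc (hyp Q) a0)) x1 = -x1 := congrArg Subtype.val h17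
  rw [h14] at h18
  exact h10 (self_neg_zero h18)

theorem TB_aux (hQ : ND Q) [Nontrivial V] 
    {K : ℕ} {a0 : Fˣ} (hLB : LB (Om (hyp (hyp Q))) K) (hK2 : 2 ≤ K) (hTB : TB hQ.hyp K a0)
    {ψ : AddChar F ℂ} (hψ : ψ ≠ 0)
    (ρ : Representation ℂ (Om (hyp (hyp (hyp Q)))) W) (hc : Cls ψ ρ 0)
    (h2 : mu ψ ρ 0 = K + 1)
    (p q : Subrepresentation (Z hQ.hyp.hyp ψ ρ)) (hcp : IsCompl p.toSubmodule q.toSubmodule)
    (hq0 : finrank ℂ p.toSubmodule < K + 1)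
    (hp : ∃ g, p.toRepresentation g ≠ 1) :
    (∃ x, x ≠ 0 ∧ Yf hQ.hyp.hyp ρ x) ∧
      ∀ x, Yf hQ.hyp.hyp ρ x → ρ (H44.OM.hc (hyp (hyp Q)) a0) x = -x := by
  have f1 : K ≤ finrank ℂ p.toSubmodule := hLB _ p.toRepresentation hp
  have f2 : finrank ℂ p.toSubmodule = K := by omega
  have f3 := Submodule.finrank_add_eq_of_isCompl hcp
  change _ = mu ψ ρ 0 at f3
  have f4 : finrank ℂ q.toSubmodule = 1 := by omega
  have f5 : ∀ k, ∀ b ∈ q.toSubmodule, Z hQ.hyp.hyp ψ ρ k b = b := by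
    intro k b hb
    by_contra hcon
    have := hLB _ q.toRepresentation ⟨k, fun h => hcon
      (congrArg Subtype.val (LinearMap.congr_fun h ⟨b, hb⟩))⟩
    omega
  obtain ⟨⟨x, hx0, hY⟩, hneg⟩ := hTB _ p.toRepresentation hp f2
  have hYZ : Yf hQ.hyp (Z hQ.hyp.hyp ψ ρ) (x : LinearMap.range (PP ψ ρ 0)) :=
    ⟨fun w => congrArg Subtype.val (hY.1 w), fun k => congrArg Subtype.val (hY.2 k)⟩
  obtain ⟨g1, g2, g3⟩ := Yf_up hQ.hyp ρ hYZ
  have g4 : ρ (l hQ.hyp.hyp (H44.OM.hc (hyp Q) a0)) ((x : LinearMap.range (PP ψ ρ 0)) : W) =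
      -((x : LinearMap.range (PP ψ ρ 0)) : W) :=
    congrArg (fun z : p.toSubmodule => ((z : LinearMap.range (PP ψ ρ 0)) : W)) (hneg x hY)
  obtain ⟨x1, h10, h11, h12, h13, h14, h15⟩ := top_step hQ hψ ρ
    (fun a ha => Cls_mu_le hc (fun h => ha (congrArg Prod.fst h)))
    (fun h => hx0 (Subtype.ext (Subtype.ext h))) g1 g2 g3 g4
  have h16 := PP_of_Ef hQ.hyp.hyp hψ ρ h11
  -- the decomposition
  have key : ∀ y : LinearMap.range (PP ψ ρ 0), Yf hQ.hyp (Z hQ.hyp.hyp ψ ρ) y →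
      Z hQ.hyp.hyp ψ ρ (H44.OM.hc (hyp Q) a0) y = y → y ∈ q.toSubmodule := by
    intro y hy1 hy2
    have hy3 : y ∈ p.toSubmodule ⊔ q.toSubmodule := by rw [hcp.sup_eq_top]; trivial
    obtain ⟨a, ha, b, hb, rfl⟩ := Submodule.mem_sup.mp hy3
    have ha1 : Yf hQ.hyp p.toRepresentation ⟨a, ha⟩ := by
      refine ⟨fun w => Subtype.ext ?_, fun k => Subtype.ext ?_⟩
      · have h := hy1.1 w
        rw [map_add, f5 _ b hb] at h
        exact add_right_cancel h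
      · have h := hy1.2 k
        rw [map_add, f5 _ b hb] at h
        exact add_right_cancel h
    have ha2 := hneg _ ha1
    have ha3 : Z hQ.hyp.hyp ψ ρ (H44.OM.hc (hyp Q) a0) a = -a := congrArg Subtype.val ha2
    rw [map_add, f5 _ b hb] at hy2
    have ha4 := add_right_cancel hy2
    rw [ha3] at ha4
    have ha5 : a = 0 := by
      apply Subtype.ext
      exact self_neg_zero (congrArg Subtype.val ha4.symm)
    rw [ha5, zero_add]
    exact hb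
  have k1 : (⟨x1, x1, h16⟩ : LinearMap.range (PP ψ ρ 0)) ∈ q.toSubmodule :=
    key _ (Yf_down hQ.hyp ρ h12 h13) (Subtype.ext h14)
  refine ⟨⟨x1, h10, h11, fun k => ?_⟩, ?_⟩
  · exact congrArg Subtype.val (f5 k _ k1)
  · intro y hy
    have hy1 := PP_of_Ef hQ.hyp.hyp hψ ρ hy.1
    have k2 : (⟨y, y, hy1⟩ : LinearMap.range (PP ψ ρ 0)) ∈ q.toSubmodule :=
      key _ (Yf_down hQ.hyp ρ (fun w => hy.2 _) (fun k => hy.2 _)) (Subtype.ext (hy.2 _))
    obtain ⟨c, hc⟩ := (finrank_eq_one_iff_of_nonzero' (⟨⟨x1, x1, h16⟩, k1⟩ : q.toSubmodule)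
      (fun h => h10 (congrArg (fun z : q.toSubmodule => ((z : LinearMap.range (PP ψ ρ 0)) : W)) h))).mp
      f4 ⟨⟨y, y, hy1⟩, k2⟩
    have hc' : c • x1 = y :=
      congrArg (fun z : q.toSubmodule => ((z : LinearMap.range (PP ψ ρ 0)) : W)) hc
    rw [← hc', map_smul, h15, smul_neg]

theorem TB_step (hQ : ND Q) [Nontrivial V] (hOT : OT Q) (hodd : Odd (Fintype.card F))
    (hq : 5 ≤ Fintype.card F) {K j : ℕ} {a0 : Fˣ} (hj : Fintype.card V = Fintype.card F ^ j)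
    (hK : K * (Fintype.card F ^ 2 - 1) + 1 = Fintype.card F ^ 5 * Fintype.card V)
    (hLB : LB (Om (hyp (hyp Q))) K) (hTB : TB hQ.hyp K a0) (hK2 : 2 ≤ K) :
    TB hQ.hyp.hyp (Fintype.card F ^ 5 * Fintype.card V + K) a0 := by
  intro W _ _ _ ρ hnt hfr'
  obtain ⟨ψ, hψ⟩ := exists_psi F
  obtain ⟨hc, hfr⟩ := small_cls hQ hOT hq hK hψ ρ hnt (by omega)
  have hC : (∃ a : Fˣ, a * a ≠ 1) ∨ Cc (hyp Q) 0 := Or.inl (exists_sq_ne' (by omega))
  have h2 : mu ψ ρ 0 = K + 1 := by omega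
  have hnt2 := Z_ne hQ.hyp hψ ρ hc hC
  have hirr : ¬ (Z hQ.hyp.hyp ψ ρ).IsIrreducible := by
    intro hirr
    exact not_irr hQ hOT hodd hq hj hK (Z hQ.hyp.hyp ψ ρ) hirr hnt2 h2
  have hntr : Nontrivial (LinearMap.range (PP ψ ρ 0)) := by
    apply Module.nontrivial_of_finrank_pos (R := ℂ)
    change 0 < mu ψ ρ 0
    omega
  obtain ⟨p, q, hcp, hp, hq'⟩ := H18.CharBasic.exists_split (Z hQ.hyp.hyp ψ ρ) hirr
  change _ < mu ψ ρ 0 at hp
  change _ < mu ψ ρ 0 at hq'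
  rw [h2] at hp hq'
  have key : (∃ g, p.toRepresentation g ≠ 1) ∨ (∃ g, q.toRepresentation g ≠ 1) := by
    by_contra hcon
    push Not at hcon
    obtain ⟨h1, h2⟩ := hcon
    obtain ⟨g, hg⟩ := hnt2
    apply hg
    apply LinearMap.ext
    intro x
    have hx : x ∈ p.toSubmodule ⊔ q.toSubmodule := by rw [hcp.sup_eq_top]; trivial
    obtain ⟨y, hy, z, hz, rfl⟩ := Submodule.mem_sup.mp hx
    have h3 : Z hQ.hyp.hyp ψ ρ g y = y :=
      congrArg Subtype.val (LinearMap.congr_fun (h1 g) ⟨y, hy⟩)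
    have h4 : Z hQ.hyp.hyp ψ ρ g z = z :=
      congrArg Subtype.val (LinearMap.congr_fun (h2 g) ⟨z, hz⟩)
    rw [map_add, h3, h4]
    rfl
  rcases key with key | key
  · exact TB_aux hQ hLB hK2 hTB hψ ρ hc h2 p q hcp hp key
  · exact TB_aux hQ hLB hK2 hTB hψ ρ hc h2 q p hcp.symm hq' key

end H44.OM
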