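import Cfsg.Agent.Lib.H44.OD7

/-! Generation, and the Steinberg argument. -/

set_option autoImplicit false
set_option linter.unusedSectionVars false

namespace H44.OM

open Module QuadraticMap H7.Hyp H7.Omega H7.OmegaIso H7.HypStd H44.OD

section grp

variable {F : Type*} [Field F] {V : Type*} [AddCommGroup V] [Module F V] {Q : QuadraticForm F V}

/-- opposite Siegel elements -/
def e' (Q : QuadraticForm F V) (w : V) : Om Q := ⟨E' Q w, E'_mem_Om Q w⟩

theorem e'_add (w w' : V) : e' Q (w + w') = e' Q w * e' Q w' := Subtype.ext (E'_mul Q w w').symm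

theorem sw_le' (hQ : ND Q) (w : V) : sw Q * l hQ (e' Q w) = e' (hyp Q) (0, 0, -w) * sw Q := by
  apply ext5
  intro x y a b v
  rw [mul_app, mul_app, l_apply, sw_apply, sw_apply]
  have h1 : (e' Q w).1 (a, b, v) = (a, b - Q w * a - polar Q v w, v + a • w) := E'_apply Q w a b v
  have h2 : (e' (hyp Q) (0, 0, -w)).1 (-a, -b, (x, y, v)) = (-a, -b - hyp Q (0, 0, -w) * (-a) -
      polar (hyp Q) (x, y, v) (0, 0, -w), (x, y, v) + (-a) • ((0, 0, -w) : F × F × V)) :=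
    E'_apply (hyp Q) (0, 0, -w) (-a) (-b) (x, y, v)
  rw [h1, h2]
  simp only [polar_hyp, hyp_apply, Prod.mk_add_mk, Prod.smul_mk, smul_eq_mul, mul_zero,
    zero_mul, add_zero, zero_add, QuadraticMap.map_neg, QuadraticMap.polar_neg_right]
  refine Prod.ext ?_ (Prod.ext ?_ (Prod.ext ?_ (Prod.ext ?_ ?_)))
  · simp only
  · simp only; ring
  · simp only
  · simp only
  · simp

theorem sw_uu (t : F) : sw Q * uu Q t = e' (hyp Q) (t, 0, 0) * sw Q := by
  apply ext5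
  intro x y a b v
  rw [mul_app, mul_app, uu_apply, sw_apply, sw_apply]
  have h2 : (e' (hyp Q) (t, 0, 0)).1 (-a, -b, (x, y, v)) = (-a, -b - hyp Q (t, 0, 0) * (-a) -
      polar (hyp Q) (x, y, v) (t, 0, 0), (x, y, v) + (-a) • ((t, 0, 0) : F × F × V)) :=
    E'_apply (hyp Q) (t, 0, 0) (-a) (-b) (x, y, v)
  rw [h2]
  simp only [polar_hyp, hyp_apply, Prod.mk_add_mk, Prod.smul_mk, smul_eq_mul, mul_zero,
    zero_mul, add_zero, QuadraticMap.map_zero, smul_zero, QuadraticMap.polar_zero_right]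
  refine Prod.ext ?_ (Prod.ext ?_ (Prod.ext ?_ (Prod.ext ?_ ?_)))
  · simp only
  · simp only; ring
  · simp only; ring
  · simp only
  · simp only

/-- the Weyl element of the Levi subgroup -/
def nn (Q : QuadraticForm F V) (v0 : V) : Om Q := ⟨N Q v0, N_mem Q v0⟩

theorem nn_apply {v0 : V} (hv : Q v0 ≠ 0) (a b : F) (v : V) : (nn Q v0).1 (a, b, v) =
    (-(Q v0)⁻¹ * b, -(Q v0) * a, H17.OrthAbs.refl Q v0 hv v) := by
  change N Q v0 (a, b, v) = _
  rw [N_apply Q hv, H17.OrthAbs.refl_apply]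

theorem refl_refl {v0 : V} (hv : Q v0 ≠ 0) (v : V) :
    H17.OrthAbs.refl Q v0 hv (H17.OrthAbs.refl Q v0 hv v) = v := by
  rw [← LinearEquiv.mul_apply, H17.OrthAbs.refl_sq]
  rfl

theorem nn_sq {v0 : V} (hv : Q v0 ≠ 0) : nn Q v0 * nn Q v0 = 1 := by
  apply Subtype.ext
  apply LinearEquiv.ext
  rintro ⟨a, b, v⟩
  rw [mul_app, nn_apply hv, nn_apply hv, refl_refl]
  refine Prod.ext ?_ (Prod.ext ?_ rfl)
  · simp only
    field_simp
    rfl
  · simp only
    field_simp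
    rfl

theorem nn_inv {v0 : V} (hv : Q v0 ≠ 0) : (nn Q v0)⁻¹ = nn Q v0 :=
  inv_eq_of_mul_eq_one_left (nn_sq hv)

/-- conjugation by the Weyl element of the Levi subgroup -/
def cn (hQ : ND Q) (v0 : V) : Om (hyp Q) →* Om (hyp Q) :=
  (MulAut.conj (l hQ (nn Q v0))).toMonoidHom

theorem cn_apply (hQ : ND Q) {v0 : V} (hv : Q v0 ≠ 0) (g : Om (hyp Q)) :
    cn hQ v0 g = l hQ (nn Q v0) * g * l hQ (nn Q v0) := by
  change l hQ (nn Q v0) * g * (l hQ (nn Q v0))⁻¹ = _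
  rw [← map_inv, nn_inv hv]

theorem cn_app (hQ : ND Q) {v0 : V} (hv : Q v0 ≠ 0) (g : Om (hyp Q)) (p : F × F × (F × F × V)) :
    (cn hQ v0 g).1 p = (l hQ (nn Q v0)).1 (g.1 ((l hQ (nn Q v0)).1 p)) := by
  rw [cn_apply hQ hv]; rfl

theorem cn_sw (hQ : ND Q) {v0 : V} (hv : Q v0 ≠ 0) (x y a b : F) (v : V) :
    (cn hQ v0 (sw Q)).1 (x, y, (a, b, v)) =
      ((Q v0)⁻¹ * b, Q v0 * a, (-(Q v0)⁻¹ * y, -(Q v0) * x, v)) := by
  rw [cn_app hQ hv, l_apply, nn_apply hv, sw_apply, l_apply, nn_apply hv, refl_refl]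
  refine Prod.ext ?_ (Prod.ext ?_ rfl)
  · simp only; ring
  · simp only; ring

theorem cn_uu (hQ : ND Q) {v0 : V} (hv : Q v0 ≠ 0) (t : F) :
    cn hQ v0 (uu Q t) = e (hyp Q) (-((Q v0)⁻¹ * t), 0, 0) := by
  apply ext5
  intro x y a b v
  rw [cn_app hQ hv, l_apply, nn_apply hv, uu_apply, l_apply, nn_apply hv, refl_refl, rr_apply]
  refine Prod.ext ?_ (Prod.ext ?_ (Prod.ext ?_ (Prod.ext ?_ ?_)))
  · simp only; ring
  · simp only
  · simp only; field_simp; ring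
  · simp only; field_simp
  · simp only

theorem cn_hc (hQ : ND Q) {v0 : V} (hv : Q v0 ≠ 0) (c : Fˣ) (x y a b : F) (v : V) :
    (cn hQ v0 (hc Q c)).1 (x, y, (a, b, v)) =
      (c * x, ((c⁻¹ : Fˣ) : F) * y, ((c : F) * a, ((c⁻¹ : Fˣ) : F) * b, v)) := by
  rw [cn_app hQ hv, l_apply, nn_apply hv, hc_apply, l_apply, nn_apply hv, refl_refl]
  refine Prod.ext ?_ (Prod.ext ?_ (Prod.ext ?_ (Prod.ext ?_ ?_)))
  · simp only
  · simp only
  · simp only; field_simp
  · simp only; field_simp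
  · simp only

theorem cn_sw_uu (hQ : ND Q) {v0 : V} (hv : Q v0 ≠ 0) (t : F) :
    cn hQ v0 (sw Q) * uu Q t = uu Q t * cn hQ v0 (sw Q) := by
  apply ext5
  intro x y a b v
  rw [mul_app, mul_app, uu_apply, cn_sw hQ hv, cn_sw hQ hv, uu_apply]
  refine Prod.ext ?_ (Prod.ext ?_ (Prod.ext ?_ (Prod.ext ?_ ?_)))
  · simp only; ring
  · simp only
  · simp only
  · simp only; ring
  · simp only

theorem cn_sw_sw (hQ : ND Q) {v0 : V} (hv : Q v0 ≠ 0) :
    cn hQ v0 (sw Q) * sw Q = sw Q * cn hQ v0 (sw Q) := by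
  apply ext5
  intro x y a b v
  rw [mul_app, mul_app, sw_apply, cn_sw hQ hv, cn_sw hQ hv, sw_apply]
  refine Prod.ext ?_ (Prod.ext ?_ (Prod.ext ?_ (Prod.ext ?_ ?_)))
  · simp only; ring
  · simp only; ring
  · simp only; ring
  · simp only; ring
  · simp only

theorem cn_hc_uu (hQ : ND Q) {v0 : V} (hv : Q v0 ≠ 0) (c : Fˣ) (t : F) :
    cn hQ v0 (hc Q c) * uu Q t = uu Q t * cn hQ v0 (hc Q c) := by
  apply ext5
  intro x y a b v
  rw [mul_app, mul_app, uu_apply, cn_hc hQ hv, cn_hc hQ hv, uu_apply]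
  refine Prod.ext ?_ (Prod.ext ?_ (Prod.ext ?_ (Prod.ext ?_ ?_)))
  · simp only; ring
  · simp only
  · simp only
  · simp only; ring
  · simp only

theorem cn_hc_sw (hQ : ND Q) {v0 : V} (hv : Q v0 ≠ 0) (c : Fˣ) :
    cn hQ v0 (hc Q c) * sw Q = sw Q * cn hQ v0 (hc Q c) := by
  apply ext5
  intro x y a b v
  rw [mul_app, mul_app, sw_apply, cn_hc hQ hv, cn_hc hQ hv, sw_apply]
  refine Prod.ext ?_ (Prod.ext ?_ (Prod.ext ?_ (Prod.ext ?_ ?_)))
  · simp only; ring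
  · simp only; ring
  · simp only
  · simp only
  · simp only

theorem cn_uu_uu (hQ : ND Q) {v0 : V} (hv : Q v0 ≠ 0) (t t' : F) :
    cn hQ v0 (uu Q t) * uu Q t' = uu Q t' * cn hQ v0 (uu Q t) := by
  rw [cn_uu hQ hv, uu, ← e_add, ← e_add, add_comm]

theorem cn_uu_sw (hQ : ND Q) {v0 : V} (hv : Q v0 ≠ 0) (t : F) :
    cn hQ v0 (uu Q t) * sw Q = sw Q * cn hQ v0 (uu Q t) := by
  rw [cn_uu hQ hv, sw_r]

/-- generation -/
theorem gen (hQ : ND Q) {v0 : V} (hv : Q v0 ≠ 0) {S : Subgroup (Om (hyp Q))}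
    (he : ∀ w, e (hyp Q) w ∈ S) (hs : sw Q ∈ S) (hl : ∀ k, l hQ k ∈ S) (g : Om (hyp Q)) :
    g ∈ S := by
  have a1 : ∀ t : F, e' (hyp Q) (t, 0, 0) ∈ S := by
    intro t
    have h1 := eq_mul_inv_of_mul_eq (sw_uu (Q := Q) t).symm
    rw [h1]
    exact S.mul_mem (S.mul_mem hs (he _)) (S.inv_mem hs)
  have a2 : ∀ w : V, e' (hyp Q) (0, 0, w) ∈ S := by
    intro w
    have h1 := eq_mul_inv_of_mul_eq (sw_le' hQ (-w)).symm
    rw [neg_neg] at h1
    rw [h1]
    exact S.mul_mem (S.mul_mem hs (hl _)) (S.inv_mem hs)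
  have a3 : ∀ t : F, e' (hyp Q) (0, t, 0) ∈ S := by
    intro t
    have h2 := emb_E' (Q := hyp Q) (Om_le Q (nn Q v0).2) (-((Q v0)⁻¹ * t), 0, 0)
    have h3 : (nn Q v0).1 (-((Q v0)⁻¹ * t), 0, 0) = (0, t, 0) := by
      rw [nn_apply hv, map_zero]
      refine Prod.ext ?_ (Prod.ext ?_ rfl)
      · simp
      · simp only; field_simp
    rw [h3] at h2
    have h4 : e' (hyp Q) (0, t, 0) = l hQ (nn Q v0) * e' (hyp Q) (-((Q v0)⁻¹ * t), 0, 0) *
        (l hQ (nn Q v0))⁻¹ := Subtype.ext h2.symm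
    rw [h4]
    exact S.mul_mem (S.mul_mem (hl _) (a1 _)) (S.inv_mem (hl _))
  have h : Om (hyp Q) ≤ S.map (Om (hyp Q)).subtype := by
    refine Om_le_of (fun w => ⟨e (hyp Q) w, he w, rfl⟩) (fun w => ⟨e' (hyp Q) w, ?_, rfl⟩)
    obtain ⟨a, b, v⟩ := w
    have h5 : e' (hyp Q) (a, b, v) = e' (hyp Q) (a, 0, 0) * (e' (hyp Q) (0, b, 0) *
        e' (hyp Q) (0, 0, v)) := by
      rw [← e'_add, ← e'_add]
      congr 1
      simp
    rw [h5]
    exact S.mul_mem (a1 a) (S.mul_mem (a3 b) (a2 v))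
  obtain ⟨g', hg', hg⟩ := h g.2
  have : g' = g := Subtype.ext hg
  rwa [this] at hg'

end grp

section rep

variable {F : Type*} [Field F] [Fintype F] {V : Type*} [AddCommGroup V] [Module F V] [Fintype V]
  {Q : QuadraticForm F V} {W : Type*} [AddCommGroup W] [Module ℂ W] [FiniteDimensional ℂ W]

/-- fixed vectors of the torus are fixed by the rank one group, if there are few weights -/
theorem star (hQ : ND Q) {v0 : V} (hv : Q v0 ≠ 0) {ψ : AddChar F ℂ} (hψ : ψ ≠ 0)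
    (σ : Representation ℂ (Om (hyp Q)) W)
    (hw : ∀ y : F × F × V, y ≠ 0 → mu ψ σ y ≠ 0 → hyp Q y = 0)
    {b0 : F} (hb0 : ∀ v, b0 + Q v ≠ 0)
    (hG : ∀ x, Ef σ x → ∀ k : Om Q, σ (l hQ k) x = x)
    {x : W} (hE : Ef σ x) (hh : ∀ c, σ (hc Q c) x = x) : σ (sw Q) x = x := by
  by_contra hs
  set D := sd Q with hD
  obtain ⟨z, hz0, hz, hzJ⟩ := D.steinberg_of σ (x := x) (fun t => hE _) hh hs
  have hEz : Ef σ z := by
    have h1 := J_Ef hQ σ hE (fun v => hG x hE _)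
    intro w
    rw [hz, map_sub, map_smul, map_add, hE, h1]
  have hzh : ∀ c, σ (hc Q c) z = z := by
    intro c
    have h1 := D.J_h σ c x
    have h2 : σ (D.h c⁻¹) x = x := hh _
    rw [h2] at h1
    have h3 : σ (D.h c) x = x := hh _
    change σ (D.h c) z = z
    rw [hz, map_sub, map_smul, map_add, h1, h3]
  have hb : b0 ≠ 0 := by
    intro h
    have := hb0 0
    rw [h, QuadraticMap.map_zero, add_zero] at this
    exact this rfl
  -- first Steinberg vector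
  set z1 : W := ∑ t : F, ψ (-(1 * t)) • σ (D.u t) (σ D.s z) with hz1
  have hz10 : z1 ≠ 0 := D.steinberg σ (fun t => hEz _) hzh hzJ hz0 hψ one_ne_zero
  set D' := D.map (cn hQ v0) with hD'
  have comm1 : ∀ {g : Om (hyp Q)}, (∀ t, g * uu Q t = uu Q t * g) → g * sw Q = sw Q * g →
      σ g z1 = ∑ t : F, ψ (-(1 * t)) • σ (D.u t) (σ D.s (σ g z)) := by
    intro g h1 h2
    rw [hz1, map_sum]
    refine Finset.sum_congr rfl (fun t _ => ?_)
    rw [map_smul]
    congr 1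
    change σ g (σ (uu Q t) (σ (sw Q) z)) = σ (uu Q t) (σ (sw Q) (σ g z))
    rw [rel_app σ (h1 t), rel_app σ h2]
  have fixn : ∀ {g : Om (hyp Q)} {y : W}, Ef σ y → σ g y = y → σ (cn hQ v0 g) y = y := by
    intro g y hy h
    rw [cn_apply hQ hv, SD.mulapp, SD.mulapp, hG y hy, h, hG y hy]
  have u1 : ∀ t, σ (D'.u t) z1 = z1 := by
    intro t
    change σ (cn hQ v0 (uu Q t)) z1 = z1
    rw [comm1 (cn_uu_uu hQ hv t) (cn_uu_sw hQ hv t), fixn (g := uu Q t) hEz (hEz _)]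
  have h1 : ∀ c, σ (D'.h c) z1 = z1 := by
    intro c
    change σ (cn hQ v0 (hc Q c)) z1 = z1
    rw [comm1 (cn_hc_uu hQ hv c) (cn_hc_sw hQ hv c), fixn hEz (hzh c)]
  have j0 : D'.J σ z = -z := by
    rw [SD.J_apply]
    have : ∀ t, σ (D'.u t) (σ D'.s z) = σ (l hQ (nn Q v0)) (σ (D.u t) (σ D.s z)) := by
      intro t
      change σ (cn hQ v0 (uu Q t)) (σ (cn hQ v0 (sw Q)) z) = _
      rw [← SD.mulapp, ← map_mul, cn_apply hQ hv, SD.mulapp, hG z hEz, SD.mulapp, SD.mulapp]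
      rfl
    rw [Finset.sum_congr rfl (fun t _ => this t), ← map_sum, ← D.J_apply σ,
      eq_neg_of_add_eq_zero_right hzJ, map_neg, hG z hEz]
  have j1 : z1 + D'.J σ z1 = 0 := by
    have h2 : D'.J σ z1 = ∑ t' : F, ψ (-(1 * t')) • σ (D.u t') (σ D.s (D'.J σ z)) := by
      rw [SD.J_apply]
      have : ∀ t, σ (D'.u t) (σ D'.s z1) =
          ∑ t' : F, ψ (-(1 * t')) • σ (D.u t') (σ D.s (σ (D'.u t) (σ D'.s z))) := by
        intro t
        have e1 := comm1 (g := cn hQ v0 (uu Q t) * cn hQ v0 (sw Q)) (fun t' => by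
          rw [mul_assoc, cn_sw_uu hQ hv, ← mul_assoc, cn_uu_uu hQ hv, mul_assoc]) (by
          rw [mul_assoc, cn_sw_sw hQ hv, ← mul_assoc, cn_uu_sw hQ hv, mul_assoc])
        rw [SD.mulapp] at e1
        refine e1.trans (Finset.sum_congr rfl (fun t' _ => ?_))
        rw [SD.mulapp]
        rfl
      rw [Finset.sum_congr rfl (fun t _ => this t), Finset.sum_comm]
      refine Finset.sum_congr rfl (fun t' _ => ?_)
      rw [← Finset.smul_sum, SD.J_apply, map_sum, map_sum]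
    rw [h2, j0, hz1, ← Finset.sum_add_distrib]
    refine Finset.sum_eq_zero (fun t _ => ?_)
    rw [(σ D.s).map_neg, (σ (D.u t)).map_neg, smul_neg, add_neg_cancel]
  -- second Steinberg vector
  have hβ : -((Q v0)⁻¹ * b0) ≠ 0 := neg_ne_zero.mpr (mul_ne_zero (inv_ne_zero hv) hb)
  set z2 : W := ∑ t : F, ψ (-(-((Q v0)⁻¹ * b0) * t)) • σ (D'.u t) (σ D'.s z1) with hz2
  have hz20 : z2 ≠ 0 := D'.steinberg σ u1 h1 j1 hz10 hψ hβ
  have w1' : ∀ r, σ (uu Q r) z1 = ψ r • z1 := by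
    intro r
    rw [hz1, map_sum, Finset.smul_sum]
    refine Fintype.sum_bijective (fun t => r + t) (AddGroup.addLeft_bijective r) _ _ (fun t => ?_)
    rw [map_smul, smul_smul, ← AddChar.map_add_eq_mul]
    change _ • σ (D.u r) _ = _
    rw [← SD.mulapp, ← D.u_add]
    congr 2
    ring
  have w1 : ∀ r, σ (uu Q r) z2 = ψ r • z2 := by
    intro r
    rw [hz2, map_sum, Finset.smul_sum]
    refine Finset.sum_congr rfl (fun t _ => ?_)
    rw [map_smul, smul_comm]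
    congr 1
    change σ (uu Q r) (σ (cn hQ v0 (uu Q t)) (σ (cn hQ v0 (sw Q)) z1)) =
      ψ r • σ (cn hQ v0 (uu Q t)) (σ (cn hQ v0 (sw Q)) z1)
    rw [rel_app σ (cn_uu_uu hQ hv t r).symm, rel_app σ (cn_sw_uu hQ hv r).symm, w1', map_smul,
      map_smul]
  have w2 : ∀ r, σ (D'.u r) z2 = ψ (-((Q v0)⁻¹ * b0) * r) • z2 := by
    intro r
    rw [hz2, map_sum, Finset.smul_sum]
    refine Fintype.sum_bijective (fun t => r + t) (AddGroup.addLeft_bijective r) _ _ (fun t => ?_)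
    rw [map_smul, smul_smul, ← AddChar.map_add_eq_mul, ← SD.mulapp, ← D'.u_add]
    congr 2
    ring
  -- a weight
  have : ∃ y, PP ψ σ y z2 ≠ 0 := by
    by_contra hcon
    push Not at hcon
    apply hz20
    rw [← sum_PP_apply hQ hψ σ z2]
    exact Finset.sum_eq_zero (fun y _ => hcon y)
  obtain ⟨⟨a, b, v⟩, hy⟩ := this
  obtain ⟨r0, hr0⟩ := exists_psi_ne hψ
  have sep : ∀ α β : F, (∀ r, ψ (α * r) = ψ (β * r)) → α = β := by
    intro α β h
    by_contra hne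
    have hne' : α - β ≠ 0 := sub_ne_zero.mpr hne
    apply hr0
    have h3 := h (r0 / (α - β))
    have h4 : α * (r0 / (α - β)) = β * (r0 / (α - β)) + r0 := by
      field_simp; ring
    rw [h4, AddChar.map_add_eq_mul] at h3
    have h5 : ψ (β * (r0 / (α - β))) ≠ 0 := by
      intro h6
      have h8 : ψ (β * (r0 / (α - β))) * ψ (-(β * (r0 / (α - β)))) = 1 := by
        rw [← AddChar.map_add_eq_mul, add_neg_cancel, AddChar.map_zero_eq_one]
      rw [h6, zero_mul] at h8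
      exact zero_ne_one h8
    exact mul_left_cancel₀ h5 (h3.trans (mul_one _).symm)
  have ha : a = 1 := by
    apply sep
    intro r
    have h3 := PP_apply_e hQ.hyp (ψ := ψ) σ (a, b, v) (0, r, 0) z2
    have h4 : σ (e (hyp Q) (0, r, 0)) z2 = ψ r • z2 := w1 r
    rw [h4, map_smul, polar_hyp] at h3
    simp only [zero_mul, add_zero, QuadraticMap.polar_zero_right] at h3
    rw [one_mul]
    exact (smul_left_injective ℂ hy h3).symm
  have hb' : b = b0 := by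
    have h8 : -((Q v0)⁻¹ * b0) = -((Q v0)⁻¹ * b) := by
      apply sep
      intro r
      have h3 := PP_apply_e hQ.hyp (ψ := ψ) σ (a, b, v) (-((Q v0)⁻¹ * r), 0, 0) z2
      have h4 : σ (e (hyp Q) (-((Q v0)⁻¹ * r), 0, 0)) z2 = ψ (-((Q v0)⁻¹ * b0) * r) • z2 := by
        rw [← cn_uu hQ hv]
        exact w2 r
      rw [h4, map_smul, polar_hyp] at h3
      simp only [mul_zero, zero_add, add_zero, QuadraticMap.polar_zero_right] at h3
      have h5 := smul_left_injective ℂ hy h3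
      rw [h5]
      congr 1
      ring
    exact (mul_left_cancel₀ (inv_ne_zero hv) (neg_injective h8)).symm
  subst ha hb'
  have h5 : mu ψ σ (1, b, v) ≠ 0 := by
    intro h6
    apply hy
    have h7 : PP ψ σ (1, b, v) = 0 := (D_eq_zero_iff (ψ := ψ) _).mp h6
    rw [h7]
    rfl
  have h6 := hw (1, b, v) (fun h => one_ne_zero (congrArg Prod.fst h)) h5
  rw [hyp_apply] at h6
  simp only [one_mul] at h6
  exact hb0 v h6

end rep

end H44.OM
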