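import Cfsg.Agent.Lib.H44.OD8

/-! The bottom of the induction: weights. -/

set_option autoImplicit false
set_option linter.unusedSectionVars false

namespace H44.OM

open Module QuadraticMap H7.Hyp H7.Omega H7.OmegaIso H7.HypStd H44.OD

variable {F : Type*} [Field F] [Fintype F] {V : Type*} [AddCommGroup V] [Module F V] [Fintype V]
  {Q : QuadraticForm F V} {W : Type*} [AddCommGroup W] [Module ℂ W] [FiniteDimensional ℂ W]

theorem mu_ne_iff (hQ : ND Q) {ψ : AddChar F ℂ} (hψ : ψ ≠ 0) (σ : Representation ℂ (Om Q) W)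
    (y : V) : mu ψ σ y ≠ 0 ↔ ∃ z, z ≠ 0 ∧ ∀ w, σ (e Q w) z = ψ (polar Q y w) • z := by
  classical
  constructor
  · intro h
    have h1 : P ψ Q (fun w => σ (e Q w)) y ≠ 0 := fun h2 => h ((D_eq_zero_iff (ψ := ψ) y).mpr h2)
    obtain ⟨z, hz⟩ : ∃ z, P ψ Q (fun w => σ (e Q w)) y z ≠ 0 := by
      by_contra hcon
      push Not at hcon
      exact h1 (LinearMap.ext hcon)
    exact ⟨_, hz, fun w => LinearMap.congr_fun (A_P (ψ := ψ) (R := Q) (addF σ) w y) z⟩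
  · rintro ⟨z, hz, hw⟩ h
    have h1 : P ψ Q (fun w => σ (e Q w)) y = 0 := (D_eq_zero_iff (ψ := ψ) y).mp h
    apply hz
    have h2 := LinearMap.congr_fun (sum_P hQ hψ (addF σ)) z
    rw [LinearMap.sum_apply] at h2
    refine h2.symm.trans (Finset.sum_eq_zero (fun y' _ => ?_))
    by_cases hy : y' = y
    · subst hy
      rw [h1]
      rfl
    · obtain ⟨a, ha⟩ := exists_psi_ne hψ
      obtain ⟨w, hw'⟩ : ∃ w, polar Q (y' - y) w ≠ 0 := by
        by_contra hcon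
        push Not at hcon
        exact hy (sub_eq_zero.mp (hQ _ hcon))
      have h3 := PP_apply_e hQ (ψ := ψ) σ y' ((a / polar Q (y' - y) w) • w) z
      have h4 : polar Q y' ((a / polar Q (y' - y) w) • w) =
          polar Q y ((a / polar Q (y' - y) w) • w) + a := by
        have h5 : polar Q (y' - y) ((a / polar Q (y' - y) w) • w) = a := by
          rw [QuadraticMap.polar_smul_right, smul_eq_mul, div_mul_cancel₀ _ hw']
        have h6 := QuadraticMap.polar_sub_left (Q := Q) y' y ((a / polar Q (y' - y) w) • w)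
        rw [h5] at h6
        linear_combination -h6
      rw [hw, map_smul, h4, AddChar.map_add_eq_mul] at h3
      set b := polar Q y ((a / polar Q (y' - y) w) • w) with hb
      have h6 : (ψ b * (ψ a - 1)) • P ψ Q (fun w => σ (e Q w)) y' z = 0 := by
        rw [mul_sub, mul_one, sub_smul, sub_eq_zero]
        exact h3.symm
      refine (smul_eq_zero.mp h6).resolve_left (mul_ne_zero ?_ (sub_ne_zero.mpr ha))
      intro h7
      have h8 : ψ b * ψ (-b) = 1 := by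
        rw [← AddChar.map_add_eq_mul, add_neg_cancel, AddChar.map_zero_eq_one]
      rw [h7, zero_mul] at h8
      exact zero_ne_one h8

theorem mu_conj (hQ : ND Q) {ψ : AddChar F ℂ} (hψ : ψ ≠ 0)
    (ρ : Representation ℂ (Om (hyp Q)) W) (k : Om Q) (y : F × F × V) :
    mu ψ ρ (k.1 y) = mu ψ ρ y :=
  D_conj (ψ := ψ) (R := hyp Q) hQ.hyp hψ (addF ρ) (U := ρ (l hQ k))
    (U' := ρ (l hQ k)⁻¹) (σ := k.1) (τ := k.1) (rho_inv_mul ρ _) k.1.bijective
    (fun w => by rw [← map_mul, l_e, map_mul]) (fun y w => map_O_polar (Om_le Q k.2) y w) y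

/-- normal form of the singular vectors -/
theorem sing_nf {v0 : V} (hv : Q v0 ≠ 0) (ha : ∀ v, Q v = 0 → v = 0) {y : F × F × V}
    (hy : y ≠ 0) (hs : hyp Q y = 0) : ∃ (k : Om Q) (a : F), a ≠ 0 ∧ k.1 y = (a, 0, 0) := by
  obtain ⟨a, b, v⟩ := y
  by_cases hb : b = 0
  · subst hb
    rw [hyp_apply] at hs
    simp only [mul_zero, zero_add] at hs
    have hv' := ha v hs
    subst hv'
    refine ⟨1, a, ?_, rfl⟩
    rintro rfl
    exact hy rfl
  · obtain ⟨k, hk, hk'⟩ := trans_b (Q := Q) (a := a) (v := v) hb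
    rw [hs, zero_div] at hk'
    refine ⟨nn Q v0 * ⟨k, hk⟩, -(Q v0)⁻¹ * b, mul_ne_zero (neg_ne_zero.mpr (inv_ne_zero hv)) hb, ?_⟩
    rw [mul_app]
    change (nn Q v0).1 (k (a, b, v)) = _
    rw [hk', nn_apply hv, map_zero, mul_zero]

section low

variable (hQ : ND Q) {ψ : AddChar F ℂ} (hψ : ψ ≠ 0)
  (ρ : Representation ℂ (Om (hyp (hyp Q))) W)

include hψ

theorem muZ_le_one (hc : Cls ψ ρ 0) {y : F × F × V} (hy : y ≠ 0) :
    mu ψ (Z hQ.hyp ψ ρ) y ≤ 1 ∧ (mu ψ (Z hQ.hyp ψ ρ) y ≠ 0 → hyp Q y = 0) := by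
  have h1 := mu_Z_le hQ.hyp hψ ρ hy
  have h2 : ((0 : F), (0 : F), y) ≠ 0 := fun h => hy (congrArg (fun p => p.2.2) h)
  rw [hc _ h2] at h1
  have h3 : hyp (hyp Q) ((0 : F), (0 : F), y) = hyp Q y := by
    rw [hyp_apply (hyp Q)]
    simp only [mul_zero, zero_add]
  rw [h3] at h1
  by_cases h : hyp Q y = 0
  · rw [if_pos h] at h1
    exact ⟨h1, fun _ => h⟩
  · rw [if_neg h] at h1
    exact ⟨by omega, fun h' => absurd (Nat.le_zero.mp h1) h'⟩

theorem G1_triv [Nontrivial V] (ha : ∀ v, Q v = 0 → v = 0) (hc : Cls ψ ρ 0) {x : W}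
    (hE : Ef ρ x) (hL : Lf hQ.hyp ρ x) (k : Om Q) : ρ (l hQ.hyp (l hQ k)) x = x := by
  have h : ∀ k, Z hQ ψ (Z hQ.hyp ψ ρ) k = 1 := by
    by_contra hcon
    push Not at hcon
    obtain ⟨v, hv0, hv⟩ := exists_weight hQ hψ (Z hQ ψ (Z hQ.hyp ψ ρ)) hcon
    have h1 := mu_Z_le hQ hψ (Z hQ.hyp ψ ρ) hv0
    have h2 : ((0 : F), (0 : F), v) ≠ 0 := fun h => hv0 (congrArg (fun p => p.2.2) h)
    have h3 := (muZ_le_one hQ hψ ρ hc h2).2 (by omega)
    rw [hyp_apply] at h3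
    simp only [mul_zero, zero_add] at h3
    exact hv0 (ha v h3)
  have h1 := PP_of_Ef hQ.hyp hψ ρ hE
  have h2 : Ef (Z hQ.hyp ψ ρ) ⟨x, x, h1⟩ := fun w => Subtype.ext (hL w)
  have h3 := PP_of_Ef hQ hψ (Z hQ.hyp ψ ρ) h2
  have h4 := LinearMap.congr_fun (h k) ⟨⟨x, x, h1⟩, ⟨x, x, h1⟩, h3⟩
  exact congrArg (fun z : LinearMap.range (PP ψ (Z hQ.hyp ψ ρ) 0) =>
    ((z : LinearMap.range (PP ψ ρ 0)) : W)) h4

theorem muZ_scale {a c : F} (hc0 : c ≠ 0)
    (h : mu ψ (Z hQ.hyp ψ ρ) (a, 0, 0) ≠ 0) : mu ψ (Z hQ.hyp ψ ρ) (c * a, 0, 0) ≠ 0 := by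
  obtain ⟨z, hz, hw⟩ := (mu_ne_iff hQ.hyp hψ _ _).mp h
  rw [mu_ne_iff hQ.hyp hψ]
  set u := Units.mk0 c hc0 with hu
  have hEz : Ef ρ (z : W) := mem_range_zero hQ.hyp ρ z.2
  have hE : Ef ρ (ρ (hc (hyp Q) u) (z : W)) := by
    rintro ⟨r, t, v⟩
    have h1 := hc_e (Q := hyp Q) u r (((u : F) * u)⁻¹ * t) ((u : F)⁻¹ • v)
    rw [mul_inv_cancel_left₀ (mul_ne_zero u.ne_zero u.ne_zero), smul_smul,
      mul_inv_cancel₀ u.ne_zero, one_smul] at h1
    rw [← rel_app ρ h1, hEz]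
  have h1 := PP_of_Ef hQ.hyp hψ ρ hE
  refine ⟨⟨_, _, h1⟩, ?_, ?_⟩
  · intro h2
    apply hz
    apply Subtype.ext
    have h3 : ρ (hc (hyp Q) u) (z : W) = 0 := congrArg Subtype.val h2
    have h4 := SD.inv_app ρ (hc (hyp Q) u) (z : W)
    rw [h3, map_zero] at h4
    exact h4.symm
  · intro w
    apply Subtype.ext
    change ρ (l hQ.hyp (e (hyp Q) w)) (ρ (hc (hyp Q) u) (z : W)) =
      ψ (polar (hyp Q) (c * a, 0, 0) w) • ρ (hc (hyp Q) u) (z : W)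
    have h2 := hc_l hQ.hyp u ((u : F) • w)
    rw [smul_smul, Units.inv_mul, one_smul] at h2
    rw [← rel_app ρ h2]
    have h3 : ρ (l hQ.hyp (e (hyp Q) ((u : F) • w))) (z : W) =
        ψ (polar (hyp Q) (a, 0, 0) ((u : F) • w)) • (z : W) := congrArg Subtype.val (hw _)
    rw [h3, map_smul]
    congr 2
    rw [polar_hyp, polar_hyp]
    simp only [QuadraticMap.polar_zero_left, add_zero]
    simp [hu]
    ring

theorem muZ_eq_one [Nontrivial V] {v0 : V} (hv : Q v0 ≠ 0) (ha : ∀ v, Q v = 0 → v = 0)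
    (hq : 4 ≤ Fintype.card F) (hc : Cls ψ ρ 0) {y : F × F × V} (hy : y ≠ 0) (hs : hyp Q y = 0) :
    mu ψ (Z hQ.hyp ψ ρ) y = 1 := by
  have hC : (∃ a : Fˣ, a * a ≠ 1) ∨ Cc Q 0 := Or.inl (exists_sq_ne' hq)
  obtain ⟨y0, hy0, h0⟩ := exists_weight hQ.hyp hψ (Z hQ.hyp ψ ρ) (Z_ne hQ hψ ρ hc hC)
  have hs0 := (muZ_le_one hQ hψ ρ hc hy0).2 h0
  obtain ⟨k0, a0, ha0, hk0⟩ := sing_nf hv ha hy0 hs0
  obtain ⟨k, a, ha1, hk⟩ := sing_nf hv ha hy hs
  have h1 := mu_conj hQ hψ (Z hQ.hyp ψ ρ) k0 y0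
  have h2 := mu_conj hQ hψ (Z hQ.hyp ψ ρ) k y
  rw [hk0] at h1
  rw [hk] at h2
  rw [← h1] at h0
  have h3 := muZ_scale hQ hψ ρ (c := a / a0) (div_ne_zero ha1 ha0) h0
  rw [div_mul_cancel₀ _ ha0, h2] at h3
  have h4 := (muZ_le_one hQ hψ ρ hc hy).1
  omega

/-- dimensions -/
theorem finrank_low [Nontrivial V] {v0 : V} (hv : Q v0 ≠ 0) (ha : ∀ v, Q v = 0 → v = 0)
    (hOT : OT Q) (hq : 4 ≤ Fintype.card F) (hc : Cls ψ ρ 0) :
    finrank ℂ W + 2 = Fintype.card F ^ 3 * Fintype.card V + Fintype.card F * Fintype.card V +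
      mu ψ (Z hQ.hyp ψ ρ) 0 := by
  classical
  have h1 := finrank_cls ρ hQ hψ hc
  have h2 := card_Ob (Q := hyp (hyp Q)) (0 : F)
  rw [if_pos rfl, hOT.cnt2] at h2
  have h3 := card_Ob (Q := hyp Q) (0 : F)
  have h4 : cnt (hyp Q) 0 = Fintype.card F * Fintype.card V := by
    have h5 := hOT.hyp
    rw [OT] at h5
    apply Nat.eq_of_mul_eq_mul_right (Fintype.card_pos (α := F))
    rw [h5, Fintype.card_prod, Fintype.card_prod]
    ring
  rw [if_pos rfl, h4] at h3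
  have h5 := sum_mu hQ.hyp hψ (Z hQ.hyp ψ ρ)
  rw [← Finset.add_sum_erase _ _ (Finset.mem_univ (0 : F × F × V))] at h5
  have h6 : ∑ y ∈ (Finset.univ : Finset (F × F × V)).erase 0, mu ψ (Z hQ.hyp ψ ρ) y =
      (Ob (hyp Q) 0).card := by
    rw [Finset.card_eq_sum_ones, ← Finset.sum_filter_add_sum_filter_not _ (fun y => hyp Q y = 0)]
    have h7 : ∑ x ∈ ((Finset.univ : Finset (F × F × V)).erase 0).filter (fun y => ¬ hyp Q y = 0),
        mu ψ (Z hQ.hyp ψ ρ) x = 0 := by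
      refine Finset.sum_eq_zero (fun y hy => ?_)
      rw [Finset.mem_filter] at hy
      by_contra hcon
      exact hy.2 ((muZ_le_one hQ hψ ρ hc (Finset.ne_of_mem_erase hy.1)).2 hcon)
    rw [h7, add_zero]
    have h8 : ((Finset.univ : Finset (F × F × V)).erase 0).filter (fun y => hyp Q y = 0) =
        Ob (hyp Q) 0 := by
      ext y
      rw [Finset.mem_filter, Finset.mem_erase, mem_Ob]
      simp
    rw [h8]
    refine Finset.sum_congr rfl (fun y hy => ?_)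
    rw [mem_Ob] at hy
    exact muZ_eq_one hQ hψ ρ hv ha hq hc hy.1 hy.2
  rw [h6] at h5
  change _ = mu ψ ρ 0 at h5
  omega

end low

end H44.OM
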