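import Cfsg.Agent.Lib.H44.TSys2
import Cfsg.Agent.Lib.H7.OmegaIso

/-! Weights of an abelian group of Siegel elements. -/

set_option autoImplicit false

namespace H44.OM

open Module QuadraticMap H7.Hyp

variable {F : Type*} [Field F] {X : Type*} [AddCommGroup X] [Module F X]
  {W : Type*} [AddCommGroup W] [Module ℂ W]

/-- additive family of operators -/
structure AddF (A : X → Module.End ℂ W) : Prop where
  zero : A 0 = 1
  add : ∀ w w', A (w + w') = A w * A w'

theorem sum_psi [Fintype X] {R : QuadraticForm F X} (hR : ND R) {ψ : AddChar F ℂ} (hψ : ψ ≠ 0)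
    {z : X} (hz : z ≠ 0) : ∑ w : X, ψ (polar R z w) = 0 := by
  have h1 : (polarBilin R z) ≠ 0 := by
    intro h
    apply hz
    apply hR
    intro w
    have := LinearMap.congr_fun h w
    simpa using this
  have := H44.TSys.sum_lin ψ hψ (polarBilin R z) h1
  simpa using this

theorem sum_psi_neg [Fintype X] {R : QuadraticForm F X} (hR : ND R) {ψ : AddChar F ℂ}
    (hψ : ψ ≠ 0) {z : X} (hz : z ≠ 0) : ∑ w : X, ψ (-(polar R z w)) = 0 := by
  have h := sum_psi hR hψ (z := -z) (neg_ne_zero.mpr hz)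
  simpa [QuadraticMap.polar_neg_left] using h

variable [Fintype X]

/-- the projection onto the weight space of `y` -/
noncomputable def P (ψ : AddChar F ℂ) (R : QuadraticForm F X) (A : X → Module.End ℂ W) (y : X) :
    Module.End ℂ W := (Fintype.card X : ℂ)⁻¹ • ∑ w, ψ (-(polar R y w)) • A w

variable {ψ : AddChar F ℂ} {R : QuadraticForm F X} {A : X → Module.End ℂ W}

theorem A_P (hA : AddF A) (w y : X) : A w * P ψ R A y = ψ (polar R y w) • P ψ R A y := by
  rw [P, mul_smul_comm, Finset.mul_sum, smul_comm (ψ (polar R y w)) ((Fintype.card X : ℂ)⁻¹),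
    Finset.smul_sum (r := ψ (polar R y w))]
  refine congrArg _ ?_
  refine Fintype.sum_equiv (Equiv.addLeft w) _ _ ?_
  intro x
  rw [Equiv.coe_addLeft, mul_smul_comm, ← hA.add, smul_smul, ← AddChar.map_add_eq_mul]
  congr 2
  rw [QuadraticMap.polar_add_right]
  ring

theorem P_A (hA : AddF A) (w y : X) : P ψ R A y * A w = ψ (polar R y w) • P ψ R A y := by
  rw [P, smul_mul_assoc, Finset.sum_mul, smul_comm (ψ (polar R y w)) ((Fintype.card X : ℂ)⁻¹),
    Finset.smul_sum (r := ψ (polar R y w))]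
  refine congrArg _ ?_
  refine Fintype.sum_equiv (Equiv.addRight w) _ _ ?_
  intro x
  rw [Equiv.coe_addRight, smul_mul_assoc, ← hA.add, smul_smul, ← AddChar.map_add_eq_mul]
  congr 2
  rw [QuadraticMap.polar_add_right]
  ring

theorem cardX_ne : (Fintype.card X : ℂ) ≠ 0 := by
  have : Nonempty X := ⟨0⟩
  exact_mod_cast Fintype.card_ne_zero

theorem P_mul (hR : ND R) (hψ : ψ ≠ 0) (hA : AddF A) [DecidableEq X] (y y' : X) :
    P ψ R A y * P ψ R A y' = if y = y' then P ψ R A y else 0 := by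
  have h1 : P ψ R A y * P ψ R A y' =
      ((Fintype.card X : ℂ)⁻¹ * ∑ w, ψ (polar R (y' - y) w)) • P ψ R A y' := by
    conv_lhs => rw [P]
    rw [smul_mul_assoc, Finset.sum_mul, mul_smul, Finset.sum_smul]
    congr 1
    refine Finset.sum_congr rfl (fun w _ => ?_)
    rw [smul_mul_assoc, A_P hA, smul_smul, ← AddChar.map_add_eq_mul]
    congr 2
    rw [QuadraticMap.polar_sub_left]
    ring
  rw [h1]
  by_cases h : y = y'
  · subst h
    rw [if_pos rfl]
    have : ∑ w : X, ψ (polar R (y - y) w) = Fintype.card X := by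
      simp
    rw [this, inv_mul_cancel₀ cardX_ne, one_smul]
  · rw [if_neg h, sum_psi hR hψ (sub_ne_zero.mpr (Ne.symm h)), mul_zero, zero_smul]

theorem P_idem (hR : ND R) (hψ : ψ ≠ 0) (hA : AddF A) (y : X) :
    P ψ R A y * P ψ R A y = P ψ R A y := by
  classical
  rw [P_mul hR hψ hA, if_pos rfl]

theorem P_mul_ne (hR : ND R) (hψ : ψ ≠ 0) (hA : AddF A) {y y' : X} (h : y ≠ y') :
    P ψ R A y * P ψ R A y' = 0 := by
  classical
  rw [P_mul hR hψ hA, if_neg h]

theorem sum_P (hR : ND R) (hψ : ψ ≠ 0) (hA : AddF A) : ∑ y, P ψ R A y = 1 := by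
  classical
  have h1 : ∑ y, P ψ R A y = (Fintype.card X : ℂ)⁻¹ • ∑ w, (∑ y, ψ (-(polar R w y))) • A w := by
    simp only [P]
    rw [← Finset.smul_sum, Finset.sum_comm]
    congr 1
    refine Finset.sum_congr rfl (fun w _ => ?_)
    rw [Finset.sum_smul]
    refine Finset.sum_congr rfl (fun y _ => ?_)
    rw [QuadraticMap.polar_comm]
  rw [h1, Finset.sum_eq_single 0]
  · have : ∑ y : X, ψ (-(polar R 0 y)) = Fintype.card X := by
      simp
    rw [this, hA.zero, smul_smul, inv_mul_cancel₀ cardX_ne, one_smul]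
  · intro w _ hw
    rw [sum_psi_neg hR hψ hw, zero_smul]
  · intro h; exact absurd (Finset.mem_univ _) h

theorem A_eq (hR : ND R) (hψ : ψ ≠ 0) (hA : AddF A) (w : X) :
    A w = ∑ y, ψ (polar R y w) • P ψ R A y := by
  conv_lhs => rw [← mul_one (A w), ← sum_P hR hψ hA, Finset.mul_sum]
  exact Finset.sum_congr rfl (fun y _ => A_P hA w y)

/-- conjugation of the projections -/
theorem P_conj {U : Module.End ℂ W} {σ τ : X → X} (hσ : Function.Bijective σ)
    (h : ∀ w, U * A w = A (σ w) * U) (hp : ∀ y w, polar R (τ y) (σ w) = polar R y w) (y : X) :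
    U * P ψ R A y = P ψ R A (τ y) * U := by
  rw [P, P, mul_smul_comm, smul_mul_assoc, Finset.mul_sum, Finset.sum_mul]
  congr 1
  refine Fintype.sum_equiv (Equiv.ofBijective σ hσ) _ _ ?_
  intro w
  rw [Equiv.ofBijective_apply, mul_smul_comm, smul_mul_assoc, h, hp]

/-- multiplicity of a weight -/
noncomputable def D (ψ : AddChar F ℂ) (R : QuadraticForm F X) (A : X → Module.End ℂ W) (y : X) :
    ℕ := finrank ℂ (LinearMap.range (P ψ R A y))

variable [FiniteDimensional ℂ W]

theorem trace_P (hR : ND R) (hψ : ψ ≠ 0) (hA : AddF A) (y : X) :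
    LinearMap.trace ℂ W (P ψ R A y) = D ψ R A y :=
  H44.TSys.trace_idem (P_idem hR hψ hA y)

theorem sum_D (hR : ND R) (hψ : ψ ≠ 0) (hA : AddF A) :
    ∑ y, D ψ R A y = finrank ℂ W := by
  have h1 := congrArg (LinearMap.trace ℂ W) (sum_P hR hψ hA)
  rw [map_sum, LinearMap.trace_one] at h1
  rw [Finset.sum_congr rfl (fun y _ => trace_P hR hψ hA y)] at h1
  exact_mod_cast h1

theorem D_eq_zero_iff (y : X) : D ψ R A y = 0 ↔ P ψ R A y = 0 := by
  rw [D, Submodule.finrank_eq_zero, LinearMap.range_eq_bot]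

theorem D_conj (hR : ND R) (hψ : ψ ≠ 0) (hA : AddF A) {U U' : Module.End ℂ W} {σ τ : X → X}
    (hU : U' * U = 1) (hσ : Function.Bijective σ)
    (h : ∀ w, U * A w = A (σ w) * U) (hp : ∀ y w, polar R (τ y) (σ w) = polar R y w) (y : X) :
    D ψ R A (τ y) = D ψ R A y := by
  have hU2 : U * U' = 1 := mul_eq_one_comm.mp hU
  have h1 := P_conj (ψ := ψ) hσ h hp y
  have h2 : P ψ R A (τ y) = U * (P ψ R A y * U') := by
    rw [← mul_assoc, h1, mul_assoc, hU2, mul_one]
  have h3 : LinearMap.trace ℂ W (P ψ R A (τ y)) = LinearMap.trace ℂ W (P ψ R A y) := by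
    rw [h2, LinearMap.trace_mul_comm, mul_assoc, hU, mul_one]
  rw [trace_P hR hψ hA, trace_P hR hψ hA] at h3
  exact_mod_cast h3

/-- trace of `A w` -/
theorem trace_A (hR : ND R) (hψ : ψ ≠ 0) (hA : AddF A) (w : X) :
    LinearMap.trace ℂ W (A w) = ∑ y, ψ (polar R y w) * D ψ R A y := by
  conv_lhs => rw [A_eq hR hψ hA w]
  rw [map_sum]
  refine Finset.sum_congr rfl (fun y _ => ?_)
  rw [map_smul, trace_P hR hψ hA, smul_eq_mul]

omit [FiniteDimensional ℂ W] in
/-- trace of an operator, split along the weights -/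
theorem trace_split (hR : ND R) (hψ : ψ ≠ 0) (hA : AddF A) (U : Module.End ℂ W) :
    LinearMap.trace ℂ W U = ∑ y, LinearMap.trace ℂ W (U * P ψ R A y) := by
  conv_lhs => rw [← mul_one U, ← sum_P hR hψ hA, Finset.mul_sum]
  rw [map_sum]

omit [FiniteDimensional ℂ W] in
theorem trace_perm_ne (hR : ND R) (hψ : ψ ≠ 0) (hA : AddF A) {U : Module.End ℂ W} {σ τ : X → X}
    (hσ : Function.Bijective σ) (h : ∀ w, U * A w = A (σ w) * U)
    (hp : ∀ y w, polar R (τ y) (σ w) = polar R y w) {y : X} (hy : τ y ≠ y) :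
    LinearMap.trace ℂ W (U * P ψ R A y) = 0 := by
  rw [← P_idem hR hψ hA, ← mul_assoc, P_conj hσ h hp, mul_assoc, LinearMap.trace_mul_comm,
    mul_assoc, P_mul_ne hR hψ hA (Ne.symm hy), mul_zero, map_zero]

end H44.OM
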