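import Cfsg.Agent.Lib.H44.OM9
import Cfsg.Agent.Lib.H18.CharBasic

/-! Reduction to irreducible representations. -/

set_option autoImplicit false
set_option linter.unusedSectionVars false

namespace H44.OM

open Module

theorem LB_aux {G : Type*} [Group G] [Finite G] {b : ℕ}
    (h : ∀ (W : Type) [AddCommGroup W] [Module ℂ W] [FiniteDimensional ℂ W]
      (ρ : Representation ℂ G W), ρ.IsIrreducible → (∃ g, ρ g ≠ 1) → b ≤ finrank ℂ W) (n : ℕ) :
    ∀ (W : Type) [AddCommGroup W] [Module ℂ W] [FiniteDimensional ℂ W]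
      (ρ : Representation ℂ G W), finrank ℂ W = n → (∃ g, ρ g ≠ 1) → b ≤ finrank ℂ W := by
  induction n using Nat.strong_induction_on with
  | _ n ih =>
    intro W _ _ _ ρ hn hρ
    have hnt : Nontrivial W := by
      by_contra hcon
      rw [not_nontrivial_iff_subsingleton] at hcon
      obtain ⟨g, hg⟩ := hρ
      apply hg
      apply LinearMap.ext
      intro x
      exact Subsingleton.elim _ _
    by_cases hirr : ρ.IsIrreducible
    · exact h W ρ hirr hρ
    · obtain ⟨p, q, hc, hp, hq⟩ := H18.CharBasic.exists_split ρ hirr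
      rw [hn] at hp hq
      have key : (∃ g, p.toRepresentation g ≠ 1) ∨ (∃ g, q.toRepresentation g ≠ 1) := by
        by_contra hcon
        push Not at hcon
        obtain ⟨h1, h2⟩ := hcon
        obtain ⟨g, hg⟩ := hρ
        apply hg
        apply LinearMap.ext
        intro x
        have hx : x ∈ p.toSubmodule ⊔ q.toSubmodule := by rw [hc.sup_eq_top]; trivial
        obtain ⟨y, hy, z, hz, rfl⟩ := Submodule.mem_sup.mp hx
        have h3 : ρ g y = y := congrArg Subtype.val (LinearMap.congr_fun (h1 g) ⟨y, hy⟩)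
        have h4 : ρ g z = z := congrArg Subtype.val (LinearMap.congr_fun (h2 g) ⟨z, hz⟩)
        rw [map_add, h3, h4]
        rfl
      rcases key with key | key
      · exact (ih _ hp _ p.toRepresentation rfl key).trans (Submodule.finrank_le _)
      · exact (ih _ hq _ q.toRepresentation rfl key).trans (Submodule.finrank_le _)

theorem LB_of_irr {G : Type*} [Group G] [Finite G] {b : ℕ}
    (h : ∀ (W : Type) [AddCommGroup W] [Module ℂ W] [FiniteDimensional ℂ W]
      (ρ : Representation ℂ G W), ρ.IsIrreducible → (∃ g, ρ g ≠ 1) → b ≤ finrank ℂ W) : LB G b :=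
  fun W _ _ _ ρ hρ => LB_aux h _ W ρ rfl hρ

end H44.OM
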