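import Cfsg.Agent.Lib.H44.OM10

/-! Transfer along equivalences of forms. -/

set_option autoImplicit false
set_option linter.unusedSectionVars false

namespace H44.OM

open Module QuadraticMap H7.Hyp H7.Omega H7.OmegaIso H7.HypStd

variable {F : Type*} [Field F] {V : Type*} [AddCommGroup V] [Module F V]
  {V' : Type*} [AddCommGroup V'] [Module F V'] {Q : QuadraticForm F V} {Q' : QuadraticForm F V'}

/-- conjugation by a linear equivalence -/
def cj (φ : V ≃ₗ[F] V') : (V ≃ₗ[F] V) →* (V' ≃ₗ[F] V') where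
  toFun g := (φ.symm.trans g).trans φ
  map_one' := by
    apply LinearEquiv.ext
    intro v
    simp
  map_mul' a b := by
    apply LinearEquiv.ext
    intro v
    simp [LinearEquiv.mul_apply]

theorem cj_apply (φ : V ≃ₗ[F] V') (g : V ≃ₗ[F] V) (v : V') : cj φ g v = φ (g (φ.symm v)) := rfl

/-- extension of an isometry -/
def ext2 (φ : V ≃ₗ[F] V') : (F × F × V) ≃ₗ[F] (F × F × V') :=
  (LinearEquiv.refl F F).prodCongr ((LinearEquiv.refl F F).prodCongr φ)

theorem ext2_symm_apply (φ : V ≃ₗ[F] V') (x y : F) (v : V') :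
    (ext2 φ).symm (x, y, v) = (x, y, φ.symm v) := rfl

theorem ext2_apply (φ : V ≃ₗ[F] V') (x y : F) (v : V) :
    (ext2 φ) (x, y, v) = (x, y, φ v) := rfl

theorem polar_iso {φ : V ≃ₗ[F] V'} (hφ : ∀ v, Q' (φ v) = Q v) (v w : V) :
    polar Q' (φ v) (φ w) = polar Q v w := by
  rw [polar, polar, ← map_add, hφ, hφ, hφ]

theorem cj_E {φ : V ≃ₗ[F] V'} (hφ : ∀ v, Q' (φ v) = Q v) (w : V) :
    cj (ext2 φ) (E Q w) = E Q' (φ w) := by
  apply LinearEquiv.ext
  rintro ⟨x, y, v⟩
  rw [cj_apply, ext2_symm_apply, E_apply, ext2_apply, E_apply, hφ, map_add, map_smul,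
    LinearEquiv.apply_symm_apply]
  have h := polar_iso hφ (φ.symm v) w
  rw [LinearEquiv.apply_symm_apply] at h
  rw [h]

theorem cj_E' {φ : V ≃ₗ[F] V'} (hφ : ∀ v, Q' (φ v) = Q v) (w : V) :
    cj (ext2 φ) (E' Q w) = E' Q' (φ w) := by
  apply LinearEquiv.ext
  rintro ⟨x, y, v⟩
  rw [cj_apply, ext2_symm_apply, E'_apply, ext2_apply, E'_apply, hφ, map_add, map_smul,
    LinearEquiv.apply_symm_apply]
  have h := polar_iso hφ (φ.symm v) w
  rw [LinearEquiv.apply_symm_apply] at h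
  rw [h]

theorem cj_Om {φ : V ≃ₗ[F] V'} (hφ : ∀ v, Q' (φ v) = Q v) {g : (F × F × V) ≃ₗ[F] (F × F × V)}
    (hg : g ∈ Om Q) : cj (ext2 φ) g ∈ Om Q' := by
  unfold Om at hg
  induction hg using Subgroup.closure_induction with
  | mem x hx =>
    rcases hx with ⟨w, rfl⟩ | ⟨w, rfl⟩
    · rw [cj_E hφ]; exact E_mem_Om _ _
    · rw [cj_E' hφ]; exact E'_mem_Om _ _
  | one => rw [map_one]; exact (Om Q').one_mem
  | mul x y hx hy h1 h2 => rw [map_mul]; exact (Om Q').mul_mem h1 h2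
  | inv x hx h1 => rw [map_inv]; exact (Om Q').inv_mem h1

theorem Om_congr (h : Q.Equivalent Q') : Nonempty (Om Q ≃* Om Q') := by
  obtain ⟨ε⟩ := h
  have h1 : ∀ v, Q' (ε.toLinearEquiv v) = Q v := fun v => ε.map_app v
  have h2 : ∀ v, Q (ε.toLinearEquiv.symm v) = Q' v := fun v => by
    rw [← h1, LinearEquiv.apply_symm_apply]
  refine ⟨{ toFun := fun g => ⟨cj (ext2 ε.toLinearEquiv) g.1, cj_Om h1 g.2⟩
            invFun := fun g => ⟨cj (ext2 ε.toLinearEquiv.symm) g.1, cj_Om h2 g.2⟩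
            left_inv := ?_
            right_inv := ?_
            map_mul' := ?_ }⟩
  · intro g
    apply Subtype.ext
    apply LinearEquiv.ext
    rintro ⟨x, y, v⟩
    change (ext2 ε.toLinearEquiv.symm) ((ext2 ε.toLinearEquiv) (g.1 ((ext2 ε.toLinearEquiv).symm
      ((ext2 ε.toLinearEquiv.symm).symm (x, y, v))))) = _
    rw [ext2_symm_apply, ext2_symm_apply]
    rw [LinearEquiv.symm_symm, LinearEquiv.symm_apply_apply]
    obtain ⟨x', y', v'⟩ := g.1 (x, y, v)
    rw [ext2_apply, ext2_apply, LinearEquiv.symm_apply_apply]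
  · intro g
    apply Subtype.ext
    apply LinearEquiv.ext
    rintro ⟨x, y, v⟩
    change (ext2 ε.toLinearEquiv) ((ext2 ε.toLinearEquiv.symm) (g.1 ((ext2 ε.toLinearEquiv.symm).symm
      ((ext2 ε.toLinearEquiv).symm (x, y, v))))) = _
    rw [ext2_symm_apply, ext2_symm_apply]
    rw [LinearEquiv.symm_symm, LinearEquiv.apply_symm_apply]
    obtain ⟨x', y', v'⟩ := g.1 (x, y, v)
    rw [ext2_apply, ext2_apply, LinearEquiv.apply_symm_apply]
  · intro a b
    apply Subtype.ext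
    exact map_mul _ _ _

theorem LB.congr {b : ℕ} (hb : LB (Om Q) b) (h : Q.Equivalent Q') : LB (Om Q') b := by
  obtain ⟨f⟩ := Om_congr h
  exact hb.of_hom f.toMonoidHom f.surjective

end H44.OM
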