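import Mathlib

/-! Arithmetic for the minimal degrees of the orthogonal groups. -/

set_option autoImplicit false

namespace H44.OM

theorem arith_plus (q y k I : ℤ) (N : ℕ) (hq : 2 ≤ q) (hy : 1 ≤ y)
    (hk : (q ^ 2 - 1) * (k + 1) = q * (q ^ 4 * y - 1) * (q ^ 2 * y + 1))
    (hI : (q ^ 2 - 1) * I = (q ^ 4 * y - 1) * (q ^ 3 * y + 1) * ((q ^ 3 * y - 1) * (q ^ 2 * y + 1)))
    (hd : k ∣ I * q ^ N) : False := by
  have hq2 : q ^ 2 - 1 ≠ 0 := by nlinarith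
  have h2 : q * I = (k + 1) * (q ^ 6 * y ^ 2 - 1) := by
    apply mul_left_cancel₀ hq2
    linear_combination q * hI - (q ^ 6 * y ^ 2 - 1) * hk
  have hc : IsCoprime k q := ⟨-1, q * (k + 1) - (q ^ 4 * y - 1) * (q ^ 2 * y + 1), by
    linear_combination hk⟩
  have h4 : k ∣ I := (hc.pow_right (n := N)).dvd_of_dvd_mul_right hd
  obtain ⟨s, hs⟩ := h4
  -- a² - 1 = k * t
  obtain ⟨t, ht⟩ : ∃ t, q ^ 6 * y ^ 2 - 1 = k * t := ⟨q * s - (q ^ 6 * y ^ 2 - 1), by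
    rw [hs] at h2
    linear_combination -h2⟩
  have h6 : (q ^ 2 - 1) * k = (q ^ 3 * y - 1) * (q ^ 4 * y + q ^ 2 + q - 1) := by
    linear_combination hk
  have ha : q ^ 3 * y - 1 ≠ 0 := by
    have h8 : (2 : ℤ) ^ 3 ≤ q ^ 3 := pow_le_pow_left₀ (by norm_num) hq 3
    nlinarith
  have h7 : (q ^ 2 - 1) * (q ^ 3 * y + 1) = (q ^ 4 * y + q ^ 2 + q - 1) * t := by
    apply mul_left_cancel₀ ha
    linear_combination (q ^ 2 - 1) * ht + t * h6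
  have h8 : (q ^ 2 - 1) ^ 2 = (q ^ 4 * y + q ^ 2 + q - 1) * ((q ^ 2 - 1) - q * t) := by
    linear_combination -q * h7
  have h9 : (q ^ 4 * y + q ^ 2 + q - 1) ≤ (q ^ 2 - 1) ^ 2 :=
    Int.le_of_dvd (by positivity) ⟨_, h8⟩
  have h10 : q ^ 4 * 1 ≤ q ^ 4 * y := mul_le_mul_of_nonneg_left hy (by positivity)
  nlinarith

theorem arith_minus (q y k I : ℤ) (N : ℕ) (hq : 2 ≤ q) (hy : 1 ≤ y)
    (hk : (q ^ 2 - 1) * (k + 1) = q * (q ^ 4 * y + 1) * (q ^ 2 * y - 1))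
    (hI : (q ^ 2 - 1) * I = (q ^ 4 * y + 1) * (q ^ 3 * y - 1) * ((q ^ 3 * y + 1) * (q ^ 2 * y - 1)))
    (hd : k ∣ I * q ^ N) : False := by
  have hq2 : q ^ 2 - 1 ≠ 0 := by nlinarith
  have h2 : q * I = (k + 1) * (q ^ 6 * y ^ 2 - 1) := by
    apply mul_left_cancel₀ hq2
    linear_combination q * hI - (q ^ 6 * y ^ 2 - 1) * hk
  have hc : IsCoprime k q := ⟨-1, q * (k + 1) - (q ^ 4 * y + 1) * (q ^ 2 * y - 1), by
    linear_combination hk⟩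
  have h4 : k ∣ I := (hc.pow_right (n := N)).dvd_of_dvd_mul_right hd
  obtain ⟨s, hs⟩ := h4
  obtain ⟨t, ht⟩ : ∃ t, q ^ 6 * y ^ 2 - 1 = k * t := ⟨q * s - (q ^ 6 * y ^ 2 - 1), by
    rw [hs] at h2
    linear_combination -h2⟩
  have h6 : (q ^ 2 - 1) * k = (q ^ 3 * y + 1) * (q ^ 4 * y - q ^ 2 - q + 1) := by
    linear_combination hk
  have h8' : (2 : ℤ) ^ 3 ≤ q ^ 3 := pow_le_pow_left₀ (by norm_num) hq 3
  have ha : q ^ 3 * y + 1 ≠ 0 := by nlinarith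
  have h7 : (q ^ 2 - 1) * (q ^ 3 * y - 1) = (q ^ 4 * y - q ^ 2 - q + 1) * t := by
    apply mul_left_cancel₀ ha
    linear_combination (q ^ 2 - 1) * ht + t * h6
  have h8 : (q ^ 2 - 1) ^ 2 = (q ^ 4 * y - q ^ 2 - q + 1) * (q * t - (q ^ 2 - 1)) := by
    linear_combination q * h7
  have h9 : (q ^ 4 * y - q ^ 2 - q + 1) ≤ (q ^ 2 - 1) ^ 2 :=
    Int.le_of_dvd (by positivity) ⟨_, h8⟩
  have h10 : q ^ 4 * 1 ≤ q ^ 4 * y := mul_le_mul_of_nonneg_left hy (by positivity)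
  nlinarith

theorem arith_minus2 (q k I : ℤ) (hq : 3 ≤ q)
    (hk : k + 2 = q ^ 5 + q)
    (hI : (q ^ 2 - 1) * I = (q ^ 4 + 1) * (q ^ 3 - 1) * ((q ^ 3 + 1) * (q ^ 2 - 1)))
    (hd : k ∣ I * q ^ 5) : False := by
  have hq2 : q ^ 2 - 1 ≠ 0 := by nlinarith
  have h2 : I = (q ^ 4 + 1) * (q ^ 6 - 1) := by
    apply mul_left_cancel₀ hq2
    linear_combination hI
  obtain ⟨t, ht⟩ := hd
  have hk' : k = (q - 1) * (q ^ 4 + q ^ 3 + q ^ 2 + q + 2) := by linear_combination hk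
  have h3 : (q - 1) * (2 * q ^ 4 * (q - 1)) = (q - 1) *
      ((q ^ 4 + q ^ 3 + q ^ 2 + q + 2) * (q ^ 4 * (q ^ 6 - 1) + 2 * q ^ 5 - t)) := by
    have h4 : (q - 1) * ((q ^ 4 + q ^ 3 + q ^ 2 + q + 2) * t) = I * q ^ 5 := by
      rw [ht, hk']; ring
    rw [h2] at h4
    linear_combination h4
  have h5 := mul_left_cancel₀ (by linarith : q - 1 ≠ 0) h3
  have h6 : 2 * q ^ 3 + 2 * q ^ 2 + 8 = (q ^ 4 + q ^ 3 + q ^ 2 + q + 2) *
      ((q ^ 4 * (q ^ 6 - 1) + 2 * q ^ 5 - t) - 2 * q + 4) := by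
    linear_combination h5
  have h7 := Int.le_of_dvd (by positivity) ⟨_, h6⟩
  have h8 : (3 : ℤ) * q ^ 3 ≤ q * q ^ 3 := mul_le_mul_of_nonneg_right hq (by positivity)
  have h9 : (3 : ℤ) * q ^ 2 ≤ q * q ^ 2 := mul_le_mul_of_nonneg_right hq (by positivity)
  nlinarith

end H44.OM
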