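import Cfsg.Agent.Lib.H44.OM12
import Cfsg.Agent.Lib.H44.OM13
import Cfsg.Agent.Lib.H7.HypOrd

/-! The minimal degree of `Ω⁺`. -/

set_option autoImplicit false
set_option linter.unusedSectionVars false

namespace H44.OM

open Module QuadraticMap H7.Hyp H7.Omega H7.OmegaIso H7.HypStd H48.QuadStd

theorem exists_psi (F : Type*) [Field F] [Fintype F] : ∃ ψ : AddChar F ℂ, ψ ≠ 0 := by
  obtain ⟨ψ, hψ⟩ := (AddChar.exists_apply_ne_zero (a := (1 : F))).mpr one_ne_zero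
  exact ⟨ψ, fun h => hψ (by rw [h]; rfl)⟩

theorem exists_sq_ne {F : Type*} [Field F] [Fintype F] (h : 4 ≤ Fintype.card F) :
    ∃ a : F, a ≠ 0 ∧ a * a ≠ 1 := by
  classical
  by_contra hcon
  push Not at hcon
  have h1 : (Finset.univ : Finset F) ⊆ {0, 1, -1} := by
    intro a _
    by_cases ha : a = 0
    · simp [ha]
    · have h2 := hcon a ha
      have h3 : (a - 1) * (a + 1) = 0 := by linear_combination h2
      rcases mul_eq_zero.mp h3 with h4 | h4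
      · simp [sub_eq_zero.mp h4]
      · simp [eq_neg_of_add_eq_zero_left h4]
  have h2 := Finset.card_le_card h1
  have h3 := Finset.card_le_three (a := (0 : F)) (b := 1) (c := -1)
  rw [Finset.card_univ] at h2
  omega

theorem exists_sq_ne' {F : Type*} [Field F] [Fintype F] (h : 4 ≤ Fintype.card F) :
    ∃ a : Fˣ, a * a ≠ 1 := by
  obtain ⟨a, h0, h1⟩ := exists_sq_ne h
  refine ⟨Units.mk0 a h0, fun h2 => h1 ?_⟩
  have := congrArg Units.val h2
  simpa using this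

variable {F : Type*} [Field F] [Fintype F]

theorem Eq2 (m : ℕ) : (hyp (hyp (qPlus m F))).Equivalent (qPlus (m + 2) F) :=
  ((plus_succ (m + 1)).trans (hyp_congr (plus_succ m))).symm

theorem Eq3 (m : ℕ) : (hyp (hyp (hyp (qPlus m F)))).Equivalent (qPlus (m + 3) F) :=
  ((plus_succ (m + 2)).trans (hyp_congr (Eq2 m).symm)).symm

theorem nz2 (m : ℕ) : Nat.card {p : F × F × (F × F × (Fin (m + 1) ⊕ Fin (m + 1) → F)) //
    p ≠ 0 ∧ hyp (hyp (qPlus (m + 1) F)) p = 0} + 1 + Fintype.card F ^ (m + 2) =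
    Fintype.card F ^ (2 * m + 5) + Fintype.card F ^ (m + 3) := by
  have h := cnt_plus (F := F) (m + 2)
  rw [← cnt_congr (Eq2 (m + 1)), ← cnt_zero_ne_zero, Nat.card_eq_fintype_card (α := F)] at h
  exact h

theorem nz3 (m : ℕ) : Nat.card {p : F × F × (F × F × (F × F × (Fin (m + 1) ⊕ Fin (m + 1) → F))) //
    p ≠ 0 ∧ hyp (hyp (hyp (qPlus (m + 1) F))) p = 0} + 1 + Fintype.card F ^ (m + 3) =
    Fintype.card F ^ (2 * m + 7) + Fintype.card F ^ (m + 4) := by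
  have h := cnt_plus (F := F) (m + 3)
  rw [← cnt_congr (Eq3 (m + 1)), ← cnt_zero_ne_zero, Nat.card_eq_fintype_card (α := F)] at h
  exact h

/-- the bound -/
def KP (q : ℕ) : ℕ → ℕ
  | 0 => q ^ 3 + q ^ 2 + q
  | m + 1 => KP q m + q ^ (m + 2) * (q ^ (m + 3) + (q - 1))

theorem KP_eq {q : ℕ} (hq : 1 ≤ q) (m : ℕ) :
    ((q : ℤ) ^ 2 - 1) * KP q m = q * ((q : ℤ) ^ (m + 3) - 1) * ((q : ℤ) ^ (m + 1) + 1) := by
  induction m with
  | zero =>
    rw [KP]
    push_cast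
    ring
  | succ m ih =>
    rw [KP]
    push_cast [Nat.cast_sub hq]
    rw [mul_add, ih]
    ring

theorem KP_lt {q : ℕ} (hq : 4 ≤ q) (m : ℕ) : KP q (m + 1) ≤
    2 * ((q ^ 3 - q) * q ^ (2 * m + 2)) := by
  have h1 := KP_eq (q := q) (by omega) (m + 1)
  have hq' : (4 : ℤ) ≤ q := by exact_mod_cast hq
  have h2 : ((q : ℤ) ^ 2 - 1) * KP q (m + 1) ≤ ((q : ℤ) ^ 2 - 1) *
      (2 * (((q : ℤ) ^ 3 - q) * (q : ℤ) ^ (2 * m + 2))) := by
    rw [h1]
    set x : ℤ := (q : ℤ) ^ m with hx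
    have e1 : (q : ℤ) ^ (m + 1 + 3) = q ^ 4 * x := by rw [hx]; ring
    have e2 : (q : ℤ) ^ (m + 1 + 1) = q ^ 2 * x := by rw [hx]; ring
    have e3 : (q : ℤ) ^ (2 * m + 2) = q ^ 2 * x ^ 2 := by rw [hx]; ring
    rw [e1, e2, e3]
    have hx1 : 1 ≤ x := one_le_pow₀ (by linarith)
    have f1 : (q : ℤ) ^ 5 * x ≤ q ^ 5 * x ^ 2 :=
      mul_le_mul_of_nonneg_left (by nlinarith) (by positivity)
    have f2 : 16 * ((q : ℤ) ^ 5 * x ^ 2) ≤ q ^ 2 * (q ^ 5 * x ^ 2) :=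
      mul_le_mul_of_nonneg_right (by nlinarith) (by positivity)
    have f3 : 0 ≤ (q : ℤ) ^ 3 * x ^ 2 := by positivity
    have f4 : 0 ≤ (q : ℤ) ^ 3 * x := by positivity
    have f5 : 0 ≤ (q : ℤ) ^ 5 * x ^ 2 := by positivity
    nlinarith
  have h3 := le_of_mul_le_mul_left h2 (by nlinarith)
  have h4 : (((q ^ 3 - q : ℕ) : ℤ)) = (q : ℤ) ^ 3 - q := by
    rw [Nat.cast_sub (Nat.le_self_pow (by norm_num) q)]
    push_cast; ring
  zify
  rw [h4]
  exact h3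

/-- the inductive step -/
theorem plus_step (hq : 4 ≤ Fintype.card F) (m : ℕ)
    (ih : LB (Om (hyp (qPlus (m + 1) F))) (KP (Fintype.card F) m)) :
    LB (Om (hyp (qPlus (m + 2) F))) (KP (Fintype.card F) (m + 1)) := by
  classical
  obtain ⟨ψ, hψ⟩ := exists_psi F
  have hQ : ND (qPlus (m + 1) F) := H7.HypOrd.nd_plus (m + 1)
  have hV : Fintype.card (Fin (m + 1) ⊕ Fin (m + 1) → F) = Fintype.card F ^ (2 * m + 2) := by
    rw [← Nat.card_eq_fintype_card, card_plus, Nat.card_eq_fintype_card]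
    congr 1
  suffices h : LB (Om (hyp (hyp (qPlus (m + 1) F)))) (KP (Fintype.card F) (m + 1)) from
    h.congr (hyp_congr (plus_succ (m + 1)).symm)
  apply LB_of_irr
  intro W _ _ _ ρ hρ hg
  by_contra hcon
  push Not at hcon
  set q := Fintype.card F with hqdef
  have hk : finrank ℂ W < 2 * ((q ^ 3 - q) * Fintype.card (Fin (m + 1) ⊕ Fin (m + 1) → F)) := by
    rw [hV]
    exact lt_of_lt_of_le hcon (KP_lt hq m)
  obtain ⟨c, hc, hc0⟩ := exists_cls hQ hψ ρ hg hk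
  have hc1 : c = 0 := hc0 (exists_sq_ne hq)
  subst hc1
  have h1 := bound hQ hψ ρ hc (Or.inl (exists_sq_ne' hq)) ih
  have h2 := card_Ob (Q := hyp (hyp (qPlus (m + 1) F))) 0
  rw [if_pos rfl, ← cnt_zero_ne_zero] at h2
  have h3 := nz2 (F := F) m
  obtain ⟨I, h4, h5⟩ := irr_dvd hQ hψ ρ hρ hc
  have h6 := nz3 (F := F) m
  rw [← hqdef] at h3 h4 h5 h6
  set A := Nat.card {p : F × F × (F × F × (F × F × (Fin (m + 1) ⊕ Fin (m + 1) → F))) //
    p ≠ 0 ∧ hyp (hyp (hyp (qPlus (m + 1) F))) p = 0} with hA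
  set B := Nat.card {p : F × F × (F × F × (Fin (m + 1) ⊕ Fin (m + 1) → F)) //
    p ≠ 0 ∧ hyp (hyp (qPlus (m + 1) F)) p = 0} with hB
  have e0 : q ^ (m + 2) * (q ^ (m + 3) + (q - 1)) + q ^ (m + 2) =
      q ^ (2 * m + 5) + q ^ (m + 3) := by
    obtain ⟨r, hr⟩ : ∃ r, q = r + 1 := ⟨q - 1, by omega⟩
    rw [hr, Nat.add_sub_cancel]
    ring
  have h7 : finrank ℂ W + 1 = KP q (m + 1) := by
    rw [KP] at hcon ⊢
    omega
  have h8 := KP_eq (q := q) (by omega) (m + 1)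
  rw [← h7] at h8
  rw [hV] at h5
  have h9 : q ^ 3 * q ^ (2 * m + 2) = q ^ (2 * m + 5) := by ring
  rw [h9] at h5
  have hqz : (4 : ℤ) ≤ q := by exact_mod_cast hq
  refine arith_plus q (q ^ m) (finrank ℂ W) I (2 * m + 5) (by linarith)
    (one_le_pow₀ (by linarith)) ?_ ?_ ?_
  · push_cast at h8
    rw [h8]
    ring
  · have h10 : (((q ^ 2 - 1 : ℕ) : ℤ)) = (q : ℤ) ^ 2 - 1 := by
      rw [Nat.cast_sub (Nat.one_le_pow _ _ (by omega))]
      push_cast; ring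
    have h11 : ((q : ℤ) ^ 2 - 1) * I = A * B := by
      rw [← h10]; exact_mod_cast h4
    have h12 : (A : ℤ) = (q ^ (m + 4) - 1) * (q ^ (m + 3) + 1) := by
      have : ((A + 1 + q ^ (m + 3) : ℕ) : ℤ) = ((q ^ (2 * m + 7) + q ^ (m + 4) : ℕ) : ℤ) := by
        rw [h6]
      push_cast at this
      linear_combination this
    have h13 : (B : ℤ) = (q ^ (m + 3) - 1) * (q ^ (m + 2) + 1) := by
      have : ((B + 1 + q ^ (m + 2) : ℕ) : ℤ) = ((q ^ (2 * m + 5) + q ^ (m + 3) : ℕ) : ℤ) := by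
        rw [h3]
      push_cast at this
      linear_combination this
    rw [h11, h12, h13]
    ring
  · exact_mod_cast h5

theorem LB_plus (hq : 4 ≤ Fintype.card F) (m : ℕ) :
    LB (Om (hyp (qPlus (m + 1) F))) (KP (Fintype.card F) m) := by
  induction m with
  | zero => exact LB_plus_base hq
  | succ m ih => exact plus_step hq m ih

end H44.OM
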