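import Cfsg.Agent.Lib.H44.OM14
import Cfsg.Agent.Lib.H7.MinusOrd
import Cfsg.Agent.Lib.H41.OrMinusA

/-! The minimal degree of `Ω⁻`: counting and the base case. -/

set_option autoImplicit false
set_option linter.unusedSectionVars false

namespace H44.OM

open Module QuadraticMap H7.Hyp H7.Omega H7.OmegaIso H7.HypStd H48.QuadStd

section gen

variable {F : Type*} [Field F] [Fintype F] {V : Type*} [AddCommGroup V] [Module F V] [Fintype V]
  {Q : QuadraticForm F V} {W : Type*} [AddCommGroup W] [Module ℂ W] [FiniteDimensional ℂ W]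

theorem mul_card_le' (hQ : ND Q) (hu : Univ Q) {ψ : AddChar F ℂ} (hψ : ψ ≠ 0)
    (ρ : Representation ℂ (Om (hyp Q)) W) {y : F × F × V} (hy : y ≠ 0) :
    mu ψ ρ y * (Ob (hyp Q) (hyp Q y)).card ≤ finrank ℂ W := by
  rw [← sum_mu hQ.hyp hψ ρ, mul_comm, ← smul_eq_mul, ← Finset.sum_const]
  calc ∑ x ∈ Ob (hyp Q) (hyp Q y), mu ψ ρ y
      = ∑ x ∈ Ob (hyp Q) (hyp Q y), mu ψ ρ x := by
        refine Finset.sum_congr rfl (fun x hx => ?_)
        rw [mem_Ob] at hx
        exact mu_norm hQ hu hψ ρ hy hx.1 hx.2.symm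
    _ ≤ ∑ x, mu ψ ρ x := Finset.sum_le_sum_of_subset (Finset.subset_univ _)

theorem finrank_ge_Ob (hQ : ND Q) (hu : Univ Q) [Nontrivial V] {ψ : AddChar F ℂ} (hψ : ψ ≠ 0)
    (ρ : Representation ℂ (Om (hyp Q)) W) (h : ∃ g, ρ g ≠ 1) :
    ∃ y : F × F × V, y ≠ 0 ∧ mu ψ ρ y ≠ 0 ∧ (Ob (hyp Q) (hyp Q y)).card ≤ finrank ℂ W := by
  obtain ⟨y, hy, h1⟩ := exists_weight hQ.hyp hψ ρ h
  refine ⟨y, hy, h1, le_trans ?_ (mul_card_le' hQ hu hψ ρ hy)⟩
  exact Nat.le_mul_of_pos_left _ (Nat.pos_of_ne_zero h1)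

/-- enough room -/
theorem Cc_of (hQ : ND Q) (hd : 3 ≤ finrank F V) (c : F) : Cc Q c := by
  intro v hv _
  by_contra hcon
  push Not at hcon
  obtain ⟨w0, hw0⟩ : ∃ w, polar Q v w ≠ 0 := by
    by_contra h
    push Not at h
    exact hv (hQ v h)
  have h1 : LinearMap.ker (polarBilin Q v) ≤ Submodule.span F {v} := by
    intro u hu
    have hu' : polar Q v u = 0 := by simpa using hu
    rw [Submodule.mem_span_singleton]
    refine ⟨polar Q u w0 / polar Q v w0, ?_⟩
    have h2 : u - (polar Q u w0 / polar Q v w0) • v = 0 := by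
      apply hQ
      intro z
      have h3 := hcon u (z - (polar Q v z / polar Q v w0) • w0) hu' (by
        rw [QuadraticMap.polar_sub_right, QuadraticMap.polar_smul_right, smul_eq_mul,
          div_mul_cancel₀ _ hw0, sub_self])
      rw [QuadraticMap.polar_sub_right, QuadraticMap.polar_smul_right, smul_eq_mul] at h3
      rw [QuadraticMap.polar_sub_left, QuadraticMap.polar_smul_left, smul_eq_mul]
      field_simp at h3 ⊢
      linear_combination h3
    exact (sub_eq_zero.mp h2).symm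
  have h2 := Submodule.finrank_mono h1
  have h3 := LinearMap.finrank_range_add_finrank_ker (polarBilin Q v)
  have h4 := finrank_span_le_card (R := F) ({v} : Set V)
  have h5 : finrank F (LinearMap.range (polarBilin Q v)) ≤ 1 := by
    have := Submodule.finrank_le (LinearMap.range (polarBilin Q v))
    rwa [Module.finrank_self] at this
  simp at h4
  omega

end gen

variable {F : Type*} [Field F] [Fintype F]

theorem cnt_minus_ne' (m : ℕ) {a b c : F} (h : H7.AnisoPlane.Aniso a b) (hc : c ≠ 0) :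
    cnt (qMinus m F a b) c = Fintype.card F ^ (2 * m + 1) + Fintype.card F ^ m := by
  rw [← Nat.card_eq_fintype_card]
  exact H41.OrMinusA.cnt_minus_ne m h hc

theorem cnt_minus' (m : ℕ) {a b : F} (h : H7.AnisoPlane.Aniso a b) :
    cnt (qMinus m F a b) 0 + Fintype.card F ^ (m + 1) =
      Fintype.card F ^ (2 * m + 1) + Fintype.card F ^ m := by
  rw [← Nat.card_eq_fintype_card]
  exact cnt_minus m h

theorem univ_minus (m : ℕ) {a b : F} (h : H7.AnisoPlane.Aniso a b) : Univ (qMinus m F a b) := by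
  intro c hc
  have h1 := cnt_minus_ne' m h hc
  have h2 : 0 < cnt (qMinus m F a b) c := by
    rw [h1]
    have : 0 < Fintype.card F := Fintype.card_pos
    positivity
  rw [cnt, Nat.card_pos_iff] at h2
  obtain ⟨⟨⟨w, hw⟩⟩, _⟩ := h2
  exact ⟨w, hw⟩

theorem aniso_sing {a b : F} (h : H7.AnisoPlane.Aniso a b)
    {v : (Fin 0 ⊕ Fin 0) ⊕ Fin 2 → F} (hv : qMinus 0 F a b v = 0) : v = 0 := by
  have h1 := cnt_minus' 0 h
  have h2 : cnt (qMinus 0 F a b) 0 = 1 := by
    simp at h1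
    omega
  rw [cnt, Nat.card_eq_one_iff_unique] at h2
  obtain ⟨⟨h3⟩, _⟩ := h2
  exact congrArg Subtype.val (h3 ⟨v, hv⟩ ⟨0, map_zero _⟩)

/-- the base case -/
theorem LB_minus_base {a b : F} (h : H7.AnisoPlane.Aniso a b) :
    LB (Om (hyp (qMinus 0 F a b))) (Fintype.card F ^ 3 + Fintype.card F -
      (Fintype.card F ^ 2 + 1)) := by
  classical
  intro W _ _ _ ρ hρ
  obtain ⟨ψ, hψ⟩ := exists_psi F
  have hQ : ND (qMinus 0 F a b) := H7.MinusOrd.nd_minus 0 h
  obtain ⟨y, hy, hm, hle⟩ := finrank_ge_Ob hQ (univ_minus 0 h) hψ ρ hρ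
  refine le_trans ?_ hle
  have h1 := card_Ob (Q := hyp (qMinus 0 F a b)) (hyp (qMinus 0 F a b) y)
  rw [cnt_congr (minus_succ 0 a b).symm] at h1
  have hq : 2 ≤ Fintype.card F := Fintype.one_lt_card
  by_cases hc : hyp (qMinus 0 F a b) y = 0
  · rw [if_pos hc, hc] at h1
    have h2 := cnt_minus' 1 h
    rw [hc]
    simp only [mul_one, Nat.reduceAdd, pow_one] at h1 h2 ⊢
    omega
  · rw [if_neg hc, add_zero] at h1
    have h2 := cnt_minus_ne' 1 h hc
    simp only [mul_one, Nat.reduceAdd, pow_one] at h1 h2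
    rw [h2] at h1
    rw [h1]
    omega

end H44.OM
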