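import Cfsg.Agent.Lib.H44.OM15

/-! The minimal degree of `Ω⁻`: the inductive step. -/

set_option autoImplicit false
set_option linter.unusedSectionVars false

namespace H44.OM

open Module QuadraticMap H7.Hyp H7.Omega H7.OmegaIso H7.HypStd H48.QuadStd

variable {F : Type*} [Field F] [Fintype F] {a b : F}

theorem Em2 (m : ℕ) : (hyp (hyp (qMinus m F a b))).Equivalent (qMinus (m + 2) F a b) :=
  ((minus_succ (m + 1) a b).trans (hyp_congr (minus_succ m a b))).symm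

theorem Em3 (m : ℕ) : (hyp (hyp (hyp (qMinus m F a b)))).Equivalent (qMinus (m + 3) F a b) :=
  ((minus_succ (m + 2) a b).trans (hyp_congr (Em2 m).symm)).symm

theorem nzm2 (h : H7.AnisoPlane.Aniso a b) (m : ℕ) :
    Nat.card {p : F × F × (F × F × ((Fin m ⊕ Fin m) ⊕ Fin 2 → F)) //
    p ≠ 0 ∧ hyp (hyp (qMinus m F a b)) p = 0} + 1 + Fintype.card F ^ (m + 3) =
    Fintype.card F ^ (2 * m + 5) + Fintype.card F ^ (m + 2) := by
  have h := cnt_minus' (m + 2) h
  rw [← cnt_congr (Em2 m), ← cnt_zero_ne_zero] at h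
  exact h

theorem nzm3 (h : H7.AnisoPlane.Aniso a b) (m : ℕ) :
    Nat.card {p : F × F × (F × F × (F × F × ((Fin m ⊕ Fin m) ⊕ Fin 2 → F))) //
    p ≠ 0 ∧ hyp (hyp (hyp (qMinus m F a b))) p = 0} + 1 + Fintype.card F ^ (m + 4) =
    Fintype.card F ^ (2 * m + 7) + Fintype.card F ^ (m + 3) := by
  have h := cnt_minus' (m + 3) h
  rw [← cnt_congr (Em3 m), ← cnt_zero_ne_zero] at h
  exact h

/-- the bound -/
def KM (q : ℕ) : ℕ → ℕ
  | 0 => q ^ 3 + q - q ^ 2
  | m + 1 => KM q m + q ^ (m + 2) * (q ^ (m + 3) + 1 - q)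

theorem KM_eq {q : ℕ} (hq : 1 ≤ q) (m : ℕ) :
    ((q : ℤ) ^ 2 - 1) * KM q m = q * ((q : ℤ) ^ (m + 3) + 1) * ((q : ℤ) ^ (m + 1) - 1) := by
  induction m with
  | zero =>
    rw [KM]
    have h1 : q ^ 2 ≤ q ^ 3 + q := by
      have : q ^ 2 ≤ q ^ 3 := Nat.pow_le_pow_right hq (by omega)
      omega
    push_cast [Nat.cast_sub h1]
    ring
  | succ m ih =>
    rw [KM]
    have h1 : q ≤ q ^ (m + 3) + 1 := by
      have : q ≤ q ^ (m + 3) := Nat.le_self_pow (by omega) q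
      omega
    push_cast [Nat.cast_sub h1]
    rw [mul_add, ih]
    ring

theorem KM_lt {q : ℕ} (hq : 2 ≤ q) (m : ℕ) : KM q (m + 1) ≤
    2 * ((q ^ 3 - q) * q ^ (2 * m + 2)) := by
  have h1 := KM_eq (q := q) (by omega) (m + 1)
  have hq' : (2 : ℤ) ≤ q := by exact_mod_cast hq
  have h2 : ((q : ℤ) ^ 2 - 1) * KM q (m + 1) ≤ ((q : ℤ) ^ 2 - 1) *
      (2 * (((q : ℤ) ^ 3 - q) * (q : ℤ) ^ (2 * m + 2))) := by
    rw [h1]
    set x : ℤ := (q : ℤ) ^ m with hx
    have e1 : (q : ℤ) ^ (m + 1 + 3) = q ^ 4 * x := by rw [hx]; ring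
    have e2 : (q : ℤ) ^ (m + 1 + 1) = q ^ 2 * x := by rw [hx]; ring
    have e3 : (q : ℤ) ^ (2 * m + 2) = q ^ 2 * x ^ 2 := by rw [hx]; ring
    rw [e1, e2, e3]
    have hx1 : 1 ≤ x := one_le_pow₀ (by linarith)
    have f2 : 4 * ((q : ℤ) ^ 5 * x ^ 2) ≤ q ^ 2 * (q ^ 5 * x ^ 2) :=
      mul_le_mul_of_nonneg_right (by nlinarith) (by positivity)
    have f3 : 0 ≤ (q : ℤ) ^ 3 * x ^ 2 := by positivity
    have f6 : (4 : ℤ) * (q ^ 3 * x) ≤ q ^ 2 * (q ^ 3 * x) :=
      mul_le_mul_of_nonneg_right (by nlinarith) (by positivity)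
    have f4 : 0 ≤ (q : ℤ) ^ 3 * x := by positivity
    have f5 : 0 ≤ (q : ℤ) ^ 5 * x ^ 2 := by positivity
    nlinarith
  have h3 := le_of_mul_le_mul_left h2 (by nlinarith)
  have h4 : (((q ^ 3 - q : ℕ) : ℤ)) = (q : ℤ) ^ 3 - q := by
    rw [Nat.cast_sub (Nat.le_self_pow (by norm_num) q)]
    push_cast; ring
  zify
  rw [h4]
  exact h3

theorem KM_succ' {q : ℕ} (_hq : 1 ≤ q) (m : ℕ) : KM q (m + 1) + q ^ (m + 3) =
    KM q m + (q ^ (2 * m + 5) + q ^ (m + 2)) := by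
  rw [KM]
  have h1 : q ≤ q ^ (m + 3) + 1 := by
    have : q ≤ q ^ (m + 3) := Nat.le_self_pow (by omega) q
    omega
  zify [h1]
  ring

theorem card_Vm (m : ℕ) : Fintype.card ((Fin m ⊕ Fin m) ⊕ Fin 2 → F) =
    Fintype.card F ^ (2 * m + 2) := by
  classical
  rw [← Nat.card_eq_fintype_card, card_minus, Nat.card_eq_fintype_card]

section step

variable {W : Type} [AddCommGroup W] [Module ℂ W] [FiniteDimensional ℂ W]

/-- the class is zero -/
theorem minus_cls (h : H7.AnisoPlane.Aniso a b) (m : ℕ) {b' : ℕ}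
    (hb : LB (Om (hyp (qMinus m F a b))) b') (hb' : KM (Fintype.card F) m ≤ b' + 1)
    {ψ : AddChar F ℂ} (hψ : ψ ≠ 0)
    (ρ : Representation ℂ (Om (hyp (hyp (qMinus m F a b)))) W) (hg : ∃ g, ρ g ≠ 1)
    (hk : finrank ℂ W < KM (Fintype.card F) (m + 1)) :
    Cls ψ ρ 0 ∧ ((∃ a : Fˣ, a * a ≠ 1) ∨ Cc (qMinus m F a b) 0) ∧
      KM (Fintype.card F) (m + 1) + b' ≤ finrank ℂ W + KM (Fintype.card F) m + 1 := by
  classical
  have hq : 2 ≤ Fintype.card F := Fintype.one_lt_card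
  have hQ : ND (qMinus m F a b) := H7.MinusOrd.nd_minus m h
  have hdim : finrank F ((Fin m ⊕ Fin m) ⊕ Fin 2 → F) = 2 * m + 2 := by
    rw [Module.finrank_fintype_fun_eq_card]; simp; ring
  obtain ⟨c, hc, hc0⟩ := exists_cls hQ hψ ρ hg (by
    rw [card_Vm]
    exact lt_of_lt_of_le hk (KM_lt hq m))
  have hs := KM_succ' (q := Fintype.card F) (by omega) m
  have hpow : 1 ≤ Fintype.card F ^ (m + 3) := Nat.one_le_pow _ _ (by omega)
  have h1 : c = 0 := by
    by_contra hne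
    have h2 := card_Ob (Q := hyp (hyp (qMinus m F a b))) c
    rw [if_neg hne, add_zero, cnt_congr (Em2 m), cnt_minus_ne' (m + 2) h hne] at h2
    have e0 : 2 * (m + 2) + 1 = 2 * m + 5 := by ring
    rw [e0] at h2
    rcases Nat.eq_zero_or_pos m with h0 | h0
    · subst h0
      have h3 := finrank_cls ρ hQ hψ hc
      rw [h2] at h3
      simp only [mul_zero, zero_add] at h3 hs hk
      have h4 : KM (Fintype.card F) 0 = Fintype.card F ^ 3 + Fintype.card F - Fintype.card F ^ 2 :=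
        rfl
      have h5 : Fintype.card F ≤ Fintype.card F ^ 2 := Nat.le_self_pow (by omega) _
      have h6 : Fintype.card F ^ 2 ≤ Fintype.card F ^ 3 :=
        Nat.pow_le_pow_right (by omega) (by omega)
      omega
    · have h3 := bound hQ hψ ρ hc (Or.inr (Cc_of hQ (by omega) c)) hb
      rw [h2] at h3
      omega
  subst h1
  have hC : (∃ a : Fˣ, a * a ≠ 1) ∨ Cc (qMinus m F a b) 0 := by
    right
    rcases Nat.eq_zero_or_pos m with h0 | h0
    · subst h0
      intro v hv hv0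
      exact absurd (aniso_sing h hv0) hv
    · exact Cc_of hQ (by omega) 0
  refine ⟨hc, hC, ?_⟩
  have h3 := bound hQ hψ ρ hc hC hb
  have h2 := card_Ob (Q := hyp (hyp (qMinus m F a b))) 0
  rw [if_pos rfl, ← cnt_zero_ne_zero] at h2
  have h4 := nzm2 h m
  omega

/-- the arithmetic of the divisibility -/
theorem minus_dvd (h : H7.AnisoPlane.Aniso a b) (m : ℕ)
    {ψ : AddChar F ℂ} (hψ : ψ ≠ 0)
    (ρ : Representation ℂ (Om (hyp (hyp (qMinus m F a b)))) W) (hρ : ρ.IsIrreducible)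
    (hc : Cls ψ ρ 0) : ∃ I : ℤ, ((Fintype.card F : ℤ) ^ 2 - 1) * I =
      ((Fintype.card F : ℤ) ^ (m + 4) + 1) * ((Fintype.card F : ℤ) ^ (m + 3) - 1) *
      (((Fintype.card F : ℤ) ^ (m + 3) + 1) * ((Fintype.card F : ℤ) ^ (m + 2) - 1)) ∧
      (finrank ℂ W : ℤ) ∣ I * (Fintype.card F : ℤ) ^ (2 * m + 5) := by
  classical
  have hq : 2 ≤ Fintype.card F := Fintype.one_lt_card
  have hQ : ND (qMinus m F a b) := H7.MinusOrd.nd_minus m h
  obtain ⟨I, h4, h5⟩ := irr_dvd hQ hψ ρ hρ hc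
  have h3 := nzm2 h m
  have h6 := nzm3 h m
  set q := Fintype.card F with hqdef
  set A := Nat.card {p : F × F × (F × F × (F × F × ((Fin m ⊕ Fin m) ⊕ Fin 2 → F))) //
    p ≠ 0 ∧ hyp (hyp (hyp (qMinus m F a b))) p = 0} with hA
  set B := Nat.card {p : F × F × (F × F × ((Fin m ⊕ Fin m) ⊕ Fin 2 → F)) //
    p ≠ 0 ∧ hyp (hyp (qMinus m F a b)) p = 0} with hB
  refine ⟨I, ?_, ?_⟩
  · have h10 : (((q ^ 2 - 1 : ℕ) : ℤ)) = (q : ℤ) ^ 2 - 1 := by
      rw [Nat.cast_sub (Nat.one_le_pow _ _ (by omega))]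
      push_cast; ring
    have h11 : ((q : ℤ) ^ 2 - 1) * I = A * B := by
      rw [← h10]; exact_mod_cast h4
    have h12 : (A : ℤ) = (q ^ (m + 4) + 1) * (q ^ (m + 3) - 1) := by
      have : ((A + 1 + q ^ (m + 4) : ℕ) : ℤ) = ((q ^ (2 * m + 7) + q ^ (m + 3) : ℕ) : ℤ) := by
        rw [h6]
      push_cast at this
      linear_combination this
    have h13 : (B : ℤ) = (q ^ (m + 3) + 1) * (q ^ (m + 2) - 1) := by
      have : ((B + 1 + q ^ (m + 3) : ℕ) : ℤ) = ((q ^ (2 * m + 5) + q ^ (m + 2) : ℕ) : ℤ) := by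
        rw [h3]
      push_cast at this
      linear_combination this
    rw [h11, h12, h13]
  · rw [card_Vm, ← hqdef] at h5
    have h9 : q ^ 3 * q ^ (2 * m + 2) = q ^ (2 * m + 5) := by ring
    rw [h9] at h5
    exact_mod_cast h5

/-- large `n` -/
theorem minus_step (h : H7.AnisoPlane.Aniso a b) (m : ℕ)
    (hb : LB (Om (hyp (qMinus m F a b))) (KM (Fintype.card F) m)) :
    LB (Om (hyp (qMinus (m + 1) F a b))) (KM (Fintype.card F) (m + 1)) := by
  have hq : 2 ≤ Fintype.card F := Fintype.one_lt_card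
  obtain ⟨ψ, hψ⟩ := exists_psi F
  suffices h : LB (Om (hyp (hyp (qMinus m F a b)))) (KM (Fintype.card F) (m + 1)) from
    h.congr (hyp_congr (minus_succ m a b).symm)
  apply LB_of_irr
  intro W _ _ _ ρ hρ hg
  by_contra hcon
  push Not at hcon
  obtain ⟨hc, hC, h1⟩ := minus_cls h m hb (by omega) hψ ρ hg hcon
  obtain ⟨I, h2, h3⟩ := minus_dvd h m hψ ρ hρ hc
  have h7 : finrank ℂ W + 1 = KM (Fintype.card F) (m + 1) := by omega
  have h8 := KM_eq (q := Fintype.card F) (by omega) (m + 1)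
  rw [← h7] at h8
  have hqz : (2 : ℤ) ≤ Fintype.card F := by exact_mod_cast hq
  refine arith_minus (Fintype.card F) (Fintype.card F ^ m) (finrank ℂ W) I (2 * m + 5) hqz
    (one_le_pow₀ (by linarith)) ?_ ?_ h3
  · push_cast at h8
    rw [h8]
    ring
  · rw [h2]
    ring

/-- the statement left for two elements -/
def Special (F : Type*) [Field F] [Fintype F] (a b : F) : Prop :=
  ∀ (W : Type) [AddCommGroup W] [Module ℂ W] [FiniteDimensional ℂ W] (ψ : AddChar F ℂ)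
    (ρ : Representation ℂ (Om (hyp (hyp (qMinus 0 F a b)))) W), ψ ≠ 0 → Fintype.card F = 2 →
    Cls ψ ρ 0 → mu ψ ρ 0 = 5 → False

theorem minus_step_zero (h : H7.AnisoPlane.Aniso a b) (hs : Special F a b) :
    LB (Om (hyp (qMinus 1 F a b))) (KM (Fintype.card F) 1) := by
  classical
  have hq : 2 ≤ Fintype.card F := Fintype.one_lt_card
  obtain ⟨ψ, hψ⟩ := exists_psi F
  suffices h : LB (Om (hyp (hyp (qMinus 0 F a b)))) (KM (Fintype.card F) 1) from
    h.congr (hyp_congr (minus_succ 0 a b).symm)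
  apply LB_of_irr
  intro W _ _ _ ρ hρ hg
  by_contra hcon
  push Not at hcon
  have hK0 : KM (Fintype.card F) 0 = Fintype.card F ^ 3 + Fintype.card F - Fintype.card F ^ 2 :=
    rfl
  have h6 : Fintype.card F ^ 2 ≤ Fintype.card F ^ 3 :=
        Nat.pow_le_pow_right (by omega) (by omega)
  obtain ⟨hc, hC, h1⟩ := minus_cls h 0 (LB_minus_base h) (by omega) hψ ρ hg hcon
  obtain ⟨I, h2, h3⟩ := minus_dvd h 0 hψ ρ hρ hc
  have h8 := KM_eq (q := Fintype.card F) (by omega) 1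
  have hqz : (2 : ℤ) ≤ Fintype.card F := by exact_mod_cast hq
  have hs1 := KM_succ' (q := Fintype.card F) (by omega) 0
  simp only [zero_add] at h1 hs1
  rcases (by omega : finrank ℂ W + 1 = KM (Fintype.card F) 1 ∨
    finrank ℂ W + 2 = KM (Fintype.card F) 1) with h7 | h7
  · rw [← h7] at h8
    refine arith_minus (Fintype.card F) 1 (finrank ℂ W) I 5 hqz
      le_rfl ?_ ?_ h3
    · push_cast at h8
      rw [h8]
      ring
    · rw [h2]
      ring
  · by_cases h2' : Fintype.card F = 2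
    · refine hs W ψ ρ hψ h2' hc ?_
      have hQ : ND (qMinus 0 F a b) := H7.MinusOrd.nd_minus 0 h
      have h9 := finrank_cls ρ hQ hψ hc
      have h10 := card_Ob (Q := hyp (hyp (qMinus 0 F a b))) 0
      rw [if_pos rfl, ← cnt_zero_ne_zero] at h10
      have h11 := nzm2 h 0
      rw [h2'] at h11 h7 hs1 hK0
      simp only [Nat.reducePow, Nat.reduceAdd, mul_zero, zero_add, Nat.reduceSub] at h11 h7 hs1 hK0
      omega
    · refine arith_minus2 (Fintype.card F) (finrank ℂ W) I (by exact_mod_cast (by omega :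
        3 ≤ Fintype.card F)) ?_ ?_ h3
      · have h9 : (KM (Fintype.card F) 1 : ℤ) = (Fintype.card F : ℤ) ^ 5 + Fintype.card F := by
          apply mul_left_cancel₀ (by nlinarith : ((Fintype.card F : ℤ) ^ 2 - 1) ≠ 0)
          rw [h8]
          ring
        rw [← h9, ← h7]
        push_cast
        ring
      · rw [h2]

theorem LB_minus (h : H7.AnisoPlane.Aniso a b) (hs : Special F a b) (m : ℕ) :
    LB (Om (hyp (qMinus (m + 1) F a b))) (KM (Fintype.card F) (m + 1)) := by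
  induction m with
  | zero => exact minus_step_zero h hs
  | succ m ih => exact minus_step h (m + 1) ih

end step

end H44.OM
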