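import Cfsg.Agent.Lib.H44.OM16

/-! The exceptional case: operators and group relations. -/

set_option autoImplicit false
set_option linter.unusedSectionVars false

namespace H44.OM

open Module QuadraticMap H7.Hyp H7.Omega H7.OmegaIso H7.HypStd H48.QuadStd

section ops

variable {W : Type*} [AddCommGroup W] [Module ℂ W]

theorem c_cases {P M : Module.End ℂ W} (hP : P * P = P) (hM : M * M = M)
    (h1 : finrank ℂ (LinearMap.range M) = 1) (hc : P * M = M * P) : P * M = 0 ∨ P * M = M := by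
  obtain ⟨c, hc⟩ := eig hM h1 hc
  have h2 : (c * c) • M = c • M := by
    have : P * (P * M) = c • (P * M) := by rw [hc, mul_smul_comm, hc]
    rw [← mul_assoc, hP, hc, smul_smul] at this
    exact this.symm
  have hM0 : M ≠ 0 := by
    rintro rfl
    rw [LinearMap.range_zero, finrank_bot] at h1
    exact zero_ne_one h1
  have h3 : c * c = c := smul_left_injective ℂ hM0 h2
  rcases eq_or_ne c 0 with h0 | h0
  · left; rw [hc, h0, zero_smul]
  · right
    have : c = 1 := mul_left_cancel₀ h0 (by rw [h3, mul_one])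
    rw [hc, this, one_smul]

theorem no_five (P1 P2 P3 M N T Ti : Module.End ℂ W)
    (hT : Ti * T = 1)
    (i1 : P1 * P1 = P1) (i2 : P2 * P2 = P2) (o12 : P1 * P2 = 0) (o21 : P2 * P1 = 0)
    (sum : P1 + P2 + (P3 + T * P3 * Ti + T * (T * P3 * Ti) * Ti) = 1)
    (r3 : finrank ℂ (LinearMap.range P3) = 1) (hM : M * M = M) (hN : N * N = N)
    (rM : finrank ℂ (LinearMap.range M) = 1) (rN : finrank ℂ (LinearMap.range N) = 1)
    (c1 : P1 * M = M * P1) (c2 : P2 * N = N * P2) (c3 : M * N = N * M)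
    (n1 : P2 * M ≠ 0) (n2 : M * P3 ≠ 0) (n3 : P1 * N ≠ 0) (n4 : P3 * N ≠ 0)
    (t1 : P1 * T = P1) (t2 : P2 * T = P2)
    (t3 : T * M = M * T) (t4 : T * N = N * T) : False := by
  have a1 : P1 * M = 0 := by
    rcases c_cases i1 hM rM c1 with h | h
    · exact h
    · exfalso
      apply n1
      rw [← h, ← mul_assoc, o21, zero_mul]
  have a2 : M * P1 = 0 := by rw [← c1, a1]
  have b1 : P2 * N = 0 := by
    rcases c_cases i2 hN rN c2 with h | h
    · exact h
    · exfalso
      apply n3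
      rw [← h, ← mul_assoc, o12, zero_mul]
  have d1 : M * N = 0 := by
    rcases c_cases hM hN rN c3 with h | h
    · exact h
    · exfalso
      apply n3
      rw [← h, ← mul_assoc, a1, zero_mul]
  have e1 : T * M = M := by
    obtain ⟨c, hc⟩ := eig hM rM t3
    have h1 : c • (P2 * M) = (1 : ℂ) • (P2 * M) := by
      rw [one_smul]
      conv_rhs => rw [← t2, mul_assoc, hc, mul_smul_comm]
    have h2 : c = 1 := smul_left_injective ℂ n1 h1
    rw [hc, h2, one_smul]
  have e2 : T * N = N := by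
    obtain ⟨c, hc⟩ := eig hN rN t4
    have h1 : c • (P1 * N) = (1 : ℂ) • (P1 * N) := by
      rw [one_smul]
      conv_rhs => rw [← t1, mul_assoc, hc, mul_smul_comm]
    have h2 : c = 1 := smul_left_injective ℂ n3 h1
    rw [hc, h2, one_smul]
  have e3 : M * T = M := by rw [← t3, e1]
  have e4 : Ti * N = N := by
    conv_lhs => rw [← e2]
    rw [← mul_assoc, hT, one_mul]
  have f1 : M * (T * P3 * Ti) * N = M * P3 * N := by
    calc M * (T * P3 * Ti) * N = (M * T) * P3 * (Ti * N) := by noncomm_ring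
      _ = _ := by rw [e3, e4]
  have f2 : M * (T * (T * P3 * Ti) * Ti) * N = M * P3 * N := by
    calc M * (T * (T * P3 * Ti) * Ti) * N = (M * T) * (T * P3 * Ti) * (Ti * N) := by noncomm_ring
      _ = _ := by rw [e3, e4, f1]
  have g1 : (3 : ℂ) • (M * P3 * N) = 0 := by
    have h1 : M * (P1 + P2 + (P3 + T * P3 * Ti + T * (T * P3 * Ti) * Ti)) * N = 0 := by
      rw [sum, mul_one, d1]
    have h2 : M * (P1 + P2 + (P3 + T * P3 * Ti + T * (T * P3 * Ti) * Ti)) * N =
        (M * P1) * N + M * (P2 * N) + (M * P3 * N + M * (T * P3 * Ti) * N +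
          M * (T * (T * P3 * Ti) * Ti) * N) := by
      simp only [mul_add, add_mul, mul_assoc]
    rw [h2, a2, b1, f1, f2, zero_mul, mul_zero, zero_add, zero_add] at h1
    rw [← h1]
    module
  have g2 : M * P3 * N = 0 := (smul_eq_zero.mp g1).resolve_left (by norm_num)
  obtain ⟨⟨v, hv⟩, hv0, hall⟩ := finrank_eq_one_iff'.mp r3
  -- `M v ≠ 0`
  have h1 : M v ≠ 0 := by
    intro h
    apply n2
    apply LinearMap.ext
    intro x
    obtain ⟨c, hc⟩ := hall ⟨P3 x, x, rfl⟩
    have hc' : c • v = P3 x := congrArg Subtype.val hc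
    rw [Module.End.mul_apply, ← hc', map_smul, h, smul_zero]
    rfl
  apply n4
  apply LinearMap.ext
  intro x
  obtain ⟨c, hc⟩ := hall ⟨P3 (N x), N x, rfl⟩
  have hc' : c • v = P3 (N x) := congrArg Subtype.val hc
  have h2 := LinearMap.congr_fun g2 x
  rw [Module.End.mul_apply, Module.End.mul_apply, ← hc', map_smul, LinearMap.zero_apply,
    smul_eq_zero] at h2
  rw [Module.End.mul_apply, ← hc', LinearMap.zero_apply]
  rcases h2 with h2 | h2
  · rw [h2, zero_smul]
  · exact absurd h2 h1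

/-- the braid relation -/
theorem braid_ne {P M : Module.End ℂ W} (hP : P * P = P) (hM : M * M = M) (hP0 : P ≠ 0)
    (hb : ((2 : ℂ) • P - 1) * ((2 : ℂ) • M - 1) * ((2 : ℂ) • P - 1) =
      ((2 : ℂ) • M - 1) * ((2 : ℂ) • P - 1) * ((2 : ℂ) • M - 1)) : P * M ≠ 0 ∧ M * P ≠ 0 := by
  have key : ∀ P M : Module.End ℂ W, P * P = P →
      ((2 : ℂ) • P - 1) * ((2 : ℂ) • M - 1) * ((2 : ℂ) • P - 1) =
        (8 : ℂ) • (P * M * P) - (4 : ℂ) • (P * M) - (4 : ℂ) • (M * P) + (2 : ℂ) • M - 1 := by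
    intro P M hP
    have e1 : ((2 : ℂ) • P - 1) * ((2 : ℂ) • M - 1) * ((2 : ℂ) • P - 1) =
        (8 : ℂ) • (P * M * P) - (4 : ℂ) • (P * M) - (4 : ℂ) • (M * P) + (2 : ℂ) • M - 1 -
          (4 : ℂ) • (P * P - P) := by
      have h2 : ∀ X : Module.End ℂ W, (2 : ℂ) • X = X + X := two_smul ℂ
      have h4 : ∀ X : Module.End ℂ W, (4 : ℂ) • X = X + X + (X + X) := fun X => by module
      have h8 : ∀ X : Module.End ℂ W, (8 : ℂ) • X = X + X + (X + X) + (X + X + (X + X)) :=
        fun X => by module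
      rw [h2, h2, h4, h4, h4, h8]
      noncomm_ring
    rw [e1, hP, sub_self, smul_zero, sub_zero]
  rw [key P M hP, key M P hM] at hb
  have h1 : (8 : ℂ) • (P * M * P) + (2 : ℂ) • M = (8 : ℂ) • (M * P * M) + (2 : ℂ) • P := by
    have h0 := congrArg (fun X => X + (4 : ℂ) • (P * M) + (4 : ℂ) • (M * P) + 1) hb
    calc (8 : ℂ) • (P * M * P) + (2 : ℂ) • M = (8 : ℂ) • (P * M * P) - (4 : ℂ) • (P * M) -
          (4 : ℂ) • (M * P) + (2 : ℂ) • M - 1 + (4 : ℂ) • (P * M) + (4 : ℂ) • (M * P) + 1 := by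
          abel
      _ = _ := h0
      _ = _ := by abel
  constructor
  · intro h
    apply hP0
    have h2 : M = P := by
      rw [h, zero_mul, mul_assoc M P M, h, mul_zero, smul_zero, zero_add, zero_add] at h1
      exact smul_right_injective _ (two_ne_zero : (2 : ℂ) ≠ 0) h1
    rw [← hP]
    rw [h2] at h
    exact h
  · intro h
    apply hP0
    have h2 : M = P := by
      rw [h, zero_mul, mul_assoc P M P, h, mul_zero, smul_zero, zero_add, zero_add] at h1
      exact smul_right_injective _ (two_ne_zero : (2 : ℂ) ≠ 0) h1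
    rw [← hP]
    rw [h2] at h
    exact h

end ops

end H44.OM
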