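import Cfsg.Agent.Lib.H44.OM17

/-! The exceptional case: the group of two elements field. -/

set_option autoImplicit false
set_option linter.unusedSectionVars false

namespace H44.OM

open Module QuadraticMap H7.Hyp H7.Omega H7.OmegaIso H7.HypStd H48.QuadStd

/-- an anisotropic plane over the field of two elements -/
structure F4 {F : Type*} [Field F] [Fintype F] {V : Type*} [AddCommGroup V] [Module F V] [Fintype V]
    (Q : QuadraticForm F V) (v w : V) : Prop where
  card : Fintype.card F = 2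
  nd : ND Q
  univ : Univ Q
  all : ∀ z, z = 0 ∨ z = v ∨ z = w ∨ z = v + w
  v0 : v ≠ 0
  w0 : w ≠ 0
  vw : v ≠ w
  Qv : Q v = 1
  Qw : Q w = 1
  Qvw : Q (v + w) = 1

variable {F : Type*} [Field F] [Fintype F] {V : Type*} [AddCommGroup V] [Module F V] [Fintype V]
  {Q : QuadraticForm F V} {v w : V}

theorem F2_cases (h : Fintype.card F = 2) (x : F) : x = 0 ∨ x = 1 := by
  classical
  by_contra hcon
  push Not at hcon
  have h1 : ({0, 1, x} : Finset F).card = 3 := by
    rw [Finset.card_insert_of_notMem, Finset.card_insert_of_notMem, Finset.card_singleton]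
    · simp [Ne.symm hcon.2]
    · simp [Ne.symm hcon.1]
  have h2 := Finset.card_le_univ ({0, 1, x} : Finset F)
  omega

theorem F2_two (h : Fintype.card F = 2) : (2 : F) = 0 := by
  rcases F2_cases h (2 : F) with h1 | h1
  · exact h1
  · exfalso
    have : (1 : F) = 0 := by linear_combination h1
    exact one_ne_zero this

theorem F2_neg (h : Fintype.card F = 2) (x : F) : -x = x := by
  linear_combination -x * F2_two h

theorem F2_vadd (h : Fintype.card F = 2) (x : V) : x + x = 0 := by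
  rw [← two_smul F x, F2_two h, zero_smul]

theorem F2_vneg (h : Fintype.card F = 2) (x : V) : -x = x := by
  rw [neg_eq_iff_add_eq_zero, F2_vadd h]

theorem F2_psi (h : Fintype.card F = 2) {ψ : AddChar F ℂ} (hψ : ψ ≠ 0) : ψ 1 = -1 := by
  have h1 : ψ 1 * ψ 1 = 1 := by
    rw [← AddChar.map_add_eq_mul, one_add_one_eq_two, F2_two h, AddChar.map_zero_eq_one]
  rcases mul_self_eq_one_iff.mp h1 with h2 | h2
  · exfalso
    apply hψ
    apply DFunLike.ext
    intro x
    rcases F2_cases h x with h3 | h3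
    · rw [h3, AddChar.map_zero_eq_one, AddChar.map_zero_eq_one]
    · rw [h3, h2]; rfl
  · exact h2

namespace F4

theorem pvw (h : F4 Q v w) : polar Q v w = 1 := by
  rw [polar, h.Qvw, h.Qv, h.Qw]
  linear_combination -F2_two h.card

theorem pwv (h : F4 Q v w) : polar Q w v = 1 := by
  rw [polar_symm, h.pvw]

theorem pvv (h : F4 Q v w) : polar Q v v = 0 := by
  rw [QuadraticMap.polar_self, h.Qv, two_nsmul]
  linear_combination F2_two h.card

theorem pww (h : F4 Q v w) : polar Q w w = 0 := by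
  rw [QuadraticMap.polar_self, h.Qw, two_nsmul]
  linear_combination F2_two h.card

theorem Nv (h : F4 Q v w) (x y : F) (z : V) : N Q v (x, y, z) = (y, x, z + polar Q v z • v) := by
  rw [N_apply Q (by rw [h.Qv]; exact one_ne_zero), h.Qv, inv_one, one_mul, F2_neg h.card, one_mul,
    one_mul, sub_eq_add_neg, F2_vneg h.card]

theorem Nw (h : F4 Q v w) (x y : F) (z : V) : N Q w (x, y, z) = (y, x, z + polar Q w z • w) := by
  rw [N_apply Q (by rw [h.Qw]; exact one_ne_zero), h.Qw, inv_one, one_mul, F2_neg h.card, one_mul,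
    one_mul, sub_eq_add_neg, F2_vneg h.card]

/-- the Weyl elements -/
def nv (_h : F4 Q v w) : Om Q := ⟨N Q v, N_mem Q v⟩
/-- the Weyl elements -/
def nw (_h : F4 Q v w) : Om Q := ⟨N Q w, N_mem Q w⟩
/-- the element of order three -/
def k3 (h : F4 Q v w) : Om Q := h.nv * h.nw
/-- its inverse -/
def k3' (h : F4 Q v w) : Om Q := h.nw * h.nv

theorem nv_sq (h : F4 Q v w) : h.nv * h.nv = 1 := by
  apply Subtype.ext
  apply LinearEquiv.ext
  rintro ⟨x, y, z⟩
  change N Q v (N Q v (x, y, z)) = (x, y, z)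
  rw [h.Nv, h.Nv, QuadraticMap.polar_add_right, QuadraticMap.polar_smul_right, h.pvv, smul_zero,
    add_zero, add_assoc, F2_vadd h.card, add_zero]

theorem nw_sq (h : F4 Q v w) : h.nw * h.nw = 1 := by
  apply Subtype.ext
  apply LinearEquiv.ext
  rintro ⟨x, y, z⟩
  change N Q w (N Q w (x, y, z)) = (x, y, z)
  rw [h.Nw, h.Nw, QuadraticMap.polar_add_right, QuadraticMap.polar_smul_right, h.pww, smul_zero,
    add_zero, add_assoc, F2_vadd h.card, add_zero]

theorem k3_mul (h : F4 Q v w) : h.k3 * h.k3' = 1 := by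
  rw [k3, k3', mul_assoc, ← mul_assoc h.nw, h.nw_sq, one_mul, h.nv_sq]

theorem k3'_mul (h : F4 Q v w) : h.k3' * h.k3 = 1 := by
  rw [k3, k3', mul_assoc, ← mul_assoc h.nv, h.nv_sq, one_mul, h.nw_sq]

theorem k3_nv (h : F4 Q v w) : h.k3 * h.nv = h.nv * h.k3' := by
  rw [k3, k3', mul_assoc]

theorem k3_apply (h : F4 Q v w) (x y : F) (z : V) : h.k3.1 (x, y, z) =
    (x, y, z + polar Q w z • w + polar Q v (z + polar Q w z • w) • v) := by
  change N Q v (N Q w (x, y, z)) = _
  rw [h.Nw, h.Nv]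

theorem k3'_apply (h : F4 Q v w) (x y : F) (z : V) : h.k3'.1 (x, y, z) =
    (x, y, z + polar Q v z • v + polar Q w (z + polar Q v z • v) • w) := by
  change N Q w (N Q v (x, y, z)) = _
  rw [h.Nv, h.Nw]

theorem k3_zero (h : F4 Q v w) (x y : F) : h.k3.1 (x, y, 0) = (x, y, 0) := by
  rw [h.k3_apply]; simp

theorem k3'_zero (h : F4 Q v w) (x y : F) : h.k3'.1 (x, y, 0) = (x, y, 0) := by
  rw [h.k3'_apply]; simp

theorem k3_v (h : F4 Q v w) (x y : F) : h.k3.1 (x, y, v) = (x, y, w) := by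
  rw [h.k3_apply, h.pwv, one_smul, QuadraticMap.polar_add_right, h.pvv, h.pvw, zero_add, one_smul,
    add_right_comm, F2_vadd h.card, zero_add]

theorem k3_w (h : F4 Q v w) (x y : F) : h.k3.1 (x, y, w) = (x, y, v + w) := by
  rw [h.k3_apply, h.pww, zero_smul, add_zero, h.pvw, one_smul, add_comm]

theorem k3_vw (h : F4 Q v w) (x y : F) : h.k3.1 (x, y, v + w) = (x, y, v) := by
  rw [h.k3_apply, QuadraticMap.polar_add_right, h.pwv, h.pww, add_zero, one_smul, add_assoc v w w,
    F2_vadd h.card, add_zero, h.pvv, zero_smul, add_zero]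

theorem k3'_w (h : F4 Q v w) (x y : F) : h.k3'.1 (x, y, w) = (x, y, v) := by
  rw [← h.k3_v x y]
  change (h.k3' * h.k3).1 _ = _
  rw [h.k3'_mul]; rfl

theorem k3'_vw (h : F4 Q v w) (x y : F) : h.k3'.1 (x, y, v + w) = (x, y, w) := by
  rw [← h.k3_w x y]
  change (h.k3' * h.k3).1 _ = _
  rw [h.k3'_mul]; rfl

theorem k3'_v (h : F4 Q v w) (x y : F) : h.k3'.1 (x, y, v) = (x, y, v + w) := by
  rw [← h.k3_vw x y]
  change (h.k3' * h.k3).1 _ = _
  rw [h.k3'_mul]; rfl

theorem k3_sq (h : F4 Q v w) : h.k3 * h.k3 = h.k3' := by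
  apply Subtype.ext
  apply LinearEquiv.ext
  rintro ⟨x, y, z⟩
  change h.k3.1 (h.k3.1 (x, y, z)) = h.k3'.1 (x, y, z)
  rcases h.all z with rfl | rfl | rfl | rfl
  · rw [h.k3_zero, h.k3_zero, h.k3'_zero]
  · rw [h.k3_v, h.k3_w, h.k3'_v]
  · rw [h.k3_w, h.k3_vw, h.k3'_w]
  · rw [h.k3_vw, h.k3_v, h.k3'_vw]

theorem vw0 (h : F4 Q v w) : v + w ≠ 0 := by
  intro h1
  apply h.vw
  rw [← F2_vneg h.card w]
  exact eq_neg_of_add_eq_zero_left h1

/-- singular vectors -/
theorem sing_cases (h : F4 Q v w) {y : F × F × V} (hy : y ≠ 0) (hs : hyp Q y = 0) :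
    y = (1, 0, 0) ∨ y = (0, 1, 0) ∨ y = (1, 1, v) ∨ y = (1, 1, w) ∨ y = (1, 1, v + w) := by
  obtain ⟨a, b, z⟩ := y
  rw [hyp_apply] at hs
  simp only at hs
  rcases h.all z with rfl | rfl | rfl | rfl
  · rcases F2_cases h.card a with rfl | rfl
    · rcases F2_cases h.card b with rfl | rfl
      · exact absurd rfl hy
      · right; left; rfl
    · rcases F2_cases h.card b with rfl | rfl
      · left; rfl
      · simp at hs
  all_goals
    have hab : a = 1 ∧ b = 1 := by
      rcases F2_cases h.card a with rfl | rfl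
      · simp [h.Qv, h.Qw, h.Qvw] at hs
      · rcases F2_cases h.card b with rfl | rfl
        · simp [h.Qv, h.Qw, h.Qvw] at hs
        · exact ⟨rfl, rfl⟩
    rw [hab.1, hab.2]
    simp

theorem sing_y1 : hyp Q ((1 : F), (0 : F), (0 : V)) = 0 := by rw [hyp_apply]; simp
theorem sing_y2 : hyp Q ((0 : F), (1 : F), (0 : V)) = 0 := by rw [hyp_apply]; simp
theorem sing_yv (h : F4 Q v w) : hyp Q ((1 : F), (1 : F), v) = 0 := by
  rw [hyp_apply, h.Qv]; linear_combination F2_two h.card
theorem sing_yw (h : F4 Q v w) : hyp Q ((1 : F), (1 : F), w) = 0 := by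
  rw [hyp_apply, h.Qw]; linear_combination F2_two h.card
theorem sing_yvw (h : F4 Q v w) : hyp Q ((1 : F), (1 : F), v + w) = 0 := by
  rw [hyp_apply, h.Qvw]; linear_combination F2_two h.card

/-- polar values -/
theorem polar_one (h : F4 Q v w) {y z : F × F × V} (hy : y ≠ 0) (hs : hyp Q y = 0) (hz : z ≠ 0)
    (hs' : hyp Q z = 0) (hyz : y ≠ z) : polar (hyp Q) y z = 1 := by
  rcases F2_cases h.card (polar (hyp Q) y z) with h1 | h1
  swap
  · exact h1
  exfalso
  have hvw := h.pvw
  have hwv := h.pwv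
  have hvv := h.pvv
  have hww := h.pww
  have h2 := F2_two h.card
  have e1 : polar Q v (v + w) = 1 := by rw [QuadraticMap.polar_add_right, hvv, hvw, zero_add]
  have e2 : polar Q w (v + w) = 1 := by rw [QuadraticMap.polar_add_right, hwv, hww, add_zero]
  have e3 : polar Q (v + w) v = 1 := by rw [polar_symm, e1]
  have e4 : polar Q (v + w) w = 1 := by rw [polar_symm, e2]
  rw [polar_hyp] at h1
  rcases h.sing_cases hy hs with rfl | rfl | rfl | rfl | rfl <;>
  rcases h.sing_cases hz hs' with rfl | rfl | rfl | rfl | rfl <;>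
  first
  | exact hyz rfl
  | (simp [hvw, hwv, e1, e2, e3, e4] at h1
     done)
  | (simp only [hvw, hwv, e1, e2, e3, e4] at h1
     exact one_ne_zero (by linear_combination h1 - h2))

end F4

end H44.OM
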