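import Cfsg.Agent.Lib.H44.OM18

/-! The exceptional case: the five dimensional representation. -/

set_option autoImplicit false
set_option linter.unusedSectionVars false

namespace H44.OM

open Module QuadraticMap H7.Hyp H7.Omega H7.OmegaIso H7.HypStd H48.QuadStd

variable {F : Type*} [Field F] [Fintype F] {V : Type*} [AddCommGroup V] [Module F V] [Fintype V]
  {Q : QuadraticForm F V} {v w : V}

namespace F4

theorem sum_Ob (h : F4 Q v w) {M : Type*} [AddCommMonoid M] (f : F × F × V → M) :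
    ∑ y ∈ Ob (hyp Q) 0, f y = f (1, 0, 0) + (f (0, 1, 0) + (f (1, 1, v) + (f (1, 1, w) +
      f (1, 1, v + w)))) := by
  classical
  have h1 : Ob (hyp Q) 0 = {((1 : F), (0 : F), (0 : V)), (0, 1, 0), (1, 1, v), (1, 1, w),
      (1, 1, v + w)} := by
    ext y
    rw [mem_Ob]
    simp only [Finset.mem_insert, Finset.mem_singleton]
    constructor
    · rintro ⟨hy, hs⟩
      exact h.sing_cases hy hs
    · rintro (rfl | rfl | rfl | rfl | rfl)
      · exact ⟨by simp, sing_y1⟩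
      · exact ⟨by simp, sing_y2⟩
      · exact ⟨by simp, h.sing_yv⟩
      · exact ⟨by simp, h.sing_yw⟩
      · exact ⟨by simp, h.sing_yvw⟩
  have h2 : v ≠ v + w := by
    intro h3
    exact h.w0 (by simpa using h3)
  have h3 : w ≠ v + w := by
    intro h3
    exact h.v0 (by simpa using h3)
  have h4 := h.vw
  rw [h1, Finset.sum_insert, Finset.sum_insert, Finset.sum_insert, Finset.sum_insert,
    Finset.sum_singleton]
  · simp [h3]
  · simp [h2, h4]
  · simp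
  · simp

theorem card_Ob0 (h : F4 Q v w) : (Ob (hyp Q) 0).card = 5 := by
  rw [Finset.card_eq_sum_ones, h.sum_Ob]
  norm_num

theorem card_Ob_ne (h : F4 Q v w) {c : F} (hc : c ≠ 0) : 5 < (Ob (hyp Q) c).card := by
  classical
  have h1 : c = 1 := (F2_cases h.card c).resolve_left hc
  subst h1
  have h2 := card_Ob (Q := hyp Q) 1
  rw [if_neg hc, add_zero, cnt_hyp', h.card] at h2
  have h3 : 4 ≤ Fintype.card V := by
    have h4 : ({0, v, w, v + w} : Finset V).card = 4 := by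
      have h5 : v ≠ v + w := by
        intro h3
        exact h.w0 (by simpa using h3)
      have h6 : w ≠ v + w := by
        intro h3
        exact h.v0 (by simpa using h3)
      rw [Finset.card_insert_of_notMem, Finset.card_insert_of_notMem,
        Finset.card_insert_of_notMem, Finset.card_singleton]
      · simp [h6]
      · simp [h.vw, h5]
      · simp [Ne.symm h.v0, Ne.symm h.w0, Ne.symm h.vw0]
    rw [← h4]
    exact Finset.card_le_univ _
  have h7 : 1 ≤ cnt Q 1 := by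
    rw [Nat.one_le_iff_ne_zero]
    intro h8
    rw [cnt, Nat.card_eq_zero] at h8
    rcases h8 with h8 | h8
    · exact h8.false ⟨v, h.Qv⟩
    · exact (not_finite_iff_infinite.mpr h8) inferInstance
  omega

variable {W : Type*} [AddCommGroup W] [Module ℂ W] [FiniteDimensional ℂ W]

/-- all multiplicities -/
theorem mults (h : F4 Q v w) {ψ : AddChar F ℂ} (hψ : ψ ≠ 0) (Z : Representation ℂ (Om (hyp Q)) W)
    (h5 : finrank ℂ W = 5) (hnt : ∃ g, Z g ≠ 1) :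
    (∀ y ∈ Ob (hyp Q) 0, mu ψ Z y = 1) ∧ (∀ y ∉ Ob (hyp Q) 0, mu ψ Z y = 0) := by
  classical
  have : Nontrivial V := ⟨v, 0, h.v0⟩
  obtain ⟨y0, hy0, hm0, hle⟩ := finrank_ge_Ob h.nd h.univ hψ Z hnt
  have hs0 : hyp Q y0 = 0 := by
    by_contra hne
    have := h.card_Ob_ne hne
    omega
  have h1 := mul_card_le' h.nd h.univ hψ Z hy0
  rw [hs0, h.card_Ob0, h5] at h1
  have h2 : mu ψ Z y0 = 1 := by omega
  have h3 : ∀ y ∈ Ob (hyp Q) 0, mu ψ Z y = 1 := by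
    intro y hy
    rw [mem_Ob] at hy
    rw [mu_norm h.nd h.univ hψ Z hy.1 hy0 (by rw [hy.2, hs0]), h2]
  refine ⟨h3, fun y hy => ?_⟩
  have h4 := sum_mu h.nd.hyp hψ Z
  rw [h5, ← Finset.sum_add_sum_compl (Ob (hyp Q) 0), Finset.sum_congr rfl h3,
    ← Finset.card_eq_sum_ones, h.card_Ob0] at h4
  have h6 : ∑ y ∈ (Ob (hyp Q) 0)ᶜ, mu ψ Z y = 0 := by omega
  exact (Finset.sum_eq_zero_iff.mp h6) y (Finset.mem_compl.mpr hy)

theorem PP_zero (h : F4 Q v w) {ψ : AddChar F ℂ} (hψ : ψ ≠ 0) (Z : Representation ℂ (Om (hyp Q)) W)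
    (h5 : finrank ℂ W = 5) (hnt : ∃ g, Z g ≠ 1) {y : F × F × V} (hy : y ∉ Ob (hyp Q) 0) :
    PP ψ Z y = 0 :=
  (D_eq_zero_iff (ψ := ψ) y).mp ((h.mults hψ Z h5 hnt).2 y hy)

/-- the five projections -/
theorem sum_PP (h : F4 Q v w) {ψ : AddChar F ℂ} (hψ : ψ ≠ 0) (Z : Representation ℂ (Om (hyp Q)) W)
    (h5 : finrank ℂ W = 5) (hnt : ∃ g, Z g ≠ 1) :
    ∑ y ∈ Ob (hyp Q) 0, PP ψ Z y = 1 := by
  rw [← sum_P h.nd.hyp hψ (addF Z)]
  refine Finset.sum_subset (Finset.subset_univ _) (fun y _ hy => h.PP_zero hψ Z h5 hnt hy)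

/-- the Siegel elements -/
theorem e_eq (h : F4 Q v w) {ψ : AddChar F ℂ} (hψ : ψ ≠ 0) (Z : Representation ℂ (Om (hyp Q)) W)
    (h5 : finrank ℂ W = 5) (hnt : ∃ g, Z g ≠ 1) {z : F × F × V} (hz : z ∈ Ob (hyp Q) 0) :
    Z (e (hyp Q) z) = (2 : ℂ) • PP ψ Z z - 1 := by
  classical
  have h1 := A_eq h.nd.hyp hψ (addF Z) z
  have h2 : ∑ y, ψ (polar (hyp Q) y z) • P ψ (hyp Q) (fun w => Z (e (hyp Q) w)) y =
      ∑ y ∈ Ob (hyp Q) 0, ψ (polar (hyp Q) y z) • PP ψ Z y := by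
    symm
    refine Finset.sum_subset (Finset.subset_univ _) (fun y _ hy => ?_)
    change ψ (polar (hyp Q) y z) • PP ψ Z y = 0
    rw [h.PP_zero hψ Z h5 hnt hy, smul_zero]
  rw [h1, h2, ← h.sum_PP hψ Z h5 hnt, eq_sub_iff_add_eq, ← Finset.sum_add_distrib,
    Finset.sum_eq_single z]
  · have h3 : polar (hyp Q) z z = 0 := by
      rw [QuadraticMap.polar_self, (mem_Ob.mp hz).2, smul_zero]
    rw [h3, AddChar.map_zero_eq_one]
    module
  · intro y hy hne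
    rw [h.polar_one (mem_Ob.mp hy).1 (mem_Ob.mp hy).2 (mem_Ob.mp hz).1 (mem_Ob.mp hz).2 hne,
      F2_psi h.card hψ]
    module
  · intro h4
    exact absurd hz h4

/-- the opposite Siegel elements -/
theorem e'_eq (h : F4 Q v w) {ψ : AddChar F ℂ} (hψ : ψ ≠ 0) (Z : Representation ℂ (Om (hyp Q)) W)
    (h5 : finrank ℂ W = 5) (hnt : ∃ g, Z g ≠ 1) {z : F × F × V} (hz : z ∈ Ob (hyp Q) 0) :
    ∃ M : Module.End ℂ W, M * M = M ∧ finrank ℂ (LinearMap.range M) = 1 ∧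
      Z ⟨E' (hyp Q) z, E'_mem_Om _ z⟩ = (2 : ℂ) • M - 1 := by
  obtain ⟨u, hu⟩ := univ_hyp Q 1 one_ne_zero
  have hu0 : hyp Q u ≠ 0 := by rw [hu]; exact one_ne_zero
  set n : Om (hyp Q) := ⟨N (hyp Q) u, N_mem _ u⟩ with hn
  set z' := H17.OrthAbs.refl (hyp Q) u hu0 z with hz'
  have hz'm : z' ∈ Ob (hyp Q) 0 := by
    rw [mem_Ob] at hz ⊢
    refine ⟨?_, ?_⟩
    · intro h1
      exact hz.1 ((LinearEquiv.map_eq_zero_iff _).mp h1)
    · rw [hz', H17.OrthAbs.refl_mem_O, hz.2]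
  have h1 : (⟨E' (hyp Q) z, E'_mem_Om _ z⟩ : Om (hyp Q)) = n * e (hyp Q) z' * n⁻¹ := by
    apply Subtype.ext
    change E' (hyp Q) z = N (hyp Q) u * E (hyp Q) z' * (N (hyp Q) u)⁻¹
    rw [N_E hu0, hz', ← LinearEquiv.mul_apply, H17.OrthAbs.refl_sq, hu]
    congr 1
    change z = (-(1 : F)) • z
    rw [F2_neg h.card, one_smul]
  have hinv : Z n⁻¹ * Z n = 1 := by rw [← map_mul, inv_mul_cancel, map_one]
  have hinv' : Z n * Z n⁻¹ = 1 := by rw [← map_mul, mul_inv_cancel, map_one]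
  have h2 : (Z n * PP ψ Z z' * Z n⁻¹) * (Z n * PP ψ Z z' * Z n⁻¹) =
      Z n * PP ψ Z z' * Z n⁻¹ := by
    have h3 : (Z n * PP ψ Z z' * Z n⁻¹) * (Z n * PP ψ Z z' * Z n⁻¹) =
        Z n * PP ψ Z z' * (Z n⁻¹ * Z n) * PP ψ Z z' * Z n⁻¹ := by simp only [mul_assoc]
    rw [h3, hinv, mul_one, mul_assoc (Z n), PP_idem h.nd hψ]
  refine ⟨Z n * PP ψ Z z' * Z n⁻¹, h2, ?_, ?_⟩
  · have h3 := H44.TSys.trace_idem h2
    rw [LinearMap.trace_mul_comm, ← mul_assoc, hinv, one_mul,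
      H44.TSys.trace_idem (PP_idem h.nd hψ Z z'), ← mu_eq, (h.mults hψ Z h5 hnt).1 z' hz'm] at h3
    exact_mod_cast h3.symm
  · rw [h1, map_mul, map_mul, h.e_eq hψ Z h5 hnt hz'm, mul_sub, sub_mul, mul_one, hinv',
      mul_smul_comm, smul_mul_assoc]

end F4

end H44.OM
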