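import Cfsg.Agent.Lib.H44.OM1

/-! The group `Om Q` : transitivity, scaling elements, the embedding of the Levi subgroup. -/

set_option autoImplicit false

namespace H44.OM

open Module QuadraticMap H7.Hyp H7.Omega H7.OmegaIso

variable {F : Type*} [Field F] {V : Type*} [AddCommGroup V] [Module F V] {Q : QuadraticForm F V}

/-- universal forms -/
def Univ (Q : QuadraticForm F V) : Prop := ∀ c : F, c ≠ 0 → ∃ w, Q w = c

theorem univ_hyp (Q : QuadraticForm F V) : Univ (hyp Q) := by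
  intro c _
  exact ⟨(c, 1, 0), by simp⟩

/-! ### transitivity -/

theorem trans_a (hQ : ND Q) (hu : Univ Q) {y : F × F × V} (hy : y ≠ 0) :
    ∃ k ∈ Om Q, (k y).2.1 ≠ 0 := by
  obtain ⟨a, b, v⟩ := y
  by_cases hb : b = 0
  · subst hb
    by_cases ha : a = 0
    · subst ha
      have hv : v ≠ 0 := by
        rintro rfl
        exact hy rfl
      obtain ⟨w, hw⟩ : ∃ w, polar Q v w ≠ 0 := by
        by_contra hcon
        push Not at hcon
        exact hv (hQ v hcon)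
      refine ⟨E' Q w, E'_mem_Om Q w, ?_⟩
      rw [E'_apply]
      simpa using hw
    · obtain ⟨w, hw⟩ := hu 1 one_ne_zero
      refine ⟨N Q w, N_mem Q w, ?_⟩
      rw [N_apply Q (by rw [hw]; exact one_ne_zero), hw]
      simpa using ha
  · exact ⟨1, (Om Q).one_mem, hb⟩

theorem trans_b {a b : F} {v : V} (hb : b ≠ 0) :
    ∃ k ∈ Om Q, k (a, b, v) = (hyp Q (a, b, v) / b, b, 0) := by
  refine ⟨E Q (-(b⁻¹ • v)), E_mem_Om Q _, ?_⟩
  rw [E_apply, hyp_apply]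
  have h1 : v + b • -(b⁻¹ • v) = 0 := by
    rw [smul_neg, smul_smul, mul_inv_cancel₀ hb, one_smul, add_neg_cancel]
  have h2 : Q (-(b⁻¹ • v)) = b⁻¹ * b⁻¹ * Q v := by
    rw [← neg_one_smul F, Q_smul, Q_smul]; ring
  have h3 : polar Q v (-(b⁻¹ • v)) = -(b⁻¹ * (2 * Q v)) := by
    rw [QuadraticMap.polar_neg_right, QuadraticMap.polar_smul_right, QuadraticMap.polar_self,
      smul_eq_mul, two_nsmul, two_mul]
  rw [h1, h2, h3]
  refine Prod.ext ?_ rfl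
  simp only
  field_simp
  ring

theorem trans_c (hu : Univ Q) (a : F) {b t : F} (hb : b ≠ 0) (ht : t ≠ 0) :
    ∃ k ∈ Om Q, k (a, b, (0 : V)) = (a * b / t, t, 0) := by
  obtain ⟨w1, hw1⟩ := hu 1 one_ne_zero
  obtain ⟨w2, hw2⟩ := hu (t / b) (div_ne_zero ht hb)
  have h1 : Q w1 ≠ 0 := by rw [hw1]; exact one_ne_zero
  have h2 : Q w2 ≠ 0 := by rw [hw2]; exact div_ne_zero ht hb
  refine ⟨N Q w2 * N Q w1, (Om Q).mul_mem (N_mem Q _) (N_mem Q _), ?_⟩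
  rw [LinearEquiv.mul_apply, N_apply Q h1, N_apply Q h2, hw1, hw2]
  simp only [QuadraticMap.polar_zero_right, mul_zero, zero_smul, sub_zero]
  refine Prod.ext ?_ (Prod.ext ?_ rfl)
  · simp only; field_simp
  · simp only; field_simp

theorem trans_ns (hQ : ND Q) (hu : Univ Q) {y : F × F × V} (hy : y ≠ 0) :
    ∃ k ∈ Om Q, k y = (hyp Q y, 1, 0) := by
  obtain ⟨k1, hk1, h1⟩ := trans_a hQ hu hy
  obtain ⟨a, b, v, he⟩ : ∃ a b v, k1 y = (a, b, v) := ⟨_, _, _, rfl⟩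
  rw [he] at h1
  simp only at h1
  obtain ⟨k2, hk2, h2⟩ := trans_b (Q := Q) (a := a) (v := v) h1
  obtain ⟨k3, hk3, h3⟩ := trans_c hu (hyp Q (a, b, v) / b) h1 one_ne_zero
  refine ⟨k3 * (k2 * k1), (Om Q).mul_mem hk3 ((Om Q).mul_mem hk2 hk1), ?_⟩
  rw [LinearEquiv.mul_apply, LinearEquiv.mul_apply, he, h2, h3, ← he, (Om_le Q hk1) y,
    div_mul_cancel₀ _ h1, div_one]

/-- transitivity on vectors of given norm -/
theorem trans_norm (hQ : ND Q) (hu : Univ Q) {y z : F × F × V} (hy : y ≠ 0) (hz : z ≠ 0)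
    (h : hyp Q y = hyp Q z) : ∃ k ∈ Om Q, k y = z := by
  obtain ⟨k1, hk1, h1⟩ := trans_ns hQ hu hy
  obtain ⟨k2, hk2, h2⟩ := trans_ns hQ hu hz
  refine ⟨k2⁻¹ * k1, (Om Q).mul_mem ((Om Q).inv_mem hk2) hk1, ?_⟩
  rw [LinearEquiv.mul_apply, inv_apply_eq, h1, h2, h]

/-! ### scaling -/

theorem N_E {w : V} (hw : Q w ≠ 0) (v : V) :
    N Q w * E Q v * (N Q w)⁻¹ = E' Q (-(Q w) • H17.OrthAbs.refl Q w hw v) := by
  rw [N_eq Q hw]
  have h1 := emb_E (Q := Q) (H17.OrthAbs.refl_mem_O Q w hw) v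
  have h2 := T_E Q (-(Units.mk0 (Q w) hw)) (H17.OrthAbs.refl Q w hw v)
  have h3 := E'_eq Q (((-(Units.mk0 (Q w) hw) : Fˣ) : F) • (H17.OrthAbs.refl Q w hw v))
  have e : S * T (-(Units.mk0 (Q w) hw)) * emb (H17.OrthAbs.refl Q w hw) * E Q v *
      (S * T (-(Units.mk0 (Q w) hw)) * emb (H17.OrthAbs.refl Q w hw))⁻¹ =
      S * (T (-(Units.mk0 (Q w) hw)) * (emb (H17.OrthAbs.refl Q w hw) * E Q v *
      (emb (H17.OrthAbs.refl Q w hw))⁻¹) * (T (-(Units.mk0 (Q w) hw)))⁻¹) * S⁻¹ := by group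
  rw [e, h1, h2, ← h3]
  simp

theorem exists_scale (hu : Univ Q) {a : F} (ha : a ≠ 0) : ∃ g ∈ Om Q, ∃ h ∈ O Q, ∀ v,
    g * E Q v = E Q (a • h v) * g := by
  obtain ⟨w1, hw1⟩ := hu 1 one_ne_zero
  obtain ⟨w2, hw2⟩ := hu a⁻¹ (inv_ne_zero ha)
  have h1 : Q w1 ≠ 0 := by rw [hw1]; exact one_ne_zero
  have h2 : Q w2 ≠ 0 := by rw [hw2]; exact inv_ne_zero ha
  refine ⟨(N Q w2)⁻¹ * N Q w1, (Om Q).mul_mem ((Om Q).inv_mem (N_mem Q _)) (N_mem Q _),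
    H17.OrthAbs.refl Q w2 h2 * H17.OrthAbs.refl Q w1 h1,
    (O Q).mul_mem (H17.OrthAbs.refl_mem_O Q w2 h2) (H17.OrthAbs.refl_mem_O Q w1 h1), ?_⟩
  intro v
  have h3 := N_E h1 v
  have h4 := N_E h2 (a • (H17.OrthAbs.refl Q w2 h2 * H17.OrthAbs.refl Q w1 h1) v)
  have h5 : H17.OrthAbs.refl Q w2 h2 (a • (H17.OrthAbs.refl Q w2 h2 *
      H17.OrthAbs.refl Q w1 h1) v) = a • H17.OrthAbs.refl Q w1 h1 v := by
    rw [map_smul, LinearEquiv.mul_apply, ← LinearEquiv.mul_apply, H17.OrthAbs.refl_sq]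
    rfl
  rw [h5, hw2, smul_smul] at h4
  have h6 : -a⁻¹ * a = -1 := by rw [neg_mul, inv_mul_cancel₀ ha]
  rw [h6] at h4
  rw [hw1] at h3
  have h7 : N Q w1 * E Q v * (N Q w1)⁻¹ = N Q w2 * E Q (a • (H17.OrthAbs.refl Q w2 h2 *
      H17.OrthAbs.refl Q w1 h1) v) * (N Q w2)⁻¹ := by rw [h3, h4]
  have h8 : N Q w1 * E Q v = N Q w2 * E Q (a • (H17.OrthAbs.refl Q w2 h2 *
      H17.OrthAbs.refl Q w1 h1) v) * (N Q w2)⁻¹ * N Q w1 := by
    rw [← h7]; group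
  calc (N Q w2)⁻¹ * N Q w1 * E Q v = (N Q w2)⁻¹ * (N Q w1 * E Q v) := by group
    _ = _ := by rw [h8]; group

/-! ### the elements -/

/-- Siegel elements in `Om Q` -/
def e (Q : QuadraticForm F V) (w : V) : Om Q := ⟨E Q w, E_mem_Om Q w⟩

theorem e_add (w w' : V) : e Q (w + w') = e Q w * e Q w' := Subtype.ext (E_mul Q w w').symm

theorem e_zero : e Q 0 = 1 := Subtype.ext (E_zero Q)

/-- the Levi embedding -/
def l (hQ : ND Q) : Om Q →* Om (hyp Q) where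
  toFun k := ⟨emb k.1, emb_Om hQ k.2⟩
  map_one' := Subtype.ext (map_one emb)
  map_mul' a b := Subtype.ext (map_mul emb a.1 b.1)

theorem l_e (hQ : ND Q) (k : Om Q) (w : F × F × V) :
    l hQ k * e (hyp Q) w = e (hyp Q) (k.1 w) * l hQ k := by
  apply Subtype.ext
  have := emb_E (Q := hyp Q) (Om_le Q k.2) w
  rw [mul_inv_eq_iff_eq_mul] at this
  exact this

section rep

variable {W : Type*} [AddCommGroup W] [Module ℂ W]

theorem addF (ρ : Representation ℂ (Om Q) W) : AddF (fun w => ρ (e Q w)) :=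
  ⟨by rw [e_zero, map_one], fun w w' => by rw [e_add, map_mul]⟩

/-- if the Siegel elements act trivially, everything does -/
theorem triv_of (hQ : ND Q) [Nontrivial V] (ρ : Representation ℂ (Om Q) W)
    (h : ∀ w, ρ (e Q w) = 1) (g : Om Q) : ρ g = 1 := by
  obtain ⟨w0, hw0⟩ := exists_Q_ne hQ
  have h' : ∀ w, ρ ⟨E' Q w, E'_mem_Om Q w⟩ = 1 := by
    intro w
    obtain ⟨v, hv⟩ : ∃ v, -(Q w0) • H17.OrthAbs.refl Q w0 hw0 v = w := by
      obtain ⟨v, hv⟩ := (H17.OrthAbs.refl Q w0 hw0).surjective ((-(Q w0))⁻¹ • w)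
      exact ⟨v, by rw [hv, smul_smul, mul_inv_cancel₀ (neg_ne_zero.mpr hw0), one_smul]⟩
    have h1 : (⟨E' Q w, E'_mem_Om Q w⟩ : Om Q) = ⟨N Q w0, N_mem Q w0⟩ * e Q v *
        (⟨N Q w0, N_mem Q w0⟩ : Om Q)⁻¹ := by
      apply Subtype.ext
      change E' Q w = N Q w0 * E Q v * (N Q w0)⁻¹
      rw [N_E hw0, hv]
    rw [h1, map_mul, map_mul, h, mul_one, ← map_mul, mul_inv_cancel, map_one]
  obtain ⟨g, hg⟩ := g
  unfold Om at hg
  induction hg using Subgroup.closure_induction with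
  | mem x hx =>
    rcases hx with ⟨w, rfl⟩ | ⟨w, rfl⟩
    · exact h w
    · exact h' w
  | one => exact map_one ρ
  | mul x y hx hy h1 h2 =>
    have : (⟨x * y, (Om Q).mul_mem hx hy⟩ : Om Q) = ⟨x, hx⟩ * ⟨y, hy⟩ := rfl
    exact (congrArg ρ this).trans (by rw [map_mul, h1, h2, mul_one])
  | inv x hx h1 =>
    have : (⟨x⁻¹, (Om Q).inv_mem hx⟩ : Om Q) = (⟨x, hx⟩ : Om Q)⁻¹ := rfl
    refine (congrArg ρ this).trans ?_
    have h2 : ρ (⟨x, hx⟩ : Om Q)⁻¹ * ρ (⟨x, hx⟩ : Om Q) = 1 := by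
      rw [← map_mul, inv_mul_cancel, map_one]
    rwa [h1, mul_one] at h2

end rep

end H44.OM
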