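import Cfsg.Agent.Lib.H44.OM19

/-! The exceptional case: the contradiction in dimension five. -/

set_option autoImplicit false
set_option linter.unusedSectionVars false

namespace H44.OM

open Module QuadraticMap H7.Hyp H7.Omega H7.OmegaIso H7.HypStd H48.QuadStd

section grp

variable {F : Type*} [Field F] {V : Type*} [AddCommGroup V] [Module F V] {Q : QuadraticForm F V}

theorem comm_same {z : V} (hz : Q z = 0) : E Q z * E' Q z = E' Q z * E Q z := by
  have hzz : polar Q z z = 0 := by rw [QuadraticMap.polar_self, hz, smul_zero]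
  apply LinearEquiv.ext
  rintro ⟨x, y, u⟩
  change E Q z (E' Q z (x, y, u)) = E' Q z (E Q z (x, y, u))
  rw [E'_apply, E_apply, E_apply, E'_apply]
  simp only [hz, zero_mul, sub_zero, QuadraticMap.polar_add_left, QuadraticMap.polar_smul_left,
    hzz, smul_zero, add_zero]
  refine Prod.ext rfl (Prod.ext rfl ?_)
  simp only
  module

theorem braid2 {y z : V} (hy : Q y = 0) (hz : Q z = 0) (hyz : polar Q y z = 1) :
    E Q y * E' Q z * E Q y = E' Q z * E Q y * E' Q z := by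
  have hyy : polar Q y y = 0 := by rw [QuadraticMap.polar_self, hy, smul_zero]
  have hzz : polar Q z z = 0 := by rw [QuadraticMap.polar_self, hz, smul_zero]
  have hzy : polar Q z y = 1 := by rw [polar_symm, hyz]
  apply LinearEquiv.ext
  rintro ⟨s, t, u⟩
  change E Q y (E' Q z (E Q y (s, t, u))) = E' Q z (E Q y (E' Q z (s, t, u)))
  rw [E_apply, E'_apply, E_apply, E'_apply, E_apply, E'_apply]
  simp only [hy, hz, zero_mul, sub_zero, QuadraticMap.polar_add_left,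
    QuadraticMap.polar_smul_left, hyy, hzz, hyz, hzy, smul_eq_mul, mul_one, mul_zero, add_zero]
  refine Prod.ext ?_ (Prod.ext ?_ ?_)
  · simp only
    ring
  · simp only
    ring
  · simp only
    module

end grp

variable {F : Type*} [Field F] [Fintype F] {V : Type*} [AddCommGroup V] [Module F V] [Fintype V]
  {Q : QuadraticForm F V} {v w : V}
variable {W : Type*} [AddCommGroup W] [Module ℂ W] [FiniteDimensional ℂ W]

namespace F4

theorem trace_Zl (h : F4 Q v w) {ψ : AddChar F ℂ} (hψ : ψ ≠ 0)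
    (Z : Representation ℂ (Om (hyp Q)) W) (h5 : finrank ℂ W = 5) (hnt : ∃ g, Z g ≠ 1)
    {k : Om Q} {α β : ℂ}
    (k1 : Z (l h.nd k) * PP ψ Z (1, 0, 0) = α • PP ψ Z (1, 0, 0))
    (k2 : Z (l h.nd k) * PP ψ Z (0, 1, 0) = β • PP ψ Z (0, 1, 0))
    (k3 : k.1 (1, 1, v) ≠ (1, 1, v)) (k4 : k.1 (1, 1, w) ≠ (1, 1, w))
    (k5 : k.1 (1, 1, v + w) ≠ (1, 1, v + w)) :
    LinearMap.trace ℂ W (Z (l h.nd k * e (hyp Q) (1, 0, 0))) = α - β := by
  have hy1 : ((1 : F), (0 : F), (0 : V)) ∈ Ob (hyp Q) 0 := mem_Ob.mpr ⟨by simp, sing_y1⟩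
  have hy2 : ((0 : F), (1 : F), (0 : V)) ∈ Ob (hyp Q) 0 := mem_Ob.mpr ⟨by simp, sing_y2⟩
  have t1 : LinearMap.trace ℂ W (PP ψ Z (1, 0, 0)) = 1 := by
    rw [H44.TSys.trace_idem (PP_idem h.nd hψ Z _), ← mu_eq, (h.mults hψ Z h5 hnt).1 _ hy1,
      Nat.cast_one]
  have t2 : LinearMap.trace ℂ W (PP ψ Z (0, 1, 0)) = 1 := by
    rw [H44.TSys.trace_idem (PP_idem h.nd hψ Z _), ← mu_eq, (h.mults hψ Z h5 hnt).1 _ hy2,
      Nat.cast_one]
  have h1 : LinearMap.trace ℂ W (Z (l h.nd k)) = α + β := by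
    have h2 : Z (l h.nd k) = ∑ y ∈ Ob (hyp Q) 0, Z (l h.nd k) * PP ψ Z y := by
      rw [← Finset.mul_sum, h.sum_PP hψ Z h5 hnt, mul_one]
    rw [h2, map_sum, h.sum_Ob, k1, k2, map_smul, map_smul, t1, t2,
      trace_l_ne h.nd hψ Z k3, trace_l_ne h.nd hψ Z k4, trace_l_ne h.nd hψ Z k5]
    simp
  rw [map_mul, h.e_eq hψ Z h5 hnt hy1, mul_sub, mul_one, mul_smul_comm, k1, map_sub, map_smul,
    map_smul, t1, h1, smul_eq_mul, smul_eq_mul]
  ring

/-- the five dimensional case -/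
theorem five (h : F4 Q v w) {ψ : AddChar F ℂ} (hψ : ψ ≠ 0)
    (Z : Representation ℂ (Om (hyp Q)) W) (h5 : finrank ℂ W = 5) (hnt : ∃ g, Z g ≠ 1)
    (htr : LinearMap.trace ℂ W (Z (l h.nd h.k3 * e (hyp Q) (1, 0, 0))) =
      LinearMap.trace ℂ W (Z (l h.nd h.k3' * e (hyp Q) (1, 0, 0)))) : False := by
  have hy1 : ((1 : F), (0 : F), (0 : V)) ∈ Ob (hyp Q) 0 := mem_Ob.mpr ⟨by simp, sing_y1⟩
  have hy2 : ((0 : F), (1 : F), (0 : V)) ∈ Ob (hyp Q) 0 := mem_Ob.mpr ⟨by simp, sing_y2⟩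
  have hy3 : ((1 : F), (1 : F), v) ∈ Ob (hyp Q) 0 := mem_Ob.mpr ⟨by simp, h.sing_yv⟩
  have hr : ∀ y ∈ Ob (hyp Q) 0, finrank ℂ (LinearMap.range (PP ψ Z y)) = 1 := fun y hy => by
    rw [← mu_eq, (h.mults hψ Z h5 hnt).1 y hy]
  have hne : ∀ y ∈ Ob (hyp Q) 0, PP ψ Z y ≠ 0 := by
    intro y hy h0
    have := hr y hy
    rw [h0, LinearMap.range_zero, finrank_bot] at this
    exact zero_ne_one this
  set P1 := PP ψ Z (1, 0, 0) with hP1
  set P2 := PP ψ Z (0, 1, 0) with hP2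
  set P3 := PP ψ Z (1, 1, v) with hP3
  have i1 : P1 * P1 = P1 := PP_idem h.nd hψ Z _
  have i2 : P2 * P2 = P2 := PP_idem h.nd hψ Z _
  have i3 : P3 * P3 = P3 := PP_idem h.nd hψ Z _
  set T := Z (l h.nd h.k3) with hT
  set Ti := Z (l h.nd h.k3') with hTi
  have hTT : Ti * T = 1 := by
    rw [hT, hTi, ← map_mul, ← map_mul, h.k3'_mul, map_one, map_one]
  have hTT' : T * Ti = 1 := by
    rw [hT, hTi, ← map_mul, ← map_mul, h.k3_mul, map_one, map_one]
  have hT2 : T * T = Ti := by rw [hT, hTi, ← map_mul, ← map_mul, h.k3_sq]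
  have l1 : T * P1 = P1 * T := by
    have := l_PP (ψ := ψ) h.nd Z h.k3 (1, 0, 0)
    rwa [h.k3_zero] at this
  have l2 : T * P2 = P2 * T := by
    have := l_PP (ψ := ψ) h.nd Z h.k3 (0, 1, 0)
    rwa [h.k3_zero] at this
  obtain ⟨c, hc⟩ := eig i1 (hr _ hy1) l1
  have hc2 : Ti * P1 = (c * c) • P1 := by
    rw [← hT2, mul_assoc, hc, mul_smul_comm, hc, smul_smul]
  have hc3 : c * c * c = 1 := by
    have h1 : (c * c * c) • P1 = (1 : ℂ) • P1 := by
      have : Ti * (T * P1) = P1 := by rw [← mul_assoc, hTT, one_mul]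
      rw [hc, mul_smul_comm, hc2, smul_smul] at this
      rw [one_smul]
      conv_rhs => rw [← this]
      congr 1
      ring
    exact smul_left_injective ℂ (hne _ hy1) h1
  -- the second one
  set n := Z (l h.nd h.nv) with hn
  have hnn : n * n = 1 := by rw [hn, ← map_mul, ← map_mul, h.nv_sq, map_one, map_one]
  have hnP : n * P1 = P2 * n := by
    have := l_PP (ψ := ψ) h.nd Z h.nv (1, 0, 0)
    have h2 : h.nv.1 ((1 : F), (0 : F), (0 : V)) = (0, 1, 0) := by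
      change N Q v (1, 0, 0) = _
      rw [h.Nv]; simp
    rwa [h2] at this
  have hTn : T * n = n * Ti := by
    rw [hT, hTi, hn, ← map_mul, ← map_mul, ← map_mul, ← map_mul, h.k3_nv]
  have hTP2 : T * P2 = (c * c) • P2 := by
    have h1 : T * P2 * n = (c * c) • P2 * n := by
      rw [mul_assoc, ← hnP, ← mul_assoc, hTn, mul_assoc, hc2, mul_smul_comm, hnP, smul_mul_assoc]
    have h2 := congrArg (fun X => X * n) h1
    simp only [mul_assoc, hnn, mul_one] at h2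
    exact h2
  have hTiP2 : Ti * P2 = c • P2 := by
    rw [← hT2, mul_assoc, hTP2, mul_smul_comm, hTP2, smul_smul]
    congr 1
    linear_combination c * hc3
  have a1 := h.trace_Zl hψ Z h5 hnt (k := h.k3) hc hTP2
    (by rw [h.k3_v]; intro h1; exact h.vw (congrArg (fun p : F × F × V => p.2.2) h1).symm)
    (by rw [h.k3_w]; intro h1; exact h.v0 (by
      simpa using (congrArg (fun p : F × F × V => p.2.2) h1)))
    (by rw [h.k3_vw]; intro h1; exact h.w0 (by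
      simpa using (congrArg (fun p : F × F × V => p.2.2) h1)))
  have a2 := h.trace_Zl hψ Z h5 hnt (k := h.k3') hc2 hTiP2
    (by rw [h.k3'_v]; intro h1; exact h.w0 (by
      simpa using (congrArg (fun p : F × F × V => p.2.2) h1)))
    (by rw [h.k3'_w]; intro h1; exact h.vw (congrArg (fun p : F × F × V => p.2.2) h1))
    (by rw [h.k3'_vw]; intro h1; exact h.v0 (by
      simpa using (congrArg (fun p : F × F × V => p.2.2) h1)))
  have hc1 : c = 1 := by
    rw [a1, a2] at htr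
    have h1 : c * c = c := by linear_combination -htr / 2
    rw [h1] at hc3
    rw [h1] at hc3
    exact hc3
  rw [hc1, one_smul] at hc
  rw [hc1, mul_one, one_smul] at hTP2
  -- the opposite group
  obtain ⟨M, iM, rM, eM⟩ := h.e'_eq hψ Z h5 hnt hy1
  obtain ⟨N, iN, rN, eN⟩ := h.e'_eq hψ Z h5 hnt hy2
  have two_inj : ∀ A B : Module.End ℂ W, ((2 : ℂ) • A - 1) * ((2 : ℂ) • B - 1) =
      ((2 : ℂ) • B - 1) * ((2 : ℂ) • A - 1) → A * B = B * A := by
    intro A B hAB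
    have h1 : ∀ A B : Module.End ℂ W, ((2 : ℂ) • A - 1) * ((2 : ℂ) • B - 1) =
        (4 : ℂ) • (A * B) - (2 : ℂ) • A - (2 : ℂ) • B + 1 := by
      intro A B
      have h2 : ∀ X : Module.End ℂ W, (2 : ℂ) • X = X + X := two_smul ℂ
      have h4 : ∀ X : Module.End ℂ W, (4 : ℂ) • X = X + X + (X + X) := fun X => by module
      rw [h2, h2, h4]
      noncomm_ring
    rw [h1, h1] at hAB
    have h3 : (4 : ℂ) • (A * B) = (4 : ℂ) • (B * A) := by
      calc (4 : ℂ) • (A * B) = ((4 : ℂ) • (A * B) - (2 : ℂ) • A - (2 : ℂ) • B + 1) +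
            (2 : ℂ) • A + (2 : ℂ) • B - 1 := by abel
        _ = _ := by rw [hAB]
        _ = (4 : ℂ) • (B * A) := by abel
    exact smul_right_injective _ (by norm_num : (4 : ℂ) ≠ 0) h3
  have sing1 : ∀ {y : F × F × V}, y ∈ Ob (hyp Q) 0 → hyp Q y = 0 := fun hy => (mem_Ob.mp hy).2
  have com : ∀ {y : F × F × V} (hy : y ∈ Ob (hyp Q) 0) {M : Module.End ℂ W},
      Z ⟨E' (hyp Q) y, E'_mem_Om _ y⟩ = (2 : ℂ) • M - 1 → PP ψ Z y * M = M * PP ψ Z y := by
    intro y hy M hM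
    apply two_inj
    rw [← hM, ← h.e_eq hψ Z h5 hnt hy, ← map_mul, ← map_mul]
    congr 1
    exact Subtype.ext (comm_same (sing1 hy))
  have br : ∀ {y z : F × F × V} (hy : y ∈ Ob (hyp Q) 0) (hz : z ∈ Ob (hyp Q) 0) (hyz : y ≠ z)
      {M : Module.End ℂ W}, M * M = M →
      Z ⟨E' (hyp Q) z, E'_mem_Om _ z⟩ = (2 : ℂ) • M - 1 → PP ψ Z y * M ≠ 0 ∧ M * PP ψ Z y ≠ 0 := by
    intro y z hy hz hyz M hM hZ
    apply braid_ne (PP_idem h.nd hψ Z y) hM (hne y hy)
    rw [← hZ, ← h.e_eq hψ Z h5 hnt hy, ← map_mul, ← map_mul, ← map_mul, ← map_mul]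
    congr 1
    exact Subtype.ext (braid2 (sing1 hy) (sing1 hz) (h.polar_one (mem_Ob.mp hy).1
      (mem_Ob.mp hy).2 (mem_Ob.mp hz).1 (mem_Ob.mp hz).2 hyz))
  have comT : ∀ {z : F × F × V} {M : Module.End ℂ W}, h.k3.1 z = z →
      Z ⟨E' (hyp Q) z, E'_mem_Om _ z⟩ = (2 : ℂ) • M - 1 → T * M = M * T := by
    intro z M hz hM
    have h1 : T * Z ⟨E' (hyp Q) z, E'_mem_Om _ z⟩ = Z ⟨E' (hyp Q) z, E'_mem_Om _ z⟩ * T := by
      rw [hT, ← map_mul, ← map_mul]
      congr 1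
      apply Subtype.ext
      have h2 := emb_E' (Q := hyp Q) (Om_le Q h.k3.2) z
      rw [hz, mul_inv_eq_iff_eq_mul] at h2
      exact h2
    rw [hM, mul_sub, sub_mul, mul_one, one_mul, mul_smul_comm, smul_mul_assoc] at h1
    exact smul_right_injective _ (two_ne_zero : (2 : ℂ) ≠ 0) (sub_left_injective h1)
  have y12 : ((1 : F), (0 : F), (0 : V)) ≠ (0, 1, 0) := by simp
  have y31 : ((1 : F), (1 : F), v) ≠ (1, 0, 0) := by simp
  have y32 : ((1 : F), (1 : F), v) ≠ (0, 1, 0) := by simp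
  refine no_five P1 P2 P3 M N T Ti hTT i1 i2 (P_mul_ne h.nd.hyp hψ (addF Z) y12)
    (P_mul_ne h.nd.hyp hψ (addF Z) (Ne.symm y12)) ?_ (hr _ hy3) iM iN rM rN (com hy1 eM)
    (com hy2 eN) ?_ (br hy2 hy1 (Ne.symm y12) iM eM).1 (br hy3 hy1 y31 iM eM).2
    (br hy1 hy2 y12 iN eN).1 (br hy3 hy2 y32 iN eN).1 (by rw [← l1, hc]) (by rw [← l2, hTP2])
    (comT (h.k3_zero 1 0) eM) (comT (h.k3_zero 0 1) eN)
  · rw [← h.sum_PP hψ Z h5 hnt, h.sum_Ob]
    have l3 := l_PP (ψ := ψ) h.nd Z h.k3 (1, 1, v)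
    rw [h.k3_v] at l3
    have l4 := l_PP (ψ := ψ) h.nd Z h.k3 (1, 1, w)
    rw [h.k3_w] at l4
    have e3 : T * P3 * Ti = PP ψ Z (1, 1, w) := by
      rw [hP3, hT, l3, mul_assoc]
      change _ * (T * Ti) = _
      rw [hTT', mul_one]
    have e4 : T * (T * P3 * Ti) * Ti = PP ψ Z (1, 1, v + w) := by
      rw [e3, hT, l4, mul_assoc]
      change _ * (T * Ti) = _
      rw [hTT', mul_one]
    rw [e4, e3]
    abel
  · apply two_inj
    rw [← eM, ← eN, ← map_mul, ← map_mul]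
    congr 1
    apply Subtype.ext
    change E' (hyp Q) _ * E' (hyp Q) _ = E' (hyp Q) _ * E' (hyp Q) _
    rw [E'_mul, E'_mul, add_comm]

end F4

end H44.OM
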