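import Cfsg.Agent.Lib.H44.OM20

/-! The exceptional case: end. -/

set_option autoImplicit false
set_option linter.unusedSectionVars false

namespace H44.OM

open Module QuadraticMap H7.Hyp H7.Omega H7.OmegaIso H7.HypStd H48.QuadStd

variable {F : Type*} [Field F] [Fintype F] {V : Type*} [AddCommGroup V] [Module F V] [Fintype V]
  {Q : QuadraticForm F V} {v w : V}
variable {W : Type*} [AddCommGroup W] [Module ℂ W] [FiniteDimensional ℂ W]

namespace F4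

/-- reflection -/
def rr (Q : QuadraticForm F V) (v z : V) : V := z + polar Q v z • v

theorem rv_rv (h : F4 Q v w) (z : V) : rr Q v (rr Q v z) = z := by
  unfold rr
  rw [QuadraticMap.polar_add_right, QuadraticMap.polar_smul_right, h.pvv, smul_zero,
    add_zero, add_assoc, F2_vadd h.card, add_zero]

theorem k3_rr (h : F4 Q v w) (x y : F) (z : V) : h.k3.1 (x, y, z) = (x, y, rr Q v (rr Q w z)) :=
  h.k3_apply x y z

theorem k3'_rr (h : F4 Q v w) (x y : F) (z : V) : h.k3'.1 (x, y, z) = (x, y, rr Q w (rr Q v z)) :=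
  h.k3'_apply x y z

/-- the elements used -/
def H (h : F4 Q v w) (k : Om Q) : Om (hyp Q) := l h.nd k * e (hyp Q) (1, 0, 0)

theorem e_y1 (a b c d : F) (z : V) : (e (hyp Q) ((1 : F), (0 : F), (0 : V))).1 (a, b, (c, d, z)) =
    (a - d, b, (c + b, d, z)) := by
  change E (hyp Q) (1, 0, 0) (a, b, (c, d, z)) = _
  rw [E_apply, polar_hyp, hyp_apply]
  simp

theorem H3_apply (h : F4 Q v w) (a b c d : F) (z : V) : (h.H h.k3).1 (a, b, (c, d, z)) =
    (a - d, b, (c + b, d, rr Q v (rr Q w z))) := by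
  change emb h.k3.1 ((e (hyp Q) ((1 : F), (0 : F), (0 : V))).1 (a, b, (c, d, z))) = _
  rw [e_y1, emb_apply, h.k3_rr]

theorem H3'_apply (h : F4 Q v w) (a b c d : F) (z : V) : (h.H h.k3').1 (a, b, (c, d, z)) =
    (a - d, b, (c + b, d, rr Q w (rr Q v z))) := by
  change emb h.k3'.1 ((e (hyp Q) ((1 : F), (0 : F), (0 : V))).1 (a, b, (c, d, z))) = _
  rw [e_y1, emb_apply, h.k3'_rr]

theorem l_val (hQ : ND Q) (k : Om Q) : (l hQ k).1 = emb k.1 := rfl

theorem conjH (h : F4 Q v w) : ∃ g : Om (hyp (hyp Q)),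
    g * l h.nd.hyp (h.H h.k3) = l h.nd.hyp (h.H h.k3') * g := by
  have hR : hyp (hyp Q) ((0 : F), (0 : F), ((0 : F), (0 : F), v)) = 1 := by
    rw [hyp_apply, hyp_apply]; simp [h.Qv]
  have hN : ∀ (x y a b c d : F) (z : V), N (hyp (hyp Q)) ((0 : F), (0 : F), ((0 : F), (0 : F), v))
      (x, y, (a, b, (c, d, z))) = (y, x, (a, b, (c, d, rr Q v z))) := by
    intro x y a b c d z
    rw [N_apply _ (by rw [hR]; exact one_ne_zero), hR, inv_one, one_mul, F2_neg h.card, one_mul,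
      one_mul, sub_eq_add_neg, F2_vneg h.card, polar_hyp, polar_hyp]
    simp [rr]
  refine ⟨⟨N (hyp (hyp Q)) ((0 : F), (0 : F), ((0 : F), (0 : F), v)), N_mem _ _⟩, ?_⟩
  apply Subtype.ext
  rw [Subgroup.coe_mul, Subgroup.coe_mul]
  apply LinearEquiv.ext
  rintro ⟨x, y, ⟨a, b, ⟨c, d, z⟩⟩⟩
  rw [LinearEquiv.mul_apply, LinearEquiv.mul_apply, l_val, l_val]
  have A1 : emb (h.H h.k3).1 (x, y, (a, b, (c, d, z))) =
      (x, y, (a - d, b, (c + b, d, rr Q v (rr Q w z)))) := by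
    rw [emb_apply, h.H3_apply]
  have A2 : emb (h.H h.k3').1 (y, x, (a, b, (c, d, rr Q v z))) =
      (y, x, (a - d, b, (c + b, d, rr Q w (rr Q v (rr Q v z))))) := by
    rw [emb_apply, h.H3'_apply]
  have A3 := hN x y (a - d) b (c + b) d (rr Q v (rr Q w z))
  have A4 := hN x y a b c d z
  have A5 : N (hyp (hyp Q)) ((0 : F), (0 : F), ((0 : F), (0 : F), v))
      (emb (h.H h.k3).1 (x, y, (a, b, (c, d, z)))) =
      emb (h.H h.k3').1 (N (hyp (hyp Q)) ((0 : F), (0 : F), ((0 : F), (0 : F), v))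
        (x, y, (a, b, (c, d, z)))) := by
    rw [A1, A3, A4, A2, h.rv_rv, h.rv_rv]
  clear A1 A2 A3 A4
  generalize (h.H h.k3).1 = α at *
  generalize (h.H h.k3').1 = β at *
  exact A5

/-- fixed vectors -/
theorem H3_fix (h : F4 Q v w) {a b c d : F} {z : V}
    (hf : (h.H h.k3).1 (a, b, (c, d, z)) = (a, b, (c, d, z))) : b = 0 ∧ d = 0 ∧ z = 0 := by
  rw [h.H3_apply] at hf
  have h1 : d = 0 := by simpa using congrArg (fun p : F × F × (F × F × V) => p.1) hf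
  have h2 : b = 0 := by simpa using congrArg (fun p : F × F × (F × F × V) => p.2.2.1) hf
  have h3 := congrArg (fun p : F × F × (F × F × V) => p.2.2.2.2) hf
  simp only at h3
  refine ⟨h2, h1, ?_⟩
  have h4 : h.k3.1 (0, 0, z) = (0, 0, z) := by rw [h.k3_rr, h3]
  rcases h.all z with rfl | rfl | rfl | rfl
  · rfl
  · rw [h.k3_v] at h4
    exact absurd (congrArg (fun p : F × F × V => p.2.2) h4).symm h.vw
  · rw [h.k3_w] at h4
    exact absurd (by simpa using (congrArg (fun p : F × F × V => p.2.2) h4)) h.v0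
  · rw [h.k3_vw] at h4
    exact absurd (by simpa using (congrArg (fun p : F × F × V => p.2.2) h4)) h.w0

theorem H3'_fix (h : F4 Q v w) {a b c d : F} {z : V}
    (hf : (h.H h.k3').1 (a, b, (c, d, z)) = (a, b, (c, d, z))) : b = 0 ∧ d = 0 ∧ z = 0 := by
  rw [h.H3'_apply] at hf
  have h1 : d = 0 := by simpa using congrArg (fun p : F × F × (F × F × V) => p.1) hf
  have h2 : b = 0 := by simpa using congrArg (fun p : F × F × (F × F × V) => p.2.2.1) hf
  have h3 := congrArg (fun p : F × F × (F × F × V) => p.2.2.2.2) hf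
  simp only at h3
  refine ⟨h2, h1, ?_⟩
  have h4 : h.k3'.1 (0, 0, z) = (0, 0, z) := by rw [h.k3'_rr, h3]
  rcases h.all z with rfl | rfl | rfl | rfl
  · rfl
  · rw [h.k3'_v] at h4
    exact absurd (by simpa using (congrArg (fun p : F × F × V => p.2.2) h4)) h.w0
  · rw [h.k3'_w] at h4
    exact absurd (congrArg (fun p : F × F × V => p.2.2) h4) h.vw
  · rw [h.k3'_vw] at h4
    exact absurd (by simpa using (congrArg (fun p : F × F × V => p.2.2) h4)) h.v0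

theorem Cc0 (h : F4 Q v w) : Cc Q 0 := by
  intro u hu hu0
  exfalso
  rcases h.all u with rfl | rfl | rfl | rfl
  · exact hu rfl
  · rw [h.Qv] at hu0; exact one_ne_zero hu0
  · rw [h.Qw] at hu0; exact one_ne_zero hu0
  · rw [h.Qvw] at hu0; exact one_ne_zero hu0

section rep

variable {ψ : AddChar F ℂ} (ρ : Representation ℂ (Om (hyp (hyp Q))) W)

/-- weight spaces -/
theorem k3_PP (h : F4 Q v w) (hψ : ψ ≠ 0) (hc : Cls ψ ρ 0) (a c : F)
    (hx : ((a, (0 : F), (c, (0 : F), (0 : V))) : F × F × (F × F × V)) ≠ 0) :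
    ρ (l h.nd.hyp (l h.nd h.k3)) * PP ψ ρ (a, 0, (c, 0, 0)) = PP ψ ρ (a, 0, (c, 0, 0)) := by
  set K := ρ (l h.nd.hyp (l h.nd h.k3)) with hK
  have h0 : K * PP ψ ρ (1, 0, (0, 0, 0)) = PP ψ ρ (1, 0, (0, 0, 0)) := by
    have h1 : mu ψ ρ ((1 : F), (0 : F), ((0 : F), (0 : F), (0 : V))) = 1 := by
      rw [hc _ (by simp), if_pos (by rw [hyp_apply, hyp_apply]; simp)]
    have fixl : ∀ k : Om Q, (l h.nd k).1 ((1 : F), (0 : F), ((0 : F), (0 : F), (0 : V))) =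
        (1, 0, (0, 0, 0)) := by
      intro k
      change emb k.1 _ = _
      rw [emb_apply]
      have : k.1 ((0 : F), (0 : F), (0 : V)) = 0 := map_zero _
      rw [this]
      rfl
    refine comm_P ρ (PP_idem h.nd.hyp hψ ρ _) h1 (g1 := l h.nd.hyp (l h.nd h.nw))
      (g2 := l h.nd.hyp (l h.nd h.nv)) ?_ ?_ ?_
    · rw [l_PP, fixl]
    · rw [l_PP, fixl]
    · rw [← map_mul, ← map_mul, ← map_mul, ← map_mul, ← map_mul, ← map_mul]
      congr 2
      change h.k3' = h.k3 * h.k3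
      rw [h.k3_sq]
  have transfer : ∀ (s : Om (hyp Q)) (x : F × F × (F × F × V)), s * l h.nd h.k3 = l h.nd h.k3 * s →
      K * PP ψ ρ (s.1 x) = PP ψ ρ (s.1 x) → K * PP ψ ρ x = PP ψ ρ x := by
    intro s x hs h1
    have h2 := l_PP (ψ := ψ) h.nd.hyp ρ s x
    have h3 : ρ (l h.nd.hyp s) * K = K * ρ (l h.nd.hyp s) := by
      rw [hK, ← map_mul, ← map_mul, ← map_mul, ← map_mul, hs]
    have h4 : ρ (l h.nd.hyp s) * (K * PP ψ ρ x) = ρ (l h.nd.hyp s) * PP ψ ρ x := by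
      rw [← mul_assoc, h3, mul_assoc, h2, ← mul_assoc, h1]
    have h5 := rho_inv_mul ρ (l h.nd.hyp s)
    calc K * PP ψ ρ x = ρ (l h.nd.hyp s)⁻¹ * (ρ (l h.nd.hyp s) * (K * PP ψ ρ x)) := by
          rw [← mul_assoc, h5, one_mul]
      _ = _ := by rw [h4, ← mul_assoc, h5, one_mul]
  have h1 : K * PP ψ ρ (1, 0, (1, 0, 0)) = PP ψ ρ (1, 0, (1, 0, 0)) := by
    refine transfer ⟨E' (hyp Q) (1, 0, 0), E'_mem_Om _ _⟩ _ ?_ ?_
    · apply Subtype.ext
      have h2 := emb_E' (Q := hyp Q) (Om_le Q h.k3.2) (1, 0, 0)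
      rw [h.k3_zero, mul_inv_eq_iff_eq_mul] at h2
      exact h2.symm
    · have h3 : E' (hyp Q) ((1 : F), (0 : F), (0 : V)) ((1 : F), (0 : F), ((1 : F), (0 : F), (0 : V))) =
          (1, 0, (0, 0, 0)) := by
        rw [E'_apply, polar_hyp, hyp_apply]
        simp [one_add_one_eq_two, F2_two h.card]
      change K * PP ψ ρ (E' (hyp Q) ((1 : F), (0 : F), (0 : V)) _) = PP ψ ρ (E' (hyp Q) _ _)
      rw [h3, h0]
  rcases F2_cases h.card a with rfl | rfl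
  · rcases F2_cases h.card c with rfl | rfl
    · exact absurd rfl hx
    · refine transfer (e (hyp Q) (0, 1, 0)) _ ?_ ?_
      · apply Subtype.ext
        have h2 := emb_E (Q := hyp Q) (Om_le Q h.k3.2) (0, 1, 0)
        rw [h.k3_zero, mul_inv_eq_iff_eq_mul] at h2
        exact h2.symm
      · have h3 : E (hyp Q) ((0 : F), (1 : F), (0 : V)) ((0 : F), (0 : F), ((1 : F), (0 : F), (0 : V))) =
            (1, 0, (1, 0, 0)) := by
          rw [E_apply, polar_hyp, hyp_apply]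
          simp [F2_neg h.card]
        change K * PP ψ ρ (E (hyp Q) ((0 : F), (1 : F), (0 : V)) _) = PP ψ ρ (E (hyp Q) _ _)
        rw [h3, h1]
  · rcases F2_cases h.card c with rfl | rfl
    · exact h0
    · exact h1

theorem k3'_PP (h : F4 Q v w) (hψ : ψ ≠ 0) (hc : Cls ψ ρ 0) (a c : F)
    (hx : ((a, (0 : F), (c, (0 : F), (0 : V))) : F × F × (F × F × V)) ≠ 0) :
    ρ (l h.nd.hyp (l h.nd h.k3')) * PP ψ ρ (a, 0, (c, 0, 0)) = PP ψ ρ (a, 0, (c, 0, 0)) := by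
  conv_lhs => rw [← h.k3_PP ρ hψ hc a c hx]
  rw [← mul_assoc, ← map_mul, ← map_mul, ← map_mul, h.k3'_mul, map_one, map_one, map_one, one_mul]

theorem trace_H (h : F4 Q v w) (hψ : ψ ≠ 0) (hc : Cls ψ ρ 0) (k : Om Q)
    (hfix : ∀ {a b c d : F} {z : V}, (h.H k).1 (a, b, (c, d, z)) = (a, b, (c, d, z)) →
      b = 0 ∧ d = 0 ∧ z = 0)
    (hPP : ∀ a c : F, ((a, (0 : F), (c, (0 : F), (0 : V))) : F × F × (F × F × V)) ≠ 0 →
      ρ (l h.nd.hyp (l h.nd k)) * PP ψ ρ (a, 0, (c, 0, 0)) = PP ψ ρ (a, 0, (c, 0, 0)))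
    [DecidableEq F] [DecidableEq V] :
    LinearMap.trace ℂ W (ρ (l h.nd.hyp (h.H k))) =
      LinearMap.trace ℂ W (ρ (l h.nd.hyp (h.H k)) * PP ψ ρ 0) +
      ∑ x ∈ (Finset.univ : Finset (F × F × (F × F × V))).erase 0,
        (if x.2.1 = 0 ∧ x.2.2.2.1 = 0 ∧ x.2.2.2.2 = 0 then (1 : ℂ) else 0) := by
  rw [trace_l_split h.nd.hyp hψ ρ (ρ (l h.nd.hyp (h.H k))),
    ← Finset.add_sum_erase _ _ (Finset.mem_univ (0 : F × F × (F × F × V)))]
  congr 1
  refine Finset.sum_congr rfl (fun x hx => ?_)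
  have hx0 := Finset.ne_of_mem_erase hx
  obtain ⟨a, b, c, d, z⟩ := x
  by_cases hf : b = 0 ∧ d = 0 ∧ z = 0
  · rw [if_pos hf]
    obtain ⟨rfl, rfl, rfl⟩ := hf
    have h1 : mu ψ ρ ((a : F), (0 : F), ((c : F), (0 : F), (0 : V))) = 1 := by
      rw [hc _ hx0, if_pos (by rw [hyp_apply, hyp_apply]; simp)]
    have h2 : ρ (l h.nd.hyp (e (hyp Q) (e1 F V))) * PP ψ ρ (a, 0, (c, 0, 0)) =
        PP ψ ρ (a, 0, (c, 0, 0)) := by
      have : Nontrivial V := ⟨v, 0, h.v0⟩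
      refine root_PP h.nd hψ ρ h1 ?_ (Or.inr ?_)
      · rw [fix_iff]
        exact ⟨rfl, rfl⟩
      · have : hyp (hyp Q) ((a : F), (0 : F), ((c : F), (0 : F), (0 : V))) = 0 := by
          rw [hyp_apply, hyp_apply]; simp
        rw [this]
        exact h.Cc0
    have h3 : ρ (l h.nd.hyp (h.H k)) * PP ψ ρ (a, 0, (c, 0, 0)) = PP ψ ρ (a, 0, (c, 0, 0)) := by
      rw [H, map_mul, map_mul, mul_assoc]
      change _ * (ρ (l h.nd.hyp (e (hyp Q) (e1 F V))) * _) = _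
      rw [h2, hPP a c hx0]
    rw [h3, H44.TSys.trace_idem (PP_idem h.nd.hyp hψ ρ _), ← mu_eq, h1, Nat.cast_one]
  · rw [if_neg hf]
    exact trace_l_ne h.nd.hyp hψ ρ (k := h.H k) (fun h1 => hf (hfix h1))

end rep

theorem Z_trace (h : F4 Q v w) {ψ : AddChar F ℂ} (ρ : Representation ℂ (Om (hyp (hyp Q))) W)
    (hψ : ψ ≠ 0) (hc : Cls ψ ρ 0) :
    LinearMap.trace ℂ _ (Z h.nd.hyp ψ ρ (l h.nd h.k3 * e (hyp Q) (1, 0, 0))) =
      LinearMap.trace ℂ _ (Z h.nd.hyp ψ ρ (l h.nd h.k3' * e (hyp Q) (1, 0, 0))) := by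
  classical
  rw [trace_Z h.nd.hyp hψ, trace_Z h.nd.hyp hψ]
  have h1 := h.trace_H ρ hψ hc h.k3 h.H3_fix (h.k3_PP ρ hψ hc)
  have h2 := h.trace_H ρ hψ hc h.k3' h.H3'_fix (h.k3'_PP ρ hψ hc)
  obtain ⟨g, hg⟩ := h.conjH
  have h3 : LinearMap.trace ℂ W (ρ (l h.nd.hyp (h.H h.k3))) =
      LinearMap.trace ℂ W (ρ (l h.nd.hyp (h.H h.k3'))) := by
    have h4 : l h.nd.hyp (h.H h.k3') = g * l h.nd.hyp (h.H h.k3) * g⁻¹ := by
      rw [hg]; group
    rw [h4, map_mul, LinearMap.trace_mul_comm, ← map_mul, ← mul_assoc, inv_mul_cancel, one_mul]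
  rw [h1, h2] at h3
  exact add_right_cancel h3

end F4

end H44.OM
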