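import Cfsg.Agent.Lib.H44.OM2

/-! Multiplicities of the weights of a representation of `Om (hyp Q)`. -/

set_option autoImplicit false
set_option linter.unusedSectionVars false

namespace H44.OM

open Module QuadraticMap H7.Hyp H7.Omega H7.OmegaIso H7.HypStd

variable {F : Type*} [Field F] [Fintype F] {V : Type*} [AddCommGroup V] [Module F V] [Fintype V]
  {Q : QuadraticForm F V} {W : Type*} [AddCommGroup W] [Module ℂ W] [FiniteDimensional ℂ W]

/-- the multiplicity of the weight `y` -/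
noncomputable def mu (ψ : AddChar F ℂ) (ρ : Representation ℂ (Om Q) W) (y : V) : ℕ :=
  D ψ Q (fun w => ρ (e Q w)) y

theorem sum_mu (hQ : ND Q) {ψ : AddChar F ℂ} (hψ : ψ ≠ 0) (ρ : Representation ℂ (Om Q) W) :
    ∑ y, mu ψ ρ y = finrank ℂ W :=
  sum_D hQ hψ (addF ρ)

theorem rho_inv_mul {G : Type*} [Group G] (ρ : Representation ℂ G W) (g : G) :
    ρ g⁻¹ * ρ g = 1 := by
  rw [← map_mul, inv_mul_cancel, map_one]

theorem mu_norm (hQ : ND Q) (hu : Univ Q) {ψ : AddChar F ℂ} (hψ : ψ ≠ 0)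
    (ρ : Representation ℂ (Om (hyp Q)) W) {y z : F × F × V} (hy : y ≠ 0) (hz : z ≠ 0)
    (h : hyp Q y = hyp Q z) : mu ψ ρ y = mu ψ ρ z := by
  obtain ⟨k, hk, h1⟩ := trans_norm hQ hu hy hz h
  have h2 := D_conj (ψ := ψ) (R := hyp Q) hQ.hyp hψ (addF ρ) (U := ρ (l hQ ⟨k, hk⟩))
    (U' := ρ (l hQ ⟨k, hk⟩)⁻¹) (σ := k) (τ := k) (rho_inv_mul ρ _) k.bijective
    (fun w => by rw [← map_mul, l_e, map_mul]) (fun y w => map_O_polar (Om_le Q hk) y w) y
  rw [h1] at h2
  exact h2.symm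

theorem mu_scale (hQ : ND Q) (hu : Univ Q) {ψ : AddChar F ℂ} (hψ : ψ ≠ 0)
    (ρ : Representation ℂ (Om (hyp Q)) W) {y z : F × F × V} (hy : y ≠ 0) (hz : z ≠ 0) {a : F}
    (ha : a ≠ 0) (h : hyp Q z = a * a * hyp Q y) : mu ψ ρ y = mu ψ ρ z := by
  obtain ⟨g, hg, t, ht, hgt⟩ := exists_scale (univ_hyp Q) (inv_ne_zero ha)
  have h2 := D_conj (ψ := ψ) (R := hyp Q) hQ.hyp hψ (addF ρ) (U := ρ ⟨g, hg⟩)
    (U' := ρ (⟨g, hg⟩ : Om (hyp Q))⁻¹) (σ := fun w => a⁻¹ • t w) (τ := fun w => a • t w)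
    (rho_inv_mul ρ _)
    ⟨fun x y hxy => t.injective (smul_right_injective _ (inv_ne_zero ha) hxy), fun x => by
      obtain ⟨y, hy⟩ := t.surjective (a • x)
      exact ⟨y, by simp only; rw [hy, smul_smul, inv_mul_cancel₀ ha, one_smul]⟩⟩
    (fun w => by
      rw [← map_mul, ← map_mul]
      exact congrArg ρ (Subtype.ext (hgt w)))
    (fun y w => by
      rw [QuadraticMap.polar_smul_left, QuadraticMap.polar_smul_right, map_O_polar ht, smul_eq_mul,
        smul_eq_mul, ← mul_assoc, mul_inv_cancel₀ ha, one_mul]) y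
  have h3 : mu ψ ρ (a • t y) = mu ψ ρ z := by
    refine mu_norm hQ hu hψ ρ ?_ hz ?_
    · exact smul_ne_zero ha (by simpa using hy)
    · rw [Q_smul, ht, h]
  exact h2.symm.trans h3

/-! ### counting -/

open Classical in
/-- the nonzero vectors of norm `c` -/
noncomputable def Ob (Q : QuadraticForm F V) (c : F) : Finset V :=
  Finset.univ.filter (fun y => y ≠ 0 ∧ Q y = c)

omit [Fintype F] in
theorem mem_Ob {c : F} {y : V} : y ∈ Ob Q c ↔ y ≠ 0 ∧ Q y = c := by
  classical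
  simp [Ob]

omit [Fintype F] in
theorem card_Ob (c : F) [Decidable (c = 0)] :
    (Ob Q c).card + (if c = 0 then 1 else 0) = cnt Q c := by
  classical
  have h1 : cnt Q c = (Finset.univ.filter (fun y => Q y = c)).card := by
    rw [cnt, Nat.card_eq_fintype_card, Fintype.card_subtype]
  rw [h1]
  by_cases hc : c = 0
  · subst hc
    rw [if_pos rfl]
    have h2 : (Finset.univ.filter (fun y => Q y = 0)) = insert 0 (Ob Q 0) := by
      ext y
      rw [Finset.mem_insert, mem_Ob, Finset.mem_filter]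
      constructor
      · rintro ⟨_, h⟩
        by_cases hy : y = 0
        · exact Or.inl hy
        · exact Or.inr ⟨hy, h⟩
      · rintro (rfl | h)
        · exact ⟨Finset.mem_univ _, QuadraticMap.map_zero Q⟩
        · exact ⟨Finset.mem_univ _, h.2⟩
    rw [h2, Finset.card_insert_of_notMem]
    rw [mem_Ob]
    exact fun h => h.1 rfl
  · rw [if_neg hc, add_zero]
    congr 1
    ext y
    rw [mem_Ob, Finset.mem_filter]
    constructor
    · exact fun h => ⟨Finset.mem_univ _, h.2⟩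
    · rintro ⟨_, h⟩
      refine ⟨?_, h⟩
      rintro rfl
      rw [QuadraticMap.map_zero] at h
      exact hc h.symm

theorem cnt_hyp' (Q : QuadraticForm F V) (c : F) :
    cnt (hyp Q) c = Fintype.card F * cnt Q c + (Fintype.card F - 1) * Fintype.card V := by
  rw [cnt_hyp, Nat.card_eq_fintype_card, Nat.card_eq_fintype_card]

theorem cnt_hyp2 (Q : QuadraticForm F V) (c : F) :
    cnt (hyp (hyp Q)) c = Fintype.card F ^ 2 * cnt Q c +
      (Fintype.card F ^ 3 - Fintype.card F) * Fintype.card V := by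
  rw [cnt_hyp', cnt_hyp', Fintype.card_prod, Fintype.card_prod]
  obtain ⟨r, hr⟩ : ∃ r, Fintype.card F = r + 1 := ⟨Fintype.card F - 1, by
    have := Fintype.card_pos (α := F); omega⟩
  rw [hr]
  have h1 : (r + 1) ^ 3 - (r + 1) = (r + 1) * (r + 2) * r := by
    have : (r + 1) ^ 3 = (r + 1) * (r + 2) * r + (r + 1) := by ring
    omega
  rw [h1, Nat.add_sub_cancel]
  ring

theorem card_Ob_ge (Q : QuadraticForm F V) (c : F) :
    (Fintype.card F ^ 3 - Fintype.card F) * Fintype.card V ≤ (Ob (hyp (hyp Q)) c).card := by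
  classical
  have h1 := card_Ob (Q := hyp (hyp Q)) c
  rw [cnt_hyp2] at h1
  by_cases hc : c = 0
  · rw [if_pos hc] at h1
    have h2 : 1 ≤ cnt Q c := by
      subst hc
      rw [← card_Ob, if_pos rfl]
      omega
    have h3 : 1 ≤ Fintype.card F ^ 2 * cnt Q c :=
      Nat.one_le_iff_ne_zero.mpr (Nat.mul_ne_zero (pow_ne_zero _ Fintype.card_ne_zero) (by omega))
    omega
  · rw [if_neg hc] at h1
    omega

/-! ### the class of the weights -/

theorem exists_weight (hQ : ND Q) [Nontrivial V] {ψ : AddChar F ℂ} (hψ : ψ ≠ 0)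
    (ρ : Representation ℂ (Om Q) W) (h : ∃ g, ρ g ≠ 1) : ∃ y, y ≠ 0 ∧ mu ψ ρ y ≠ 0 := by
  by_contra hcon
  push Not at hcon
  obtain ⟨g, hg⟩ := h
  apply hg
  apply triv_of hQ
  intro w
  have h1 := A_eq hQ hψ (addF ρ) w
  have h2 := sum_P hQ hψ (addF ρ)
  have h3 : ∀ y : V, y ≠ 0 → P ψ Q (fun w => ρ (e Q w)) y = 0 := fun y hy =>
    (D_eq_zero_iff (ψ := ψ) y).mp (hcon y hy)
  rw [Finset.sum_eq_single 0 (fun y _ hy => h3 y hy) (fun h => absurd (Finset.mem_univ _) h)] at h2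
  rw [h1, Finset.sum_eq_single 0 (fun y _ hy => by rw [h3 y hy, smul_zero])
    (fun h => absurd (Finset.mem_univ _) h), h2]
  simp

section

variable {ψ : AddChar F ℂ} (ρ : Representation ℂ (Om (hyp (hyp Q))) W)

theorem mul_card_le (hQ : ND Q) (hψ : ψ ≠ 0) {y : F × F × (F × F × V)} (hy : y ≠ 0) :
    mu ψ ρ y * (Ob (hyp (hyp Q)) (hyp (hyp Q) y)).card ≤ finrank ℂ W := by
  rw [← sum_mu hQ.hyp.hyp hψ ρ, mul_comm, ← smul_eq_mul, ← Finset.sum_const]
  calc ∑ x ∈ Ob (hyp (hyp Q)) (hyp (hyp Q) y), mu ψ ρ y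
      = ∑ x ∈ Ob (hyp (hyp Q)) (hyp (hyp Q) y), mu ψ ρ x := by
        refine Finset.sum_congr rfl (fun x hx => ?_)
        rw [mem_Ob] at hx
        exact mu_norm hQ.hyp (univ_hyp Q) hψ ρ hy hx.1 hx.2.symm
    _ ≤ ∑ x, mu ψ ρ x := Finset.sum_le_sum_of_subset (Finset.subset_univ _)

theorem unique_class (hQ : ND Q) (hψ : ψ ≠ 0)
    (hk : finrank ℂ W < 2 * ((Fintype.card F ^ 3 - Fintype.card F) * Fintype.card V))
    {y0 : F × F × (F × F × V)} (hy0 : y0 ≠ 0) (h0 : mu ψ ρ y0 ≠ 0) {y : F × F × (F × F × V)}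
    (hy : y ≠ 0) [Decidable (hyp (hyp Q) y = hyp (hyp Q) y0)] :
    mu ψ ρ y = if hyp (hyp Q) y = hyp (hyp Q) y0 then 1 else 0 := by
  have h1 := mul_card_le ρ hQ hψ hy0
  have h2 := card_Ob_ge Q (hyp (hyp Q) y0)
  have h3 : mu ψ ρ y0 = 1 := by
    by_contra hcon
    have h4 : 2 ≤ mu ψ ρ y0 := by omega
    have h5 := Nat.mul_le_mul h4 h2
    omega
  by_cases h : hyp (hyp Q) y = hyp (hyp Q) y0
  · rw [if_pos h, mu_norm hQ.hyp (univ_hyp Q) hψ ρ hy hy0 h, h3]
  · rw [if_neg h]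
    by_contra hcon
    have h6 := card_Ob_ge Q (hyp (hyp Q) y)
    have h7 : (Ob (hyp (hyp Q)) (hyp (hyp Q) y)).card +
        (Ob (hyp (hyp Q)) (hyp (hyp Q) y0)).card ≤ finrank ℂ W := by
      classical
      have hd : Disjoint (Ob (hyp (hyp Q)) (hyp (hyp Q) y))
          (Ob (hyp (hyp Q)) (hyp (hyp Q) y0)) := by
        rw [Finset.disjoint_left]
        intro x hx hx'
        rw [mem_Ob] at hx hx'
        exact h (hx.2.symm.trans hx'.2)
      rw [← Finset.card_union_of_disjoint hd, ← sum_mu hQ.hyp.hyp hψ ρ, Finset.card_eq_sum_ones]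
      refine (Finset.sum_le_sum (fun x hx => ?_)).trans
        (Finset.sum_le_sum_of_subset (Finset.subset_univ _))
      rw [Finset.mem_union, mem_Ob, mem_Ob] at hx
      rcases hx with hx | hx
      · rw [← mu_norm hQ.hyp (univ_hyp Q) hψ ρ hy hx.1 hx.2.symm]
        omega
      · rw [← mu_norm hQ.hyp (univ_hyp Q) hψ ρ hy0 hx.1 hx.2.symm]
        omega
    omega

/-- if there is an element of square different from one, the weights are singular -/
theorem class_zero (hQ : ND Q) (hψ : ψ ≠ 0)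
    (hk : finrank ℂ W < 2 * ((Fintype.card F ^ 3 - Fintype.card F) * Fintype.card V))
    {y0 : F × F × (F × F × V)} (hy0 : y0 ≠ 0) (h0 : mu ψ ρ y0 ≠ 0)
    (ha : ∃ a : F, a ≠ 0 ∧ a * a ≠ 1) : hyp (hyp Q) y0 = 0 := by
  classical
  by_contra hc
  obtain ⟨a, ha0, ha1⟩ := ha
  set z : F × F × (F × F × V) := (a * a * hyp (hyp Q) y0, 1, 0) with hz
  have hz0 : z ≠ 0 := by
    intro h
    have := congrArg (fun p : F × F × (F × F × V) => p.2.1) h
    simp [hz] at this
  have hz1 : hyp (hyp Q) z = a * a * hyp (hyp Q) y0 := by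
    rw [hz, hyp_apply]
    simp
  have h1 := mu_scale hQ.hyp (univ_hyp Q) hψ ρ hy0 hz0 ha0 hz1
  have h2 := unique_class ρ hQ hψ hk hy0 h0 hz0
  rw [if_neg] at h2
  · rw [h2] at h1
    exact h0 h1
  · rw [hz1]
    intro h3
    apply ha1
    have h4 : (a * a - 1) * hyp (hyp Q) y0 = 0 := by linear_combination h3
    rcases mul_eq_zero.mp h4 with h5 | h5
    · linear_combination h5
    · exact absurd h5 hc

end

end H44.OM
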