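import Cfsg.Agent.Lib.H44.OM3

/-! Root elements fixing a vector are commutators in its stabiliser; conjugacy of the two root
elements; character sums. -/

set_option autoImplicit false
set_option linter.unusedSectionVars false

namespace H44.OM

open Module QuadraticMap H7.Hyp H7.Omega H7.OmegaIso H7.HypStd

section group

variable {F : Type*} [Field F] {V : Type*} [AddCommGroup V] [Module F V] {Q : QuadraticForm F V}

/-- enough room in the perp of a vector of norm `c` -/
def Cc (Q : QuadraticForm F V) (c : F) : Prop :=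
  ∀ v, v ≠ 0 → Q v = c → ∃ u z, polar Q v u = 0 ∧ polar Q v z = 0 ∧ polar Q u z ≠ 0

/-- the conclusion -/
def CF (Q : QuadraticForm F V) (y : F × F × (F × F × V)) : Prop :=
  ∃ k1 ∈ Om (hyp Q), ∃ k2 ∈ Om (hyp Q), k1 y = y ∧ k2 y = y ∧
    k1 * k2 = E (hyp Q) (e1 F V) * (k2 * k1)

theorem CF_conj {y : F × F × (F × F × V)} {t : (F × F × (F × F × V)) ≃ₗ[F] (F × F × (F × F × V))}
    (ht : t ∈ Om (hyp Q)) (hc : t * E (hyp Q) (e1 F V) = E (hyp Q) (e1 F V) * t)
    (h : CF Q (t y)) : CF Q y := by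
  obtain ⟨k1, hk1, k2, hk2, h1, h2, h3⟩ := h
  refine ⟨t⁻¹ * k1 * t, (Om _).mul_mem ((Om _).mul_mem ((Om _).inv_mem ht) hk1) ht,
    t⁻¹ * k2 * t, (Om _).mul_mem ((Om _).mul_mem ((Om _).inv_mem ht) hk2) ht, ?_, ?_, ?_⟩
  · rw [LinearEquiv.mul_apply, LinearEquiv.mul_apply, h1, ← LinearEquiv.mul_apply, inv_mul_cancel]
    rfl
  · rw [LinearEquiv.mul_apply, LinearEquiv.mul_apply, h2, ← LinearEquiv.mul_apply, inv_mul_cancel]
    rfl
  · have h4 : t⁻¹ * E (hyp Q) (e1 F V) = E (hyp Q) (e1 F V) * t⁻¹ := by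
      rw [inv_mul_eq_iff_eq_mul, ← mul_assoc, hc, mul_inv_cancel_right]
    calc t⁻¹ * k1 * t * (t⁻¹ * k2 * t) = t⁻¹ * (k1 * k2) * t := by group
      _ = (t⁻¹ * E (hyp Q) (e1 F V)) * (k2 * k1) * t := by rw [h3]; group
      _ = _ := by rw [h4]; group

theorem CF_basic (hQ : ND Q) {y : F × F × (F × F × V)} {u z : V} (h : polar Q u z = -1)
    (h1 : emb (E Q z) y = y) (h2 : E (hyp Q) (0, 0, u) y = y) : CF Q y := by
  refine ⟨emb (E Q z), emb_Om hQ (E_mem_Om Q z), E (hyp Q) (0, 0, u), E_mem_Om _ _, h1, h2, ?_⟩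
  have h3 := emb_E (Q := hyp Q) (E_mem Q z) (0, 0, u)
  rw [mul_inv_eq_iff_eq_mul] at h3
  rw [h3, ← mul_assoc, E_mul]
  congr 2
  rw [E_apply, h, e1]
  simp

theorem exists_polar_neg_one {u z : V} (h : polar Q u z ≠ 0) :
    ∃ a : F, polar Q u (a • z) = -1 := by
  refine ⟨-(polar Q u z)⁻¹, ?_⟩
  rw [QuadraticMap.polar_smul_right, smul_eq_mul, neg_mul, inv_mul_cancel₀ h]

theorem commF (hQ : ND Q) [Nontrivial V] {y : F × F × (F × F × V)}
    (hr : E (hyp Q) (e1 F V) y = y)
    (hC : (∃ a : Fˣ, a * a ≠ 1) ∨ Cc Q (hyp (hyp Q) y)) : CF Q y := by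
  obtain ⟨a, b, x, t, v⟩ := y
  rw [E_apply] at hr
  have hb : b = 0 := by
    have h1 := congrArg (fun p : F × F × (F × F × V) => p.2.2.1) hr
    simp only [e1] at h1
    simpa using h1
  subst hb
  have ht : t = 0 := by
    have h1 := congrArg (fun p : F × F × (F × F × V) => p.1) hr
    simp only [mul_zero, sub_zero] at h1
    rw [polar_hyp, e1] at h1
    simpa using h1
  subst ht
  obtain ⟨v1, hv1⟩ := exists_ne (0 : V)
  obtain ⟨u0, hu0⟩ : ∃ w, polar Q v1 w ≠ 0 := by
    by_contra hcon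
    push Not at hcon
    exact hv1 (hQ v1 hcon)
  obtain ⟨s, hs⟩ := exists_polar_neg_one hu0
  by_cases hv : (x, (0 : F), v) = 0
  · rw [hv]
    refine CF_basic hQ hs ?_ ?_
    · rw [emb_apply, map_zero]
    · rw [E_apply]; simp
  · -- kill the first coordinate
    obtain ⟨w, hw⟩ : ∃ w, polar (hyp Q) (x, 0, v) w = a := by
      obtain ⟨w, hw⟩ : ∃ w, polar (hyp Q) (x, 0, v) w ≠ 0 := by
        by_contra hcon
        push Not at hcon
        exact hv (hQ.hyp _ hcon)
      refine ⟨(a / polar (hyp Q) (x, 0, v) w) • w, ?_⟩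
      rw [QuadraticMap.polar_smul_right, smul_eq_mul, div_mul_cancel₀ _ hw]
    refine CF_conj (t := E (hyp Q) w) (E_mem_Om _ _) (by rw [E_mul, E_mul, add_comm]) ?_
    rw [E_apply, hw]
    simp only [mul_zero, sub_zero, sub_self, zero_smul, add_zero]
    rcases hC with ⟨c, hc⟩ | hC
    · -- the torus element
      have hc1 : ((c : F) * c - 1) ≠ 0 := by
        intro h
        apply hc
        apply Units.ext
        push_cast
        linear_combination h
      refine ⟨T (c * c), T_sq_mem hQ.hyp c, E (hyp Q) (((c : F) * c - 1)⁻¹ • e1 F V),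
        E_mem_Om _ _, ?_, ?_, ?_⟩
      · rw [T_apply]; simp
      · rw [E_apply, QuadraticMap.polar_smul_right, polar_hyp, e1]; simp
      · have h3 := T_E (hyp Q) (c * c) (((c : F) * c - 1)⁻¹ • e1 F V)
        rw [mul_inv_eq_iff_eq_mul] at h3
        rw [h3, ← mul_assoc, E_mul]
        congr 2
        rw [smul_smul]
        have h4 : ((c * c : Fˣ) : F) * ((c : F) * c - 1)⁻¹ = 1 + ((c : F) * c - 1)⁻¹ := by
          have h5 : ((c * c : Fˣ) : F) = ((c : F) * c - 1) + 1 := by push_cast; ring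
          rw [h5, add_mul, mul_inv_cancel₀ hc1, one_mul]
        rw [h4, add_smul, one_smul]
    · by_cases hv2 : v = 0
      · subst hv2
        refine CF_basic hQ hs ?_ ?_
        · rw [emb_apply, E_apply]; simp
        · rw [E_apply, polar_hyp]; simp
      · obtain ⟨z0, hz0⟩ : ∃ w, polar Q v w = x := by
          obtain ⟨w, hw⟩ : ∃ w, polar Q v w ≠ 0 := by
            by_contra hcon
            push Not at hcon
            exact hv2 (hQ _ hcon)
          refine ⟨(x / polar Q v w) • w, ?_⟩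
          rw [QuadraticMap.polar_smul_right, smul_eq_mul, div_mul_cancel₀ _ hw]
        refine CF_conj (t := emb (E Q z0)) (emb_Om hQ (E_mem_Om Q z0)) ?_ ?_
        · have h3 := emb_E (Q := hyp Q) (E_mem Q z0) (e1 F V)
          rw [mul_inv_eq_iff_eq_mul, E_e1] at h3
          exact h3
        · rw [emb_apply, E_apply, hz0]
          simp only [mul_zero, sub_zero, sub_self, zero_smul, add_zero]
          obtain ⟨u, z, h1, h2, h3⟩ := hC v hv2 (by simp)
          obtain ⟨s', hs'⟩ := exists_polar_neg_one h3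
          refine CF_basic hQ hs' ?_ ?_
          · rw [emb_apply, E_apply, QuadraticMap.polar_smul_right, h2]; simp
          · rw [E_apply, polar_hyp]
            simp only [h1]
            simp

/-- the two root elements are conjugate -/
theorem root_conj (hQ : ND Q) : ∃ g : Om (hyp Q), ∀ w : V,
    g * e (hyp Q) (0, 0, w) = l hQ (e Q w) * g := by
  refine ⟨⟨E (hyp Q) (e2 F V) * E' (hyp Q) (e1 F V), (Om _).mul_mem (E_mem_Om _ _)
    (E'_mem_Om _ _)⟩, fun w => ?_⟩
  apply Subtype.ext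
  apply LinearEquiv.ext
  rintro ⟨x, y, a, b, v⟩
  change E (hyp Q) (e2 F V) (E' (hyp Q) (e1 F V) (E (hyp Q) (0, 0, w) (x, y, a, b, v))) =
    emb (E Q w) (E (hyp Q) (e2 F V) (E' (hyp Q) (e1 F V) (x, y, a, b, v)))
  simp only [E_apply, E'_apply, emb_apply, e1, e2, polar_hyp, hyp_apply, Prod.mk_add_mk,
    Prod.smul_mk, smul_eq_mul, QuadraticMap.map_zero, smul_zero, add_zero,
    QuadraticMap.polar_zero_right]
  refine Prod.ext ?_ (Prod.ext ?_ (Prod.ext ?_ (Prod.ext ?_ ?_)))
  · simp only; ring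
  · simp only; ring
  · simp only; ring
  · simp only; ring
  · simp

end group

end H44.OM
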