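import Cfsg.Agent.Lib.H44.OM4

/-! Character sums over the vectors of given norm, and fixed vectors of a root element. -/

set_option autoImplicit false
set_option linter.unusedSectionVars false

namespace H44.OM

open Module QuadraticMap H7.Hyp H7.Omega H7.OmegaIso H7.HypStd

variable {F : Type*} [Field F] [Fintype F] {V : Type*} [AddCommGroup V] [Module F V] [Fintype V]
  {Q : QuadraticForm F V}

theorem inner [DecidableEq F] {ψ : AddChar F ℂ} (hψ : ψ ≠ 0) (d : F) :
    ∑ t : F, ∑ x : F, (if x * t = d then ψ t else 0) =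
      (Fintype.card F : ℂ) * (if d = 0 then 1 else 0) - 1 := by
  have h1 : ∀ t : F, t ≠ 0 → ∑ x : F, (if x * t = d then ψ t else 0) = ψ t := by
    intro t ht
    rw [Finset.sum_eq_single (d / t)]
    · rw [div_mul_cancel₀ _ ht, if_pos rfl]
    · intro x _ hx
      rw [if_neg]
      intro h
      exact hx (by rw [← h, mul_div_cancel_right₀ _ ht])
    · intro h; exact absurd (Finset.mem_univ _) h
  have h2 : ∑ x : F, (if x * 0 = d then ψ 0 else 0) =
      (Fintype.card F : ℂ) * (if d = 0 then 1 else 0) := by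
    simp only [mul_zero]
    by_cases hd : d = 0
    · subst hd; simp
    · rw [if_neg hd, mul_zero]
      refine Finset.sum_eq_zero (fun x _ => ?_)
      rw [if_neg (Ne.symm hd)]
  have h3 : ∑ t : F, ψ t = 0 := AddChar.sum_eq_zero_iff_ne_zero.mpr hψ
  rw [← Finset.add_sum_erase _ _ (Finset.mem_univ (0 : F)), h2]
  rw [← Finset.add_sum_erase _ _ (Finset.mem_univ (0 : F)), AddChar.map_zero_eq_one] at h3
  rw [Finset.sum_congr rfl (fun t ht => h1 t (Finset.ne_of_mem_erase ht))]
  linear_combination h3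

theorem cnt_eq_sum [DecidableEq F] (Q : QuadraticForm F V) (c : F) :
    (cnt Q c : ℂ) = ∑ v : V, (if Q v = c then 1 else 0) := by
  rw [cnt, Nat.card_eq_fintype_card, Fintype.card_subtype, Finset.sum_boole]

theorem sumS [DecidableEq F] {ψ : AddChar F ℂ} (hψ : ψ ≠ 0) (c : F) :
    ∑ y : F × F × (F × F × V), (if hyp (hyp Q) y = c then ψ y.2.2.2.1 else 0) =
      (Fintype.card F : ℂ) * cnt (hyp Q) c - (Fintype.card F : ℂ) ^ 2 * Fintype.card V := by
  let ε : F × F × (F × F × V) ≃ (F × F × V) × (F × F) :=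
    { toFun := fun y => ((y.1, y.2.1, y.2.2.2.2), (y.2.2.2.1, y.2.2.1))
      invFun := fun p => (p.1.1, p.1.2.1, (p.2.2, p.2.1, p.1.2.2))
      left_inv := fun _ => rfl
      right_inv := fun _ => rfl }
  rw [Fintype.sum_equiv ε _ (fun p => if p.2.2 * p.2.1 = c - hyp Q p.1 then ψ p.2.1 else 0),
    Fintype.sum_prod_type]
  · have h1 : ∀ p : F × F × V, ∑ x : F × F, (if x.2 * x.1 = c - hyp Q p then ψ x.1 else 0) =
        (Fintype.card F : ℂ) * (if hyp Q p = c then 1 else 0) - 1 := by
      intro p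
      rw [Fintype.sum_prod_type, inner hψ]
      have h2 : (c - hyp Q p = 0) ↔ (hyp Q p = c) := by
        rw [sub_eq_zero]; exact eq_comm
      simp only [h2]
    rw [Finset.sum_congr rfl (fun p _ => h1 p), Finset.sum_sub_distrib, ← Finset.mul_sum,
      ← cnt_eq_sum, Finset.sum_const, Finset.card_univ, Fintype.card_prod, Fintype.card_prod,
      nsmul_eq_mul]
    push_cast
    ring
  · rintro ⟨a, b, x, t, v⟩
    simp only [ε, Equiv.coe_fn_mk, hyp_apply]
    congr 1
    refine propext ⟨fun h => ?_, fun h => ?_⟩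
    · linear_combination h
    · linear_combination h

theorem polar_e1 (y : F × F × (F × F × V)) :
    polar (hyp (hyp Q)) y (0, 0, e1 F V) = y.2.2.2.1 := by
  rw [polar_hyp, polar_hyp, e1]
  simp

theorem fix_iff (y : F × F × (F × F × V)) : E (hyp Q) (e1 F V) y = y ↔
    y.2.1 = 0 ∧ y.2.2.2.1 = 0 := by
  obtain ⟨a, b, x, t, v⟩ := y
  rw [E_apply, polar_hyp]
  simp [e1]
  tauto

theorem cardFix [DecidableEq F] (c : F) :
    ∑ y : F × F × (F × F × V), (if hyp (hyp Q) y = c ∧ y.2.1 = 0 ∧ y.2.2.2.1 = 0 then (1 : ℂ) else 0) =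
      (Fintype.card F : ℂ) ^ 2 * cnt Q c := by
  let ε : F × F × (F × F × V) ≃ V × ((F × F) × (F × F)) :=
    { toFun := fun y => (y.2.2.2.2, ((y.1, y.2.2.1), (y.2.1, y.2.2.2.1)))
      invFun := fun p => (p.2.1.1, p.2.2.1, (p.2.1.2, p.2.2.2, p.1))
      left_inv := fun _ => rfl
      right_inv := fun _ => rfl }
  rw [Fintype.sum_equiv ε _ (fun p => if Q p.1 = c ∧ p.2.2 = 0 then (1 : ℂ) else 0),
    Fintype.sum_prod_type]
  · have h1 : ∀ v : V, ∑ x : (F × F) × (F × F), (if Q v = c ∧ x.2 = 0 then (1 : ℂ) else 0) =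
        (Fintype.card F : ℂ) ^ 2 * (if Q v = c then 1 else 0) := by
      intro v
      rw [Fintype.sum_prod_type]
      have h2 : ∀ x : F × F, ∑ z : F × F, (if Q v = c ∧ z = 0 then (1 : ℂ) else 0) =
          (if Q v = c then 1 else 0) := by
        intro _
        rw [Finset.sum_eq_single (0 : F × F)]
        · simp
        · intro z _ hz
          rw [if_neg]
          tauto
        · intro h; exact absurd (Finset.mem_univ _) h
      rw [Finset.sum_congr rfl (fun x _ => h2 x), Finset.sum_const, Finset.card_univ,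
        Fintype.card_prod, nsmul_eq_mul]
      push_cast
      ring
    rw [Finset.sum_congr rfl (fun v _ => h1 v), ← Finset.mul_sum, ← cnt_eq_sum]
  · rintro ⟨a, b, x, t, v⟩
    simp only [ε, Equiv.coe_fn_mk, hyp_apply, Prod.mk_eq_zero]
    congr 1
    refine propext ⟨?_, ?_⟩
    · rintro ⟨h1, h2, h3⟩
      refine ⟨?_, h2, h3⟩
      rw [h2, h3] at h1
      linear_combination h1
    · rintro ⟨h1, h2, h3⟩
      refine ⟨?_, h2, h3⟩
      rw [h2, h3]
      linear_combination h1

theorem sum_diff [DecidableEq F] {ψ : AddChar F ℂ} (hψ : ψ ≠ 0) (c : F) :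
    ∑ y : F × F × (F × F × V), (if hyp (hyp Q) y = c then ψ y.2.2.2.1 else 0) -
    ∑ y : F × F × (F × F × V), (if hyp (hyp Q) y = c ∧ y.2.1 = 0 ∧ y.2.2.2.1 = 0 then (1 : ℂ) else 0)
      = - ((Fintype.card F : ℂ) * Fintype.card V) := by
  rw [sumS hψ, cardFix, cnt_hyp']
  have h : 1 ≤ Fintype.card F := Fintype.card_pos
  push_cast [Nat.cast_sub h]
  ring

end H44.OM
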