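import Cfsg.Agent.Lib.H44.OM5

/-! The trace identity, and the action on the zero weight space. -/

set_option autoImplicit false
set_option linter.unusedSectionVars false

namespace H44.OM

open Module QuadraticMap H7.Hyp H7.Omega H7.OmegaIso H7.HypStd

section rank1

variable {W : Type*} [AddCommGroup W] [Module ℂ W] {G : Type*} [Group G]
  (ρ : Representation ℂ G W)

theorem eig {P : Module.End ℂ W} (hP : P * P = P) (h1 : finrank ℂ (LinearMap.range P) = 1)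
    {U : Module.End ℂ W} (hU : U * P = P * U) : ∃ c : ℂ, U * P = c • P := by
  obtain ⟨⟨v, hv⟩, hv0, hall⟩ := finrank_eq_one_iff'.mp h1
  have hPv : P v = v := by
    obtain ⟨w, rfl⟩ := hv
    rw [← Module.End.mul_apply, hP]
  obtain ⟨c, hc⟩ := hall ⟨U v, ⟨U v, by
    rw [← Module.End.mul_apply, ← hU, Module.End.mul_apply, hPv]⟩⟩
  have hc' : c • v = U v := congrArg Subtype.val hc
  refine ⟨c, LinearMap.ext fun w => ?_⟩
  obtain ⟨d, hd⟩ := hall ⟨P w, ⟨w, rfl⟩⟩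
  have hd' : d • v = P w := congrArg Subtype.val hd
  rw [Module.End.mul_apply, LinearMap.smul_apply, ← hd', map_smul, ← hc', smul_comm]

theorem comm_P {P : Module.End ℂ W} (hP : P * P = P) (h1 : finrank ℂ (LinearMap.range P) = 1)
    {g1 g2 t : G} (c1 : ρ g1 * P = P * ρ g1) (c2 : ρ g2 * P = P * ρ g2)
    (h : g1 * g2 = t * (g2 * g1)) : ρ t * P = P := by
  obtain ⟨a, ha⟩ := eig hP h1 c1
  obtain ⟨b, hb⟩ := eig hP h1 c2
  have hP0 : P ≠ 0 := by
    rintro rfl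
    rw [LinearMap.range_zero, finrank_bot] at h1
    exact zero_ne_one h1
  have h2 : ρ (g1 * g2) * P = (a * b) • P := by
    rw [map_mul, mul_assoc, hb, mul_smul_comm, ha, smul_smul, mul_comm]
  have h3 : ρ (g2 * g1) * P = (a * b) • P := by
    rw [map_mul, mul_assoc, ha, mul_smul_comm, hb, smul_smul]
  have hab : a * b ≠ 0 := by
    intro h0
    rw [h0, zero_smul] at h2
    apply hP0
    have : ρ (g1 * g2)⁻¹ * (ρ (g1 * g2) * P) = P := by
      rw [← mul_assoc, ← map_mul, inv_mul_cancel, map_one, one_mul]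
    rw [← this, h2, mul_zero]
  rw [h, map_mul, mul_assoc, h3, mul_smul_comm] at h2
  exact smul_right_injective _ hab h2

end rank1

variable {F : Type*} [Field F] [Fintype F] {V : Type*} [AddCommGroup V] [Module F V] [Fintype V]
  {Q : QuadraticForm F V} {W : Type*} [AddCommGroup W] [Module ℂ W] [FiniteDimensional ℂ W]

/-- the projection in a representation of `Om (hyp Q)` -/
noncomputable def PP (ψ : AddChar F ℂ) (ρ : Representation ℂ (Om (hyp Q)) W) (y : F × F × V) :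
    Module.End ℂ W := P ψ (hyp Q) (fun w => ρ (e (hyp Q) w)) y

theorem mu_eq {ψ : AddChar F ℂ} (ρ : Representation ℂ (Om (hyp Q)) W) (y : F × F × V) :
    mu ψ ρ y = finrank ℂ (LinearMap.range (PP ψ ρ y)) := rfl

theorem PP_idem (hQ : ND Q) {ψ : AddChar F ℂ} (hψ : ψ ≠ 0) (ρ : Representation ℂ (Om (hyp Q)) W)
    (y : F × F × V) : PP ψ ρ y * PP ψ ρ y = PP ψ ρ y := P_idem hQ.hyp hψ (addF ρ) y

theorem l_PP (hQ : ND Q) {ψ : AddChar F ℂ} (ρ : Representation ℂ (Om (hyp Q)) W)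
    (k : Om Q) (y : F × F × V) : ρ (l hQ k) * PP ψ ρ y = PP ψ ρ (k.1 y) * ρ (l hQ k) :=
  P_conj (ψ := ψ) (σ := k.1) (τ := k.1) k.1.bijective
    (fun w => by rw [← map_mul, l_e, map_mul]) (fun y w => map_O_polar (Om_le Q k.2) y w) y

theorem trace_l_ne (hQ : ND Q) {ψ : AddChar F ℂ} (hψ : ψ ≠ 0)
    (ρ : Representation ℂ (Om (hyp Q)) W) {k : Om Q} {y : F × F × V} (hy : k.1 y ≠ y) :
    LinearMap.trace ℂ W (ρ (l hQ k) * PP ψ ρ y) = 0 :=
  trace_perm_ne (ψ := ψ) hQ.hyp hψ (addF ρ) (σ := k.1) (τ := k.1) k.1.bijective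
    (fun w => by rw [← map_mul, l_e, map_mul]) (fun y w => map_O_polar (Om_le Q k.2) y w) hy

theorem trace_l_split (hQ : ND Q) {ψ : AddChar F ℂ} (hψ : ψ ≠ 0)
    (ρ : Representation ℂ (Om (hyp Q)) W) (U : Module.End ℂ W) :
    LinearMap.trace ℂ W U = ∑ y, LinearMap.trace ℂ W (U * PP ψ ρ y) :=
  trace_split hQ.hyp hψ (addF ρ) U

/-- the root element of the Levi subgroup acts trivially on the multiplicity one weight spaces
it normalises -/
theorem root_PP (hQ : ND Q) [Nontrivial V] {ψ : AddChar F ℂ} (hψ : ψ ≠ 0)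
    (ρ : Representation ℂ (Om (hyp (hyp Q))) W) {y : F × F × (F × F × V)}
    (h1 : mu ψ ρ y = 1) (hr : E (hyp Q) (e1 F V) y = y)
    (hC : (∃ a : Fˣ, a * a ≠ 1) ∨ Cc Q (hyp (hyp Q) y)) :
    ρ (l hQ.hyp (e (hyp Q) (e1 F V))) * PP ψ ρ y = PP ψ ρ y := by
  obtain ⟨k1, hk1, k2, hk2, h2, h3, h4⟩ := commF hQ hr hC
  refine comm_P ρ (PP_idem hQ.hyp hψ ρ y) h1 (g1 := l hQ.hyp ⟨k1, hk1⟩) (g2 := l hQ.hyp ⟨k2, hk2⟩)
    ?_ ?_ ?_
  · rw [l_PP, h2]
  · rw [l_PP, h3]
  · rw [← map_mul, ← map_mul, ← map_mul]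
    congr 1
    exact Subtype.ext h4

theorem trace_root (hQ : ND Q) (ρ : Representation ℂ (Om (hyp Q)) W) (w : V) :
    LinearMap.trace ℂ W (ρ (e (hyp Q) (0, 0, w))) = LinearMap.trace ℂ W (ρ (l hQ (e Q w))) := by
  obtain ⟨g, hg⟩ := root_conj hQ
  have h1 : l hQ (e Q w) = g * e (hyp Q) (0, 0, w) * g⁻¹ := by
    rw [hg w]; group
  rw [h1, map_mul, LinearMap.trace_mul_comm, ← map_mul, inv_mul_cancel_left]

section main

variable {ψ : AddChar F ℂ} (ρ : Representation ℂ (Om (hyp (hyp Q))) W)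

/-- all nonzero weights have norm `c` and multiplicity one -/
def Cls (ψ : AddChar F ℂ) (ρ : Representation ℂ (Om (hyp (hyp Q))) W) (c : F) : Prop :=
  ∀ y, y ≠ 0 → mu ψ ρ y = open Classical in if hyp (hyp Q) y = c then 1 else 0

theorem trace_e_cls (hQ : ND Q) (hψ : ψ ≠ 0) {c : F} (hc : Cls ψ ρ c) [DecidableEq F] :
    LinearMap.trace ℂ W (ρ (e (hyp (hyp Q)) (0, 0, e1 F V))) + (if c = 0 then 1 else 0) =
      mu ψ ρ 0 + ∑ y : F × F × (F × F × V), (if hyp (hyp Q) y = c then ψ y.2.2.2.1 else 0) := by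
  haveI : DecidableEq (F × F × (F × F × V)) := Classical.decEq _
  have h1 := trace_A (ψ := ψ) hQ.hyp.hyp hψ (addF ρ) (0, 0, e1 F V)
  rw [h1, ← Finset.add_sum_erase _ _ (Finset.mem_univ (0 : F × F × (F × F × V))),
    ← Finset.add_sum_erase (Finset.univ : Finset (F × F × (F × F × V)))
      (fun y => if hyp (hyp Q) y = c then ψ y.2.2.2.1 else 0)
      (Finset.mem_univ (0 : F × F × (F × F × V)))]
  have h2 : ∑ y ∈ (Finset.univ : Finset (F × F × (F × F × V))).erase 0,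
      ψ (polar (hyp (hyp Q)) y (0, 0, e1 F V)) *
        (D ψ (hyp (hyp Q)) (fun w => ρ (e (hyp (hyp Q)) w)) y : ℂ) =
      ∑ y ∈ (Finset.univ : Finset (F × F × (F × F × V))).erase 0,
        (if hyp (hyp Q) y = c then ψ y.2.2.2.1 else 0) := by
    refine Finset.sum_congr rfl (fun y hy => ?_)
    have h3 := hc y (Finset.ne_of_mem_erase hy)
    rw [mu] at h3
    rw [h3, polar_e1]
    split_ifs <;> simp
  rw [h2, QuadraticMap.polar_zero_left, AddChar.map_zero_eq_one, one_mul, QuadraticMap.map_zero]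
  have h4 : ψ ((0 : F × F × (F × F × V)).2.2.2.1) = 1 := AddChar.map_zero_eq_one ψ
  rw [h4]
  have h5 : (if (0 : F) = c then (1 : ℂ) else 0) = (if c = 0 then 1 else 0) := by
    by_cases h : c = 0
    · rw [if_pos h, if_pos h.symm]
    · rw [if_neg h, if_neg (Ne.symm h)]
  rw [h5]
  change _ = (D ψ (hyp (hyp Q)) (fun w => ρ (e (hyp (hyp Q)) w)) 0 : ℂ) + _
  ring

theorem trace_l_cls (hQ : ND Q) [Nontrivial V] (hψ : ψ ≠ 0) {c : F} (hc : Cls ψ ρ c)
    (hC : (∃ a : Fˣ, a * a ≠ 1) ∨ Cc Q c) [DecidableEq F] :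
    LinearMap.trace ℂ W (ρ (l hQ.hyp (e (hyp Q) (e1 F V)))) + (if c = 0 then 1 else 0) =
      LinearMap.trace ℂ W (ρ (l hQ.hyp (e (hyp Q) (e1 F V))) * PP ψ ρ 0) +
      ∑ y : F × F × (F × F × V),
        (if hyp (hyp Q) y = c ∧ y.2.1 = 0 ∧ y.2.2.2.1 = 0 then (1 : ℂ) else 0) := by
  haveI : DecidableEq (F × F × (F × F × V)) := Classical.decEq _
  rw [trace_l_split hQ.hyp hψ ρ (ρ (l hQ.hyp (e (hyp Q) (e1 F V)))),
    ← Finset.add_sum_erase _ _ (Finset.mem_univ (0 : F × F × (F × F × V))),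
    ← Finset.add_sum_erase (Finset.univ : Finset (F × F × (F × F × V)))
      (fun y => if hyp (hyp Q) y = c ∧ y.2.1 = 0 ∧ y.2.2.2.1 = 0 then (1 : ℂ) else 0)
      (Finset.mem_univ (0 : F × F × (F × F × V)))]
  have h2 : ∑ y ∈ (Finset.univ : Finset (F × F × (F × F × V))).erase 0,
      LinearMap.trace ℂ W (ρ (l hQ.hyp (e (hyp Q) (e1 F V))) * PP ψ ρ y) =
      ∑ y ∈ (Finset.univ : Finset (F × F × (F × F × V))).erase 0,
        (if hyp (hyp Q) y = c ∧ y.2.1 = 0 ∧ y.2.2.2.1 = 0 then (1 : ℂ) else 0) := by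
    refine Finset.sum_congr rfl (fun y hy => ?_)
    have h3 := hc y (Finset.ne_of_mem_erase hy)
    by_cases hfix : E (hyp Q) (e1 F V) y = y
    · by_cases hn : hyp (hyp Q) y = c
      · rw [if_pos hn] at h3
        rw [if_pos ⟨hn, (fix_iff y).mp hfix⟩, root_PP hQ hψ ρ h3 hfix (by rw [hn]; exact hC),
          H44.TSys.trace_idem (PP_idem hQ.hyp hψ ρ y), ← mu_eq, h3, Nat.cast_one]
      · rw [if_neg hn] at h3
        rw [if_neg (fun h => hn h.1)]
        have h4 : PP ψ ρ y = 0 := (D_eq_zero_iff (ψ := ψ) y).mp h3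
        rw [h4, mul_zero, map_zero]
    · rw [if_neg (fun h => hfix ((fix_iff y).mpr h.2))]
      exact trace_l_ne hQ.hyp hψ ρ (k := e (hyp Q) (e1 F V)) hfix
  rw [h2, QuadraticMap.map_zero]
  have h5 : (if (0 : F) = c ∧ (0 : F × F × (F × F × V)).2.1 = 0 ∧
      (0 : F × F × (F × F × V)).2.2.2.1 = 0 then (1 : ℂ) else 0) = (if c = 0 then 1 else 0) := by
    by_cases h : c = 0
    · rw [if_pos h, if_pos ⟨h.symm, rfl, rfl⟩]
    · rw [if_neg h, if_neg (fun h' => h h'.1.symm)]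
  rw [h5]
  ring

/-- the key identity -/
theorem trace_zero (hQ : ND Q) [Nontrivial V] (hψ : ψ ≠ 0) {c : F} (hc : Cls ψ ρ c)
    (hC : (∃ a : Fˣ, a * a ≠ 1) ∨ Cc Q c) :
    LinearMap.trace ℂ W (ρ (l hQ.hyp (e (hyp Q) (e1 F V))) * PP ψ ρ 0) =
      mu ψ ρ 0 - (Fintype.card F : ℂ) * Fintype.card V := by
  classical
  have h1 := trace_e_cls ρ hQ hψ hc
  have h2 := trace_l_cls ρ hQ hψ hc hC
  have h3 := trace_root hQ.hyp ρ (e1 F V)
  have h4 := sum_diff (Q := Q) hψ c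
  rw [h3] at h1
  linear_combination h1 - h2 + h4

/-- dimension and the value of the character -/
theorem finrank_cls (hQ : ND Q) (hψ : ψ ≠ 0) {c : F} (hc : Cls ψ ρ c) :
    finrank ℂ W = (Ob (hyp (hyp Q)) c).card + mu ψ ρ 0 := by
  classical
  rw [← sum_mu hQ.hyp.hyp hψ ρ,
    ← Finset.add_sum_erase _ _ (Finset.mem_univ (0 : F × F × (F × F × V))), add_comm,
    Finset.sum_congr rfl (fun y hy => hc y (Finset.ne_of_mem_erase hy)), Finset.sum_boole]
  congr 1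
  rw [Nat.cast_id]
  congr 1
  ext y
  rw [mem_Ob, Finset.mem_filter, Finset.mem_erase]
  simp

theorem trace_e_val (hQ : ND Q) (hψ : ψ ≠ 0) {c : F} (hc : Cls ψ ρ c) :
    LinearMap.trace ℂ W (ρ (e (hyp (hyp Q)) (0, 0, e1 F V))) =
      finrank ℂ W - (Fintype.card F : ℂ) ^ 3 * Fintype.card V := by
  classical
  have h1 := trace_e_cls ρ hQ hψ hc
  have h2 := finrank_cls ρ hQ hψ hc
  have h3 := sumS (Q := Q) hψ c
  have h4 := card_Ob (Q := hyp (hyp Q)) c
  have h5 := cnt_hyp' (hyp Q) c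
  have h6 : ((Ob (hyp (hyp Q)) c).card : ℂ) + (if c = 0 then 1 else 0) =
      (Fintype.card F : ℂ) * cnt (hyp Q) c + (Fintype.card F - 1) *
        (Fintype.card F * (Fintype.card F * Fintype.card V)) := by
    have h7 : (((Ob (hyp (hyp Q)) c).card + (if c = 0 then 1 else 0) : ℕ) : ℂ) =
        ((Fintype.card F * cnt (hyp Q) c + (Fintype.card F - 1) * Fintype.card (F × F × V) : ℕ) : ℂ) := by
      rw [h4, h5]
    have h8 : 1 ≤ Fintype.card F := Fintype.card_pos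
    rw [Fintype.card_prod, Fintype.card_prod] at h7
    push_cast [Nat.cast_sub h8] at h7
    exact h7
  rw [h2]
  push_cast
  rw [h3] at h1
  linear_combination h1 - h6

end main

end H44.OM
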