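import Cfsg.Agent.Lib.H44.OM6

/-! The representation on the zero weight space, and the dichotomy. -/

set_option autoImplicit false
set_option linter.unusedSectionVars false

namespace H44.OM

open Module QuadraticMap H7.Hyp H7.Omega H7.OmegaIso H7.HypStd

variable {F : Type*} [Field F] [Fintype F] {V : Type*} [AddCommGroup V] [Module F V] [Fintype V]
  {Q : QuadraticForm F V} {W : Type*} [AddCommGroup W] [Module ℂ W] [FiniteDimensional ℂ W]

/-- the Levi subgroup preserves the zero weight space -/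
theorem l_maps (hQ : ND Q) {ψ : AddChar F ℂ} (ρ : Representation ℂ (Om (hyp Q)) W) (k : Om Q) :
    ∀ x ∈ LinearMap.range (PP ψ ρ 0), ρ (l hQ k) x ∈ LinearMap.range (PP ψ ρ 0) := by
  rintro x ⟨z, rfl⟩
  have h1 := l_PP (ψ := ψ) hQ ρ k 0
  rw [map_zero] at h1
  refine ⟨ρ (l hQ k) z, ?_⟩
  have h2 := LinearMap.congr_fun h1 z
  rw [Module.End.mul_apply, Module.End.mul_apply] at h2
  exact h2.symm

/-- the representation of the Levi subgroup on the zero weight space -/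
noncomputable def Z (hQ : ND Q) (ψ : AddChar F ℂ) (ρ : Representation ℂ (Om (hyp Q)) W) :
    Representation ℂ (Om Q) (LinearMap.range (PP ψ ρ 0)) where
  toFun k := (ρ (l hQ k)).restrict (l_maps hQ ρ k)
  map_one' := by
    apply LinearMap.ext
    intro x
    apply Subtype.ext
    rw [LinearMap.coe_restrict_apply, map_one, map_one]
    rfl
  map_mul' a b := by
    apply LinearMap.ext
    intro x
    apply Subtype.ext
    rw [LinearMap.coe_restrict_apply, Module.End.mul_apply, LinearMap.coe_restrict_apply,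
      LinearMap.coe_restrict_apply, map_mul, map_mul]
    rfl

theorem trace_Z (hQ : ND Q) {ψ : AddChar F ℂ} (hψ : ψ ≠ 0) (ρ : Representation ℂ (Om (hyp Q)) W)
    (k : Om Q) : LinearMap.trace ℂ _ (Z hQ ψ ρ k) =
      LinearMap.trace ℂ W (ρ (l hQ k) * PP ψ ρ 0) := by
  have h1 := l_PP (ψ := ψ) hQ ρ k 0
  rw [map_zero] at h1
  have h0 : ∀ x, (ρ (l hQ k) * PP ψ ρ 0) x ∈ LinearMap.range (PP ψ ρ 0) := by
    intro x
    rw [h1]
    exact ⟨_, rfl⟩
  rw [← LinearMap.trace_restrict_eq_of_forall_mem _ _ h0]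
  congr 1
  apply LinearMap.ext
  intro x
  apply Subtype.ext
  obtain ⟨x, z, rfl⟩ := x
  change ρ (l hQ k) (PP ψ ρ 0 z) = ρ (l hQ k) (PP ψ ρ 0 (PP ψ ρ 0 z))
  rw [← Module.End.mul_apply (PP ψ ρ 0), PP_idem hQ hψ]

/-- all nontrivial representations have dimension at least `b` -/
def LB (G : Type*) [Group G] (b : ℕ) : Prop :=
  ∀ (W : Type) [AddCommGroup W] [Module ℂ W] [FiniteDimensional ℂ W] (ρ : Representation ℂ G W),
    (∃ g, ρ g ≠ 1) → b ≤ finrank ℂ W

theorem LB.mono {G : Type*} [Group G] {b b' : ℕ} (h : LB G b) (hb : b' ≤ b) : LB G b' :=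
  fun W _ _ _ ρ hρ => hb.trans (h W ρ hρ)

theorem LB.of_hom {G H : Type*} [Group G] [Group H] {b : ℕ} (h : LB G b) (f : G →* H)
    (hf : Function.Surjective f) : LB H b := by
  intro W _ _ _ ρ hρ
  refine h W (ρ.comp f) ?_
  obtain ⟨g, hg⟩ := hρ
  obtain ⟨x, rfl⟩ := hf g
  exact ⟨x, hg⟩

variable {W : Type} [AddCommGroup W] [Module ℂ W] [FiniteDimensional ℂ W]

/-- if all nontrivial representations of the Levi subgroup have dimension at least `b`, so has the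
zero weight space -/
theorem zero_ge (hQ : ND Q) [Nontrivial V] {ψ : AddChar F ℂ} (hψ : ψ ≠ 0)
    (ρ : Representation ℂ (Om (hyp (hyp Q))) W) {c : F} (hc : Cls ψ ρ c)
    (hC : (∃ a : Fˣ, a * a ≠ 1) ∨ Cc Q c) {b : ℕ} (hb : LB (Om (hyp Q)) b) : b ≤ mu ψ ρ 0 := by
  rw [mu_eq]
  refine hb (LinearMap.range (PP ψ ρ 0)) (Z hQ.hyp ψ ρ) ⟨e (hyp Q) (e1 F V), ?_⟩
  intro h
  have h1 := trace_Z hQ.hyp hψ ρ (e (hyp Q) (e1 F V))
  rw [trace_zero ρ hQ hψ hc hC] at h1
  have h5 := congrArg (LinearMap.trace ℂ _) h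
  rw [LinearMap.trace_one] at h5
  replace h1 := h5.symm.trans h1
  have h2 : ((Fintype.card F : ℂ) * Fintype.card V) = 0 := by
    rw [mu_eq] at h1
    linear_combination h1
  have h3 : Fintype.card F * Fintype.card V = 0 := by exact_mod_cast h2
  rcases Nat.mul_eq_zero.mp h3 with h4 | h4
  · exact Fintype.card_ne_zero h4
  · exact Fintype.card_ne_zero h4

/-- the dichotomy -/
theorem exists_cls (hQ : ND Q) [Nontrivial V] {ψ : AddChar F ℂ} (hψ : ψ ≠ 0)
    (ρ : Representation ℂ (Om (hyp (hyp Q))) W) (hρ : ∃ g, ρ g ≠ 1)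
    (hk : finrank ℂ W < 2 * ((Fintype.card F ^ 3 - Fintype.card F) * Fintype.card V)) :
    ∃ c : F, Cls ψ ρ c ∧ ((∃ a : F, a ≠ 0 ∧ a * a ≠ 1) → c = 0) := by
  classical
  obtain ⟨y, hy, h1⟩ := exists_weight hQ.hyp.hyp hψ ρ hρ
  refine ⟨hyp (hyp Q) y, fun z hz => ?_, fun ha => class_zero ρ hQ hψ hk hy h1 ha⟩
  rw [unique_class ρ hQ hψ hk hy h1 hz]

/-- the resulting lower bound -/
theorem bound (hQ : ND Q) [Nontrivial V] {ψ : AddChar F ℂ} (hψ : ψ ≠ 0)
    (ρ : Representation ℂ (Om (hyp (hyp Q))) W) {c : F} (hc : Cls ψ ρ c)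
    (hC : (∃ a : Fˣ, a * a ≠ 1) ∨ Cc Q c) {b : ℕ} (hb : LB (Om (hyp Q)) b) :
    (Ob (hyp (hyp Q)) c).card + b ≤ finrank ℂ W := by
  rw [finrank_cls ρ hQ hψ hc]
  have := zero_ge hQ hψ ρ hc hC hb
  omega

end H44.OM
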