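import Cfsg.Agent.Lib.H44.OM7
import Cfsg.Agent.Lib.H4.Integral

/-! The class of root elements. -/

set_option autoImplicit false
set_option linter.unusedSectionVars false

namespace H44.OM

open Module QuadraticMap H7.Hyp H7.Omega H7.OmegaIso H7.HypStd

theorem index_eq {H β : Type*} [Group H] (K : Subgroup H) (f : H → β)
    (hf : ∀ g g', f g = f g' ↔ g⁻¹ * g' ∈ K) : K.index = Nat.card (Set.range f) := by
  let φ : H ⧸ K → Set.range f := fun x => Quotient.liftOn' x (fun g => ⟨f g, g, rfl⟩)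
    (fun a b h => Subtype.ext ((hf a b).mpr (QuotientGroup.leftRel_apply.mp h)))
  have h1 : Function.Bijective φ := by
    constructor
    · intro x y
      induction x using Quotient.inductionOn'
      induction y using Quotient.inductionOn'
      intro h
      exact Quotient.sound' (QuotientGroup.leftRel_apply.mpr ((hf _ _).mp (congrArg Subtype.val h)))
    · rintro ⟨_, g, rfl⟩
      exact ⟨Quotient.mk'' g, rfl⟩
  exact Nat.card_congr (Equiv.ofBijective φ h1)

variable {F : Type*} [Field F] {V : Type*} [AddCommGroup V] [Module F V]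
  {Q : QuadraticForm F V}

theorem E_inj {w w' : V} (h : E Q w = E Q w') : w = w' := by
  have h1 := LinearEquiv.congr_fun h (e2 F V)
  rw [E_e2, E_e2] at h1
  exact congrArg (fun p : F × F × V => p.2.2) h1

/-- the root element -/
def r0 (Q : QuadraticForm F V) : Om (hyp Q) := e (hyp Q) (e1 F V)

theorem r0_apply (p : F × F × (F × F × V)) : (r0 Q).1 p =
    (p.1 - p.2.2.2.1, p.2.1, p.2.2 + p.2.1 • e1 F V) := by
  obtain ⟨a, b, v⟩ := p
  change E (hyp Q) (e1 F V) (a, b, v) = _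
  rw [E_apply, polar_hyp, e1]
  simp

/-- `K1` -/
def K1 (Q : QuadraticForm F V) : Subgroup (Om (hyp Q)) where
  carrier := {g | g.1 (e1 F (F × F × V)) = e1 F (F × F × V) ∧ g * r0 Q = r0 Q * g}
  one_mem' := ⟨rfl, by rw [one_mul, mul_one]⟩
  mul_mem' := by
    rintro a b ⟨h1, h2⟩ ⟨h3, h4⟩
    refine ⟨?_, ?_⟩
    · change a.1 (b.1 (e1 F (F × F × V))) = _
      rw [h3, h1]
    · rw [mul_assoc, h4, ← mul_assoc, h2, mul_assoc]
  inv_mem' := by
    rintro a ⟨h1, h2⟩
    refine ⟨?_, ?_⟩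
    · change a.1⁻¹ (e1 F (F × F × V)) = _
      rw [inv_apply_eq, h1]
    · rw [inv_mul_eq_iff_eq_mul, ← mul_assoc, h2, mul_inv_cancel_right]

theorem mem_K1 {g : Om (hyp Q)} : g ∈ K1 Q ↔ g.1 (e1 F (F × F × V)) = e1 F (F × F × V) ∧
    g * r0 Q = r0 Q * g := Iff.rfl

theorem conj_eq_iff {G : Type*} [Group G] {g g' r : G} :
    g * r * g⁻¹ = g' * r * g'⁻¹ ↔ (g⁻¹ * g') * r = r * (g⁻¹ * g') := by
  constructor
  · intro h
    have h1 : r * g⁻¹ * g' = g⁻¹ * (g * r * g⁻¹) * g' := by group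
    rw [← mul_assoc r, h1, h]; group
  · intro h
    have h1 : g' * r * g'⁻¹ = g * (g⁻¹ * g' * r) * g'⁻¹ := by group
    rw [h1, h]; group

theorem apply_eq_iff {X : Type*} [AddCommGroup X] [Module F X] {g g' : X ≃ₗ[F] X} {u : X} :
    g u = g' u ↔ (g⁻¹ * g') u = u := by
  rw [LinearEquiv.mul_apply, inv_apply_eq]
  exact eq_comm

theorem univ_hyp' : Univ (hyp Q) := univ_hyp Q

theorem e1_ne : (e1 F V) ≠ 0 := by
  intro h
  exact one_ne_zero (congrArg Prod.fst h)

theorem hyp_e1 : hyp Q (e1 F V) = 0 := by rw [hyp_apply, e1]; simp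

theorem K1_index (hQ : ND Q) (hu : Univ Q) : (K1 Q).index =
    Nat.card {p : F × F × (F × F × V) // p ≠ 0 ∧ hyp (hyp Q) p = 0} *
      Nat.card {w : F × F × V // w ≠ 0 ∧ hyp Q w = 0} := by
  have h0 : ∀ p : {p : F × F × (F × F × V) // p ≠ 0 ∧ hyp (hyp Q) p = 0}, ∃ t : Om (hyp Q),
      t.1 (e1 F (F × F × V)) = p.1 := by
    rintro ⟨p, hp, hs⟩
    obtain ⟨k, hk, h⟩ := trans_norm hQ.hyp (univ_hyp Q) e1_ne hp (by rw [hs, hyp_e1])
    exact ⟨⟨k, hk⟩, h⟩
  choose t ht using h0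
  rw [index_eq (K1 Q) (fun g => ((g.1 (e1 F (F × F × V)), g * r0 Q * g⁻¹) :
    (F × F × (F × F × V)) × Om (hyp Q))), ← Nat.card_prod]
  · symm
    have h1 : ∀ x : {p : F × F × (F × F × V) // p ≠ 0 ∧ hyp (hyp Q) p = 0} ×
        {w : F × F × V // w ≠ 0 ∧ hyp Q w = 0},
        ∃ g : Om (hyp Q), (g.1 (e1 F (F × F × V)), g * r0 Q * g⁻¹) =
          (x.1.1, t x.1 * e (hyp Q) x.2.1 * (t x.1)⁻¹) := by
      rintro ⟨p, w, hw, hs⟩
      obtain ⟨k, hk, h⟩ := trans_norm hQ hu e1_ne hw (by rw [hs, hyp_e1])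
      refine ⟨t p * l hQ ⟨k, hk⟩, Prod.ext ?_ ?_⟩
      · change (t p).1 (emb k (e1 F (F × F × V))) = p.1
        rw [emb_e1, ht]
      · change t p * l hQ ⟨k, hk⟩ * r0 Q * (t p * l hQ ⟨k, hk⟩)⁻¹ = t p * e (hyp Q) w * (t p)⁻¹
        have h2 := l_e hQ ⟨k, hk⟩ (e1 F V)
        change l hQ ⟨k, hk⟩ * r0 Q = e (hyp Q) (k (e1 F V)) * l hQ ⟨k, hk⟩ at h2
        rw [mul_assoc (t p), h2, h]
        group
    refine Nat.card_congr (Equiv.ofBijective (fun x => (⟨(x.1.1, t x.1 * e (hyp Q) x.2.1 *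
      (t x.1)⁻¹), h1 x⟩ : Set.range (fun g : Om (hyp Q) => ((g.1 (e1 F (F × F × V)), g * r0 Q * g⁻¹) :
    (F × F × (F × F × V)) × Om (hyp Q))))) ⟨?_, ?_⟩)
    · rintro ⟨p, w⟩ ⟨p', w'⟩ h
      have h2 := congrArg Subtype.val h
      simp only [Prod.mk.injEq] at h2
      obtain ⟨h3, h4⟩ := h2
      have h5 : p = p' := Subtype.ext h3
      subst h5
      have h6 : e (hyp Q) w.1 = e (hyp Q) w'.1 := by
        have := mul_right_cancel h4
        exact mul_left_cancel this
      have h7 : w = w' := Subtype.ext (E_inj (congrArg Subtype.val h6))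
      rw [h7]
    · rintro ⟨_, g, rfl⟩
      have hgO := Om_le _ g.2
      let p : {p : F × F × (F × F × V) // p ≠ 0 ∧ hyp (hyp Q) p = 0} :=
        ⟨g.1 (e1 F (F × F × V)), by
          constructor
          · intro h
            exact e1_ne ((LinearEquiv.map_eq_zero_iff _).mp h)
          · rw [hgO, hyp_e1]⟩
      have hs : (t p)⁻¹.1 * g.1 ∈ O (hyp (hyp Q)) :=
        (O _).mul_mem (Om_le _ (t p)⁻¹.2) hgO
      have hs1 : ((t p)⁻¹.1 * g.1) (e1 F (F × F × V)) = e1 F (F × F × V) := by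
        change (t p).1⁻¹ (g.1 (e1 F (F × F × V))) = _
        rw [inv_apply_eq, ht]
      obtain ⟨w', h, hh, h2⟩ := exists_E_emb hs hs1
      refine ⟨⟨p, ⟨h (e1 F V), ?_, ?_⟩⟩, ?_⟩
      · intro h
        exact e1_ne ((LinearEquiv.map_eq_zero_iff _).mp h)
      · rw [hh, hyp_e1]
      · apply Subtype.ext
        refine Prod.ext rfl ?_
        apply Subtype.ext
        change (t p).1 * E (hyp Q) (h (e1 F V)) * (t p).1⁻¹ = g.1 * E (hyp Q) (e1 F V) * g.1⁻¹
        have h3 : g.1 = (t p).1 * (E (hyp Q) w' * emb h) := by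
          rw [← h2]
          change g.1 = (t p).1 * ((t p).1⁻¹ * g.1)
          group
        have h4 := emb_E (Q := hyp Q) hh (e1 F V)
        have h5 : E (hyp Q) (h (e1 F V)) = E (hyp Q) w' * E (hyp Q) (h (e1 F V)) *
            (E (hyp Q) w')⁻¹ := by
          rw [E_mul, E_inv, E_mul, add_neg_cancel_comm]
        rw [h3, h5, ← h4]
        group
  · intro g g'
    rw [Prod.mk.injEq, mem_K1, apply_eq_iff, conj_eq_iff]
    rfl

/-- the centraliser of the root element moves the first basis vector inside a plane -/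
theorem C_range : Set.range (fun g : Subgroup.centralizer ({r0 Q} : Set (Om (hyp Q))) =>
    (g.1.1 (e1 F (F × F × V)))) =
    {p | p ≠ 0 ∧ ∃ a b : F, p = (a, 0, b • e1 F V)} := by
  ext p
  constructor
  · rintro ⟨⟨g, hg⟩, rfl⟩
    refine ⟨fun h => e1_ne ((LinearEquiv.map_eq_zero_iff _).mp h), ?_⟩
    rw [Subgroup.mem_centralizer_singleton_iff] at hg
    -- e1 = (r0 - 1) x0
    have h1 : (r0 Q).1 (0, 0, (-(1 : F)) • e2 F V) = e1 F (F × F × V) + (0, 0, (-(1 : F)) • e2 F V) := by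
      rw [r0_apply, e1, e1, e2]
      simp
    have h2 : g.1 (e1 F (F × F × V)) = (r0 Q).1 (g.1 (0, 0, (-(1 : F)) • e2 F V)) -
        g.1 (0, 0, (-(1 : F)) • e2 F V) := by
      have h3 : (r0 Q).1 (g.1 (0, 0, (-(1 : F)) • e2 F V)) =
          g.1 ((r0 Q).1 (0, 0, (-(1 : F)) • e2 F V)) := by
        change ((r0 Q) * g).1 _ = (g * r0 Q).1 _
        rw [hg]
      rw [h3, h1, map_add, add_sub_cancel_right]
    refine ⟨-(g.1 (0, 0, (-(1 : F)) • e2 F V)).2.2.2.1, (g.1 (0, 0, (-(1 : F)) • e2 F V)).2.1, ?_⟩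
    change g.1 (e1 F (F × F × V)) = _
    rw [h2, r0_apply]
    refine Prod.ext ?_ (Prod.ext ?_ ?_)
    · simp
    · simp
    · simp
  · rintro ⟨hp, a, b, rfl⟩
    -- the two transvections
    have c1 : ∀ s : F, e (hyp Q) (s • e2 F V) * r0 Q = r0 Q * e (hyp Q) (s • e2 F V) := by
      intro s
      rw [r0, ← e_add, ← e_add, add_comm]
    have c2 : ∀ s : F, (⟨E' (hyp Q) (s • e1 F V), E'_mem_Om _ _⟩ : Om (hyp Q)) * r0 Q =
        r0 Q * ⟨E' (hyp Q) (s • e1 F V), E'_mem_Om _ _⟩ := by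
      intro s
      apply Subtype.ext
      apply LinearEquiv.ext
      rintro ⟨x, y, z, t, v⟩
      change E' (hyp Q) (s • e1 F V) (E (hyp Q) (e1 F V) (x, y, z, t, v)) =
        E (hyp Q) (e1 F V) (E' (hyp Q) (s • e1 F V) (x, y, z, t, v))
      simp only [E_apply, E'_apply, e1, polar_hyp, hyp_apply, Prod.mk_add_mk,
        Prod.smul_mk, smul_eq_mul, QuadraticMap.map_zero, smul_zero, add_zero,
        QuadraticMap.polar_zero_right]
      refine Prod.ext ?_ (Prod.ext ?_ (Prod.ext ?_ (Prod.ext ?_ ?_)))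
      · simp only; ring
      · simp only; ring
      · simp only; ring
      · simp only; ring
      · simp
    have key : ∀ s : Om (hyp Q), s * r0 Q = r0 Q * s →
        s.1 (e1 F (F × F × V)) = (a, 0, b • e1 F V) →
        (a, 0, b • e1 F V) ∈ Set.range (fun g : Subgroup.centralizer ({r0 Q} : Set (Om (hyp Q))) =>
          (g.1.1 (e1 F (F × F × V)))) := fun s h1 h2 =>
      ⟨⟨s, by rw [Subgroup.mem_centralizer_singleton_iff]; exact h1⟩, h2⟩
    have comm_mul : ∀ s s' : Om (hyp Q), s * r0 Q = r0 Q * s → s' * r0 Q = r0 Q * s' →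
        (s * s') * r0 Q = r0 Q * (s * s') := by
      intro s s' h h'
      rw [mul_assoc, h', ← mul_assoc, h, mul_assoc]
    have ev : ∀ (x b : F) (s : F), E (hyp Q) (s • e2 F V) (x, 0, b • e1 F V) =
        (x - s * b, 0, b • e1 F V) := by
      intro x b s
      rw [E_apply, polar_hyp, e1, e2]
      simp
      ring
    have ev' : ∀ (x b : F) (s : F), E' (hyp Q) (s • e1 F V) (x, 0, b • e1 F V) =
        (x, 0, (b + x * s) • e1 F V) := by
      intro x b s
      rw [E'_apply, polar_hyp, e1]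
      simp
    by_cases hb : b = 0
    · subst hb
      have ha : a ≠ 0 := by
        rintro rfl
        apply hp
        simp
      refine key (⟨E' (hyp Q) ((-a⁻¹) • e1 F V), E'_mem_Om _ _⟩ * (e (hyp Q) ((1 - a) • e2 F V) *
        ⟨E' (hyp Q) ((1 : F) • e1 F V), E'_mem_Om _ _⟩))
        (comm_mul _ _ (c2 _) (comm_mul _ _ (c1 _) (c2 _))) ?_
      change E' (hyp Q) ((-a⁻¹) • e1 F V) (E (hyp Q) ((1 - a) • e2 F V)
        (E' (hyp Q) ((1 : F) • e1 F V) (e1 F (F × F × V)))) = _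
      have h1 : e1 F (F × F × V) = (1, 0, (0 : F) • e1 F V) := by rw [zero_smul]; rfl
      rw [h1, ev', ev, ev']
      refine Prod.ext ?_ (Prod.ext rfl ?_)
      · simp
      · simp only
        congr 1
        field_simp
        ring
    · refine key (e (hyp Q) (((1 - a) * b⁻¹) • e2 F V) *
        ⟨E' (hyp Q) (b • e1 F V), E'_mem_Om _ _⟩)
        (comm_mul _ _ (c1 _) (c2 _)) ?_
      change (E (hyp Q) (((1 - a) * b⁻¹) • e2 F V)
        (E' (hyp Q) (b • e1 F V) (e1 F (F × F × V)))) = _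
      have h1 : e1 F (F × F × V) = (1, 0, (0 : F) • e1 F V) := by rw [zero_smul]; rfl
      rw [h1, ev', ev]
      refine Prod.ext ?_ (Prod.ext rfl ?_)
      · simp only
        field_simp
        ring
      · simp only
        congr 1
        ring

theorem K1_le : K1 Q ≤ Subgroup.centralizer ({r0 Q} : Set (Om (hyp Q))) := by
  intro g hg
  rw [Subgroup.mem_centralizer_singleton_iff]
  exact hg.2

theorem K1_relIndex [Fintype F] : (K1 Q).relIndex (Subgroup.centralizer ({r0 Q} : Set (Om (hyp Q)))) =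
    Fintype.card F ^ 2 - 1 := by
  classical
  rw [Subgroup.relIndex, index_eq _ (fun g : Subgroup.centralizer ({r0 Q} : Set (Om (hyp Q))) =>
    (g.1.1 (e1 F (F × F × V)))), C_range]
  · have h1 : Nat.card {p : F × F // p ≠ 0} = Fintype.card F ^ 2 - 1 := by
      rw [Nat.card_eq_fintype_card, Fintype.card_subtype_compl, Fintype.card_prod,
        Fintype.card_subtype_eq, _root_.sq]
    rw [← h1]
    symm
    refine Nat.card_congr (Equiv.ofBijective (fun p : {p : F × F // p ≠ 0} =>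
      (⟨(p.1.1, 0, p.1.2 • e1 F V), ?_, p.1.1, p.1.2, rfl⟩ :
        {p : F × F × (F × F × V) | p ≠ 0 ∧ ∃ a b : F, p = (a, 0, b • e1 F V)})) ⟨?_, ?_⟩)
    · intro h
      apply p.2
      refine Prod.ext ?_ ?_
      · exact congrArg (fun p : F × F × (F × F × V) => p.1) h
      · have h2 := congrArg (fun p : F × F × (F × F × V) => p.2.2.1) h
        simpa [e1] using h2
    · rintro ⟨⟨a, b⟩, hp⟩ ⟨⟨a', b'⟩, hp'⟩ h
      have h2 := congrArg Subtype.val h
      apply Subtype.ext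
      refine Prod.ext ?_ ?_
      · exact congrArg (fun p : F × F × (F × F × V) => p.1) h2
      · have h3 := congrArg (fun p : F × F × (F × F × V) => p.2.2.1) h2
        simpa [e1] using h3
    · rintro ⟨_, hp, a, b, rfl⟩
      refine ⟨⟨(a, b), ?_⟩, rfl⟩
      intro h
      apply hp
      have h3 := congrArg Prod.fst h
      have h4 := congrArg Prod.snd h
      simp only at h3 h4
      rw [h3, h4]
      simp
  · rintro ⟨g, hg⟩ ⟨g', hg'⟩
    rw [Subgroup.mem_subgroupOf, mem_K1]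
    rw [Subgroup.mem_centralizer_singleton_iff] at hg hg'
    constructor
    · intro h
      refine ⟨apply_eq_iff.mp h, ?_⟩
      change g⁻¹ * g' * r0 Q = r0 Q * (g⁻¹ * g')
      have h5 : g⁻¹ * r0 Q = r0 Q * g⁻¹ := by
        rw [inv_mul_eq_iff_eq_mul, ← mul_assoc, hg, mul_inv_cancel_right]
      rw [mul_assoc, hg', ← mul_assoc, h5, mul_assoc]
    · intro h
      exact (apply_eq_iff (g := g.1) (g' := g'.1)).mpr h.1

/-- the size of the class of root elements -/
theorem class_size [Fintype F] (hQ : ND Q) (hu : Univ Q) :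
    (Fintype.card F ^ 2 - 1) * (Subgroup.centralizer ({r0 Q} : Set (Om (hyp Q)))).index =
    Nat.card {p : F × F × (F × F × V) // p ≠ 0 ∧ hyp (hyp Q) p = 0} *
      Nat.card {w : F × F × V // w ≠ 0 ∧ hyp Q w = 0} := by
  rw [← K1_index hQ hu, ← K1_relIndex (Q := Q), Subgroup.relIndex_mul_index K1_le]

end H44.OM
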