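import Cfsg.Agent.Lib.H44.OM8

/-! Integrality. -/

set_option autoImplicit false
set_option linter.unusedSectionVars false

namespace H44.OM

open Module QuadraticMap H7.Hyp H7.Omega H7.OmegaIso H7.HypStd

variable {F : Type*} [Field F] [Fintype F] {V : Type*} [AddCommGroup V] [Module F V] [Fintype V]
  {Q : QuadraticForm F V}

instance finite_Om : Finite (Om Q) := by
  have h1 : Finite ((F × F × V) ≃ₗ[F] (F × F × V)) :=
    Finite.of_injective (fun g => (g : (F × F × V) → (F × F × V))) DFunLike.coe_injective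
  infer_instance

variable {W : Type} [AddCommGroup W] [Module ℂ W] [FiniteDimensional ℂ W]

theorem trace_r0 (hQ : ND Q) {ψ : AddChar F ℂ} (hψ : ψ ≠ 0)
    (ρ : Representation ℂ (Om (hyp (hyp Q))) W) {c : F} (hc : Cls ψ ρ c) :
    LinearMap.trace ℂ W (ρ (r0 (hyp Q))) =
      finrank ℂ W - (Fintype.card F : ℂ) ^ 3 * Fintype.card V := by
  rw [← trace_e_val ρ hQ hψ hc]
  have h1 : ((0 : F), (0 : F), e1 F V) ≠ 0 := by
    intro h
    exact e1_ne (congrArg (fun p : F × F × (F × F × V) => p.2.2) h)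
  obtain ⟨k, hk, h⟩ := trans_norm hQ.hyp (univ_hyp Q) (y := e1 F (F × F × V)) e1_ne h1
    (by rw [hyp_e1, hyp_apply]; simp [hyp_e1, -hyp_apply])
  have h2 := l_e hQ.hyp ⟨k, hk⟩ (e1 F (F × F × V))
  change l hQ.hyp ⟨k, hk⟩ * e (hyp (hyp Q)) (e1 F (F × F × V)) =
    e (hyp (hyp Q)) (k (e1 F (F × F × V))) * l hQ.hyp ⟨k, hk⟩ at h2
  rw [h] at h2
  have h3 : e (hyp (hyp Q)) (0, 0, e1 F V) = l hQ.hyp ⟨k, hk⟩ * r0 (hyp Q) *
      (l hQ.hyp ⟨k, hk⟩)⁻¹ := by
    change _ = l hQ.hyp ⟨k, hk⟩ * e (hyp (hyp Q)) (e1 F (F × F × V)) * _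
    rw [h2]; group
  rw [h3, map_mul, LinearMap.trace_mul_comm, ← map_mul, ← mul_assoc, inv_mul_cancel, one_mul]

/-- the divisibility -/
theorem irr_dvd (hQ : ND Q) {ψ : AddChar F ℂ} (hψ : ψ ≠ 0)
    (ρ : Representation ℂ (Om (hyp (hyp Q))) W) (hρ : ρ.IsIrreducible) {c : F}
    (hc : Cls ψ ρ c) : ∃ I : ℕ, (Fintype.card F ^ 2 - 1) * I =
      Nat.card {p : F × F × (F × F × (F × F × V)) // p ≠ 0 ∧ hyp (hyp (hyp Q)) p = 0} *
      Nat.card {w : F × F × (F × F × V) // w ≠ 0 ∧ hyp (hyp Q) w = 0} ∧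
      finrank ℂ W ∣ I * (Fintype.card F ^ 3 * Fintype.card V) := by
  refine ⟨_, class_size hQ.hyp (univ_hyp Q), ?_⟩
  have : Fintype (Om (hyp (hyp Q))) := Fintype.ofFinite _
  have hd : (finrank ℂ W : ℂ) ≠ 0 := by
    exact_mod_cast (H4.CharBasic.finrank_pos_of_isIrreducible hρ).ne'
  apply H4.Integral.dvd_of_isIntegral_div (H4.CharBasic.finrank_pos_of_isIrreducible hρ).ne'
  have h1 := H4.Integral.isIntegral_omega ρ hρ (r0 (hyp Q))
  rw [Representation.character, trace_r0 hQ hψ ρ hc] at h1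
  set I := (Subgroup.centralizer ({r0 (hyp Q)} : Set (Om (hyp (hyp Q))))).index
  have h2 : (I : ℂ) * (finrank ℂ W - (Fintype.card F : ℂ) ^ 3 * Fintype.card V) / finrank ℂ W =
      I - ((I * (Fintype.card F ^ 3 * Fintype.card V) : ℕ) : ℂ) / finrank ℂ W := by
    push_cast
    field_simp
  rw [h2] at h1
  have h3 := (isIntegral_algebraMap (R := ℤ) (A := ℂ) (x := (I : ℤ))).sub h1
  simpa using h3

end H44.OM
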