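import Cfsg.Agent.Lib.H44.TSysSL
import Cfsg.Agent.Lib.H4.TwoTrans

/-! The permutation character of `SL_n` on the nonzero vectors. -/

set_option autoImplicit false

open Matrix
open scoped ComplexConjugate

namespace H44.SLPerm

open Module Cfsg H44.TSys H44.TSysSL H18.CharBasic H18.CharOrtho

universe u v

variable {F : Type u} [Field F] {ι : Type} [Fintype ι] [DecidableEq ι]

theorem step1 (v z w : ι → F) (hz : z ∉ Submodule.span F {v})
    (hw : w ∉ Submodule.span F {v, z}) : ∃ g : Matrix.SpecialLinearGroup ι F,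
      (g : Matrix ι ι F) *ᵥ v = v ∧ (g : Matrix ι ι F) *ᵥ z = w := by
  obtain ⟨β1, h1, h2⟩ := Submodule.exists_le_ker_of_notMem hw
  obtain ⟨β2, h3, h4⟩ := Submodule.exists_le_ker_of_notMem hz
  have h1v : β1 v = 0 := h2 (Submodule.subset_span (by simp))
  have h1z : β1 z = 0 := h2 (Submodule.subset_span (by simp))
  have h2v : β2 v = 0 := h4 (Submodule.subset_span (by simp))
  set β : Dual F (ι → F) := (β2 z)⁻¹ • β2 + ((1 - (β2 z)⁻¹ * β2 w) / β1 w) • β1 with hβ
  have hβv : β v = 0 := by simp [hβ, h1v, h2v]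
  have hβz : β z = 1 := by simp [hβ, h1z, h3]
  have hβw : β w = 1 := by simp [hβ, h1]
  refine ⟨tv (w - z) β, ?_, ?_⟩
  · rw [tv_mulVec _ _ (by rw [map_sub, hβz, hβw, sub_self]), hβv, zero_smul, add_zero]
  · rw [tv_mulVec _ _ (by rw [map_sub, hβz, hβw, sub_self]), hβz, one_smul, add_sub_cancel]

theorem step2 (hι : 3 ≤ Fintype.card ι) (v z w : ι → F) (hz : z ∉ Submodule.span F {v})
    (hw : w ∉ Submodule.span F {v}) : ∃ g : Matrix.SpecialLinearGroup ι F,
      (g : Matrix ι ι F) *ᵥ v = v ∧ (g : Matrix ι ι F) *ᵥ z = w := by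
  by_cases h : w ∈ Submodule.span F {v, z}
  · obtain ⟨y, hy⟩ : ∃ y : ι → F, y ∉ Submodule.span F {v, z} := by
      by_contra hcon
      push Not at hcon
      have h1 : Submodule.span F ({v, z} : Set (ι → F)) = ⊤ := by
        rw [eq_top_iff]; intro y _; exact hcon y
      have h9 : finrank F (Submodule.span F ({v, z} : Set (ι → F))) ≤ 2 := by
        classical
        have h4 := finrank_span_finset_le_card (R := F) ({v, z} : Finset (ι → F))
        have h5 : (({v, z} : Finset (ι → F)) : Set (ι → F)) = {v, z} := by simp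
        rw [h5] at h4
        exact h4.trans Finset.card_le_two
      rw [h1, finrank_top, Module.finrank_fintype_fun_eq_card] at h9
      omega
    obtain ⟨g1, h1, h2⟩ := step1 v z y hz hy
    have hy1 : y ∉ Submodule.span F {v} := fun hc => hy
      (Submodule.span_mono (by simp) hc)
    have hw1 : w ∉ Submodule.span F {v, y} := by
      intro hc
      obtain ⟨a, b, hab⟩ := Submodule.mem_span_pair.mp hc
      have hb : b ≠ 0 := by
        rintro rfl
        apply hw
        rw [← hab, zero_smul, add_zero]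
        exact Submodule.mem_span_singleton.mpr ⟨a, rfl⟩
      apply hy
      have h3 : y = b⁻¹ • w - (b⁻¹ * a) • v := by
        rw [← hab, smul_add, smul_smul, smul_smul, inv_mul_cancel₀ hb, one_smul]
        abel
      rw [h3]
      exact Submodule.sub_mem _ (Submodule.smul_mem _ _ h)
        (Submodule.smul_mem _ _ (Submodule.subset_span (by simp)))
    obtain ⟨g2, h3, h4⟩ := step1 v y w hy1 hw1
    exact ⟨g2 * g1, by rw [mul_mulVec, h1, h3], by rw [mul_mulVec, h2, h4]⟩
  · exact step1 v z w hz h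

theorem pair_trans (hι : 3 ≤ Fintype.card ι) (v w v' w' : ι → F) (hv : v ≠ 0) (hv' : v' ≠ 0)
    (hw : w ∉ Submodule.span F {v}) (hw' : w' ∉ Submodule.span F {v'}) :
    ∃ g : Matrix.SpecialLinearGroup ι F,
      (g : Matrix ι ι F) *ᵥ v = v' ∧ (g : Matrix ι ι F) *ᵥ w = w' := by
  obtain ⟨g1, h2⟩ : ∃ g1 : Matrix.SpecialLinearGroup ι F, (g1 : Matrix ι ι F) *ᵥ v = v' := by
    obtain ⟨g0, h1, h2⟩ := H44.LSLinear.exists_sl_vec (by omega) v v' hv hv'
    exact ⟨⟨g0, h1⟩, h2⟩
  have h3 : (g1 : Matrix ι ι F) *ᵥ w ∉ Submodule.span F {v'} := by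
    intro hc
    obtain ⟨a, ha⟩ := Submodule.mem_span_singleton.mp hc
    apply hw
    rw [Submodule.mem_span_singleton]
    refine ⟨a, ?_⟩
    have h4 : (g1 : Matrix ι ι F) *ᵥ (a • v) = (g1 : Matrix ι ι F) *ᵥ w := by
      rw [mulVec_smul, h2, ha]
    have h5 : IsUnit (g1 : Matrix ι ι F) := by
      rw [Matrix.isUnit_iff_isUnit_det, g1.2]; exact isUnit_one
    exact Matrix.mulVec_injective_iff_isUnit.mpr h5 h4
  obtain ⟨g, h4, h5⟩ := step2 hι v' ((g1 : Matrix ι ι F) *ᵥ w) w' h3 hw'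
  refine ⟨g * g1, ?_, ?_⟩
  · rw [mul_mulVec, h2, h4]
  · rw [mul_mulVec]
    exact h5

/-- nonzero vectors -/
abbrev S (F : Type u) [Field F] (ι : Type) [Fintype ι] : Type u := {v : ι → F // v ≠ 0}

theorem mulVec_ne (g : Matrix.SpecialLinearGroup ι F) {v : ι → F} (hv : v ≠ 0) :
    (g : Matrix ι ι F) *ᵥ v ≠ 0 := by
  intro h
  apply hv
  have h5 : IsUnit (g : Matrix ι ι F) := by
    rw [Matrix.isUnit_iff_isUnit_det, g.2]; exact isUnit_one
  exact Matrix.mulVec_injective_iff_isUnit.mpr h5 (by rw [h, mulVec_zero])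

instance actG : MulAction (Matrix.SpecialLinearGroup ι F) (S F ι) where
  smul g v := ⟨(g : Matrix ι ι F) *ᵥ v.1, mulVec_ne g v.2⟩
  one_smul v := Subtype.ext (by
    change ((1 : Matrix.SpecialLinearGroup ι F) : Matrix ι ι F) *ᵥ v.1 = v.1
    exact one_mulVec _)
  mul_smul g h v := Subtype.ext (by
    change ((g * h : Matrix.SpecialLinearGroup ι F) : Matrix ι ι F) *ᵥ v.1 = _
    rw [mul_mulVec]
    rfl)

theorem actG_coe (g : Matrix.SpecialLinearGroup ι F) (v : S F ι) :
    ((g • v : S F ι) : ι → F) = (g : Matrix ι ι F) *ᵥ v.1 := rfl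

instance actA : MulAction (Matrix.SpecialLinearGroup ι F × Fˣ) (S F ι) where
  smul x v := ⟨(x.2 : F) • ((x.1 : Matrix ι ι F) *ᵥ v.1),
    smul_ne_zero x.2.ne_zero (mulVec_ne x.1 v.2)⟩
  one_smul v := Subtype.ext (by
    change ((1 : Fˣ) : F) • (((1 : Matrix.SpecialLinearGroup ι F) : Matrix ι ι F) *ᵥ v.1) = v.1
    rw [Units.val_one, one_smul]
    exact one_mulVec _)
  mul_smul x y v := Subtype.ext (by
    change ((x.2 * y.2 : Fˣ) : F) •
      (((x.1 * y.1 : Matrix.SpecialLinearGroup ι F) : Matrix ι ι F) *ᵥ v.1) =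
      (x.2 : F) • ((x.1 : Matrix ι ι F) *ᵥ ((y.2 : F) • ((y.1 : Matrix ι ι F) *ᵥ v.1)))
    rw [mul_mulVec, mulVec_smul, smul_smul, Units.val_mul])

theorem actA_coe (x : Matrix.SpecialLinearGroup ι F × Fˣ) (v : S F ι) :
    ((x • v : S F ι) : ι → F) = (x.2 : F) • ((x.1 : Matrix ι ι F) *ᵥ v.1) := rfl


variable [Fintype F] [DecidableEq F]

/-- the character with parameter `θ` -/
noncomputable def c (θ : Fˣ →* ℂˣ) : Matrix.SpecialLinearGroup ι F → ℂ := fun g =>
  (Nat.card Fˣ : ℂ)⁻¹ * ∑ a : Fˣ,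
    H4.TwoTrans.permChar (Matrix.SpecialLinearGroup ι F × Fˣ) (S F ι) (g, a) * conj (θ a : ℂ)

theorem c_inner [Fintype (Matrix.SpecialLinearGroup ι F)] (θ : Fˣ →* ℂˣ)
    (χ : Matrix.SpecialLinearGroup ι F → ℂ) :
    classInner (c θ) χ = classInner (G := Matrix.SpecialLinearGroup ι F × Fˣ)
      (H4.TwoTrans.permChar (Matrix.SpecialLinearGroup ι F × Fˣ) (S F ι))
      (fun x => χ x.1 * (θ x.2 : ℂ)) := by
  rw [classInner, classInner, Fintype.sum_prod_type, Nat.card_prod]
  push_cast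
  rw [_root_.mul_inv_rev, mul_comm (Nat.card Fˣ : ℂ)⁻¹, mul_assoc, Finset.mul_sum (a := (Nat.card Fˣ : ℂ)⁻¹)]
  congr 1
  refine Finset.sum_congr rfl (fun g _ => ?_)
  rw [c, mul_assoc, Finset.sum_mul]
  congr 1
  refine Finset.sum_congr rfl (fun a _ => ?_)
  rw [map_mul]
  ring

theorem c_isCharacter (θ : Fˣ →* ℂˣ) : IsCharacter (Matrix.SpecialLinearGroup ι F) (c θ) := by
  classical
  have : Fintype (Matrix.SpecialLinearGroup ι F) := Fintype.ofFinite _
  rw [isCharacter_iff]
  constructor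
  · intro x y
    simp only [c]
    congr 1
    refine Finset.sum_congr rfl (fun a _ => ?_)
    congr 1
    have h1 := isClassFunction_of_isCharacter (H4.TwoTrans.isCharacter_permChar
      (G := Matrix.SpecialLinearGroup ι F × Fˣ) (S F ι)) (x, a) (y, 1)
    simpa using h1
  · intro χ hχ
    rw [c_inner]
    refine inner_char_natCast (H4.TwoTrans.isCharacter_permChar
      (G := Matrix.SpecialLinearGroup ι F × Fˣ) (S F ι)) ?_
    have h1 := isCharacter_comp (MonoidHom.fst (Matrix.SpecialLinearGroup ι F) Fˣ)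
      (isCharacter_of_isIrr hχ)
    have h2 := isCharacter_comp (MonoidHom.snd (Matrix.SpecialLinearGroup ι F) Fˣ)
      (isCharacter_of_isIrr (isIrrCharacter_of_hom θ))
    exact isCharacter_mul h1 h2

omit [Fintype F] [DecidableEq F] in
theorem permChar_one (a : Fˣ) (ha : a ≠ 1) :
    H4.TwoTrans.permChar (Matrix.SpecialLinearGroup ι F × Fˣ) (S F ι) (1, a) = 0 := by
  rw [H4.TwoTrans.permChar]
  have : MulAction.fixedBy (S F ι) ((1, a) : Matrix.SpecialLinearGroup ι F × Fˣ) = ∅ := by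
    ext v
    simp only [MulAction.mem_fixedBy, Set.mem_empty_iff_false, iff_false]
    intro h
    have h1 := congrArg Subtype.val h
    rw [actA_coe] at h1
    simp only at h1
    rw [show ((1 : Matrix.SpecialLinearGroup ι F) : Matrix ι ι F) *ᵥ v.1 = v.1 from one_mulVec _] at h1
    obtain ⟨i, hi⟩ := Function.ne_iff.mp v.2
    have h2 := congrFun h1 i
    rw [Pi.smul_apply, smul_eq_mul] at h2
    apply ha
    apply Units.ext
    rw [Units.val_one]
    exact mul_eq_right₀ hi |>.mp h2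
  rw [this]
  simp

theorem c_one (θ : Fˣ →* ℂˣ) : c (ι := ι) θ 1 = (Nat.card Fˣ : ℂ)⁻¹ * Nat.card (S F ι) := by
  classical
  rw [c]
  congr 1
  rw [Finset.sum_eq_single 1]
  · rw [map_one, Units.val_one, map_one, mul_one, H4.TwoTrans.permChar]
    have : MulAction.fixedBy (S F ι) ((1, 1) : Matrix.SpecialLinearGroup ι F × Fˣ) = Set.univ := by
      ext v
      simp only [MulAction.mem_fixedBy, Set.mem_univ, iff_true]
      exact one_smul (Matrix.SpecialLinearGroup ι F × Fˣ) v
    rw [this]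
    simp
  · intro a _ ha
    rw [permChar_one a ha, zero_mul]
  · intro h
    exact absurd (Finset.mem_univ _) h

omit [Fintype F] [DecidableEq F] in
theorem permChar_coe (g : Matrix.SpecialLinearGroup ι F) :
    H4.TwoTrans.permChar (Matrix.SpecialLinearGroup ι F × Fˣ) (S F ι) (g, 1) =
      H4.TwoTrans.permChar (Matrix.SpecialLinearGroup ι F) (S F ι) g := by
  rw [H4.TwoTrans.permChar, H4.TwoTrans.permChar]
  have h1 : MulAction.fixedBy (S F ι) ((g, 1) : Matrix.SpecialLinearGroup ι F × Fˣ) =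
      MulAction.fixedBy (S F ι) g := by
    ext v
    rw [MulAction.mem_fixedBy, MulAction.mem_fixedBy]
    have : ((g, 1) : Matrix.SpecialLinearGroup ι F × Fˣ) • v = g • v := by
      apply Subtype.ext
      rw [actA_coe, actG_coe]
      simp
    rw [this]
  rw [h1]


/-- a family of nonzero characters whose sum has small norm -/
theorem irr_family {G : Type v} [Group G] [Fintype G] {J : Type*} [Fintype J] (d : J → G → ℂ)
    (hd : ∀ i, IsCharacter G (d i)) (h0 : ∀ i, d i ≠ 0) (r : ℕ)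
    (hr : classInner (∑ i, d i) (∑ i, d i) = r) (hrJ : r ≤ Fintype.card J) :
    (∀ i, IsIrrCharacter G (d i)) ∧ Function.Injective d := by
  classical
  choose n hn using fun i j => inner_char_natCast (hd i) (hd j)
  have h1 : classInner (∑ i, d i) (∑ i, d i) = ((∑ i, ∑ j, n i j : ℕ) : ℂ) := by
    rw [inner_sum_left]
    push_cast
    refine Finset.sum_congr rfl (fun i _ => ?_)
    rw [inner_sum_right]
    exact Finset.sum_congr rfl (fun j _ => hn i j)
  have h2 : ∑ i, ∑ j, n i j = r := by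
    rw [h1] at hr
    exact_mod_cast hr
  have h3 : ∀ i, 1 ≤ n i i := by
    intro i
    rw [Nat.one_le_iff_ne_zero]
    intro h
    have := hn i i
    rw [h, Nat.cast_zero, H18.CharOrtho.inner_self_eq_zero] at this
    exact h0 i this
  have h4 : ∀ i, n i i ≤ ∑ j, n i j := fun i =>
    Finset.single_le_sum (f := fun j => n i j) (fun _ _ => Nat.zero_le _) (Finset.mem_univ i)
  have h5 : ∑ i : J, 1 ≤ ∑ i, n i i := Finset.sum_le_sum (fun i _ => h3 i)
  have h6 : ∑ i, n i i ≤ ∑ i, ∑ j, n i j := Finset.sum_le_sum (fun i _ => h4 i)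
  have h7 : ∑ i : J, 1 = Fintype.card J := by simp
  have h8 : ∑ i, n i i = ∑ i, ∑ j, n i j := by omega
  have h9 : ∑ i : J, 1 = ∑ i, n i i := by omega
  have h10 : ∀ i, n i i = 1 := by
    intro i
    exact ((Finset.sum_eq_sum_iff_of_le (fun i _ => h3 i)).mp h9 i (Finset.mem_univ i)).symm
  have h11 : ∀ i, n i i = ∑ j, n i j := by
    intro i
    exact (Finset.sum_eq_sum_iff_of_le (fun i _ => h4 i)).mp h8 i (Finset.mem_univ i)
  refine ⟨fun i => isIrr_of_norm_one (hd i) (by rw [hn i i, h10 i, Nat.cast_one]), ?_⟩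
  intro i j hij
  by_contra hne
  have h12 : n i j = 1 := by
    have := hn i j
    rw [← hij, hn i i, h10 i] at this
    exact_mod_cast this.symm
  have h13 : n i i + n i j ≤ ∑ j, n i j := by
    have h14 : ({i, j} : Finset J) ⊆ Finset.univ := Finset.subset_univ _
    have h15 := Finset.sum_le_sum_of_subset (f := fun j => n i j) h14
    rw [Finset.sum_pair hne] at h15
    exact h15
  have := h11 i
  have := h10 i
  omega

theorem sum_dual (a : Fˣ) [Fintype (Fˣ →* ℂˣ)] : ∑ θ : Fˣ →* ℂˣ, conj (θ a : ℂ) =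
    if a = 1 then (Nat.card Fˣ : ℂ) else 0 := by
  split_ifs with h
  · subst h
    simp only [map_one, Units.val_one, Finset.sum_const, Finset.card_univ, nsmul_eq_mul, mul_one]
    rw [← CommGroup.card_monoidHom_of_hasEnoughRootsOfUnity Fˣ ℂ, Nat.card_eq_fintype_card]
  · obtain ⟨φ, hφ⟩ := CommGroup.exists_apply_ne_one_of_hasEnoughRootsOfUnity Fˣ ℂ h
    have h1 : ∑ θ : Fˣ →* ℂˣ, conj (θ a : ℂ) = conj (φ a : ℂ) * ∑ θ : Fˣ →* ℂˣ, conj (θ a : ℂ) := by
      rw [Finset.mul_sum]
      refine (Fintype.sum_equiv (Equiv.mulLeft φ) _ _ (fun θ => ?_)).symm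
      rw [Equiv.coe_mulLeft, MonoidHom.mul_apply, Units.val_mul, map_mul]
    have h2 : (1 - conj (φ a : ℂ)) * ∑ θ : Fˣ →* ℂˣ, conj (θ a : ℂ) = 0 := by
      linear_combination h1
    refine (mul_eq_zero.mp h2).resolve_left ?_
    intro h3
    apply hφ
    apply Units.ext
    have h4 : conj (φ a : ℂ) = 1 := (sub_eq_zero.mp h3).symm
    have h5 := congrArg conj h4
    rw [Complex.conj_conj, map_one] at h5
    rw [h5, Units.val_one]

theorem sum_c [Fintype (Fˣ →* ℂˣ)] (g : Matrix.SpecialLinearGroup ι F) :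
    ∑ θ : Fˣ →* ℂˣ, c θ g = H4.TwoTrans.permChar (Matrix.SpecialLinearGroup ι F) (S F ι) g := by
  simp only [c]
  rw [← Finset.mul_sum, Finset.sum_comm]
  have h1 : ∀ a : Fˣ, ∑ θ : Fˣ →* ℂˣ,
      H4.TwoTrans.permChar (Matrix.SpecialLinearGroup ι F × Fˣ) (S F ι) (g, a) * conj (θ a : ℂ) =
      if a = 1 then (Nat.card Fˣ : ℂ) *
        H4.TwoTrans.permChar (Matrix.SpecialLinearGroup ι F × Fˣ) (S F ι) (g, 1) else 0 := by
    intro a
    rw [← Finset.mul_sum, sum_dual]
    split_ifs with h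
    · rw [h, mul_comm]
    · rw [mul_zero]
  rw [Finset.sum_congr rfl (fun a _ => h1 a), Finset.sum_ite_eq' Finset.univ (1 : Fˣ)]
  simp only [Finset.mem_univ, if_true]
  rw [permChar_coe, ← mul_assoc, inv_mul_cancel₀, one_mul]
  exact_mod_cast Nat.card_pos.ne'

theorem rank_le (hι : 3 ≤ Fintype.card ι) : Nat.card (MulAction.orbitRel.Quotient
    (Matrix.SpecialLinearGroup ι F) (S F ι × S F ι)) ≤ Nat.card Fˣ + 1 := by
  classical
  obtain ⟨v0, w0, -, hv0, hw0, -⟩ : ∃ (v w : ι → F) (_ : True), v ≠ 0 ∧ w ∉ Submodule.span F {v} ∧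
      True := by
    obtain ⟨z, hz⟩ := H44.LSLinear.exists_not_mem_span (F := F) (by omega : 2 ≤ Fintype.card ι)
      (0 : ι → F)
    obtain ⟨w, hw⟩ := H44.LSLinear.exists_not_mem_span (F := F) (by omega : 2 ≤ Fintype.card ι) z
    refine ⟨z, w, trivial, ?_, hw, trivial⟩
    rintro rfl
    exact hz (Submodule.zero_mem _)
  have hw00 : w0 ≠ 0 := by
    rintro rfl
    exact hw0 (Submodule.zero_mem _)
  let f : Option Fˣ → MulAction.orbitRel.Quotient (Matrix.SpecialLinearGroup ι F)
      (S F ι × S F ι) := fun o => match o with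
    | none => Quotient.mk'' (⟨v0, hv0⟩, ⟨w0, hw00⟩)
    | some a => Quotient.mk'' (⟨v0, hv0⟩, ⟨(a : F) • v0, smul_ne_zero a.ne_zero hv0⟩)
  have hf : Function.Surjective f := by
    intro q
    induction q using Quotient.inductionOn' with
    | _ x =>
      obtain ⟨⟨v, hv⟩, ⟨w, hw⟩⟩ := x
      by_cases h : w ∈ Submodule.span F {v}
      · obtain ⟨a, ha⟩ := Submodule.mem_span_singleton.mp h
        have ha0 : a ≠ 0 := by
          rintro rfl
          rw [zero_smul] at ha
          exact hw ha.symm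
        obtain ⟨g, hg1, -⟩ : ∃ g : Matrix.SpecialLinearGroup ι F,
            (g : Matrix ι ι F) *ᵥ v = v0 ∧ True := by
          obtain ⟨g0, h1, h2⟩ := H44.LSLinear.exists_sl_vec (by omega : 2 ≤ Fintype.card ι) v v0 hv hv0
          exact ⟨⟨g0, h1⟩, h2, trivial⟩
        refine ⟨some (Units.mk0 a ha0), ?_⟩
        change Quotient.mk'' _ = Quotient.mk'' _
        rw [Quotient.eq'', MulAction.orbitRel_apply]
        refine ⟨g, ?_⟩
        refine Prod.ext (Subtype.ext hg1) (Subtype.ext ?_)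
        change (g : Matrix ι ι F) *ᵥ w = (Units.mk0 a ha0 : F) • v0
        rw [← ha, mulVec_smul, hg1]
        rfl
      · obtain ⟨g, hg1, hg2⟩ := pair_trans hι v w v0 w0 hv hv0 h hw0
        refine ⟨none, ?_⟩
        change Quotient.mk'' _ = Quotient.mk'' _
        rw [Quotient.eq'', MulAction.orbitRel_apply]
        exact ⟨g, Prod.ext (Subtype.ext hg1) (Subtype.ext hg2)⟩
  have h1 := Nat.card_le_card_of_surjective f hf
  rw [Nat.card_eq_fintype_card (α := Option Fˣ), Fintype.card_option,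
    ← Nat.card_eq_fintype_card] at h1
  exact h1


theorem card_S : Nat.card (S F ι) = Fintype.card F ^ Fintype.card ι - 1 := by
  classical
  rw [Nat.card_eq_fintype_card, Fintype.card_subtype_compl, Fintype.card_subtype_eq,
    Fintype.card_fun]

/-- the family of characters -/
noncomputable def d (F : Type u) [Field F] [Fintype F] [DecidableEq F] (ι : Type) [Fintype ι]
    [DecidableEq ι] : Option (Fˣ →* ℂˣ) → Matrix.SpecialLinearGroup ι F → ℂ
  | none => 1
  | some θ => open Classical in if θ = 1 then c 1 - 1 else c θ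

theorem c_sub_isCharacter (hι : 2 ≤ Fintype.card ι) :
    IsCharacter (Matrix.SpecialLinearGroup ι F) (c 1 - 1) := by
  classical
  have : Fintype (Matrix.SpecialLinearGroup ι F) := Fintype.ofFinite _
  have hc := c_isCharacter (ι := ι) (1 : Fˣ →* ℂˣ)
  rw [isCharacter_iff]
  refine ⟨isClassFunction_sub (isClassFunction_of_isCharacter hc)
    (isClassFunction_of_isCharacter isCharacter_one'), ?_⟩
  intro χ hχ
  rw [H18.CharOrtho.inner_sub_left]
  obtain ⟨k, hk⟩ := inner_char_natCast hc (isCharacter_of_isIrr hχ)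
  by_cases h1 : χ = 1
  · subst h1
    have h2 : classInner (1 : Matrix.SpecialLinearGroup ι F → ℂ) 1 = 1 :=
      inner_irr_self isIrrCharacter_one
    have h3 : k ≠ 0 := by
      rintro rfl
      rw [c_inner] at hk
      have h4 : (fun x : Matrix.SpecialLinearGroup ι F × Fˣ =>
          (1 : Matrix.SpecialLinearGroup ι F → ℂ) x.1 * (((1 : Fˣ →* ℂˣ) x.2 : ℂˣ) : ℂ)) = 1 := by
        funext x
        simp
      rw [h4, H4.TwoTrans.inner_permChar_one] at hk
      have h5 : Nat.card (MulAction.orbitRel.Quotient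
          (Matrix.SpecialLinearGroup ι F × Fˣ) (S F ι)) = 0 := by exact_mod_cast hk
      obtain ⟨z, hz⟩ := H44.LSLinear.exists_not_mem_span (F := F) hι (0 : ι → F)
      have hz0 : z ≠ 0 := by
        rintro rfl
        exact hz (Submodule.zero_mem _)
      have : Nonempty (MulAction.orbitRel.Quotient (Matrix.SpecialLinearGroup ι F × Fˣ) (S F ι)) :=
        ⟨Quotient.mk'' ⟨z, hz0⟩⟩
      exact Nat.card_pos.ne' h5
    refine ⟨k - 1, ?_⟩
    rw [hk, h2, Nat.cast_sub (by omega), Nat.cast_one]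
  · refine ⟨k, ?_⟩
    have h2 : classInner (1 : Matrix.SpecialLinearGroup ι F → ℂ) χ = 0 :=
      inner_irr_ne isIrrCharacter_one hχ (fun h => h1 h.symm)
    rw [hk, h2, sub_zero]


theorem card_S_gt (hι : 2 ≤ Fintype.card ι) : Nat.card Fˣ < Nat.card (S F ι) := by
  classical
  rw [card_S, Nat.card_eq_fintype_card, Fintype.card_units]
  have hq : 2 ≤ Fintype.card F := Fintype.one_lt_card
  have h1 : Fintype.card F ^ 2 ≤ Fintype.card F ^ Fintype.card ι :=
    Nat.pow_le_pow_right (by omega) hι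
  have h2 : Fintype.card F < Fintype.card F ^ 2 := by nlinarith
  omega

theorem d_ne_zero (hι : 2 ≤ Fintype.card ι) (o : Option (Fˣ →* ℂˣ)) : d F ι o ≠ 0 := by
  classical
  have h1 := card_S_gt (F := F) hι
  have h2 : (Nat.card Fˣ : ℂ) ≠ 0 := by exact_mod_cast Nat.card_pos.ne'
  intro h
  cases o with
  | none =>
    have := congrFun h 1
    simp [d] at this
  | some θ =>
    have h3 := congrFun h 1
    rw [d] at h3
    split_ifs at h3 with h4
    · rw [Pi.sub_apply, c_one, Pi.one_apply, Pi.zero_apply, sub_eq_zero] at h3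
      have h5 : (Nat.card (S F ι) : ℂ) = Nat.card Fˣ := by
        field_simp at h3
        exact h3
      have h6 : Nat.card (S F ι) = Nat.card Fˣ := by exact_mod_cast h5
      omega
    · rw [c_one, Pi.zero_apply] at h3
      rcases mul_eq_zero.mp h3 with h5 | h5
      · exact inv_ne_zero h2 h5
      · have h6 : Nat.card (S F ι) = 0 := by exact_mod_cast h5
        omega

theorem d_isCharacter (hι : 2 ≤ Fintype.card ι) (o : Option (Fˣ →* ℂˣ)) :
    IsCharacter (Matrix.SpecialLinearGroup ι F) (d F ι o) := by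
  classical
  cases o with
  | none => exact isCharacter_one'
  | some θ =>
    rw [d]
    split_ifs with h
    · exact c_sub_isCharacter hι
    · exact c_isCharacter θ

theorem sum_d [Fintype (Fˣ →* ℂˣ)] : ∑ o, d F ι o =
    H4.TwoTrans.permChar (Matrix.SpecialLinearGroup ι F) (S F ι) := by
  classical
  funext g
  rw [Fintype.sum_option, Pi.add_apply, Finset.sum_apply, ← sum_c]
  have h1 : ∀ θ : Fˣ →* ℂˣ, d F ι (some θ) g = c θ g - (if θ = 1 then 1 else 0) := by
    intro θ
    rw [d]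
    split_ifs with h
    · rw [Pi.sub_apply, h]
      rfl
    · rw [sub_zero]
  rw [Finset.sum_congr rfl (fun θ _ => h1 θ), Finset.sum_sub_distrib,
    Finset.sum_ite_eq' Finset.univ (1 : Fˣ →* ℂˣ)]
  simp only [Finset.mem_univ, if_true]
  rw [d, Pi.one_apply]
  ring

theorem main (n : ℕ) (hn : 3 ≤ n) :
    ∃ χ : Fin (Fintype.card F - 1) → (Matrix.SpecialLinearGroup (Fin n) F → ℂ),
      (∀ i, Cfsg.IsIrrCharacter (Matrix.SpecialLinearGroup (Fin n) F) (χ i)) ∧
      Function.Injective χ ∧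
      ∀ g : Matrix.SpecialLinearGroup (Fin n) F,
        (Nat.card {v : Fin n → F // v ≠ 0 ∧ (g : Matrix (Fin n) (Fin n) F).mulVec v = v} : ℂ) =
          1 + ∑ i, χ i g := by
  classical
  have hc : Fintype.card (Fin n) = n := Fintype.card_fin n
  have : Finite (Fˣ →* ℂˣ) := by
    apply Nat.finite_of_card_ne_zero
    rw [CommGroup.card_monoidHom_of_hasEnoughRootsOfUnity Fˣ ℂ]
    exact Nat.card_pos.ne'
  have : Fintype (Fˣ →* ℂˣ) := Fintype.ofFinite _
  have : Fintype (Matrix.SpecialLinearGroup (Fin n) F) := Fintype.ofFinite _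
  have hcard : Fintype.card (Fˣ →* ℂˣ) = Fintype.card F - 1 := by
    rw [← Nat.card_eq_fintype_card, CommGroup.card_monoidHom_of_hasEnoughRootsOfUnity Fˣ ℂ,
      Nat.card_eq_fintype_card, Fintype.card_units]
  have hcard2 : Fintype.card (Option (Fˣ →* ℂˣ)) = Nat.card Fˣ + 1 := by
    rw [Fintype.card_option, hcard, Nat.card_eq_fintype_card, Fintype.card_units]
  have h1 := irr_family (d F (Fin n)) (d_isCharacter (by omega)) (d_ne_zero (by omega))
    (Nat.card (MulAction.orbitRel.Quotient (Matrix.SpecialLinearGroup (Fin n) F)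
      (S F (Fin n) × S F (Fin n))))
    (by rw [sum_d, H4.TwoTrans.inner_permChar_self])
    (by rw [hcard2]; exact rank_le (by omega))
  obtain ⟨h2, h3⟩ := h1
  let e : Fin (Fintype.card F - 1) ≃ (Fˣ →* ℂˣ) :=
    Fintype.equivOfCardEq (by rw [Fintype.card_fin, hcard])
  refine ⟨fun i => d F (Fin n) (some (e i)), fun i => h2 _, ?_, ?_⟩
  · intro i j hij
    exact e.injective (Option.some_injective _ (h3 hij))
  · intro g
    have h4 := congrFun (sum_d (F := F) (ι := Fin n)) g
    rw [Fintype.sum_option, Pi.add_apply, Finset.sum_apply] at h4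
    have h5 : d F (Fin n) none g = 1 := rfl
    rw [h5] at h4
    have h6 : ∑ i, d F (Fin n) (some (e i)) g = ∑ θ : Fˣ →* ℂˣ, d F (Fin n) (some θ) g :=
      Equiv.sum_comp e (fun θ => d F (Fin n) (some θ) g)
    rw [h6, h4, H4.TwoTrans.permChar]
    congr 1
    refine Nat.card_congr ⟨fun v => ⟨⟨v.1, v.2.1⟩, ?_⟩, fun v => ⟨v.1.1, v.1.2, ?_⟩, ?_, ?_⟩
    · rw [MulAction.mem_fixedBy]
      exact Subtype.ext v.2.2
    · have := v.2
      rw [MulAction.mem_fixedBy] at this
      exact congrArg Subtype.val this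
    · intro v; rfl
    · intro v; rfl

end H44.SLPerm
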