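import Cfsg.Agent.Lib.H44.LSSUFinal
import Cfsg.Agent.S0780
import Cfsg.Agent.S0781
import Cfsg.Agent.S0283

/-! Perfectness of the special unitary groups. -/

set_option autoImplicit false

namespace H44.SUPerf

theorem perf {F : Type*} [Field F] [Fintype F] {q : ℕ} (hF : Fintype.card F = q ^ 2) (n : ℕ)
    (hn : 3 ≤ n) (h32 : ¬ (n = 3 ∧ q = 2)) : commutator (Cfsg.SU n F q) = ⊤ := by
  have hq : 2 ≤ q := H44.UField.two_le hF
  rw [eq_top_iff, ← Cfsg.Agent.S0780.result hF n hn h32, Subgroup.closure_le]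
  rintro A ⟨v, c, hv, hA⟩
  have h1 := Cfsg.Agent.S0781.result hF n (by
    by_cases h4 : 4 ≤ n
    · exact Or.inl h4
    · refine Or.inr ⟨by omega, ?_⟩
      by_contra hcon
      exact h32 ⟨by omega, by omega⟩) A v c hv hA
  rw [SetLike.mem_coe, commutator_eq_closure]
  exact Subgroup.subset_closure h1

theorem simple {F : Type*} [Field F] [Fintype F] {q : ℕ} (hF : Fintype.card F = q ^ 2) (n : ℕ)
    (hn : 3 ≤ n) (h32 : ¬ (n = 3 ∧ q = 2)) :
    IsSimpleGroup (Cfsg.SU n F q ⧸ Subgroup.center (Cfsg.SU n F q)) :=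
  Cfsg.Agent.S0283.result hF n hn h32

end H44.SUPerf
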