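import Cfsg.Agent.Lib.H44.SpW7

/-! The homomorphism from the Weil representation to a representation with the rank one
property. -/

set_option autoImplicit false
set_option linter.unusedSectionVars false
set_option linter.unusedSimpArgs false

open Matrix H6.Symp H44.Weil H44.LSLinear

namespace H44.SpW

variable {F : Type*} [Field F] {l : Type*} [Fintype l] [DecidableEq l]
variable [Fintype F] [DecidableEq F] (ψ : AddChar F ℂ)
variable {V : Type*} [AddCommGroup V] [Module ℂ V] (τ : symplecticGroup l F →* Module.End ℂ V)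
variable [Nontrivial l] (hodd : Odd (Fintype.card F)) (h2 : (2 : F) ≠ 0) (hψ : ψ ≠ 1)
variable (hRK : RK ψ τ) (i1 i2 : l) (h12 : i1 ≠ i2) (μ : V)
variable (hμ : ∀ y : l → F, Wt ψ τ (sY y) (-(2⁻¹ * (y i1) ^ 2)) μ)

include hodd hRK h12 hμ in
theorem line_zero (a : F) (ha : a ≠ 0) (f : (l → F) → ℂ)
    (hf : ∀ u, f u ≠ 0 → ∃ t : F, u = t • (Pi.single i1 1 : l → F)) (hf0 : f 0 = 0)
    (hzf0 : om ψ h2 hψ (tv a (sX (Pi.single i1 1))) f 0 = 0) :
    Tp ψ τ h2 hψ i1 μ (om ψ h2 hψ (tv a (sX (Pi.single i1 1))) f) =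
      τ (tv a (sX (Pi.single i1 1))) (Tp ψ τ h2 hψ i1 μ f) := by
  rw [← sub_eq_zero]
  set e1 : l → F := Pi.single i1 1 with he1
  set e2 : l → F := Pi.single i2 1 with he2
  set T := Tp ψ τ h2 hψ i1 μ with hT
  set z : symplecticGroup l F := tv a (sX e1) with hz
  have he12 : e2 i1 = 0 := by simp [he2, h12]
  have he11 : e1 i1 = 1 := by simp [he1]
  have he22 : e2 i2 = 1 := by simp [he2]
  have he21 : e1 i2 = 0 := by simp [he1, h12.symm]
  have hzf : ∀ u, om ψ h2 hψ z f u ≠ 0 → ∃ t : F, u = t • e1 := by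
    intro u hu
    rw [om_tvX_apply ψ h2 hψ e1 (ee_ne i1) a ha] at hu
    have h3 := right_ne_zero_of_mul hu
    obtain ⟨t, _, ht⟩ := Finset.exists_ne_zero_of_sum_ne_zero h3
    obtain ⟨s, hs⟩ := hf _ (right_ne_zero_of_mul ht)
    refine ⟨s - t, ?_⟩
    rw [sub_smul, ← hs]; abel
  -- functions on the line vanishing at zero are supported off the line of e2
  have hoff : ∀ g : (l → F) → ℂ, (∀ u, g u ≠ 0 → ∃ t : F, u = t • e1) → g 0 = 0 →
      ∀ u, g u ≠ 0 → u ∉ Submodule.span F {e2} := by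
    intro g hg hg0 u hu
    obtain ⟨t, rfl⟩ := hg u hu
    apply not_mem_span_single h12
    simp only [Pi.smul_apply, he11, smul_eq_mul, mul_one]
    rintro rfl
    rw [zero_smul] at hu
    exact hu hg0
  apply eigen_zero ψ τ h2 hψ e2 (ee_ne i2)
  intro b hb
  set s : symplecticGroup l F := tv b (sX e2) with hs
  have hsz : s * z = z * s := comm_s_z i2 i1 b a
  set k := kk ψ h2 hψ e2 b with hk
  set g : (l → F) → ℂ := om ψ h2 hψ s f - k • f with hg
  have hgs : ∀ u, g u ≠ 0 → u ∉ Submodule.span F {e1} := by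
    intro u hu hmem
    rw [Submodule.mem_span_singleton] at hmem
    obtain ⟨t, rfl⟩ := hmem
    apply hu
    rw [hg, Pi.sub_apply, om_tvX_apply ψ h2 hψ e2 (ee_ne i2) b hb, Pi.smul_apply, smul_eq_mul,
      ← hk, Finset.sum_eq_single (0 : F)]
    · simp
    · intro r _ hr
      have : f (t • e1 + r • e2) = 0 := by
        by_contra hcon
        obtain ⟨t', ht'⟩ := hf _ hcon
        have := congrFun ht' i2
        simp [he22, he21] at this
        exact hr this
      rw [this, mul_zero]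
    · intro h; exact absurd (Finset.mem_univ _) h
  have hsf : om ψ h2 hψ s f = k • f + g := by rw [hg]; abel
  have c1 : T (om ψ h2 hψ s f) = τ s (T f) :=
    comm_supp ψ τ hodd h2 hψ hRK i1 μ hμ b e2 f (hoff f hf hf0)
  have c2 : T (om ψ h2 hψ s (om ψ h2 hψ z f)) = τ s (T (om ψ h2 hψ z f)) :=
    comm_supp ψ τ hodd h2 hψ hRK i1 μ hμ b e2 _ (hoff _ hzf hzf0)
  have c3 : T (om ψ h2 hψ z g) = τ z (T g) :=
    comm_supp ψ τ hodd h2 hψ hRK i1 μ hμ a e1 g hgs
  have hC : om ψ h2 hψ s (om ψ h2 hψ z f) = om ψ h2 hψ z (om ψ h2 hψ s f) := by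
    rw [← Module.End.mul_apply, ← map_mul, hsz, map_mul, Module.End.mul_apply]
  have hD : τ s (τ z (T f)) = τ z (τ s (T f)) := by
    rw [← Module.End.mul_apply, ← map_mul, hsz, map_mul, Module.End.mul_apply]
  rw [map_sub, ← c2, hC, hD, ← c1, hsf, map_add, map_add, map_smul, map_smul, c3, map_add,
    map_add, map_smul, map_smul]
  module

/-- The equivariant map. -/
noncomputable def TT : ((l → F) → ℂ) →ₗ[ℂ] V :=
  Tp ψ τ h2 hψ i1 μ + (LinearMap.proj 0).smulRight (nu ψ τ h2 hψ i1 i2 μ)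

theorem TT_apply (f : (l → F) → ℂ) : TT ψ τ h2 hψ i1 i2 μ f =
    Tp ψ τ h2 hψ i1 μ f + f 0 • nu ψ τ h2 hψ i1 i2 μ := rfl

include hodd hRK h12 hμ in
theorem TT_lv (A : SpecialLinearGroup l F) (f : (l → F) → ℂ) :
    TT ψ τ h2 hψ i1 i2 μ (om ψ h2 hψ (lv A) f) = τ (lv A) (TT ψ τ h2 hψ i1 i2 μ f) := by
  rw [TT_apply, TT_apply, map_add, map_smul, Tp_lv, om_lv_apply_zero ψ hodd,
    nu_lv ψ τ hodd h2 hψ hRK i1 i2 h12 μ hμ]

include hodd hRK h12 hμ in
theorem TT_tvY (a : F) (y : l → F) (f : (l → F) → ℂ) :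
    TT ψ τ h2 hψ i1 i2 μ (om ψ h2 hψ (tv a (sY y)) f) =
      τ (tv a (sY y)) (TT ψ τ h2 hψ i1 i2 μ f) := by
  rw [TT_apply, TT_apply, map_add, map_smul, Tp_tvY ψ τ hodd h2 hψ i1 μ hμ,
    om_tvY_apply_zero ψ hodd, nu_Y ψ τ hodd h2 hψ hRK i1 i2 h12 μ hμ y a, zero_mul,
    AddChar.map_zero_eq_one, one_smul]

include hodd hRK h12 hμ in
theorem TT_z (a : F) (f : (l → F) → ℂ) :
    TT ψ τ h2 hψ i1 i2 μ (om ψ h2 hψ (tv a (sX (Pi.single i1 1))) f) =
      τ (tv a (sX (Pi.single i1 1))) (TT ψ τ h2 hψ i1 i2 μ f) := by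
  by_cases ha : a = 0
  · rw [ha, tv_zero, map_one, map_one]; rfl
  set e1 : l → F := Pi.single i1 1 with he1
  have he11 : e1 i1 = 1 := by simp [he1]
  set T := TT ψ τ h2 hψ i1 i2 μ with hT
  have hT0 : T (dl 0) = nu ψ τ h2 hψ i1 i2 μ := by
    rw [hT, TT_apply, Tp_zero, zero_add, dl, Pi.single_eq_same, one_smul]
  -- the case of dl 0
  have E0 : ∀ b : F, b ≠ 0 → T (om ψ h2 hψ (tv b (sX e1)) (dl 0)) =
      τ (tv b (sX e1)) (T (dl 0)) := by
    intro b hb
    rw [hT0, star ψ τ hodd h2 hψ hRK i1 i2 h12 μ hμ b hb, hT, TT_apply]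
    rfl
  have E1 : T (om ψ h2 hψ (tv a (sX e1)) (om ψ h2 hψ (tv (-a) (sX e1)) (dl 0))) =
      τ (tv a (sX e1)) (T (om ψ h2 hψ (tv (-a) (sX e1)) (dl 0))) := by
    rw [E0 (-a) (neg_ne_zero.mpr ha), ← Module.End.mul_apply, ← map_mul,
      ← Module.End.mul_apply (τ _), ← map_mul, ← tv_add, add_neg_cancel, tv_zero, map_one, map_one]
    rfl
  -- functions on the line
  have EL : ∀ g : (l → F) → ℂ, (∀ u, g u ≠ 0 → ∃ t : F, u = t • e1) →
      T (om ψ h2 hψ (tv a (sX e1)) g) = τ (tv a (sX e1)) (T g) := by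
    intro g hg
    set k1 := kk ψ h2 hψ e1 a with hk1
    set k2 := kk ψ h2 hψ e1 (-a) with hk2
    have hk : 1 - k1 * k2 ≠ 0 := by
      intro h
      apply kk_mul_ne ψ h2 hψ e1 (ee_ne i1) a ha
      rw [← hk1, ← hk2]
      exact (sub_eq_zero.mp h).symm
    set α := g 0 with hα
    set β := om ψ h2 hψ (tv a (sX e1)) g 0 with hβ
    set d := (β - α * k1) / (1 - k1 * k2) with hd
    set c := α - d * k2 with hc
    set m := om ψ h2 hψ (tv (-a) (sX e1)) (dl 0) with hm
    set g' : (l → F) → ℂ := g - c • dl 0 - d • m with hg'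
    have hgd : g = g' + c • dl 0 + d • m := by rw [hg']; abel
    have hm0 : m 0 = k2 := rfl
    have hd0 : dl (0 : l → F) (0 : l → F) = 1 := by simp [dl]
    have hzm : om ψ h2 hψ (tv a (sX e1)) m = dl 0 := by
      rw [hm, ← Module.End.mul_apply, ← map_mul, ← tv_add, add_neg_cancel, tv_zero, map_one]; rfl
    have hzd : om ψ h2 hψ (tv a (sX e1)) (dl 0) 0 = k1 := rfl
    have hms : ∀ u, m u ≠ 0 → ∃ t : F, u = t • e1 := by
      intro u hu
      rw [hm, om_tvX_apply ψ h2 hψ e1 (ee_ne i1) (-a) (neg_ne_zero.mpr ha)] at hu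
      have h3 := right_ne_zero_of_mul hu
      obtain ⟨t, _, ht⟩ := Finset.exists_ne_zero_of_sum_ne_zero h3
      have h4 := right_ne_zero_of_mul ht
      rw [dl, Pi.single_apply] at h4
      have h5 : u + t • e1 = 0 := by
        by_contra hcon
        rw [if_neg hcon] at h4
        exact h4 rfl
      exact ⟨-t, by rw [neg_smul]; exact eq_neg_of_add_eq_zero_left h5⟩
    have hg's : ∀ u, g' u ≠ 0 → ∃ t : F, u = t • e1 := by
      intro u hu
      by_contra hcon
      have h3 : g u = 0 := by by_contra h; exact hcon (hg u h)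
      have h4 : m u = 0 := by by_contra h; exact hcon (hms u h)
      have h5 : dl (0 : l → F) u = 0 := by
        rw [dl, Pi.single_apply, if_neg]
        rintro rfl
        exact hcon ⟨0, by rw [zero_smul]⟩
      apply hu
      simp [hg', h3, h4, h5]
    have hg'0 : g' 0 = 0 := by
      simp only [hg', Pi.sub_apply, Pi.smul_apply, smul_eq_mul, hm0, hd0, ← hα]
      rw [hc]; ring
    have hg'z : om ψ h2 hψ (tv a (sX e1)) g' 0 = 0 := by
      have h6 : om ψ h2 hψ (tv a (sX e1)) g' = om ψ h2 hψ (tv a (sX e1)) g -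
          c • om ψ h2 hψ (tv a (sX e1)) (dl 0) - d • dl 0 := by
        rw [hg', map_sub, map_sub, map_smul, map_smul, hzm]
      rw [h6]
      simp only [Pi.sub_apply, Pi.smul_apply, smul_eq_mul, hzd, hd0, ← hβ]
      have h7 : d * (1 - k1 * k2) = β - α * k1 := by rw [hd]; field_simp
      rw [hc]
      linear_combination -h7
    have h8 : T (om ψ h2 hψ (tv a (sX e1)) g') = τ (tv a (sX e1)) (T g') := by
      rw [hT, TT_apply, TT_apply, hg'0, hg'z, zero_smul, add_zero, add_zero]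
      exact line_zero ψ τ hodd h2 hψ hRK i1 i2 h12 μ hμ a ha g' hg's hg'0 hg'z
    rw [hgd, map_add, map_add, map_smul, map_smul, map_add, map_add, map_smul, map_smul, h8,
      E0 a ha, E1, map_add, map_add, map_smul, map_smul, map_add, map_add, map_smul, map_smul]
  -- functions off the line
  have EO : ∀ g : (l → F) → ℂ, (∀ u, g u ≠ 0 → u ∉ Submodule.span F {e1}) →
      T (om ψ h2 hψ (tv a (sX e1)) g) = τ (tv a (sX e1)) (T g) := by
    intro g hg
    have hg0 : g 0 = 0 := by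
      by_contra h; exact hg 0 h (Submodule.zero_mem _)
    have hz0 : om ψ h2 hψ (tv a (sX e1)) g 0 = 0 := by
      rw [om_tvX_apply ψ h2 hψ e1 (ee_ne i1) a ha, Finset.sum_eq_zero, mul_zero]
      intro t _
      have : g (0 + t • e1) = 0 := by
        by_contra h
        apply hg _ h
        rw [zero_add]
        exact Submodule.smul_mem _ _ (Submodule.mem_span_singleton_self _)
      rw [this, mul_zero]
    rw [hT, TT_apply, TT_apply, hg0, hz0, zero_smul, add_zero, add_zero]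
    exact comm_supp ψ τ hodd h2 hψ hRK i1 μ hμ a e1 g hg
  classical
  let g1 : (l → F) → ℂ := fun u => if u ∈ Submodule.span F {e1} then f u else 0
  let g2 : (l → F) → ℂ := fun u => if u ∈ Submodule.span F {e1} then 0 else f u
  have hfg : f = g1 + g2 := by
    ext u
    simp only [g1, g2, Pi.add_apply]
    split_ifs <;> simp
  rw [hfg, map_add, map_add, EL g1, EO g2, map_add, map_add]
  · intro u hu hmem
    apply hu
    simp only [g2]
    rw [if_pos hmem]
  · intro u hu
    simp only [g1] at hu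
    split_ifs at hu with h
    · obtain ⟨t, ht⟩ := Submodule.mem_span_singleton.mp h
      exact ⟨t, ht.symm⟩
    · exact absurd rfl hu

include hodd hRK h12 hμ in
theorem TT_all (g : symplecticGroup l F) (f : (l → F) → ℂ) :
    TT ψ τ h2 hψ i1 i2 μ (om ψ h2 hψ g f) = τ g (TT ψ τ h2 hψ i1 i2 μ f) := by
  set T := TT ψ τ h2 hψ i1 i2 μ with hT
  have hl : 2 ≤ Fintype.card l := Fintype.one_lt_card
  let H : Subgroup (symplecticGroup l F) :=
    { carrier := {g | ∀ f, T (om ψ h2 hψ g f) = τ g (T f)}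
      mul_mem' := by
        intro a b ha hb f
        rw [map_mul, map_mul, Module.End.mul_apply, Module.End.mul_apply, ha, hb]
      one_mem' := by
        intro f
        rw [map_one, map_one]; rfl
      inv_mem' := by
        intro a ha f
        have h3 := ha (om ψ h2 hψ a⁻¹ f)
        rw [← Module.End.mul_apply, ← map_mul, mul_inv_cancel, map_one, Module.End.one_apply] at h3
        rw [h3, ← Module.End.mul_apply, ← map_mul, inv_mul_cancel, map_one, Module.End.one_apply] }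
  have hHt : H = ⊤ := by
    apply eq_top_of_tv_mem
    have hY : ∀ a (y : l → F), tv a (sY y) ∈ H := fun a y f =>
      TT_tvY ψ τ hodd h2 hψ hRK i1 i2 h12 μ hμ a y f
    have hL : ∀ A : SpecialLinearGroup l F, lv A ∈ H := fun A f =>
      TT_lv ψ τ hodd h2 hψ hRK i1 i2 h12 μ hμ A f
    have hconj : ∀ (g : symplecticGroup l F) a u, g ∈ H → tv a u ∈ H → tv a (g.1 *ᵥ u) ∈ H := by
      intro g a u hg hu
      rw [← tv_conj]
      exact H.mul_mem (H.mul_mem hg hu) (H.inv_mem hg)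
    have hX : ∀ a (x : l → F), x ≠ 0 → tv a (sX x) ∈ H := by
      intro a x hx
      obtain ⟨A, hA⟩ : ∃ A : SpecialLinearGroup l F, A.1 *ᵥ (Pi.single i1 1 : l → F) = x := by
        obtain ⟨g, hg1, hg2⟩ := exists_sl_vec hl (Pi.single i1 1 : l → F) x (ee_ne i1) hx
        exact ⟨⟨g, hg1⟩, hg2⟩
      have h3 := hconj (lv A) a (sX (Pi.single i1 1)) (hL _)
        (fun f => TT_z ψ τ hodd h2 hψ hRK i1 i2 h12 μ hμ a f)
      rw [lv_sX, hA] at h3
      exact h3
    -- moving by one transvection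
    have hmv : ∀ a (x y y' : l → F), y' ⬝ᵥ x ≠ 0 → tv a (sX x + sY y) ∈ H →
        tv a (sX x + sY (y + y')) ∈ H := by
      intro a x y y' hne h3
      have h4 := hconj (tv ((y' ⬝ᵥ x)⁻¹) (sY y')) a (sX x + sY y) (hY _ _) h3
      have h5 : (tv ((y' ⬝ᵥ x)⁻¹) (sY y')).1 *ᵥ (sX x + sY y) = sX x + sY (y + y') := by
        rw [tv_mulVec, bf_add_right, bf_sY, bf_sY, xp_sX, xp_sY, dotProduct_zero, add_zero,
          inv_mul_cancel₀ hne, one_smul, sY_add, add_assoc]
      rw [h5] at h4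
      exact h4
    intro a u
    have hu : u = sX (xp u) + sY (yp u) := by
      ext k; rcases k with k | k <;> simp [sX, sY, xp, yp]
    rw [hu]
    by_cases hx : xp u = 0
    · rw [hx, sX_zero, zero_add]; exact hY _ _
    · have h0 : tv a (sX (xp u) + sY 0) ∈ H := by
        rw [sY_zero, add_zero]; exact hX _ _ hx
      by_cases hy : yp u ⬝ᵥ xp u = 0
      · obtain ⟨w, hw⟩ := exists_dot_one (xp u) hx
        have h3 := hmv a (xp u) 0 w (by rw [hw]; exact one_ne_zero) h0
        have h4 := hmv a (xp u) (0 + w) (yp u - w) (by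
          rw [sub_dotProduct, hy, hw, zero_sub]; exact neg_ne_zero.mpr one_ne_zero) h3
        have h5 : (0 + w) + (yp u - w) = yp u := by abel
        rw [h5] at h4
        exact h4
      · have h3 := hmv a (xp u) 0 (yp u) hy h0
        rw [zero_add] at h3
        exact h3
  have : g ∈ H := by rw [hHt]; trivial
  exact this f

include hodd hRK h12 hμ in
theorem TT_ne (hμ0 : μ ≠ 0) : ∃ f, TT ψ τ h2 hψ i1 i2 μ f ≠ 0 := by
  refine ⟨dl (Pi.single i1 1), ?_⟩
  rw [TT_apply]
  have : dl (Pi.single i1 1 : l → F) (0 : l → F) = 0 := by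
    rw [dl, Pi.single_apply, if_neg]
    exact fun h => ee_ne i1 h.symm
  rw [this, zero_smul, add_zero]
  exact Tp_e1 ψ τ hodd h2 hψ hRK i1 μ hμ0 hμ

end H44.SpW
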