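import Cfsg.Agent.Lib.H44.SpC2
import Cfsg.Agent.Lib.H44.SpW8

/-! Dichotomy: a nontrivial representation of the symplectic group either has large degree or has
the rank one property. -/

set_option autoImplicit false
set_option linter.unusedSectionVars false
set_option linter.unusedSimpArgs false

open Matrix H6.Symp H44.Weil H44.LSLinear H44.LSForms H44.LSBound H44.LSWeights H44.LSSp H44.SpC

namespace H44.SpW

section proj

variable {K : Type*} [Field K] {V : Type*} [AddCommGroup V] [Module K V]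
variable {A : Type*} [CommGroup A]

/-- the projections add up to the identity -/
theorem exists_proj_ne [Finite A] [HasEnoughRootsOfUnity K (Monoid.exponent A)] [Fintype A]
    (hA : (Nat.card A : K) ≠ 0) (τ : A →* Module.End K V) (v : V) (hv : v ≠ 0) :
    ∃ χ : A →* Kˣ, proj τ χ v ≠ 0 := by
  classical
  have : Finite (A →* Kˣ) := by
    have h := CommGroup.card_monoidHom_of_hasEnoughRootsOfUnity A K
    exact Nat.finite_of_card_ne_zero (by rw [h]; exact Nat.card_pos.ne')
  have : Fintype (A →* Kˣ) := Fintype.ofFinite _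
  have hcard : Fintype.card (A →* Kˣ) = Fintype.card A := by
    rw [← Nat.card_eq_fintype_card, CommGroup.card_monoidHom_of_hasEnoughRootsOfUnity,
      Nat.card_eq_fintype_card]
  rw [Nat.card_eq_fintype_card] at hA
  have hsum : ∑ χ : A →* Kˣ, proj τ χ = 1 := by
    have h1 : ∀ a : A, a ≠ 1 → ∑ χ : A →* Kˣ, (((χ a)⁻¹ : Kˣ) : K) = 0 := by
      intro a ha
      obtain ⟨φ, hφ⟩ := CommGroup.exists_apply_ne_one_of_hasEnoughRootsOfUnity A K ha
      have h2 : ∑ χ : A →* Kˣ, (((χ a)⁻¹ : Kˣ) : K) =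
          (((φ a)⁻¹ : Kˣ) : K) * ∑ χ : A →* Kˣ, (((χ a)⁻¹ : Kˣ) : K) := by
        rw [Finset.mul_sum, ← Equiv.sum_comp (Equiv.mulLeft φ)]
        refine Finset.sum_congr rfl (fun χ _ => ?_)
        simp [mul_comm]
      have h3 : ((((φ a)⁻¹ : Kˣ) : K) - 1) * ∑ χ : A →* Kˣ, (((χ a)⁻¹ : Kˣ) : K) = 0 := by
        rw [sub_mul, one_mul, ← h2, sub_self]
      rcases mul_eq_zero.mp h3 with h4 | h4
      · exfalso
        apply hφ
        have h5 : (φ a)⁻¹ = 1 := Units.ext (by rw [Units.val_one]; exact sub_eq_zero.mp h4)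
        exact inv_eq_one.mp h5
      · exact h4
    simp only [proj]
    rw [← Finset.smul_sum, Finset.sum_comm]
    have h6 : ∀ a : A, ∑ χ : A →* Kˣ, (((χ a)⁻¹ : Kˣ) : K) • τ a =
        if a = 1 then (Fintype.card A : K) • (1 : Module.End K V) else 0 := by
      intro a
      rw [← Finset.sum_smul]
      split_ifs with h
      · subst h
        simp [hcard]
      · rw [h1 a h, zero_smul]
    simp only [h6]
    rw [Finset.sum_ite_eq' Finset.univ (1 : A), if_pos (Finset.mem_univ _), smul_smul,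
      inv_mul_cancel₀ hA, one_smul]
  by_contra hcon
  push Not at hcon
  apply hv
  have h7 := LinearMap.congr_fun hsum v
  rw [LinearMap.sum_apply, Finset.sum_eq_zero (fun χ _ => hcon χ)] at h7
  exact h7.symm

end proj

variable {F : Type*} [Field F] [Fintype F] [DecidableEq F] (ψ : AddChar F ℂ)

/-- the character as a homomorphism to units -/
noncomputable def pu : Multiplicative F →* ℂˣ := MonoidHom.toHomUnits ψ.toMonoidHom

theorem pu_apply (a : F) : ((pu ψ (Multiplicative.ofAdd a) : ℂˣ) : ℂ) = ψ a := rfl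

variable {l : Type*} [Fintype l] [DecidableEq l]

theorem mem_rank1 (x : l → F) (a : F) : -(a • vecMulVec x x) ∈ Hm l (RingHom.id F) := by
  apply mem_Hm_id
  rw [transpose_neg, transpose_smul, transpose_vecMulVec]

theorem tvX_unip (a : F) (x : l → F) :
    tv a (sX x) = unip l F (Multiplicative.ofAdd ⟨-(a • vecMulVec x x), mem_rank1 x a⟩) := by
  apply ext_mulVec
  intro w
  rw [tv_mulVec, bf_sX, unip_coe, toAdd_ofAdd, fromBlocks_mulVec]
  ext k
  rcases k with k | k
  · simp only [Sum.elim_inl, one_mulVec, Pi.add_apply, Pi.smul_apply, smul_eq_mul, sX,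
      neg_mulVec, smul_mulVec, vecMulVec_mulVec, Pi.neg_apply, Function.comp]
    have : x ⬝ᵥ (w ∘ Sum.inr) = x ⬝ᵥ yp w := rfl
    rw [MulOpposite.smul_eq_mul_unop, MulOpposite.unop_op, this]
    ring
  · simp [sX]

theorem chi_tvX (b : Matrix l l F) (a : F) (x : l → F) :
    ((chi (RingHom.id F) (pu ψ) b (Multiplicative.ofAdd ⟨-(a • vecMulVec x x), mem_rank1 x a⟩) :
      ℂˣ) : ℂ) = ψ (-(x ⬝ᵥ (b *ᵥ x)) * a) := by
  rw [chi_apply, pu_apply, toAdd_ofAdd]
  congr 1
  simp only
  rw [mul_neg, trace_neg, Matrix.mul_smul, trace_smul, mul_vecMulVec, trace_vecMulVec,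
    dotProduct_comm, smul_eq_mul]
  ring

variable {V : Type*} [AddCommGroup V] [Module ℂ V]

theorem J_sX (x : l → F) : (SymplecticGroup.symJ l F).1 *ᵥ sX x = sY x := by
  change J l F *ᵥ _ = _
  rw [J, sX, fromBlocks_mulVec]
  ext k
  rcases k with k | k <;> simp [sY]

/-- The dichotomy. -/
theorem dichotomy (hψ : ψ ≠ 1) (h2 : (2 : F) ≠ 0) (hodd : Fintype.card F % 2 = 1) {m : ℕ}
    [FiniteDimensional ℂ V] (τ : symplecticGroup (Fin (m + 1)) F →* Module.End ℂ V)
    (hnt : ∃ g, τ g ≠ 1) :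
    ((Fintype.card F ^ (m + 1) - 1 : ℤ) * (Fintype.card F ^ (m + 1) - Fintype.card F) ≤
        2 * (Fintype.card F + 1) * Module.finrank ℂ V) ∨
    (RK ψ τ ∧ ∃ (c : F) (r : Fin (m + 1) → F) (v : V), c ≠ 0 ∧ r ≠ 0 ∧ v ≠ 0 ∧
      ∀ y, Wt ψ τ (sY y) (-(c * (r ⬝ᵥ y) ^ 2)) v) := by
  classical
  set l := Fin (m + 1) with hl
  have hp : (Fintype.card F : ℂ) ≠ 0 := by
    rw [Nat.cast_ne_zero]
    exact Fintype.card_ne_zero
  set σ := RingHom.id F with hσd
  have hσ : ∀ x, σ (σ x) = x := fun x => rfl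
  have hsep := H44.LSSp.eq_zero_of_diag (l := l) h2
  have hfix : ∀ D ∈ Hm l σ, ∀ x, σ (fm σ D x x) = fm σ D x x := fun D _ x => rfl
  have hfinM : Finite (Matrix l l F) := by
    have : Finite (l → l → F) := inferInstance
    exact this
  have hfin : Finite (Multiplicative (Hm l σ)) := inferInstance
  have : Fintype (Multiplicative (Hm l σ)) := Fintype.ofFinite _
  have hpK : ((ringChar F : ℕ) : ℂ) ≠ 0 := ringChar_ne_zero hp
  have hexpA : Monoid.exponent (Multiplicative (Hm l σ)) ∣ ringChar F := exponent_Hm σ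
  have hne : NeZero ((Monoid.exponent (Multiplicative (Hm l σ)) : ℕ) : ℂ) := by
    refine ⟨fun h0 => hpK ?_⟩
    obtain ⟨c, hc⟩ := hexpA
    rw [hc, Nat.cast_mul, h0, zero_mul]
  have : HasEnoughRootsOfUnity ℂ (Monoid.exponent (Multiplicative (Hm l σ))) := inferInstance
  have hcardA : (Nat.card (Multiplicative (Hm l σ)) : ℂ) ≠ 0 := card_Hm_ne_zero σ hp
  have hψ' : ∃ c, σ c = c ∧ pu ψ (Multiplicative.ofAdd c) ≠ 1 := by
    obtain ⟨b, hb⟩ : ∃ b, ψ b ≠ 1 := by
      by_contra hcon
      push Not at hcon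
      exact hψ (by ext x; rw [hcon x, AddChar.one_apply])
    refine ⟨b, rfl, ?_⟩
    intro h
    apply hb
    rw [← pu_apply, h, Units.val_one]
  have hfinC : Finite (Multiplicative (Hm l σ) →* ℂˣ) := by
    have h := CommGroup.card_monoidHom_of_hasEnoughRootsOfUnity (Multiplicative (Hm l σ)) ℂ
    exact Nat.finite_of_card_ne_zero (by rw [h]; exact Nat.card_pos.ne')
  have hsurj : Function.Surjective (fun S : Hm l σ => chi (K := ℂ) σ (pu ψ) S.1) := by
    have h1 : Function.Injective (fun S : Hm l σ => chi (K := ℂ) σ (pu ψ) S.1) := by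
      intro S T h
      exact Subtype.ext (chi_inj hσ hsep (pu ψ) hψ' hfix S.2 T.2 h)
    have h3 : Nat.card (Hm l σ) = Nat.card (Multiplicative (Hm l σ) →* ℂˣ) := by
      rw [CommGroup.card_monoidHom_of_hasEnoughRootsOfUnity]
      exact Nat.card_congr Multiplicative.ofAdd
    exact ((Nat.bijective_iff_injective_and_card _).mpr ⟨h1, h3⟩).2
  -- the weights
  let Xs : Set (Matrix l l F) :=
    {S | S ∈ Hm l σ ∧ wt (τ.comp (unip l F)) (chi σ (pu ψ) S) ≠ ⊥}
  have hXf : Xs.Finite := Set.toFinite _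
  let X : Finset (Matrix l l F) := hXf.toFinset
  have hX : ∀ S, S ∈ X ↔ S ∈ Hm l σ ∧ wt (τ.comp (unip l F)) (chi σ (pu ψ) S) ≠ ⊥ := by
    intro S; exact hXf.mem_toFinset
  have hsymm : ∀ S ∈ Hm l σ, Sᵀ = S := by
    intro S hS
    rw [mem_Hm] at hS
    exact hS
  have hgood : Good X := by
    refine ⟨fun S hS => hsymm S ((hX S).mp hS).1, ?_⟩
    intro S hS g hg
    rw [hX] at hS ⊢
    have hunit : IsUnit g.det := isUnit_iff_ne_zero.mpr hg
    have hgi : g * g⁻¹ = 1 := mul_nonsing_inv g hunit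
    have hgi2 : g⁻¹ * g = 1 := nonsing_inv_mul g hunit
    rw [← cong_id]
    refine ⟨cong_mem hσ g S hS.1, ?_⟩
    -- the Levi element
    have h5 := levi_mem (g⁻¹) (by rw [det_nonsing_inv]; simpa using hg)
    rw [nonsing_inv_nonsing_inv g hunit] at h5
    set L : symplecticGroup l F := ⟨fromBlocks g⁻¹ 0 0 gᵀ, h5⟩ with hLd
    have hL : ∀ a : Hm l σ, L * unip l F (Multiplicative.ofAdd a) =
        unip l F (Multiplicative.ofAdd
          ⟨(g⁻¹).map σ * a.1 * (g⁻¹)ᵀ, act_mem hσ _ _ a.2⟩) * L := by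
      intro a
      apply Subtype.ext
      simp only [Submonoid.coe_mul, unip_coe, toAdd_ofAdd, hLd, fromBlocks_multiply]
      have h6 : (g⁻¹)ᵀ * gᵀ = 1 := by rw [← transpose_mul, mul_nonsing_inv g hunit, transpose_one]
      have h7 : (g⁻¹).map σ = g⁻¹ := by ext i j; simp [hσd]
      rw [h7]
      simp [mul_assoc, h6]
    have hLinj : Function.Injective (τ L : V →ₗ[ℂ] V) := by
      intro v w h
      have h1 : τ L⁻¹ (τ L v) = τ L⁻¹ (τ L w) := by rw [h]
      rw [← Module.End.mul_apply, ← Module.End.mul_apply, ← map_mul, inv_mul_cancel,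
        map_one] at h1
      exact h1
    refine wt_map_ne_bot (τ.comp (unip l F)) (τ L) hLinj
      (fun a => Multiplicative.ofAdd ⟨(g⁻¹).map σ * (Multiplicative.toAdd a).1 * (g⁻¹)ᵀ,
        act_mem hσ _ _ (Multiplicative.toAdd a).2⟩) ?_ ?_ (chi σ (pu ψ) S) _ ?_ hS.2
    · intro a v
      rw [MonoidHom.comp_apply, MonoidHom.comp_apply, ← Module.End.mul_apply,
        ← Module.End.mul_apply, ← map_mul, ← map_mul]
      have := hL (Multiplicative.toAdd a)
      rw [ofAdd_toAdd] at this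
      rw [this]
    · intro a
      refine ⟨Multiplicative.ofAdd ⟨g.map σ * (Multiplicative.toAdd a).1 * gᵀ,
        act_mem hσ _ _ (Multiplicative.toAdd a).2⟩, ?_⟩
      apply Multiplicative.toAdd.injective
      apply Subtype.ext
      simp only [toAdd_ofAdd]
      have h2 : gᵀ * (g⁻¹)ᵀ = 1 := by rw [← transpose_mul, hgi2, transpose_one]
      have h3 : (g⁻¹).map σ * g.map σ = 1 := by
        rw [← Matrix.map_mul, hgi2, Matrix.map_one _ (map_zero σ) (map_one σ)]
      calc (g⁻¹).map σ * (g.map σ * (Multiplicative.toAdd a).1 * gᵀ) * (g⁻¹)ᵀ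
          = ((g⁻¹).map σ * g.map σ) * (Multiplicative.toAdd a).1 * (gᵀ * (g⁻¹)ᵀ) := by
            simp only [mul_assoc]
        _ = (Multiplicative.toAdd a).1 := by rw [h2, h3, one_mul, mul_one]
    · intro a
      rw [chi_apply, chi_apply, toAdd_ofAdd]
      congr 2
      simp only
      have h2 : (g⁻¹)ᵀ * gᵀ = 1 := by rw [← transpose_mul, hgi, transpose_one]
      have h3 : g.map σ * (g⁻¹).map σ = 1 := by
        rw [← Matrix.map_mul, hgi, Matrix.map_one _ (map_zero σ) (map_one σ)]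
      calc (cong σ g S * ((g⁻¹).map σ * (Multiplicative.toAdd a).1 * (g⁻¹)ᵀ)).trace
          = ((gᵀ * S * (g.map σ * (g⁻¹).map σ) * (Multiplicative.toAdd a).1) *
              (g⁻¹)ᵀ).trace := by
            rw [cong]; simp only [mul_assoc]
        _ = ((g⁻¹)ᵀ * (gᵀ * S * (Multiplicative.toAdd a).1)).trace := by
            rw [h3, mul_one, trace_mul_comm]
        _ = (((g⁻¹)ᵀ * gᵀ) * (S * (Multiplicative.toAdd a).1)).trace := by
            simp only [mul_assoc]
        _ = (S * (Multiplicative.toAdd a).1).trace := by rw [h2, one_mul]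
  by_cases hr : ∃ S ∈ X, rk2 S
  · left
    have h3 := count2 h2 hodd m X hgood hr
    have h4 := card_le (K := ℂ) hcardA (τ.comp (unip l F)) (X.image (chi σ (pu ψ))) 1 (by
      intro χ hχ
      obtain ⟨S, hS, rfl⟩ := Finset.mem_image.mp hχ
      exact one_le_finrank _ ((hX S).mp hS).2)
    rw [mul_one, Finset.card_image_of_injOn] at h4
    · have h5 : (X.card : ℤ) ≤ Module.finrank ℂ V := by exact_mod_cast h4
      refine h3.trans ?_
      apply mul_le_mul_of_nonneg_left h5
      positivity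
    · intro S hS T hT h
      have h6 := (hX S).mp (Finset.mem_coe.mp hS)
      have h7 := (hX T).mp (Finset.mem_coe.mp hT)
      exact chi_inj hσ hsep (pu ψ) hψ' hfix h6.1 h7.1 h
  · right
    push Not at hr
    simp only [rk2, not_exists, ne_eq, not_not] at hr
    -- vectors in a weight space
    have hwt : ∀ (b : Matrix l l F) (v : V), v ∈ wt (τ.comp (unip l F)) (chi σ (pu ψ) b) →
        ∀ x, Wt ψ τ (sX x) (-(x ⬝ᵥ (b *ᵥ x))) v := by
      intro b v hv x a
      have h3 := mem_wt.mp hv (Multiplicative.ofAdd ⟨-(a • vecMulVec x x), mem_rank1 x a⟩)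
      rw [MonoidHom.comp_apply, ← tvX_unip, chi_tvX] at h3
      exact h3
    refine ⟨?_, ?_⟩
    · apply RK_of_Y
      intro y y' v hv κ γ δ h1 h3 h4
      -- bring to the other Lagrangian
      set j := (SymplecticGroup.symJ l F)⁻¹ with hj
      have hjY : ∀ y, j.1 *ᵥ sY y = sX y := by
        intro y
        rw [hj, inv_mulVec_eq_iff, J_sX]
      have k1 := wt_conj ψ τ j h1
      have k3 := wt_conj ψ τ j h3
      have k4 := wt_conj ψ τ j h4
      rw [hjY] at k1 k3 k4
      have hv' := g_inj τ j hv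
      set v' := τ j v with hv'd
      obtain ⟨χ, hχ⟩ := exists_proj_ne hcardA (τ.comp (unip l F)) v' hv'
      obtain ⟨⟨b, hb⟩, hbχ⟩ := hsurj χ
      simp only at hbχ
      set v2 := proj (τ.comp (unip l F)) χ v' with hv2
      have hmem : v2 ∈ wt (τ.comp (unip l F)) (chi σ (pu ψ) b) := by
        rw [hbχ]; exact proj_mem _ _ _
      have hbX : b ∈ X := by
        rw [hX]
        refine ⟨hb, ?_⟩
        intro h0
        rw [h0, Submodule.mem_bot] at hmem
        exact hχ hmem
      -- the projection preserves the weights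
      have hpres : ∀ x κ, Wt ψ τ (sX x) κ v' → Wt ψ τ (sX x) κ v2 := by
        intro x κ hx a
        rw [hv2, tvX_unip]
        have h5 : τ (unip l F (Multiplicative.ofAdd ⟨-(a • vecMulVec x x), mem_rank1 x a⟩)) v' =
            ψ (κ * a) • v' := by rw [← tvX_unip]; exact hx a
        rw [proj, LinearMap.smul_apply, LinearMap.sum_apply, map_smul, map_sum, smul_comm]
        congr 1
        rw [Finset.smul_sum]
        refine Finset.sum_congr rfl (fun c _ => ?_)
        rw [LinearMap.smul_apply, map_smul, MonoidHom.comp_apply, ← Module.End.mul_apply,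
          ← map_mul, ← map_mul, mul_comm, map_mul, map_mul, Module.End.mul_apply, h5, map_smul,
          smul_comm]
      have m1 := hpres _ _ k1
      have m3 := hpres _ _ k3
      have m4 := hpres _ _ k4
      have w1 := wt_unique ψ τ hψ hχ m1 (hwt b v2 hmem _)
      have w3 := wt_unique ψ τ hψ hχ m3 (hwt b v2 hmem _)
      have w4 := wt_unique ψ τ hψ hχ m4 (hwt b v2 hmem _)
      have hbs := hsymm b hb
      have hr2 := hr b hbX y y'
      have hs := form_symm b hbs y' y
      rw [w1, w3, w4, mulVec_add, dotProduct_add, add_dotProduct, add_dotProduct, hs]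
      linear_combination (-4) * hr2
    · obtain ⟨b0, hb0⟩ : ∃ b, τ (unip l F b) ≠ 1 := by
        by_contra hcon
        push Not at hcon
        obtain ⟨g, hg⟩ := hnt
        exact hg (eq_one_of_unip τ hcon g)
      obtain ⟨χ, hχ, hχb⟩ := exists_weight hcardA (τ.comp (unip l F)) b0 hb0
      obtain ⟨⟨b, hb⟩, hbχ⟩ := hsurj χ
      simp only at hbχ
      have hbs := hsymm b hb
      have hb0' : b ≠ 0 := by
        rintro rfl
        apply hχb
        rw [← hbχ, chi_apply, zero_mul, trace_zero, ofAdd_zero, map_one]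
      rw [← hbχ] at hχ
      have hbX : b ∈ X := by
        rw [hX]; exact ⟨hb, hχ⟩
      obtain ⟨x0, hx0⟩ := exists_diag_ne h2 b hbs hb0'
      obtain ⟨v, hv, hv0⟩ := (Submodule.ne_bot_iff _).mp hχ
      refine ⟨(x0 ⬝ᵥ (b *ᵥ x0))⁻¹, b *ᵥ x0, τ (SymplecticGroup.symJ l F) v, inv_ne_zero hx0, ?_,
        g_inj τ _ hv0, ?_⟩
      · intro h0
        rw [h0, dotProduct_zero] at hx0
        exact hx0 rfl
      · intro y
        have h3 := wt_conj ψ τ (SymplecticGroup.symJ l F) (hwt b v hv y)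
        rw [J_sX] at h3
        have h4 : y ⬝ᵥ (b *ᵥ y) = (x0 ⬝ᵥ (b *ᵥ x0))⁻¹ * ((b *ᵥ x0) ⬝ᵥ y) ^ 2 := by
          have h5 := hr b hbX x0 y
          rw [form_symm b hbs x0 y, dotProduct_comm y (b *ᵥ x0)] at h5
          field_simp
          linear_combination h5
        rw [h4] at h3
        exact h3

end H44.SpW
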