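import Cfsg.Agent.Lib.H44.LSSp

/-! Counting sets of symmetric matrices closed under congruence that contain a matrix of rank at
least two. -/

set_option autoImplicit false
set_option linter.unusedSectionVars false
set_option linter.unusedSimpArgs false

open Matrix H44.LSLinear H44.LSForms H44.LSBound

namespace H44.SpC

variable {F : Type*} [Field F] [Fintype F] [DecidableEq F]

/-- symmetric and closed under congruence -/
def Good {ι : Type*} [Fintype ι] [DecidableEq ι] (Ω : Finset (Matrix ι ι F)) : Prop :=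
  (∀ S ∈ Ω, Sᵀ = S) ∧ ∀ S ∈ Ω, ∀ g : Matrix ι ι F, g.det ≠ 0 → gᵀ * S * g ∈ Ω

/-- rank at least two -/
def rk2 {ι : Type*} [Fintype ι] (S : Matrix ι ι F) : Prop :=
  ∃ x y : ι → F, (x ⬝ᵥ (S *ᵥ x)) * (y ⬝ᵥ (S *ᵥ y)) ≠ (x ⬝ᵥ (S *ᵥ y)) ^ 2

section basic

variable {ι : Type*} [Fintype ι] [DecidableEq ι]

theorem form_cong (S g : Matrix ι ι F) (x y : ι → F) :
    x ⬝ᵥ ((gᵀ * S * g) *ᵥ y) = (g *ᵥ x) ⬝ᵥ (S *ᵥ (g *ᵥ y)) := by
  rw [← mulVec_mulVec, ← mulVec_mulVec, dotProduct_mulVec x gᵀ, vecMul_transpose]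

theorem form_symm (S : Matrix ι ι F) (hS : Sᵀ = S) (x y : ι → F) :
    x ⬝ᵥ (S *ᵥ y) = y ⬝ᵥ (S *ᵥ x) := by
  rw [dotProduct_mulVec, ← mulVec_transpose, hS, dotProduct_comm]

theorem rk2_cong (S g : Matrix ι ι F) (hg : g.det ≠ 0) (h : rk2 S) : rk2 (gᵀ * S * g) := by
  obtain ⟨x, y, hxy⟩ := h
  have hu : IsUnit g.det := isUnit_iff_ne_zero.mpr hg
  refine ⟨g⁻¹ *ᵥ x, g⁻¹ *ᵥ y, ?_⟩
  have e1 : ∀ w, g *ᵥ (g⁻¹ *ᵥ w) = w := fun w => by
    rw [mulVec_mulVec, mul_nonsing_inv g hu, one_mulVec]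
  rw [form_cong, form_cong, form_cong, e1, e1]
  exact hxy

theorem fm_id (S : Matrix ι ι F) (x y : ι → F) : fm (RingHom.id F) S x y = x ⬝ᵥ (S *ᵥ y) := rfl

theorem cong_id (g S : Matrix ι ι F) : cong (RingHom.id F) g S = gᵀ * S * g := by
  rw [cong]
  congr 1

theorem mem_Hm_id {S : Matrix ι ι F} (hS : Sᵀ = S) : S ∈ Hm ι (RingHom.id F) := by
  rw [mem_Hm]
  exact hS

theorem exists_diag_ne (h2 : (2 : F) ≠ 0) (S : Matrix ι ι F) (hS : Sᵀ = S) (hS0 : S ≠ 0) :
    ∃ x, x ⬝ᵥ (S *ᵥ x) ≠ 0 := by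
  by_contra hcon
  push Not at hcon
  exact hS0 (H44.LSSp.eq_zero_of_diag h2 S (mem_Hm_id hS) hcon)

/-- the first count -/
theorem count1 (h2 : (2 : F) ≠ 0) {m : ℕ} (hm : Fintype.card ι = m + 1)
    (Ω : Finset (Matrix ι ι F)) (hΩ : Good Ω) (S0 : Matrix ι ι F) (hS0 : S0 ∈ Ω) (hne : S0 ≠ 0) :
    Fintype.card F ^ (m + 1) - 1 ≤ Ω.card * 2 := by
  obtain ⟨x0, hx0⟩ := exists_diag_ne h2 S0 (hΩ.1 S0 hS0) hne
  refine count (RingHom.id F) hm Ω ?_ (fun g => g.det ≠ 0) ?_ exists_gl_pair 2 ?_ S0 hS0 x0 hx0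
  · intro S hS x y h
    rw [fm_id] at h ⊢
    rw [← form_symm S (hΩ.1 S hS)]; exact h
  · intro S hS g hg
    rw [cong_id]
    exact hΩ.2 S hS g hg
  · intro d
    apply H44.LSSp.card_sq_le _ d
    intro a ha
    simpa using ha

/-- a symmetric form of rank at most one in dimension at least two is degenerate -/
theorem exists_ker (h2 : (2 : F) ≠ 0) (hι : 2 ≤ Fintype.card ι) (C : Matrix ι ι F) (hC : Cᵀ = C)
    (h : ¬ rk2 C) : ∃ p : ι → F, p ≠ 0 ∧ C *ᵥ p = 0 := by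
  simp only [rk2, not_exists, ne_eq, not_not] at h
  by_cases h0 : C = 0
  · obtain ⟨z, hz⟩ := exists_not_mem_span (F := F) hι (0 : ι → F)
    refine ⟨z, ?_, by rw [h0, zero_mulVec]⟩
    rintro rfl
    exact hz (Submodule.zero_mem _)
  · obtain ⟨x, hx⟩ := exists_diag_ne h2 C hC h0
    obtain ⟨z, hz⟩ := exists_not_mem_span hι x
    set c := x ⬝ᵥ (C *ᵥ x) with hc
    refine ⟨z - (x ⬝ᵥ (C *ᵥ z) / c) • x, ?_, ?_⟩
    · intro h3
      apply hz
      rw [sub_eq_zero.mp h3]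
      exact Submodule.smul_mem _ _ (Submodule.mem_span_singleton_self _)
    · set p := z - (x ⬝ᵥ (C *ᵥ z) / c) • x with hp
      have h3 : x ⬝ᵥ (C *ᵥ p) = 0 := by
        rw [hp, mulVec_sub, mulVec_smul, dotProduct_sub, dotProduct_smul, ← hc, smul_eq_mul]
        field_simp
        ring
      have h4 : p ⬝ᵥ (C *ᵥ p) = 0 := by
        have := h x p
        rw [h3, ← hc] at this
        rcases mul_eq_zero.mp (this.trans (by ring)) with h5 | h5
        · exact absurd h5 hx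
        · exact h5
      have h5 : ∀ w, w ⬝ᵥ (C *ᵥ p) = 0 := by
        intro w
        have := h p w
        rw [h4, zero_mul] at this
        rw [form_symm C hC]
        exact pow_eq_zero_iff (two_ne_zero)|>.mp this.symm
      ext i
      have := h5 (Pi.single i 1)
      rw [single_dotProduct, one_mul] at this
      exact this

/-- forms of rank at least two represent every scalar -/
theorem represents (h2 : (2 : F) ≠ 0) (hodd : Fintype.card F % 2 = 1) (S : Matrix ι ι F)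
    (hS : Sᵀ = S) (h : rk2 S) (a : F) : ∃ z, z ⬝ᵥ (S *ᵥ z) = a := by
  obtain ⟨x, y, hxy⟩ := h
  set A := x ⬝ᵥ (S *ᵥ x) with hA
  set B := x ⬝ᵥ (S *ᵥ y) with hB
  set C := y ⬝ᵥ (S *ᵥ y) with hC
  have hB' : y ⬝ᵥ (S *ᵥ x) = B := form_symm S hS y x
  have hq : ∀ s t : F, (s • x + t • y) ⬝ᵥ (S *ᵥ (s • x + t • y)) =
      A * s ^ 2 + 2 * B * s * t + C * t ^ 2 := by
    intro s t
    rw [mulVec_add, mulVec_smul, mulVec_smul]
    simp only [dotProduct_add, add_dotProduct, dotProduct_smul, smul_dotProduct, smul_eq_mul,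
      ← hA, ← hB, ← hC, hB']
    ring
  -- a non-zero value
  have key : ∀ A' B' C' : F, A' ≠ 0 → A' * C' - B' ^ 2 ≠ 0 →
      ∃ s t : F, A' * s ^ 2 + 2 * B' * s * t + C' * t ^ 2 = a := by
    intro A' B' C' hA' hD
    have hD2 : (A' * C' - B' ^ 2) / A' ≠ 0 := div_ne_zero hD hA'
    let f : Polynomial F := Polynomial.C A' * Polynomial.X ^ 2
    let g : Polynomial F := Polynomial.C ((A' * C' - B' ^ 2) / A') * Polynomial.X ^ 2 -
      Polynomial.C a
    have hf : f.degree = 2 := by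
      simp only [f]
      rw [Polynomial.degree_C_mul_X_pow 2 hA']
      rfl
    have hg : g.degree = 2 := by
      simp only [g]
      rw [Polynomial.degree_sub_C]
      · rw [Polynomial.degree_C_mul_X_pow 2 hD2]; rfl
      · rw [Polynomial.degree_C_mul_X_pow 2 hD2]
        norm_num
    obtain ⟨u, t, hut⟩ := FiniteField.exists_root_sum_quadratic hf hg hodd
    simp only [f, g, Polynomial.eval_mul, Polynomial.eval_C, Polynomial.eval_pow,
      Polynomial.eval_X, Polynomial.eval_sub] at hut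
    refine ⟨u - B' * t / A', t, ?_⟩
    have h3 : A' * (u - B' * t / A') ^ 2 + 2 * B' * (u - B' * t / A') * t + C' * t ^ 2 =
        A' * u ^ 2 + (A' * C' - B' ^ 2) / A' * t ^ 2 := by
      field_simp
      ring
    rw [h3]
    linear_combination hut
  by_cases h3 : A = 0
  · by_cases h4 : C = 0
    · have hB0 : B ≠ 0 := by
        rintro h5
        apply hxy
        rw [h3, h5]; ring
      refine ⟨(1 : F) • x + (a / (2 * B)) • y, ?_⟩
      rw [hq, h3, h4]
      field_simp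
      ring
    · obtain ⟨s, t, hst⟩ := key C B A h4 (by
        intro h5
        apply hxy
        linear_combination h5)
      refine ⟨t • x + s • y, ?_⟩
      rw [hq, ← hst]
      ring
  · obtain ⟨s, t, hst⟩ := key A B C h3 (by
      intro h5
      apply hxy
      linear_combination h5)
    exact ⟨s • x + t • y, by rw [hq, hst]⟩

end basic

section blocks

variable {κ : Type*} [Fintype κ] [DecidableEq κ]

/-- the constant one by one matrix -/
def cst (a : F) : Matrix Unit Unit F := of fun _ _ => a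

/-- block diagonal -/
def dg (a : F) (C : Matrix κ κ F) : Matrix (Unit ⊕ κ) (Unit ⊕ κ) F := fromBlocks (cst a) 0 0 C

theorem form_dg (a : F) (C : Matrix κ κ F) (x y : Unit ⊕ κ → F) :
    x ⬝ᵥ (dg a C *ᵥ y) = a * x (Sum.inl ()) * y (Sum.inl ()) +
      (fun i => x (Sum.inr i)) ⬝ᵥ (C *ᵥ (fun i => y (Sum.inr i))) := by
  rw [dg, fromBlocks_mulVec]
  simp only [dotProduct, Fintype.sum_sum_type, Sum.elim_inl, Sum.elim_inr, zero_mulVec, add_zero,
    zero_add, Finset.univ_unique, Finset.sum_singleton]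
  congr 1
  simp only [mulVec, dotProduct, cst, of_apply, Finset.univ_unique, Finset.sum_singleton,
    Function.comp]
  change _ * (a * y (Sum.inl ())) = _
  ring

/-- the slices -/
def sl (Ω : Finset (Matrix (Unit ⊕ κ) (Unit ⊕ κ) F)) (a : F) : Finset (Matrix κ κ F) :=
  Finset.univ.filter (fun C => dg a C ∈ Ω)

theorem mem_sl {Ω : Finset (Matrix (Unit ⊕ κ) (Unit ⊕ κ) F)} {a : F} {C : Matrix κ κ F} :
    C ∈ sl Ω a ↔ dg a C ∈ Ω := by simp [sl]

theorem good_sl {Ω : Finset (Matrix (Unit ⊕ κ) (Unit ⊕ κ) F)} (hΩ : Good Ω) (a : F) :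
    Good (sl Ω a) := by
  refine ⟨?_, ?_⟩
  · intro C hC
    rw [mem_sl] at hC
    have h := hΩ.1 _ hC
    rw [dg, fromBlocks_transpose] at h
    exact (fromBlocks_inj.mp h).2.2.2
  · intro C hC g hg
    rw [mem_sl] at hC ⊢
    have h := hΩ.2 _ hC (fromBlocks 1 0 0 g) (by
      rw [det_fromBlocks_zero₂₁, det_one, one_mul]; exact hg)
    have h3 : (fromBlocks (1 : Matrix Unit Unit F) 0 0 g)ᵀ * dg a C * fromBlocks 1 0 0 g =
        dg a (gᵀ * C * g) := by
      rw [dg, dg, fromBlocks_transpose, fromBlocks_multiply, fromBlocks_multiply]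
      simp
    rw [h3] at h
    exact h

/-- the row matrix -/
def rw1 (r : κ → F) : Matrix Unit κ F := of fun _ k => r k

theorem cong_unip (a : F) (C : Matrix κ κ F) (r : κ → F) :
    (fromBlocks (1 : Matrix Unit Unit F) (rw1 r) 0 1)ᵀ * dg a C * fromBlocks 1 (rw1 r) 0 1 =
      fromBlocks (cst a) (rw1 (a • r)) (rw1 (a • r))ᵀ (C + of fun i j => a * r i * r j) := by
  rw [dg, fromBlocks_transpose, fromBlocks_multiply, fromBlocks_multiply]
  ext i j
  rcases i with i | i <;> rcases j with j | j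
  · simp
  · simp [Matrix.mul_apply, cst, rw1]
  · simp [Matrix.mul_apply, cst, rw1, mul_comm]
  · simp [Matrix.mul_apply, cst, rw1]
    ring

/-- fibres over the corner entry -/
theorem fiber_le {Ω : Finset (Matrix (Unit ⊕ κ) (Unit ⊕ κ) F)} (hΩ : Good Ω) (a : F)
    (ha : a ≠ 0) : Fintype.card F ^ Fintype.card κ * (sl Ω a).card ≤
      (Ω.filter (fun T => T (Sum.inl ()) (Sum.inl ()) = a)).card := by
  rw [← Fintype.card_fun, ← Finset.card_univ, ← Finset.card_product]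
  apply Finset.card_le_card_of_injOn (fun rC : (κ → F) × Matrix κ κ F =>
    (fromBlocks (1 : Matrix Unit Unit F) (rw1 rC.1) 0 1)ᵀ * dg a rC.2 *
      fromBlocks 1 (rw1 rC.1) 0 1)
  · intro rC hrC
    rw [Finset.mem_coe, Finset.mem_product] at hrC
    rw [Finset.mem_coe, Finset.mem_filter]
    refine ⟨?_, ?_⟩
    · apply hΩ.2 _ (mem_sl.mp hrC.2)
      rw [det_fromBlocks_zero₂₁, det_one, one_mul, det_one]
      exact one_ne_zero
    · simp only [cong_unip]; rfl
  · intro rC _ rC' _ h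
    simp only [cong_unip] at h
    have h3 := fromBlocks_inj.mp h
    have hr : rC.1 = rC'.1 := by
      ext k
      have := congrFun (congrFun h3.2.1 ()) k
      simp only [rw1, of_apply, Pi.smul_apply, smul_eq_mul] at this
      exact mul_left_cancel₀ ha this
    have hC : rC.2 = rC'.2 := by
      have := h3.2.2.2
      rw [hr] at this
      exact add_right_cancel this
    exact Prod.ext hr hC

theorem fiber_zero_le {Ω : Finset (Matrix (Unit ⊕ κ) (Unit ⊕ κ) F)} :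
    (sl Ω (0 : F)).card ≤ (Ω.filter (fun T => T (Sum.inl ()) (Sum.inl ()) = 0)).card := by
  apply Finset.card_le_card_of_injOn (fun C => dg 0 C)
  · intro C hC
    rw [Finset.mem_coe, mem_sl] at hC
    rw [Finset.mem_coe, Finset.mem_filter]
    exact ⟨hC, rfl⟩
  · intro C _ C' _ h
    exact (fromBlocks_inj.mp h).2.2.2

theorem eq_dg (T : Matrix (Unit ⊕ κ) (Unit ⊕ κ) F) (hT : Tᵀ = T) (a : F)
    (h : ∀ y, (Pi.single (Sum.inl ()) 1) ⬝ᵥ (T *ᵥ y) = a * y (Sum.inl ())) :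
    T = dg a T.toBlocks₂₂ := by
  have h1 : ∀ j, T (Sum.inl ()) j = a * (Pi.single j 1 : Unit ⊕ κ → F) (Sum.inl ()) := by
    intro j
    have := h (Pi.single j 1)
    rw [single_dotProduct, one_mul, mulVec_single_one] at this
    exact this
  have hs : ∀ i j, T i j = T j i := fun i j => by
    have := congrFun (congrFun hT j) i
    exact this
  ext i j
  rcases i with i | i <;> rcases j with j | j
  · rw [h1]; simp [dg, cst]
  · rw [h1]; simp [dg, cst]
  · rw [hs, h1]; simp [dg, cst]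
  · rfl

/-- every nonzero slice contains a nonzero matrix -/
theorem exists_slice (h2 : (2 : F) ≠ 0) (hodd : Fintype.card F % 2 = 1)
    {Ω : Finset (Matrix (Unit ⊕ κ) (Unit ⊕ κ) F)} (hΩ : Good Ω)
    (S : Matrix (Unit ⊕ κ) (Unit ⊕ κ) F) (hS : S ∈ Ω) (hr : rk2 S) (a : F) (ha : a ≠ 0) :
    ∃ C ∈ sl Ω a, C ≠ 0 := by
  have hsym := hΩ.1 S hS
  obtain ⟨z, hz⟩ := represents h2 hodd S hsym hr a
  obtain ⟨g, hg1, hg2, hg3⟩ := exists_gl_pair (Pi.single (Sum.inl ()) 1 : Unit ⊕ κ → F) z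
    (a • Pi.single (Sum.inl ()) 1) (S *ᵥ z) a ha
    (by rw [smul_dotProduct, single_dotProduct, Pi.single_eq_same]; simp)
    (by rw [dotProduct_comm]; exact hz)
  have hT := hΩ.2 S hS g hg1
  have hTs := hΩ.1 _ hT
  have heq := eq_dg _ hTs a (by
    intro y
    rw [form_cong, hg2, form_symm S hsym, dotProduct_comm, hg3, smul_dotProduct,
      single_dotProduct, one_mul, smul_eq_mul])
  refine ⟨(gᵀ * S * g).toBlocks₂₂, ?_, ?_⟩
  · rw [mem_sl, ← heq]; exact hT
  · intro h0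
    rw [h0] at heq
    obtain ⟨x, y, hxy⟩ := rk2_cong S g hg1 hr
    apply hxy
    rw [heq, form_dg, form_dg, form_dg]
    simp only [zero_mulVec, dotProduct_zero, add_zero]
    ring

theorem rk2_dg_of_ne (h2 : (2 : F) ≠ 0) (a : F) (ha : a ≠ 0) (C : Matrix κ κ F) (hC : Cᵀ = C)
    (hC0 : C ≠ 0) : rk2 (dg a C) := by
  obtain ⟨x, hx⟩ := exists_diag_ne h2 C hC hC0
  refine ⟨Sum.elim (fun _ => 1) 0, Sum.elim (fun _ => 0) x, ?_⟩
  rw [form_dg, form_dg, form_dg]
  simp only [Sum.elim_inl, Sum.elim_inr, Pi.zero_apply, mul_one, mul_zero, zero_mul, zero_add]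
  have e1 : (fun _ : κ => (0 : F)) = 0 := rfl
  rw [e1, zero_dotProduct, zero_dotProduct, add_zero]
  intro h
  rcases mul_eq_zero.mp (h.trans (by ring)) with h3 | h3
  · exact ha h3
  · exact hx h3

/-- the zero slice -/
theorem exists_slice_zero {Ω : Finset (Matrix (Unit ⊕ κ) (Unit ⊕ κ) F)} (hΩ : Good Ω)
    (S : Matrix (Unit ⊕ κ) (Unit ⊕ κ) F) (hS : S ∈ Ω) (hr : rk2 S) (p : Unit ⊕ κ → F)
    (hp : p ≠ 0) (hSp : S *ᵥ p = 0) : ∃ C ∈ sl Ω (0 : F), rk2 C := by
  have he : (Pi.single (Sum.inl ()) 1 : Unit ⊕ κ → F) ≠ 0 := by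
    intro h; have := congrFun h (Sum.inl ()); simp at this
  obtain ⟨g, hg1, hg2⟩ := exists_gl_vec (Pi.single (Sum.inl ()) 1 : Unit ⊕ κ → F) p he hp
  have hT := hΩ.2 S hS g hg1
  have hTs := hΩ.1 _ hT
  have heq := eq_dg _ hTs 0 (by
    intro y
    rw [form_cong, hg2, form_symm S (hΩ.1 S hS), hSp, dotProduct_zero, zero_mul])
  refine ⟨(gᵀ * S * g).toBlocks₂₂, ?_, ?_⟩
  · rw [mem_sl, ← heq]; exact hT
  · obtain ⟨x, y, hxy⟩ := rk2_cong S g hg1 hr
    rw [heq, form_dg, form_dg, form_dg] at hxy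
    simp only [zero_mul, zero_add] at hxy
    exact ⟨_, _, hxy⟩

end blocks

end H44.SpC
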