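import Cfsg.Agent.Lib.H44.SpC1

/-! The orbit count. -/

set_option autoImplicit false
set_option linter.unusedSectionVars false
set_option linter.unusedSimpArgs false

open Matrix H44.LSLinear H44.LSForms H44.LSBound

namespace H44.SpC

variable {F : Type*} [Field F] [Fintype F] [DecidableEq F]

theorem ar1 (q Q : ℤ) (hq : 3 ≤ q) (hQ : q ^ 2 ≤ Q) :
    (q * Q - 1) * (q * Q - q) ≤ (q - 1) * (Q * ((Q - 1) * (Q - q))) := by
  have h1 : (q - 1) * (q ^ 2 - q) ≤ (q - 1) * (Q - q) :=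
    mul_le_mul_of_nonneg_left (by linarith) (by linarith)
  have h2 : 0 ≤ q * (q * (q - 3) + 1) := by
    apply mul_nonneg (by linarith)
    have : 0 ≤ q * (q - 3) := mul_nonneg (by linarith) (by linarith)
    linarith
  have h11 : q ^ 2 ≤ (q - 1) * (Q - q) := by
    have : (q - 1) * (q ^ 2 - q) - q ^ 2 = q * (q * (q - 3) + 1) := by ring
    linarith
  have hQ0 : 0 ≤ Q - 1 := by
    have : 0 ≤ q ^ 2 - 1 := by
      have : q ^ 2 - 1 = (q - 1) * (q + 1) := by ring
      rw [this]; exact mul_nonneg (by linarith) (by linarith)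
    linarith
  have h12 : Q * q ^ 2 ≤ Q * ((q - 1) * (Q - q)) := mul_le_mul_of_nonneg_left h11 (by linarith)
  have h10 : q * (q * Q - 1) ≤ (q - 1) * (Q * (Q - q)) := by
    have e1 : q * (q * Q - 1) = Q * q ^ 2 - q := by ring
    have e2 : (q - 1) * (Q * (Q - q)) = Q * ((q - 1) * (Q - q)) := by ring
    rw [e1, e2]
    linarith
  have h13 := mul_le_mul_of_nonneg_left h10 hQ0
  have e3 : (q * Q - 1) * (q * Q - q) = (Q - 1) * (q * (q * Q - 1)) := by ring
  have e4 : (q - 1) * (Q * ((Q - 1) * (Q - q))) = (Q - 1) * ((q - 1) * (Q * (Q - q))) := by ring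
  rw [e3, e4]
  exact h13

theorem step {κ : Type*} [Fintype κ] [DecidableEq κ] (h2 : (2 : F) ≠ 0)
    (hodd : Fintype.card F % 2 = 1) {m : ℕ} (hm : Fintype.card κ = m + 1)
    (IH : ∀ Ω : Finset (Matrix κ κ F), Good Ω → (∃ S ∈ Ω, rk2 S) →
      (Fintype.card F ^ (m + 1) - 1 : ℤ) * (Fintype.card F ^ (m + 1) - Fintype.card F) ≤
        2 * (Fintype.card F + 1) * Ω.card)
    (Ω : Finset (Matrix (Unit ⊕ κ) (Unit ⊕ κ) F)) (hΩ : Good Ω) (h : ∃ S ∈ Ω, rk2 S) :
    (Fintype.card F ^ (m + 2) - 1 : ℤ) * (Fintype.card F ^ (m + 2) - Fintype.card F) ≤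
        2 * (Fintype.card F + 1) * Ω.card := by
  obtain ⟨S, hS, hr⟩ := h
  set q := Fintype.card F with hq
  have hq3 : 3 ≤ q := by
    have h1 : 1 < q := Fintype.one_lt_card
    omega
  let fib : F → ℕ := fun a => (Ω.filter (fun T => T (Sum.inl ()) (Sum.inl ()) = a)).card
  have hsum : Ω.card = ∑ a : F, fib a :=
    Finset.card_eq_sum_card_fiberwise (fun x _ => Finset.mem_univ _)
  have hsum2 : Ω.card = fib 0 + ∑ a ∈ Finset.univ.erase (0 : F), fib a := by
    rw [hsum, Finset.add_sum_erase _ _ (Finset.mem_univ _)]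
  have hcard : (Finset.univ.erase (0 : F)).card = q - 1 := by
    rw [Finset.card_erase_of_mem (Finset.mem_univ _), Finset.card_univ]
  -- slices
  have hs1 : ∀ a : F, a ≠ 0 → q ^ (m + 1) - 1 ≤ (sl Ω a).card * 2 := by
    intro a ha
    obtain ⟨C, hC, hC0⟩ := exists_slice h2 hodd hΩ S hS hr a ha
    exact count1 h2 hm _ (good_sl hΩ a) C hC hC0
  have hfib : ∀ a : F, a ≠ 0 → q ^ (m + 1) * (sl Ω a).card ≤ fib a := by
    intro a ha
    have := fiber_le hΩ a ha
    rw [hm] at this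
    exact this
  have hQ1 : 1 ≤ q ^ (m + 1) := Nat.one_le_pow _ _ (by omega)
  have hpow : (q : ℤ) ^ (m + 2) = q * q ^ (m + 1) := by rw [pow_succ']
  obtain ⟨Q, hQ⟩ : ∃ Q : ℕ, Q = q ^ (m + 1) := ⟨_, rfl⟩
  have hQz : (Q : ℤ) = (q : ℤ) ^ (m + 1) := by rw [hQ]; push_cast; rfl
  rw [← hQ] at hs1 hfib hQ1
  rw [hpow, ← hQz]
  have hcardz : ((Finset.univ.erase (0 : F)).card : ℤ) = q - 1 := by
    rw [hcard]; omega
  have hQq : q ≤ Q := by
    rw [hQ, pow_succ]
    exact Nat.le_mul_of_pos_left q (Nat.pow_pos (by omega))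
  -- a lower bound for the sum of fibres
  have hlow : ∀ n : ℤ, (∀ a : F, a ≠ 0 → n ≤ fib a) →
      ((q : ℤ) - 1) * n ≤ ((∑ a ∈ Finset.univ.erase (0 : F), fib a : ℕ) : ℤ) := by
    intro n hn
    have := Finset.card_nsmul_le_sum (Finset.univ.erase (0 : F)) (fun a => (fib a : ℤ)) n
      (fun a ha => hn a (Finset.ne_of_mem_erase ha))
    rw [nsmul_eq_mul, hcardz] at this
    push_cast
    exact this
  have hq3z : (3 : ℤ) ≤ q := by exact_mod_cast hq3
  have hQqz : (q : ℤ) ≤ Q := by exact_mod_cast hQq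
  have hsum3 : (Ω.card : ℤ) = fib 0 + ((∑ a ∈ Finset.univ.erase (0 : F), fib a : ℕ) : ℤ) := by
    exact_mod_cast hsum2
  set Sg : ℤ := ((∑ a ∈ Finset.univ.erase (0 : F), fib a : ℕ) : ℤ) with hSg
  have hSg1 : ((q : ℤ) - 1) * (Q * (Q - 1)) ≤ 2 * Sg := by
    have h3 : ∀ a ∈ Finset.univ.erase (0 : F), (Q : ℤ) * (Q - 1) ≤ 2 * (fib a : ℤ) := by
      intro a ha
      have ha0 := Finset.ne_of_mem_erase ha
      have h4 := hs1 a ha0
      have h5 := hfib a ha0
      have h6 : (Q : ℤ) - 1 ≤ (sl Ω a).card * 2 := by omega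
      have h7 : (Q : ℤ) * (sl Ω a).card ≤ fib a := by exact_mod_cast h5
      nlinarith
    have := Finset.card_nsmul_le_sum (Finset.univ.erase (0 : F)) (fun a => 2 * (fib a : ℤ)) _ h3
    rw [nsmul_eq_mul, hcardz, ← Finset.mul_sum] at this
    rw [hSg]
    push_cast
    exact this
  have hf0 : (0 : ℤ) ≤ fib 0 := by positivity
  by_cases hker : ∃ T ∈ Ω, rk2 T ∧ ∃ p, p ≠ 0 ∧ T *ᵥ p = 0
  · obtain ⟨T, hT, hTr, p, hp, hTp⟩ := hker
    obtain ⟨C, hC, hCr⟩ := exists_slice_zero hΩ T hT hTr p hp hTp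
    have h3 := IH _ (good_sl hΩ 0) ⟨C, hC, hCr⟩
    rw [← hQz] at h3
    have h4 : (sl Ω 0).card ≤ fib 0 := fiber_zero_le
    have h5 : ((sl Ω 0).card : ℤ) ≤ fib 0 := by exact_mod_cast h4
    have h6 : ((Q : ℤ) - 1) * (Q - q) ≤ 2 * (q + 1) * fib 0 := by nlinarith
    have h7 : ((q : ℤ) + 1) * (((q : ℤ) - 1) * (Q * (Q - 1))) ≤ (q + 1) * (2 * Sg) :=
      mul_le_mul_of_nonneg_left hSg1 (by linarith)
    rw [hsum3]
    nlinarith
  · -- all slices consist of matrices of rank at least two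
    push Not at hker
    by_cases hm0 : m = 0
    · subst hm0
      have hQq' : (Q : ℤ) = q := by rw [hQz]; simp
      have h7 : ((q : ℤ) + 1) * (((q : ℤ) - 1) * (Q * (Q - 1))) ≤ (q + 1) * (2 * Sg) :=
        mul_le_mul_of_nonneg_left hSg1 (by linarith)
      rw [hsum3]
      rw [hQq'] at h7 ⊢
      nlinarith
    · have hb : ∀ a : F, a ≠ 0 → ((Q : ℤ) - 1) * (Q - q) ≤ 2 * (q + 1) * (sl Ω a).card := by
        intro a ha
        obtain ⟨C, hC, hC0⟩ := exists_slice h2 hodd hΩ S hS hr a ha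
        have hCs := (good_sl hΩ a).1 C hC
        have hCr : rk2 C := by
          by_contra hcon
          obtain ⟨p, hp, hCp⟩ := exists_ker h2 (by omega) C hCs hcon
          refine hker (dg a C) (mem_sl.mp hC) (rk2_dg_of_ne h2 a ha C hCs hC0)
            (Sum.elim (fun _ => 0) p) ?_ ?_
          · intro h0
            apply hp
            ext k
            exact congrFun h0 (Sum.inr k)
          · rw [dg, fromBlocks_mulVec]
            ext k
            rcases k with k | k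
            · simp only [Sum.elim_inl, zero_mulVec, add_zero, Pi.zero_apply]
              have : (Sum.elim (fun _ => 0) p : Unit ⊕ κ → F) ∘ Sum.inl = 0 := rfl
              rw [this, mulVec_zero]
              simp
            · simp only [Sum.elim_inr, zero_mulVec, zero_add, Pi.zero_apply]
              have : (Sum.elim (fun _ => 0) p : Unit ⊕ κ → F) ∘ Sum.inr = p := rfl
              rw [this, hCp]
              simp
        have h3 := IH _ (good_sl hΩ a) ⟨C, hC, hCr⟩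
        rw [← hQz] at h3
        exact h3
      have h8 : ((q : ℤ) - 1) * (Q * ((Q - 1) * (Q - q))) ≤ 2 * (q + 1) * Sg := by
        have h3 : ∀ a ∈ Finset.univ.erase (0 : F),
            (Q : ℤ) * ((Q - 1) * (Q - q)) ≤ 2 * (q + 1) * (fib a : ℤ) := by
          intro a ha
          have ha0 := Finset.ne_of_mem_erase ha
          have h4 := hb a ha0
          have h5 := hfib a ha0
          have h7 : (Q : ℤ) * (sl Ω a).card ≤ fib a := by exact_mod_cast h5
          calc (Q : ℤ) * ((Q - 1) * (Q - q)) ≤ Q * (2 * (q + 1) * (sl Ω a).card) :=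
                mul_le_mul_of_nonneg_left h4 (by positivity)
            _ = 2 * (q + 1) * (Q * (sl Ω a).card) := by ring
            _ ≤ 2 * (q + 1) * (fib a : ℤ) := mul_le_mul_of_nonneg_left h7 (by positivity)
        have := Finset.card_nsmul_le_sum (Finset.univ.erase (0 : F))
          (fun a => 2 * ((q : ℤ) + 1) * (fib a : ℤ)) _ h3
        rw [nsmul_eq_mul, hcardz, ← Finset.mul_sum] at this
        rw [hSg]
        push_cast
        exact this
      -- Q ≥ q ^ 2
      obtain ⟨R, hR⟩ : ∃ R : ℕ, m + 1 = R + 2 := ⟨m - 1, by omega⟩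
      have hQ2 : (q : ℤ) ^ 2 ≤ Q := by
        rw [hQz, hR]
        exact pow_le_pow_right₀ (by linarith) (by omega)
      have h9 := ar1 q Q hq3z hQ2
      rw [hsum3]
      have h14 : (0 : ℤ) ≤ 2 * (q + 1) * fib 0 := mul_nonneg (by linarith) hf0
      calc ((q : ℤ) * Q - 1) * (q * Q - q) ≤ (q - 1) * (Q * ((Q - 1) * (Q - q))) := h9
        _ ≤ 2 * (q + 1) * Sg := h8
        _ ≤ 2 * (q + 1) * fib 0 + 2 * (q + 1) * Sg := by linarith
        _ = 2 * (q + 1) * (fib 0 + Sg) := by ring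

theorem transport {ι ι' : Type*} [Fintype ι] [DecidableEq ι] [Fintype ι'] [DecidableEq ι']
    (ε : ι' ≃ ι) (Ω : Finset (Matrix ι ι F)) (hΩ : Good Ω) (h : ∃ S ∈ Ω, rk2 S) :
    ∃ Ω' : Finset (Matrix ι' ι' F), Good Ω' ∧ (∃ S ∈ Ω', rk2 S) ∧ Ω'.card = Ω.card := by
  classical
  refine ⟨Ω.image (fun S => S.submatrix ε ε), ⟨?_, ?_⟩, ?_, ?_⟩
  · intro S hS
    obtain ⟨T, hT, rfl⟩ := Finset.mem_image.mp hS
    rw [transpose_submatrix, hΩ.1 T hT]
  · intro S hS g hg
    obtain ⟨T, hT, rfl⟩ := Finset.mem_image.mp hS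
    rw [Finset.mem_image]
    refine ⟨(g.submatrix ε.symm ε.symm)ᵀ * T * g.submatrix ε.symm ε.symm, ?_, ?_⟩
    · apply hΩ.2 T hT
      rw [det_submatrix_equiv_self]; exact hg
    · rw [← submatrix_mul_equiv _ _ _ ε _, ← submatrix_mul_equiv _ _ _ ε _, transpose_submatrix,
        submatrix_submatrix, submatrix_submatrix, Equiv.symm_comp_self, submatrix_id_id,
        submatrix_id_id]
  · obtain ⟨S, hS, x, y, hxy⟩ := h
    refine ⟨S.submatrix ε ε, Finset.mem_image_of_mem _ hS, x ∘ ε, y ∘ ε, ?_⟩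
    have key : ∀ u v : ι → F, (u ∘ ε) ⬝ᵥ (S.submatrix ε ε *ᵥ (v ∘ ε)) = u ⬝ᵥ (S *ᵥ v) := by
      intro u v
      rw [submatrix_mulVec_equiv]
      have : (v ∘ ε) ∘ ε.symm = v := by ext k; simp
      rw [this, comp_equiv_dotProduct_comp_equiv]
    rw [key, key, key]
    exact hxy
  · apply Finset.card_image_of_injective
    intro S T hST
    have := congrArg (fun M => M.submatrix ε.symm ε.symm) hST
    simpa using this

theorem count2 (h2 : (2 : F) ≠ 0) (hodd : Fintype.card F % 2 = 1) (m : ℕ) :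
    ∀ Ω : Finset (Matrix (Fin (m + 1)) (Fin (m + 1)) F), Good Ω → (∃ S ∈ Ω, rk2 S) →
      (Fintype.card F ^ (m + 1) - 1 : ℤ) * (Fintype.card F ^ (m + 1) - Fintype.card F) ≤
        2 * (Fintype.card F + 1) * Ω.card := by
  induction m with
  | zero =>
    intro Ω _ _
    simp only [zero_add, pow_one, sub_self, mul_zero]
    positivity
  | succ m ih =>
    intro Ω hΩ h
    obtain ⟨ε⟩ : Nonempty (Unit ⊕ Fin (m + 1) ≃ Fin (m + 1 + 1)) := by
      apply Fintype.card_eq.mp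
      simp [add_comm]
    obtain ⟨Ω', h3, h4, h5⟩ := transport ε Ω hΩ h
    rw [← h5]
    exact step h2 hodd (Fintype.card_fin _) ih Ω' h3 h4

end H44.SpC
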