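import Cfsg.Agent.Lib.H44.SpA
import Cfsg.Prelude.Def_Characters

/-! Irreducibility of the even part, Schur, and separation of the Weil characters. -/

set_option autoImplicit false
set_option linter.unusedSectionVars false
set_option linter.unusedSimpArgs false

open Matrix H6.Symp H44.Weil H44.LSLinear

namespace H44.SpW

section general

variable {G : Type*} [Group G]
variable {V : Type*} [AddCommGroup V] [Module ℂ V] [FiniteDimensional ℂ V]
variable {W : Type*} [AddCommGroup W] [Module ℂ W] [FiniteDimensional ℂ W]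

theorem isIrr_of_rep (ρ : Representation ℂ G V) (h : ρ.IsIrreducible) :
    Cfsg.IsIrrCharacter G ρ.character := by
  obtain ⟨e⟩ : Nonempty (V ≃ₗ[ℂ] (Fin (Module.finrank ℂ V) → ℂ)) :=
    ⟨LinearEquiv.ofFinrankEq _ _ (by rw [Module.finrank_fintype_fun_eq_card, Fintype.card_fin])⟩
  let ρ' : Representation ℂ G (Fin (Module.finrank ℂ V) → ℂ) :=
    { toFun := fun g => e.conj (ρ g)
      map_one' := by
        rw [map_one]
        apply LinearMap.ext
        intro v
        simp
      map_mul' := fun g g' => by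
        apply LinearMap.ext
        intro v
        simp [LinearEquiv.conj_apply, map_mul] }
  refine ⟨Module.finrank ℂ V, ρ', ?_, ?_⟩
  · refine H44.LSIrr.irr_of_equiv ρ ρ' e ?_ h
    intro g v
    change e (ρ g v) = e (ρ g (e.symm (e v)))
    rw [e.symm_apply_apply]
  · funext g
    change LinearMap.trace ℂ _ (e.conj (ρ g)) = LinearMap.trace ℂ _ (ρ g)
    exact LinearMap.trace_conj' _ _

theorem char_eq_of_hom (ρ : Representation ℂ G V) (ρ' : Representation ℂ G W)
    (h : ρ.IsIrreducible) (h' : ρ'.IsIrreducible) (T : V →ₗ[ℂ] W)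
    (hT : ∀ g v, T (ρ g v) = ρ' g (T v)) (hne : T ≠ 0) : ρ.character = ρ'.character := by
  rw [H44.LSIrr.irr_iff] at h h'
  have h1 : LinearMap.ker T = ⊥ := by
    rcases h.2 (LinearMap.ker T) (by
      intro g v hv
      rw [LinearMap.mem_ker] at hv ⊢
      rw [hT, hv, map_zero]) with h3 | h3
    · exact h3
    · exact absurd (LinearMap.ker_eq_top.mp h3) hne
  have h2 : LinearMap.range T = ⊤ := by
    rcases h'.2 (LinearMap.range T) (by
      rintro g _ ⟨v, rfl⟩
      exact ⟨ρ g v, hT g v⟩) with h3 | h3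
    · exact absurd (LinearMap.range_eq_bot.mp h3) hne
    · exact h3
  let e : V ≃ₗ[ℂ] W := LinearEquiv.ofBijective T
    ⟨LinearMap.ker_eq_bot.mp h1, LinearMap.range_eq_top.mp h2⟩
  funext g
  have h3 : ρ' g = e.conj (ρ g) := by
    apply LinearMap.ext
    intro w
    obtain ⟨v, rfl⟩ := e.surjective w
    rw [LinearEquiv.conj_apply, LinearMap.comp_apply, LinearMap.comp_apply]
    change ρ' g (T v) = T (ρ g (e.symm (e v)))
    rw [e.symm_apply_apply, hT]
  change LinearMap.trace ℂ _ (ρ g) = LinearMap.trace ℂ _ (ρ' g)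
  rw [h3, LinearMap.trace_conj']

/-- irreducibility when a proper nonzero subspace and quotient cannot both be non-trivial and
there are no fixed vectors -/
theorem irr_of_two [Finite G] (ρ : Representation ℂ G V) (hne : ∃ v : V, v ≠ 0)
    (hfix : ∀ v : V, (∀ g, ρ g v = v) → v = 0)
    (hdim : ∀ U : Submodule ℂ V, ∀ (τ1 : G →* Module.End ℂ U) (τ2 : G →* Module.End ℂ (V ⧸ U)),
      (∃ g, τ1 g ≠ 1) → (∃ g, τ2 g ≠ 1) → False) : ρ.IsIrreducible := by
  have : Fintype G := Fintype.ofFinite G
  rw [H44.LSIrr.irr_iff]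
  refine ⟨hne, ?_⟩
  intro U hU
  let τ1 : G →* Module.End ℂ U :=
    { toFun := fun x => (ρ x).restrict (hU x)
      map_one' := by ext; simp
      map_mul' := fun x y => by ext; simp }
  let τ2 : G →* Module.End ℂ (V ⧸ U) :=
    { toFun := fun x => U.mapQ U (ρ x) (hU x)
      map_one' := by ext; simp
      map_mul' := fun x y => by ext; simp }
  by_cases h1 : ∃ g, τ1 g ≠ 1
  · by_cases h2 : ∃ g, τ2 g ≠ 1
    · exact (hdim U τ1 τ2 h1 h2).elim
    · push Not at h2
      right
      rw [Submodule.eq_top_iff']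
      intro v
      have h4 : ∀ g, ρ g v - v ∈ U := by
        intro g
        have h5 : U.mapQ U (ρ g) (hU g) (Submodule.Quotient.mk v) = Submodule.Quotient.mk v :=
          LinearMap.congr_fun (h2 g) (Submodule.Quotient.mk v)
        rw [Submodule.mapQ_apply] at h5
        exact (Submodule.Quotient.eq U).mp h5
      have h5 : ∑ g, ρ g v = 0 := by
        apply hfix
        intro g
        rw [map_sum]
        conv_rhs => rw [← Equiv.sum_comp (Equiv.mulLeft g)]
        refine Finset.sum_congr rfl (fun x _ => ?_)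
        rw [Equiv.coe_mulLeft, map_mul, Module.End.mul_apply]
      have h6 : ∑ g : G, (ρ g v - v) ∈ U := Submodule.sum_mem _ (fun g _ => h4 g)
      rw [Finset.sum_sub_distrib, h5, zero_sub, Finset.sum_const, Finset.card_univ,
        ← Nat.cast_smul_eq_nsmul ℂ] at h6
      have h7 := U.neg_mem h6
      rw [neg_neg] at h7
      have hc : (Fintype.card G : ℂ) ≠ 0 := by
        rw [Nat.cast_ne_zero]; exact Fintype.card_ne_zero
      exact (U.smul_mem_iff hc).mp h7
  · push Not at h1
    left
    rw [Submodule.eq_bot_iff]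
    intro w hw
    apply hfix
    intro g
    have := LinearMap.congr_fun (h1 g) ⟨w, hw⟩
    exact congrArg Subtype.val this

end general

variable {F : Type*} [Field F] [Fintype F] [DecidableEq F] (ψ : AddChar F ℂ)
variable {l : Type*} [Fintype l] [DecidableEq l]

theorem fin_sp : Finite (symplecticGroup l F) := by
  have : Finite (Matrix (l ⊕ l) (l ⊕ l) F) := by
    have : Finite ((l ⊕ l) → (l ⊕ l) → F) := inferInstance
    exact this
  infer_instance

theorem no_fixed [Nontrivial l] (hodd : Odd (Fintype.card F)) (h2 : (2 : F) ≠ 0) (hψ : ψ ≠ 1)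
    (f : (l → F) → ℂ) (hf : ∀ g, om ψ h2 hψ g f = f) : f = 0 := by
  have h3 : ∀ u, u ≠ 0 → f u = 0 := by
    intro u hu
    obtain ⟨b, hb⟩ : ∃ b, ψ b ≠ 1 := by
      by_contra hcon
      push Not at hcon
      exact hψ (by ext x; rw [hcon x, AddChar.one_apply])
    obtain ⟨y, hy⟩ := exists_dot_one u hu
    have h4 := congrFun (hf (tv (-(2 * b)) (sY y))) u
    rw [om_tvY_apply ψ hodd, hy, one_pow, mul_one, mul_neg, neg_neg, ← mul_assoc,
      inv_mul_cancel₀ h2, one_mul] at h4
    have h5 : (ψ b - 1) * f u = 0 := by rw [sub_mul, h4, one_mul, sub_self]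
    rcases mul_eq_zero.mp h5 with h6 | h6
    · exact absurd (sub_eq_zero.mp h6) hb
    · exact h6
  obtain ⟨i, _⟩ := exists_pair_ne l
  set e1 : l → F := Pi.single i 1 with he1
  have he : e1 ≠ 0 := ee_ne i
  have h4 := congrFun (hf (tv 1 (sX e1))) e1
  rw [om_tvX_apply ψ h2 hψ e1 he 1 one_ne_zero, h3 e1 he, Finset.sum_eq_single (-1 : F)] at h4
  · have h5 : e1 + (-1 : F) • e1 = 0 := by rw [neg_one_smul, add_neg_cancel]
    rw [h5] at h4
    have hk : kk ψ h2 hψ e1 1 ≠ 0 := by
      intro h
      have := kk_mul ψ h2 hψ e1 he 1 one_ne_zero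
      rw [h, zero_mul, zero_mul] at this
      exact zero_ne_one this
    have h6 : f 0 = 0 := by
      rcases mul_eq_zero.mp h4 with h7 | h7
      · exact absurd h7 hk
      · rcases mul_eq_zero.mp h7 with h8 | h8
        · exact absurd h8 (char_ne_zero ψ _)
        · exact h8
    ext u
    by_cases hu : u = 0
    · rw [hu, h6]; rfl
    · rw [h3 u hu]; rfl
  · intro t _ ht
    rw [h3, mul_zero]
    intro h5
    have h6 : (1 + t) • e1 = 0 := by rw [add_smul, one_smul, h5]
    rcases smul_eq_zero.mp h6 with h7 | h7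
    · exact ht (by linear_combination h7)
    · exact he h7
  · intro h; exact absurd (Finset.mem_univ _) h

/-- the even part is irreducible -/
theorem even_irreducible (h2 : (2 : F) ≠ 0) (hψ : ψ ≠ 1) (hodd : Odd (Fintype.card F)) {m : ℕ}
    (hm : Fintype.card l = m + 1) (hm2 : 1 ≤ m) :
    (weilPart (l := l) ψ h2 hψ one_sq).IsIrreducible := by
  have hp : (Fintype.card F : ℂ) ≠ 0 := by
    rw [Nat.cast_ne_zero]
    exact Fintype.card_ne_zero
  have : Nontrivial l := Fintype.one_lt_card_iff_nontrivial.mp (by omega)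
  have := fin_sp (F := F) (l := l)
  have hdim : 2 * Module.finrank ℂ (Vs (l → F) 1) = Fintype.card F ^ (m + 1) + 1 := by
    rw [finrank_even h2, Fintype.card_fun, hm]
  have hq3 : 3 ≤ Fintype.card F := by
    have h1 : 1 < Fintype.card F := Fintype.one_lt_card
    obtain ⟨k, hk⟩ := hodd
    omega
  have hN : 9 ≤ Fintype.card F ^ (m + 1) := by
    calc 9 = 3 ^ 2 := by norm_num
      _ ≤ Fintype.card F ^ 2 := Nat.pow_le_pow_left hq3 2
      _ ≤ Fintype.card F ^ (m + 1) := Nat.pow_le_pow_right (by omega) (by omega)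
  apply irr_of_two
  · refine ⟨⟨dl 0, ?_⟩, ?_⟩
    · intro u
      rw [one_mul, dl, Pi.single_apply, Pi.single_apply]
      simp only [neg_eq_zero]
    · intro h
      exact dl_ne (F := F) (0 : l → F) (congrArg Subtype.val h)
  · intro v hv
    apply Subtype.ext
    apply no_fixed ψ hodd h2 hψ
    intro g
    rw [om_apply, ← weilPart_coe ψ h2 hψ one_sq, hv]
  · intro U τ1 τ2 h3 h4
    have h5 := LSSp.lower (V := U) hodd hm hp τ1 h3
    have h6 : Fintype.card F ^ (m + 1) - 1 ≤
      Module.finrank ℂ ((Vs (l → F) 1) ⧸ U) * 2 := LSSp.lower hodd hm hp τ2 h4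
    have h7 := Submodule.finrank_quotient_add_finrank U
    omega

/-! ### weights are determined by the character -/

theorem wt_of_char_eq (hψ : ψ ≠ 1) {V : Type*} [AddCommGroup V] [Module ℂ V]
    [FiniteDimensional ℂ V] {W : Type*} [AddCommGroup W] [Module ℂ W] [FiniteDimensional ℂ W]
    (τ : Representation ℂ (symplecticGroup l F) V) (τ' : Representation ℂ (symplecticGroup l F) W)
    (h : τ.character = τ'.character) (u : l ⊕ l → F) (κ : F) (v : V) (hv : v ≠ 0)
    (hwt : Wt ψ τ u κ v) : ∃ v' : W, v' ≠ 0 ∧ Wt ψ τ' u κ v' := by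
  have htr : LinearMap.trace ℂ V (pj ψ τ u κ) = LinearMap.trace ℂ W (pj ψ τ' u κ) := by
    rw [pj, pj, map_smul, map_smul, map_sum, map_sum]
    congr 1
    refine Finset.sum_congr rfl (fun a _ => ?_)
    rw [map_smul, map_smul]
    congr 1
    exact congrFun h _
  by_contra hcon
  push Not at hcon
  have h0 : pj ψ τ' u κ = 0 := by
    apply LinearMap.ext
    intro w
    by_contra hw
    exact hcon _ hw (pj_wt ψ τ' u κ w)
  rw [h0, map_zero] at htr
  let M : Submodule ℂ V :=
    { carrier := {v | Wt ψ τ u κ v}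
      add_mem' := by
        intro x y hx hy a
        rw [map_add, hx a, hy a, smul_add]
      zero_mem' := wt_zero ψ τ u κ
      smul_mem' := by
        intro c x hx
        exact wt_smul ψ τ c hx }
  have hp : LinearMap.IsProj M (pj ψ τ u κ) := by
    refine ⟨fun v => pj_wt ψ τ u κ v, ?_⟩
    intro x hx
    have hx' : ∀ a, τ (tv a u) x = ψ (κ * a) • x := hx
    rw [pj_apply]
    have : ∀ a ∈ Finset.univ, ψ (-(κ * a)) • τ (tv a u) x = x := by
      intro a _
      rw [hx', smul_smul, ← AddChar.map_add_eq_mul, neg_add_cancel, AddChar.map_zero_eq_one,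
        one_smul]
    rw [Finset.sum_congr rfl this, Finset.sum_const, Finset.card_univ,
      ← Nat.cast_smul_eq_nsmul ℂ, smul_smul, inv_mul_cancel₀, one_smul]
    rw [Nat.cast_ne_zero]
    exact Fintype.card_ne_zero
  rw [hp.trace] at htr
  have h3 : Module.finrank ℂ M = 0 := by exact_mod_cast htr
  have h4 := Submodule.finrank_eq_zero.mp h3
  have h5 : v ∈ M := hwt
  rw [h4, Submodule.mem_bot] at h5
  exact hv h5

/-- the Weil characters for the two classes of additive characters are different -/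
theorem weil_char_ne [Nontrivial l] (hodd : Odd (Fintype.card F)) (h2 : (2 : F) ≠ 0) (hψ : ψ ≠ 1)
    (ν : F) (hν : ¬ IsSquare ν) (hψ' : ψ.mulShift ν ≠ 1) {ε : ℂ} (hε : ε * ε = 1) :
    (weilPart (l := l) ψ h2 hψ hε).character ≠
      (weilPart (l := l) (ψ.mulShift ν) h2 hψ' hε).character := by
  intro h
  obtain ⟨i, _⟩ := exists_pair_ne l
  set e1 : l → F := Pi.single i 1 with he1
  have he : e1 ≠ 0 := ee_ne i
  have hee : e1 ≠ -e1 := by
    intro h3
    have := congrFun h3 i
    simp only [he1, Pi.neg_apply, Pi.single_eq_same] at this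
    apply h2
    linear_combination this
  have hmem : dl e1 + ε • dl (-e1) ∈ Vs (l → F) ε := by
    intro u
    simp only [Pi.add_apply, Pi.smul_apply, dl, Pi.single_apply, smul_eq_mul]
    have e3 : (-u = e1) ↔ (u = -e1) := neg_eq_iff_eq_neg
    have e4 : (-u = -e1) ↔ (u = e1) := neg_inj
    simp only [e3, e4]
    by_cases h3 : u = e1
    · by_cases h4 : u = -e1
      · exact absurd (h3.symm.trans h4) hee
      · rw [if_pos h3, if_neg h4]; ring
    · by_cases h4 : u = -e1
      · rw [if_neg h3, if_pos h4]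
        linear_combination -hε
      · rw [if_neg h3, if_neg h4]; ring
  obtain ⟨v', hv', hwt⟩ := wt_of_char_eq ψ hψ _ _ h (sY e1) (-(2⁻¹)) ⟨_, hmem⟩ (by
    intro h3
    have h4 := congrFun (congrArg Subtype.val h3) e1
    simp only [Pi.add_apply, Pi.smul_apply, dl, Pi.single_apply, smul_eq_mul] at h4
    rw [if_pos trivial, if_neg hee] at h4
    simp at h4) (by
    intro a
    apply Subtype.ext
    rw [weilPart_coe, ← om_apply, Submodule.coe_smul]
    have k1 : e1 ⬝ᵥ e1 = 1 := by simp [he1]
    have k2 : e1 ⬝ᵥ (-e1) = -1 := by rw [dotProduct_neg, k1]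
    change om ψ h2 hψ (tv a (sY e1)) (dl e1 + ε • dl (-e1)) = ψ (-2⁻¹ * a) • (dl e1 + ε • dl (-e1))
    rw [map_add, map_smul, om_tvY ψ hodd, om_tvY ψ hodd, k1, k2]
    have k3 : -(2⁻¹ * a * (1 : F) ^ 2) = -2⁻¹ * a := by ring
    have k4 : -(2⁻¹ * a * (-1 : F) ^ 2) = -2⁻¹ * a := by ring
    rw [k3, k4]
    module)
  have hv0 : (v' : (l → F) → ℂ) ≠ 0 := fun h3 => hv' (Subtype.ext h3)
  obtain ⟨u, hu⟩ := Function.ne_iff.mp hv0
  rw [Pi.zero_apply] at hu
  apply hν
  have h3 : ∀ a, ψ (-(2⁻¹ * ν * (u i) ^ 2) * a) = ψ (-(2⁻¹) * a) := by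
    intro a
    have h4 := congrFun (congrArg Subtype.val (hwt a)) u
    rw [weilPart_coe, ← om_apply, om_tvY_apply _ hodd, Submodule.coe_smul, Pi.smul_apply,
      smul_eq_mul, AddChar.mulShift_apply] at h4
    have h5 := mul_right_cancel₀ hu h4
    rw [← h5]
    congr 1
    rw [he1, single_dotProduct]
    ring
  have h4 := char_inj ψ hψ h3
  have h5 : ν * (u i) ^ 2 = 1 := by
    have h6 : (2 : F)⁻¹ ≠ 0 := inv_ne_zero h2
    apply mul_left_cancel₀ h6
    linear_combination -h4
  have h6 : u i ≠ 0 := by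
    intro h7
    rw [h7] at h5
    simp at h5
  refine ⟨(u i)⁻¹, ?_⟩
  field_simp
  linear_combination h5

end H44.SpW
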