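import Cfsg.Agent.Lib.H44.SpF

/-! Classification of the irreducible characters with the rank one property. -/

set_option autoImplicit false
set_option linter.unusedSectionVars false
set_option linter.unusedSimpArgs false

open Matrix H6.Symp H44.Weil H44.LSLinear

namespace H44.SpW

variable {F : Type*} [Field F] [Fintype F] [DecidableEq F] (ψ : AddChar F ℂ)
variable {l : Type*} [Fintype l] [DecidableEq l]
variable {V : Type*} [AddCommGroup V] [Module ℂ V]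

theorem wt_mulShift (τ : symplecticGroup l F →* Module.End ℂ V) (ν : F) (u : l ⊕ l → F) (κ : F)
    (v : V) : Wt (ψ.mulShift ν) τ u κ v ↔ Wt ψ τ u (ν * κ) v := by
  unfold Wt
  simp only [AddChar.mulShift_apply, mul_assoc]

theorem RK_mulShift (τ : symplecticGroup l F →* Module.End ℂ V) (ν : F) (hν : ν ≠ 0)
    (h : RK ψ τ) : RK (ψ.mulShift ν) τ := by
  intro u w huw v hv κ γ δ h1 h2 h3
  rw [wt_mulShift] at h1 h2 h3
  have h4 := h u w huw v hv _ _ _ h1 h2 h3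
  have h5 : ν ^ 2 * (δ - κ - γ) ^ 2 = ν ^ 2 * (4 * κ * γ) := by linear_combination h4
  exact mul_left_cancel₀ (pow_ne_zero 2 hν) h5

theorem mulShift_ne (hψ : ψ ≠ 1) (ν : F) (hν : ν ≠ 0) : ψ.mulShift ν ≠ 1 := by
  intro h
  apply hψ
  ext x
  have h1 := DFunLike.congr_fun h (ν⁻¹ * x)
  rw [AddChar.mulShift_apply, AddChar.one_apply, ← mul_assoc, mul_inv_cancel₀ hν, one_mul] at h1
  rw [h1, AddChar.one_apply]

theorem exists_scale (h2 : ringChar F ≠ 2) (ν t : F) (hν : ¬ IsSquare ν) (ht : t ≠ 0) :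
    ∃ s : F, s ≠ 0 ∧ (t * s ^ 2 = 1 ∨ t * s ^ 2 = ν) := by
  have hν0 : ν ≠ 0 := by rintro rfl; exact hν ⟨0, by simp⟩
  by_cases h : IsSquare t
  · obtain ⟨u, rfl⟩ := h
    have hu : u ≠ 0 := by rintro rfl; simp at ht
    refine ⟨u⁻¹, inv_ne_zero hu, Or.inl ?_⟩
    field_simp
  · have h3 : IsSquare (t * ν) := by
      rw [← quadraticChar_one_iff_isSquare (mul_ne_zero ht hν0), map_mul,
        quadraticChar_neg_one_iff_not_isSquare.mpr h, quadraticChar_neg_one_iff_not_isSquare.mpr hν]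
      norm_num
    obtain ⟨u, hu⟩ := h3
    have hu0 : u ≠ 0 := by
      rintro rfl
      rw [mul_zero] at hu
      exact mul_ne_zero ht hν0 hu
    refine ⟨u / t, div_ne_zero hu0 ht, Or.inr ?_⟩
    field_simp
    linear_combination -hu

/-- normalising the weight vector -/
theorem exists_mu [Nontrivial l] (h2 : (2 : F) ≠ 0) (h2' : ringChar F ≠ 2)
    (τ : symplecticGroup l F →* Module.End ℂ V) (ν : F) (hν : ¬ IsSquare ν) (i1 : l)
    (c : F) (r : l → F) (v : V) (hc : c ≠ 0) (hr : r ≠ 0) (hv : v ≠ 0)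
    (hw : ∀ y, Wt ψ τ (sY y) (-(c * (r ⬝ᵥ y) ^ 2)) v) :
    ∃ (ν' : F) (μ : V), (ν' = 1 ∨ ν' = ν) ∧ μ ≠ 0 ∧
      ∀ y, Wt ψ τ (sY y) (ν' * (-(2⁻¹ * (y i1) ^ 2))) μ := by
  obtain ⟨s, hs, hs2⟩ := exists_scale h2' ν (2 * c) hν (mul_ne_zero h2 hc)
  have he : (s • Pi.single i1 1 : l → F) ≠ 0 := smul_ne_zero hs (ee_ne i1)
  obtain ⟨A, hA, hAr⟩ := exists_gl_vec r (s • Pi.single i1 1 : l → F) hr he
  refine ⟨2 * c * s ^ 2, τ (lg A hA) v, hs2, g_inj τ _ hv, ?_⟩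
  intro y
  have h3 := wt_conj ψ τ (lg A hA) (hw (Aᵀ *ᵥ y))
  have hu : IsUnit A.det := isUnit_iff_ne_zero.mpr hA
  have h4 : (A⁻¹)ᵀ *ᵥ (Aᵀ *ᵥ y) = y := by
    rw [mulVec_mulVec, ← transpose_mul, mul_nonsing_inv A hu, transpose_one, one_mulVec]
  rw [lg_sY, h4] at h3
  have h5 : r ⬝ᵥ (Aᵀ *ᵥ y) = s * y i1 := by
    rw [dotProduct_mulVec, vecMul_transpose, hAr, smul_dotProduct, single_dotProduct, one_mul,
      smul_eq_mul]
  rw [h5] at h3
  have h6 : -(c * (s * y i1) ^ 2) = 2 * c * s ^ 2 * (-(2⁻¹ * (y i1) ^ 2)) := by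
    field_simp
  rw [h6] at h3
  exact h3

/-- a representation receiving a nonzero homomorphism from the Weil representation -/
theorem char_of_hom [FiniteDimensional ℂ V] (h2 : (2 : F) ≠ 0) (hψ : ψ ≠ 1)
    (hodd : Odd (Fintype.card F)) {m : ℕ}
    (hm : Fintype.card l = m + 1) (hm2 : 1 ≤ m)
    (τ : Representation ℂ (symplecticGroup l F) V) (hτ : τ.IsIrreducible)
    (T : ((l → F) → ℂ) →ₗ[ℂ] V) (hT : ∀ g f, T (om ψ h2 hψ g f) = τ g (T f))
    (hne : ∃ f, T f ≠ 0) :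
    τ.character = (weilPart (l := l) ψ h2 hψ one_sq).character ∨
      τ.character = (weilPart (l := l) ψ h2 hψ neg_one_sq').character := by
  have heq : ∀ {ε : ℂ} (hε : ε * ε = 1) g (f : Vs (l → F) ε),
      (T ∘ₗ (Vs (l → F) ε).subtype) (weilPart ψ h2 hψ hε g f) =
        τ g ((T ∘ₗ (Vs (l → F) ε).subtype) f) := by
    intro ε hε g f
    rw [LinearMap.comp_apply, LinearMap.comp_apply, Submodule.subtype_apply,
      Submodule.subtype_apply, weilPart_coe, ← om_apply, hT]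
  by_cases h1 : T ∘ₗ (Vs (l → F) 1).subtype = 0
  · by_cases h3 : T ∘ₗ (Vs (l → F) (-1)).subtype = 0
    · exfalso
      obtain ⟨f, hf⟩ := hne
      apply hf
      have h4 : f = Pr (l → F) 1 *ᵥ f + Pr (l → F) (-1) *ᵥ f := by
        ext u
        rw [Pi.add_apply, Pr_mulVec, Pr_mulVec]
        ring
      have h5 := LinearMap.congr_fun h1 ⟨_, Pr_mem one_sq f⟩
      have h6 := LinearMap.congr_fun h3 ⟨_, Pr_mem neg_one_sq' f⟩
      rw [LinearMap.comp_apply, Submodule.subtype_apply] at h5 h6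
      rw [h4, map_add]
      change T (Pr (l → F) 1 *ᵥ f) = 0 at h5
      change T (Pr (l → F) (-1) *ᵥ f) = 0 at h6
      rw [h5, h6, add_zero]
    · right
      exact (char_eq_of_hom _ τ (odd_irreducible ψ h2 hψ hodd hm hm2) hτ _
        (heq neg_one_sq') h3).symm
  · left
    exact (char_eq_of_hom _ τ (even_irreducible ψ h2 hψ hodd hm hm2) hτ _ (heq one_sq) h1).symm

/-- The main dichotomy for irreducible representations. -/
theorem main (hψ : ψ ≠ 1) (h2 : (2 : F) ≠ 0) (h2' : ringChar F ≠ 2)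
    (hodd : Odd (Fintype.card F)) {m : ℕ} (hm : 1 ≤ m) (ν : F) (hν : ¬ IsSquare ν)
    (hψ' : ψ.mulShift ν ≠ 1) [FiniteDimensional ℂ V]
    (τ : Representation ℂ (symplecticGroup (Fin (m + 1)) F) V) (hτ : τ.IsIrreducible)
    (hnt : ∃ g, τ g ≠ 1) :
    ((Fintype.card F ^ (m + 1) - 1 : ℤ) * (Fintype.card F ^ (m + 1) - Fintype.card F) ≤
        2 * (Fintype.card F + 1) * Module.finrank ℂ V) ∨
    (τ.character = (weilPart (l := Fin (m + 1)) ψ h2 hψ one_sq).character ∨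
      τ.character = (weilPart (l := Fin (m + 1)) ψ h2 hψ neg_one_sq').character) ∨
    (τ.character = (weilPart (l := Fin (m + 1)) (ψ.mulShift ν) h2 hψ' one_sq).character ∨
      τ.character = (weilPart (l := Fin (m + 1)) (ψ.mulShift ν) h2 hψ' neg_one_sq').character) := by
  rcases dichotomy ψ hψ h2 (Nat.odd_iff.mp hodd) τ hnt with h | ⟨hRK, c, r, v, hc, hr, hv, hw⟩
  · exact Or.inl h
  right
  have : Nontrivial (Fin (m + 1)) := Fintype.one_lt_card_iff_nontrivial.mp (by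
    rw [Fintype.card_fin]; omega)
  obtain ⟨i1, i2, h12⟩ := exists_pair_ne (Fin (m + 1))
  obtain ⟨ν', μ, hν', hμ0, hμ⟩ := exists_mu ψ h2 h2' τ ν hν i1 c r v hc hr hv hw
  have hcard : Fintype.card (Fin (m + 1)) = m + 1 := Fintype.card_fin _
  rcases hν' with rfl | rfl
  · left
    simp only [one_mul] at hμ
    exact char_of_hom ψ h2 hψ hodd hcard hm τ hτ (TT ψ τ h2 hψ i1 i2 μ)
      (TT_all ψ τ hodd h2 hψ hRK i1 i2 h12 μ hμ) (TT_ne ψ τ hodd h2 hψ hRK i1 i2 h12 μ hμ hμ0)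
  · right
    have hν0 : ν' ≠ 0 := by rintro rfl; exact hν ⟨0, by simp⟩
    have hRK' := RK_mulShift ψ τ ν' hν0 hRK
    have hμ' : ∀ y, Wt (ψ.mulShift ν') τ (sY y) (-(2⁻¹ * (y i1) ^ 2)) μ := by
      intro y
      rw [wt_mulShift]
      exact hμ y
    exact char_of_hom (ψ.mulShift ν') h2 hψ' hodd hcard hm τ hτ
      (TT (ψ.mulShift ν') τ h2 hψ' i1 i2 μ)
      (TT_all (ψ.mulShift ν') τ hodd h2 hψ' hRK' i1 i2 h12 μ hμ')
      (TT_ne (ψ.mulShift ν') τ hodd h2 hψ' hRK' i1 i2 h12 μ hμ' hμ0)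

end H44.SpW
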