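import Cfsg.Agent.Lib.H44.WeilRep

/-! Weights of symplectic transvections in a representation, rank one property. -/

set_option autoImplicit false
set_option linter.unusedSectionVars false
set_option linter.unusedSimpArgs false

open Matrix H6.Symp H44.Weil

namespace H44.SpW

variable {F : Type*} [Field F] {l : Type*} [Fintype l] [DecidableEq l]
variable [Fintype F] [DecidableEq F] (ψ : AddChar F ℂ)
variable {V : Type*} [AddCommGroup V] [Module ℂ V] (τ : symplecticGroup l F →* Module.End ℂ V)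

omit [Fintype F] [DecidableEq F] in
theorem tv_comm {u w : l ⊕ l → F} (h : bf u w = 0) (a b : F) :
    tv a u * tv b w = tv b w * tv a u := by
  have h' : bf w u = 0 := by rw [bf_swap, h, neg_zero]
  apply ext_mulVec
  intro x
  rw [coe_mul_mulVec, coe_mul_mulVec, tv_mulVec, tv_mulVec, tv_mulVec, tv_mulVec, bf_add_right,
    bf_add_right, bf_smul_right, bf_smul_right, h, h', mul_zero, mul_zero, add_zero, add_zero]
  abel

omit [Fintype F] [DecidableEq F] in
theorem tv_para {u w : l ⊕ l → F} (h : bf u w = 0) (a : F) :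
    tv a (u + w) * tv a (u - w) = tv (2 * a) u * tv (2 * a) w := by
  have h' : bf w u = 0 := by rw [bf_swap, h, neg_zero]
  apply ext_mulVec
  intro x
  rw [coe_mul_mulVec, coe_mul_mulVec, tv_mulVec, tv_mulVec, tv_mulVec, tv_mulVec]
  simp only [bf_add_right, bf_smul_right, bf_add_left, bf_sub_left, bf_sub_right, bf_self, h, h',
    mul_zero, add_zero, sub_zero, zero_sub, neg_zero]
  module

/-- weight vectors for a root subgroup -/
def Wt (u : l ⊕ l → F) (κ : F) (v : V) : Prop := ∀ a, τ (tv a u) v = ψ (κ * a) • v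

/-- projection -/
noncomputable def pj (u : l ⊕ l → F) (κ : F) : Module.End ℂ V :=
  ((Fintype.card F : ℂ)⁻¹) • ∑ a, ψ (-(κ * a)) • τ (tv a u)

theorem pj_apply (u : l ⊕ l → F) (κ : F) (v : V) :
    pj ψ τ u κ v = ((Fintype.card F : ℂ)⁻¹) • ∑ a, ψ (-(κ * a)) • τ (tv a u) v := by
  simp [pj, LinearMap.sum_apply]

theorem pj_wt (u : l ⊕ l → F) (κ : F) (v : V) : Wt ψ τ u κ (pj ψ τ u κ v) := by
  intro b
  rw [pj_apply, map_smul, smul_comm]
  congr 1
  rw [map_sum, Finset.smul_sum]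
  conv_rhs => rw [← Equiv.sum_comp (Equiv.addLeft b)]
  refine Finset.sum_congr rfl (fun a _ => ?_)
  simp only [Equiv.coe_addLeft]
  rw [map_smul, ← Module.End.mul_apply, ← map_mul, ← tv_add, smul_smul, ← AddChar.map_add_eq_mul]
  congr 2
  ring

theorem pj_stable (u w : l ⊕ l → F) (κ γ : F) (v : V) (h : bf u w = 0) (hv : Wt ψ τ u κ v) :
    Wt ψ τ u κ (pj ψ τ w γ v) := by
  intro b
  rw [pj_apply, map_smul, smul_comm]
  congr 1
  rw [map_sum, Finset.smul_sum]
  refine Finset.sum_congr rfl (fun a _ => ?_)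
  rw [map_smul, ← Module.End.mul_apply, ← map_mul, tv_comm h, map_mul, Module.End.mul_apply, hv b,
    map_smul, smul_comm]

/-- anything commuting with the root subgroup commutes with the projection -/
theorem pj_comm (w : l ⊕ l → F) (γ : F) (S : Module.End ℂ V)
    (hS : ∀ a, S * τ (tv a w) = τ (tv a w) * S) : S * pj ψ τ w γ = pj ψ τ w γ * S := by
  rw [pj, mul_smul_comm, smul_mul_assoc]
  congr 1
  rw [Finset.mul_sum, Finset.sum_mul]
  refine Finset.sum_congr rfl (fun a _ => ?_)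
  rw [mul_smul_comm, smul_mul_assoc, hS]

theorem sum_char_ne (hψ : ψ ≠ 1) (a : F) (ha : a ≠ 0) : ∑ κ : F, ψ (κ * a) = 0 := by
  obtain ⟨b, hb⟩ : ∃ b, ψ b ≠ 1 := by
    by_contra hcon
    push Not at hcon
    exact hψ (by ext x; rw [hcon x, AddChar.one_apply])
  have h1 : ∑ κ : F, ψ (κ * a) = ψ b * ∑ κ : F, ψ (κ * a) := by
    rw [Finset.mul_sum, ← Equiv.sum_comp (Equiv.addLeft (b / a))]
    refine Finset.sum_congr rfl (fun κ _ => ?_)
    rw [Equiv.coe_addLeft, ← AddChar.map_add_eq_mul]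
    congr 1
    field_simp
  have h3 : (ψ b - 1) * ∑ κ : F, ψ (κ * a) = 0 := by
    rw [sub_mul, one_mul, ← h1, sub_self]
  rcases mul_eq_zero.mp h3 with h4 | h4
  · exact absurd (sub_eq_zero.mp h4) hb
  · exact h4

theorem pj_sum (hψ : ψ ≠ 1) (u : l ⊕ l → F) (v : V) : ∑ κ, pj ψ τ u κ v = v := by
  have h1 : ∀ κ, pj ψ τ u κ v =
      ((Fintype.card F : ℂ)⁻¹) • ∑ a, ψ (-(κ * a)) • τ (tv a u) v := fun κ => pj_apply ψ τ u κ v
  simp only [h1]
  rw [← Finset.smul_sum, Finset.sum_comm]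
  simp only [← Finset.sum_smul]
  rw [Finset.sum_eq_single (0 : F)]
  · rw [tv_zero, map_one, Module.End.one_apply]
    simp only [mul_zero, neg_zero, AddChar.map_zero_eq_one, Finset.sum_const, Finset.card_univ,
      nsmul_eq_mul, mul_one]
    rw [smul_smul, inv_mul_cancel₀, one_smul]
    rw [Nat.cast_ne_zero]
    exact Fintype.card_ne_zero
  · intro a _ ha
    have : ∑ κ : F, ψ (-(κ * a)) = 0 := by
      rw [← sum_char_ne ψ hψ (-a) (neg_ne_zero.mpr ha)]
      refine Finset.sum_congr rfl (fun κ _ => ?_)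
      rw [mul_neg]
    rw [this, zero_smul]
  · intro h; exact absurd (Finset.mem_univ _) h

theorem wt_smul {u : l ⊕ l → F} {κ : F} {v : V} (c : ℂ) (hv : Wt ψ τ u κ v) :
    Wt ψ τ u κ (c • v) := by
  intro a
  rw [map_smul, hv a, smul_comm]

theorem wt_zero (u : l ⊕ l → F) (κ : F) : Wt ψ τ u κ (0 : V) := by
  intro a; rw [map_zero, smul_zero]

theorem char_inj (hψ : ψ ≠ 1) {κ κ' : F} (h : ∀ a, ψ (κ * a) = ψ (κ' * a)) : κ = κ' := by
  by_contra hne
  obtain ⟨b, hb⟩ : ∃ b, ψ b ≠ 1 := by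
    by_contra hcon
    push Not at hcon
    exact hψ (by ext x; rw [hcon x, AddChar.one_apply])
  apply hb
  have h0 : κ - κ' ≠ 0 := sub_ne_zero.mpr hne
  have h1 := h ((κ - κ')⁻¹ * b)
  have h2 : κ * ((κ - κ')⁻¹ * b) = κ' * ((κ - κ')⁻¹ * b) + b := by
    field_simp
    ring
  rw [h2, AddChar.map_add_eq_mul] at h1
  exact mul_left_cancel₀ (char_ne_zero ψ _) (by rw [h1, mul_one])

theorem wt_unique (hψ : ψ ≠ 1) {u : l ⊕ l → F} {κ κ' : F} {v : V} (hv : v ≠ 0)
    (h : Wt ψ τ u κ v) (h' : Wt ψ τ u κ' v) : κ = κ' := by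
  apply char_inj ψ hψ
  intro a
  have h1 := (h a).symm.trans (h' a)
  have h2 : (ψ (κ * a) - ψ (κ' * a)) • v = 0 := by rw [sub_smul, h1, sub_self]
  rcases smul_eq_zero.mp h2 with h3 | h3
  · exact sub_eq_zero.mp h3
  · exact absurd h3 hv

theorem wt_conj {u : l ⊕ l → F} {κ : F} {v : V} (g : symplecticGroup l F) (h : Wt ψ τ u κ v) :
    Wt ψ τ (g.1 *ᵥ u) κ (τ g v) := by
  intro a
  rw [← tv_conj, ← Module.End.mul_apply, ← map_mul, inv_mul_cancel_right, map_mul,
    Module.End.mul_apply, h a, map_smul]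

theorem wt_smul_vec {u : l ⊕ l → F} {κ : F} {v : V} (c : F) (h : Wt ψ τ u κ v) :
    Wt ψ τ (c • u) (κ * c ^ 2) v := by
  intro a
  rw [tv_smul, h]
  congr 2
  ring

/-- The rank one property. -/
def RK : Prop := ∀ u w : l ⊕ l → F, bf u w = 0 → ∀ v : V, v ≠ 0 → ∀ κ γ δ, Wt ψ τ u κ v →
  Wt ψ τ w γ v → Wt ψ τ (u + w) δ v → (δ - κ - γ) ^ 2 = 4 * κ * γ

theorem g_inj (g : symplecticGroup l F) {v : V} (hv : v ≠ 0) : τ g v ≠ 0 := by
  intro h
  apply hv
  have h1 : τ g⁻¹ (τ g v) = 0 := by rw [h, map_zero]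
  rwa [← Module.End.mul_apply, ← map_mul, inv_mul_cancel, map_one] at h1

end H44.SpW
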