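import Cfsg.Agent.Lib.H44.SpW1

/-! Consequences of the rank one property. -/

set_option autoImplicit false
set_option linter.unusedSectionVars false
set_option linter.unusedSimpArgs false

open Matrix H6.Symp H44.Weil

namespace H44.SpW

variable {F : Type*} [Field F] {l : Type*} [Fintype l] [DecidableEq l]
variable [Fintype F] [DecidableEq F] (ψ : AddChar F ℂ)
variable {V : Type*} [AddCommGroup V] [Module ℂ V] (τ : symplecticGroup l F →* Module.End ℂ V)

/-- The element `tv a (φ + w) * tv (-a) (φ - w)`. -/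
def EE (φ w : l ⊕ l → F) (a : F) : symplecticGroup l F := tv a (φ + w) * tv (-a) (φ - w)

/-- induction over common weight vectors of `w, φ + w, φ - w` inside a `φ` weight space -/
theorem wt_induction (hψ : ψ ≠ 1) (h2 : (2 : F) ≠ 0) {φ w : l ⊕ l → F} (h : bf φ w = 0)
    (P : V → Prop) (hP0 : P 0) (hPadd : ∀ v v', P v → P v' → P (v + v')) (κ : F) (Q : V → Prop)
    (hQ : ∀ v u γ, (u = w ∨ u = φ + w ∨ u = φ - w) → Q v → Q (pj ψ τ u γ v))
    (hP : ∀ v, v ≠ 0 → ∀ γ δ δ', Wt ψ τ φ κ v → Wt ψ τ w γ v → Wt ψ τ (φ + w) δ v →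
      Wt ψ τ (φ - w) δ' v → δ + δ' = 2 * κ + 2 * γ → Q v → P v)
    (v : V) (hv : Wt ψ τ φ κ v) (hQv : Q v) : P v := by
  have h' : bf w φ = 0 := by rw [bf_swap, h, neg_zero]
  have hsum : ∀ {ι : Type _} (s : Finset ι) (f : ι → V), (∀ i ∈ s, P (f i)) →
      P (∑ i ∈ s, f i) := by
    intro ι s f hf
    exact Finset.sum_induction f P hPadd hP0 hf
  have b1 : bf φ (φ + w) = 0 := by rw [bf_add_right, bf_self, h, add_zero]
  have b2 : bf φ (φ - w) = 0 := by rw [bf_sub_right, bf_self, h, sub_zero]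
  have b3 : bf w (φ + w) = 0 := by rw [bf_add_right, bf_self, h', add_zero]
  have b4 : bf w (φ - w) = 0 := by rw [bf_sub_right, bf_self, h', sub_zero]
  have b5 : bf (φ + w) (φ - w) = 0 := by
    rw [bf_add_left, b2, b4, add_zero]
  rw [← pj_sum ψ τ hψ w v]
  refine hsum _ _ (fun γ _ => ?_)
  have q1 := hQ v w γ (Or.inl rfl) hQv
  rw [← pj_sum ψ τ hψ (φ + w) (pj ψ τ w γ v)]
  refine hsum _ _ (fun δ _ => ?_)
  have q2 := hQ _ (φ + w) δ (Or.inr (Or.inl rfl)) q1
  rw [← pj_sum ψ τ hψ (φ - w) (pj ψ τ (φ + w) δ (pj ψ τ w γ v))]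
  refine hsum _ _ (fun δ' _ => ?_)
  have q3 := hQ _ (φ - w) δ' (Or.inr (Or.inr rfl)) q2
  set x := pj ψ τ (φ - w) δ' (pj ψ τ (φ + w) δ (pj ψ τ w γ v)) with hx
  by_cases hx0 : x = 0
  · rw [hx0]; exact hP0
  have w1 : Wt ψ τ φ κ x :=
    pj_stable ψ τ _ _ _ _ _ b2 (pj_stable ψ τ _ _ _ _ _ b1 (pj_stable ψ τ _ _ _ _ _ h hv))
  have w2 : Wt ψ τ w γ x :=
    pj_stable ψ τ _ _ _ _ _ b4 (pj_stable ψ τ _ _ _ _ _ b3 (pj_wt ψ τ _ _ _))
  have w3 : Wt ψ τ (φ + w) δ x := pj_stable ψ τ _ _ _ _ _ b5 (pj_wt ψ τ _ _ _)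
  have w4 : Wt ψ τ (φ - w) δ' x := pj_wt ψ τ _ _ _
  refine hP x hx0 γ δ δ' w1 w2 w3 w4 ?_ q3
  apply char_inj ψ hψ
  intro a
  have e1 : τ (tv a (φ + w) * tv a (φ - w)) x = ψ ((δ + δ') * a) • x := by
    rw [map_mul, Module.End.mul_apply, w4, map_smul, w3, smul_smul, ← AddChar.map_add_eq_mul]
    congr 2; ring
  have e2 : τ (tv a (φ + w) * tv a (φ - w)) x = ψ ((2 * κ + 2 * γ) * a) • x := by
    rw [tv_para h, map_mul, Module.End.mul_apply, w2, map_smul, w1, smul_smul,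
      ← AddChar.map_add_eq_mul]
    congr 2; ring
  have e3 : (ψ ((δ + δ') * a) - ψ ((2 * κ + 2 * γ) * a)) • x = 0 := by
    rw [sub_smul, ← e1, ← e2, sub_self]
  rcases smul_eq_zero.mp e3 with h3 | h3
  · exact sub_eq_zero.mp h3
  · exact absurd h3 hx0

/-- (I4') vectors fixed by `Z_φ` are fixed by `EE φ w`. -/
theorem fix_EE (hψ : ψ ≠ 1) (h2 : (2 : F) ≠ 0) (hRK : RK ψ τ) {φ w : l ⊕ l → F} (h : bf φ w = 0)
    (v : V) (hv : Wt ψ τ φ 0 v) (a : F) : τ (EE φ w a) v = v := by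
  refine wt_induction ψ τ hψ h2 h (fun v => τ (EE φ w a) v = v) ?_ ?_ 0 (fun _ => True)
    (fun _ _ _ _ _ => trivial) ?_ v hv trivial
  · exact map_zero _
  · intro v v' h1 h3
    rw [map_add, h1, h3]
  · intro v hv0 γ δ δ' w1 w2 w3 w4 hs _
    have h3 := hRK φ w h v hv0 0 γ δ w1 w2 w3
    have h4 : (δ - γ) ^ 2 = 0 := by linear_combination h3
    have h5 : δ = γ := sub_eq_zero.mp (pow_eq_zero_iff (two_ne_zero)|>.mp h4)
    have h6 : δ' = γ := by linear_combination hs - h5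
    rw [EE, map_mul, Module.End.mul_apply, w4, map_smul, w3, smul_smul, ← AddChar.map_add_eq_mul,
      h5, h6]
    have : γ * -a + γ * a = 0 := by ring
    rw [this, AddChar.map_zero_eq_one, one_smul]

theorem four_ne (h2 : (2 : F) ≠ 0) : (4 : F) ≠ 0 := by
  have : (4 : F) = 2 * 2 := by norm_num
  rw [this]
  exact mul_ne_zero h2 h2

/-- (I2') -/
theorem comm_of_EE {W : Type*} [AddCommGroup W] [Module ℂ W]
    (ω : symplecticGroup l F →* Module.End ℂ W) (hψ : ψ ≠ 1) (h2 : (2 : F) ≠ 0)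
    (hRK : RK ψ τ) (hRK' : RK ψ ω) {φ w : l ⊕ l → F} (h : bf φ w = 0) (T : W →ₗ[ℂ] V)
    (hT : ∀ a f, T (ω (tv a φ) f) = τ (tv a φ) (T f))
    (hT' : ∀ a f, T (ω (EE φ w a) f) = τ (EE φ w a) (T f)) (κ : F) (hκ : κ ≠ 0)
    (f : W) (hf : Wt ψ ω φ κ f) (a : F) : T (ω (tv a w) f) = τ (tv a w) (T f) := by
  have hb : bf w φ = 0 := by rw [bf_swap, h, neg_zero]
  have b1 : bf w (φ + w) = 0 := by rw [bf_add_right, bf_self, hb, add_zero]
  have b2 : bf w (φ - w) = 0 := by rw [bf_sub_right, bf_self, hb, sub_zero]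
  have b5 : bf (φ + w) (φ - w) = 0 := by
    simp only [bf_add_left, bf_sub_right, bf_self, h, hb, sub_zero, add_zero]
  -- EE commutes with all three root groups
  have hcomm : ∀ (u : l ⊕ l → F), (u = w ∨ u = φ + w ∨ u = φ - w) → ∀ a b,
      EE φ w a * tv b u = tv b u * EE φ w a := by
    intro u hu a b
    have c1 : bf (φ + w) u = 0 := by
      rcases hu with rfl | rfl | rfl
      · rw [bf_swap, b1, neg_zero]
      · exact bf_self _
      · exact b5
    have c2 : bf (φ - w) u = 0 := by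
      rcases hu with rfl | rfl | rfl
      · rw [bf_swap, b2, neg_zero]
      · rw [bf_swap, b5, neg_zero]
      · exact bf_self _
    rw [EE, mul_assoc, tv_comm c2, ← mul_assoc, tv_comm c1, mul_assoc]
  refine wt_induction ψ ω hψ h2 h (fun f => T (ω (tv a w) f) = τ (tv a w) (T f)) ?_ ?_ κ
    (fun _ => True) (fun _ _ _ _ _ => trivial) ?_ f hf trivial
  · simp
  · intro v v' h1 h3
    simp only [map_add, h1, h3]
  · intro f hf0 γ δ δ' w1 w2 w3 w4 hs _
    have k1 := hRK' φ w h f hf0 κ γ δ w1 w2 w3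
    have k2 : (δ - δ') ^ 2 = 16 * κ * γ := by
      have : δ - δ' = 2 * (δ - κ - γ) := by linear_combination -hs
      rw [this]; linear_combination 4 * k1
    have hEf : ∀ b, ω (EE φ w b) f = ψ ((δ - δ') * b) • f := by
      intro b
      rw [EE, map_mul, Module.End.mul_apply, w4, map_smul, w3, smul_smul,
        ← AddChar.map_add_eq_mul]
      congr 2; ring
    rw [w2 a, map_smul]
    -- the image
    have hTf1 : Wt ψ τ φ κ (T f) := by
      intro b; rw [← hT, w1, map_smul]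
    have hTf2 : ∀ b, τ (EE φ w b) (T f) = ψ ((δ - δ') * b) • T f := by
      intro b; rw [← hT', hEf, map_smul]
    symm
    refine wt_induction ψ τ hψ h2 h (fun v => τ (tv a w) v = ψ (γ * a) • v) ?_ ?_ κ
      (fun v => ∀ b, τ (EE φ w b) v = ψ ((δ - δ') * b) • v) ?_ ?_ (T f) hTf1 hTf2
    · simp
    · intro v v' h1 h3
      simp only [map_add, h1, h3, smul_add]
    · intro v u γ' hu hv b
      have := pj_comm ψ τ u γ' (τ (EE φ w b)) (by
        intro c; rw [← map_mul, hcomm u hu, map_mul])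
      have h4 := LinearMap.congr_fun this v
      rw [Module.End.mul_apply, Module.End.mul_apply, hv b, map_smul] at h4
      exact h4
    · intro v hv0 γ2 δ2 δ2' x1 x2 x3 x4 hs2 hE
      have k3 := hRK φ w h v hv0 κ γ2 δ2 x1 x2 x3
      have k4 : (δ2 - δ2') ^ 2 = 16 * κ * γ2 := by
        have : δ2 - δ2' = 2 * (δ2 - κ - γ2) := by linear_combination -hs2
        rw [this]; linear_combination 4 * k3
      have k5 : δ2 - δ2' = δ - δ' := by
        apply char_inj ψ hψ
        intro b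
        have e1 : τ (EE φ w b) v = ψ ((δ2 - δ2') * b) • v := by
          rw [EE, map_mul, Module.End.mul_apply, x4, map_smul, x3, smul_smul,
            ← AddChar.map_add_eq_mul]
          congr 2; ring
        have e3 : (ψ ((δ2 - δ2') * b) - ψ ((δ - δ') * b)) • v = 0 := by
          rw [sub_smul, ← e1, hE, sub_self]
        rcases smul_eq_zero.mp e3 with h3 | h3
        · exact sub_eq_zero.mp h3
        · exact absurd h3 hv0
      rw [k5, k2] at k4
      have h16 : (16 : F) ≠ 0 := by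
        have : (16 : F) = 4 * 4 := by norm_num
        rw [this]
        exact mul_ne_zero (four_ne h2) (four_ne h2)
      have k6 : γ2 = γ := by
        have : (16 * κ) * (γ2 - γ) = 0 := by linear_combination -k4
        rcases mul_eq_zero.mp this with h7 | h7
        · exact absurd h7 (mul_ne_zero h16 hκ)
        · exact sub_eq_zero.mp h7
      rw [x2 a, k6]

end H44.SpW
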