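import Cfsg.Agent.Lib.H44.SpW2

/-! Moving isotropic pairs to the standard Lagrangian; explicit formulas for the Weil
representation. -/

set_option autoImplicit false
set_option linter.unusedSectionVars false
set_option linter.unusedSimpArgs false

open Matrix H6.Symp H44.Weil H44.LSLinear

namespace H44.SpW

variable {F : Type*} [Field F] {l : Type*} [Fintype l] [DecidableEq l]

/-- vectors of the Lagrangian `x = 0` -/
def sY (y : l → F) : l ⊕ l → F := Sum.elim 0 y
/-- vectors of the Lagrangian `y = 0` -/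
def sX (x : l → F) : l ⊕ l → F := Sum.elim x 0

theorem xp_sY (y : l → F) : xp (sY y) = 0 := rfl
theorem yp_sY (y : l → F) : yp (sY y) = y := rfl
theorem xp_sX (y : l → F) : xp (sX y) = y := rfl
theorem yp_sX (y : l → F) : yp (sX y) = 0 := rfl
theorem sY_add (y y' : l → F) : sY (y + y') = sY y + sY y' := by
  ext k; rcases k with k | k <;> simp [sY]
theorem sX_add (y y' : l → F) : sX (y + y') = sX y + sX y' := by
  ext k; rcases k with k | k <;> simp [sX]
theorem sX_smul (c : F) (y : l → F) : sX (c • y) = c • sX y := by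
  ext k; rcases k with k | k <;> simp [sX]
theorem sY_smul (c : F) (y : l → F) : sY (c • y) = c • sY y := by
  ext k; rcases k with k | k <;> simp [sY]
theorem eq_sY {w : l ⊕ l → F} (h : xp w = 0) : w = sY (yp w) := by
  ext k
  rcases k with k | k
  · exact congrFun h k
  · rfl

theorem exists_to_Y {u w : l ⊕ l → F} (h : bf u w = 0) :
    ∃ g : symplecticGroup l F, xp (g.1 *ᵥ u) = 0 ∧ xp (g.1 *ᵥ w) = 0 := by
  have hf0 : ∀ i : l, (f i : l ⊕ l → F) ≠ 0 := by
    intro i h0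
    have := congrFun h0 (.inr i)
    simp [f] at this
  have hxf : ∀ i : l, xp (f i : l ⊕ l → F) = 0 := by
    intro i; ext k; simp [xp, f]
  have idx : ∀ {v : l ⊕ l → F}, v ≠ 0 → Nonempty l := by
    intro v hv
    obtain ⟨k, _⟩ := Function.ne_iff.mp hv
    rcases k with k | k <;> exact ⟨k⟩
  by_cases hu : u = 0
  · by_cases hw : w = 0
    · refine ⟨1, ?_, ?_⟩
      · rw [coe_one_mulVec, hu]; rfl
      · rw [coe_one_mulVec, hw]; rfl
    · obtain ⟨i⟩ := idx hw
      obtain ⟨g, hg⟩ := exists_mulVec_eq hw (hf0 i)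
      refine ⟨g, ?_, ?_⟩
      · rw [hu, mulVec_zero]; rfl
      · rw [hg]; exact hxf i
  obtain ⟨i⟩ := idx hu
  obtain ⟨g1, hg1⟩ := exists_mulVec_eq hu (hf0 i)
  set w' := g1.1 *ᵥ w with hw'
  have hbi : w' (.inl i) = 0 := by
    rw [← bf_f_left w' i, ← hg1, hw', bf_smul, h]
  set w2 := w' - (w' (.inr i)) • f i with hw2
  have hp : w2 ∈ perp ({i} : Finset l) := by
    intro j hj
    rw [Finset.mem_singleton] at hj
    subst hj
    refine ⟨?_, ?_⟩
    · simp [hw2, f, hbi]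
    · simp [hw2, f]
  by_cases hz : w2 = 0
  · refine ⟨g1, ?_, ?_⟩
    · rw [hg1]; exact hxf i
    · have h3 : w' = (w' (.inr i)) • f i := by
        rw [hw2] at hz
        exact sub_eq_zero.mp hz
      rw [← hw', h3]
      ext k
      simp [xp, f]
  obtain ⟨k, hk⟩ := Function.ne_iff.mp hz
  obtain ⟨j, z, hji, hzp, hbz⟩ : ∃ (j : l) (z : l ⊕ l → F), j ≠ i ∧
      z ∈ perp ({i} : Finset l) ∧ bf w2 z ≠ 0 := by
    rcases k with k | k
    · have hki : k ≠ i := by
        rintro rfl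
        exact hk (hp k (by simp)).1
      refine ⟨k, f k, hki, ?_, ?_⟩
      · intro j hj
        rw [Finset.mem_singleton] at hj
        subst hj
        simp [f, hki.symm]
      · rw [bf_f_right, neg_ne_zero]
        exact hk
    · have hki : k ≠ i := by
        rintro rfl
        exact hk (hp k (by simp)).2
      refine ⟨k, e k, hki, ?_, ?_⟩
      · intro j hj
        rw [Finset.mem_singleton] at hj
        subst hj
        simp [e, hki.symm]
      · rw [bf_e_right]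
        exact hk
  have hfj : (f j : l ⊕ l → F) ∈ perp ({i} : Finset l) := by
    intro j' hj
    rw [Finset.mem_singleton] at hj
    subst hj
    simp [f, hji.symm]
  have hej : (e j : l ⊕ l → F) ∈ perp ({i} : Finset l) := by
    intro j' hj
    rw [Finset.mem_singleton] at hj
    subst hj
    simp [e, hji.symm]
  obtain ⟨t, ht, ht2⟩ := exists_move (W := perp ({i} : Finset l)) hp hfj ⟨z, hzp, hbz⟩
    ⟨e j, hej, by rw [bf_f_left]; simp [e]⟩
  have hfix : t.1 *ᵥ (f i) = f i := by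
    apply tvGroup_fix _ ht
    intro u hu
    rw [bf_f_right, (hu i (by simp)).1, neg_zero]
  refine ⟨t * g1, ?_, ?_⟩
  · rw [coe_mul_mulVec, hg1, hfix]; exact hxf i
  · rw [coe_mul_mulVec, ← hw']
    have h3 : w' = w2 + (w' (.inr i)) • f i := by rw [hw2]; abel
    rw [h3, mulVec_add, mulVec_smul, hfix, ht2]
    ext k
    simp [xp, f]

variable [Fintype F] [DecidableEq F] (ψ : AddChar F ℂ)
variable {V : Type*} [AddCommGroup V] [Module ℂ V] (τ : symplecticGroup l F →* Module.End ℂ V)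

theorem RK_of_Y (h : ∀ y y' : l → F, ∀ v : V, v ≠ 0 → ∀ κ γ δ, Wt ψ τ (sY y) κ v →
    Wt ψ τ (sY y') γ v → Wt ψ τ (sY (y + y')) δ v → (δ - κ - γ) ^ 2 = 4 * κ * γ) : RK ψ τ := by
  intro u w huw v hv κ γ δ h1 h2 h3
  obtain ⟨g, hg1, hg2⟩ := exists_to_Y huw
  have k1 := wt_conj ψ τ g h1
  have k2 := wt_conj ψ τ g h2
  have k3 := wt_conj ψ τ g h3
  rw [mulVec_add, eq_sY hg1, eq_sY hg2, ← sY_add] at k3
  rw [eq_sY hg1] at k1
  rw [eq_sY hg2] at k2
  exact h _ _ _ (g_inj τ g hv) _ _ _ k1 k2 k3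

/-- Levi elements -/
noncomputable def lv (A : SpecialLinearGroup l F) : symplecticGroup l F :=
  ⟨fromBlocks A.1 0 0 (A.1⁻¹)ᵀ, H44.LSSp.levi_mem A.1 (by rw [A.2]; exact one_ne_zero)⟩

theorem lv_mul (A B : SpecialLinearGroup l F) : lv (A * B) = lv A * lv B := by
  apply Subtype.ext
  change fromBlocks (A.1 * B.1) 0 0 ((A.1 * B.1)⁻¹)ᵀ = fromBlocks A.1 0 0 (A.1⁻¹)ᵀ *
    fromBlocks B.1 0 0 (B.1⁻¹)ᵀ
  rw [fromBlocks_multiply, Matrix.mul_inv_rev, transpose_mul]
  simp

theorem lv_one : lv (1 : SpecialLinearGroup l F) = 1 := by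
  apply Subtype.ext
  simp [lv]

theorem lv_sX (A : SpecialLinearGroup l F) (x : l → F) : (lv A).1 *ᵥ (sX x) = sX (A.1 *ᵥ x) := by
  simp only [lv, sX, fromBlocks_mulVec]
  ext k
  rcases k with k | k
  · simp
  · simp

theorem lv_sY (A : SpecialLinearGroup l F) (y : l → F) :
    (lv A).1 *ᵥ (sY y) = sY ((A.1⁻¹)ᵀ *ᵥ y) := by
  simp only [lv, sY, fromBlocks_mulVec]
  ext k
  rcases k with k | k
  · simp
  · simp

/-- the Weil representation as linear operators -/
noncomputable def om (h2 : (2 : F) ≠ 0) (hψ : ψ ≠ 1) :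
    symplecticGroup l F →* Module.End ℂ ((l → F) → ℂ) where
  toFun g := toLin' (weil ψ h2 hψ g)
  map_one' := by rw [map_one, toLin'_one]; rfl
  map_mul' g h := by rw [map_mul, toLin'_mul]; rfl

theorem om_apply (h2 : (2 : F) ≠ 0) (hψ : ψ ≠ 1) (g : symplecticGroup l F) (f : (l → F) → ℂ) :
    om ψ h2 hψ g f = weil ψ h2 hψ g *ᵥ f := toLin'_apply _ _

/-- delta functions -/
def dl (u : l → F) : (l → F) → ℂ := Pi.single u 1

theorem D_sY (r : l → F) (f : (l → F) → ℂ) (v : l → F) : (D ψ (sY r) *ᵥ f) v = ψ (r ⬝ᵥ v) * f v := by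
  rw [D_mulVec, xp_sY, yp_sY, zero_dotProduct, mul_zero, zero_add, add_zero]

theorem eq_of_char (hψ : ψ ≠ 1) {v u : l → F} (h : ∀ r, ψ (r ⬝ᵥ v) = ψ (r ⬝ᵥ u)) : v = u := by
  ext i
  apply char_inj ψ hψ
  intro a
  have := h (Pi.single i a)
  rw [single_dotProduct, single_dotProduct] at this
  rw [mul_comm (v i), mul_comm (u i)]
  exact this

theorem om_supp (h2 : (2 : F) ≠ 0) (hψ : ψ ≠ 1) (g : symplecticGroup l F) (B : Matrix l l F)
    (hB : ∀ r, g.1 *ᵥ sY r = sY (B *ᵥ r)) (u v : l → F)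
    (h : om ψ h2 hψ g (dl u) v ≠ 0) : Bᵀ *ᵥ v = u := by
  apply eq_of_char ψ hψ
  intro r
  have h1 : weil ψ h2 hψ g *ᵥ (D ψ (sY r) *ᵥ dl u) = D ψ (sY (B *ᵥ r)) *ᵥ
      (weil ψ h2 hψ g *ᵥ dl u) := by
    rw [mulVec_mulVec, weil_inter, hB, mulVec_mulVec]
  have h3 : D ψ (sY r) *ᵥ dl u = ψ (r ⬝ᵥ u) • dl u := by
    ext w
    rw [D_sY, Pi.smul_apply, dl, Pi.single_apply, smul_eq_mul]
    by_cases hw : w = u
    · rw [hw]
    · rw [if_neg hw, mul_zero, mul_zero]
  rw [h3, mulVec_smul] at h1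
  have h4 := congrFun h1 v
  rw [Pi.smul_apply, D_sY, smul_eq_mul, ← om_apply] at h4
  have h5 := mul_right_cancel₀ h h4
  rw [h5]
  congr 1
  rw [dotProduct_mulVec, vecMul_transpose]

end H44.SpW
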