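import Cfsg.Agent.Lib.H44.SpW3

/-! Explicit formulas for the Weil representation on transvections. -/

set_option autoImplicit false
set_option linter.unusedSectionVars false
set_option linter.unusedSimpArgs false

open Matrix H6.Symp H44.Weil H44.LSLinear

namespace H44.SpW

variable {F : Type*} [Field F] {l : Type*} [Fintype l] [DecidableEq l]
variable [Fintype F] [DecidableEq F] (ψ : AddChar F ℂ)

/-- the diagonal operator -/
noncomputable def Md (y : l → F) (a : F) : Matrix (l → F) (l → F) ℂ :=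
  diagonal (fun u => ψ (-(2⁻¹ * a * (y ⬝ᵥ u) ^ 2)))

theorem bf_sY (y : l → F) (w : l ⊕ l → F) : bf (sY y) w = y ⬝ᵥ xp w := by
  rw [bf_parts, xp_sY, yp_sY, zero_dotProduct, sub_zero]

theorem bf_sX (x : l → F) (w : l ⊕ l → F) : bf (sX x) w = -(x ⬝ᵥ yp w) := by
  rw [bf_parts, xp_sX, yp_sX, zero_dotProduct, zero_sub]

theorem xp_tvY (a : F) (y : l → F) (w : l ⊕ l → F) : xp ((tv a (sY y)).1 *ᵥ w) = xp w := by
  rw [tv_mulVec]; ext k; simp [xp, sY]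

theorem yp_tvY (a : F) (y : l → F) (w : l ⊕ l → F) :
    yp ((tv a (sY y)).1 *ᵥ w) = yp w + (a * (y ⬝ᵥ xp w)) • y := by
  rw [tv_mulVec, bf_sY]; ext k; simp [yp, sY]

theorem Md_inter (h2 : (2 : F) ≠ 0) (y : l → F) (a : F) :
    Inter ψ (tv a (sY y)).1 (Md ψ y a) := by
  intro w
  ext u v
  rw [Md, diagonal_mul, mul_diagonal, D_apply, D_apply, xp_tvY, yp_tvY]
  by_cases h : v = u + xp w
  · rw [if_pos h, if_pos h, ← AddChar.map_add_eq_mul, ← AddChar.map_add_eq_mul, h]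
    congr 1
    simp only [dotProduct_add, add_dotProduct, dotProduct_smul, smul_dotProduct, smul_eq_mul]
    rw [dotProduct_comm (xp w) y]
    field_simp
    ring
  · rw [if_neg h, if_neg h, mul_zero, zero_mul]

theorem om_tvY_aux (h2 : (2 : F) ≠ 0) (hψ : ψ ≠ 1) (y : l → F) (a : F) :
    ∃ c : ℂ, c ≠ 0 ∧ ∀ u, om ψ h2 hψ (tv a (sY y)) (dl u) =
      (c * ψ (-(2⁻¹ * a * (y ⬝ᵥ u) ^ 2))) • dl u := by
  have hdu : IsUnit (Md ψ y a) := by
    rw [isUnit_iff_isUnit_det, Md, det_diagonal, isUnit_iff_ne_zero]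
    exact Finset.prod_ne_zero_iff.mpr (fun u _ => char_ne_zero ψ _)
  obtain ⟨c, hc⟩ := inter_unique ψ hψ (tv a (sY y)) _ _ (Md_inter ψ h2 y a) hdu
    (weil_nm ψ h2 hψ (tv a (sY y))).1
  refine ⟨c, ?_, ?_⟩
  · rintro rfl
    rw [zero_smul] at hc
    have := (weil_nm ψ h2 hψ (tv a (sY y))).2.1
    rw [hc, isUnit_iff_isUnit_det, det_zero] at this
    exact absurd this not_isUnit_zero
  · intro u
    rw [om_apply, hc, smul_mulVec, Md]
    ext v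
    simp only [Pi.smul_apply, mulVec_diagonal, dl, Pi.single_apply, smul_eq_mul]
    by_cases hv : v = u
    · rw [if_pos hv, hv]; ring
    · rw [if_neg hv]; ring

/-- the scalar -/
noncomputable def cc (h2 : (2 : F) ≠ 0) (hψ : ψ ≠ 1) (y : l → F) (a : F) : ℂ :=
  (om_tvY_aux ψ h2 hψ y a).choose

theorem cc_ne (h2 : (2 : F) ≠ 0) (hψ : ψ ≠ 1) (y : l → F) (a : F) : cc ψ h2 hψ y a ≠ 0 :=
  (om_tvY_aux ψ h2 hψ y a).choose_spec.1

theorem cc_spec (h2 : (2 : F) ≠ 0) (hψ : ψ ≠ 1) (y : l → F) (a : F) (u : l → F) :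
    om ψ h2 hψ (tv a (sY y)) (dl u) =
      (cc ψ h2 hψ y a * ψ (-(2⁻¹ * a * (y ⬝ᵥ u) ^ 2))) • dl u :=
  (om_tvY_aux ψ h2 hψ y a).choose_spec.2 u

theorem dl_ne (u : l → F) : dl u ≠ 0 := by
  intro h
  have := congrFun h u
  simp [dl] at this

theorem cc_zero_spec (h2 : (2 : F) ≠ 0) (hψ : ψ ≠ 1) (y : l → F) (a : F) :
    om ψ h2 hψ (tv a (sY y)) (dl 0) = cc ψ h2 hψ y a • dl 0 := by
  rw [cc_spec, dotProduct_zero]
  simp

theorem smul_dl_inj {c d : ℂ} {u : l → F} (h : c • dl u = d • dl u) : c = d := by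
  have := congrFun h u
  simpa [dl] using this

theorem cc_add (h2 : (2 : F) ≠ 0) (hψ : ψ ≠ 1) (y : l → F) (a b : F) :
    cc ψ h2 hψ y (a + b) = cc ψ h2 hψ y a * cc ψ h2 hψ y b := by
  apply smul_dl_inj (u := (0 : l → F))
  rw [← cc_zero_spec, tv_add, map_mul, Module.End.mul_apply, cc_zero_spec, map_smul,
    cc_zero_spec, smul_smul, mul_comm]

theorem cc_zero (h2 : (2 : F) ≠ 0) (hψ : ψ ≠ 1) (y : l → F) :
    cc ψ h2 hψ y 0 = 1 := by
  apply smul_dl_inj (u := (0 : l → F))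
  rw [← cc_zero_spec, tv_zero, map_one, one_smul]; rfl

/-- general Levi elements -/
noncomputable def lg (A : Matrix l l F) (hA : A.det ≠ 0) : symplecticGroup l F :=
  ⟨fromBlocks A 0 0 (A⁻¹)ᵀ, H44.LSSp.levi_mem A hA⟩

theorem lg_sY (A : Matrix l l F) (hA : A.det ≠ 0) (y : l → F) :
    (lg A hA).1 *ᵥ (sY y) = sY ((A⁻¹)ᵀ *ᵥ y) := by
  simp only [lg, sY, fromBlocks_mulVec]
  ext k
  rcases k with k | k
  · simp
  · simp

theorem lg_dl (h2 : (2 : F) ≠ 0) (hψ : ψ ≠ 1) (A : Matrix l l F) (hA : A.det ≠ 0) (u : l → F) :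
    ∃ c : ℂ, om ψ h2 hψ (lg A hA) (dl u) = c • dl (A *ᵥ u) := by
  refine ⟨om ψ h2 hψ (lg A hA) (dl u) (A *ᵥ u), ?_⟩
  ext v
  by_cases hv : v = A *ᵥ u
  · rw [Pi.smul_apply, dl, dl, Pi.single_apply, if_pos hv, hv, smul_eq_mul, mul_one]
  · rw [Pi.smul_apply, dl, dl, Pi.single_apply, if_neg hv, smul_eq_mul, mul_zero]
    by_contra hcon
    apply hv
    have h3 := om_supp ψ h2 hψ (lg A hA) (A⁻¹)ᵀ (lg_sY A hA) u v hcon
    rw [transpose_transpose] at h3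
    rw [← h3, mulVec_mulVec, mul_nonsing_inv A (isUnit_iff_ne_zero.mpr hA), one_mulVec]

theorem cc_conj (h2 : (2 : F) ≠ 0) (hψ : ψ ≠ 1) (y y' : l → F) (hy : y ≠ 0) (hy' : y' ≠ 0)
    (a : F) : cc ψ h2 hψ y a = cc ψ h2 hψ y' a := by
  obtain ⟨g, hg, hgy⟩ := exists_gl_vec y y' hy hy'
  have hgi : (g⁻¹ᵀ).det ≠ 0 := by
    rw [det_transpose, det_nonsing_inv]
    simpa using hg
  obtain ⟨c, hc⟩ := lg_dl ψ h2 hψ (g⁻¹ᵀ) hgi 0
  rw [mulVec_zero] at hc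
  have hc0 : c ≠ 0 := by
    rintro rfl
    rw [zero_smul] at hc
    exact g_inj (om ψ h2 hψ) _ (dl_ne 0) hc
  have h1 : (lg (g⁻¹ᵀ) hgi).1 *ᵥ sY y = sY y' := by
    rw [lg_sY, ← transpose_nonsing_inv, transpose_transpose,
      nonsing_inv_nonsing_inv g (isUnit_iff_ne_zero.mpr hg), hgy]
  have h3 := tv_conj (lg (g⁻¹ᵀ) hgi) a (sY y)
  rw [h1] at h3
  have h4 : om ψ h2 hψ (tv a (sY y')) (om ψ h2 hψ (lg (g⁻¹ᵀ) hgi) (dl 0)) =
      om ψ h2 hψ (lg (g⁻¹ᵀ) hgi) (om ψ h2 hψ (tv a (sY y)) (dl 0)) := by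
    rw [← Module.End.mul_apply, ← Module.End.mul_apply, ← map_mul, ← map_mul, ← h3,
      inv_mul_cancel_right]
  rw [hc, map_smul, cc_zero_spec, cc_zero_spec, map_smul, hc, smul_smul, smul_smul] at h4
  have h5 := smul_dl_inj h4
  rw [mul_comm] at h5
  exact (mul_right_cancel₀ hc0 h5).symm

theorem cc_one [Nontrivial l] (hodd : Odd (Fintype.card F)) (h2 : (2 : F) ≠ 0) (hψ : ψ ≠ 1)
    (y : l → F) (a : F) : cc ψ h2 hψ y a = 1 := by
  by_cases hy : y = 0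
  · apply smul_dl_inj (u := (0 : l → F))
    rw [← cc_zero_spec, hy]
    have : tv a (sY (0 : l → F)) = 1 := by
      apply ext_mulVec
      intro x
      rw [tv_mulVec, coe_one_mulVec]
      have h0 : (sY (0 : l → F)) = 0 := by ext k; rcases k with k | k <;> rfl
      rw [h0, smul_zero, add_zero]
    rw [this, map_one, one_smul]; rfl
  obtain ⟨i, j, hij⟩ := exists_pair_ne l
  let ei : l → F := Pi.single i 1
  let ej : l → F := Pi.single j 1
  have hei : ei ≠ 0 := by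
    intro h; have := congrFun h i; simp [ei] at this
  have hej : ej ≠ 0 := by
    intro h; have := congrFun h j; simp [ej] at this
  have hp : ei + ej ≠ 0 := by
    intro h; have := congrFun h i; simp [ei, ej, hij] at this
  have hm : ei - ej ≠ 0 := by
    intro h; have := congrFun h i; simp [ei, ej, hij] at this
  have hsq : ∀ b, cc ψ h2 hψ ei b * cc ψ h2 hψ ei b = 1 := by
    intro b
    have h0 : bf (sY ei) (sY ej) = 0 := by rw [bf_sY, xp_sY, dotProduct_zero]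
    have h1 := congrArg (fun g => om ψ h2 hψ g (dl (0 : l → F))) (tv_para h0 b)
    have hsub : sY ei - sY ej = sY (ei - ej) := by
      ext k; rcases k with k | k <;> simp [sY]
    rw [← sY_add, hsub] at h1
    simp only [map_mul, Module.End.mul_apply, cc_zero_spec, map_smul, smul_smul] at h1
    have h3 := smul_dl_inj h1
    rw [cc_conj ψ h2 hψ _ _ hp hei, cc_conj ψ h2 hψ _ _ hm hei, cc_conj ψ h2 hψ _ _ hej hei,
      two_mul, cc_add] at h3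
    have h4 : cc ψ h2 hψ ei b * cc ψ h2 hψ ei b ≠ 0 := mul_ne_zero (cc_ne ψ h2 hψ _ _) (cc_ne ψ h2 hψ _ _)
    exact mul_left_cancel₀ h4 (by rw [mul_one]; exact h3.symm)
  have hpow : ∀ (k : ℕ) (b : F), cc ψ h2 hψ ei ((k : F) * b) = cc ψ h2 hψ ei b ^ k := by
    intro k b
    induction k with
    | zero => rw [Nat.cast_zero, zero_mul, cc_zero, pow_zero]
    | succ k ih => rw [Nat.cast_succ, add_mul, one_mul, cc_add, ih, pow_succ]
  rw [cc_conj ψ h2 hψ _ _ hy hei]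
  have h3 := hpow (Fintype.card F) a
  rw [FiniteField.cast_card_eq_zero, zero_mul, cc_zero] at h3
  obtain ⟨k, hk⟩ := hodd
  rw [hk, pow_succ, pow_mul, pow_two, hsq a, one_pow, one_mul] at h3
  exact h3.symm

theorem om_tvY [Nontrivial l] (hodd : Odd (Fintype.card F)) (h2 : (2 : F) ≠ 0) (hψ : ψ ≠ 1)
    (y : l → F) (a : F) (u : l → F) :
    om ψ h2 hψ (tv a (sY y)) (dl u) = ψ (-(2⁻¹ * a * (y ⬝ᵥ u) ^ 2)) • dl u := by
  rw [cc_spec, cc_one ψ hodd, one_mul]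

theorem om_ext {V : Type*} [AddCommGroup V] [Module ℂ V] (S T : ((l → F) → ℂ) →ₗ[ℂ] V)
    (h : ∀ u, S (dl u) = T (dl u)) : S = T := by
  apply LinearMap.pi_ext'
  intro u
  apply LinearMap.ext_ring
  exact h u

theorem om_tvY_apply [Nontrivial l] (hodd : Odd (Fintype.card F)) (h2 : (2 : F) ≠ 0) (hψ : ψ ≠ 1)
    (y : l → F) (a : F) (f : (l → F) → ℂ) (u : l → F) :
    om ψ h2 hψ (tv a (sY y)) f u = ψ (-(2⁻¹ * a * (y ⬝ᵥ u) ^ 2)) * f u := by
  have h1 : om ψ h2 hψ (tv a (sY y)) = toLin' (Md ψ y a) := by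
    apply om_ext
    intro v
    rw [om_tvY ψ hodd, toLin'_apply, Md]
    ext w
    simp only [Pi.smul_apply, mulVec_diagonal, dl, Pi.single_apply, smul_eq_mul]
    by_cases hw : w = v
    · rw [if_pos hw, hw]
    · rw [if_neg hw]; ring
  rw [h1, toLin'_apply, Md, mulVec_diagonal]

theorem wt_dl [Nontrivial l] (hodd : Odd (Fintype.card F)) (h2 : (2 : F) ≠ 0) (hψ : ψ ≠ 1)
    (y u : l → F) : Wt ψ (om ψ h2 hψ) (sY y) (-(2⁻¹ * (y ⬝ᵥ u) ^ 2)) (dl u) := by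
  intro a
  rw [om_tvY ψ hodd]
  congr 2
  ring

theorem RK_om [Nontrivial l] (hodd : Odd (Fintype.card F)) (h2 : (2 : F) ≠ 0) (hψ : ψ ≠ 1) :
    RK ψ (om (l := l) ψ h2 hψ) := by
  apply RK_of_Y
  intro y y' f hf κ γ δ h1 h3 h4
  obtain ⟨u, hu⟩ := Function.ne_iff.mp hf
  rw [Pi.zero_apply] at hu
  have key : ∀ (z : l → F) (c : F), Wt ψ (om ψ h2 hψ) (sY z) c f → c = -(2⁻¹ * (z ⬝ᵥ u) ^ 2) := by
    intro z c hz
    apply char_inj ψ hψ
    intro a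
    have h5 := congrFun (hz a) u
    rw [om_tvY_apply ψ hodd, Pi.smul_apply, smul_eq_mul] at h5
    rw [← mul_right_cancel₀ hu h5]
    congr 1; ring
  rw [key _ _ h1, key _ _ h3, key _ _ h4, add_dotProduct]
  have h22 : (2 : F)⁻¹ * 2 = 1 := inv_mul_cancel₀ h2
  have e1 : -(2⁻¹ * (y ⬝ᵥ u + y' ⬝ᵥ u) ^ 2) - -(2⁻¹ * (y ⬝ᵥ u) ^ 2) - -(2⁻¹ * (y' ⬝ᵥ u) ^ 2) =
      -((2⁻¹ * 2) * (y ⬝ᵥ u) * (y' ⬝ᵥ u)) := by ring
  rw [e1, h22]
  have e2 : 4 * -((2 : F)⁻¹ * (y ⬝ᵥ u) ^ 2) * -(2⁻¹ * (y' ⬝ᵥ u) ^ 2) =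
      (2⁻¹ * 2) ^ 2 * ((y ⬝ᵥ u) ^ 2 * (y' ⬝ᵥ u) ^ 2) := by ring
  rw [e2, h22]
  ring

/-! ### the kernel of the other transvections -/

/-- explicit intertwiner -/
noncomputable def Mk (w0 : l ⊕ l → F) (a : F) : Matrix (l → F) (l → F) ℂ :=
  ∑ t : F, ψ (t ^ 2 * (2 * a)⁻¹) • D ψ (t • w0)

theorem Mk_inter (h2 : (2 : F) ≠ 0) (w0 : l ⊕ l → F) (a : F) (ha : a ≠ 0) :
    Inter ψ (tv a w0).1 (Mk ψ w0 a) := by
  intro w
  rw [Mk, Finset.sum_mul, Finset.mul_sum, tv_mulVec]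
  rw [← Equiv.sum_comp (Equiv.addRight (a * bf w0 w))]
  refine Finset.sum_congr rfl (fun t _ => ?_)
  rw [Equiv.coe_addRight, smul_mul_assoc, mul_smul_comm, D_mul ψ h2, D_mul ψ h2, smul_smul,
    smul_smul, ← AddChar.map_add_eq_mul, ← AddChar.map_add_eq_mul]
  have e1 : (t + a * bf w0 w) • w0 + w = w + (a * bf w0 w) • w0 + t • w0 := by module
  rw [e1]
  congr 2
  rw [bf_smul_left, bf_add_left, bf_smul_right, bf_smul_left, bf_smul_right, bf_self,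
    bf_swap w w0]
  field_simp
  ring

theorem om_tvX (h2 : (2 : F) ≠ 0) (hψ : ψ ≠ 1) (x : l → F) (hx : x ≠ 0) (a : F)
    (ha : a ≠ 0) : ∃ K : ℂ, K ≠ 0 ∧ ∀ u, om ψ h2 hψ (tv a (sX x)) (dl u) =
      K • ∑ t : F, ψ (t ^ 2 * (2 * a)⁻¹) • dl (u - t • x) := by
  obtain ⟨c, hc⟩ := inter_unique ψ hψ (tv a (sX x)) _ _ (weil_nm ψ h2 hψ (tv a (sX x))).1
    (weil_nm ψ h2 hψ (tv a (sX x))).2.1 (Mk_inter ψ h2 (sX x) a ha)
  have hM : ∀ u, Mk ψ (sX x) a *ᵥ dl u = ∑ t : F, ψ (t ^ 2 * (2 * a)⁻¹) • dl (u - t • x) := by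
    intro u
    rw [Mk, ← toLin'_apply, map_sum, LinearMap.sum_apply]
    refine Finset.sum_congr rfl (fun t _ => ?_)
    rw [map_smul, LinearMap.smul_apply, toLin'_apply]
    congr 1
    ext v
    rw [← sX_smul, D_mulVec, xp_sX, yp_sX, dotProduct_zero, mul_zero, zero_dotProduct, add_zero,
      AddChar.map_zero_eq_one, one_mul, dl, dl, Pi.single_apply, Pi.single_apply]
    congr 1
    rw [eq_iff_iff]
    exact eq_sub_iff_add_eq.symm
  have hc0 : c ≠ 0 := by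
    rintro rfl
    rw [zero_smul] at hc
    have h3 := hM 0
    rw [hc, zero_mulVec] at h3
    have h4 := congrFun h3 0
    rw [Finset.sum_apply, Finset.sum_eq_single (0 : F)] at h4
    · simp [dl] at h4
    · intro t _ ht
      rw [Pi.smul_apply, dl, Pi.single_apply, if_neg, smul_zero]
      intro h5
      rw [zero_sub, eq_comm, neg_eq_zero, smul_eq_zero] at h5
      exact h5.elim ht hx
    · intro h; exact absurd (Finset.mem_univ _) h
  refine ⟨c⁻¹, inv_ne_zero hc0, ?_⟩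
  intro u
  rw [← hM, hc, smul_mulVec, smul_smul, inv_mul_cancel₀ hc0, one_smul, om_apply]

end H44.SpW
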