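import Cfsg.Agent.Lib.H44.SpW4
import Cfsg.Agent.Lib.H6.SLGen

/-! The stabiliser of a vector in `SL` acts trivially on the corresponding weight vectors; the
averaged operator. -/

set_option autoImplicit false
set_option linter.unusedSectionVars false
set_option linter.unusedSimpArgs false

open Matrix H6.Symp H44.Weil H44.LSLinear

namespace H44.SpW

variable {F : Type*} [Field F] {l : Type*} [Fintype l] [DecidableEq l]
variable [Fintype F] [DecidableEq F]

/-- dilations of determinant one -/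
def dilS (x y : l → F) (h : y ⬝ᵥ x = 0) : SpecialLinearGroup l F :=
  ⟨dil x y, by rw [det_dil, h, add_zero]⟩

theorem dilS_inv (x y : l → F) (h : y ⬝ᵥ x = 0) : (dil x y)⁻¹ = dil (-x) y := by
  apply inv_eq_right_inv
  rw [dil, dil, mul_add, mul_one, add_mul, one_mul, vecMulVec_mul_vecMulVec, dotProduct_neg, h,
    neg_zero, zero_smul]
  rw [neg_vecMulVec]
  simp

theorem EE_eq (x y : l → F) (h : y ⬝ᵥ x = 0) (a : F) :
    EE (sY y) (sX x) a = lv (dilS ((2 * a) • x) y (by rw [dotProduct_smul, h, smul_zero])) := by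
  have h0 : bf (sY y) (sX x) = 0 := by rw [bf_sY, xp_sX, h]
  have h0' : bf (sX x) (sY y) = 0 := by rw [bf_swap, h0, neg_zero]
  apply ext_mulVec
  intro w
  have h1 : (EE (sY y) (sX x) a).1 *ᵥ w =
      w + (2 * a * (y ⬝ᵥ xp w)) • sX x - (2 * a * (x ⬝ᵥ yp w)) • sY y := by
    rw [EE, coe_mul_mulVec, tv_mulVec, tv_mulVec]
    simp only [bf_add_right, bf_smul_right, bf_add_left, bf_sub_left, bf_sub_right, bf_self, h0, h0',
      mul_zero, add_zero, sub_zero, bf_sY, bf_sX]
    module
  rw [h1]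
  change _ = fromBlocks (dil ((2 * a) • x) y) 0 0 ((dil ((2 * a) • x) y)⁻¹)ᵀ *ᵥ w
  rw [dilS_inv _ _ (by rw [dotProduct_smul, h, smul_zero]), fromBlocks_mulVec]
  have h3 : (dil (-((2 * a) • x)) y)ᵀ = dil y (-((2 * a) • x)) := by
    rw [dil, dil, transpose_add, transpose_one, transpose_vecMulVec]
  rw [h3]
  ext k
  rcases k with k | k
  · simp only [Sum.elim_inl, dil_mulVec, Pi.add_apply, Pi.sub_apply, Pi.smul_apply, zero_mulVec,
      smul_eq_mul, sX, sY, Sum.elim_inl, Pi.zero_apply, mul_zero, sub_zero, add_zero]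
    have : y ⬝ᵥ (w ∘ Sum.inl) = y ⬝ᵥ xp w := rfl
    rw [this]
    change _ = w (Sum.inl k) + _
    ring
  · simp only [Sum.elim_inr, dil_mulVec, Pi.add_apply, Pi.sub_apply, Pi.smul_apply, zero_mulVec,
      smul_eq_mul, sX, sY, Sum.elim_inr, Pi.zero_apply, mul_zero, sub_zero, add_zero, zero_add,
      neg_dotProduct, smul_dotProduct]
    have : x ⬝ᵥ (w ∘ Sum.inr) = x ⬝ᵥ yp w := rfl
    rw [this]
    change _ = w (Sum.inr k) + _
    ring

section ext

variable (i1 : l)

/-- extension of a matrix by the identity -/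
def extM (C : Matrix {j // ¬ j = i1} {j // ¬ j = i1} F) : Matrix l l F :=
  (fromBlocks (1 : Matrix {j // j = i1} {j // j = i1} F) 0 0 C).submatrix
    (Equiv.sumCompl (fun j => j = i1)).symm (Equiv.sumCompl (fun j => j = i1)).symm

theorem extM_det (C : Matrix {j // ¬ j = i1} {j // ¬ j = i1} F) : (extM i1 C).det = C.det := by
  rw [extM, det_submatrix_equiv_self, det_fromBlocks_zero₂₁, det_one, one_mul]

theorem extM_mul (C D : Matrix {j // ¬ j = i1} {j // ¬ j = i1} F) :
    extM i1 (C * D) = extM i1 C * extM i1 D := by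
  rw [extM, extM, extM, submatrix_mul_equiv, fromBlocks_multiply]
  simp

def extS (C : SpecialLinearGroup {j // ¬ j = i1} F) : SpecialLinearGroup l F :=
  ⟨extM i1 C.1, by rw [extM_det]; exact C.2⟩

theorem extS_mul (C D : SpecialLinearGroup {j // ¬ j = i1} F) :
    extS i1 (C * D) = extS i1 C * extS i1 D := Subtype.ext (extM_mul i1 C.1 D.1)

theorem extS_one : extS i1 (1 : SpecialLinearGroup {j // ¬ j = i1} F) = 1 := by
  apply Subtype.ext
  change extM i1 1 = 1
  rw [extM, fromBlocks_one, submatrix_one_equiv]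

theorem eq_extM (B : Matrix l l F) (h1 : ∀ j, B i1 j = if j = i1 then 1 else 0)
    (h2 : ∀ i, B i i1 = if i = i1 then 1 else 0) :
    B = extM i1 (B.submatrix (fun j => j.1) (fun j => j.1)) := by
  set ε := Equiv.sumCompl (fun j => j = i1) with hε
  have h3 : B.submatrix ε ε = fromBlocks (1 : Matrix {j // j = i1} {j // j = i1} F) 0 0
      (B.submatrix (fun j => j.1) (fun j => j.1)) := by
    ext i j
    rcases i with ⟨i, rfl⟩ | ⟨i, hi⟩ <;> rcases j with ⟨j, hj⟩ | ⟨j, hj⟩
    · subst hj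
      simp [hε, h1]
    · simp [hε, h1, hj]
    · subst hj
      simp [hε, h2, hi]
    · simp [hε]
  rw [extM, ← h3, ← hε, submatrix_submatrix, Equiv.self_comp_symm, submatrix_id_id]

theorem extM_transvec (i j : {j // ¬ j = i1}) (c : F) :
    extM i1 (1 + single i j c) = dil (c • Pi.single i.1 1) (Pi.single j.1 1) := by
  symm
  rw [eq_extM i1 (dil (c • Pi.single i.1 1) (Pi.single j.1 1))]
  · congr 1
    ext a b
    simp only [submatrix_apply, dil, Matrix.add_apply, vecMulVec_apply, Pi.smul_apply,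
      Pi.single_apply, smul_eq_mul, Matrix.one_apply, single_apply, Subtype.ext_iff]
    by_cases h1 : i.1 = a.1
    · by_cases h3 : j.1 = b.1
      · simp [← h1, ← h3]
      · have h3' : ¬ b.1 = j.1 := fun h => h3 h.symm
        simp [← h1, h3, h3']
    · have h1' : ¬ a.1 = i.1 := fun h => h1 h.symm
      simp [h1, h1']
  · intro k
    have hi : ¬ i1 = i.1 := fun h => i.2 h.symm
    simp [dil, Matrix.one_apply, vecMulVec_apply, Pi.single_apply, hi, eq_comm]
  · intro k
    have hj : ¬ i1 = j.1 := fun h => j.2 h.symm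
    simp [dil, Matrix.one_apply, vecMulVec_apply, Pi.single_apply, hj]

end ext

variable (ψ : AddChar F ℂ)
variable {V : Type*} [AddCommGroup V] [Module ℂ V] (τ : symplecticGroup l F →* Module.End ℂ V)

theorem fix_dil (hψ : ψ ≠ 1) (h2 : (2 : F) ≠ 0) (hRK : RK ψ τ) (x y : l → F) (h : y ⬝ᵥ x = 0)
    (v : V) (hv : Wt ψ τ (sY y) 0 v) : τ (lv (dilS x y h)) v = v := by
  have h1 := fix_EE ψ τ hψ h2 hRK (φ := sY y) (w := sX x) (by rw [bf_sY, xp_sX, h]) v hv 2⁻¹
  rw [EE_eq x y h] at h1
  have h3 : (2 * 2⁻¹ : F) • x = x := by rw [mul_inv_cancel₀ h2, one_smul]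
  have h4 : dilS ((2 * 2⁻¹ : F) • x) y (by rw [dotProduct_smul, h, smul_zero]) = dilS x y h := by
    apply Subtype.ext
    change dil _ _ = dil _ _
    rw [h3]
  rw [h4] at h1
  exact h1

theorem fix_stab (hψ : ψ ≠ 1) (h2 : (2 : F) ≠ 0) (hRK : RK ψ τ) (i1 : l) (v : V)
    (hv : ∀ y : l → F, y i1 = 0 → Wt ψ τ (sY y) 0 v) (A : SpecialLinearGroup l F)
    (hA : A.1 *ᵥ Pi.single i1 1 = Pi.single i1 1) : τ (lv A) v = v := by
  have hcol : ∀ i, A.1 i i1 = if i = i1 then 1 else 0 := by
    intro i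
    have := congrFun hA i
    rw [mulVec_single_one, col_apply, Pi.single_apply] at this
    exact this
  let w : l → F := fun j => (if j = i1 then 1 else 0) - A.1 i1 j
  have hw1 : w i1 = 0 := by simp [w, hcol]
  have hwe : w ⬝ᵥ (Pi.single i1 1 : l → F) = 0 := by rw [dotProduct_single, hw1, zero_mul]
  have hd := fix_dil ψ τ hψ h2 hRK (Pi.single i1 1) w hwe v (hv w hw1)
  have h1 : τ (lv A) v = τ (lv (A * dilS (Pi.single i1 1) w hwe)) v := by
    rw [lv_mul, map_mul, Module.End.mul_apply, hd]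
  rw [h1]
  set B := A * dilS (Pi.single i1 1) w hwe with hB
  have hBe : B.1 = A.1 + vecMulVec (Pi.single i1 1) w := by
    change A.1 * dil _ _ = _
    rw [dil, mul_add, mul_one, mul_vecMulVec, hA]
  have hB1 : ∀ j, B.1 i1 j = if j = i1 then 1 else 0 := by
    intro j
    rw [hBe, Matrix.add_apply, vecMulVec_apply]
    simp [w]
  have hB2 : ∀ i, B.1 i i1 = if i = i1 then 1 else 0 := by
    intro i
    rw [hBe, Matrix.add_apply, vecMulVec_apply, hw1, mul_zero, add_zero, hcol]
  have hext := eq_extM i1 B.1 hB1 hB2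
  set C : Matrix {j // ¬ j = i1} {j // ¬ j = i1} F :=
    B.1.submatrix (fun j : {j // ¬ j = i1} => j.1) (fun j : {j // ¬ j = i1} => j.1) with hC
  have hdet : C.det = 1 := by rw [← extM_det, ← hext]; exact B.2
  obtain ⟨C', hC'⟩ : ∃ C' : SpecialLinearGroup {j // ¬ j = i1} F, C'.1 = C := ⟨⟨C, hdet⟩, rfl⟩
  have hBC : B = extS i1 C' := by
    apply Subtype.ext
    rw [hext, ← hC']
    rfl
  rw [hBC]
  by_cases hn : Nontrivial {j : l // ¬ j = i1}
  · refine H6.SLGen.transvection_induction (fun C' => τ (lv (extS i1 C')) v = v) ?_ ?_ C'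
    · intro i j hij c
      have h5 : extS i1 (SpecialLinearGroup.transvection hij c) =
          dilS (c • Pi.single i.1 1) (Pi.single j.1 1) (by
            rw [dotProduct_smul, dotProduct_single, Pi.single_apply, if_neg, zero_mul, smul_zero]
            intro h; exact hij (Subtype.ext h)) := by
        apply Subtype.ext
        change extM i1 _ = dil _ _
        rw [← extM_transvec]
        rw [SpecialLinearGroup.transvection_coe]
      rw [h5]
      apply fix_dil ψ τ hψ h2 hRK
      apply hv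
      rw [Pi.single_apply, if_neg]
      exact fun h => j.2 h.symm
    · intro P Q hP hQ
      rw [extS_mul, lv_mul, map_mul, Module.End.mul_apply, hQ, hP]
  · have hs : Subsingleton {j : l // ¬ j = i1} := not_nontrivial_iff_subsingleton.mp hn
    have : C' = 1 := Subsingleton.elim _ _
    rw [this, extS_one, lv_one, map_one]; rfl

end H44.SpW
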