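import Cfsg.Agent.Lib.H44.SpW5

/-! The averaged operator from the Weil representation. -/

set_option autoImplicit false
set_option linter.unusedSectionVars false
set_option linter.unusedSimpArgs false

open Matrix H6.Symp H44.Weil H44.LSLinear

namespace H44.SpW

variable {F : Type*} [Field F] {l : Type*} [Fintype l] [DecidableEq l]
variable [Fintype F] [DecidableEq F] (ψ : AddChar F ℂ)
variable {V : Type*} [AddCommGroup V] [Module ℂ V] (τ : symplecticGroup l F →* Module.End ℂ V)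

/-! ### kernel values -/

/-- value at zero of the kernel -/
noncomputable def kk (h2 : (2 : F) ≠ 0) (hψ : ψ ≠ 1) (x : l → F) (a : F) : ℂ :=
  om ψ h2 hψ (tv a (sX x)) (dl 0) 0

theorem om_tvX_apply (h2 : (2 : F) ≠ 0) (hψ : ψ ≠ 1) (x : l → F) (hx : x ≠ 0) (a : F)
    (ha : a ≠ 0) (f : (l → F) → ℂ) (v : l → F) : om ψ h2 hψ (tv a (sX x)) f v =
      kk ψ h2 hψ x a * ∑ t : F, ψ (t ^ 2 * (2 * a)⁻¹) * f (v + t • x) := by
  obtain ⟨K, hK, hKs⟩ := om_tvX ψ h2 hψ x hx a ha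
  have h1 : ∀ f v, om ψ h2 hψ (tv a (sX x)) f v =
      K * ∑ t : F, ψ (t ^ 2 * (2 * a)⁻¹) * f (v + t • x) := by
    intro f v
    let S : ((l → F) → ℂ) →ₗ[ℂ] ℂ := (LinearMap.proj v).comp (om ψ h2 hψ (tv a (sX x)))
    let T : ((l → F) → ℂ) →ₗ[ℂ] ℂ := K • ∑ t : F, ψ (t ^ 2 * (2 * a)⁻¹) •
      (LinearMap.proj (v + t • x) : ((l → F) → ℂ) →ₗ[ℂ] ℂ)
    have hST : S = T := by
      apply om_ext
      intro u
      change om ψ h2 hψ (tv a (sX x)) (dl u) v = T (dl u)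
      rw [hKs]
      simp only [T, LinearMap.smul_apply, LinearMap.sum_apply, LinearMap.proj_apply,
        Pi.smul_apply, Finset.sum_apply, smul_eq_mul, dl, Pi.single_apply]
      congr 1
      refine Finset.sum_congr rfl (fun t _ => ?_)
      congr 1
      by_cases h : v = u - t • x
      · rw [if_pos h, if_pos (by rw [h]; abel)]
      · rw [if_neg h, if_neg]
        intro h3
        apply h
        rw [← h3]; abel
    have := LinearMap.congr_fun hST f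
    change S f = _
    rw [this]
    simp [T, LinearMap.sum_apply]
  have h3 : kk ψ h2 hψ x a = K := by
    rw [kk, h1, Finset.sum_eq_single (0 : F)]
    · simp [dl]
    · intro t _ ht
      rw [zero_add, dl, Pi.single_apply, if_neg, mul_zero]
      rw [smul_eq_zero]
      tauto
    · intro h; exact absurd (Finset.mem_univ _) h
  rw [h3]
  exact h1 f v

theorem kk_mul (h2 : (2 : F) ≠ 0) (hψ : ψ ≠ 1) (x : l → F) (hx : x ≠ 0) (a : F)
    (ha : a ≠ 0) : kk ψ h2 hψ x a * kk ψ h2 hψ x (-a) * (Fintype.card F : ℂ) = 1 := by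
  have h1 : om ψ h2 hψ (tv a (sX x)) (om ψ h2 hψ (tv (-a) (sX x)) (dl 0)) 0 = 1 := by
    rw [← Module.End.mul_apply, ← map_mul, ← tv_add, add_neg_cancel, tv_zero, map_one,
      Module.End.one_apply, dl, Pi.single_eq_same]
  rw [om_tvX_apply ψ h2 hψ x hx a ha] at h1
  have h3 : ∀ t : F, om ψ h2 hψ (tv (-a) (sX x)) (dl 0) (0 + t • x) =
      kk ψ h2 hψ x (-a) * ψ (t ^ 2 * (2 * -a)⁻¹) := by
    intro t
    rw [om_tvX_apply ψ h2 hψ x hx (-a) (neg_ne_zero.mpr ha), Finset.sum_eq_single (-t)]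
    · rw [zero_add, neg_smul, add_neg_cancel, dl, Pi.single_eq_same, mul_one, neg_sq]
    · intro s _ hs
      rw [zero_add, ← add_smul, dl, Pi.single_apply, if_neg, mul_zero]
      rw [smul_eq_zero]
      rintro (h | h)
      · exact hs (by linear_combination h)
      · exact hx h
    · intro h; exact absurd (Finset.mem_univ _) h
  simp only [h3] at h1
  have h4 : ∀ t : F, ψ (t ^ 2 * (2 * a)⁻¹) * (kk ψ h2 hψ x (-a) * ψ (t ^ 2 * (2 * -a)⁻¹)) =
      kk ψ h2 hψ x (-a) := by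
    intro t
    rw [mul_left_comm, ← AddChar.map_add_eq_mul]
    have : t ^ 2 * (2 * a)⁻¹ + t ^ 2 * (2 * -a)⁻¹ = 0 := by
      rw [mul_neg, inv_neg]; ring
    rw [this, AddChar.map_zero_eq_one, mul_one]
  simp only [h4, Finset.sum_const, Finset.card_univ, nsmul_eq_mul] at h1
  linear_combination h1

theorem kk_mul_ne (h2 : (2 : F) ≠ 0) (hψ : ψ ≠ 1) (x : l → F) (hx : x ≠ 0) (a : F)
    (ha : a ≠ 0) : kk ψ h2 hψ x a * kk ψ h2 hψ x (-a) ≠ 1 := by
  intro h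
  have h1 := kk_mul ψ h2 hψ x hx a ha
  rw [h, one_mul] at h1
  have h3 : 1 < Fintype.card F := Fintype.one_lt_card
  have h4 : Fintype.card F = 1 := by exact_mod_cast h1
  omega

theorem eigen_zero (h2 : (2 : F) ≠ 0) (hψ : ψ ≠ 1) (x : l → F) (hx : x ≠ 0) (v : V)
    (h : ∀ a, a ≠ 0 → τ (tv a (sX x)) v = kk ψ h2 hψ x a • v) : v = 0 := by
  have h1 : τ (tv (1 : F) (sX x)) (τ (tv (-1) (sX x)) v) = v := by
    rw [← Module.End.mul_apply, ← map_mul, ← tv_add, add_neg_cancel, tv_zero, map_one,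
      Module.End.one_apply]
  rw [h (-1) (neg_ne_zero.mpr one_ne_zero), map_smul, h 1 one_ne_zero, smul_smul] at h1
  have h3 : (kk ψ h2 hψ x (-1) * kk ψ h2 hψ x 1 - 1) • v = 0 := by
    rw [sub_smul, h1, one_smul, sub_self]
  rcases smul_eq_zero.mp h3 with h4 | h4
  · exfalso
    apply kk_mul_ne ψ h2 hψ x hx 1 one_ne_zero
    rw [mul_comm]
    exact sub_eq_zero.mp h4
  · exact h4

/-! ### the averaged operator -/

/-- the averaged operator -/
noncomputable def Tp (h2 : (2 : F) ≠ 0) (hψ : ψ ≠ 1) (i1 : l) (μ : V) : ((l → F) → ℂ) →ₗ[ℂ] V :=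
  ∑ A : SpecialLinearGroup l F,
    ((LinearMap.proj (Pi.single i1 1)).comp (om ψ h2 hψ (lv A⁻¹))).smulRight (τ (lv A) μ)

theorem Tp_apply (h2 : (2 : F) ≠ 0) (hψ : ψ ≠ 1) (i1 : l) (μ : V) (f : (l → F) → ℂ) :
    Tp ψ τ h2 hψ i1 μ f = ∑ A : SpecialLinearGroup l F,
      (om ψ h2 hψ (lv A⁻¹) f (Pi.single i1 1)) • τ (lv A) μ := by
  simp [Tp, LinearMap.sum_apply]

theorem Tp_lv (h2 : (2 : F) ≠ 0) (hψ : ψ ≠ 1) (i1 : l) (μ : V) (B : SpecialLinearGroup l F)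
    (f : (l → F) → ℂ) :
    Tp ψ τ h2 hψ i1 μ (om ψ h2 hψ (lv B) f) = τ (lv B) (Tp ψ τ h2 hψ i1 μ f) := by
  rw [Tp_apply, Tp_apply, map_sum, ← Equiv.sum_comp (Equiv.mulLeft B)]
  refine Finset.sum_congr rfl (fun A _ => ?_)
  simp only [Equiv.coe_mulLeft]
  rw [map_smul, ← Module.End.mul_apply, ← Module.End.mul_apply, ← map_mul,
    ← map_mul, ← lv_mul, ← lv_mul, _root_.mul_inv_rev, inv_mul_cancel_right]

theorem slinv_mul (A : SpecialLinearGroup l F) : (A⁻¹).1 * A.1 = 1 :=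
  congrArg Subtype.val (inv_mul_cancel A)

theorem lv_inv_sY (A : SpecialLinearGroup l F) (y : l → F) :
    (lv A⁻¹).1 *ᵥ (sY y) = sY (A.1ᵀ *ᵥ y) := by
  rw [lv_sY]
  congr 2
  have h : (A⁻¹).1 = A.1⁻¹ := (Matrix.inv_eq_left_inv (slinv_mul A)).symm
  rw [h, nonsing_inv_nonsing_inv A.1 (by rw [A.2]; exact isUnit_one)]

theorem lv_inv (A : SpecialLinearGroup l F) : lv A⁻¹ = (lv A)⁻¹ := by
  rw [eq_inv_iff_mul_eq_one, ← lv_mul, inv_mul_cancel, lv_one]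

variable [Nontrivial l] (hodd : Odd (Fintype.card F)) (h2 : (2 : F) ≠ 0) (hψ : ψ ≠ 1)

include hodd in
theorem Tp_tvY (i1 : l) (μ : V)
    (hμ : ∀ y : l → F, Wt ψ τ (sY y) (-(2⁻¹ * (y i1) ^ 2)) μ) (a : F) (y : l → F)
    (f : (l → F) → ℂ) :
    Tp ψ τ h2 hψ i1 μ (om ψ h2 hψ (tv a (sY y)) f) = τ (tv a (sY y)) (Tp ψ τ h2 hψ i1 μ f) := by
  rw [Tp_apply, Tp_apply, map_sum]
  refine Finset.sum_congr rfl (fun A _ => ?_)
  rw [map_smul]
  have h3 : lv A⁻¹ * tv a (sY y) = tv a (sY (A.1ᵀ *ᵥ y)) * lv A⁻¹ := by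
    rw [← lv_inv_sY, ← tv_conj, inv_mul_cancel_right]
  have h4 : tv a (sY y) * lv A = lv A * tv a (sY (A.1ᵀ *ᵥ y)) := by
    rw [lv_inv] at h3
    have h5 : lv A * ((lv A)⁻¹ * tv a (sY y)) * lv A =
        lv A * (tv a (sY (A.1ᵀ *ᵥ y)) * (lv A)⁻¹) * lv A := by rw [h3]
    rw [mul_inv_cancel_left, mul_assoc (lv A), inv_mul_cancel_right] at h5
    exact h5
  have e1 : om ψ h2 hψ (lv A⁻¹) (om ψ h2 hψ (tv a (sY y)) f) (Pi.single i1 1) =
      ψ (-(2⁻¹ * a * ((A.1ᵀ *ᵥ y) i1) ^ 2)) * om ψ h2 hψ (lv A⁻¹) f (Pi.single i1 1) := by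
    rw [← Module.End.mul_apply, ← map_mul, h3, map_mul, Module.End.mul_apply,
      om_tvY_apply ψ hodd, dotProduct_single, mul_one]
  have e2 : τ (tv a (sY y)) (τ (lv A) μ) = ψ (-(2⁻¹ * a * ((A.1ᵀ *ᵥ y) i1) ^ 2)) •
      τ (lv A) μ := by
    rw [← Module.End.mul_apply, ← map_mul, h4, map_mul, Module.End.mul_apply, hμ, map_smul]
    congr 2
    ring
  rw [e1, e2, smul_smul, mul_comm]

theorem ee_ne (i1 : l) : (Pi.single i1 1 : l → F) ≠ 0 := by
  intro h; have := congrFun h i1; simp at this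

theorem supp_lv_inv (A : SpecialLinearGroup l F) (u v : l → F)
    (h : om ψ h2 hψ (lv A⁻¹) (dl u) v ≠ 0) : A.1 *ᵥ v = u := by
  have := om_supp ψ h2 hψ (lv A⁻¹) (A.1ᵀ) (lv_inv_sY A) u v h
  rwa [transpose_transpose] at this

theorem Tp_zero (i1 : l) (μ : V) : Tp ψ τ h2 hψ i1 μ (dl 0) = 0 := by
  rw [Tp_apply]
  apply Finset.sum_eq_zero
  intro A _
  have : om ψ h2 hψ (lv A⁻¹) (dl 0) (Pi.single i1 1) = 0 := by
    by_contra hcon
    have h3 := supp_lv_inv ψ h2 hψ A _ _ hcon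
    have h4 : A.1⁻¹ *ᵥ (A.1 *ᵥ (Pi.single i1 1)) = 0 := by rw [h3, mulVec_zero]
    rw [mulVec_mulVec, nonsing_inv_mul A.1 (by rw [A.2]; exact isUnit_one), one_mulVec] at h4
    exact ee_ne i1 h4
  rw [this, zero_smul]

include hodd in
theorem Tp_e1 (hRK : RK ψ τ) (i1 : l) (μ : V) (hμ0 : μ ≠ 0)
    (hμ : ∀ y : l → F, Wt ψ τ (sY y) (-(2⁻¹ * (y i1) ^ 2)) μ) :
    Tp ψ τ h2 hψ i1 μ (dl (Pi.single i1 1)) ≠ 0 := by
  classical
  have h3 : ∀ A : SpecialLinearGroup l F,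
      (om ψ h2 hψ (lv A⁻¹) (dl (Pi.single i1 1)) (Pi.single i1 1)) • τ (lv A) μ =
      (if A.1 *ᵥ Pi.single i1 1 = Pi.single i1 1 then (1 : ℂ) else 0) • μ := by
    intro A
    by_cases hA : A.1 *ᵥ (Pi.single i1 1 : l → F) = Pi.single i1 1
    · rw [if_pos hA, fix_stab ψ τ hψ h2 hRK i1 μ _ A hA]
      · have hAi : (A⁻¹).1 *ᵥ (Pi.single i1 1 : l → F) = Pi.single i1 1 := by
          conv_lhs => rw [← hA]
          rw [mulVec_mulVec, slinv_mul, one_mulVec]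
        rw [fix_stab ψ (om ψ h2 hψ) hψ h2 (RK_om ψ hodd h2 hψ) i1 _ _ A⁻¹ hAi]
        · simp [dl]
        · intro y hy
          have := wt_dl ψ hodd h2 hψ y (Pi.single i1 1)
          rw [dotProduct_single, hy] at this
          simpa using this
      · intro y hy
        have := hμ y
        rw [hy] at this
        simpa using this
    · rw [if_neg hA]
      have : om ψ h2 hψ (lv A⁻¹) (dl (Pi.single i1 1)) (Pi.single i1 1) = 0 := by
        by_contra hcon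
        exact hA (supp_lv_inv ψ h2 hψ A _ _ hcon)
      rw [this, zero_smul, zero_smul]
  rw [Tp_apply, Finset.sum_congr rfl (fun A _ => h3 A), ← Finset.sum_smul]
  apply smul_ne_zero _ hμ0
  rw [Finset.sum_boole]
  rw [Nat.cast_ne_zero, Finset.card_ne_zero]
  refine ⟨1, ?_⟩
  rw [Finset.mem_filter]
  refine ⟨Finset.mem_univ _, ?_⟩
  change (1 : Matrix l l F) *ᵥ _ = _
  rw [one_mulVec]

include hodd in
theorem Tp_tvX_dl (hRK : RK ψ τ) (i1 : l) (μ : V)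
    (hμ : ∀ y : l → F, Wt ψ τ (sY y) (-(2⁻¹ * (y i1) ^ 2)) μ) (a : F) (x u : l → F)
    (hu : u ∉ Submodule.span F {x}) :
    Tp ψ τ h2 hψ i1 μ (om ψ h2 hψ (tv a (sX x)) (dl u)) =
      τ (tv a (sX x)) (Tp ψ τ h2 hψ i1 μ (dl u)) := by
  obtain ⟨w, hw1, hw2⟩ := exists_dot_zero_one x u hu
  have hwt := wt_dl ψ hodd h2 hψ w u
  refine comm_of_EE ψ τ (om ψ h2 hψ) hψ h2 hRK (RK_om ψ hodd h2 hψ) (φ := sY w) (w := sX x)
    (by rw [bf_sY, xp_sX, hw1]) (Tp ψ τ h2 hψ i1 μ) ?_ ?_ _ ?_ (dl u) hwt a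
  · intro b f
    exact Tp_tvY ψ τ hodd h2 hψ i1 μ hμ b w f
  · intro b f
    rw [EE_eq x w hw1]
    exact Tp_lv ψ τ h2 hψ i1 μ _ f
  · rw [hw2, one_pow, mul_one]
    exact neg_ne_zero.mpr (inv_ne_zero h2)

include hodd in
theorem comm_supp (hRK : RK ψ τ) (i1 : l) (μ : V)
    (hμ : ∀ y : l → F, Wt ψ τ (sY y) (-(2⁻¹ * (y i1) ^ 2)) μ) (a : F) (x : l → F)
    (f : (l → F) → ℂ) (hf : ∀ u, f u ≠ 0 → u ∉ Submodule.span F {x}) :
    Tp ψ τ h2 hψ i1 μ (om ψ h2 hψ (tv a (sX x)) f) =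
      τ (tv a (sX x)) (Tp ψ τ h2 hψ i1 μ f) := by
  have hfs : f = ∑ u, f u • dl u := by
    ext v
    rw [Finset.sum_apply, Finset.sum_eq_single v]
    · simp [dl]
    · intro b _ hb
      simp [dl, hb.symm]
    · intro h; exact absurd (Finset.mem_univ _) h
  rw [hfs]
  simp only [map_sum, map_smul]
  refine Finset.sum_congr rfl (fun u _ => ?_)
  by_cases hu : f u = 0
  · rw [hu, zero_smul, zero_smul]
  · rw [Tp_tvX_dl ψ τ hodd h2 hψ hRK i1 μ hμ a x u (hf u hu)]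

end H44.SpW
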