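import Cfsg.Agent.Lib.H44.SpW6

/-! The correction at the origin: a homomorphism from the Weil representation. -/

set_option autoImplicit false
set_option linter.unusedSectionVars false
set_option linter.unusedSimpArgs false

open Matrix H6.Symp H44.Weil H44.LSLinear

namespace H44.SpW

variable {F : Type*} [Field F] {l : Type*} [Fintype l] [DecidableEq l]
variable [Fintype F] [DecidableEq F] (ψ : AddChar F ℂ)
variable {V : Type*} [AddCommGroup V] [Module ℂ V] (τ : symplecticGroup l F →* Module.End ℂ V)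
variable [Nontrivial l] (hodd : Odd (Fintype.card F)) (h2 : (2 : F) ≠ 0) (hψ : ψ ≠ 1)

include h2 hψ in
theorem fix_all (hRK : RK ψ τ) (v : V) (hv : ∀ y : l → F, Wt ψ τ (sY y) 0 v)
    (A : SpecialLinearGroup l F) : τ (lv A) v = v := by
  refine H6.SLGen.transvection_induction (fun C' => τ (lv C') v = v) ?_ ?_ A
  · intro i j hij c
    have h0 : (Pi.single j 1 : l → F) ⬝ᵥ (c • Pi.single i 1) = 0 := by
      rw [dotProduct_smul, dotProduct_single, Pi.single_apply, if_neg hij, zero_mul, smul_zero]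
    have h5 : SpecialLinearGroup.transvection hij c =
        dilS (c • Pi.single i 1) (Pi.single j 1) h0 := by
      apply Subtype.ext
      change _ = dil _ _
      rw [SpecialLinearGroup.transvection_coe]
      ext a b
      simp only [dil, Matrix.add_apply, vecMulVec_apply, Pi.smul_apply, Pi.single_apply,
        smul_eq_mul, Matrix.one_apply, single_apply]
      by_cases h1 : i = a
      · by_cases h3 : j = b
        · simp [← h1, ← h3]
        · have h3' : ¬ b = j := fun h => h3 h.symm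
          simp [← h1, h3, h3']
      · have h1' : ¬ a = i := fun h => h1 h.symm
        simp [h1, h1']
    rw [h5]
    exact fix_dil ψ τ hψ h2 hRK _ _ h0 v (hv _)
  · intro P Q hP hQ
    rw [lv_mul, map_mul, Module.End.mul_apply, hQ, hP]

include hodd in
theorem om_lv_zero (A : SpecialLinearGroup l F) : om ψ h2 hψ (lv A) (dl 0) = dl 0 := by
  apply fix_all ψ (om ψ h2 hψ) h2 hψ (RK_om ψ hodd h2 hψ)
  intro y
  have := wt_dl ψ hodd h2 hψ y 0
  rw [dotProduct_zero] at this
  simpa using this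

include hodd in
theorem om_lv_apply_zero (A : SpecialLinearGroup l F) (f : (l → F) → ℂ) :
    om ψ h2 hψ (lv A) f 0 = f 0 := by
  let S : ((l → F) → ℂ) →ₗ[ℂ] ℂ := (LinearMap.proj 0).comp (om ψ h2 hψ (lv A))
  have hST : S = LinearMap.proj 0 := by
    apply om_ext
    intro u
    change om ψ h2 hψ (lv A) (dl u) 0 = dl u 0
    by_cases hu : u = 0
    · rw [hu, om_lv_zero ψ hodd]
    · have h3 : dl u (0 : l → F) = 0 := by simp [dl, Ne.symm hu]
      rw [h3]
      by_contra hcon
      have h4 := om_supp ψ h2 hψ (lv A) _ (lv_sY A) u 0 hcon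
      rw [mulVec_zero] at h4
      exact hu h4.symm
  exact LinearMap.congr_fun hST f

include hodd in
theorem om_tvY_apply_zero (a : F) (y : l → F) (f : (l → F) → ℂ) :
    om ψ h2 hψ (tv a (sY y)) f 0 = f 0 := by
  rw [om_tvY_apply ψ hodd, dotProduct_zero]
  simp

section corr

variable (hRK : RK ψ τ) (i1 i2 : l) (h12 : i1 ≠ i2) (μ : V)
variable (hμ : ∀ y : l → F, Wt ψ τ (sY y) (-(2⁻¹ * (y i1) ^ 2)) μ)

/-- The correction vector -/
noncomputable def nu : V :=
  (om ψ h2 hψ (tv 1 (sX (Pi.single i2 1))) (dl (Pi.single i2 1)) 0)⁻¹ •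
    (τ (tv 1 (sX (Pi.single i2 1))) (Tp ψ τ h2 hψ i1 μ (dl (Pi.single i2 1))) -
      Tp ψ τ h2 hψ i1 μ (om ψ h2 hψ (tv 1 (sX (Pi.single i2 1))) (dl (Pi.single i2 1))))

theorem H0_ne (x : l → F) (hx : x ≠ 0) :
    om ψ h2 hψ (tv 1 (sX x)) (dl x) 0 ≠ 0 := by
  rw [om_tvX_apply ψ h2 hψ x hx 1 one_ne_zero, Finset.sum_eq_single (1 : F)]
  · rw [zero_add, one_smul, dl, Pi.single_eq_same, mul_one]
    apply mul_ne_zero
    · intro h
      have := kk_mul ψ h2 hψ x hx 1 one_ne_zero
      rw [h, zero_mul, zero_mul] at this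
      exact zero_ne_one this
    · exact char_ne_zero ψ _
  · intro t _ ht
    rw [zero_add, dl, Pi.single_apply, if_neg, mul_zero]
    intro h
    have h3 : (t - 1) • x = 0 := by rw [sub_smul, one_smul, h, sub_self]
    rcases smul_eq_zero.mp h3 with h4 | h4
    · exact ht (sub_eq_zero.mp h4)
    · exact hx h4
  · intro h; exact absurd (Finset.mem_univ _) h

theorem not_mem_span_single {i j : l} (hij : i ≠ j) (u : l → F) (hu : u i ≠ 0) :
    u ∉ Submodule.span F {(Pi.single j 1 : l → F)} := by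
  intro h
  rw [Submodule.mem_span_singleton] at h
  obtain ⟨c, rfl⟩ := h
  apply hu
  simp [hij]

theorem comm_s_z (i j : l) (a b : F) : tv a (sX (Pi.single i 1 : l → F)) *
    tv b (sX (Pi.single j 1)) = tv b (sX (Pi.single j 1)) * tv a (sX (Pi.single i 1)) := by
  apply tv_comm
  rw [bf_sX, yp_sX, dotProduct_zero, neg_zero]

include hodd hRK h12 hμ in
/-- (★) -/
theorem star (a : F) (ha : a ≠ 0) :
    τ (tv a (sX (Pi.single i1 1))) (nu ψ τ h2 hψ i1 i2 μ) =
      Tp ψ τ h2 hψ i1 μ (om ψ h2 hψ (tv a (sX (Pi.single i1 1))) (dl 0)) +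
        kk ψ h2 hψ (Pi.single i1 1) a • nu ψ τ h2 hψ i1 i2 μ := by
  set e1 : l → F := Pi.single i1 1 with he1
  set e2 : l → F := Pi.single i2 1 with he2
  set T := Tp ψ τ h2 hψ i1 μ with hT
  set s : symplecticGroup l F := tv 1 (sX e2) with hs
  set z : symplecticGroup l F := tv a (sX e1) with hz
  set k := kk ψ h2 hψ e1 a with hk
  set H0 := om ψ h2 hψ s (dl e2) 0 with hH0
  have hH0ne : H0 ≠ 0 := H0_ne ψ h2 hψ e2 (ee_ne i2)
  set R : V := τ s (T (dl e2)) - T (om ψ h2 hψ s (dl e2)) with hR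
  have hnu : nu ψ τ h2 hψ i1 i2 μ = H0⁻¹ • R := rfl
  have hsz : s * z = z * s := comm_s_z i2 i1 1 a
  have he12 : e2 i1 = 0 := by simp [he2, h12]
  have he11 : e1 i1 = 1 := by simp [he1]
  have he22 : e2 i2 = 1 := by simp [he2]
  have he21 : e1 i2 = 0 := by simp [he1, h12.symm]
  -- z on dl e2
  set g2 : (l → F) → ℂ := om ψ h2 hψ z (dl e2) - k • dl e2 with hg2
  have hg2s : ∀ u, g2 u ≠ 0 → u ∉ Submodule.span F {e2} := by
    intro u hu hmem
    rw [Submodule.mem_span_singleton] at hmem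
    obtain ⟨t, rfl⟩ := hmem
    apply hu
    rw [hg2, Pi.sub_apply, om_tvX_apply ψ h2 hψ e1 (ee_ne i1) a ha, Pi.smul_apply, smul_eq_mul,
      ← hk, Finset.sum_eq_single (0 : F)]
    · simp
    · intro r _ hr
      rw [dl, Pi.single_apply, if_neg, mul_zero]
      intro h
      have := congrFun h i1
      simp [he12, he11] at this
      exact hr this
    · intro h; exact absurd (Finset.mem_univ _) h
  have hzg : om ψ h2 hψ z (dl e2) = k • dl e2 + g2 := by rw [hg2]; abel
  -- s on dl e2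
  set g3 : (l → F) → ℂ := om ψ h2 hψ s (dl e2) - H0 • dl 0 with hg3
  have hg3s : ∀ u, g3 u ≠ 0 → u ∉ Submodule.span F {e1} := by
    intro u hu hmem
    rw [Submodule.mem_span_singleton] at hmem
    obtain ⟨t, rfl⟩ := hmem
    apply hu
    rw [hg3, Pi.sub_apply, Pi.smul_apply, smul_eq_mul]
    by_cases ht : t = 0
    · rw [ht, zero_smul, ← hH0, dl, Pi.single_eq_same, mul_one, sub_self]
    · rw [om_tvX_apply ψ h2 hψ e2 (ee_ne i2) 1 one_ne_zero, dl, dl, Pi.single_apply, if_neg,
        mul_zero, sub_zero]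
      · rw [Finset.sum_eq_zero, mul_zero]
        intro r _
        rw [Pi.single_apply, if_neg, mul_zero]
        intro h
        have := congrFun h i1
        simp [he12, he11] at this
        exact ht this
      · intro h
        have := congrFun h i1
        simp [he11] at this
        exact ht this
  have hsg : om ψ h2 hψ s (dl e2) = H0 • dl 0 + g3 := by rw [hg3]; abel
  have c1 : T (om ψ h2 hψ z (dl e2)) = τ z (T (dl e2)) := by
    apply Tp_tvX_dl ψ τ hodd h2 hψ hRK i1 μ hμ
    apply not_mem_span_single h12.symm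
    rw [he22]; exact one_ne_zero
  have c2 : T (om ψ h2 hψ s g2) = τ s (T g2) :=
    comm_supp ψ τ hodd h2 hψ hRK i1 μ hμ 1 e2 g2 hg2s
  have c3 : T (om ψ h2 hψ z g3) = τ z (T g3) :=
    comm_supp ψ τ hodd h2 hψ hRK i1 μ hμ a e1 g3 hg3s
  have c4 : T (dl 0) = 0 := Tp_zero ψ τ h2 hψ i1 μ
  have hA : τ s (T (om ψ h2 hψ z (dl e2))) =
      k • R + T (om ψ h2 hψ s (om ψ h2 hψ z (dl e2))) := by
    rw [hzg, map_add, map_smul, map_add, map_smul, map_add, map_smul, map_add, map_smul, ← c2, hR]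
    module
  have hB : τ z (T (om ψ h2 hψ s (dl e2))) =
      T (om ψ h2 hψ z (om ψ h2 hψ s (dl e2))) - H0 • T (om ψ h2 hψ z (dl 0)) := by
    rw [hsg, map_add, map_smul, c4, smul_zero, zero_add, ← c3, map_add, map_smul, map_add,
      map_smul]
    abel
  have hC : om ψ h2 hψ s (om ψ h2 hψ z (dl e2)) = om ψ h2 hψ z (om ψ h2 hψ s (dl e2)) := by
    rw [← Module.End.mul_apply, ← map_mul, hsz, map_mul, Module.End.mul_apply]
  have hD : τ z (τ s (T (dl e2))) = τ s (T (om ψ h2 hψ z (dl e2))) := by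
    rw [c1, ← Module.End.mul_apply, ← map_mul, ← hsz, map_mul, Module.End.mul_apply]
  have hE : τ z R = k • R + H0 • T (om ψ h2 hψ z (dl 0)) := by
    rw [hR, map_sub, hD, hA, hB, hC, ← hR]
    abel
  rw [hnu, map_smul, hE, smul_add, smul_smul H0⁻¹ H0, inv_mul_cancel₀ hH0ne, one_smul,
    smul_comm]
  abel

include hodd hRK h12 hμ in
theorem nu_fix (p : symplecticGroup l F)
    (hp1 : ∀ a, p * tv a (sX (Pi.single i1 1)) = tv a (sX (Pi.single i1 1)) * p)
    (hp2 : ∀ f, Tp ψ τ h2 hψ i1 μ (om ψ h2 hψ p f) = τ p (Tp ψ τ h2 hψ i1 μ f))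
    (hp3 : om ψ h2 hψ p (dl 0) = dl 0) :
    τ p (nu ψ τ h2 hψ i1 i2 μ) = nu ψ τ h2 hψ i1 i2 μ := by
  rw [← sub_eq_zero]
  apply eigen_zero ψ τ h2 hψ (Pi.single i1 1) (ee_ne i1)
  intro a ha
  have h3 := star ψ τ hodd h2 hψ hRK i1 i2 h12 μ hμ a ha
  rw [map_sub, ← Module.End.mul_apply, ← map_mul, ← hp1, map_mul, Module.End.mul_apply, h3,
    map_add, map_smul, ← hp2, ← Module.End.mul_apply (om ψ h2 hψ p), ← map_mul, hp1, map_mul,
    Module.End.mul_apply, hp3, smul_sub]
  abel

include hodd hRK h12 hμ in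
theorem nu_Z : Wt ψ τ (sY (Pi.single i1 1)) 0 (nu ψ τ h2 hψ i1 i2 μ) := by
  intro a
  rw [zero_mul, AddChar.map_zero_eq_one, one_smul]
  set p : symplecticGroup l F := tv a (sY (Pi.single i1 1)) with hp
  set s : symplecticGroup l F := tv 1 (sX (Pi.single i2 1)) with hs
  have hps : p * s = s * p := by
    apply tv_comm
    rw [bf_sY, xp_sX, single_dotProduct, Pi.single_apply, if_neg h12, mul_zero]
  have hpe : om ψ h2 hψ p (dl (Pi.single i2 1)) = dl (Pi.single i2 1) := by
    rw [hp, om_tvY ψ hodd, single_dotProduct, Pi.single_apply, if_neg h12]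
    simp
  have hcomm : ∀ f, Tp ψ τ h2 hψ i1 μ (om ψ h2 hψ p f) = τ p (Tp ψ τ h2 hψ i1 μ f) :=
    fun f => Tp_tvY ψ τ hodd h2 hψ i1 μ hμ a _ f
  rw [nu, map_smul, map_sub, ← hs]
  congr 2
  · rw [← Module.End.mul_apply, ← map_mul, hps, map_mul, Module.End.mul_apply, ← hcomm, hpe]
  · rw [← hcomm, ← Module.End.mul_apply (om ψ h2 hψ p), ← map_mul, hps, map_mul,
      Module.End.mul_apply, hpe]

include hodd hRK h12 hμ in
theorem nu_lv (A : SpecialLinearGroup l F) :
    τ (lv A) (nu ψ τ h2 hψ i1 i2 μ) = nu ψ τ h2 hψ i1 i2 μ := by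
  refine H6.SLGen.transvection_induction
    (fun C' => τ (lv C') (nu ψ τ h2 hψ i1 i2 μ) = nu ψ τ h2 hψ i1 i2 μ) ?_ ?_ A
  · intro i j hij c
    by_cases hj : j = i1
    · subst hj
      have h0 : (Pi.single j 1 : l → F) ⬝ᵥ (c • Pi.single i 1) = 0 := by
        rw [dotProduct_smul, dotProduct_single, Pi.single_apply, if_neg hij, zero_mul, smul_zero]
      have h5 : SpecialLinearGroup.transvection hij c =
          dilS (c • Pi.single i 1) (Pi.single j 1) h0 := by
        apply Subtype.ext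
        change _ = dil _ _
        rw [SpecialLinearGroup.transvection_coe]
        ext a b
        simp only [dil, Matrix.add_apply, vecMulVec_apply, Pi.smul_apply, Pi.single_apply,
          smul_eq_mul, Matrix.one_apply, single_apply]
        by_cases h1 : i = a
        · by_cases h3 : j = b
          · simp [← h1, ← h3]
          · have h3' : ¬ b = j := fun h => h3 h.symm
            simp [← h1, h3, h3']
        · have h1' : ¬ a = i := fun h => h1 h.symm
          simp [h1, h1']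
      rw [h5]
      exact fix_dil ψ τ hψ h2 hRK _ _ h0 _ (nu_Z ψ τ hodd h2 hψ hRK j i2 h12 μ hμ)
    · apply nu_fix ψ τ hodd h2 hψ hRK i1 i2 h12 μ hμ
      · intro a
        have h6 : (SpecialLinearGroup.transvection hij c).1 *ᵥ (Pi.single i1 1 : l → F) =
            Pi.single i1 1 := by
          have : (SpecialLinearGroup.transvection hij c : SpecialLinearGroup l F).1 =
              1 + single i j c := SpecialLinearGroup.transvection_coe hij c
          rw [this, add_mulVec, one_mulVec, Matrix.single_mulVec]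
          ext k
          simp [hj]
        have h7 := tv_conj (lv (SpecialLinearGroup.transvection hij c)) a
          (sX (Pi.single i1 1 : l → F))
        rw [lv_sX, h6] at h7
        exact mul_inv_eq_iff_eq_mul.mp h7
      · intro f; exact Tp_lv ψ τ h2 hψ i1 μ _ f
      · exact om_lv_zero ψ hodd h2 hψ _
  · intro P Q hP hQ
    rw [lv_mul, map_mul, Module.End.mul_apply, hQ, hP]

theorem sY_zero : sY (0 : l → F) = 0 := by ext k; rcases k with k | k <;> rfl
theorem sX_zero : sX (0 : l → F) = 0 := by ext k; rcases k with k | k <;> rfl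
theorem tv_zero_vec (a : F) : tv a (0 : l ⊕ l → F) = 1 := by
  apply ext_mulVec
  intro x
  rw [tv_mulVec, coe_one_mulVec, smul_zero, add_zero]

include hodd hRK h12 hμ in
theorem nu_Y (y : l → F) : Wt ψ τ (sY y) 0 (nu ψ τ h2 hψ i1 i2 μ) := by
  by_cases hy : y = 0
  · intro a
    rw [hy, sY_zero, tv_zero_vec, map_one, zero_mul, AddChar.map_zero_eq_one, one_smul]; rfl
  have hl : 2 ≤ Fintype.card l := Fintype.one_lt_card
  obtain ⟨g, hg1, hg2⟩ := exists_sl_vec hl (Pi.single i1 1 : l → F) y (ee_ne i1) hy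
  let g' : SpecialLinearGroup l F := ⟨g, hg1⟩
  let A : SpecialLinearGroup l F := ⟨((g'⁻¹).1)ᵀ, by rw [det_transpose]; exact (g'⁻¹).2⟩
  have hA : (lv A).1 *ᵥ sY (Pi.single i1 1 : l → F) = sY y := by
    rw [lv_sY]
    congr 1
    have h3 : (A.1)⁻¹ = gᵀ := by
      apply Matrix.inv_eq_left_inv
      change gᵀ * ((g'⁻¹).1)ᵀ = 1
      rw [← transpose_mul]
      have : (g'⁻¹).1 * g = 1 := slinv_mul g'
      rw [this, transpose_one]
    rw [h3, transpose_transpose, hg2]
  have h4 := wt_conj ψ τ (lv A) (nu_Z ψ τ hodd h2 hψ hRK i1 i2 h12 μ hμ)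
  rw [hA, nu_lv ψ τ hodd h2 hψ hRK i1 i2 h12 μ hμ] at h4
  exact h4

end corr

end H44.SpW
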