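import Mathlib
import Cfsg.Agent.Lib.H4.Integral
import Cfsg.Agent.Lib.H18.CharBasic
import Cfsg.Agent.Lib.H44.LSIrr

/-! Complex representations of `SL(X)` through the transvections: weight decomposition. -/

set_option autoImplicit false

namespace H44.TSys

open Module

universe u v w z

variable {F : Type u} [Field F]
variable {X : Type v} [AddCommGroup X] [Module F X]
variable {G : Type w} [Group G] {W : Type z} [AddCommGroup W] [Module ℂ W]

/-- a system of transvections acting on `W` -/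
structure Sys (ρ : Representation ℂ G W) (τ : X → Dual F X → G) : Prop where
  gen : Subgroup.closure (Set.range fun x : X × Dual F X => τ x.1 x.2) = ⊤
  junk : ∀ (u : X) (ω : Dual F X), ω u ≠ 0 → ρ (τ u ω) = 1
  add : ∀ (u : X) (ω ω' : Dual F X), ω u = 0 → ω' u = 0 →
    ρ (τ u ω) * ρ (τ u ω') = ρ (τ u (ω + ω'))
  smul : ∀ (c : F) (u : X) (ω : Dual F X), ω u = 0 → ρ (τ (c • u) ω) = ρ (τ u (c • ω))
  conj : ∀ (a u : X) (β ω : Dual F X), β a = 0 → ω u = 0 →
    ρ (τ a β) * ρ (τ u ω) = ρ (τ (u + β u • a) (ω - ω a • β)) * ρ (τ a β)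

/-- the functionals vanishing at `p` -/
def P (F : Type u) [Field F] {X : Type v} [AddCommGroup X] [Module F X] (p : X) :
    Submodule F (Dual F X) := LinearMap.ker (Dual.eval F X p)

theorem mem_P {p : X} {φ : Dual F X} : φ ∈ P F p ↔ φ p = 0 := Iff.rfl

section
variable {ρ : Representation ℂ G W} {τ : X → Dual F X → G}

theorem inj_rho (g : G) : Function.Injective (ρ g) := by
  intro x y h
  have h1 := congrArg (ρ g⁻¹) h
  rw [← Module.End.mul_apply, ← Module.End.mul_apply, ← map_mul, inv_mul_cancel, map_one] at h1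
  exact h1

theorem cancel_right {A B : Module.End ℂ W} (g : G) (h : A * ρ g = B * ρ g) : A = B := by
  have h1 := congrArg (fun C => C * ρ g⁻¹) h
  simp only [mul_assoc] at h1
  rw [← map_mul, mul_inv_cancel, map_one, mul_one, mul_one] at h1
  exact h1

theorem cancel_left {A B : Module.End ℂ W} (g : G) (h : ρ g * A = ρ g * B) : A = B := by
  have h1 := congrArg (fun C => ρ g⁻¹ * C) h
  simp only [← mul_assoc] at h1
  rw [← map_mul, inv_mul_cancel, map_one, one_mul, one_mul] at h1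
  exact h1

theorem Sys.zero (hS : Sys ρ τ) (u : X) : ρ (τ u 0) = 1 := by
  have h := hS.add u 0 0 rfl rfl
  rw [add_zero] at h
  refine cancel_right (ρ := ρ) (τ u 0) ?_
  rw [h, one_mul]

theorem Sys.neg (hS : Sys ρ τ) (u : X) (ω : Dual F X) (h : ω u = 0) :
    ρ (τ u (-ω)) * ρ (τ u ω) = 1 := by
  rw [hS.add u (-ω) ω (by simp [h]) h, neg_add_cancel, hS.zero]

theorem Sys.zero_left (hS : Sys ρ τ) (ω : Dual F X) : ρ (τ 0 ω) = 1 := by
  have h := hS.smul 0 (0 : X) ω (map_zero _)
  rw [zero_smul, zero_smul, hS.zero] at h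
  exact h

theorem rho_inv_mul (g : G) : ρ g⁻¹ * ρ g = 1 := by
  rw [← map_mul, inv_mul_cancel, map_one]

theorem rho_mul_inv (g : G) : ρ g * ρ g⁻¹ = 1 := by
  rw [← map_mul, mul_inv_cancel, map_one]

theorem trace_conj' (g : G) (A B : Module.End ℂ W) (h : ρ g * A = B * ρ g) :
    LinearMap.trace ℂ W B = LinearMap.trace ℂ W A := by
  have h3 : B = ρ g * A * ρ g⁻¹ := by
    rw [h, mul_assoc, rho_mul_inv, mul_one]
  rw [h3, mul_assoc, LinearMap.trace_mul_comm, mul_assoc, rho_inv_mul, mul_one]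

/-- the character is constant on nontrivial transvections -/
theorem char_conj (hS : Sys ρ τ) (a u : X) (β ω : Dual F X) (h1 : β a = 0) (h2 : ω u = 0) :
    ρ.character (τ (u + β u • a) (ω - ω a • β)) = ρ.character (τ u ω) :=
  trace_conj' (τ a β) _ _ (hS.conj a u β ω h1 h2)

end

section lin

/-- a functional with prescribed values on two independent vectors -/
theorem exists_dual_pair {x y : X} (hx0 : x ≠ 0) (hy0 : y ∉ Submodule.span F {x}) (c d : F) :
    ∃ β : Dual F X, β x = c ∧ β y = d := by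
  obtain ⟨f, hf1, hf2⟩ := Submodule.exists_le_ker_of_notMem hy0
  have hx1 : x ∉ Submodule.span F {y} := by
    intro h
    obtain ⟨r, hr⟩ := Submodule.mem_span_singleton.mp h
    have hr0 : r ≠ 0 := by
      rintro rfl
      rw [zero_smul] at hr
      exact hx0 hr.symm
    apply hy0
    rw [Submodule.mem_span_singleton]
    exact ⟨r⁻¹, by rw [← hr, inv_smul_smul₀ hr0]⟩
  obtain ⟨g, hg1, hg2⟩ := Submodule.exists_le_ker_of_notMem hx1
  have hfx : f x = 0 := hf2 (Submodule.mem_span_singleton_self x)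
  have hgy : g y = 0 := hg2 (Submodule.mem_span_singleton_self y)
  refine ⟨(c / g x) • g + (d / f y) • f, ?_, ?_⟩
  · simp [hfx, hg1]
  · simp [hgy, hf1]

/-- a vector with prescribed values of two independent functionals -/
theorem exists_vec_pair [FiniteDimensional F X] {α β : Dual F X} (h0 : α ≠ 0)
    (h1 : β ∉ Submodule.span F {α}) (c d : F) : ∃ a : X, α a = c ∧ β a = d := by
  obtain ⟨Φ, h2, h3⟩ := exists_dual_pair (F := F) (X := Dual F X) h0 h1 c d
  refine ⟨(evalEquiv F X).symm Φ, ?_, ?_⟩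
  · rw [apply_evalEquiv_symm_apply, h2]
  · rw [apply_evalEquiv_symm_apply, h3]

theorem exists_dual_one {x : X} (hx0 : x ≠ 0) : ∃ β : Dual F X, β x = 1 := by
  have : x ∉ (⊥ : Submodule F X) := by simpa using hx0
  obtain ⟨f, hf1, -⟩ := Submodule.exists_le_ker_of_notMem this
  exact ⟨(f x)⁻¹ • f, by simp [hf1]⟩

theorem not_mem_of_finrank {K : Submodule F X} [FiniteDimensional F X] (h : 2 ≤ finrank F K)
    (x : X) : ∃ y ∈ K, y ∉ Submodule.span F {x} := by
  by_contra hcon
  push Not at hcon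
  have h1 : K ≤ Submodule.span F {x} := hcon
  have h2 := Submodule.finrank_mono h1
  have h3 := finrank_span_le_card (R := F) ({x} : Set X)
  simp at h3
  omega

theorem not_mem_symm {x y : X} (hx : x ≠ 0) (h : y ∉ Submodule.span F {x}) :
    y ≠ 0 ∧ x ∉ Submodule.span F {y} := by
  refine ⟨?_, ?_⟩
  · rintro rfl
    exact h (Submodule.zero_mem _)
  · intro hc
    obtain ⟨r, hr⟩ := Submodule.mem_span_singleton.mp hc
    have hr0 : r ≠ 0 := by
      rintro rfl
      rw [zero_smul] at hr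
      exact hx hr.symm
    apply h
    rw [Submodule.mem_span_singleton]
    exact ⟨r⁻¹, by rw [← hr, inv_smul_smul₀ hr0]⟩

theorem finrank_ker_dual [FiniteDimensional F X] (ω : Dual F X) :
    finrank F X ≤ finrank F (LinearMap.ker ω) + 1 := by
  have h := LinearMap.finrank_range_add_finrank_ker ω
  have h2 : finrank F (LinearMap.range ω) ≤ 1 := by
    have := Submodule.finrank_le (LinearMap.range ω)
    rwa [finrank_self] at this
  omega

theorem finrank_ker_dual_eq [FiniteDimensional F X] (ω : Dual F X) (hω : ω ≠ 0) :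
    finrank F X = finrank F (LinearMap.ker ω) + 1 := by
  have h := LinearMap.finrank_range_add_finrank_ker ω
  have h2 : finrank F (LinearMap.range ω) = 1 := by
    rw [LinearMap.range_eq_top.mpr (LinearMap.surjective hω), finrank_top, finrank_self]
  omega

end lin

section
variable {ρ : Representation ℂ G W} {τ : X → Dual F X → G} [FiniteDimensional F X]

theorem char_u (hS : Sys ρ τ) (h3 : 3 ≤ finrank F X) (u u' : X) (ω : Dual F X) (hu : u ≠ 0)
    (hu' : u' ≠ 0) (h : ω u = 0) (h' : ω u' = 0) :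
    ρ.character (τ u' ω) = ρ.character (τ u ω) := by
  have key : ∀ u u' : X, u ≠ 0 → ω u = 0 → ω u' = 0 → u' ∉ Submodule.span F {u} →
      ρ.character (τ u' ω) = ρ.character (τ u ω) := by
    intro u u' hu h h' hn
    obtain ⟨β, hβ1, hβ2⟩ := exists_dual_pair hu hn 1 1
    have h4 := char_conj hS (u' - u) u β ω (by simp [hβ1, hβ2]) h
    have h5 : ω (u' - u) = 0 := by simp [h, h']
    rw [h5, hβ1, zero_smul, sub_zero, one_smul, add_sub_cancel] at h4
    exact h4
  have h6 : 2 ≤ finrank F (LinearMap.ker ω) := by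
    have := finrank_ker_dual (F := F) ω
    omega
  by_cases hn : u' ∈ Submodule.span F {u}
  · obtain ⟨y, hy1, hy2⟩ := not_mem_of_finrank h6 u
    have hy1' : ω y = 0 := hy1
    obtain ⟨r, hr⟩ := Submodule.mem_span_singleton.mp hn
    have hr0 : r ≠ 0 := by
      rintro rfl
      rw [zero_smul] at hr
      exact hu' hr.symm
    have hy3 : u' ∉ Submodule.span F {y} := by
      intro hc
      apply (not_mem_symm hu hy2).2
      rw [← hr] at hc
      exact (Submodule.smul_mem_iff _ hr0).mp hc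
    rw [key y u' (not_mem_symm hu hy2).1 hy1' h' hy3, key u y hu h hy1' hy2]
  · exact key u u' hu h h' hn

theorem char_omega (hS : Sys ρ τ) (h3 : 3 ≤ finrank F X) (u : X) (ω ω' : Dual F X) (hu : u ≠ 0)
    (hω : ω ≠ 0) (hω' : ω' ≠ 0) (h : ω u = 0) (h' : ω' u = 0) :
    ρ.character (τ u ω') = ρ.character (τ u ω) := by
  by_cases hn : ω' ∈ Submodule.span F {ω}
  · obtain ⟨r, hr⟩ := Submodule.mem_span_singleton.mp hn
    have hr0 : r ≠ 0 := by
      rintro rfl
      rw [zero_smul] at hr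
      exact hω' hr.symm
    have h4 := hS.smul r u ω h
    rw [← hr]
    have h5 : ρ.character (τ u (r • ω)) = ρ.character (τ (r • u) ω) := by
      change LinearMap.trace ℂ W (ρ (τ u (r • ω))) = LinearMap.trace ℂ W (ρ (τ (r • u) ω))
      rw [h4]
    rw [h5]
    exact char_u hS h3 u (r • u) ω hu (smul_ne_zero hr0 hu) h (by simp [h])
  · obtain ⟨a, ha1, ha2⟩ := exists_vec_pair hω hn (-1) (-1)
    have h4 := char_conj hS a u (ω' - ω) ω (by simp [ha1, ha2]) h
    have h5 : (ω' - ω) u = 0 := by simp [h, h']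
    have h6 : ω - (-1 : F) • (ω' - ω) = ω' := by
      apply LinearMap.ext
      intro x
      simp only [LinearMap.sub_apply, LinearMap.smul_apply, smul_eq_mul]
      ring
    rw [h5, ha1, zero_smul, add_zero, h6] at h4
    exact h4

theorem char_const (hS : Sys ρ τ) (h3 : 3 ≤ finrank F X) (u u' : X) (ω ω' : Dual F X)
    (hu : u ≠ 0) (hu' : u' ≠ 0) (hω : ω ≠ 0) (hω' : ω' ≠ 0) (h : ω u = 0) (h' : ω' u' = 0) :
    ρ.character (τ u' ω') = ρ.character (τ u ω) := by
  obtain ⟨y, hy0, hy1, hy2⟩ : ∃ y : X, y ≠ 0 ∧ ω y = 0 ∧ ω' y = 0 := by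
    have h4 := Submodule.finrank_add_le_finrank_add_finrank (LinearMap.ker ω) (LinearMap.ker ω')
    have h5 := Submodule.finrank_sup_add_finrank_inf_eq (LinearMap.ker ω) (LinearMap.ker ω')
    have h6 := finrank_ker_dual (F := F) ω
    have h7 := finrank_ker_dual (F := F) ω'
    have h8 := Submodule.finrank_le (LinearMap.ker ω ⊔ LinearMap.ker ω')
    have h9 : LinearMap.ker ω ⊓ LinearMap.ker ω' ≠ ⊥ := by
      intro hb
      rw [hb, finrank_bot] at h5
      omega
    obtain ⟨y, hy, hy0⟩ := (Submodule.ne_bot_iff _).mp h9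
    exact ⟨y, hy0, hy.1, hy.2⟩
  rw [char_u hS h3 y u' ω' hy0 hu' hy2 h', char_omega hS h3 y ω ω' hy0 hω hω' hy1 hy2,
    char_u hS h3 u y ω hu hy0 h hy1]

end


/-! ### weight projections -/

section wt

variable [Fintype F] [FiniteDimensional F X]

noncomputable instance : Fintype (Dual F X) :=
  have : Finite (Dual F X) := Module.finite_of_finite F
  Fintype.ofFinite _

noncomputable instance instFintypeP (p : X) : Fintype (P F p) :=
  Fintype.ofFinite _

/-- the weight projection -/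
noncomputable def e (ψ : AddChar F ℂ) (ρ : Representation ℂ G W) (τ : X → Dual F X → G)
    (p y : X) : Module.End ℂ W :=
  (Fintype.card (P F p) : ℂ)⁻¹ • ∑ φ : P F p, ψ (-(φ : Dual F X) y) • ρ (τ p φ)

variable {ρ : Representation ℂ G W} {τ : X → Dual F X → G} {ψ : AddChar F ℂ}

omit [Fintype F] [FiniteDimensional F X] in
theorem card_P_ne [Fintype F] [FiniteDimensional F X] (p : X) :
    (Fintype.card (P F p) : ℂ) ≠ 0 := by
  have : Nonempty (P F p) := ⟨0⟩
  exact_mod_cast Fintype.card_ne_zero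

theorem T_e (hS : Sys ρ τ) (p y : X) (φ : Dual F X) (hφ : φ p = 0) :
    ρ (τ p φ) * e ψ ρ τ p y = ψ (φ y) • e ψ ρ τ p y := by
  rw [e, mul_smul_comm, Finset.mul_sum, smul_comm]
  congr 1
  rw [Finset.smul_sum]
  refine Fintype.sum_equiv (Equiv.addLeft (⟨φ, hφ⟩ : P F p)) _ _ ?_
  rintro ⟨x, hx⟩
  rw [mul_smul_comm, hS.add p φ x hφ hx]
  simp only [Equiv.coe_addLeft, Submodule.coe_add, smul_smul, LinearMap.add_apply]
  congr 1
  rw [← AddChar.map_add_eq_mul]
  congr 1
  ring

theorem e_T (hS : Sys ρ τ) (p y : X) (φ : Dual F X) (hφ : φ p = 0) :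
    e ψ ρ τ p y * ρ (τ p φ) = ψ (φ y) • e ψ ρ τ p y := by
  rw [e, smul_mul_assoc, Finset.sum_mul, smul_comm]
  congr 1
  rw [Finset.smul_sum]
  refine Fintype.sum_equiv (Equiv.addRight (⟨φ, hφ⟩ : P F p)) _ _ ?_
  rintro ⟨x, hx⟩
  rw [smul_mul_assoc, hS.add p x φ hx hφ]
  simp only [Equiv.coe_addRight, Submodule.coe_add, smul_smul, LinearMap.add_apply]
  congr 1
  rw [← AddChar.map_add_eq_mul]
  congr 1
  ring

theorem e_apply_of_mem (p y : X) (w : W)
    (h : ∀ φ : Dual F X, φ p = 0 → ρ (τ p φ) w = ψ (φ y) • w) : e ψ ρ τ p y w = w := by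
  rw [e, LinearMap.smul_apply, LinearMap.sum_apply]
  have h1 : ∀ φ : P F p, (ψ (-(φ : Dual F X) y) • ρ (τ p φ)) w = w := by
    intro φ
    rw [LinearMap.smul_apply, h φ φ.2, smul_smul, ← AddChar.map_add_eq_mul, neg_add_cancel,
      AddChar.map_zero_eq_one, one_smul]
  rw [Finset.sum_congr rfl (fun φ _ => h1 φ), Finset.sum_const, Finset.card_univ,
    ← Nat.cast_smul_eq_nsmul ℂ, smul_smul, inv_mul_cancel₀ (card_P_ne p), one_smul]

theorem e_idem (hS : Sys ρ τ) (p y : X) : e ψ ρ τ p y * e ψ ρ τ p y = e ψ ρ τ p y := by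
  apply LinearMap.ext
  intro w
  rw [Module.End.mul_apply]
  apply e_apply_of_mem
  intro φ hφ
  rw [← Module.End.mul_apply, T_e hS p y φ hφ, LinearMap.smul_apply]

theorem e_mul_ne (hS : Sys ρ τ) (p y y' : X) (φ : Dual F X) (hφ : φ p = 0)
    (h : ψ (φ y) ≠ ψ (φ y')) : e ψ ρ τ p y * e ψ ρ τ p y' = 0 := by
  have h1 : e ψ ρ τ p y * ρ (τ p φ) * e ψ ρ τ p y' = ψ (φ y) • (e ψ ρ τ p y * e ψ ρ τ p y') := by
    rw [e_T hS p y φ hφ, smul_mul_assoc]
  have h2 : e ψ ρ τ p y * ρ (τ p φ) * e ψ ρ τ p y' = ψ (φ y') • (e ψ ρ τ p y * e ψ ρ τ p y') := by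
    rw [mul_assoc, T_e hS p y' φ hφ, mul_smul_comm]
  rw [h1] at h2
  have h3 : (ψ (φ y) - ψ (φ y')) • (e ψ ρ τ p y * e ψ ρ τ p y') = 0 := by
    rw [sub_smul, h2, sub_self]
  exact (smul_eq_zero.mp h3).resolve_left (sub_ne_zero.mpr h)

/-- normalising transvections -/
theorem T_e_conj (hS : Sys ρ τ) (p y a : X) (β : Dual F X) (ha : β a = 0) (hp : β p = 0) :
    ρ (τ a β) * e ψ ρ τ p y = e ψ ρ τ p (y + β y • a) * ρ (τ a β) := by
  rw [e, e, mul_smul_comm, smul_mul_assoc, Finset.mul_sum, Finset.sum_mul]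
  congr 1
  let f : P F p ≃ P F p :=
    { toFun := fun φ => ⟨(φ : Dual F X) - (φ : Dual F X) a • β, by
        rw [mem_P]; simp [hp, mem_P.mp φ.2]⟩
      invFun := fun φ => ⟨(φ : Dual F X) + (φ : Dual F X) a • β, by
        rw [mem_P]; simp [hp, mem_P.mp φ.2]⟩
      left_inv := fun φ => by
        apply Subtype.ext
        simp [ha]
      right_inv := fun φ => by
        apply Subtype.ext
        simp [ha] }
  refine Fintype.sum_equiv f _ _ ?_
  intro φ
  have h1 := hS.conj a p β φ ha φ.2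
  rw [hp, zero_smul, add_zero] at h1
  rw [mul_smul_comm, smul_mul_assoc, h1]
  congr 2
  change _ = -(((φ : Dual F X) - (φ : Dual F X) a • β) (y + β y • a))
  simp [ha]
  ring

end wt

end H44.TSys
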