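import Cfsg.Agent.Lib.H44.TSys

/-! Transvection systems: traces of the weight projections. -/

set_option autoImplicit false

namespace H44.TSys

open Module

universe u v w z

variable {F : Type u} [Field F]

theorem sum_lin {M : Type*} [AddCommGroup M] [Module F M] [Fintype M] (ψ : AddChar F ℂ)
    (hψ : ψ ≠ 0) (φ : M →ₗ[F] F) (hφ : φ ≠ 0) : ∑ y : M, ψ (φ y) = 0 := by
  have h1 : ψ.compAddMonoidHom φ.toAddMonoidHom ≠ 0 := by
    intro h
    apply hψ
    apply AddChar.ext
    intro x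
    obtain ⟨y, hy⟩ := LinearMap.surjective hφ x
    have := DFunLike.congr_fun h y
    rw [AddChar.compAddMonoidHom_apply] at this
    change ψ (φ y) = 1 at this
    rw [← hy, this]
    rfl
  have h2 := (AddChar.sum_eq_zero_iff_ne_zero (ψ := ψ.compAddMonoidHom φ.toAddMonoidHom)).mpr h1
  simpa using h2

theorem sum_lin_neg {M : Type*} [AddCommGroup M] [Module F M] [Fintype M] (ψ : AddChar F ℂ)
    (hψ : ψ ≠ 0) (φ : M →ₗ[F] F) (hφ : φ ≠ 0) : ∑ y : M, ψ (-φ y) = 0 := by
  have := sum_lin ψ hψ (-φ) (neg_ne_zero.mpr hφ)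
  simpa using this

variable [Fintype F]
variable {X : Type v} [AddCommGroup X] [Module F X] [FiniteDimensional F X]

theorem card_P (p : X) (hp : p ≠ 0) :
    Fintype.card (P F p) = Fintype.card F ^ (finrank F X - 1) := by
  rw [Module.card_eq_pow_finrank (K := F)]
  congr 1
  have h1 : Dual.eval F X p ≠ 0 := by
    intro h
    obtain ⟨β, hβ⟩ := exists_dual_one (F := F) hp
    have := DFunLike.congr_fun h β
    rw [Dual.eval_apply, hβ] at this
    exact one_ne_zero this
  have h2 := finrank_ker_dual_eq (F := F) (X := Dual F X) (Dual.eval F X p) h1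
  rw [Subspace.dual_finrank_eq] at h2
  change finrank F (LinearMap.ker (Dual.eval F X p)) = _
  omega

theorem card_ker (f : Dual F X) (hf : f ≠ 0) [Fintype (LinearMap.ker f)] :
    Fintype.card (LinearMap.ker f) = Fintype.card F ^ (finrank F X - 1) := by
  rw [Module.card_eq_pow_finrank (K := F)]
  congr 1
  have h2 := finrank_ker_dual_eq (F := F) f hf
  omega

variable {G : Type w} [Group G] {W : Type z} [AddCommGroup W] [Module ℂ W]
variable {ρ : Representation ℂ G W} {τ : X → Dual F X → G} {ψ : AddChar F ℂ}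

theorem sum_e (hS : Sys ρ τ) (hψ : ψ ≠ 0) (p : X) (f : Dual F X) (hf : f p = 1)
    [Fintype (LinearMap.ker f)] : ∑ y : LinearMap.ker f, e ψ ρ τ p y = 1 := by
  classical
  have hp : p ≠ 0 := by
    rintro rfl
    simp at hf
  have hf0 : f ≠ 0 := by
    rintro rfl
    simp at hf
  simp only [e]
  rw [← Finset.smul_sum, Finset.sum_comm]
  have h1 : ∀ φ : P F p, ∑ y : LinearMap.ker f, ψ (-(φ : Dual F X) y) • ρ (τ p φ) =
      if φ = 0 then (Fintype.card (P F p) : ℂ) • (1 : Module.End ℂ W) else 0 := by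
    intro φ
    rw [← Finset.sum_smul]
    split_ifs with h
    · subst h
      simp only [ZeroMemClass.coe_zero, LinearMap.zero_apply, neg_zero, AddChar.map_zero_eq_one,
        Finset.sum_const, Finset.card_univ, hS.zero, nsmul_eq_mul, mul_one]
      rw [card_ker f hf0, card_P p hp]
    · have h2 : (φ : Dual F X) ∘ₗ (LinearMap.ker f).subtype ≠ 0 := by
        intro h3
        apply h
        apply Subtype.ext
        apply LinearMap.ext
        intro x
        have h4 : x - f x • p ∈ LinearMap.ker f := by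
          rw [LinearMap.mem_ker]
          simp [hf]
        have h5 := DFunLike.congr_fun h3 ⟨_, h4⟩
        have h6 : (φ : Dual F X) p = 0 := φ.2
        simp [h6] at h5
        exact h5
      have h3 := sum_lin_neg ψ hψ _ h2
      have h4 : ∑ y : LinearMap.ker f, ψ (-(φ : Dual F X) y) = 0 := h3
      rw [h4, zero_smul]
  rw [Finset.sum_congr rfl (fun φ _ => h1 φ), Finset.sum_ite_eq' Finset.univ (0 : P F p)]
  simp only [Finset.mem_univ, if_true]
  rw [smul_smul, inv_mul_cancel₀ (card_P_ne p), one_smul]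

variable [FiniteDimensional ℂ W]

theorem trace_e (p y : X) : LinearMap.trace ℂ W (e ψ ρ τ p y) =
    (Fintype.card (P F p) : ℂ)⁻¹ * ∑ φ : P F p, ψ (-(φ : Dual F X) y) * ρ.character (τ p φ) := by
  rw [e, map_smul, map_sum, smul_eq_mul]
  congr 1
  refine Finset.sum_congr rfl (fun φ _ => ?_)
  rw [map_smul, smul_eq_mul]
  rfl

theorem sum_split (hS : Sys ρ τ) (p y : X) (c : ℂ)
    (hc : ∀ φ : Dual F X, φ ≠ 0 → φ p = 0 → ρ.character (τ p φ) = c) :
    ∑ φ : P F p, ψ (-(φ : Dual F X) y) * ρ.character (τ p φ) =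
      (finrank ℂ W : ℂ) - c + c * ∑ φ : P F p, ψ (-(φ : Dual F X) y) := by
  classical
  have h1 : ∀ φ : P F p, ψ (-(φ : Dual F X) y) * ρ.character (τ p φ) =
      (if φ = 0 then (finrank ℂ W : ℂ) - c else 0) + c * ψ (-(φ : Dual F X) y) := by
    intro φ
    split_ifs with h
    · subst h
      have : ρ.character (τ p ((0 : P F p) : Dual F X)) = finrank ℂ W := by
        change LinearMap.trace ℂ W (ρ (τ p 0)) = _
        rw [hS.zero]
        exact LinearMap.trace_one ℂ W
      rw [this]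
      simp
    · rw [hc φ (fun h0 => h (Subtype.ext h0)) φ.2]
      ring
  rw [Finset.sum_congr rfl (fun φ _ => h1 φ), Finset.sum_add_distrib,
    Finset.sum_ite_eq' Finset.univ (0 : P F p), ← Finset.mul_sum]
  simp

theorem sum_P (hψ : ψ ≠ 0) (p y : X) (hy : ∃ φ : Dual F X, φ p = 0 ∧ φ y ≠ 0) :
    ∑ φ : P F p, ψ (-(φ : Dual F X) y) = 0 := by
  obtain ⟨φ0, h1, h2⟩ := hy
  have h3 : (Dual.eval F X y) ∘ₗ (P F p).subtype ≠ 0 := by
    intro h
    exact h2 (DFunLike.congr_fun h ⟨φ0, h1⟩)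
  exact sum_lin_neg (M := P F p) ψ hψ ((Dual.eval F X y) ∘ₗ (P F p).subtype) h3

theorem trace_e_ne (hS : Sys ρ τ) (hψ : ψ ≠ 0) (p y : X) (hy : ∃ φ : Dual F X, φ p = 0 ∧ φ y ≠ 0)
    (c : ℂ) (hc : ∀ φ : Dual F X, φ ≠ 0 → φ p = 0 → ρ.character (τ p φ) = c) :
    LinearMap.trace ℂ W (e ψ ρ τ p y) = (Fintype.card (P F p) : ℂ)⁻¹ * (finrank ℂ W - c) := by
  rw [trace_e, sum_split hS p y c hc, sum_P hψ p y hy, mul_zero, add_zero]

theorem trace_e_zero (hS : Sys ρ τ) (p : X)
    (c : ℂ) (hc : ∀ φ : Dual F X, φ ≠ 0 → φ p = 0 → ρ.character (τ p φ) = c) :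
    LinearMap.trace ℂ W (e ψ ρ τ p 0) =
      (Fintype.card (P F p) : ℂ)⁻¹ * (finrank ℂ W - c) + c := by
  rw [trace_e, sum_split hS p 0 c hc]
  simp only [map_zero, neg_zero, AddChar.map_zero_eq_one, Finset.sum_const, Finset.card_univ,
    nsmul_eq_mul, mul_one]
  rw [mul_add]
  congr 1
  field_simp [card_P_ne (F := F) p]

/-- the trace of an idempotent -/
theorem trace_idem {A : Module.End ℂ W} (h : A * A = A) :
    LinearMap.trace ℂ W A = (finrank ℂ (LinearMap.range A) : ℂ) := by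
  have h1 : LinearMap.IsProj (LinearMap.range A) A := by
    refine ⟨fun x => ⟨x, rfl⟩, ?_⟩
    rintro _ ⟨x, rfl⟩
    rw [← Module.End.mul_apply, h]
  exact h1.trace

end H44.TSys
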