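import Cfsg.Agent.Lib.H44.TSys2

/-! Transvection systems: restriction to subspaces and subrepresentations. -/

set_option autoImplicit false

namespace H44.TSys

open Module

universe u v w z

variable {F : Type u} [Field F]
variable {X : Type v} [AddCommGroup X] [Module F X]
variable {G : Type w} [Group G] {W : Type z} [AddCommGroup W] [Module ℂ W]
variable {ρ : Representation ℂ G W} {τ : X → Dual F X → G} {ψ : AddChar F ℂ}

theorem Sys.sub (hS : Sys ρ τ) (S : Subrepresentation ρ) : Sys S.toRepresentation τ where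
  gen := hS.gen
  junk := fun u ω h => by
    apply LinearMap.ext
    intro x
    apply Subtype.ext
    change ρ (τ u ω) (x : W) = x
    rw [hS.junk u ω h]
    rfl
  add := fun u ω ω' h h' => by
    apply LinearMap.ext
    intro x
    apply Subtype.ext
    exact DFunLike.congr_fun (hS.add u ω ω' h h') (x : W)
  smul := fun c u ω h => by
    apply LinearMap.ext
    intro x
    apply Subtype.ext
    exact DFunLike.congr_fun (hS.smul c u ω h) (x : W)
  conj := fun a u β ω h h' => by
    apply LinearMap.ext
    intro x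
    apply Subtype.ext
    exact DFunLike.congr_fun (hS.conj a u β ω h h') (x : W)

section restr

variable {X' : Type v} [AddCommGroup X'] [Module F X'] (i : X' →ₗ[F] X) (π : X →ₗ[F] X')

/-- the subgroup generated by the smaller transvections -/
def sg (τ : X → Dual F X → G) : Subgroup G :=
  Subgroup.closure (Set.range fun x : X' × Dual F X' => τ (i x.1) (x.2 ∘ₗ π))

def tau' (τ : X → Dual F X → G) (x : X') (ω : Dual F X') : sg i π τ :=
  ⟨τ (i x) (ω ∘ₗ π), Subgroup.subset_closure ⟨(x, ω), rfl⟩⟩

theorem Sys.restr (hS : Sys ρ τ) (h : ∀ x, π (i x) = x) :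
    Sys (ρ.comp (sg i π τ).subtype) (tau' i π τ) where
  gen := by
    have h0 := Subgroup.closure_closure_coe_preimage
      (k := Set.range fun x : X' × Dual F X' => τ (i x.1) (x.2 ∘ₗ π))
    refine top_le_iff.mp (h0.symm.le.trans ((Subgroup.closure_le _).mpr ?_))
    rintro ⟨x, hx⟩ ⟨y, hy⟩
    apply Subgroup.subset_closure
    exact ⟨y, Subtype.ext hy⟩
  junk := fun u ω h1 => hS.junk (i u) (ω ∘ₗ π) (by simpa [h] using h1)
  add := fun u ω ω' h1 h2 => hS.add (i u) (ω ∘ₗ π) (ω' ∘ₗ π) (by simpa [h] using h1)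
    (by simpa [h] using h2)
  smul := fun c u ω h1 => by
    have := hS.smul c (i u) (ω ∘ₗ π) (by simpa [h] using h1)
    rw [← map_smul] at this
    exact this
  conj := fun a u β ω h1 h2 => by
    have := hS.conj (i a) (i u) (β ∘ₗ π) (ω ∘ₗ π) (by simpa [h] using h1) (by simpa [h] using h2)
    rw [LinearMap.comp_apply, LinearMap.comp_apply, h, h, ← map_smul, ← map_add] at this
    exact this

end restr

/-! ### the fixed space of `Q_p` -/

/-- fixed space of the group of transvections with centre `p` -/
def fixS (ρ : Representation ℂ G W) (τ : X → Dual F X → G) (p : X) : Submodule ℂ W where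
  carrier := {v | ∀ φ : Dual F X, φ p = 0 → ρ (τ p φ) v = v}
  zero_mem' := fun φ _ => map_zero _
  add_mem' := fun {x y} hx hy φ h => by rw [map_add, hx φ h, hy φ h]
  smul_mem' := fun c x hx φ h => by rw [map_smul, hx φ h]

theorem mem_fixS {p : X} {v : W} :
    v ∈ fixS ρ τ p ↔ ∀ φ : Dual F X, φ p = 0 → ρ (τ p φ) v = v := Iff.rfl

variable [Fintype F] [FiniteDimensional F X]

theorem mem_fixS_iff (hS : Sys ρ τ) (ψ : AddChar F ℂ) {p : X} {v : W} :
    v ∈ fixS ρ τ p ↔ e ψ ρ τ p 0 v = v := by
  constructor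
  · intro h
    apply e_apply_of_mem
    intro φ hφ
    rw [h φ hφ, map_zero, AddChar.map_zero_eq_one, one_smul]
  · intro h φ hφ
    rw [← h, ← Module.End.mul_apply, T_e hS p 0 φ hφ, map_zero, AddChar.map_zero_eq_one, one_smul]

theorem range_e_zero (hS : Sys ρ τ) (ψ : AddChar F ℂ) (p : X) :
    LinearMap.range (e ψ ρ τ p 0) = fixS ρ τ p := by
  apply le_antisymm
  · rintro _ ⟨x, rfl⟩
    rw [mem_fixS_iff hS ψ, ← Module.End.mul_apply, e_idem hS]
  · intro x hx
    exact ⟨x, (mem_fixS_iff hS ψ).mp hx⟩

theorem fixS_invariant (hS : Sys ρ τ) (ψ : AddChar F ℂ) (p a : X) (β : Dual F X) (ha : β a = 0)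
    (hp : β p = 0) (v : W) (hv : v ∈ fixS ρ τ p) : ρ (τ a β) v ∈ fixS ρ τ p := by
  rw [mem_fixS_iff hS ψ] at hv ⊢
  have h := T_e_conj (ψ := ψ) hS p 0 a β ha hp
  rw [map_zero, zero_smul, add_zero] at h
  have h2 := DFunLike.congr_fun h v
  rw [Module.End.mul_apply, Module.End.mul_apply, hv] at h2
  exact h2.symm

section down

variable (f : Dual F X) (p : X) (hf : f p = 1)

/-- projection to the kernel of `f` along `p` -/
def prK (f : Dual F X) (p : X) (hf : f p = 1) : X →ₗ[F] LinearMap.ker f :=
  LinearMap.codRestrict (LinearMap.ker f) (LinearMap.id - f.smulRight p) (fun x => by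
    rw [LinearMap.mem_ker]
    simp [hf])

omit [Fintype F] [FiniteDimensional F X] in
theorem prK_apply (x : X) : (prK f p hf x : X) = x - f x • p := rfl

omit [Fintype F] [FiniteDimensional F X] in
theorem prK_i (x : LinearMap.ker f) : prK f p hf ((LinearMap.ker f).subtype x) = x := by
  apply Subtype.ext
  rw [prK_apply]
  have : f (x : X) = 0 := x.2
  simp [this]

omit [Fintype F] [FiniteDimensional F X] in
theorem prK_p : prK f p hf p = 0 := by
  apply Subtype.ext
  rw [prK_apply]
  simp [hf]

/-- the subrepresentation of the smaller group on the fixed space -/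
def subr (hS : Sys ρ τ) (ψ : AddChar F ℂ) :
    Subrepresentation (ρ.comp (sg (LinearMap.ker f).subtype (prK f p hf) τ).subtype) where
  toSubmodule := fixS ρ τ p
  apply_mem_toSubmodule := by
    rintro ⟨g, hg⟩ v hv
    change ρ g v ∈ fixS ρ τ p
    have key : ∀ g ∈ sg (LinearMap.ker f).subtype (prK f p hf) τ, ∀ v ∈ fixS ρ τ p,
        ρ g v ∈ fixS ρ τ p ∧ ρ g⁻¹ v ∈ fixS ρ τ p := by
      intro g hg
      induction hg using Subgroup.closure_induction with
      | mem x hx =>
        obtain ⟨⟨a, β⟩, rfl⟩ := hx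
        intro v hv
        by_cases h0 : β a = 0
        · have h1 : (β ∘ₗ prK f p hf) ((LinearMap.ker f).subtype a) = 0 := by
            rw [LinearMap.comp_apply, prK_i, h0]
          have h2 : (β ∘ₗ prK f p hf) p = 0 := by
            rw [LinearMap.comp_apply, prK_p, map_zero]
          refine ⟨fixS_invariant hS ψ p _ _ h1 h2 v hv, ?_⟩
          have h3 := hS.neg _ _ h1
          have h4 : ρ (τ ((LinearMap.ker f).subtype a) (β ∘ₗ prK f p hf))⁻¹ =
              ρ (τ ((LinearMap.ker f).subtype a) (-(β ∘ₗ prK f p hf))) := by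
            refine cancel_right (ρ := ρ) (τ ((LinearMap.ker f).subtype a) (β ∘ₗ prK f p hf)) ?_
            rw [h3, rho_inv_mul]
          simp only
          rw [h4]
          exact fixS_invariant hS ψ p _ _ (by rw [LinearMap.neg_apply, h1, neg_zero])
            (by rw [LinearMap.neg_apply, h2, neg_zero]) v hv
        · have h1 : (β ∘ₗ prK f p hf) ((LinearMap.ker f).subtype a) ≠ 0 := by
            rw [LinearMap.comp_apply, prK_i]
            exact h0
          have h2 := hS.junk _ _ h1
          have h4 : ρ (τ ((LinearMap.ker f).subtype a) (β ∘ₗ prK f p hf))⁻¹ = 1 := by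
            refine cancel_right (ρ := ρ) (τ ((LinearMap.ker f).subtype a) (β ∘ₗ prK f p hf)) ?_
            rw [rho_inv_mul, h2, one_mul]
          simp only
          rw [h2, h4]
          exact ⟨hv, hv⟩
      | one => intro v hv; simpa using hv
      | mul x y _ _ hx hy =>
        intro v hv
        rw [mul_inv_rev, map_mul, map_mul, Module.End.mul_apply, Module.End.mul_apply]
        exact ⟨(hx _ (hy v hv).1).1, (hy _ (hx v hv).2).2⟩
      | inv x _ hx =>
        intro v hv
        rw [inv_inv]
        exact ⟨(hx v hv).2, (hx v hv).1⟩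
    exact (key g hg v hv).1

theorem down_sys (hS : Sys ρ τ) (ψ : AddChar F ℂ) :
    Sys (subr f p hf hS ψ).toRepresentation (tau' (LinearMap.ker f).subtype (prK f p hf) τ) :=
  (Sys.restr _ _ hS (prK_i f p hf)).sub _

end down

end H44.TSys
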