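import Cfsg.Agent.Lib.H44.TSys3

/-! Transvection systems: the inductive step. -/

set_option autoImplicit false

namespace H44.TSys

open Module

universe u v w z

variable {F : Type u} [Field F] [Fintype F]
variable {X : Type v} [AddCommGroup X] [Module F X]
variable {G : Type w} [Group G] {W : Type z} [AddCommGroup W] [Module ℂ W]

/-- the multiplicity one condition -/
def M1 (ρ : Representation ℂ G W) (τ : X → Dual F X → G) : Prop :=
  ∀ (x : X) (ω : Dual F X), x ≠ 0 → ω ≠ 0 → ω x = 0 →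
    ρ.character (τ x ω) = (finrank ℂ W : ℂ) - (Fintype.card F : ℂ) ^ (finrank F X - 1)

omit [Fintype F] in
/-- the triviality condition -/
def TP (ψ : AddChar F ℂ) (ρ : Representation ℂ G W) (τ : X → Dual F X → G) : Prop :=
  ∀ (p y x : X) (ω : Dual F X), p ≠ 0 → y ∉ Submodule.span F {p} → ω p = 0 → ω y = 0 → ω x = 0 →
    ∀ v : W, (∀ φ : Dual F X, φ p = 0 → ρ (τ p φ) v = ψ (φ y) • v) → ρ (τ x ω) v = v

variable {ρ : Representation ℂ G W} {τ : X → Dual F X → G} {ψ : AddChar F ℂ}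

omit [Fintype F] in
theorem exists_sep (hψ : ψ ≠ 0) {p y : X} (hp : p ≠ 0) (hy : y ∉ Submodule.span F {p}) :
    ∃ φ : Dual F X, φ p = 0 ∧ ψ (φ y) ≠ 1 := by
  obtain ⟨t, ht⟩ := AddChar.ne_one_iff.mp hψ
  obtain ⟨φ, h1, h2⟩ := exists_dual_pair hp hy 0 t
  exact ⟨φ, h1, by rw [h2]; exact ht⟩

variable [FiniteDimensional F X]

theorem e_mul_sep (hS : Sys ρ τ) (hψ : ψ ≠ 0) {p y y' : X} (hp : p ≠ 0)
    (hy : y - y' ∉ Submodule.span F {p}) : e ψ ρ τ p y * e ψ ρ τ p y' = 0 := by
  obtain ⟨φ, h1, h2⟩ := exists_sep hψ hp hy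
  refine e_mul_ne hS p y y' φ h1 ?_
  intro h
  apply h2
  rw [map_sub, sub_eq_add_neg, AddChar.map_add_eq_mul, h, ← AddChar.map_add_eq_mul,
    add_neg_cancel, AddChar.map_zero_eq_one]

variable [FiniteDimensional ℂ W]

theorem trace_e_one (hS : Sys ρ τ) (hψ : ψ ≠ 0) (hM : M1 ρ τ) {p y : X} (hp : p ≠ 0)
    (hy : y ∉ Submodule.span F {p}) : LinearMap.trace ℂ W (e ψ ρ τ p y) = 1 := by
  obtain ⟨φ, h1, h2⟩ := exists_sep hψ hp hy
  rw [trace_e_ne hS hψ p y ⟨φ, h1, ?_⟩ _ (fun φ h0 h1 => hM p φ hp h0 h1), sub_sub_cancel,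
    card_P p hp, Nat.cast_pow, inv_mul_cancel₀]
  · exact pow_ne_zero _ (by exact_mod_cast Fintype.card_ne_zero)
  · intro h
    rw [h, AddChar.map_zero_eq_one] at h2
    exact h2 rfl

theorem trace_e_fix (hS : Sys ρ τ) (hM : M1 ρ τ) {p : X} (hp : p ≠ 0) :
    LinearMap.trace ℂ W (e ψ ρ τ p 0) =
      1 + finrank ℂ W - (Fintype.card F : ℂ) ^ (finrank F X - 1) := by
  rw [trace_e_zero hS p _ (fun φ h0 h1 => hM p φ hp h0 h1), sub_sub_cancel,
    card_P p hp, Nat.cast_pow, inv_mul_cancel₀]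
  · ring
  · exact pow_ne_zero _ (by exact_mod_cast Fintype.card_ne_zero)

theorem finrank_fixS (hS : Sys ρ τ) (ψ : AddChar F ℂ) (hM : M1 ρ τ) {p : X} (hp : p ≠ 0) :
    (finrank ℂ (fixS ρ τ p) : ℂ) =
      1 + finrank ℂ W - (Fintype.card F : ℂ) ^ (finrank F X - 1) := by
  rw [← trace_e_fix (ψ := ψ) hS hM hp, trace_idem (e_idem hS p 0), range_e_zero hS ψ]

omit [Fintype F] [FiniteDimensional F X] in
theorem ker_ne_span {f : Dual F X} {p : X} (hf : f p = 1) {y : X} (hy : f y = 0) (hy0 : y ≠ 0) :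
    y ∉ Submodule.span F {p} := by
  intro h
  obtain ⟨c, hc⟩ := Submodule.mem_span_singleton.mp h
  rw [← hc, map_smul, hf, smul_eq_mul, mul_one] at hy
  rw [hy, zero_smul] at hc
  exact hy0 hc.symm

theorem trace_T_e (hS : Sys ρ τ) (hψ : ψ ≠ 0) (hM : M1 ρ τ) (hT : TP ψ ρ τ) (f : Dual F X) (p : X)
    (hf : f p = 1) (x : LinearMap.ker f) (ω : Dual F (LinearMap.ker f)) (hx : x ≠ 0) (hω : ω ≠ 0)
    (h0 : ω x = 0) :
    LinearMap.trace ℂ W (ρ (τ (x : X) (ω ∘ₗ prK f p hf)) * e ψ ρ τ p 0) =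
      (finrank ℂ W : ℂ) - (Fintype.card F : ℂ) ^ (finrank F X - 1) -
        ((Fintype.card F : ℂ) ^ (finrank F X - 2) - 1) := by
  classical
  have : Fintype (LinearMap.ker f) := by
    have : Finite (LinearMap.ker f) := Module.finite_of_finite F
    exact Fintype.ofFinite _
  have hp : p ≠ 0 := by
    rintro rfl
    simp at hf
  have hfx : f (x : X) = 0 := x.2
  have hx0 : (x : X) ≠ 0 := fun h => hx (Subtype.ext h)
  have hxp : (x : X) ∉ Submodule.span F {p} := ker_ne_span hf hfx hx0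
  set ω1 : Dual F X := ω ∘ₗ prK f p hf with hω1
  have hω1p : ω1 p = 0 := by rw [hω1, LinearMap.comp_apply, prK_p, map_zero]
  have hω1k : ∀ y : LinearMap.ker f, ω1 (y : X) = ω y := by
    intro y
    rw [hω1, LinearMap.comp_apply]
    congr 1
    exact prK_i f p hf y
  have hω10 : ω1 ≠ 0 := by
    intro h
    apply hω
    apply LinearMap.ext
    intro y
    rw [← hω1k y, h]
    rfl
  have hω1x : ω1 (x : X) = 0 := by rw [hω1k, h0]
  set T := ρ (τ (x : X) ω1) with hT'
  have h1 : LinearMap.trace ℂ W T = ∑ y : LinearMap.ker f, LinearMap.trace ℂ W (T * e ψ ρ τ p y) := by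
    rw [← map_sum, ← Finset.mul_sum, sum_e hS hψ p f hf, mul_one]
  have h2 : ∀ y : LinearMap.ker f, LinearMap.trace ℂ W (T * e ψ ρ τ p y) =
      (if y = 0 then LinearMap.trace ℂ W (T * e ψ ρ τ p 0) - 1 else 0) +
        (if ω y = 0 then 1 else 0) := by
    intro y
    by_cases hy : ω y = 0
    · rw [if_pos hy]
      by_cases hy0 : y = 0
      · rw [if_pos hy0, hy0]
        simp
      · rw [if_neg hy0, zero_add]
        have hy1 : (y : X) ≠ 0 := fun h => hy0 (Subtype.ext h)
        have hyp : (y : X) ∉ Submodule.span F {p} := ker_ne_span hf y.2 hy1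
        have h3 : T * e ψ ρ τ p y = e ψ ρ τ p y := by
          apply LinearMap.ext
          intro v
          rw [Module.End.mul_apply]
          refine hT p y x ω1 hp hyp hω1p (by rw [hω1k, hy]) hω1x _ ?_
          intro φ hφ
          rw [← Module.End.mul_apply, T_e hS p y φ hφ, LinearMap.smul_apply]
        rw [h3, trace_e_one hS hψ hM hp hyp]
    · rw [if_neg hy, add_zero, if_neg (by rintro rfl; simp at hy)]
      have h3 := T_e_conj (ψ := ψ) hS p y x ω1 hω1x hω1p
      have h4 : e ψ ρ τ p (y : X) * e ψ ρ τ p ((y : X) + ω1 (y : X) • (x : X)) = 0 := by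
        apply e_mul_sep hS hψ hp
        rw [sub_add_cancel_left, hω1k]
        intro h
        rw [neg_mem_iff, Submodule.smul_mem_iff _ hy] at h
        exact hxp h
      rw [← e_idem hS p (y : X), ← mul_assoc, h3, mul_assoc, LinearMap.trace_mul_comm, mul_assoc,
        h4, mul_zero, map_zero]
  have h3 : (∑ y : LinearMap.ker f, if ω y = 0 then (1 : ℂ) else 0) =
      (Fintype.card F : ℂ) ^ (finrank F X - 2) := by
    rw [Finset.sum_boole]
    have h4 : (Finset.univ.filter fun y : LinearMap.ker f => ω y = 0).card =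
        Fintype.card (LinearMap.ker ω) := by
      rw [Fintype.card_subtype]
      rfl
    rw [h4, card_ker ω hω, finrank_ker_dual_eq (F := F) f (by rintro rfl; simp at hf),
      Nat.cast_pow]
    rfl
  have h4 : LinearMap.trace ℂ W T = (finrank ℂ W : ℂ) - (Fintype.card F : ℂ) ^ (finrank F X - 1) :=
    hM x ω1 hx0 hω10 hω1x
  rw [h4, Finset.sum_congr rfl (fun y _ => h2 y), Finset.sum_add_distrib, h3,
    Finset.sum_ite_eq' Finset.univ (0 : LinearMap.ker f)] at h1
  simp only [Finset.mem_univ, if_true] at h1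
  linear_combination -h1

theorem char_down (hS : Sys ρ τ) (ψ : AddChar F ℂ) (f : Dual F X) (p : X) (hf : f p = 1)
    (x : LinearMap.ker f) (ω : Dual F (LinearMap.ker f)) (h0 : ω x = 0) :
    (subr f p hf hS ψ).toRepresentation.character
      (tau' (LinearMap.ker f).subtype (prK f p hf) τ x ω) =
    LinearMap.trace ℂ W (ρ (τ (x : X) (ω ∘ₗ prK f p hf)) * e ψ ρ τ p 0) := by
  have h1 : (ω ∘ₗ prK f p hf) (x : X) = 0 := by
    rw [LinearMap.comp_apply]
    have := prK_i f p hf x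
    rw [Submodule.subtype_apply] at this
    rw [this, h0]
  have h2 : (ω ∘ₗ prK f p hf) p = 0 := by
    rw [LinearMap.comp_apply, prK_p, map_zero]
  have h3 : ∀ v, (ρ (τ (x : X) (ω ∘ₗ prK f p hf)) * e ψ ρ τ p 0) v ∈ fixS ρ τ p := by
    intro v
    rw [Module.End.mul_apply]
    apply fixS_invariant hS ψ p _ _ h1 h2
    rw [← range_e_zero hS ψ]
    exact ⟨v, rfl⟩
  rw [← LinearMap.trace_restrict_eq_of_forall_mem (fixS ρ τ p)
    (ρ (τ (x : X) (ω ∘ₗ prK f p hf)) * e ψ ρ τ p 0) h3]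
  change LinearMap.trace ℂ (fixS ρ τ p) _ = LinearMap.trace ℂ (fixS ρ τ p) _
  congr 1
  apply LinearMap.ext
  intro v
  apply Subtype.ext
  change ρ (τ (x : X) (ω ∘ₗ prK f p hf)) (v : W) =
    (ρ (τ (x : X) (ω ∘ₗ prK f p hf)) * e ψ ρ τ p 0) (v : W)
  rw [Module.End.mul_apply, (mem_fixS_iff hS ψ).mp v.2]

theorem M1_down (hS : Sys ρ τ) (hψ : ψ ≠ 0) (hM : M1 ρ τ) (hT : TP ψ ρ τ) (f : Dual F X) (p : X)
    (hf : f p = 1) (h2 : 2 ≤ finrank F X) : M1 (subr f p hf hS ψ).toRepresentation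
      (tau' (LinearMap.ker f).subtype (prK f p hf) τ) := by
  intro x ω hx hω h0
  have hp : p ≠ 0 := by
    rintro rfl
    simp at hf
  rw [char_down hS ψ f p hf x ω h0, trace_T_e hS hψ hM hT f p hf x ω hx hω h0]
  change _ = (finrank ℂ (fixS ρ τ p) : ℂ) - _
  rw [finrank_fixS hS ψ hM hp]
  have h3 : finrank F (LinearMap.ker f) - 1 = finrank F X - 2 := by
    have := finrank_ker_dual_eq (F := F) f (by rintro rfl; simp at hf)
    omega
  rw [h3]
  ring

omit [FiniteDimensional ℂ W] in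
theorem TP_down (hS : Sys ρ τ) (hψ : ψ ≠ 0) (hT : TP ψ ρ τ) (f : Dual F X) (p : X)
    (hf : f p = 1) : TP ψ (subr f p hf hS ψ).toRepresentation
      (tau' (LinearMap.ker f).subtype (prK f p hf) τ) := by
  classical
  intro p' y' x ω hp' hy' hωp hωy hωx v hv
  set ω1 : Dual F X := ω ∘ₗ prK f p hf with hω1
  have hω1p : ω1 p = 0 := by rw [hω1, LinearMap.comp_apply, prK_p, map_zero]
  have hω1k : ∀ y : LinearMap.ker f, ω1 (y : X) = ω y := by
    intro y
    rw [hω1, LinearMap.comp_apply]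
    congr 1
    exact prK_i f p hf y
  have hp'0 : (p' : X) ≠ 0 := fun h => hp' (Subtype.ext h)
  obtain ⟨f', hf'⟩ := exists_dual_one (F := F) hp'0
  have : Fintype (LinearMap.ker f') := by
    have : Finite (LinearMap.ker f') := Module.finite_of_finite F
    exact Fintype.ofFinite _
  have hv1 : ∀ φ : Dual F X, φ p = 0 → φ p' = 0 → ρ (τ p' φ) (v : W) = ψ (φ y') • (v : W) := by
    intro φ h1 h2
    have h3 : (φ ∘ₗ (LinearMap.ker f).subtype) ∘ₗ prK f p hf = φ := by
      apply LinearMap.ext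
      intro z
      rw [LinearMap.comp_apply, LinearMap.comp_apply, Submodule.subtype_apply, prK_apply]
      simp [h1]
    have h4 := hv (φ ∘ₗ (LinearMap.ker f).subtype) h2
    have h5 := congrArg Subtype.val h4
    change ρ (τ (p' : X) ((φ ∘ₗ (LinearMap.ker f).subtype) ∘ₗ prK f p hf)) (v : W) =
      ψ (φ y') • (v : W) at h5
    rw [h3] at h5
    exact h5
  apply Subtype.ext
  change ρ (τ (x : X) ω1) (v : W) = v
  have hsum : ∑ y : LinearMap.ker f', e ψ ρ τ p' y (v : W) = v := by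
    rw [← LinearMap.sum_apply, sum_e hS hψ (p' : X) f' hf']
    rfl
  have key : ∀ y : LinearMap.ker f', ρ (τ (x : X) ω1) (e ψ ρ τ p' y (v : W)) =
      e ψ ρ τ p' y (v : W) := by
    intro y
    by_cases hy : (y : X) - y' ∈ Submodule.span F {p, (p' : X)}
    · obtain ⟨a, b, hab⟩ := Submodule.mem_span_pair.mp hy
      have h1 : (y : X) = y' + a • p + b • (p' : X) := by
        rw [add_assoc, hab]
        abel
      have h2 : ω1 y = 0 := by
        rw [h1, map_add, map_add, map_smul, map_smul, hω1p, hω1k, hω1k, hωp, hωy]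
        simp
      refine hT p' y x ω1 hp'0 ?_ (by rw [hω1k, hωp]) h2 (by rw [hω1k, hωx]) _ ?_
      · intro hc
        obtain ⟨c, hc⟩ := Submodule.mem_span_singleton.mp hc
        have h3 : (y' : X) = (c - b) • (p' : X) - a • p := by
          rw [← hc] at h1
          rw [sub_smul, h1]
          abel
        have h4 : f (y' : X) = 0 := y'.2
        have h5 : f (p' : X) = 0 := p'.2
        have h6 : a = 0 := by
          rw [h3, map_sub, map_smul, map_smul, h5, hf] at h4
          simpa using h4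
        apply hy'
        rw [Submodule.mem_span_singleton]
        refine ⟨c - b, Subtype.ext ?_⟩
        rw [h6, zero_smul, sub_zero] at h3
        exact h3.symm
      · intro φ hφ
        rw [← Module.End.mul_apply, T_e hS p' y φ hφ, LinearMap.smul_apply]
    · obtain ⟨φ0, h1, h2⟩ := Submodule.exists_le_ker_of_notMem hy
      obtain ⟨t, ht⟩ := AddChar.ne_one_iff.mp hψ
      have h3 : φ0 p = 0 := h2 (Submodule.subset_span (by simp))
      have h4 : φ0 (p' : X) = 0 := h2 (Submodule.subset_span (by simp))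
      set φ : Dual F X := (t / φ0 ((y : X) - y')) • φ0 with hφ
      have h5 : φ p = 0 := by rw [hφ]; simp [h3]
      have h6 : φ p' = 0 := by rw [hφ]; simp [h4]
      have h7 : φ ((y : X) - y') = t := by
        rw [hφ, LinearMap.smul_apply, smul_eq_mul, div_mul_cancel₀ _ h1]
      have h8 : (e ψ ρ τ p' y) (ρ (τ p' φ) (v : W)) = ψ (φ y) • e ψ ρ τ p' y (v : W) := by
        rw [← Module.End.mul_apply, e_T hS p' y φ h6, LinearMap.smul_apply]
      rw [hv1 φ h5 h6, map_smul] at h8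
      have h9 : (ψ (φ y) - ψ (φ y')) • e ψ ρ τ p' y (v : W) = 0 := by
        rw [sub_smul, h8, sub_self]
      have h10 : ψ (φ y) - ψ (φ y') ≠ 0 := by
        rw [sub_ne_zero]
        intro h
        apply ht
        rw [← h7, map_sub, sub_eq_add_neg, AddChar.map_add_eq_mul, h, ← AddChar.map_add_eq_mul,
          add_neg_cancel, AddChar.map_zero_eq_one]
      rw [(smul_eq_zero.mp h9).resolve_left h10, map_zero]
  rw [← hsum, map_sum]
  exact Finset.sum_congr rfl (fun y _ => key y)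

end H44.TSys
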