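import Cfsg.Agent.Lib.H44.TSys4

/-! Transvection systems: Schur, integrality. -/

set_option autoImplicit false

namespace H44.TSys

open Module

universe u v w z

variable {F : Type u} [Field F] [Fintype F]
variable {X : Type v} [AddCommGroup X] [Module F X] [FiniteDimensional F X] [Fintype X]
variable {G : Type w} [Group G] {W : Type z} [AddCommGroup W] [Module ℂ W]
variable {ρ : Representation ℂ G W} {τ : X → Dual F X → G} {ψ : AddChar F ℂ}

/-- the index set of all transvections -/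
def Idx (F : Type u) [Field F] (X : Type v) [AddCommGroup X] [Module F X] : Type _ :=
  {x : X × Dual F X // x.1 ≠ 0 ∧ x.2 x.1 = 0}

noncomputable instance instFintypeIdx : Fintype (Idx F X) := by
  have : Finite (Dual F X) := Module.finite_of_finite F
  have : Finite (Idx F X) := by
    unfold Idx
    infer_instance
  exact Fintype.ofFinite _

/-- the sum over all transvections -/
noncomputable def SS (ρ : Representation ℂ G W) (τ : X → Dual F X → G) : Module.End ℂ W :=
  ∑ x : Idx F X, ρ (τ x.1.1 x.1.2)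

/-- conjugation on the index set -/
def cIdx (a : X) (β : Dual F X) (h : β a = 0) : Idx F X ≃ Idx F X where
  toFun x := ⟨(x.1.1 + β x.1.1 • a, x.1.2 - x.1.2 a • β), by
    obtain ⟨⟨p, φ⟩, h1, h2⟩ := x
    simp only at h1 h2 ⊢
    refine ⟨?_, ?_⟩
    · intro h3
      have h4 := congrArg β h3
      rw [map_add, map_smul, h, smul_zero, add_zero, map_zero] at h4
      rw [h4, zero_smul, add_zero] at h3
      exact h1 h3
    · simp only [LinearMap.sub_apply, LinearMap.smul_apply, map_add, map_smul, smul_eq_mul, h, h2]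
      ring⟩
  invFun x := ⟨(x.1.1 - β x.1.1 • a, x.1.2 + x.1.2 a • β), by
    obtain ⟨⟨p, φ⟩, h1, h2⟩ := x
    simp only at h1 h2 ⊢
    refine ⟨?_, ?_⟩
    · intro h3
      have h4 := congrArg β h3
      rw [map_sub, map_smul, h, smul_zero, sub_zero, map_zero] at h4
      rw [h4, zero_smul, sub_zero] at h3
      exact h1 h3
    · simp only [LinearMap.add_apply, LinearMap.smul_apply, map_sub, map_smul, smul_eq_mul, h, h2]
      ring⟩
  left_inv x := by
    obtain ⟨⟨p, φ⟩, h1, h2⟩ := x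
    apply Subtype.ext
    simp [h]
  right_inv x := by
    obtain ⟨⟨p, φ⟩, h1, h2⟩ := x
    apply Subtype.ext
    simp [h]

theorem SS_comm_tau (hS : Sys ρ τ) (a : X) (β : Dual F X) :
    ρ (τ a β) * SS ρ τ = SS ρ τ * ρ (τ a β) := by
  by_cases h : β a = 0
  · rw [SS, Finset.mul_sum, Finset.sum_mul]
    refine Fintype.sum_equiv (cIdx a β h) _ _ ?_
    intro x
    exact hS.conj a x.1.1 β x.1.2 h x.2.2
  · rw [hS.junk a β h, one_mul, mul_one]

theorem SS_comm (hS : Sys ρ τ) (g : G) : ρ g * SS ρ τ = SS ρ τ * ρ g := by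
  have hg : g ∈ Subgroup.closure (Set.range fun x : X × Dual F X => τ x.1 x.2) := by
    rw [hS.gen]; trivial
  induction hg using Subgroup.closure_induction with
  | mem x hx =>
    obtain ⟨y, rfl⟩ := hx
    exact SS_comm_tau hS y.1 y.2
  | one => rw [map_one, one_mul, mul_one]
  | mul x y _ _ hx hy => rw [map_mul, mul_assoc, hy, ← mul_assoc, hx, mul_assoc]
  | inv x _ hx =>
    refine cancel_right (ρ := ρ) x ?_
    rw [mul_assoc, ← hx, ← mul_assoc, rho_inv_mul, one_mul, mul_assoc, rho_inv_mul, mul_one]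

/-- the index set as a sigma type -/
def sIdx : (Σ p : {p : X // p ≠ 0}, P F p.1) ≃ Idx F X where
  toFun x := ⟨(x.1.1, x.2.1), x.1.2, x.2.2⟩
  invFun x := ⟨⟨x.1.1, x.2.1⟩, ⟨x.1.2, x.2.2⟩⟩
  left_inv _ := rfl
  right_inv _ := rfl

theorem SS_eq [DecidableEq X] (ψ : AddChar F ℂ) : SS ρ τ = ∑ p : {p : X // p ≠ 0},
    ((Fintype.card F : ℂ) ^ (finrank F X - 1)) • e ψ ρ τ p.1 0 := by
  have h1 : ∀ p : {p : X // p ≠ 0},
      ((Fintype.card F : ℂ) ^ (finrank F X - 1)) • e ψ ρ τ p.1 0 =
      ∑ φ : P F p.1, ρ (τ p.1 φ) := by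
    intro p
    rw [e, card_P p.1 p.2, smul_smul, Nat.cast_pow, mul_inv_cancel₀, one_smul]
    · refine Finset.sum_congr rfl (fun φ _ => ?_)
      rw [map_zero, neg_zero, AddChar.map_zero_eq_one, one_smul]
    · exact pow_ne_zero _ (by exact_mod_cast Fintype.card_ne_zero)
  rw [Finset.sum_congr rfl (fun p _ => h1 p), ← Fintype.sum_sigma', SS]
  exact (Fintype.sum_equiv (sIdx (F := F) (X := X)) _ _ (fun x => rfl)).symm

variable [FiniteDimensional ℂ W]

theorem schur (hS : Sys ρ τ) (hρ : ρ.IsIrreducible) :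
    ∃ c : ℂ, SS ρ τ = c • (LinearMap.id : W →ₗ[ℂ] W) := by
  let T : Representation.IntertwiningMap ρ ρ := ⟨SS ρ τ, fun g => (SS_comm hS g).symm⟩
  obtain ⟨c, hc⟩ := (Representation.IsIrreducible.algebraMap_intertwiningMap_bijective_of_isAlgClosed
    (ρ := ρ)).2 T
  refine ⟨c, ?_⟩
  have := congrArg Representation.IntertwiningMap.toLinearMap hc
  exact this.symm

omit [FiniteDimensional ℂ W] in
theorem integral [Finite G] [Nontrivial W] (c : ℂ)
    (h : SS ρ τ = c • (LinearMap.id : W →ₗ[ℂ] W)) : IsIntegral ℤ c := by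
  have := Fintype.ofFinite G
  refine H4.Integral.isIntegral_of_image_scalar ρ
    (∑ x : Idx F X, MonoidAlgebra.single (τ x.1.1 x.1.2) (1 : ℤ)) c ?_
  rw [← h, map_sum, SS]
  refine Finset.sum_congr rfl (fun x _ => ?_)
  rw [MonoidAlgebra.lift_single, one_smul]

theorem trace_SS (hS : Sys ρ τ) (ψ : AddChar F ℂ) (hM : M1 ρ τ) :
    LinearMap.trace ℂ W (SS ρ τ) =
      ((Fintype.card F : ℂ) ^ finrank F X - 1) * (Fintype.card F : ℂ) ^ (finrank F X - 1) *
      (1 + finrank ℂ W - (Fintype.card F : ℂ) ^ (finrank F X - 1)) := by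
  classical
  rw [SS_eq ψ, map_sum]
  have h1 : ∀ p : {p : X // p ≠ 0}, LinearMap.trace ℂ W
      (((Fintype.card F : ℂ) ^ (finrank F X - 1)) • e ψ ρ τ p.1 0) =
      (Fintype.card F : ℂ) ^ (finrank F X - 1) *
      (1 + finrank ℂ W - (Fintype.card F : ℂ) ^ (finrank F X - 1)) := by
    intro p
    rw [map_smul, smul_eq_mul, trace_e_fix hS hM p.2]
  rw [Finset.sum_congr rfl (fun p _ => h1 p), Finset.sum_const, Finset.card_univ, nsmul_eq_mul]
  have h2 : Fintype.card {p : X // p ≠ 0} = Fintype.card X - 1 := by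
    rw [Fintype.card_subtype_compl, Fintype.card_subtype_eq]
  have h3 : Fintype.card X = Fintype.card F ^ finrank F X := Module.card_eq_pow_finrank
  have h4 : 1 ≤ Fintype.card X := Fintype.card_pos
  rw [h2, Nat.cast_sub h4, h3]
  push_cast
  ring

end H44.TSys
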