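import Mathlib

/-! Arithmetic for the minimal degree of `SL_n`. -/

set_option autoImplicit false

namespace H44.TSys

/-- `q + q^2 + ... + q^(n-1)` -/
def D (q n : ℕ) : ℕ := ∑ j ∈ Finset.Ico 1 n, q ^ j

theorem D_succ (q n : ℕ) (hn : 1 ≤ n) : D q (n + 1) = D q n + q ^ n := by
  rw [D, D, Finset.sum_Ico_succ_top hn]

theorem D_two (q : ℕ) : D q 2 = q := by
  simp [D]

/-- `D n = q * M`, with `(q-1) M = q^(n-1) - 1` -/
theorem D_eq (q n : ℕ) (hn : 1 ≤ n) : D q n = q * ∑ j ∈ Finset.range (n - 1), q ^ j := by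
  induction n, hn using Nat.le_induction with
  | base => simp [D]
  | succ n hn ih =>
    rw [D_succ q n hn, ih]
    obtain ⟨k, rfl⟩ : ∃ k, n = k + 1 := ⟨n - 1, by omega⟩
    rw [Nat.add_sub_cancel, Nat.add_sub_cancel, Finset.sum_range_succ, pow_succ]
    ring

theorem geom (q n : ℕ) (hq : 1 ≤ q) :
    (q - 1) * (∑ j ∈ Finset.range n, q ^ j) + 1 = q ^ n := by
  obtain ⟨r, rfl⟩ : ∃ r, q = r + 1 := ⟨q - 1, by omega⟩
  rw [Nat.add_sub_cancel]
  induction n with
  | zero => simp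
  | succ n ih =>
    rw [Finset.sum_range_succ, mul_add, pow_succ]
    have : r * ∑ x ∈ Finset.range n, (r + 1) ^ x + r * (r + 1) ^ n + 1 =
        (r * ∑ x ∈ Finset.range n, (r + 1) ^ x + 1) + r * (r + 1) ^ n := by ring
    rw [this, ih]
    ring

theorem D_formula (q n : ℕ) (hq : 2 ≤ q) (hn : 1 ≤ n) : (q ^ n - q) / (q - 1) = D q n := by
  rw [D_eq q n hn]
  have h1 := geom q (n - 1) (by omega)
  apply Nat.div_eq_of_eq_mul_left (by omega)
  obtain ⟨k, rfl⟩ : ∃ k, n = k + 1 := ⟨n - 1, by omega⟩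
  rw [Nat.add_sub_cancel] at h1 ⊢
  rw [pow_succ, ← h1]
  rw [add_mul, one_mul, Nat.add_sub_cancel]
  ring

/-- the arithmetic contradiction -/
theorem arith (q n : ℕ) (hq : 2 ≤ q) (hn : 3 ≤ n) (d a : ℕ) (hd : d + 1 = D q n)
    (ha : d + 1 = a + q ^ (n - 1)) (hdvd : d ∣ (q ^ n - 1) * q ^ (n - 1) * a) : False := by
  set M := ∑ j ∈ Finset.range (n - 1), q ^ j with hM
  have h1 : (q - 1) * M + 1 = q ^ (n - 1) := geom q (n - 1) (by omega)
  have h2 : d + 1 = q * M := by rw [hd, D_eq q n (by omega)]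
  have h3 : q ^ n = q * q ^ (n - 1) := by
    conv_lhs => rw [show n = (n - 1) + 1 by omega, pow_succ]
    ring
  have hcq : Nat.Coprime d q := by
    rw [Nat.coprime_comm, ← Nat.isCoprime_iff_coprime]
    refine ⟨M, -1, ?_⟩
    have : ((d : ℤ) + 1) = q * M := by exact_mod_cast h2
    linarith [this, mul_comm (M : ℤ) q]
  have hcM : Nat.Coprime d M := by
    rw [Nat.coprime_comm, ← Nat.isCoprime_iff_coprime]
    refine ⟨q, -1, ?_⟩
    have : ((d : ℤ) + 1) = q * M := by exact_mod_cast h2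
    linarith [this]
  -- remove the q-part
  have h4 : d ∣ (q ^ n - 1) * a := by
    have h5 : d ∣ q ^ (n - 1) * ((q ^ n - 1) * a) := by
      have : q ^ (n - 1) * ((q ^ n - 1) * a) = (q ^ n - 1) * q ^ (n - 1) * a := by ring
      rw [this]; exact hdvd
    exact (Nat.Coprime.pow_right _ hcq).dvd_of_dvd_mul_left h5
  -- work in ℤ
  have h6 : (d : ℤ) ∣ ((q : ℤ) ^ n - 1) * a := by
    have h7 : ((d : ℕ) : ℤ) ∣ (((q ^ n - 1) * a : ℕ) : ℤ) := Int.natCast_dvd_natCast.mpr h4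
    have h8 : 1 ≤ q ^ n := Nat.one_le_pow _ _ (by omega)
    push_cast [Nat.cast_sub h8] at h7
    exact h7
  have hqz : ((q - 1 : ℕ) : ℤ) = (q : ℤ) - 1 := by push_cast [Nat.cast_sub (show 1 ≤ q by omega)]; ring
  have z1 : ((q : ℤ) - 1) * M + 1 = (q : ℤ) ^ (n - 1) := by
    rw [← hqz]; exact_mod_cast h1
  have z2 : (d : ℤ) + 1 = q * M := by exact_mod_cast h2
  have z3 : (d : ℤ) + 1 = a + (q : ℤ) ^ (n - 1) := by exact_mod_cast ha
  have z4 : (q : ℤ) ^ n = q * (q : ℤ) ^ (n - 1) := by exact_mod_cast h3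
  have h9 : (d : ℤ) ∣ 2 * ((q : ℤ) - 1) ^ 2 * M := by
    have e1 : 2 * ((q : ℤ) - 1) ^ 2 * M = d * (((q : ℤ) - 1) * (d - (q - 1) * M) + 2 * (q - 1)) -
        ((q : ℤ) ^ n - 1) * a := by
      have ea : (a : ℤ) = d + 1 - ((q - 1) * M + 1) := by rw [z1]; linarith
      have en : (q : ℤ) ^ n = q * ((q - 1) * M + 1) := by rw [z1, z4]
      have em : (q : ℤ) * M = d + 1 := z2.symm
      rw [ea, en]
      linear_combination (((q:ℤ) - 1) * (d - (q - 1) * M)) * em
    rw [e1]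
    exact dvd_sub (Dvd.intro _ rfl) h6
  have h10 : d ∣ 2 * (q - 1) ^ 2 := by
    have h11 : d ∣ (2 * (q - 1) ^ 2) * M := by
      rw [← Int.natCast_dvd_natCast]
      push_cast
      rw [hqz]
      exact h9
    exact hcM.dvd_of_dvd_mul_right h11
  have h11 := Nat.le_of_dvd (by have : 0 < q - 1 := by omega
                                positivity) h10
  obtain ⟨r, rfl⟩ : ∃ r, q = r + 2 := ⟨q - 2, by omega⟩
  have h12 : r + 2 - 1 = r + 1 := by omega
  rw [h12] at h11 h10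
  by_cases h4' : 4 ≤ n
  · -- M ≥ 1 + q + q^2
    have hM3 : 1 + (r + 2) + (r + 2) ^ 2 ≤ M := by
      rw [hM]
      have : Finset.range 3 ⊆ Finset.range (n - 1) := Finset.range_subset_range.mpr (by omega)
      refine le_trans ?_ (Finset.sum_le_sum_of_subset this)
      simp [Finset.sum_range_succ]
    have h14 : (r + 2) * (1 + (r + 2) + (r + 2) ^ 2) ≤ (r + 2) * M := Nat.mul_le_mul_left _ hM3
    have e1 : (r + 2) * (1 + (r + 2) + (r + 2) ^ 2) = r ^ 3 + 7 * r ^ 2 + 17 * r + 14 := by ring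
    have e2 : 2 * (r + 1) ^ 2 = 2 * r ^ 2 + 4 * r + 2 := by ring
    rw [e1, ← h2] at h14
    rw [e2] at h11
    generalize r ^ 3 = A at *
    generalize r ^ 2 = B at *
    omega
  · have hn3 : n = 3 := by omega
    subst hn3
    have hM2 : M = 1 + (r + 2) := by
      rw [hM]
      simp [Finset.sum_range_succ]
    rw [hM2] at h2
    have h13 : d = r ^ 2 + 5 * r + 5 := by
      have : (r + 2) * (1 + (r + 2)) = r ^ 2 + 5 * r + 6 := by ring
      omega
    have e2 : 2 * (r + 1) ^ 2 = 2 * r ^ 2 + 4 * r + 2 := by ring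
    rw [h13, e2] at h10
    obtain ⟨k, hk⟩ := h10
    have hk1 : k ≤ 1 := by
      by_contra hk2
      push Not at hk2
      have : (r ^ 2 + 5 * r + 5) * 2 ≤ (r ^ 2 + 5 * r + 5) * k := Nat.mul_le_mul_left _ hk2
      rw [← hk] at this
      omega
    interval_cases k
    · omega
    · have h14 : r ^ 2 = r + 3 := by omega
      have : r ≤ 2 := by
        by_contra hr
        push Not at hr
        have : 3 * r ≤ r * r := Nat.mul_le_mul_right r hr
        rw [pow_two] at h14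
        omega
      interval_cases r <;> omega

end H44.TSys
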