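import Cfsg.Agent.Lib.H44.TSys5
import Cfsg.Agent.Lib.H44.TSysAr

/-! Transvection systems: the lower bound in multiplicity one. -/

set_option autoImplicit false

namespace H44.TSys

open Module

universe u v w z

variable {F : Type u} [Field F] [Fintype F]
variable {X : Type v} [AddCommGroup X] [Module F X] [FiniteDimensional F X]
variable {G : Type w} [Group G] {W : Type z} [AddCommGroup W] [Module ℂ W] [FiniteDimensional ℂ W]
variable {ρ : Representation ℂ G W} {τ : X → Dual F X → G} {ψ : AddChar F ℂ}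

theorem finrank_fixS' (hS : Sys ρ τ) (ψ : AddChar F ℂ) (hM : M1 ρ τ) {p : X} (hp : p ≠ 0) :
    finrank ℂ (fixS ρ τ p) + Fintype.card F ^ (finrank F X - 1) = finrank ℂ W + 1 := by
  have h := finrank_fixS hS ψ hM hp
  have h2 : ((finrank ℂ (fixS ρ τ p) + Fintype.card F ^ (finrank F X - 1) : ℕ) : ℂ) =
      ((finrank ℂ W + 1 : ℕ) : ℂ) := by
    push_cast
    rw [h]
    ring
  exact_mod_cast h2

theorem irr_dvd [Finite G] (hS : Sys ρ τ) (ψ : AddChar F ℂ) (hM : M1 ρ τ) (hρ : ρ.IsIrreducible)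
    {p : X} (hp : p ≠ 0) : finrank ℂ W ∣ (Fintype.card F ^ finrank F X - 1) *
      Fintype.card F ^ (finrank F X - 1) * finrank ℂ (fixS ρ τ p) := by
  have : Fintype X := by
    have : Finite X := Module.finite_of_finite F
    exact Fintype.ofFinite _
  have hW := H4.CharBasic.finrank_pos_of_isIrreducible hρ
  have hnt : Nontrivial W := Module.finrank_pos_iff.mp hW
  obtain ⟨c, hc⟩ := schur hS hρ
  have h1 := trace_SS hS ψ hM
  have h2 := integral c hc
  rw [hc, map_smul, LinearMap.trace_id, smul_eq_mul] at h1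
  have h3 := finrank_fixS hS ψ hM hp
  rw [← h3] at h1
  apply H4.Integral.dvd_of_isIntegral_div hW.ne'
  have h4 : (((Fintype.card F ^ finrank F X - 1) * Fintype.card F ^ (finrank F X - 1) *
      finrank ℂ (fixS ρ τ p) : ℕ) : ℂ) = c * (finrank ℂ W : ℂ) := by
    rw [h1]
    have : 1 ≤ Fintype.card F ^ finrank F X := Nat.one_le_pow _ _ Fintype.card_pos
    push_cast [Nat.cast_sub this]
    ring
  rw [h4, mul_div_cancel_right₀]
  · exact h2
  · exact_mod_cast hW.ne'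

theorem irr_ne [Finite G] (hS : Sys ρ τ) (ψ : AddChar F ℂ) (hM : M1 ρ τ) (hρ : ρ.IsIrreducible)
    {p : X} (hp : p ≠ 0) (h3 : 3 ≤ finrank F X) :
    finrank ℂ (fixS ρ τ p) ≠ D (Fintype.card F) (finrank F X - 1) := by
  intro h
  have h1 := irr_dvd hS ψ hM hρ hp
  have h2 := finrank_fixS' hS ψ hM hp
  refine arith (Fintype.card F) (finrank F X) Fintype.one_lt_card h3 (finrank ℂ W) _ ?_ ?_ h1
  · rw [← h2, h]
    obtain ⟨k, hk⟩ : ∃ k, finrank F X = k + 1 := ⟨finrank F X - 1, by omega⟩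
    rw [hk, Nat.add_sub_cancel, D_succ _ _ (by omega)]
  · exact h2.symm

/-- the averaging operator on the fixed space -/
noncomputable def Av (ψ : AddChar F ℂ) (ρ : Representation ℂ G W) (τ : X → Dual F X → G)
    (p x : X) (ω : Dual F X) : Module.End ℂ W :=
  (Fintype.card F : ℂ)⁻¹ • ∑ c : F, ρ (τ x (c • ω)) * e ψ ρ τ p 0

omit [FiniteDimensional ℂ W] in
theorem Av_mul_e (hS : Sys ρ τ) (p x : X) (ω : Dual F X) (hp : ω p = 0) (hx : ω x = 0) :
    Av ψ ρ τ p x ω * e ψ ρ τ x 0 = e ψ ρ τ p 0 * e ψ ρ τ x 0 := by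
  have h0 : (Fintype.card F : ℂ) ≠ 0 := by exact_mod_cast Fintype.card_ne_zero
  rw [Av, smul_mul_assoc, Finset.sum_mul]
  have h1 : ∀ c : F, ρ (τ x (c • ω)) * e ψ ρ τ p 0 * e ψ ρ τ x 0 = e ψ ρ τ p 0 * e ψ ρ τ x 0 := by
    intro c
    have h2 := T_e_conj (ψ := ψ) hS p 0 x (c • ω) (by simp [hx]) (by simp [hp])
    rw [map_zero, zero_smul, add_zero] at h2
    rw [h2, mul_assoc, T_e hS x 0 (c • ω) (by simp [hx]), map_zero, AddChar.map_zero_eq_one,
      one_smul]
  rw [Finset.sum_congr rfl (fun c _ => h1 c), Finset.sum_const, Finset.card_univ,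
    ← Nat.cast_smul_eq_nsmul ℂ, smul_smul, inv_mul_cancel₀ h0, one_smul]

omit [FiniteDimensional ℂ W] in
theorem Av_idem (hS : Sys ρ τ) (p x : X) (ω : Dual F X) (hp : ω p = 0) (hx : ω x = 0) :
    Av ψ ρ τ p x ω * Av ψ ρ τ p x ω = Av ψ ρ τ p x ω := by
  have h0 : (Fintype.card F : ℂ) ≠ 0 := by exact_mod_cast Fintype.card_ne_zero
  have h1 : ∀ c : F, ρ (τ x (c • ω)) * e ψ ρ τ p 0 * Av ψ ρ τ p x ω = Av ψ ρ τ p x ω := by
    intro c
    rw [Av, mul_smul_comm, Finset.mul_sum]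
    congr 1
    refine Fintype.sum_equiv (Equiv.addLeft c) _ _ ?_
    intro c'
    have h2 := T_e_conj (ψ := ψ) hS p 0 x (c' • ω) (by simp [hx]) (by simp [hp])
    rw [map_zero, zero_smul, add_zero] at h2
    rw [h2, mul_assoc, ← mul_assoc (e ψ ρ τ p 0), e_idem hS, ← h2, ← mul_assoc,
      hS.add x (c • ω) (c' • ω) (by simp [hx]) (by simp [hx]), ← add_smul]
    rfl
  have h2 : Av ψ ρ τ p x ω * Av ψ ρ τ p x ω = (Fintype.card F : ℂ)⁻¹ •
      ∑ c : F, ρ (τ x (c • ω)) * e ψ ρ τ p 0 * Av ψ ρ τ p x ω := by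
    rw [← Finset.sum_mul, ← smul_mul_assoc]
    rfl
  rw [h2, Finset.sum_congr rfl (fun c _ => h1 c), Finset.sum_const, Finset.card_univ,
    ← Nat.cast_smul_eq_nsmul ℂ, smul_smul, inv_mul_cancel₀ h0, one_smul]

theorem trace_Av (hS : Sys ρ τ) (hψ : ψ ≠ 0) (hM : M1 ρ τ) (hT : TP ψ ρ τ) (f : Dual F X) (p : X)
    (hf : f p = 1) (x : LinearMap.ker f) (ω : Dual F (LinearMap.ker f)) (hx : x ≠ 0) (hω : ω ≠ 0)
    (h0 : ω x = 0) (h3 : finrank F X = 3) :
    LinearMap.trace ℂ W (Av ψ ρ τ p x (ω ∘ₗ prK f p hf)) + (Fintype.card F : ℂ) =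
      (finrank ℂ (fixS ρ τ p) : ℂ) + 1 := by
  classical
  have hp : p ≠ 0 := by
    rintro rfl
    simp at hf
  have hq : (Fintype.card F : ℂ) ≠ 0 := by exact_mod_cast Fintype.card_ne_zero
  have h1 : ∀ c : F, LinearMap.trace ℂ W (ρ (τ (x : X) (c • (ω ∘ₗ prK f p hf))) * e ψ ρ τ p 0) =
      (if c = 0 then (Fintype.card F : ℂ) else 0) +
      ((finrank ℂ (fixS ρ τ p) : ℂ) - Fintype.card F) := by
    intro c
    split_ifs with hc
    · rw [hc, zero_smul, hS.zero, one_mul, trace_e_fix hS hM hp, finrank_fixS hS ψ hM hp]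
      ring
    · have h2 := trace_T_e hS hψ hM hT f p hf x (c • ω) hx (smul_ne_zero hc hω) (by simp [h0])
      rw [finrank_fixS hS ψ hM hp]
      have h4 : (c • ω) ∘ₗ prK f p hf = c • (ω ∘ₗ prK f p hf) := rfl
      rw [h4] at h2
      rw [h2, h3]
      norm_num
      ring
  rw [Av, map_smul, map_sum, Finset.sum_congr rfl (fun c _ => h1 c), Finset.sum_add_distrib,
    Finset.sum_ite_eq' Finset.univ (0 : F), Finset.sum_const, Finset.card_univ]
  simp only [Finset.mem_univ, if_true, nsmul_eq_mul, smul_eq_mul]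
  field_simp
  ring

theorem base_ge (hS : Sys ρ τ) (hψ : ψ ≠ 0) (hM : M1 ρ τ) (hT : TP ψ ρ τ) (f : Dual F X) (p : X)
    (hf : f p = 1) (x : LinearMap.ker f) (ω : Dual F (LinearMap.ker f)) (hx : x ≠ 0) (hω : ω ≠ 0)
    (h0 : ω x = 0) (h3 : finrank F X = 3) :
    finrank ℂ (LinearMap.range (Av ψ ρ τ p x (ω ∘ₗ prK f p hf))) + Fintype.card F =
      finrank ℂ (fixS ρ τ p) + 1 := by
  have h1 := trace_Av hS hψ hM hT f p hf x ω hx hω h0 h3
  have h2 : (ω ∘ₗ prK f p hf) p = 0 := by rw [LinearMap.comp_apply, prK_p, map_zero]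
  have h4 : (ω ∘ₗ prK f p hf) (x : X) = 0 := by
    rw [LinearMap.comp_apply]
    have := prK_i f p hf x
    rw [Submodule.subtype_apply] at this
    rw [this, h0]
  rw [trace_idem (Av_idem hS p x _ h2 h4)] at h1
  exact_mod_cast h1


omit [FiniteDimensional ℂ W] in
theorem e_smul_mul (hS : Sys ρ τ) (p : X) (t : F) (ht : t ≠ 0) :
    e ψ ρ τ (t • p) 0 * e ψ ρ τ p 0 = e ψ ρ τ p 0 := by
  apply LinearMap.ext
  intro v
  rw [Module.End.mul_apply]
  apply e_apply_of_mem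
  intro φ hφ
  rw [map_zero, AddChar.map_zero_eq_one, one_smul]
  have hφp : φ p = 0 := by
    rw [map_smul, smul_eq_mul] at hφ
    exact (mul_eq_zero.mp hφ).resolve_left ht
  rw [hS.smul t p φ hφp, ← Module.End.mul_apply, T_e hS p 0 (t • φ) (by simp [hφp])]
  simp

/-- the base case: the fixed space is not too small -/
theorem base_ne [Finite G] (hS : Sys ρ τ) (hψ : ψ ≠ 0) (hM : M1 ρ τ) (hT : TP ψ ρ τ)
    (hρ : ρ.IsIrreducible) (p : X) (hp : p ≠ 0) (h3 : finrank F X = 3) :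
    Fintype.card F ≤ finrank ℂ (fixS ρ τ p) := by
  classical
  have : Fintype X := by
    have : Finite X := Module.finite_of_finite F
    exact Fintype.ofFinite _
  -- data for two independent points
  have key : ∀ p1 p2 : X, p1 ≠ 0 → p2 ∉ Submodule.span F {p1} →
      ∃ ω : Dual F X, ω p1 = 0 ∧ ω p2 = 0 ∧
      finrank ℂ (LinearMap.range (Av ψ ρ τ p1 p2 ω)) + Fintype.card F =
        finrank ℂ (fixS ρ τ p1) + 1 := by
    intro p1 p2 h1 h2
    obtain ⟨f, hf1, hf2⟩ := exists_dual_pair h1 h2 1 0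
    have hf0 : f ≠ 0 := by
      rintro rfl
      simp at hf1
    have hk := finrank_ker_dual_eq (F := F) f hf0
    have hx0 : (⟨p2, hf2⟩ : LinearMap.ker f) ≠ 0 := by
      intro h
      have h4 : p2 = 0 := congrArg Subtype.val h
      apply h2
      rw [h4]
      exact Submodule.zero_mem _
    obtain ⟨y, -, hy2⟩ := not_mem_of_finrank (F := F) (X := LinearMap.ker f) (K := ⊤)
      (by rw [finrank_top]; omega) (⟨p2, hf2⟩ : LinearMap.ker f)
    obtain ⟨ω, hω1, hω2⟩ := exists_dual_pair hx0 hy2 0 1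
    have hω0 : ω ≠ 0 := by
      rintro rfl
      simp at hω2
    refine ⟨ω ∘ₗ prK f p1 hf1, ?_, ?_, ?_⟩
    · rw [LinearMap.comp_apply, prK_p, map_zero]
    · rw [LinearMap.comp_apply]
      have := prK_i f p1 hf1 ⟨p2, hf2⟩
      rw [Submodule.subtype_apply] at this
      rw [this, hω1]
    · exact base_ge hS hψ hM hT f p1 hf1 ⟨p2, hf2⟩ ω hx0 hω0 hω1 h3
  by_contra hcon
  push Not at hcon
  have hfix : ∀ p1 : X, p1 ≠ 0 → finrank ℂ (fixS ρ τ p1) = finrank ℂ (fixS ρ τ p) := by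
    intro p1 h1
    have e1 := finrank_fixS' hS ψ hM h1
    have e2 := finrank_fixS' hS ψ hM hp
    omega
  have horth : ∀ p1 p2 : X, p1 ≠ 0 → p2 ∉ Submodule.span F {p1} →
      e ψ ρ τ p1 0 * e ψ ρ τ p2 0 = 0 := by
    intro p1 p2 h1 h2
    obtain ⟨ω, hω1, hω2, h4⟩ := key p1 p2 h1 h2
    rw [hfix p1 h1] at h4
    have h5 : finrank ℂ (LinearMap.range (Av ψ ρ τ p1 p2 ω)) = 0 := by omega
    have h6 : Av ψ ρ τ p1 p2 ω = 0 := by
      rw [← LinearMap.range_eq_bot]
      exact Submodule.finrank_eq_zero.mp h5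
    rw [← Av_mul_e hS p1 p2 ω hω1 hω2, h6, zero_mul]
  obtain ⟨ω, -, -, h4⟩ : ∃ p2 : X, p2 ∉ Submodule.span F {p} ∧ True ∧
      Fintype.card F ≤ finrank ℂ (fixS ρ τ p) + 1 := by
    obtain ⟨y, -, hy2⟩ := not_mem_of_finrank (F := F) (X := X) (K := ⊤)
      (by rw [finrank_top]; omega) p
    obtain ⟨ω, hω1, hω2, h4⟩ := key p y hp hy2
    exact ⟨y, hy2, trivial, by omega⟩
  have ha : finrank ℂ (fixS ρ τ p) + 1 = Fintype.card F := by omega
  obtain ⟨c, hc⟩ := schur hS hρ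
  have h5 : SS ρ τ * e ψ ρ τ p 0 =
      ((Fintype.card F : ℂ) ^ 2 * ((Fintype.card F : ℂ) - 1)) • e ψ ρ τ p 0 := by
    rw [SS_eq ψ, Finset.sum_mul]
    have h6 : ∀ p1 : {p : X // p ≠ 0},
        ((Fintype.card F : ℂ) ^ (finrank F X - 1)) • e ψ ρ τ p1.1 0 * e ψ ρ τ p 0 =
        if (p1 : X) ∈ Submodule.span F {p} then
          ((Fintype.card F : ℂ) ^ 2) • e ψ ρ τ p 0 else 0 := by
      intro p1
      rw [h3, smul_mul_assoc]
      split_ifs with h7
      · obtain ⟨t, ht⟩ := Submodule.mem_span_singleton.mp h7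
        have ht0 : t ≠ 0 := by
          rintro rfl
          rw [zero_smul] at ht
          exact p1.2 ht.symm
        rw [← ht, e_smul_mul hS p t ht0]
      · rw [horth p1 p p1.2 (not_mem_symm hp h7).2, smul_zero]
    rw [Finset.sum_congr rfl (fun p1 _ => h6 p1), ← Finset.sum_filter, Finset.sum_const]
    have hcard : (Finset.univ.filter fun p1 : {p : X // p ≠ 0} =>
        (p1 : X) ∈ Submodule.span F {p}).card = (Finset.univ.filter fun t : F => t ≠ 0).card := by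
      symm
      refine Finset.card_bij (fun t ht => ⟨t • p, smul_ne_zero (by simpa using ht) hp⟩) ?_ ?_ ?_
      · intro t ht
        rw [Finset.mem_filter]
        exact ⟨Finset.mem_univ _, Submodule.mem_span_singleton.mpr ⟨t, rfl⟩⟩
      · intro t ht t' ht' h
        have := congrArg Subtype.val h
        exact smul_left_injective F hp this
      · rintro ⟨y, hy⟩ h
        rw [Finset.mem_filter] at h
        obtain ⟨t, ht⟩ := Submodule.mem_span_singleton.mp h.2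
        refine ⟨t, ?_, Subtype.ext ht⟩
        rw [Finset.mem_filter]
        refine ⟨Finset.mem_univ _, ?_⟩
        rintro rfl
        rw [zero_smul] at ht
        exact hy ht.symm
    rw [hcard, Finset.filter_ne', Finset.card_erase_of_mem (Finset.mem_univ _), Finset.card_univ,
      ← Nat.cast_smul_eq_nsmul ℂ, smul_smul, Nat.cast_sub Fintype.card_pos]
    congr 1
    push_cast
    ring
  have hq1 : 1 < Fintype.card F := Fintype.one_lt_card
  have he0 : e ψ ρ τ p 0 ≠ 0 := by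
    intro h
    have h6 := range_e_zero hS ψ p
    rw [h, LinearMap.range_zero] at h6
    rw [← h6, finrank_bot] at ha
    omega
  have hc2 : c = (Fintype.card F : ℂ) ^ 2 * ((Fintype.card F : ℂ) - 1) := by
    rw [hc] at h5
    have h7 : (c - (Fintype.card F : ℂ) ^ 2 * ((Fintype.card F : ℂ) - 1)) • e ψ ρ τ p 0 = 0 := by
      rw [sub_smul, ← h5, smul_mul_assoc]
      have : (LinearMap.id : W →ₗ[ℂ] W) * e ψ ρ τ p 0 = e ψ ρ τ p 0 := rfl
      rw [this, sub_self]
    exact sub_eq_zero.mp ((smul_eq_zero.mp h7).resolve_right he0)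
  have h1 := trace_SS hS ψ hM
  rw [hc, map_smul, LinearMap.trace_id, smul_eq_mul, ← finrank_fixS hS ψ hM hp, h3, hc2] at h1
  have h8 : (Fintype.card F : ℂ) ≠ 0 := by exact_mod_cast Fintype.card_ne_zero
  have h9 : (finrank ℂ (fixS ρ τ p) : ℂ) = (Fintype.card F : ℂ) - 1 := by
    have : ((finrank ℂ (fixS ρ τ p) + 1 : ℕ) : ℂ) = (Fintype.card F : ℂ) := by rw [ha]
    push_cast at this
    rw [← this]
    ring
  have h10 : (Fintype.card F : ℂ) - 1 ≠ 0 := by
    rw [sub_ne_zero]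
    exact_mod_cast hq1.ne'
  rw [h9] at h1
  have h11 : (finrank ℂ W : ℂ) + 1 = (Fintype.card F : ℂ) ^ 3 := by
    have h12 : (Fintype.card F : ℂ) ^ 2 * ((Fintype.card F : ℂ) - 1) *
        ((finrank ℂ W : ℂ) + 1 - (Fintype.card F : ℂ) ^ 3) = 0 := by
      norm_num at h1
      linear_combination h1
    have h13 := (mul_eq_zero.mp h12).resolve_left (mul_ne_zero (pow_ne_zero _ h8) h10)
    exact sub_eq_zero.mp h13
  have h12 : finrank ℂ W + 1 = Fintype.card F ^ 3 := by exact_mod_cast h11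
  have h13 := finrank_fixS' hS ψ hM hp
  rw [h3, h12] at h13
  have h14 : 2 - 1 + 1 = 2 := rfl
  obtain ⟨r, hr⟩ : ∃ r, Fintype.card F = r + 2 := ⟨Fintype.card F - 2, by omega⟩
  rw [hr] at ha h13
  have h15 : finrank ℂ (fixS ρ τ p) = r + 1 := by omega
  rw [h15] at h13
  have e1 : (r + 2) ^ (3 - 1) = r ^ 2 + 4 * r + 4 := by norm_num; ring
  have e2 : (r + 2) ^ 3 = r ^ 3 + 6 * r ^ 2 + 12 * r + 8 := by ring
  rw [e1, e2] at h13
  generalize r ^ 3 = A at *
  generalize r ^ 2 = B at *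
  omega

end H44.TSys
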