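import Cfsg.Agent.Lib.H44.TSys6

/-! Transvection systems: the lower bound in multiplicity one. -/

set_option autoImplicit false

namespace H44.TSys

open Module

universe u v w z

variable {F : Type u} [Field F] [Fintype F]

omit [Fintype F] in
theorem exists_flag {X : Type v} [AddCommGroup X] [Module F X] [FiniteDimensional F X]
    (h3 : 3 ≤ finrank F X) : ∃ (p y : X) (φ : Dual F X), p ≠ 0 ∧ y ∉ Submodule.span F {p} ∧
      φ ≠ 0 ∧ φ p = 0 ∧ φ y ≠ 0 := by
  obtain ⟨p, -, hp⟩ := not_mem_of_finrank (F := F) (X := X) (K := ⊤)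
    (by rw [finrank_top]; omega) 0
  have hp0 : p ≠ 0 := by
    rintro rfl
    exact hp (Submodule.zero_mem _)
  obtain ⟨y, -, hy⟩ := not_mem_of_finrank (F := F) (X := X) (K := ⊤)
    (by rw [finrank_top]; omega) p
  obtain ⟨φ, h1, h2⟩ := exists_dual_pair hp0 hy 0 1
  refine ⟨p, y, φ, hp0, hy, ?_, h1, by rw [h2]; exact one_ne_zero⟩
  rintro rfl
  simp at h2

section
variable {X : Type v} [AddCommGroup X] [Module F X] [FiniteDimensional F X]
variable {G : Type w} [Group G] {W : Type z} [AddCommGroup W] [Module ℂ W] [FiniteDimensional ℂ W]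
variable {ρ : Representation ℂ G W} {τ : X → Dual F X → G} {ψ : AddChar F ℂ}

/-- the multiplicity is a natural number -/
theorem exists_mult (hS : Sys ρ τ) (hψ : ψ ≠ 0) (h3 : 3 ≤ finrank F X) :
    ∃ m : ℕ, ∀ (x : X) (ω : Dual F X), x ≠ 0 → ω ≠ 0 → ω x = 0 → ρ.character (τ x ω) =
      (finrank ℂ W : ℂ) - m * (Fintype.card F : ℂ) ^ (finrank F X - 1) := by
  obtain ⟨p, y, φ, hp, hy, hφ, hφp, hφy⟩ := exists_flag (F := F) (X := X) h3
  refine ⟨finrank ℂ (LinearMap.range (e ψ ρ τ p y)), ?_⟩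
  intro x ω hx hω h0
  have h1 := trace_e_ne (ψ := ψ) hS hψ p y ⟨φ, hφp, hφy⟩ (ρ.character (τ x ω))
    (fun φ' h2 h4 => char_const hS h3 x p ω φ' hx hp hω h2 h0 h4)
  rw [trace_idem (e_idem hS p y), card_P p hp] at h1
  have h2 : ((Fintype.card F : ℂ) ^ (finrank F X - 1)) ≠ 0 :=
    pow_ne_zero _ (by exact_mod_cast Fintype.card_ne_zero)
  rw [h1]
  push_cast
  field_simp
  ring

omit [Fintype F] [FiniteDimensional F X] [FiniteDimensional ℂ W] in
theorem TP_sub (hT : TP ψ ρ τ) (S : Subrepresentation ρ) : TP ψ S.toRepresentation τ := by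
  intro p y x ω hp hy h1 h2 h3 v hv
  apply Subtype.ext
  exact hT p y x ω hp hy h1 h2 h3 (v : W) (fun φ hφ => congrArg Subtype.val (hv φ hφ))

theorem M1_split (hS : Sys ρ τ) (hψ : ψ ≠ 0) (h3 : 3 ≤ finrank F X) (hM : M1 ρ τ)
    (S T : Subrepresentation ρ) (h : IsCompl S.toSubmodule T.toSubmodule) :
    M1 S.toRepresentation τ ∨ M1 T.toRepresentation τ := by
  obtain ⟨m1, hm1⟩ := exists_mult (hS.sub S) hψ h3
  obtain ⟨m2, hm2⟩ := exists_mult (hS.sub T) hψ h3
  obtain ⟨p, y, φ, hp, hy, hφ, hφp, hφy⟩ := exists_flag (F := F) (X := X) h3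
  have h1 := congrFun (H18.CharBasic.char_split ρ S T h) (τ p φ)
  have h2 : ρ.character (τ p φ) = S.toRepresentation.character (τ p φ) +
      T.toRepresentation.character (τ p φ) := h1
  rw [hM p φ hp hφ hφp, hm1 p φ hp hφ hφp, hm2 p φ hp hφ hφp] at h2
  have h4 : finrank ℂ W = finrank ℂ S.toSubmodule + finrank ℂ T.toSubmodule :=
    (Submodule.finrank_add_eq_of_isCompl h).symm
  have h5 : (Fintype.card F : ℂ) ^ (finrank F X - 1) ≠ 0 :=
    pow_ne_zero _ (by exact_mod_cast Fintype.card_ne_zero)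
  rw [h4] at h2
  push_cast at h2
  have h6 : ((m1 : ℂ) + m2 - 1) * (Fintype.card F : ℂ) ^ (finrank F X - 1) = 0 := by
    linear_combination h2
  have h7 : (m1 : ℂ) + m2 = 1 := sub_eq_zero.mp ((mul_eq_zero.mp h6).resolve_right h5)
  have h8 : m1 + m2 = 1 := by exact_mod_cast h7
  rcases (by omega : m1 = 1 ∨ m2 = 1) with h9 | h9
  · left
    intro x ω hx hω h0
    rw [hm1 x ω hx hω h0, h9]
    push_cast
    ring
  · right
    intro x ω hx hω h0
    rw [hm2 x ω hx hω h0, h9]
    push_cast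
    ring

end

theorem reduce (X : Type v) [AddCommGroup X] [Module F X] [FiniteDimensional F X]
    (ψ : AddChar F ℂ) (hψ : ψ ≠ 0) (h3 : 3 ≤ finrank F X) (N : ℕ)
    (hirr : ∀ (G : Type w) [Group G] [Finite G] (W : Type z) [AddCommGroup W] [Module ℂ W]
      [FiniteDimensional ℂ W] (ρ : Representation ℂ G W) (τ : X → Dual F X → G), Sys ρ τ →
      M1 ρ τ → TP ψ ρ τ → ρ.IsIrreducible → N ≤ finrank ℂ W) (k : ℕ) :
    ∀ (G : Type w) [Group G] [Finite G] (W : Type z) [AddCommGroup W] [Module ℂ W]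
      [FiniteDimensional ℂ W] (ρ : Representation ℂ G W) (τ : X → Dual F X → G), Sys ρ τ →
      M1 ρ τ → TP ψ ρ τ → finrank ℂ W = k → N ≤ finrank ℂ W := by
  induction k using Nat.strong_induction_on with
  | _ k ih =>
    intro G _ _ W _ _ _ ρ τ hS hM hT hk
    by_cases hρ : ρ.IsIrreducible
    · exact hirr G W ρ τ hS hM hT hρ
    have hnt : Nontrivial W := by
      by_contra hcon
      rw [not_nontrivial_iff_subsingleton] at hcon
      obtain ⟨p, y, φ, hp, hy, hφ, hφp, hφy⟩ := exists_flag (F := F) (X := X) h3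
      have h1 := hM p φ hp hφ hφp
      have h2 : finrank ℂ W = 0 := finrank_zero_of_subsingleton
      have h4 : ρ.character (τ p φ) = 0 := by
        have : ρ (τ p φ) = 0 := Subsingleton.elim _ _
        change LinearMap.trace ℂ W (ρ (τ p φ)) = 0
        rw [this, map_zero]
      rw [h2, h4] at h1
      have h5 : (Fintype.card F : ℂ) ^ (finrank F X - 1) ≠ 0 :=
        pow_ne_zero _ (by exact_mod_cast Fintype.card_ne_zero)
      apply h5
      push_cast at h1
      linear_combination h1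
    obtain ⟨S, T, h1, h2, h4⟩ := H18.CharBasic.exists_split ρ hρ
    rcases M1_split hS hψ h3 hM S T h1 with h5 | h5
    · exact (ih _ (hk ▸ h2) G S.toSubmodule S.toRepresentation τ (hS.sub S) h5 (TP_sub hT S)
        rfl).trans h2.le
    · exact (ih _ (hk ▸ h4) G T.toSubmodule T.toRepresentation τ (hS.sub T) h5 (TP_sub hT T)
        rfl).trans h4.le

theorem claim (ψ : AddChar F ℂ) (hψ : ψ ≠ 0) (n : ℕ) (hn : 3 ≤ n) :
    ∀ (X : Type v) [AddCommGroup X] [Module F X] [FiniteDimensional F X]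
      (G : Type w) [Group G] [Finite G] (W : Type z) [AddCommGroup W] [Module ℂ W]
      [FiniteDimensional ℂ W] (ρ : Representation ℂ G W) (τ : X → Dual F X → G),
      finrank F X = n → Sys ρ τ → M1 ρ τ → TP ψ ρ τ →
      D (Fintype.card F) n ≤ finrank ℂ W := by
  induction n, hn using Nat.le_induction with
  | base =>
    intro X _ _ _ G _ _ W _ _ _ ρ τ hX hS hM hT
    refine reduce X ψ hψ hX.ge _ ?_ _ G W ρ τ hS hM hT rfl
    intro G _ _ W _ _ _ ρ τ hS hM hT hρ
    obtain ⟨p, y, φ, hp, hy, hφ, hφp, hφy⟩ := exists_flag (F := F) (X := X) hX.ge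
    have h1 := base_ne hS hψ hM hT hρ p hp hX
    have h2 := irr_ne hS ψ hM hρ hp hX.ge
    have h3 := finrank_fixS' hS ψ hM hp
    rw [hX] at h2 h3
    have h4 : D (Fintype.card F) (3 - 1) = Fintype.card F := D_two _
    have h5 : D (Fintype.card F) 3 = Fintype.card F + Fintype.card F ^ 2 := by
      rw [D_succ _ _ (by norm_num), D_two]
    rw [h4] at h2
    have h6 : Fintype.card F ^ (3 - 1) = Fintype.card F ^ 2 := rfl
    rw [h6] at h3
    rw [h5]
    omega
  | succ n hn ih =>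
    intro X _ _ _ G _ _ W _ _ _ ρ τ hX hS hM hT
    refine reduce X ψ hψ (by omega) _ ?_ _ G W ρ τ hS hM hT rfl
    intro G _ _ W _ _ _ ρ τ hS hM hT hρ
    obtain ⟨p, y, φ, hp, hy, hφ, hφp, hφy⟩ := exists_flag (F := F) (X := X) (by omega)
    obtain ⟨f, hf⟩ := exists_dual_one (F := F) hp
    have hk := finrank_ker_dual_eq (F := F) f (by rintro rfl; simp at hf)
    have h1 := ih (LinearMap.ker f) _ _ (subr f p hf hS ψ).toRepresentation
      (tau' (LinearMap.ker f).subtype (prK f p hf) τ) (by omega) (down_sys f p hf hS ψ)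
      (M1_down hS hψ hM hT f p hf (by omega)) (TP_down hS hψ hT f p hf)
    change D (Fintype.card F) n ≤ finrank ℂ (fixS ρ τ p) at h1
    have h2 := irr_ne hS ψ hM hρ hp (by omega)
    have h3 := finrank_fixS' hS ψ hM hp
    rw [hX, Nat.add_sub_cancel] at h2 h3
    rw [D_succ _ _ (by omega)]
    omega

end H44.TSys
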