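import Cfsg.Agent.Lib.H44.TSys7
import Cfsg.Agent.Lib.H44.LSLinear
import Cfsg.Agent.Lib.H6.SLGen
import Cfsg.Agent.Lib.H4.Eigen

/-! Transvection systems: the case of `SL_n`. -/

set_option autoImplicit false

open Matrix

namespace H44.TSysSL

open Module H44.TSys H44.LSLinear

universe u z

variable {F : Type u} [Field F] {ι : Type} [Fintype ι] [DecidableEq ι]

/-- the coordinates of a functional -/
def co (ω : Dual F (ι → F)) : ι → F := fun i => ω (Pi.single i 1)

theorem co_dot (ω : Dual F (ι → F)) (x : ι → F) : co ω ⬝ᵥ x = ω x := by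
  conv_rhs => rw [← Finset.univ_sum_single x, map_sum]
  simp only [dotProduct]
  refine Finset.sum_congr rfl (fun i _ => ?_)
  have : (Pi.single i (x i) : ι → F) = x i • Pi.single i 1 := by
    rw [← Pi.single_smul, smul_eq_mul, mul_one]
  rw [this, map_smul, smul_eq_mul, mul_comm]
  rfl

def tv0 (u : ι → F) (ω : Dual F (ι → F)) (h : ω u = 0) : Matrix.SpecialLinearGroup ι F :=
  ⟨dil u (co ω), by rw [det_dil, co_dot, h, add_zero]⟩

open Classical in
/-- transvections as elements of `SL` -/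
noncomputable def tv (u : ι → F) (ω : Dual F (ι → F)) : Matrix.SpecialLinearGroup ι F :=
  if h : ω u = 0 then tv0 u ω h else 1

theorem tv_mulVec (u : ι → F) (ω : Dual F (ι → F)) (h : ω u = 0) (x : ι → F) :
    (tv u ω : Matrix ι ι F) *ᵥ x = x + ω x • u := by
  rw [tv, dif_pos h]
  change dil u (co ω) *ᵥ x = _
  rw [dil_mulVec, co_dot]

theorem ext_mulVec {A B : Matrix.SpecialLinearGroup ι F}
    (h : ∀ x : ι → F, (A : Matrix ι ι F) *ᵥ x = (B : Matrix ι ι F) *ᵥ x) : A = B := by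
  apply Subtype.ext
  exact Matrix.ext_of_mulVec_single (fun i => h _)

theorem mul_mulVec (A B : Matrix.SpecialLinearGroup ι F) (x : ι → F) :
    ((A * B : Matrix.SpecialLinearGroup ι F) : Matrix ι ι F) *ᵥ x =
      (A : Matrix ι ι F) *ᵥ ((B : Matrix ι ι F) *ᵥ x) := by
  rw [mulVec_mulVec]
  rfl

theorem tv_junk (u : ι → F) (ω : Dual F (ι → F)) (h : ω u ≠ 0) : tv u ω = 1 := by
  rw [tv, dif_neg h]

theorem tv_add (u : ι → F) (ω ω' : Dual F (ι → F)) (h : ω u = 0) (h' : ω' u = 0) :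
    tv u ω * tv u ω' = tv u (ω + ω') := by
  apply ext_mulVec
  intro x
  rw [mul_mulVec, tv_mulVec _ _ h', tv_mulVec _ _ h, tv_mulVec _ _ (by simp [h, h'])]
  rw [map_add, map_smul, h, smul_zero, add_zero, LinearMap.add_apply, add_smul]
  abel

theorem tv_smul (c : F) (u : ι → F) (ω : Dual F (ι → F)) (h : ω u = 0) :
    tv (c • u) ω = tv u (c • ω) := by
  apply ext_mulVec
  intro x
  rw [tv_mulVec _ _ (by simp [h]), tv_mulVec _ _ (by simp [h]), LinearMap.smul_apply, smul_smul,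
    smul_eq_mul, mul_comm]

theorem conj_tv (g : Matrix.SpecialLinearGroup ι F) (u u' : ι → F) (ω ω' : Dual F (ι → F)) (h : ω u = 0)
    (hu : (g : Matrix ι ι F) *ᵥ u = u') (hω : ∀ x, ω' ((g : Matrix ι ι F) *ᵥ x) = ω x) :
    g * tv u ω = tv u' ω' * g := by
  have h' : ω' u' = 0 := by rw [← hu, hω, h]
  apply ext_mulVec
  intro x
  rw [mul_mulVec, mul_mulVec, tv_mulVec _ _ h, tv_mulVec _ _ h', hω, mulVec_add, mulVec_smul, hu]

theorem tv_conj (a u : ι → F) (β ω : Dual F (ι → F)) (h1 : β a = 0) (h2 : ω u = 0) :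
    tv a β * tv u ω = tv (u + β u • a) (ω - ω a • β) * tv a β := by
  refine conj_tv _ _ _ _ _ h2 ?_ ?_
  · rw [tv_mulVec _ _ h1]
  · intro x
    rw [tv_mulVec _ _ h1]
    simp [h1]
    ring

theorem transvection_eq (i j : ι) (h : i ≠ j) (c : F) :
    (SpecialLinearGroup.transvection h c : Matrix.SpecialLinearGroup ι F) =
      tv (Pi.single i c) (LinearMap.proj j) := by
  apply ext_mulVec
  intro x
  rw [tv_mulVec _ _ (by simp [h])]
  rw [SpecialLinearGroup.transvection_coe, add_mulVec, one_mulVec, single_mulVec]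
  congr 1
  ext k
  by_cases hk : k = i
  · subst hk
    simp [mul_comm]
  · simp [hk]

variable {W : Type z} [AddCommGroup W] [Module ℂ W]

theorem sys (hι : 2 ≤ Fintype.card ι) (ρ : Representation ℂ (Matrix.SpecialLinearGroup ι F) W) :
    Sys (X := ι → F) ρ tv where
  gen := by
    have : Nontrivial ι := Fintype.one_lt_card_iff_nontrivial.1 (by omega)
    apply H6.SLGen.eq_top_of_transvection_mem
    intro i j h c
    apply Subgroup.subset_closure
    exact ⟨(Pi.single i c, LinearMap.proj j), (transvection_eq i j h c).symm⟩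
  junk := fun u ω h => by rw [tv_junk u ω h, map_one]
  add := fun u ω ω' h h' => by rw [← map_mul, tv_add u ω ω' h h']
  smul := fun c u ω h => by rw [tv_smul c u ω h]
  conj := fun a u β ω h1 h2 => by rw [← map_mul, ← map_mul, tv_conj a u β ω h1 h2]

/-- the weight space -/
def wS (ψ : AddChar F ℂ) (ρ : Representation ℂ (Matrix.SpecialLinearGroup ι F) W) (p y : ι → F) :
    Submodule ℂ W where
  carrier := {v | ∀ φ : Dual F (ι → F), φ p = 0 → ρ (tv p φ) v = ψ (φ y) • v}
  zero_mem' := fun φ _ => by rw [map_zero, smul_zero]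
  add_mem' := fun {x y} hx hy φ h => by rw [map_add, hx φ h, hy φ h, smul_add]
  smul_mem' := fun c x hx φ h => by rw [map_smul, hx φ h, smul_comm]

theorem mem_wS {ψ : AddChar F ℂ} {ρ : Representation ℂ (Matrix.SpecialLinearGroup ι F) W} {p y : ι → F}
    {v : W} : v ∈ wS ψ ρ p y ↔
      ∀ φ : Dual F (ι → F), φ p = 0 → ρ (tv p φ) v = ψ (φ y) • v := Iff.rfl

variable {ψ : AddChar F ℂ} {ρ : Representation ℂ (Matrix.SpecialLinearGroup ι F) W}

theorem wS_inv (g : Matrix.SpecialLinearGroup ι F) (p y : ι → F) (c : F) (hc : c ≠ 0)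
    (hp : (g : Matrix ι ι F) *ᵥ p = c • p) (hy : (g : Matrix ι ι F) *ᵥ y = c • y) (v : W)
    (hv : v ∈ wS ψ ρ p y) : ρ g v ∈ wS ψ ρ p y := by
  intro φ hφ
  -- the pulled back functional
  set φ' : Dual F (ι → F) := c⁻¹ • (φ ∘ₗ (Matrix.mulVecLin (g : Matrix ι ι F))) with hφ'
  have h1 : φ' p = 0 := by
    rw [hφ', LinearMap.smul_apply, LinearMap.comp_apply, Matrix.mulVecLin_apply, hp, map_smul, hφ]
    simp
  have h2 : φ' y = φ y := by
    rw [hφ', LinearMap.smul_apply, LinearMap.comp_apply, Matrix.mulVecLin_apply, hy, map_smul,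
      smul_smul, inv_mul_cancel₀ hc, one_smul]
  have h3 : g * tv p φ' = tv (c • p) (c⁻¹ • φ) * g := by
    apply conj_tv _ _ _ _ _ h1 hp
    intro x
    rfl
  have h4 : tv (c • p) (c⁻¹ • φ) = tv p φ := by
    rw [tv_smul _ _ _ (by simp [hφ]), smul_smul, mul_inv_cancel₀ hc, one_smul]
  rw [h4] at h3
  rw [← Module.End.mul_apply, ← map_mul, ← h3, map_mul, Module.End.mul_apply, hv φ' h1, map_smul,
    h2]

/-- commutators act trivially on a one-dimensional invariant subspace -/
theorem comm_trivial (L : Submodule ℂ W) (hL : finrank ℂ L = 1)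
    (g h t : Matrix.SpecialLinearGroup ι F) (hg : ∀ v ∈ L, ρ g v ∈ L) (hh : ∀ v ∈ L, ρ h v ∈ L)
    (hgh : g * h = t * (h * g)) (v : W) (hv : v ∈ L) : ρ t v = v := by
  obtain ⟨w, hw0, hw⟩ := finrank_eq_one_iff'.mp hL
  obtain ⟨a, ha⟩ := hw ⟨ρ g w, hg w w.2⟩
  obtain ⟨b, hb⟩ := hw ⟨ρ h w, hh w w.2⟩
  have ha' : ρ g (w : W) = a • (w : W) := (congrArg Subtype.val ha).symm
  have hb' : ρ h (w : W) = b • (w : W) := (congrArg Subtype.val hb).symm
  have hw0' : (w : W) ≠ 0 := fun h => hw0 (Subtype.ext h)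
  have h1 : ρ (g * h) (w : W) = (a * b) • (w : W) := by
    rw [map_mul, Module.End.mul_apply, hb', map_smul, ha', smul_smul, mul_comm]
  have h2 : ρ (h * g) (w : W) = (a * b) • (w : W) := by
    rw [map_mul, Module.End.mul_apply, ha', map_smul, hb', smul_smul]
  have hab : a * b ≠ 0 := by
    intro h0
    rw [h0, zero_smul] at h2
    apply hw0'
    have h3 := congrArg (ρ (h * g)⁻¹) h2
    rw [map_zero, ← Module.End.mul_apply, ← map_mul, inv_mul_cancel, map_one] at h3
    exact h3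
  rw [hgh, map_mul, Module.End.mul_apply, h2, map_smul] at h1
  have h3 : ρ t (w : W) = w := smul_right_injective W hab h1
  obtain ⟨c, hc⟩ := hw ⟨v, hv⟩
  have hc' : v = c • (w : W) := (congrArg Subtype.val hc).symm
  rw [hc', map_smul, h3]

end H44.TSysSL
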