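import Cfsg.Agent.Lib.H44.TSysSL

/-! Transvection systems: the triviality property for `SL_n`. -/

set_option autoImplicit false

open Matrix

namespace H44.TSysSL

open Module H44.TSys H44.LSLinear

universe u z

theorem exists_unit (F : Type u) [Field F] [Fintype F] (k : ℕ) (h : ¬ (Fintype.card F - 1) ∣ k) :
    ∃ c : F, c ≠ 0 ∧ c ^ k ≠ 1 := by
  classical
  obtain ⟨g, hg⟩ := IsCyclic.exists_generator (α := Fˣ)
  refine ⟨g, g.ne_zero, ?_⟩
  intro h1
  apply h
  have h2 : g ^ k = 1 := by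
    apply Units.ext
    push_cast
    exact h1
  have h3 := orderOf_dvd_of_pow_eq_one h2
  rw [orderOf_eq_card_of_forall_mem_zpowers hg, Nat.card_eq_fintype_card, Fintype.card_units] at h3
  exact h3

variable {F : Type u} [Field F] {ι : Type} [Fintype ι] [DecidableEq ι]
variable {W : Type z} [AddCommGroup W] [Module ℂ W]
variable {ψ : AddChar F ℂ} {ρ : Representation ℂ (Matrix.SpecialLinearGroup ι F) W}

theorem caseA (p y x a : ι → F) (ω : Dual F (ι → F)) (hωp : ω p = 0)
    (hωy : ω y = 0) (hωx : ω x = 0) (hωa : ω a = 0)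
    (ha : a ∉ Submodule.span F {p, y, x}) (hL : finrank ℂ (wS ψ ρ p y) = 1) (v : W)
    (hv : v ∈ wS ψ ρ p y) : ρ (tv x ω) v = v := by
  obtain ⟨ω0, h1, h2⟩ := Submodule.exists_le_ker_of_notMem ha
  have hp : ω0 p = 0 := h2 (Submodule.subset_span (by simp))
  have hy : ω0 y = 0 := h2 (Submodule.subset_span (by simp))
  have hx : ω0 x = 0 := h2 (Submodule.subset_span (by simp))
  set ω1 := (ω0 a)⁻¹ • ω0 with hω1
  have hp1 : ω1 p = 0 := by simp [hω1, hp]
  have hy1 : ω1 y = 0 := by simp [hω1, hy]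
  have hx1 : ω1 x = 0 := by simp [hω1, hx]
  have ha1 : ω1 a = 1 := by simp [hω1, h1]
  refine comm_trivial (wS ψ ρ p y) hL (tv x ω1) (tv a ω) (tv x ω) ?_ ?_ ?_ v hv
  · intro w hw
    refine wS_inv _ p y 1 one_ne_zero ?_ ?_ w hw
    · rw [tv_mulVec _ _ hx1, hp1, zero_smul, add_zero, one_smul]
    · rw [tv_mulVec _ _ hx1, hy1, zero_smul, add_zero, one_smul]
  · intro w hw
    refine wS_inv _ p y 1 one_ne_zero ?_ ?_ w hw
    · rw [tv_mulVec _ _ hωa, hωp, zero_smul, add_zero, one_smul]
    · rw [tv_mulVec _ _ hωa, hωy, zero_smul, add_zero, one_smul]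
  · apply ext_mulVec
    intro w
    rw [mul_mulVec, mul_mulVec, mul_mulVec, tv_mulVec _ _ hωa, tv_mulVec _ _ hx1,
      tv_mulVec _ _ hx1, tv_mulVec _ _ hωa, tv_mulVec _ _ hωx]
    simp only [map_add, map_smul, ha1, hωx, hωa, smul_eq_mul, mul_one, mul_zero, add_zero,
      add_smul]
    abel

/-- conjugating by a semisimple element -/
theorem caseB (p y x : ι → F) (ω : Dual F (ι → F)) (g : Matrix.SpecialLinearGroup ι F) (c s r : F)
    (hωp : ω p = 0) (hωy : ω y = 0) (hωx : ω x = 0) (hc : c ≠ 0)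
    (hp : (g : Matrix ι ι F) *ᵥ p = c • p) (hy : (g : Matrix ι ι F) *ᵥ y = c • y)
    (hx : (g : Matrix ι ι F) *ᵥ x = s • x) (hω : ∀ w, ω ((g : Matrix ι ι F) *ᵥ w) = r * ω w)
    (hsr : s - r ≠ 0) (hr : r ≠ 0) (hL : finrank ℂ (wS ψ ρ p y) = 1) (v : W)
    (hv : v ∈ wS ψ ρ p y) : ρ (tv x ω) v = v := by
  set x' := (r / (s - r)) • x with hx'
  have hωx' : ω x' = 0 := by rw [hx', map_smul, hωx, smul_zero]
  refine comm_trivial (wS ψ ρ p y) hL g (tv x' ω) (tv x ω) ?_ ?_ ?_ v hv
  · intro w hw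
    exact wS_inv _ p y c hc hp hy w hw
  · intro w hw
    refine wS_inv _ p y 1 one_ne_zero ?_ ?_ w hw
    · rw [tv_mulVec _ _ hωx', hωp, zero_smul, add_zero, one_smul]
    · rw [tv_mulVec _ _ hωx', hωy, zero_smul, add_zero, one_smul]
  · apply ext_mulVec
    intro w
    rw [mul_mulVec, mul_mulVec, mul_mulVec, tv_mulVec _ _ hωx', tv_mulVec _ _ hωx',
      tv_mulVec _ _ hωx, mulVec_add, mulVec_smul, map_add, map_smul, hωx', smul_zero, add_zero,
      hω, hx', mulVec_smul, hx, add_assoc]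
    congr 1
    rw [smul_smul, smul_smul, smul_smul, ← add_smul]
    congr 1
    field_simp
    ring

variable [Fintype F]

theorem TP_SL (hι : 3 ≤ Fintype.card ι)
    (hex : (Fintype.card ι, Fintype.card F) ≠ (3, 2) ∧ (Fintype.card ι, Fintype.card F) ≠ (3, 4) ∧
      (Fintype.card ι, Fintype.card F) ≠ (4, 2) ∧ (Fintype.card ι, Fintype.card F) ≠ (4, 3))
    (hL : ∀ p y : ι → F, p ≠ 0 → y ∉ Submodule.span F {p} → finrank ℂ (wS ψ ρ p y) = 1) :
    TP (X := ι → F) ψ ρ tv := by
  intro p y x ω hp hy hωp hωy hωx v hv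
  have hL1 := hL p y hp hy
  by_cases hω0 : ω = 0
  · rw [hω0, (sys (by omega) ρ).zero]
    rfl
  have hk := finrank_ker_dual_eq (F := F) ω hω0
  rw [Module.finrank_fintype_fun_eq_card] at hk
  by_cases hA : ∃ a : ι → F, ω a = 0 ∧ a ∉ Submodule.span F {p, y, x}
  · obtain ⟨a, h1, h2⟩ := hA
    exact caseA p y x a ω hωp hωy hωx h1 h2 hL1 v hv
  push Not at hA
  have hle : LinearMap.ker ω ≤ Submodule.span F {p, y, x} := fun a ha => hA a ha
  have h3 : finrank F (Submodule.span F ({p, y, x} : Set (ι → F))) ≤ 3 := by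
    classical
    have h4 := finrank_span_finset_le_card (R := F) ({p, y, x} : Finset (ι → F))
    have h5 : (({p, y, x} : Finset (ι → F)) : Set (ι → F)) = {p, y, x} := by simp
    rw [h5] at h4
    exact h4.trans Finset.card_le_three
  have h4 := Submodule.finrank_mono hle
  obtain ⟨z, hz⟩ := LinearMap.surjective hω0 (1 : F)
  have hq : 2 ≤ Fintype.card F := Fintype.one_lt_card
  rcases (by omega : Fintype.card ι = 3 ∨ Fintype.card ι = 4) with h5 | h5
  · -- n = 3
    obtain ⟨c, hc0, hc3⟩ := exists_unit F 3 (by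
      intro hdvd
      have h6 := (Nat.dvd_prime Nat.prime_three).mp hdvd
      rcases h6 with h6 | h6
      · apply hex.1
        rw [h5]
        congr 1
        omega
      · apply hex.2.1
        rw [h5]
        congr 1
        omega)
    have hdet : (c • dil ((c⁻¹ ^ 3 - 1) • z) (co ω)).det = 1 := by
      rw [det_smul, h5, det_dil, dotProduct_smul, co_dot, hz, smul_eq_mul, mul_one,
        add_sub_cancel, ← mul_pow, mul_inv_cancel₀ hc0, one_pow]
    have hmv : ∀ w, (c • dil ((c⁻¹ ^ 3 - 1) • z) (co ω)) *ᵥ w =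
        c • (w + ω w • (c⁻¹ ^ 3 - 1) • z) := by
      intro w
      rw [smul_mulVec, dil_mulVec, co_dot]
    refine caseB p y x ω ⟨_, hdet⟩ c c (c⁻¹ ^ 2) hωp hωy hωx hc0 ?_ ?_ ?_ ?_ ?_ ?_ hL1 v hv
    · change (c • dil ((c⁻¹ ^ 3 - 1) • z) (co ω)) *ᵥ p = _
      rw [hmv, hωp, zero_smul, add_zero]
    · change (c • dil ((c⁻¹ ^ 3 - 1) • z) (co ω)) *ᵥ y = _
      rw [hmv, hωy, zero_smul, add_zero]
    · change (c • dil ((c⁻¹ ^ 3 - 1) • z) (co ω)) *ᵥ x = _
      rw [hmv, hωx, zero_smul, add_zero]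
    · intro w
      change ω ((c • dil ((c⁻¹ ^ 3 - 1) • z) (co ω)) *ᵥ w) = _
      rw [hmv, map_smul, map_add, map_smul, map_smul, hz]
      simp only [smul_eq_mul]
      field_simp
      ring
    · intro h
      apply hc3
      rw [sub_eq_zero] at h
      calc c ^ 3 = c ^ 2 * c := by ring
        _ = c ^ 2 * c⁻¹ ^ 2 := by rw [← h]
        _ = 1 := by rw [← mul_pow, mul_inv_cancel₀ hc0, one_pow]
    · exact pow_ne_zero _ (inv_ne_zero hc0)
  · -- n = 4
    have hxn : x ∉ Submodule.span F {p, y, z} := by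
      intro hxs
      rw [Submodule.mem_span_insert] at hxs
      obtain ⟨a, w, hw, hx1⟩ := hxs
      obtain ⟨b, c, hbc⟩ := Submodule.mem_span_pair.mp hw
      have h6 : c = 0 := by
        have := congrArg ω hx1
        rw [← hbc, map_add, map_add, map_smul, map_smul, map_smul, hωx, hωp, hωy, hz] at this
        simpa using this.symm
      have hx2 : x ∈ Submodule.span F {p, y} := by
        rw [Submodule.mem_span_pair]
        refine ⟨a, b, ?_⟩
        rw [hx1, ← hbc, h6, zero_smul, add_zero]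
      have h7 : Submodule.span F ({p, y, x} : Set (ι → F)) ≤ Submodule.span F {p, y} := by
        rw [Submodule.span_le]
        intro w hw
        simp only [Set.mem_insert_iff, Set.mem_singleton_iff] at hw
        rcases hw with rfl | rfl | rfl
        · exact Submodule.subset_span (by simp)
        · exact Submodule.subset_span (by simp)
        · exact hx2
      have h8 := Submodule.finrank_mono (hle.trans h7)
      have h9 : finrank F (Submodule.span F ({p, y} : Set (ι → F))) ≤ 2 := by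
        classical
        have h4 := finrank_span_finset_le_card (R := F) ({p, y} : Finset (ι → F))
        have h5 : (({p, y} : Finset (ι → F)) : Set (ι → F)) = {p, y} := by simp
        rw [h5] at h4
        exact h4.trans Finset.card_le_two
      omega
    obtain ⟨α0, h6, h7⟩ := Submodule.exists_le_ker_of_notMem hxn
    have hp0 : α0 p = 0 := h7 (Submodule.subset_span (by simp))
    have hy0 : α0 y = 0 := h7 (Submodule.subset_span (by simp))
    have hz0 : α0 z = 0 := h7 (Submodule.subset_span (by simp))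
    set α := (α0 x)⁻¹ • α0 with hα
    have hp1 : α p = 0 := by simp [hα, hp0]
    have hy1 : α y = 0 := by simp [hα, hy0]
    have hz1 : α z = 0 := by simp [hα, hz0]
    have hx1 : α x = 1 := by simp [hα, h6]
    obtain ⟨c, hc0, hc2⟩ := exists_unit F 2 (by
      intro hdvd
      have h6 := (Nat.dvd_prime Nat.prime_two).mp hdvd
      rcases h6 with h6 | h6
      · apply hex.2.2.1
        rw [h5]
        congr 1
        omega
      · apply hex.2.2.2
        rw [h5]
        congr 1
        omega)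
    have hdet : (dil ((c - 1) • x) (co α) * dil ((c⁻¹ - 1) • z) (co ω)).det = 1 := by
      rw [det_mul, det_dil, det_dil, dotProduct_smul, dotProduct_smul, co_dot, co_dot, hz, hx1]
      simp [hc0]
    have hmv : ∀ w, (dil ((c - 1) • x) (co α) * dil ((c⁻¹ - 1) • z) (co ω)) *ᵥ w =
        w + ω w • (c⁻¹ - 1) • z + α w • (c - 1) • x := by
      intro w
      rw [← mulVec_mulVec, dil_mulVec, dil_mulVec, co_dot, co_dot, map_add, map_smul, map_smul,
        hz1]
      simp
    refine caseB p y x ω ⟨_, hdet⟩ 1 c c⁻¹ hωp hωy hωx one_ne_zero ?_ ?_ ?_ ?_ ?_ ?_ hL1 v hv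
    · change (dil ((c - 1) • x) (co α) * dil ((c⁻¹ - 1) • z) (co ω)) *ᵥ p = _
      rw [hmv, hωp, hp1, zero_smul, add_zero, zero_smul, add_zero, one_smul]
    · change (dil ((c - 1) • x) (co α) * dil ((c⁻¹ - 1) • z) (co ω)) *ᵥ y = _
      rw [hmv, hωy, hy1, zero_smul, add_zero, zero_smul, add_zero, one_smul]
    · change (dil ((c - 1) • x) (co α) * dil ((c⁻¹ - 1) • z) (co ω)) *ᵥ x = _
      rw [hmv, hωx, hx1, zero_smul, add_zero, one_smul, sub_smul, one_smul]
      abel
    · intro w
      change ω ((dil ((c - 1) • x) (co α) * dil ((c⁻¹ - 1) • z) (co ω)) *ᵥ w) = _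
      rw [hmv, map_add, map_add, map_smul, map_smul, map_smul, map_smul, hz, hωx]
      simp only [smul_eq_mul]
      ring
    · intro h
      apply hc2
      rw [sub_eq_zero] at h
      calc c ^ 2 = c * c := by ring
        _ = c * c⁻¹ := by rw [← h]
        _ = 1 := mul_inv_cancel₀ hc0
    · exact inv_ne_zero hc0

end H44.TSysSL
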