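import Cfsg.Agent.Lib.H44.WordPoly

set_option autoImplicit false

open Polynomial Matrix

namespace H44.WordPSL

variable {F : Type*} [Field F]

/-- polynomial matrix attached to the pair of points `(c,1)`, `(d,1)` -/
noncomputable def polyA (c d : F) (b : Bool) : Matrix (Fin 2) (Fin 2) F[X] :=
  if b then
    !![C ((c - d)⁻¹) * (C c * X ^ 2 - C d), C ((c - d)⁻¹) * (C (c * d) - C (c * d) * X ^ 2);
       C ((c - d)⁻¹) * (X ^ 2 - 1), C ((c - d)⁻¹) * (C c - C d * X ^ 2)]
  else
    !![C ((c - d)⁻¹) * (C c - C d * X ^ 2), C ((c - d)⁻¹) * (C (c * d) * X ^ 2 - C (c * d));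
       C ((c - d)⁻¹) * (1 - X ^ 2), C ((c - d)⁻¹) * (C c * X ^ 2 - C d)]

/-- the element of `SL₂` with eigenvectors `(c,1)` (eigenvalue `s`) and `(d,1)` (eigenvalue `s⁻¹`) -/
noncomputable def hSL (c d s : F) (hcd : c ≠ d) (hs : s ≠ 0) : Matrix.SpecialLinearGroup (Fin 2) F :=
  ⟨!![(c - d)⁻¹ * (c * s - d * s⁻¹), (c - d)⁻¹ * (c * d * s⁻¹ - c * d * s);
      (c - d)⁻¹ * (s - s⁻¹), (c - d)⁻¹ * (c * s⁻¹ - d * s)], by
    have h1 : c - d ≠ 0 := sub_ne_zero.mpr hcd
    rw [Matrix.det_fin_two_of]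
    field_simp
    ring⟩

theorem polyA_eval_true (c d s : F) (hcd : c ≠ d) (hs : s ≠ 0) :
    (polyA c d true).map (Polynomial.eval s) =
      s • (hSL c d s hcd hs : Matrix (Fin 2) (Fin 2) F) := by
  have h1 : c - d ≠ 0 := sub_ne_zero.mpr hcd
  ext i j
  fin_cases i <;> fin_cases j <;>
    simp [polyA, hSL] <;> field_simp

theorem polyA_eval_false (c d s : F) (hcd : c ≠ d) (hs : s ≠ 0) :
    (polyA c d false).map (Polynomial.eval s) =
      s • ((hSL c d s hcd hs)⁻¹ : Matrix.SpecialLinearGroup (Fin 2) F).1 := by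
  have h1 : c - d ≠ 0 := sub_ne_zero.mpr hcd
  ext i j
  rw [Matrix.SpecialLinearGroup.coe_inv, Matrix.adjugate_fin_two]
  fin_cases i <;> fin_cases j <;>
    simp [polyA, hSL] <;> field_simp <;> ring

/-- the vector `u` -/
noncomputable def uVec (c d : F) (b : Bool) : Fin 2 → F := if b then ![c, 1] else ![d, 1]

/-- the covector `v` -/
noncomputable def vVec (c d : F) (b : Bool) : Fin 2 → F :=
  if b then ![(c - d)⁻¹, (c - d)⁻¹ * -d] else ![(c - d)⁻¹ * -1, (c - d)⁻¹ * c]

theorem polyA_deg (c d : F) (b : Bool) (i j : Fin 2) : (polyA c d b i j).natDegree ≤ 2 := by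
  cases b <;> fin_cases i <;> fin_cases j <;> simp only [polyA] <;> simp <;> compute_degree

theorem polyA_lead (c d : F) (b : Bool) (i j : Fin 2) :
    (polyA c d b i j).coeff 2 = uVec c d b i * vVec c d b j := by
  cases b <;> fin_cases i <;> fin_cases j <;>
    simp [polyA, uVec, vVec, Polynomial.coeff_one, Polynomial.coeff_C, -map_mul] <;> ring

theorem uVec_ne (c d : F) (b : Bool) : uVec c d b ≠ 0 := by
  intro h
  have := congrFun h 1
  cases b <;> simp [uVec] at this

theorem vVec_ne (c d : F) (hcd : c ≠ d) (b : Bool) : vVec c d b ≠ 0 := by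
  have h1 : (c - d)⁻¹ ≠ 0 := inv_ne_zero (sub_ne_zero.mpr hcd)
  intro h
  have := congrFun h 0
  cases b <;> simp [vVec] at this <;> exact sub_ne_zero.mpr hcd this

theorem dot_eq (c d c' d' : F) (b b' : Bool) :
    vVec c d b ⬝ᵥ uVec c' d' b' =
      (c - d)⁻¹ * (if b then 1 else -1) * ((if b' then c' else d') - (if b then d else c)) := by
  cases b <;> cases b' <;> simp [vVec, uVec, Matrix.dotProduct_cons] <;> ring

theorem exists_bound (L : List (ℕ × Bool)) : ∃ k, ∀ x ∈ L, x.1 < k := by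
  induction L with
  | nil => exact ⟨0, by simp⟩
  | cons a L ih =>
    obtain ⟨k, hk⟩ := ih
    refine ⟨max k (a.1 + 1), fun x hx => ?_⟩
    rcases List.mem_cons.mp hx with rfl | hx
    · exact lt_of_lt_of_le (Nat.lt_succ_self _) (le_max_right _ _)
    · exact lt_of_lt_of_le (hk x hx) (le_max_left _ _)

/-- The basic fact: for a nontrivial word and a large field, some substitution from `SL₂`
is not a scalar matrix. -/
theorem exists_SL_not_scalar (w : FreeGroup ℕ) (hw : w ≠ 1) :
    ∃ N : ℕ, ∀ (F : Type*) [Field F] [Fintype F], N ≤ Fintype.card F →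
      ∃ f : ℕ → Matrix.SpecialLinearGroup (Fin 2) F,
        ∀ c : F, (FreeGroup.lift f w : Matrix.SpecialLinearGroup (Fin 2) F).1 ≠ c • 1 := by
  obtain ⟨k, hk⟩ := exists_bound w.toWord
  refine ⟨2 * k + 2 * w.toWord.length + 2, fun F _ _ hF => ?_⟩
  classical
  -- choose distinct elements
  obtain ⟨e⟩ : Nonempty (Fin (2 * k) ↪ F) := by
    apply Function.Embedding.nonempty_of_card_le
    rw [Fintype.card_fin]; omega
  let c : ℕ → F := fun i => if h : i < k then e ⟨2 * i, by omega⟩ else 0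
  let d : ℕ → F := fun i => if h : i < k then e ⟨2 * i + 1, by omega⟩ else 1
  have hc : ∀ i (h : i < k), c i = e ⟨2 * i, by omega⟩ := fun i h => by simp [c, h]
  have hd : ∀ i (h : i < k), d i = e ⟨2 * i + 1, by omega⟩ := fun i h => by simp [d, h]
  have hcd : ∀ i, c i ≠ d i := by
    intro i
    by_cases h : i < k
    · rw [hc i h, hd i h]
      intro h2
      have := e.injective h2
      simp [Fin.ext_iff] at this
    · simp [c, d, h]
  let A : ℕ × Bool → Matrix (Fin 2) (Fin 2) F[X] := fun a => polyA (c a.1) (d a.1) a.2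
  have key := H44.WordPoly.exists_eval_not_scalar A 2 (fun a => uVec (c a.1) (d a.1) a.2)
    (fun a => vVec (c a.1) (d a.1) a.2) (fun a => polyA_deg _ _ _) (fun a => polyA_lead _ _ _)
    (fun a b => a.1 = b.1 → a.2 = b.2) (fun a => a.1 < k) (by
      rintro ⟨i, a⟩ ⟨j, b⟩ hi hj hR
      simp only at hi hj hR ⊢
      rw [dot_eq]
      have h1 : (c i - d i)⁻¹ ≠ 0 := inv_ne_zero (sub_ne_zero.mpr (hcd i))
      refine mul_ne_zero (mul_ne_zero h1 (by cases a <;> simp)) (sub_ne_zero.mpr ?_)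
      rw [hc i hi, hc j hj, hd i hi, hd j hj]
      by_cases hij : i = j
      · subst hij
        obtain rfl := hR rfl
        cases a <;> simp
      · cases a <;> cases b <;> simp [Fin.ext_iff] <;> omega)
    (fun a _ => uVec_ne _ _ _) (fun a _ => vVec_ne _ _ (hcd _) _) w.toWord
    (by rwa [Ne, FreeGroup.toWord_eq_nil_iff]) FreeGroup.isReduced_toWord hk
    (Finset.univ.erase (0 : F)) (by
      rw [Finset.card_erase_of_mem (Finset.mem_univ _), Finset.card_univ]; omega)
  obtain ⟨s, hs, hs2⟩ := key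
  have hs0 : s ≠ 0 := Finset.ne_of_mem_erase hs
  refine ⟨fun i => hSL (c i) (d i) s (hcd i) hs0, fun r hr => ?_⟩
  apply hs2 (s ^ w.toWord.length * r)
  have hl : ∀ L : List (ℕ × Bool), (L.map (fun a => (A a).map (Polynomial.eval s))).prod =
      s ^ L.length • ((L.map fun x => cond x.2 (hSL (c x.1) (d x.1) s (hcd x.1) hs0)
        (hSL (c x.1) (d x.1) s (hcd x.1) hs0)⁻¹).prod : Matrix.SpecialLinearGroup (Fin 2) F).1 := by
    intro L
    induction L with
    | nil => simp
    | cons a L ih =>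
      rw [List.map_cons, List.prod_cons, ih, List.map_cons, List.prod_cons, List.length_cons,
        Matrix.SpecialLinearGroup.coe_mul]
      obtain ⟨i, b⟩ := a
      have h3 : (A (i, b)).map (Polynomial.eval s) = s • (cond b (hSL (c i) (d i) s (hcd i) hs0)
          (hSL (c i) (d i) s (hcd i) hs0)⁻¹ : Matrix.SpecialLinearGroup (Fin 2) F).1 := by
        cases b
        · exact polyA_eval_false (c i) (d i) s (hcd i) hs0
        · exact polyA_eval_true (c i) (d i) s (hcd i) hs0
      rw [h3, Matrix.smul_mul, Matrix.mul_smul, smul_smul, pow_succ']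
  rw [hl]
  have hw2 : FreeGroup.lift (fun i => hSL (c i) (d i) s (hcd i) hs0) w =
      (w.toWord.map fun x => cond x.2 (hSL (c x.1) (d x.1) s (hcd x.1) hs0)
        (hSL (c x.1) (d x.1) s (hcd x.1) hs0)⁻¹).prod := by
    conv_lhs => rw [← FreeGroup.mk_toWord (x := w)]
    rw [FreeGroup.lift_mk]
  rw [← hw2, hr, smul_smul]

/-- A nontrivial word is not a law of `PSL₂` over large finite fields. -/
theorem exists_PSL (w : FreeGroup ℕ) (hw : w ≠ 1) :
    ∃ N : ℕ, ∀ (F : Type*) [Field F] [Fintype F], N ≤ Fintype.card F →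
      ∃ f : ℕ → Matrix.ProjectiveSpecialLinearGroup (Fin 2) F, FreeGroup.lift f w ≠ 1 := by
  obtain ⟨N, hN⟩ := exists_SL_not_scalar w hw
  refine ⟨N, fun F _ _ hF => ?_⟩
  obtain ⟨f, hf⟩ := hN F hF
  refine ⟨fun i => QuotientGroup.mk (f i), fun h1 => ?_⟩
  have h2 : FreeGroup.lift (fun i => (QuotientGroup.mk (f i) :
      Matrix.ProjectiveSpecialLinearGroup (Fin 2) F)) w =
      QuotientGroup.mk' (Subgroup.center (Matrix.SpecialLinearGroup (Fin 2) F))
        (FreeGroup.lift f w) := by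
    have : (FreeGroup.lift (fun i => (QuotientGroup.mk (f i) :
      Matrix.ProjectiveSpecialLinearGroup (Fin 2) F))) =
      (QuotientGroup.mk' (Subgroup.center (Matrix.SpecialLinearGroup (Fin 2) F))).comp
        (FreeGroup.lift f) := by
      ext i; simp
    rw [this]; rfl
  rw [h2, QuotientGroup.mk'_apply, QuotientGroup.eq_one_iff,
    Matrix.SpecialLinearGroup.mem_center_iff] at h1
  obtain ⟨r, _, hr⟩ := h1
  apply hf r
  rw [← hr]
  ext i j
  simp [Matrix.scalar_apply, Matrix.diagonal_apply, Matrix.one_apply]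

end H44.WordPSL
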