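import Mathlib

set_option autoImplicit false

open Polynomial Matrix

namespace H44.WordPoly

variable {F : Type*} [Field F] {n : Type*} [Fintype n] [DecidableEq n]

/-- Degree and leading coefficient of a product of polynomial matrices with rank one leading
coefficients `u a ⊗ v a`. -/
theorem prod_deg_lead {α : Type*} (A : α → Matrix n n F[X]) (D : ℕ) (u v : α → n → F)
    (hdeg : ∀ a i j, (A a i j).natDegree ≤ D) (hlead : ∀ a i j, (A a i j).coeff D = u a i * v a j)
    (R : α → α → Prop) (S : α → Prop) (hne : ∀ a b, S a → S b → R a b → v a ⬝ᵥ u b ≠ 0) :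
    ∀ (L : List α) (a : α), (a :: L).IsChain R → (∀ x ∈ a :: L, S x) →
      (∀ i j, (((a :: L).map A).prod i j).natDegree ≤ D * (L.length + 1)) ∧
      ∃ c : F, c ≠ 0 ∧ ∃ b, S b ∧
        ∀ i j, (((a :: L).map A).prod i j).coeff (D * (L.length + 1)) = c * (u a i * v b j) := by
  intro L
  induction L with
  | nil =>
    intro a _ hS
    refine ⟨fun i j => by simpa using hdeg a i j, 1, one_ne_zero, a, hS a (by simp), fun i j => ?_⟩
    simpa using hlead a i j
  | cons b L ih =>
    intro a hch hS
    rw [List.isChain_cons_cons] at hch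
    obtain ⟨hd, c, hc, b', hb', hl⟩ := ih b hch.2 (fun x hx => hS x (List.mem_cons_of_mem _ hx))
    have hlen : D * ((b :: L).length + 1) = D + D * (L.length + 1) := by
      simp only [List.length_cons]; ring
    have hprod : ((a :: b :: L).map A).prod = A a * ((b :: L).map A).prod := by simp
    refine ⟨fun i j => ?_, c * (v a ⬝ᵥ u b), mul_ne_zero hc
      (hne a b (hS a (by simp)) (hS b (by simp)) hch.1), b', hb', fun i j => ?_⟩
    · rw [hprod, hlen, Matrix.mul_apply]
      refine Polynomial.natDegree_sum_le_of_forall_le _ _ (fun k _ => ?_)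
      exact (Polynomial.natDegree_mul_le).trans (Nat.add_le_add (hdeg a i k) (hd k j))
    · rw [hprod, hlen, Matrix.mul_apply, Polynomial.finsetSum_coeff]
      have : ∀ k ∈ Finset.univ, (A a i k * ((b :: L).map A).prod k j).coeff (D + D * (L.length + 1))
          = (u a i * v b' j * c) * (v a k * u b k) := by
        intro k _
        rw [Polynomial.coeff_mul_add_eq_of_natDegree_le (hdeg a i k) (hd k j), hlead, hl]
        ring
      rw [Finset.sum_congr rfl this, ← Finset.mul_sum]
      simp only [dotProduct]
      ring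

omit [Fintype n] [DecidableEq n] in
theorem exists_entry [Nontrivial n] (u z : n → F) (hu : u ≠ 0) (hz : z ≠ 0) :
    (∃ i j, i ≠ j ∧ u i * z j ≠ 0) ∨ (∃ i j, i ≠ j ∧ u i * z i - u j * z j ≠ 0) := by
  obtain ⟨i, hi⟩ := Function.ne_iff.mp hu
  obtain ⟨j, hj⟩ := Function.ne_iff.mp hz
  simp only [Pi.zero_apply] at hi hj
  by_cases hij : i = j
  · subst hij
    obtain ⟨k, hk⟩ := exists_ne i
    by_cases hzk : z k = 0
    · exact Or.inr ⟨i, k, hk.symm, by simp [hzk, hi, hj]⟩
    · exact Or.inl ⟨i, k, hk.symm, mul_ne_zero hi hzk⟩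
  · exact Or.inl ⟨i, j, hij, mul_ne_zero hi hj⟩

theorem exists_eval_not_scalar [Nontrivial n] {α : Type*} (A : α → Matrix n n F[X]) (D : ℕ)
    (u v : α → n → F)
    (hdeg : ∀ a i j, (A a i j).natDegree ≤ D) (hlead : ∀ a i j, (A a i j).coeff D = u a i * v a j)
    (R : α → α → Prop) (S : α → Prop) (hne : ∀ a b, S a → S b → R a b → v a ⬝ᵥ u b ≠ 0)
    (hu : ∀ a, S a → u a ≠ 0) (hv : ∀ a, S a → v a ≠ 0)
    (L : List α) (hL : L ≠ []) (hch : L.IsChain R) (hS : ∀ x ∈ L, S x)
    (T : Finset F) (hT : D * L.length < T.card) :
    ∃ s ∈ T, ∀ c : F, (L.map (fun a => (A a).map (Polynomial.eval s))).prod ≠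
      c • (1 : Matrix n n F) := by
  classical
  by_contra hcon
  push Not at hcon
  obtain ⟨a, L, rfl⟩ := List.exists_cons_of_ne_nil hL
  obtain ⟨hd, c, hc, b, hb, hl⟩ := prod_deg_lead A D u v hdeg hlead R S hne L a hch hS
  have hmap : ∀ s : F, ((a :: L).map (fun a => (A a).map (Polynomial.eval s))).prod =
      (((a :: L).map A).prod).map (Polynomial.eval s) := by
    intro s
    have := map_list_prod (Polynomial.evalRingHom s).mapMatrix ((a :: L).map A)
    simp only [List.map_map] at this
    have h2 : (((a :: L).map A).prod).map (Polynomial.eval s) =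
      (Polynomial.evalRingHom s).mapMatrix ((a :: L).map A).prod := rfl
    rw [h2, this]
    rfl
  have hu0 : u a ≠ 0 := hu a (hS a (by simp))
  have hz0 : v b ≠ 0 := hv b hb
  rcases exists_entry (u a) (v b) hu0 hz0 with ⟨i, j, hij, hne'⟩ | ⟨i, j, hij, hne'⟩
  · set P := (((a :: L).map A).prod i j) with hP
    have hP0 : P ≠ 0 := by
      intro h0
      have := hl i j
      rw [← hP, h0, Polynomial.coeff_zero] at this
      exact (mul_ne_zero hc hne') this.symm
    have hroots : ∀ s ∈ T, P.eval s = 0 := by
      intro s hs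
      obtain ⟨r, hr⟩ := hcon s hs
      rw [hmap s] at hr
      have := congrFun (congrFun hr i) j
      rw [Matrix.map_apply, Matrix.smul_apply, Matrix.one_apply_ne hij, smul_zero] at this
      exact this
    have hle : T.card ≤ P.natDegree := by
      have : T ⊆ P.roots.toFinset := by
        intro s hs
        rw [Multiset.mem_toFinset, Polynomial.mem_roots hP0]
        exact hroots s hs
      exact (Finset.card_le_card this).trans ((Multiset.toFinset_card_le _).trans
        (Polynomial.card_roots' P))
    have := hd i j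
    simp only [List.length_cons] at hT
    exact absurd (hle.trans this) (not_le.mpr hT)
  · set P := (((a :: L).map A).prod i i) - (((a :: L).map A).prod j j) with hP
    have hP0 : P ≠ 0 := by
      intro h0
      have h1 := hl i i
      have h2 := hl j j
      have h3 : P.coeff (D * (L.length + 1)) = 0 := by rw [h0, Polynomial.coeff_zero]
      rw [hP, Polynomial.coeff_sub, h1, h2, ← mul_sub] at h3
      exact (mul_ne_zero hc hne') h3
    have hroots : ∀ s ∈ T, P.eval s = 0 := by
      intro s hs
      obtain ⟨r, hr⟩ := hcon s hs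
      rw [hmap s] at hr
      have h1 := congrFun (congrFun hr i) i
      have h2 := congrFun (congrFun hr j) j
      simp only [Matrix.map_apply, Matrix.smul_apply, Matrix.one_apply_eq] at h1 h2
      rw [hP, Polynomial.eval_sub, h1, h2, sub_self]
    have hle : T.card ≤ P.natDegree := by
      have : T ⊆ P.roots.toFinset := by
        intro s hs
        rw [Multiset.mem_toFinset, Polynomial.mem_roots hP0]
        exact hroots s hs
      exact (Finset.card_le_card this).trans ((Multiset.toFinset_card_le _).trans
        (Polynomial.card_roots' P))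
    have h4 : P.natDegree ≤ D * (L.length + 1) :=
      (Polynomial.natDegree_sub_le _ _).trans (max_le (hd i i) (hd j j))
    simp only [List.length_cons] at hT
    exact absurd (hle.trans h4) (not_le.mpr hT)

end H44.WordPoly
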