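import Cfsg.Agent.Lib.H44.SzElts
import Cfsg.Agent.Lib.H44.WordPSL

set_option autoImplicit false

open Matrix Cfsg.Lie Polynomial H44.SzElts

namespace H44.WordSz

variable {F : Type*} [Field F] {e : ℕ}

/-- exponents -/
def expo (e : ℕ) (b : Bool) (k : Fin 4) : ℕ :=
  if b then ![2 * e + 2, e + 2, e, 0] k else ![0, e, e + 2, 2 * e + 2] k

/-- index of the top exponent -/
def top (b : Bool) : Fin 4 := if b then 0 else 3

theorem expo_le (e : ℕ) (b : Bool) (k : Fin 4) : expo e b k ≤ 2 * e + 2 := by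
  cases b <;> fin_cases k <;> simp [expo] <;> omega

theorem expo_eq_iff (e : ℕ) (he : 0 < e) (b : Bool) (k : Fin 4) :
    2 * e + 2 = expo e b k ↔ k = top b := by
  cases b <;> fin_cases k <;> simp [expo, top] <;> omega

/-- polynomial matrix attached to an element `g` of the Suzuki group -/
noncomputable def polyA (e : ℕ) (G G' : Matrix (Fin 4) (Fin 4) F) (b : Bool) :
    Matrix (Fin 4) (Fin 4) F[X] :=
  Matrix.of fun i j => ∑ k, C (G i k * G' k j) * X ^ (expo e b k)

theorem polyA_deg (e : ℕ) (G G' : Matrix (Fin 4) (Fin 4) F) (b : Bool) (i j : Fin 4) :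
    (polyA e G G' b i j).natDegree ≤ 2 * e + 2 := by
  rw [polyA, Matrix.of_apply]
  refine Polynomial.natDegree_sum_le_of_forall_le _ _ (fun k _ => ?_)
  exact (Polynomial.natDegree_C_mul_X_pow_le _ _).trans (expo_le e b k)

theorem polyA_lead (e : ℕ) (he : 0 < e) (G G' : Matrix (Fin 4) (Fin 4) F) (b : Bool) (i j : Fin 4) :
    (polyA e G G' b i j).coeff (2 * e + 2) = G i (top b) * G' (top b) j := by
  simp only [polyA, Matrix.of_apply, Polynomial.finsetSum_coeff, Polynomial.coeff_C_mul,
    Polynomial.coeff_X_pow]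
  rw [Finset.sum_eq_single (top b)]
  · rw [if_pos ((expo_eq_iff e he b _).mpr rfl), mul_one]
  · intro k _ hk
    rw [if_neg (fun h => hk ((expo_eq_iff e he b k).mp h)), mul_zero]
  · intro h; exact absurd (Finset.mem_univ _) h

/-- diagonal matrix with the powers -/
theorem polyA_eval (e : ℕ) (G G' : Matrix (Fin 4) (Fin 4) F) (b : Bool) (s : F) :
    (polyA e G G' b).map (Polynomial.eval s) =
      G * Matrix.diagonal (fun k => s ^ (expo e b k)) * G' := by
  ext i j
  rw [Matrix.mul_apply]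
  simp only [polyA, Matrix.map_apply, Matrix.of_apply, Polynomial.eval_finsetSum,
    Polynomial.eval_mul, Polynomial.eval_C, Polynomial.eval_pow, Polynomial.eval_X,
    Matrix.mul_diagonal]
  refine Finset.sum_congr rfl (fun k _ => by ring)

theorem hMat_diag (s : F) (hs : s ≠ 0) :
    Matrix.diagonal (fun k => s ^ (expo e true k)) = s ^ (e + 1) • hMat e s := by
  have h1 : s ^ (e + 1) ≠ 0 := pow_ne_zero _ hs
  ext i j
  fin_cases i <;> fin_cases j <;> simp [expo, hMat] <;> field_simp <;> ring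

theorem hMat_diag' (s : F) (hs : s ≠ 0) :
    Matrix.diagonal (fun k => s ^ (expo e false k)) = s ^ (e + 1) • hMat e s⁻¹ := by
  have h1 : s ^ (e + 1) ≠ 0 := pow_ne_zero _ hs
  ext i j
  fin_cases i <;> fin_cases j <;> simp [expo, hMat] <;> field_simp <;> ring

theorem hElt_inv (hF : SzField F e) (s : F) (hs : s ≠ 0) :
    (hElt hF s hs)⁻¹ = hElt hF s⁻¹ (inv_ne_zero hs) := by
  rw [inv_eq_iff_mul_eq_one]
  apply Subtype.ext
  apply Units.ext
  change hMat e s * hMat e s⁻¹ = 1
  have h1 : s ^ (e + 1) ≠ 0 := pow_ne_zero _ hs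
  ext i j
  fin_cases i <;> fin_cases j <;> simp [hMat, Matrix.mul_apply, Fin.sum_univ_four, hs, h1]

theorem exists_Sz (w : FreeGroup ℕ) (hw : w ≠ 1) :
    ∃ N : ℕ, ∀ (F : Type*) [Field F] [Fintype F] (m : ℕ), 1 ≤ m → N ≤ m →
      Fintype.card F = 2 ^ (2 * m + 1) →
      ∃ f : ℕ → ↥(Cfsg.Lie.Sz F (2 ^ (m + 1))), FreeGroup.lift f w ≠ 1 := by
  obtain ⟨k, hk⟩ := H44.WordPSL.exists_bound w.toWord
  refine ⟨4 * w.toWord.length + 2 * k + 4, fun F _ _ m hm1 hm hF => ?_⟩
  classical
  have hSF := szField_of_card m hF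
  set e := 2 ^ (m + 1) with he
  have he2 : 2 ≤ e := by rw [he, pow_succ]; have := Nat.one_le_two_pow (n := m); omega
  have hm2 : m < 2 ^ m := Nat.lt_two_pow_self
  have hcard : Fintype.card F = 2 * 2 ^ m * 2 ^ m := by rw [hF]; ring
  have hcard2 : (2 * e + 2) * w.toWord.length < Fintype.card F - 1 := by
    rw [hcard, he, pow_succ]
    set M := 2 ^ m
    have : 4 * w.toWord.length + 5 ≤ M := by omega
    have h2 : 2 * M * (4 * w.toWord.length + 5) ≤ 2 * M * M := Nat.mul_le_mul_left _ this
    have h3 : (2 * (M * 2) + 2) * w.toWord.length ≤ 8 * M * w.toWord.length := by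
      apply Nat.mul_le_mul_right; omega
    have h4 : 2 * M * (4 * w.toWord.length + 5) = 8 * M * w.toWord.length + 10 * M := by ring
    omega
  obtain ⟨emb⟩ : Nonempty (Fin (2 * k) ↪ F) := by
    apply Function.Embedding.nonempty_of_card_le
    rw [Fintype.card_fin, hcard]
    have : 2 * k ≤ 2 ^ m := by omega
    nlinarith [Nat.one_le_two_pow (n := m)]
  let c : ℕ → F := fun i => if h : i < k then emb ⟨2 * i, by omega⟩ else 0
  let d : ℕ → F := fun i => if h : i < k then emb ⟨2 * i + 1, by omega⟩ else 1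
  have hc : ∀ i (h : i < k), c i = emb ⟨2 * i, by omega⟩ := fun i h => by simp [c, h]
  have hd : ∀ i (h : i < k), d i = emb ⟨2 * i + 1, by omega⟩ := fun i h => by simp [d, h]
  have hcd : ∀ i, c i ≠ d i := by
    intro i
    by_cases h : i < k
    · rw [hc i h, hd i h]
      intro h2
      have := emb.injective h2
      simp [Fin.ext_iff] at this
    · simp [c, d, h]
  have h2 := hSF.two
  -- t i = c i + d i
  have ht : ∀ i, c i + d i ≠ 0 := by
    intro i h
    apply hcd i
    linear_combination h - d i * h2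
  let g : ℕ → Sz F e := fun i => gElt hSF (c i) (c i + d i)
  let G : ℕ → Matrix (Fin 4) (Fin 4) F := fun i => ((g i : GL (Fin 4) F) : Matrix (Fin 4) (Fin 4) F)
  let G' : ℕ → Matrix (Fin 4) (Fin 4) F :=
    fun i => (((g i)⁻¹ : Sz F e) : GL (Fin 4) F).1
  -- the points
  let pt : ℕ → Bool → F := fun i b => if b then c i else d i
  let P : F → Fin 4 → F := fun z => ![1, 0, z, z ^ e]
  have hPP : ∀ z z' : F, altForm4 (P z) (P z') = (z + z') ^ e := by
    intro z z'
    simp [P, altForm4, hSF.add]; ring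
  have hcol : ∀ i b, ∃ r : F, r ≠ 0 ∧ (fun l => G i l (top b)) = r • P (pt i b) := by
    intro i b
    cases b
    · refine ⟨((c i + d i)⁻¹) ^ e, pow_ne_zero _ (inv_ne_zero (ht i)), ?_⟩
      have h3 := gElt_col_three hSF he2 (c i) (c i + d i) (ht i)
      have h4 : c i + (c i + d i) = d i := by linear_combination (c i) * h2
      rw [h4] at h3
      exact h3
    · refine ⟨1, one_ne_zero, ?_⟩
      rw [one_smul]
      exact gElt_col_zero hSF (c i) (c i + d i)
  have hrow : ∀ i b (x : Fin 4 → F), ∃ r : F, r ≠ 0 ∧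
      (fun l => G' i (top b) l) ⬝ᵥ x = r * altForm4 (P (pt i (!b))) x := by
    intro i b x
    obtain ⟨r, hr, hr2⟩ := hcol i (!b)
    refine ⟨r, hr, ?_⟩
    have h5 : r * altForm4 (P (pt i (!b))) x = altForm4 (r • P (pt i (!b))) x := by
      simp [altForm4]; ring
    rw [h5, ← hr2]
    cases b
    · exact inv_row_three (g i) x
    · exact inv_row_zero (g i) x
  have hpt : ∀ i j a b, i < k → j < k → (i = j → a = b) → pt i (!a) + pt j b ≠ 0 := by
    intro i j a b hi hj hR h0
    have h6 : pt i (!a) = pt j b := by linear_combination h0 - pt j b * h2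
    revert h6
    simp only [pt]
    rw [hc i hi, hc j hj, hd i hi, hd j hj]
    by_cases hij : i = j
    · subst hij
      obtain rfl := hR rfl
      cases a <;> simp
    · cases a <;> cases b <;> simp [Fin.ext_iff] <;> omega
  have hdot : ∀ i j a b, i < k → j < k → (i = j → a = b) →
      (fun l => G' i (top a) l) ⬝ᵥ (fun l => G j l (top b)) ≠ 0 := by
    intro i j a b hi hj hR
    obtain ⟨r, hr, hr2⟩ := hcol j b
    obtain ⟨r', hr', hr2'⟩ := hrow i a (fun l => G j l (top b))
    rw [hr2', hr2]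
    have h5 : altForm4 (P (pt i (!a))) (r • P (pt j b)) = r * altForm4 (P (pt i (!a))) (P (pt j b)) := by
      simp [altForm4]; ring
    rw [h5, hPP]
    exact mul_ne_zero hr' (mul_ne_zero hr (pow_ne_zero _ (hpt i j a b hi hj hR)))
  let A : ℕ × Bool → Matrix (Fin 4) (Fin 4) F[X] := fun a => polyA e (G a.1) (G' a.1) a.2
  have key := H44.WordPoly.exists_eval_not_scalar A (2 * e + 2) (fun a => fun l => G a.1 l (top a.2))
    (fun a => fun l => G' a.1 (top a.2) l) (fun a => polyA_deg _ _ _ _)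
    (fun a => polyA_lead _ (by omega) _ _ _)
    (fun a b => a.1 = b.1 → a.2 = b.2) (fun a => a.1 < k)
    (fun a b ha hb hR => hdot a.1 b.1 a.2 b.2 ha hb hR)
    (fun a ha h0 => hdot a.1 a.1 a.2 a.2 ha ha (fun _ => rfl) (by
      have h0' : (fun l => G a.1 l (top a.2)) = 0 := h0
      rw [h0']; simp))
    (fun a ha h0 => hdot a.1 a.1 a.2 a.2 ha ha (fun _ => rfl) (by
      have h0' : (fun l => G' a.1 (top a.2) l) = 0 := h0
      rw [h0']; simp)) w.toWord
    (by rwa [Ne, FreeGroup.toWord_eq_nil_iff]) FreeGroup.isReduced_toWord hk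
    (Finset.univ.erase (0 : F)) (by
      rw [Finset.card_erase_of_mem (Finset.mem_univ _), Finset.card_univ]; exact hcard2)
  obtain ⟨s, hs, hs2⟩ := key
  have hs0 : s ≠ 0 := Finset.ne_of_mem_erase hs
  let f : ℕ → Sz F e := fun i => g i * hElt hSF s hs0 * (g i)⁻¹
  refine ⟨f, fun hr => ?_⟩
  apply hs2 ((s ^ (e + 1)) ^ w.toWord.length)
  have hl : ∀ L : List (ℕ × Bool), (L.map (fun a => (A a).map (Polynomial.eval s))).prod =
      (s ^ (e + 1)) ^ L.length • (((L.map fun x => cond x.2 (f x.1) (f x.1)⁻¹).prod : Sz F e) :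
        GL (Fin 4) F).1 := by
    intro L
    induction L with
    | nil => simp
    | cons a L ih =>
      rw [List.map_cons, List.prod_cons, ih, List.map_cons, List.prod_cons, List.length_cons,
        Subgroup.coe_mul, Units.val_mul]
      obtain ⟨i, b⟩ := a
      have h3 : (A (i, b)).map (Polynomial.eval s) =
          (s ^ (e + 1)) • ((cond b (f i) (f i)⁻¹ : Sz F e) : GL (Fin 4) F).1 := by
        change (polyA e (G i) (G' i) b).map (Polynomial.eval s) = _
        rw [polyA_eval]
        cases b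
        · rw [hMat_diag' s hs0, Matrix.mul_smul, Matrix.smul_mul]
          congr 1
          have : (f i)⁻¹ = g i * hElt hSF s⁻¹ (inv_ne_zero hs0) * (g i)⁻¹ := by
            simp only [f]
            rw [_root_.mul_inv_rev, _root_.mul_inv_rev, inv_inv, hElt_inv, mul_assoc]
          simp only [cond_false]
          rw [this]
          rfl
        · rw [hMat_diag s hs0, Matrix.mul_smul, Matrix.smul_mul]
          rfl
      rw [h3, Matrix.smul_mul, Matrix.mul_smul, smul_smul, pow_succ' (s ^ (e + 1)) L.length]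
  rw [hl]
  have hw2 : FreeGroup.lift f w =
      (w.toWord.map fun x => cond x.2 (f x.1) (f x.1)⁻¹).prod := by
    conv_lhs => rw [← FreeGroup.mk_toWord (x := w)]
    rw [FreeGroup.lift_mk]
  rw [← hw2, hr]
  rfl

end H44.WordSz
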